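import Mathlib
import Cfsg.Agent.H8.AutQuot

set_option autoImplicit false
set_option linter.all false

/-! Further generic facts on the data of `AutBN`. -/

namespace Cfsg.Agent.H8.AutBN

open Pointwise

variable {G : Type*} [Group G] {p : ℕ} [Fact p.Prime] {I : Type*} [Finite I] [Finite G] (D : Data p G I)

namespace Data

include D in
omit [Finite I] [Finite G] in
theorem cenP_center : CenP p (Subgroup.center G) where
  cen := fun z hz g => (Subgroup.mem_center_iff.1 hz g).symm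
  prime := by
    intro z hz h
    have hc : ∀ g, g * z * g⁻¹ = z := by
      intro g; rw [Subgroup.mem_center_iff.1 hz g]; group
    have hU : z ∈ D.U := by
      apply D.mx
      · rw [← mem_normalizer, Subgroup.mem_normalizer_iff]
        intro x
        have : z * x * z⁻¹ = x := by rw [← Subgroup.mem_center_iff.1 hz x]; group
        rw [this]
      · exact ⟨1, by rw [pow_one]; exact h⟩
    have hV : z ∈ D.V := by
      rw [D.hV, mem_c_smul]
      have : D.n0⁻¹ * z * D.n0 = z := by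
        have := hc D.n0⁻¹
        rwa [inv_inv] at this
      rw [this]; exact hU
    have : z ∈ D.U ⊓ D.V := ⟨hU, hV⟩
    rwa [D.disj, Subgroup.mem_bot] at this

omit [Fact p.Prime] [Finite I] [Finite G] in
theorem Vnorm (i : I) {b : G} (hb : c b • D.V = D.V) : c b • D.Vi i = D.Vi i := by
  have hV := D.hV
  obtain ⟨j, rfl⟩ := D.star.surjective i
  have e : D.Vi (D.star j) = c D.n0 • D.Ui j := (D.Vstar j).symm
  have h1 : c (D.n0⁻¹ * b * D.n0) • D.U = D.U := by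
    rw [c_mul, c_mul, mul_smul, mul_smul, ← hV, hb, hV, smul_smul, ← c_mul, inv_mul_cancel, c_one, one_smul]
  have h2 := D.Unorm j _ h1
  have h3 : c D.n0 • c (D.n0⁻¹ * b * D.n0) • D.Ui j = c D.n0 • D.Ui j := by
    rw [Ui, h2]
  rw [smul_smul, ← c_mul] at h3
  rw [e, smul_smul, ← c_mul]
  rw [show D.n0 * (D.n0⁻¹ * b * D.n0) = b * D.n0 by group] at h3
  exact h3

omit [Fact p.Prime] [Finite I] [Finite G] in
theorem self_normV {x : G} (hx : x ∈ D.V) : c x • D.V = D.V := by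
  rw [← mem_normalizer]; exact Subgroup.le_normalizer hx

omit [Fact p.Prime] [Finite I] [Finite G] in
theorem self_normU {x : G} (hx : x ∈ D.U) : c x • D.U = D.U := by
  rw [← mem_normalizer]; exact Subgroup.le_normalizer hx

omit [Fact p.Prime] [Finite I] [Finite G] in
/-- `s_i V s_i⁻¹` normalises `V_i` -/
theorem X_of (i : I) (h2 : c (D.s i * D.s i) • D.V = D.V) {x : G} (hU : x ∈ D.U) (hV : (D.s i)⁻¹ * x * D.s i ∈ D.V) : x ∈ D.X i := by
  refine Subgroup.mem_inf.2 ⟨hU, ?_⟩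
  rw [mem_normalizer]
  have hs : c (D.s i) • D.Vi i = D.Vi i := by
    rw [Vi, Subgroup.smul_inf, smul_smul, ← c_mul, h2, inf_comm]
  have hv := D.Vnorm i (D.self_normV hV)
  have hs' : c (D.s i)⁻¹ • D.Vi i = D.Vi i := by rw [c_inv, inv_smul_eq_iff, hs]
  have e : x = D.s i * ((D.s i)⁻¹ * x * D.s i) * (D.s i)⁻¹ := by group
  rw [e, c_mul, c_mul, mul_smul, mul_smul, hs', hv, hs]

omit [Fact p.Prime] [Finite I] [Finite G] in
theorem Y_of (i : I) (h2 : c (D.s i * D.s i) • D.U = D.U) {x : G} (hV : x ∈ D.V) (hU : (D.s i)⁻¹ * x * D.s i ∈ D.U) : x ∈ D.Y i := by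
  refine Subgroup.mem_inf.2 ⟨hV, ?_⟩
  rw [mem_normalizer]
  have hs : c (D.s i) • D.Ui i = D.Ui i := by
    rw [Ui, Subgroup.smul_inf, smul_smul, ← c_mul, h2, inf_comm]
  have hv : c ((D.s i)⁻¹ * x * D.s i) • D.Ui i = D.Ui i := D.Unorm i _ (D.self_normU hU)
  have hs' : c (D.s i)⁻¹ • D.Ui i = D.Ui i := by rw [c_inv, inv_smul_eq_iff, hs]
  have e : x = D.s i * ((D.s i)⁻¹ * x * D.s i) * (D.s i)⁻¹ := by group
  rw [e, c_mul, c_mul, mul_smul, mul_smul, hs', hv, hs]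

omit [Fact p.Prime] [Finite I] [Finite G] in
/-- generation of `U` by simple root elements -/
theorem U_le_of (K : Subgroup G) (μ : G → ℕ) (hx : ∀ i, D.U ⊓ c (D.s i) • D.V ≤ K) (hs : ∀ i, D.s i ∈ K)
    (hdec : ∀ i, ∀ u ∈ D.U, ∃ x ∈ D.U ⊓ c (D.s i) • D.V, x⁻¹ * u ∈ D.Ui i)
    (hn0 : D.n0 ∈ D.N) (hn02 : c (D.n0 * D.n0) • D.U = D.U)
    (hdes : ∀ n ∈ D.N, c n • D.V = D.V ∨ ∃ i, D.U ⊓ c (D.s i) • D.V ≤ c n • D.V ∧ (D.s i)⁻¹ * n ∈ D.N ∧ μ ((D.s i)⁻¹ * n) < μ n) :
    D.U ≤ K := by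
  have key : ∀ (k : ℕ) (n : G), n ∈ D.N → μ n = k → D.U ⊓ c n • D.V ≤ K := by
    intro k
    induction k using Nat.strong_induction_on with
    | _ k ih =>
      intro n hn hk
      rcases hdes n hn with h | ⟨i, h1, h2, h3⟩
      · rw [h, D.disj]; exact bot_le
      · rintro u ⟨hu, hu'⟩
        obtain ⟨x, hx1, hx2⟩ := hdec i u hu
        have hxK := hx i hx1
        have hx3 : x⁻¹ * u ∈ c n • D.V := mul_mem (inv_mem (h1 hx1)) hu'
        have h4 : (D.s i)⁻¹ * (x⁻¹ * u) * D.s i ∈ K := by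
          apply ih (μ ((D.s i)⁻¹ * n)) (by rw [← hk]; exact h3) _ h2 rfl
          refine Subgroup.mem_inf.2 ⟨mem_c_smul.1 hx2.2, ?_⟩
          rw [mem_c_smul] at hx3 ⊢
          convert hx3 using 1
          group
        have h5 : x⁻¹ * u ∈ K := by
          have := K.mul_mem (K.mul_mem (hs i) h4) (K.inv_mem (hs i))
          have e : D.s i * ((D.s i)⁻¹ * (x⁻¹ * u) * D.s i) * (D.s i)⁻¹ = x⁻¹ * u := by group
          rwa [e] at this
        have := K.mul_mem hxK h5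
        rwa [mul_inv_cancel_left] at this
  have h := key _ D.n0 hn0 rfl
  rw [D.hV, smul_smul, ← c_mul, hn02, inf_idem] at h
  exact h

omit [Fact p.Prime] [Finite I] [Finite G] in
theorem N_of (K : Subgroup G) (μ : G → ℕ) (hs : ∀ i, D.s i ∈ K)
    (hdes : ∀ n ∈ D.N, c n • D.U = D.U ∨ ∃ i, (D.s i)⁻¹ * n ∈ D.N ∧ μ ((D.s i)⁻¹ * n) < μ n) :
    ∀ n ∈ D.N, ∃ k ∈ K, ∃ h ∈ D.N, c h • D.U = D.U ∧ n = k * h := by
  have key : ∀ (k : ℕ) (n : G), n ∈ D.N → μ n = k → ∃ k ∈ K, ∃ h ∈ D.N, c h • D.U = D.U ∧ n = k * h := by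
    intro k
    induction k using Nat.strong_induction_on with
    | _ k ih =>
      intro n hn hk
      rcases hdes n hn with h | ⟨i, h2, h3⟩
      · exact ⟨1, K.one_mem, n, hn, h, by simp⟩
      · obtain ⟨q, hq, h, hh, hh2, e⟩ := ih (μ ((D.s i)⁻¹ * n)) (by rw [← hk]; exact h3) _ h2 rfl
        exact ⟨D.s i * q, K.mul_mem (hs i) hq, h, hh, hh2, by rw [mul_assoc, ← e]; group⟩
  exact fun n hn => key _ n hn rfl

end Data

/-- an automorphism trivial on a normal subgroup with trivial centralizer is trivial -/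
theorem eq_one_of_fix {G : Type*} [Group G] (K : Subgroup G) (hK : K.Normal) (hC : ∀ z : G, (∀ k ∈ K, z * k = k * z) → z = 1)
    (γ : MulAut G) (h : ∀ k ∈ K, γ k = k) : γ = 1 := by
  ext g
  have : g⁻¹ * γ g = 1 := by
    apply hC
    intro k hk
    have h1 : γ (g * k * g⁻¹) = g * k * g⁻¹ := h _ (hK.conj_mem k hk g)
    rw [map_mul, map_mul, h k hk, map_inv] at h1
    have h2 : γ g * k = g * k * g⁻¹ * γ g := by rw [← h1]; group
    rw [mul_assoc, h2]; group
  rw [inv_mul_eq_one] at this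
  simp [this.symm]

end Cfsg.Agent.H8.AutBN
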