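import Mathlib
import Cfsg.Agent.H8.AutGen

set_option autoImplicit false
set_option linter.all false

/-! Abstract consequences of the rank one data: identification of `X_i`, images of the reflections,
rigidity. -/

namespace Cfsg.Agent.H8.AutBN

open Pointwise

variable {G : Type*} [Group G] {p : ℕ} [Fact p.Prime] {I : Type*}

namespace Data

variable (D : Data p G I)

/-- `X_i'` -/
def Xp (i : I) : Subgroup G := D.U ⊓ c (D.s i) • D.V
/-- `Y_i'` -/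
def Yp (i : I) : Subgroup G := D.V ⊓ c (D.s i) • D.U

/-- the torus -/
def Tor (h : G) : Prop := c h • D.U = D.U ∧ c h • D.V = D.V

/-- extra hypotheses -/
structure Ext (μ : G → ℕ) : Prop where
  mulN : ∀ a ∈ D.N, ∀ b ∈ D.N, a * b ∈ D.N
  invN : ∀ a ∈ D.N, a⁻¹ ∈ D.N
  n0N : D.n0 ∈ D.N
  sN : ∀ i, D.s i ∈ D.N
  n02 : c D.n0 • D.V = D.U
  s2U : ∀ i, c (D.s i * D.s i) • D.U = D.U
  s2V : ∀ i, c (D.s i * D.s i) • D.V = D.V
  comU : ∀ i, c (D.n0 * D.s i) • D.U = c (D.s (D.star i) * D.n0) • D.U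
  comV : ∀ i, c (D.n0 * D.s i) • D.V = c (D.s (D.star i) * D.n0) • D.V
  NU : ∀ n ∈ D.N, c n • D.U = D.U → c n • D.V = D.V
  desc : ∀ n ∈ D.N, c n • D.U ≠ D.U → ∃ i, D.U ⊓ c n • D.U ≤ D.Ui i ∧ D.Xp i ≤ c n • D.V ∧ μ ((D.s i)⁻¹ * n) < μ n
  both : ∀ n ∈ D.N, ∀ i, D.Xp i ≤ c n • D.V → D.Yp i ≤ c n • D.V → False
  facU : ∀ i, ∀ u ∈ D.U, ∃ x ∈ D.Xp i, x⁻¹ * u ∈ D.Ui i
  torU : ∀ b, c b • D.U = D.U → ∃ u ∈ D.U, ∃ h, D.Tor h ∧ b = u * h
  torS : ∀ h, D.Tor h → ∀ i, c h • c (D.s i) • D.U = c (D.s i) • D.U ∧ c h • c (D.s i) • D.V = c (D.s i) • D.V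
  Xne : ∀ i, D.Xp i ≠ ⊥
  sgen : ∀ i, D.s i ∈ D.Xp i ⊔ D.Yp i
  abel : ∀ h h', D.Tor h → D.Tor h' → h * h' = h' * h

variable {D} {μ : G → ℕ} (E : D.Ext μ)

include E

omit [Fact p.Prime] in
theorem Ext.sX (i : I) : c (D.s i) • D.Xp i = D.Yp i := by
  rw [Xp, Yp, Subgroup.smul_inf, smul_smul, ← c_mul, E.s2V, inf_comm]

omit [Fact p.Prime] in
theorem Ext.sY (i : I) : c (D.s i) • D.Yp i = D.Xp i := by
  rw [Xp, Yp, Subgroup.smul_inf, smul_smul, ← c_mul, E.s2U, inf_comm]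

omit [Fact p.Prime] in
theorem Ext.sUi (i : I) : c (D.s i) • D.Ui i = D.Ui i := by
  rw [Ui, Subgroup.smul_inf, smul_smul, ← c_mul, E.s2U, inf_comm]

omit [Fact p.Prime] in
theorem Ext.sVi (i : I) : c (D.s i) • D.Vi i = D.Vi i := by
  rw [Vi, Subgroup.smul_inf, smul_smul, ← c_mul, E.s2V, inf_comm]

omit [Fact p.Prime] in
theorem Ext.n0X (i : I) : c D.n0 • D.Xp i = D.Yp (D.star i) := by
  rw [Xp, Yp, Subgroup.smul_inf, ← D.hV, smul_smul, ← c_mul, E.comV, c_mul, mul_smul, E.n02]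

omit [Fact p.Prime] in
theorem Ext.n0Y (i : I) : c D.n0 • D.Yp i = D.Xp (D.star i) := by
  rw [Xp, Yp, Subgroup.smul_inf, E.n02, smul_smul, ← c_mul, E.comU, c_mul, mul_smul, ← D.hV]

omit [Fact p.Prime] E in
theorem n0Ui (i : I) : c D.n0 • D.Ui i = D.Vi (D.star i) := D.Vstar i

omit [Fact p.Prime] in
theorem Ext.n0Vi (i : I) : c D.n0 • D.Vi i = D.Ui (D.star i) := by
  rw [Ui, Vi, Subgroup.smul_inf, E.n02, smul_smul, ← c_mul, E.comV, c_mul, mul_smul, E.n02]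

omit [Fact p.Prime] in
theorem Ext.facV (i : I) (v : G) (hv : v ∈ D.V) : ∃ y ∈ D.Yp i, y⁻¹ * v ∈ D.Vi i := by
  obtain ⟨j, rfl⟩ := D.star.surjective i
  rw [D.hV, mem_c_smul] at hv
  obtain ⟨x, hx, hx2⟩ := E.facU j _ hv
  refine ⟨D.n0 * x * D.n0⁻¹, ?_, ?_⟩
  · rw [← E.n0X, mem_c_smul]
    have : D.n0⁻¹ * (D.n0 * x * D.n0⁻¹) * D.n0 = x := by group
    rwa [this]
  · rw [← n0Ui, mem_c_smul]
    have : D.n0⁻¹ * ((D.n0 * x * D.n0⁻¹)⁻¹ * v) * D.n0 = x⁻¹ * (D.n0⁻¹ * v * D.n0) := by group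
    rwa [this]

omit [Fact p.Prime] in
theorem Ext.n0inv : c D.n0⁻¹ • D.V = D.U ∧ c D.n0⁻¹ • D.U = D.V := by
  constructor
  · rw [c_inv, inv_smul_eq_iff, ← D.hV]
  · rw [c_inv, inv_smul_eq_iff, E.n02]

omit [Fact p.Prime] in
theorem Ext.torV (b : G) (hb : c b • D.V = D.V) : ∃ v ∈ D.V, ∃ h, D.Tor h ∧ b = v * h := by
  have h1 : c (D.n0⁻¹ * b * D.n0) • D.U = D.U := by
    rw [c_mul, c_mul, mul_smul, mul_smul, ← D.hV, hb, E.n0inv.1]
  obtain ⟨u, hu, h, ⟨hh1, hh2⟩, e⟩ := E.torU _ h1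
  refine ⟨D.n0 * u * D.n0⁻¹, ?_, D.n0 * h * D.n0⁻¹, ⟨?_, ?_⟩, ?_⟩
  · rw [D.hV, mem_c_smul]
    have : D.n0⁻¹ * (D.n0 * u * D.n0⁻¹) * D.n0 = u := by group
    rwa [this]
  · rw [c_mul, c_mul, mul_smul, mul_smul, E.n0inv.2, hh2, E.n02]
  · rw [c_mul, c_mul, mul_smul, mul_smul, E.n0inv.1, hh1, ← D.hV]
  · have : b = D.n0 * (D.n0⁻¹ * b * D.n0) * D.n0⁻¹ := by group
    rw [this, e]; group

omit [Fact p.Prime] in
/-- descent for `V` -/
theorem Ext.descV (n : G) (hn : n ∈ D.N) (h : c n • D.V ≠ D.V) : ∃ i, D.V ⊓ c n • D.V ≤ D.Vi i ∧ D.Yp i ≤ c n • D.U := by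
  have hn' : D.n0⁻¹ * n * D.n0 ∈ D.N := E.mulN _ (E.mulN _ (E.invN _ E.n0N) _ hn) _ E.n0N
  have e0 : c (D.n0⁻¹ * n * D.n0) • D.U = c D.n0⁻¹ • c n • D.V := by
    rw [c_mul, c_mul, mul_smul, mul_smul, ← D.hV]
  have e1 : c (D.n0⁻¹ * n * D.n0) • D.V = c D.n0⁻¹ • c n • D.U := by
    rw [c_mul, c_mul, mul_smul, mul_smul, E.n02]
  obtain ⟨i, h1, h2, _⟩ := E.desc _ hn' (by
    rw [e0]
    intro h'
    apply h
    rw [c_inv, inv_smul_eq_iff, ← D.hV] at h'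
    exact h')
  refine ⟨D.star i, ?_, ?_⟩
  · rw [e0, ← E.n0inv.1, ← Subgroup.smul_inf, c_inv, ← Subgroup.pointwise_smul_le_pointwise_smul_iff (a := c D.n0),
      smul_inv_smul, n0Ui] at h1
    exact h1
  · rw [e1, ← Subgroup.pointwise_smul_le_pointwise_smul_iff (a := c D.n0), E.n0X, c_inv, smul_inv_smul] at h2
    exact h2

omit [Fact p.Prime] in
/-- Bruhat for `V` -/
theorem Ext.bruhatV (g : G) : ∃ b n b' : G, c b • D.V = D.V ∧ n ∈ D.N ∧ c b' • D.V = D.V ∧ g = b * n * b' := by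
  obtain ⟨b, n, b', hb, hn, hb', e⟩ := D.bruhat (D.n0⁻¹ * g * D.n0)
  refine ⟨D.n0 * b * D.n0⁻¹, D.n0 * n * D.n0⁻¹, D.n0 * b' * D.n0⁻¹, ?_, E.mulN _ (E.mulN _ E.n0N _ hn) _ (E.invN _ E.n0N), ?_, ?_⟩
  · rw [c_mul, c_mul, mul_smul, mul_smul, E.n0inv.1, hb, ← D.hV]
  · rw [c_mul, c_mul, mul_smul, mul_smul, E.n0inv.1, hb', ← D.hV]
  · have : g = D.n0 * (D.n0⁻¹ * g * D.n0) * D.n0⁻¹ := by group
    rw [this, e]; group

omit [Fact p.Prime] in
theorem Ext.Vinj (i j : I) (h : D.Vi i ≤ D.Vi j) : i = j := by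
  obtain ⟨i, rfl⟩ := D.star.surjective i
  obtain ⟨j, rfl⟩ := D.star.surjective j
  rw [← n0Ui, ← n0Ui, Subgroup.pointwise_smul_le_pointwise_smul_iff] at h
  rw [D.Uinj i j h]

omit [Fact p.Prime] in
theorem Ext.NV (n : G) (hn : n ∈ D.N) (h : c n • D.V = D.V) : c n • D.U = D.U := by
  have hn' : D.n0⁻¹ * n * D.n0 ∈ D.N := E.mulN _ (E.mulN _ (E.invN _ E.n0N) _ hn) _ E.n0N
  have h1 := E.NU _ hn' (by rw [c_mul, c_mul, mul_smul, mul_smul, ← D.hV, h, E.n0inv.1])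
  rw [c_mul, c_mul, mul_smul, mul_smul, E.n02, c_inv, inv_smul_eq_iff, E.n02] at h1
  exact h1

omit [Fact p.Prime] in
/-- an element of `U` normalising `V` is trivial -/
theorem Ext.eq_one {u : G} (hu : u ∈ D.U) (h : c u • D.V = D.V) : u = 1 := by
  have h1 : D.n0⁻¹ * u * D.n0 ∈ D.U := by
    apply D.mx
    · rw [c_mul, c_mul, mul_smul, mul_smul, ← D.hV, h, E.n0inv.1]
    · obtain ⟨k, hk⟩ := pE D.isP hu
      refine ⟨k, ?_⟩
      have := conj_pow (i := p ^ k) (a := D.n0⁻¹) (b := u)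
      rw [inv_inv] at this
      rw [this, hk]; simp
  have h2 : u ∈ D.V := by rw [D.hV, mem_c_smul]; exact h1
  have : u ∈ D.U ⊓ D.V := Subgroup.mem_inf.2 ⟨hu, h2⟩
  rwa [D.disj, Subgroup.mem_bot] at this

omit [Fact p.Prime] in
theorem Ext.Xp_le (i : I) : D.Xp i ≤ D.X i := by
  intro x hx
  have hx1 := (Subgroup.mem_inf.1 hx).1
  have hx2 := (Subgroup.mem_inf.1 hx).2
  exact D.X_of i (E.s2V i) hx1 (mem_c_smul.1 hx2)

omit [Fact p.Prime] in
theorem Ext.key (i : I) {x : G} (hx : x ∈ D.X i) (hx1 : x ≠ 1) : ∃ y ∈ D.Yp i, y ≠ 1 ∧ c x • D.V = c (y * D.s i) • D.V := by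
  have hxU : x ∈ D.U := (Subgroup.mem_inf.1 hx).1
  have hxn : c x • D.Vi i = D.Vi i := mem_normalizer.1 (Subgroup.mem_inf.1 hx).2
  have hle : D.Vi i ≤ c x • D.V := by
    conv_lhs => rw [← hxn]
    exact (Subgroup.pointwise_smul_le_pointwise_smul_iff (a := c x)).2 inf_le_left
  have hne : c x • D.V ≠ D.V := fun h => hx1 (E.eq_one hxU h)
  obtain ⟨b, n, b', hb, hn, hb', e⟩ := E.bruhatV x
  have e1 : c x • D.V = c b • c n • D.V := by rw [e, c_mul, c_mul, mul_smul, mul_smul, hb']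
  have hbi : c b⁻¹ • D.Vi i = D.Vi i := by rw [c_inv, inv_smul_eq_iff, D.Vnorm i hb]
  have hle2 : D.Vi i ≤ c n • D.V := by
    rw [e1] at hle
    have := (Subgroup.pointwise_smul_le_pointwise_smul_iff (a := c b⁻¹)).2 hle
    rw [hbi, smul_smul, ← c_mul, inv_mul_cancel, c_one, one_smul] at this
    exact this
  have hnV : c n • D.V ≠ D.V := by
    intro h; apply hne; rw [e1, h, hb]
  obtain ⟨j, hj1, hj2⟩ := E.descV n hn hnV
  have hij : i = j := E.Vinj i j ((le_inf inf_le_left hle2).trans hj1)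
  subst hij
  have hn' : (D.s i)⁻¹ * n ∈ D.N := E.mulN _ (E.invN _ (E.sN i)) _ hn
  have hsinv : c (D.s i)⁻¹ • D.Vi i = D.Vi i := by rw [c_inv, inv_smul_eq_iff, E.sVi]
  have hV2 : c ((D.s i)⁻¹ * n) • D.V = D.V := by
    by_contra hcon
    obtain ⟨k, hk1, hk2⟩ := E.descV _ hn' hcon
    have hle3 : D.Vi i ≤ c ((D.s i)⁻¹ * n) • D.V := by
      have := (Subgroup.pointwise_smul_le_pointwise_smul_iff (a := c (D.s i)⁻¹)).2 hle2
      rw [hsinv, smul_smul, ← c_mul] at this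
      exact this
    have hik : i = k := E.Vinj i k ((le_inf inf_le_left hle3).trans hk1)
    subst hik
    have h3 : D.Xp i ≤ c n • D.U := by
      have := (Subgroup.pointwise_smul_le_pointwise_smul_iff (a := c (D.s i))).2 hk2
      rw [E.sY, smul_smul, ← c_mul] at this
      have e : D.s i * ((D.s i)⁻¹ * n) = n := by group
      rwa [e] at this
    have e4 : c n • D.U = c (n * D.n0) • D.V := by rw [c_mul, mul_smul, E.n02]
    rw [e4] at h3 hj2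
    exact E.both _ (E.mulN _ hn _ E.n0N) i h3 hj2
  have hnS : c n • D.V = c (D.s i) • D.V := by
    rw [c_mul, mul_smul, c_inv, inv_smul_eq_iff] at hV2
    exact hV2
  obtain ⟨v, hv, h, hh, rfl⟩ := E.torV b hb
  obtain ⟨y, hy, hy2⟩ := E.facV i v hv
  have e5 : c x • D.V = c (y * D.s i) • D.V := by
    rw [e1, hnS, c_mul, mul_smul, (E.torS h hh i).2]
    have e6 : v = y * (y⁻¹ * v) := by group
    rw [e6, c_mul, mul_smul]
    have e7 : c (y⁻¹ * v) • c (D.s i) • D.V = c (D.s i) • D.V := by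
      rw [← mem_normalizer]
      exact Subgroup.le_normalizer (Subgroup.mem_inf.1 hy2).2
    rw [e7, smul_smul, ← c_mul]
  refine ⟨y, hy, ?_, e5⟩
  rintro rfl
  rw [one_mul] at e5
  have h8 : D.U ⊓ c x • D.V = ⊥ := by
    have : D.U = c x • D.U := (D.self_normU hxU).symm
    rw [this, ← Subgroup.smul_inf, D.disj, Subgroup.smul_bot]
  rw [e5] at h8
  exact E.Xne i h8

omit [Fact p.Prime] in
theorem Ext.X_eq [Finite G] (i : I) : D.X i = D.Xp i := by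
  classical
  have hc : Nat.card (D.Xp i) = Nat.card (D.Yp i) := by
    rw [← E.sX i]
    exact Nat.card_congr (Subgroup.equivSMul (c (D.s i)) (D.Xp i)).toEquiv
  let f : D.X i → D.Yp i := fun x => if h : x.1 = 1 then 1 else ⟨(E.key i x.2 h).choose, (E.key i x.2 h).choose_spec.1⟩
  have hf : ∀ x : D.X i, (h : x.1 ≠ 1) → f x ≠ 1 ∧ c x.1 • D.V = c ((f x).1 * D.s i) • D.V := by
    intro x h
    have h2 := (E.key i x.2 h).choose_spec.2
    have e : f x = ⟨(E.key i x.2 h).choose, (E.key i x.2 h).choose_spec.1⟩ := dif_neg h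
    rw [e]
    refine ⟨fun h3 => h2.1 (congrArg Subtype.val h3), h2.2⟩
  have hf1 : ∀ x : D.X i, x.1 = 1 → f x = 1 := fun x h => dif_pos h
  have hinj : Function.Injective f := by
    intro x y hxy
    by_cases hx : x.1 = 1
    · by_cases hy : y.1 = 1
      · exact Subtype.ext (hx.trans hy.symm)
      · rw [hf1 x hx] at hxy
        exact absurd hxy.symm (hf y hy).1
    · by_cases hy : y.1 = 1
      · rw [hf1 y hy] at hxy
        exact absurd hxy (hf x hx).1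
      · have h1 : c x.1 • D.V = c y.1 • D.V := by rw [(hf x hx).2, (hf y hy).2, hxy]
        have h2 : c (y.1⁻¹ * x.1) • D.V = D.V := by
          rw [c_mul, mul_smul, h1, smul_smul, ← c_mul, inv_mul_cancel, c_one, one_smul]
        have h3 := E.eq_one (mul_mem (inv_mem (Subgroup.mem_inf.1 y.2).1) (Subgroup.mem_inf.1 x.2).1) h2
        rw [inv_mul_eq_one] at h3
        exact Subtype.ext h3.symm
  have hle : Nat.card (D.X i) ≤ Nat.card (D.Xp i) := by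
    rw [hc]; exact Nat.card_le_card_of_injective f hinj
  exact (Subgroup.eq_of_le_of_card_ge (E.Xp_le i) hle).symm

omit [Fact p.Prime] in
theorem Ext.Y_eq [Finite G] (i : I) : D.Y i = D.Yp i := by
  obtain ⟨j, rfl⟩ := D.star.surjective i
  rw [← E.n0X, ← E.X_eq, X, Y, Subgroup.smul_inf, ← D.hV, smul_normalizer, E.n0Vi]

omit [Fact p.Prime] in
theorem Ext.XY_self [Finite G] (i : I) : ¬ (∀ x ∈ D.X i, ∀ y ∈ D.Y i, x * y = y * x) := by
  intro h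
  rw [E.X_eq, E.Y_eq] at h
  have h1 : D.s i ∈ Subgroup.normalizer (D.Xp i : Set G) := by
    refine (sup_le (Subgroup.le_normalizer) ?_ : D.Xp i ⊔ D.Yp i ≤ _) (E.sgen i)
    intro y hy
    rw [Subgroup.mem_normalizer_iff]
    intro x
    constructor
    · intro hx
      rw [← h x hx y hy]; simpa using hx
    · intro hx
      have := h _ hx y hy
      have e : x = y * x * y⁻¹ := by
        have h2 : y⁻¹ * (y * x * y⁻¹ * y) = y⁻¹ * (y * (y * x * y⁻¹)) := by rw [this]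
        simpa [mul_assoc] using h2
      rw [e]; exact hx
  rw [mem_normalizer, E.sX] at h1
  apply E.Xne i
  rw [eq_bot_iff]
  intro x hx
  have hx2 : x ∈ D.Yp i := by rw [h1]; exact hx
  rw [← D.disj]
  exact Subgroup.mem_inf.2 ⟨(Subgroup.mem_inf.1 hx).1, (Subgroup.mem_inf.1 hx2).1⟩

end Data

end Cfsg.Agent.H8.AutBN
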