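import Mathlib
import Cfsg.Agent.H8.AutExt

set_option autoImplicit false
set_option linter.all false

/-! Rigidity and images of the reflections. -/

namespace Cfsg.Agent.H8.AutBN

open Pointwise

variable {G : Type*} [Group G] {p : ℕ} [Fact p.Prime] {I : Type*}

namespace Data

variable (D : Data p G I)

/-- subgroup generated by the root groups -/
def K0 : Subgroup G := ⨆ i, (D.X i ⊔ D.Y i)

theorem X_le_K0 (i : I) : D.X i ≤ D.K0 := le_sup_left.trans (le_iSup (fun i => D.X i ⊔ D.Y i) i)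
theorem Y_le_K0 (i : I) : D.Y i ≤ D.K0 := le_sup_right.trans (le_iSup (fun i => D.X i ⊔ D.Y i) i)

/-- the torus as a subgroup -/
def T : Subgroup G := Subgroup.normalizer (D.U : Set G) ⊓ Subgroup.normalizer (D.V : Set G)

theorem mem_T {h : G} : h ∈ D.T ↔ D.Tor h := by
  rw [T, Subgroup.mem_inf, mem_normalizer, mem_normalizer]; exact Iff.rfl

omit [Fact p.Prime] in
theorem comm_of {Z : Subgroup G} [Z.Normal] (hZ : CenP p Z) {x z : G} (hx : ∃ k, x ^ p ^ k = 1)
    (h : QuotientGroup.mk' Z z * QuotientGroup.mk' Z x = QuotientGroup.mk' Z x * QuotientGroup.mk' Z z) : z * x = x * z := by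
  have h2 : x⁻¹ * (z * x * z⁻¹) ∈ Z := by
    rw [← QuotientGroup.eq]
    show QuotientGroup.mk' Z x = QuotientGroup.mk' Z (z * x * z⁻¹)
    rw [map_mul, map_mul, h, map_inv]; group
  have h3 := hZ.eq_one (a := x) (b := z * x * z⁻¹) h2 (by group) hx (by
    obtain ⟨k, hk⟩ := hx
    exact ⟨k, by rw [conj_pow, hk]; simp⟩)
  rw [inv_mul_eq_one] at h3
  conv_rhs => rw [h3]
  group

variable {D} {μ : G → ℕ} (E : D.Ext μ)

include E

theorem Ext.U_le [Finite G] : D.U ≤ D.K0 := by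
  apply D.U_le_of D.K0 μ
  · intro i
    have := D.X_le_K0 i
    rw [E.X_eq] at this; exact this
  · intro i
    have := E.sgen i
    rw [← E.X_eq, ← E.Y_eq] at this
    exact (sup_le (D.X_le_K0 i) (D.Y_le_K0 i)) this
  · intro i u hu; exact E.facU i u hu
  · exact E.n0N
  · rw [c_mul, mul_smul, ← D.hV, E.n02]
  · intro n hn
    by_cases h : c n • D.U = D.U
    · exact Or.inl (E.NU n hn h)
    · obtain ⟨i, _, h2, h3⟩ := E.desc n hn h
      exact Or.inr ⟨i, h2, E.mulN _ (E.invN _ (E.sN i)) _ hn, h3⟩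

theorem Ext.s_mem [Finite G] (i : I) : D.s i ∈ D.K0 := by
  have := E.sgen i
  rw [← E.X_eq, ← E.Y_eq] at this
  exact (sup_le (D.X_le_K0 i) (D.Y_le_K0 i)) this

theorem Ext.N_dec [Finite G] : ∀ n ∈ D.N, ∃ k ∈ D.K0, ∃ h ∈ D.N, c h • D.U = D.U ∧ n = k * h := by
  apply D.N_of D.K0 μ E.s_mem
  intro n hn
  by_cases h : c n • D.U = D.U
  · exact Or.inl h
  · obtain ⟨i, _, h2, h3⟩ := E.desc n hn h
    exact Or.inr ⟨i, E.mulN _ (E.invN _ (E.sN i)) _ hn, h3⟩

theorem Ext.V_le [Finite G] : D.V ≤ D.K0 := by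
  obtain ⟨k, hk, h, hh, hh2, e⟩ := E.N_dec D.n0 E.n0N
  rw [D.hV, e, c_mul, mul_smul, hh2]
  intro x hx
  rw [mem_c_smul] at hx
  have h1 := D.K0.mul_mem (D.K0.mul_mem hk (E.U_le hx)) (D.K0.inv_mem hk)
  have e2 : k * (k⁻¹ * x * k) * k⁻¹ = x := by group
  rwa [e2] at h1

omit [Fact p.Prime] E in
theorem tor_X {h : G} (hh : D.Tor h) (i : I) : c h • D.X i = D.X i := by
  rw [X, Subgroup.smul_inf, hh.1, smul_normalizer, D.Vnorm i hh.2]

omit [Fact p.Prime] E in
theorem tor_Y {h : G} (hh : D.Tor h) (i : I) : c h • D.Y i = D.Y i := by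
  rw [Y, Subgroup.smul_inf, hh.2, smul_normalizer]
  have : c h • D.Ui i = D.Ui i := D.Unorm i h hh.1
  rw [this]

omit [Fact p.Prime] E in
theorem tor_K0 {h : G} (hh : D.Tor h) : c h • D.K0 = D.K0 := by
  have h1 : ∀ h, D.Tor h → c h • D.K0 ≤ D.K0 := by
    intro h hh
    have : D.K0 ≤ c h⁻¹ • D.K0 := by
      rw [K0, iSup_le_iff]
      intro i
      have h2 : c h⁻¹ • (D.X i ⊔ D.Y i) = D.X i ⊔ D.Y i := by
        rw [c_inv, inv_smul_eq_iff, Subgroup.smul_sup, tor_X hh, tor_Y hh]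
      rw [← h2, Subgroup.pointwise_smul_le_pointwise_smul_iff]
      exact le_iSup (fun i => D.X i ⊔ D.Y i) i
    rw [c_inv, ← Subgroup.pointwise_smul_le_pointwise_smul_iff (a := c h), smul_inv_smul] at this
    exact this
  apply le_antisymm (h1 h hh)
  have h3 := h1 h⁻¹ (by
    constructor
    · rw [c_inv, inv_smul_eq_iff, hh.1]
    · rw [c_inv, inv_smul_eq_iff, hh.2])
  rw [c_inv, ← Subgroup.pointwise_smul_le_pointwise_smul_iff (a := c h), smul_inv_smul] at h3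
  exact h3

theorem Ext.decomp [Finite G] (g : G) : ∃ k ∈ D.K0, ∃ h, D.Tor h ∧ g = k * h := by
  have hmul : ∀ k ∈ D.K0, ∀ h, D.Tor h → ∀ k' ∈ D.K0, ∀ h', D.Tor h' → ∃ k1 ∈ D.K0, ∃ h1, D.Tor h1 ∧ k * h * (k' * h') = k1 * h1 := by
    intro k hk h hh k' hk' h' hh'
    refine ⟨k * (h * k' * h⁻¹), D.K0.mul_mem hk ?_, h * h', ?_, by group⟩
    · rw [← tor_K0 hh, mem_c_smul]
      have : h⁻¹ * (h * k' * h⁻¹) * h = k' := by group
      rwa [this]
    · exact ⟨by rw [c_mul, mul_smul, hh'.1, hh.1], by rw [c_mul, mul_smul, hh'.2, hh.2]⟩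
  obtain ⟨b, n, b', hb, hn, hb', rfl⟩ := D.bruhat g
  obtain ⟨u, hu, h, hh, rfl⟩ := E.torU b hb
  obtain ⟨u', hu', h', hh', rfl⟩ := E.torU b' hb'
  obtain ⟨k, hk, h2, hh2, hh3, rfl⟩ := E.N_dec n hn
  obtain ⟨k1, hk1, h1, hh1, e1⟩ := hmul u (E.U_le hu) h hh k hk h2 ⟨hh3, E.NU _ hh2 hh3⟩
  obtain ⟨k3, hk3, h3, hh3, e3⟩ := hmul k1 hk1 h1 hh1 u' (E.U_le hu') h' hh'
  exact ⟨k3, hk3, h3, hh3, by rw [e1, e3]⟩

theorem Ext.K0_normal [Finite G] : D.K0.Normal := by
  constructor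
  intro k hk g
  obtain ⟨k1, hk1, h, hh, rfl⟩ := E.decomp g
  have h1 : h * k * h⁻¹ ∈ D.K0 := by
    rw [← tor_K0 hh, mem_c_smul]
    have : h⁻¹ * (h * k * h⁻¹) * h = k := by group
    rwa [this]
  have : k1 * h * k * (k1 * h)⁻¹ = k1 * (h * k * h⁻¹) * k1⁻¹ := by group
  rw [this]
  exact D.K0.mul_mem (D.K0.mul_mem hk1 h1) (D.K0.inv_mem hk1)

theorem Ext.center_of [Finite G] {z : G} (h1 : ∀ x ∈ D.U, z * x = x * z) (h2 : ∀ y ∈ D.V, z * y = y * z) :
    z ∈ Subgroup.center G := by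
  have hz : ∀ k ∈ D.K0, z * k = k * z := by
    have : D.K0 ≤ Subgroup.centralizer {z} := by
      rw [K0, iSup_le_iff]
      intro i
      refine sup_le ?_ ?_
      · intro x hx
        rw [Subgroup.mem_centralizer_iff]
        rintro _ rfl
        exact h1 x (Subgroup.mem_inf.1 hx).1
      · intro x hx
        rw [Subgroup.mem_centralizer_iff]
        rintro _ rfl
        exact h2 x (Subgroup.mem_inf.1 hx).1
    intro k hk
    exact Subgroup.mem_centralizer_iff.1 (this hk) z rfl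
  have hT : D.Tor z := by
    constructor
    · rw [← mem_normalizer, Subgroup.mem_normalizer_iff]
      have : ∀ x ∈ D.U, z * x * z⁻¹ = x := by intro x hx; rw [h1 x hx]; group
      intro x
      constructor
      · intro hx; rw [this x hx]; exact hx
      · intro hx
        have e := h1 _ hx
        have e2 : z⁻¹ * (z * (z * x * z⁻¹)) = z⁻¹ * (z * x * z⁻¹ * z) := by rw [e]
        have e3 : z * x * z⁻¹ = x := by simpa [mul_assoc] using e2
        rwa [e3] at hx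
    · rw [← mem_normalizer, Subgroup.mem_normalizer_iff]
      have : ∀ x ∈ D.V, z * x * z⁻¹ = x := by intro x hx; rw [h2 x hx]; group
      intro x
      constructor
      · intro hx; rw [this x hx]; exact hx
      · intro hx
        have e := h2 _ hx
        have e2 : z⁻¹ * (z * (z * x * z⁻¹)) = z⁻¹ * (z * x * z⁻¹ * z) := by rw [e]
        have e3 : z * x * z⁻¹ = x := by simpa [mul_assoc] using e2
        rwa [e3] at hx
  rw [Subgroup.mem_center_iff]
  intro g
  obtain ⟨k, hk, h, hh, rfl⟩ := E.decomp g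
  rw [mul_assoc, E.abel h z hh hT, ← mul_assoc, ← hz k hk, mul_assoc]

/-- rigidity -/
theorem Ext.fixQ [Finite G] [Finite I] (γ : MulAut (G ⧸ Subgroup.center G))
    (hX : ∀ i, ∀ x ∈ D.X i, γ (QuotientGroup.mk' _ x) = QuotientGroup.mk' _ x)
    (hY : ∀ i, ∀ y ∈ D.Y i, γ (QuotientGroup.mk' _ y) = QuotientGroup.mk' _ y) : γ = 1 := by
  have hZ := D.cenP_center
  have hK : ∀ k ∈ D.K0, γ (QuotientGroup.mk' _ k) = QuotientGroup.mk' _ k := by
    let L : Subgroup G := MonoidHom.eqLocus ((γ : G ⧸ Subgroup.center G →* G ⧸ Subgroup.center G).comp (QuotientGroup.mk' _)) (QuotientGroup.mk' _)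
    have : D.K0 ≤ L := by
      rw [K0, iSup_le_iff]
      intro i
      exact sup_le (fun x hx => hX i x hx) (fun y hy => hY i y hy)
    intro k hk
    exact this hk
  have hn := E.K0_normal
  apply eq_one_of_fix (D.K0.map (QuotientGroup.mk' (Subgroup.center G)))
    (hn.map _ (QuotientGroup.mk'_surjective _))
  · intro z hz
    obtain ⟨z, rfl⟩ := QuotientGroup.mk'_surjective _ z
    have hcom : ∀ x : G, (∃ k, x ^ p ^ k = 1) → x ∈ D.K0 → z * x = x * z := by
      intro x hx hxK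
      exact comm_of hZ hx (hz _ (Subgroup.mem_map_of_mem _ hxK))
    have := E.center_of (z := z) (fun x hx => hcom x (pE D.isP hx) (E.U_le hx)) (fun y hy => hcom y (pE D.isPV hy) (E.V_le hy))
    exact (QuotientGroup.eq_one_iff z).2 this
  · rintro _ ⟨k, hk, rfl⟩
    exact hK k hk

omit E

/-- the facts used to locate images of reflections -/
structure Mini (D : Data p G I) : Prop where
  sgen : ∀ i, D.s i ∈ D.X i ⊔ D.Y i
  UX : ∀ i, D.U = D.X i ⊔ D.Ui i
  VY : ∀ i, D.V = D.Y i ⊔ D.Vi i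
  sX : ∀ i, c (D.s i) • D.X i = D.Y i
  sY : ∀ i, c (D.s i) • D.Y i = D.X i
  sU : ∀ i, c (D.s i) • D.Ui i = D.Ui i
  sV : ∀ i, c (D.s i) • D.Vi i = D.Vi i

omit [Fact p.Prime] in
theorem Ext.mini [Finite G] (E : D.Ext μ) : Mini D where
  sgen := by intro i; rw [E.X_eq, E.Y_eq]; exact E.sgen i
  UX := by
    intro i
    apply le_antisymm
    · intro u hu
      obtain ⟨x, hx, hx2⟩ := E.facU i u hu
      have e : u = x * (x⁻¹ * u) := by group
      rw [e]
      exact Subgroup.mul_mem_sup (by rw [E.X_eq]; exact hx) hx2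
    · exact sup_le inf_le_left inf_le_left
  VY := by
    intro i
    apply le_antisymm
    · intro u hu
      obtain ⟨x, hx, hx2⟩ := E.facV i u hu
      have e : u = x * (x⁻¹ * u) := by group
      rw [e]
      exact Subgroup.mul_mem_sup (by rw [E.Y_eq]; exact hx) hx2
    · exact sup_le inf_le_left inf_le_left
  sX := by intro i; rw [E.X_eq, E.Y_eq, E.sX]
  sY := by intro i; rw [E.X_eq, E.Y_eq, E.sY]
  sU := E.sUi
  sV := E.sVi

theorem Mini.quot [Finite G] {Z : Subgroup G} [Z.Normal] (hZ : CenP p Z) (M : Mini D) : Mini (D.quot hZ) where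
  sgen := by
    intro i
    rw [quot_X, quot_Y, ← Subgroup.map_sup]
    exact Subgroup.mem_map_of_mem _ (M.sgen i)
  UX := by
    intro i
    rw [quot_X, quot_Ui, ← Subgroup.map_sup, ← M.UX]; rfl
  VY := by
    intro i
    rw [quot_Y, quot_Vi, ← Subgroup.map_sup, ← M.VY]; rfl
  sX := by
    intro i
    rw [quot_X, quot_Y]
    show c (QuotientGroup.mk' Z (D.s i)) • _ = _
    rw [map_c_smul, M.sX]
  sY := by
    intro i
    rw [quot_X, quot_Y]
    show c (QuotientGroup.mk' Z (D.s i)) • _ = _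
    rw [map_c_smul, M.sY]
  sU := by
    intro i
    rw [quot_Ui]
    show c (QuotientGroup.mk' Z (D.s i)) • _ = _
    rw [map_c_smul, M.sU]
  sV := by
    intro i
    rw [quot_Vi]
    show c (QuotientGroup.mk' Z (D.s i)) • _ = _
    rw [map_c_smul, M.sV]

omit [Fact p.Prime] in
theorem Mini.tor (M : Mini D) (β : MulAut G) (π : Equiv.Perm I) (hX : ∀ i, β • D.X i = D.X (π i)) (hY : ∀ i, β • D.Y i = D.Y (π i))
    (i : I) : D.Tor ((D.s (π i))⁻¹ * β (D.s i)) := by
  obtain ⟨g, hg⟩ : ∃ g, g = β (D.s i) := ⟨_, rfl⟩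
  rw [← hg]
  have hgm : g ∈ D.X (π i) ⊔ D.Y (π i) := by
    have h1 : β (D.s i) ∈ β • (D.X i ⊔ D.Y i) := Subgroup.smul_mem_pointwise_smul _ β _ (M.sgen i)
    rw [Subgroup.smul_sup, hX, hY, ← hg] at h1
    exact h1
  have hXY : D.X (π i) ⊔ D.Y (π i) ≤ Subgroup.normalizer (D.Ui (π i) : Set G) ⊓ Subgroup.normalizer (D.Vi (π i) : Set G) := by
    refine sup_le ?_ ?_
    · intro x hx
      refine Subgroup.mem_inf.2 ⟨?_, (Subgroup.mem_inf.1 hx).2⟩
      rw [mem_normalizer]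
      exact D.Unorm _ x (D.self_normU (Subgroup.mem_inf.1 hx).1)
    · intro x hx
      refine Subgroup.mem_inf.2 ⟨(Subgroup.mem_inf.1 hx).2, ?_⟩
      rw [mem_normalizer]
      exact D.Vnorm _ (D.self_normV (Subgroup.mem_inf.1 hx).1)
  have hgU : c g • D.Ui (π i) = D.Ui (π i) := mem_normalizer.1 (Subgroup.mem_inf.1 (hXY hgm)).1
  have hgV : c g • D.Vi (π i) = D.Vi (π i) := mem_normalizer.1 (Subgroup.mem_inf.1 (hXY hgm)).2
  have hgX : c g • D.X (π i) = D.Y (π i) := by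
    rw [← hX, ← hY, hg, ← smul_c, M.sX]
  have hgY : c g • D.Y (π i) = D.X (π i) := by
    rw [← hX, ← hY, hg, ← smul_c, M.sY]
  have e1 : c g • D.U = c (D.s (π i)) • D.U := by
    rw [M.UX (π i), Subgroup.smul_sup, Subgroup.smul_sup, hgX, hgU, M.sX, M.sU]
  have e2 : c g • D.V = c (D.s (π i)) • D.V := by
    rw [M.VY (π i), Subgroup.smul_sup, Subgroup.smul_sup, hgY, hgV, M.sY, M.sV]
  constructor
  · rw [c_mul, mul_smul, e1, smul_smul, ← c_mul, inv_mul_cancel, c_one, one_smul]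
  · rw [c_mul, mul_smul, e2, smul_smul, ← c_mul, inv_mul_cancel, c_one, one_smul]

theorem quot_tor [Finite G] {Z : Subgroup G} [Z.Normal] (hZ : CenP p Z) (h : G) :
    (D.quot hZ).Tor (QuotientGroup.mk' Z h) ↔ D.Tor h := by
  unfold Tor
  rw [← smul_map_eq_iff hZ D.isP h, ← smul_map_eq_iff hZ D.isPV h]
  exact Iff.rfl

omit [Fact p.Prime] in
theorem pow_mul_mem {H : Type*} [Group H] (T : Subgroup H) {a b t1 t2 : H} (ha : a ∈ Subgroup.normalizer (T : Set H))
    (hb : b ∈ Subgroup.normalizer (T : Set H)) (h1 : t1 ∈ T) (h2 : t2 ∈ T) (k : ℕ) :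
    ∃ t ∈ T, (a * t1 * (b * t2)) ^ k = (a * b) ^ k * t := by
  have hab : a * b ∈ Subgroup.normalizer (T : Set H) := mul_mem ha hb
  have hc : ∀ g ∈ Subgroup.normalizer (T : Set H), ∀ t ∈ T, g⁻¹ * t * g ∈ T := by
    intro g hg t ht
    have := (Subgroup.mem_normalizer_iff.1 (inv_mem hg) t).1 ht
    simpa using this
  induction k with
  | zero => exact ⟨1, T.one_mem, by simp⟩
  | succ k ih =>
    obtain ⟨t, ht, e⟩ := ih
    refine ⟨((a * b)⁻¹ * t * (a * b)) * ((b⁻¹ * t1 * b) * t2), T.mul_mem (hc _ hab t ht) (T.mul_mem (hc b hb t1 h1) h2), ?_⟩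
    rw [pow_succ, e, pow_succ]; group

/-- the Coxeter matrix is preserved -/
theorem Ext.coxeter [Finite G] [Finite I] (E : D.Ext μ) {Z : Subgroup G} [Z.Normal] (hZ : CenP p Z) (β : MulAut (G ⧸ Z)) (π : Equiv.Perm I)
    (hU : β • (D.quot hZ).U = (D.quot hZ).U) (hV : β • (D.quot hZ).V = (D.quot hZ).V)
    (hX : ∀ i, β • (D.quot hZ).X i = (D.quot hZ).X (π i)) (hY : ∀ i, β • (D.quot hZ).Y i = (D.quot hZ).Y (π i))
    (i j : I) (k : ℕ) (h : D.Tor ((D.s i * D.s j) ^ k)) : D.Tor ((D.s (π i) * D.s (π j)) ^ k) := by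
  have M := (E.mini).quot hZ
  have hnorm : ∀ i, (D.quot hZ).s i ∈ Subgroup.normalizer ((D.quot hZ).T : Set (G ⧸ Z)) := by
    intro i
    rw [Subgroup.mem_normalizer_iff]
    have hn : ∀ h, D.Tor h → D.Tor ((D.s i)⁻¹ * h * D.s i) := by
      intro h hh
      have := E.torS h hh i
      constructor
      · rw [c_mul, c_mul, mul_smul, mul_smul, this.1, smul_smul, ← c_mul, inv_mul_cancel, c_one, one_smul]
      · rw [c_mul, c_mul, mul_smul, mul_smul, this.2, smul_smul, ← c_mul, inv_mul_cancel, c_one, one_smul]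
    have hs2 : D.Tor (D.s i * D.s i) := ⟨E.s2U i, E.s2V i⟩
    have hn2 : ∀ h, D.Tor h → D.Tor (D.s i * h * (D.s i)⁻¹) := by
      intro h hh
      have h1 := hn h hh
      have e : D.s i * h * (D.s i)⁻¹ = (D.s i * D.s i) * ((D.s i)⁻¹ * h * D.s i) * (D.s i * D.s i)⁻¹ := by group
      rw [e, ← D.mem_T]
      rw [← D.mem_T] at h1 hs2
      exact mul_mem (mul_mem hs2 h1) (inv_mem hs2)
    intro x
    obtain ⟨x, rfl⟩ := QuotientGroup.mk'_surjective Z x
    have e : (D.quot hZ).s i * QuotientGroup.mk' Z x * ((D.quot hZ).s i)⁻¹ = QuotientGroup.mk' Z (D.s i * x * (D.s i)⁻¹) := rfl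
    rw [e, mem_T, mem_T, quot_tor, quot_tor]
    constructor
    · exact hn2 x
    · intro h
      have := hn _ h
      have e : (D.s i)⁻¹ * (D.s i * x * (D.s i)⁻¹) * D.s i = x := by group
      rwa [e] at this
  have ti := M.tor β π hX hY i
  have tj := M.tor β π hX hY j
  rw [← mem_T] at ti tj
  obtain ⟨t, ht, e⟩ := pow_mul_mem (D.quot hZ).T (hnorm (π i)) (hnorm (π j)) ti tj k
  have e1 : (D.quot hZ).s (π i) * (((D.quot hZ).s (π i))⁻¹ * β ((D.quot hZ).s i)) * ((D.quot hZ).s (π j) * (((D.quot hZ).s (π j))⁻¹ * β ((D.quot hZ).s j))) =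
    β ((D.quot hZ).s i * (D.quot hZ).s j) := by rw [map_mul]; group
  rw [e1, ← map_pow] at e
  have h2 : β (((D.quot hZ).s i * (D.quot hZ).s j) ^ k) ∈ (D.quot hZ).T := by
    have h3 : ((D.quot hZ).s i * (D.quot hZ).s j) ^ k = QuotientGroup.mk' Z ((D.s i * D.s j) ^ k) := rfl
    have h4 : (D.quot hZ).Tor (((D.quot hZ).s i * (D.quot hZ).s j) ^ k) := by rw [h3, quot_tor]; exact h
    rw [mem_T]
    constructor
    · have := congrArg (fun H => β • H) h4.1
      simp only [smul_c, hU] at this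
      exact this
    · have := congrArg (fun H => β • H) h4.2
      simp only [smul_c, hV] at this
      exact this
  have h5 : ((D.quot hZ).s (π i) * (D.quot hZ).s (π j)) ^ k ∈ (D.quot hZ).T := by
    have : ((D.quot hZ).s (π i) * (D.quot hZ).s (π j)) ^ k = β (((D.quot hZ).s i * (D.quot hZ).s j) ^ k) * t⁻¹ := by
      rw [e]; group
    rw [this]
    exact mul_mem h2 (inv_mem ht)
  have h6 : ((D.quot hZ).s (π i) * (D.quot hZ).s (π j)) ^ k = QuotientGroup.mk' Z ((D.s (π i) * D.s (π j)) ^ k) := rfl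
  rw [mem_T, h6, quot_tor] at h5
  exact h5

end Data

end Cfsg.Agent.H8.AutBN
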