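import Mathlib
import Cfsg.Prelude.Def_StandardType
import Cfsg.Prelude.Def_LieTypeDatum
import Cfsg.Agent.H8.SLData

set_option autoImplicit false
set_option linter.all false

/-! Automorphisms of `PSL_n(F)`: the standard automorphisms. -/

namespace Cfsg.Agent.H8.AutPSL

open scoped commutatorElement
open Matrix Pointwise Cfsg.Agent.H8.AutBN Cfsg.Agent.H8.SLPat Cfsg.Agent.H8.SLTri

section std

variable {ι : Type*} [Fintype ι] [DecidableEq ι] {F : Type*} [Field F]

/-- the projection -/
abbrev Q : SpecialLinearGroup ι F →* ProjectiveSpecialLinearGroup ι F :=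
  QuotientGroup.mk' (Subgroup.center (SpecialLinearGroup ι F))

/-- induced automorphism -/
def ind : MulAut (SpecialLinearGroup ι F) →* MulAut (ProjectiveSpecialLinearGroup ι F) where
  toFun φ := QuotientGroup.congr _ _ φ (by
    exact Subgroup.characteristic_iff_map_eq.1 inferInstance φ)
  map_one' := by
    ext x
    obtain ⟨x, rfl⟩ := QuotientGroup.mk_surjective x
    rfl
  map_mul' := by
    intro φ ψ
    ext x
    obtain ⟨x, rfl⟩ := QuotientGroup.mk_surjective x
    rfl

theorem ind_apply (φ : MulAut (SpecialLinearGroup ι F)) (s : SpecialLinearGroup ι F) : ind φ (Q s) = Q (φ s) := rfl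

theorem Q_surj : Function.Surjective (Q : SpecialLinearGroup ι F →* _) := QuotientGroup.mk'_surjective _

theorem ext_Q {α β : MulAut (ProjectiveSpecialLinearGroup ι F)} (h : ∀ s, α (Q s) = β (Q s)) : α = β := by
  ext x
  obtain ⟨s, rfl⟩ := Q_surj x
  exact h s

/-- conjugation by an element of `GL` on `SL` -/
def cg : GL ι F →* MulAut (SpecialLinearGroup ι F) where
  toFun g :=
    { toFun := fun s => ⟨(g : Matrix ι ι F) * s.1 * ((g⁻¹ : GL ι F) : Matrix ι ι F), by
        rw [Matrix.det_mul, Matrix.det_mul, s.2, mul_one, ← Matrix.det_mul, ← Units.val_mul, mul_inv_cancel, Units.val_one,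
          Matrix.det_one]⟩
      invFun := fun s => ⟨((g⁻¹ : GL ι F) : Matrix ι ι F) * s.1 * (g : Matrix ι ι F), by
        rw [Matrix.det_mul, Matrix.det_mul, s.2, mul_one, ← Matrix.det_mul, ← Units.val_mul, inv_mul_cancel, Units.val_one,
          Matrix.det_one]⟩
      left_inv := fun s => by
        apply Subtype.ext
        show ((g⁻¹ : GL ι F) : Matrix ι ι F) * ((g : Matrix ι ι F) * s.1 * ((g⁻¹ : GL ι F) : Matrix ι ι F)) * (g : Matrix ι ι F) = s.1
        have h : ((g⁻¹ : GL ι F) : Matrix ι ι F) * (g : Matrix ι ι F) = 1 := by rw [← Units.val_mul, inv_mul_cancel, Units.val_one]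
        calc _ = (((g⁻¹ : GL ι F) : Matrix ι ι F) * (g : Matrix ι ι F)) * s.1 * (((g⁻¹ : GL ι F) : Matrix ι ι F) * (g : Matrix ι ι F)) := by
              simp only [mul_assoc]
          _ = s.1 := by rw [h, one_mul, mul_one]
      right_inv := fun s => by
        apply Subtype.ext
        show (g : Matrix ι ι F) * (((g⁻¹ : GL ι F) : Matrix ι ι F) * s.1 * (g : Matrix ι ι F)) * ((g⁻¹ : GL ι F) : Matrix ι ι F) = s.1
        have h : (g : Matrix ι ι F) * ((g⁻¹ : GL ι F) : Matrix ι ι F) = 1 := by rw [← Units.val_mul, mul_inv_cancel, Units.val_one]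
        calc _ = ((g : Matrix ι ι F) * ((g⁻¹ : GL ι F) : Matrix ι ι F)) * s.1 * ((g : Matrix ι ι F) * ((g⁻¹ : GL ι F) : Matrix ι ι F)) := by
              simp only [mul_assoc]
          _ = s.1 := by rw [h, one_mul, mul_one]
      map_mul' := fun s t => by
        apply Subtype.ext
        show (g : Matrix ι ι F) * (s.1 * t.1) * ((g⁻¹ : GL ι F) : Matrix ι ι F) =
          ((g : Matrix ι ι F) * s.1 * ((g⁻¹ : GL ι F) : Matrix ι ι F)) * ((g : Matrix ι ι F) * t.1 * ((g⁻¹ : GL ι F) : Matrix ι ι F))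
        have h : ((g⁻¹ : GL ι F) : Matrix ι ι F) * (g : Matrix ι ι F) = 1 := by rw [← Units.val_mul, inv_mul_cancel, Units.val_one]
        calc _ = (g : Matrix ι ι F) * s.1 * 1 * t.1 * ((g⁻¹ : GL ι F) : Matrix ι ι F) := by simp only [mul_assoc, mul_one, one_mul]
          _ = _ := by rw [← h]; simp only [mul_assoc] }
  map_one' := by
    ext s : 1
    apply Subtype.ext
    show ((1 : GL ι F) : Matrix ι ι F) * s.1 * (((1 : GL ι F)⁻¹ : GL ι F) : Matrix ι ι F) = s.1
    rw [inv_one, Units.val_one, one_mul, mul_one]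
  map_mul' := fun g h => by
    ext s : 1
    apply Subtype.ext
    show ((g * h : GL ι F) : Matrix ι ι F) * s.1 * (((g * h)⁻¹ : GL ι F) : Matrix ι ι F) =
      (g : Matrix ι ι F) * ((h : Matrix ι ι F) * s.1 * ((h⁻¹ : GL ι F) : Matrix ι ι F)) * ((g⁻¹ : GL ι F) : Matrix ι ι F)
    rw [_root_.mul_inv_rev, Units.val_mul, Units.val_mul]
    simp only [mul_assoc]

theorem cg_coe (g : GL ι F) (s : SpecialLinearGroup ι F) :
    (cg g s).1 = (g : Matrix ι ι F) * s.1 * ((g⁻¹ : GL ι F) : Matrix ι ι F) := rfl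

theorem conj_eq_cg (g : SpecialLinearGroup ι F) : MulAut.conj g = cg (SpecialLinearGroup.toGL g) := by
  ext s : 1
  apply Subtype.ext
  rfl

/-- field automorphism on `SL` -/
def fl : (F ≃+* F) →* MulAut (SpecialLinearGroup ι F) where
  toFun σ :=
    { toFun := fun s => SpecialLinearGroup.map (σ : F →+* F) s
      invFun := fun s => SpecialLinearGroup.map (σ.symm : F →+* F) s
      left_inv := fun s => by
        ext i j
        simp
      right_inv := fun s => by
        ext i j
        simp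
      map_mul' := fun s t => map_mul _ _ _ }
  map_one' := by
    ext s : 1
    ext i j
    rfl
  map_mul' := fun σ τ => by
    ext s : 1
    ext i j
    rfl

theorem fl_coe (σ : F ≃+* F) (s : SpecialLinearGroup ι F) : (fl σ s).1 = s.1.map σ := rfl

/-- transpose -/
def tps (s : SpecialLinearGroup ι F) : SpecialLinearGroup ι F := ⟨s.1.transpose, by rw [Matrix.det_transpose, s.2]⟩

theorem tps_mul (s t : SpecialLinearGroup ι F) : tps (s * t) = tps t * tps s := by
  apply Subtype.ext
  show (s.1 * t.1).transpose = t.1.transpose * s.1.transpose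
  rw [Matrix.transpose_mul]

theorem tps_one : tps (1 : SpecialLinearGroup ι F) = 1 := by
  apply Subtype.ext
  show (1 : Matrix ι ι F).transpose = 1
  rw [Matrix.transpose_one]

theorem tps_inv (s : SpecialLinearGroup ι F) : (tps s)⁻¹ = tps s⁻¹ := by
  rw [inv_eq_iff_mul_eq_one, ← tps_mul, inv_mul_cancel, tps_one]

theorem tps_tps (s : SpecialLinearGroup ι F) : tps (tps s) = s := by
  apply Subtype.ext
  exact Matrix.transpose_transpose _

/-- inverse transpose -/
def it : MulAut (SpecialLinearGroup ι F) where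
  toFun s := tps s⁻¹
  invFun s := tps s⁻¹
  left_inv := fun s => by
    show tps (tps s⁻¹)⁻¹ = s
    rw [tps_inv, inv_inv, tps_tps]
  right_inv := fun s => by
    show tps (tps s⁻¹)⁻¹ = s
    rw [tps_inv, inv_inv, tps_tps]
  map_mul' := fun s t => by
    show tps (s * t)⁻¹ = tps s⁻¹ * tps t⁻¹
    rw [← tps_mul, _root_.mul_inv_rev]

theorem it_coe (s : SpecialLinearGroup ι F) : (it s).1 = (s⁻¹).1.transpose := rfl

theorem it_mul_it : (it * it : MulAut (SpecialLinearGroup ι F)) = 1 := by
  ext s : 1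
  exact it.left_inv s

theorem isInnerDiag_iff {n : ℕ} {β : MulAut (ProjectiveSpecialLinearGroup (Fin n) F)} :
    Cfsg.IsInnerDiagonalAutPSL β ↔ ∃ g, β = ind (cg g) := by
  constructor
  · rintro ⟨g, hg⟩
    refine ⟨g, ext_Q fun s => ?_⟩
    exact hg s (cg g s) rfl
  · rintro ⟨g, rfl⟩
    refine ⟨g, fun s s' h => ?_⟩
    have : s' = cg g s := Subtype.ext h
    rw [this]; rfl

theorem isField_iff {n : ℕ} {σ : F ≃+* F} {β : MulAut (ProjectiveSpecialLinearGroup (Fin n) F)} :
    Cfsg.IsStdFieldAutPSL σ β ↔ β = ind (fl σ) := by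
  constructor
  · intro h
    refine ext_Q fun s => ?_
    exact h s (fl σ s) rfl
  · rintro rfl s s' h
    have : s' = fl σ s := Subtype.ext h
    rw [this]; rfl

theorem isIT_iff {n : ℕ} {β : MulAut (ProjectiveSpecialLinearGroup (Fin n) F)} :
    Cfsg.IsInverseTransposeAutPSL β ↔ β = ind it := by
  constructor
  · intro h
    refine ext_Q fun s => ?_
    exact h s (it s) rfl
  · rintro rfl s s' h
    have : s' = it s := Subtype.ext h
    rw [this]; rfl

theorem isSemi_iff {n : ℕ} {g : GL (Fin n) F} {σ : F ≃+* F} {β : MulAut (ProjectiveSpecialLinearGroup (Fin n) F)} :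
    Cfsg.IsInducedBySemilinearPSL g σ β ↔ β = ind (cg g * fl σ) := by
  constructor
  · intro h
    refine ext_Q fun s => ?_
    exact h s (cg g (fl σ s)) rfl
  · rintro rfl s s' h
    have : s' = cg g (fl σ s) := Subtype.ext h
    rw [this]; rfl

/-- map of a field automorphism on `GL` -/
abbrev mg (σ : F ≃+* F) : GL ι F →* GL ι F := GeneralLinearGroup.map (σ : F →+* F)

theorem fl_mul_cg (σ : F ≃+* F) (g : GL ι F) : fl σ * cg g = cg (mg σ g) * fl σ := by
  ext s : 1
  apply Subtype.ext
  show ((g : Matrix ι ι F) * s.1 * ((g⁻¹ : GL ι F) : Matrix ι ι F)).map σ =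
    ((mg σ g : GL ι F) : Matrix ι ι F) * s.1.map σ * (((mg σ g)⁻¹ : GL ι F) : Matrix ι ι F)
  rw [← map_inv]
  have h1 : ∀ A B : Matrix ι ι F, (A * B).map σ = A.map σ * B.map σ := fun A B => Matrix.map_mul (f := (σ : F →+* F))
  rw [h1, h1]
  rfl

/-- inverse transpose on `GL` -/
def itg (g : GL ι F) : GL ι F := ⟨((g⁻¹ : GL ι F) : Matrix ι ι F).transpose, (g : Matrix ι ι F).transpose,
  by rw [← Matrix.transpose_mul, ← Units.val_mul, mul_inv_cancel, Units.val_one, Matrix.transpose_one],
  by rw [← Matrix.transpose_mul, ← Units.val_mul, inv_mul_cancel, Units.val_one, Matrix.transpose_one]⟩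

theorem it_mul_cg (g : GL ι F) : it * cg g = cg (itg g) * it := by
  ext s : 1
  apply Subtype.ext
  show ((cg g s)⁻¹).1.transpose = ((g⁻¹ : GL ι F) : Matrix ι ι F).transpose * (s⁻¹).1.transpose * (g : Matrix ι ι F).transpose
  rw [← map_inv, cg_coe, Matrix.transpose_mul, Matrix.transpose_mul, Matrix.mul_assoc]

theorem it_mul_fl (σ : F ≃+* F) : (it * fl σ : MulAut (SpecialLinearGroup ι F)) = fl σ * it := by
  ext s : 1
  apply Subtype.ext
  show ((fl σ s)⁻¹).1.transpose = ((s⁻¹).1.transpose).map σ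
  rw [← map_inv]
  rfl

end std

end Cfsg.Agent.H8.AutPSL
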