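import Mathlib
import Cfsg.Agent.H8.AutPSL

set_option autoImplicit false
set_option linter.all false

/-! Automorphisms of `PSL_n(F)`: every automorphism is standard. -/

namespace Cfsg.Agent.H8.AutPSL

open scoped commutatorElement
open Matrix Pointwise Cfsg.Agent.H8.AutBN Cfsg.Agent.H8.SLPat Cfsg.Agent.H8.SLTri

section gen

variable {ι : Type*} [Fintype ι] [DecidableEq ι] {F : Type*} [Field F]

theorem t_mul_apply {p q : ι} (hpq : p ≠ q) (t : F) (w : SpecialLinearGroup ι F) (a b : ι) :
    (SpecialLinearGroup.transvection hpq t * w) a b = w a b + (if a = p then t * w q b else 0) := by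
  rw [slmul_apply]
  have : ∀ k, (SpecialLinearGroup.transvection hpq t : SpecialLinearGroup ι F) a k * w k b =
      (if k = a then w a b else 0) + (if k = q then (if a = p then t * w q b else 0) else 0) := by
    intro k
    rw [transvection_apply]
    by_cases h1 : k = a
    · subst h1
      by_cases h2 : k = p
      · subst h2; simp [hpq]
      · by_cases h3 : k = q
        · subst h3; simp [h2]
        · simp [h2, h3]
    · by_cases h2 : k = q
      · subst h2
        by_cases h3 : a = p
        · subst h3; simp [h1, Ne.symm h1]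
        · simp [h1, h3, Ne.symm h1]
      · simp [h1, h2, Ne.symm h1]
  rw [Finset.sum_congr rfl (fun k _ => this k), Finset.sum_add_distrib]
  simp

theorem mul_t_apply {p q : ι} (hpq : p ≠ q) (t : F) (w : SpecialLinearGroup ι F) (a b : ι) :
    (w * SpecialLinearGroup.transvection hpq t) a b = w a b + (if b = q then w a p * t else 0) := by
  rw [slmul_apply]
  have : ∀ k, w a k * (SpecialLinearGroup.transvection hpq t : SpecialLinearGroup ι F) k b =
      (if k = b then w a b else 0) + (if k = p then (if b = q then w a p * t else 0) else 0) := by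
    intro k
    rw [transvection_apply]
    by_cases g1 : k = b
    · subst g1
      by_cases g2 : k = q
      · subst g2
        by_cases g3 : k = p
        · exact absurd g3.symm hpq
        · simp [g3]
      · by_cases g3 : k = p
        · subst g3; simp [g2]
        · simp [g2, g3]
    · by_cases g2 : k = p
      · subst g2
        by_cases g3 : b = q
        · subst g3; simp [g1]
        · simp [g1, g3]
      · simp [g1, g2]
  rw [Finset.sum_congr rfl (fun k _ => this k), Finset.sum_add_distrib]
  simp

theorem comm_t {i j k : ι} (hij : i ≠ j) (hik : i ≠ k) (hkj : k ≠ j) (a b : F) :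
    ⁅(SpecialLinearGroup.transvection hik a : SpecialLinearGroup ι F), SpecialLinearGroup.transvection hkj b⁆
      = SpecialLinearGroup.transvection hij (a * b) := by
  rw [commutatorElement_def, SpecialLinearGroup.transvection_inv, SpecialLinearGroup.transvection_inv]
  apply Subtype.ext
  show (1 + Matrix.single i k a) * (1 + Matrix.single k j b) * (1 + Matrix.single i k (-a)) * (1 + Matrix.single k j (-b)) =
    1 + Matrix.single i j (a * b)
  have a1 : Matrix.single k j b * Matrix.single i k a = 0 :=
    Matrix.single_mul_single_of_ne _ _ _ _ hij.symm _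
  have a2 : Matrix.single i k a * Matrix.single i k a = 0 :=
    Matrix.single_mul_single_of_ne _ _ _ _ hik.symm _
  have a3 : Matrix.single k j b * Matrix.single k j b = 0 :=
    Matrix.single_mul_single_of_ne _ _ _ _ hkj.symm _
  have a4 : Matrix.single i j (a * b) * Matrix.single i k a = 0 :=
    Matrix.single_mul_single_of_ne _ _ _ _ hij.symm _
  have a5 : Matrix.single i j (a * b) * Matrix.single k j b = 0 :=
    Matrix.single_mul_single_of_ne _ _ _ _ hkj.symm _
  have a6 : Matrix.single i k a * Matrix.single k j b = Matrix.single i j (a * b) := by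
    rw [Matrix.single_mul_single_same]
  rw [Cfsg.Agent.Lib.SLn.single_neg', Cfsg.Agent.Lib.SLn.single_neg']
  generalize Matrix.single i j (a * b) = X at *
  generalize Matrix.single i k a = Y at *
  generalize Matrix.single k j b = Z at *
  simp only [mul_add, add_mul, mul_one, one_mul, mul_neg, neg_mul, a1, a2, a3, a4, a5, a6,
    neg_zero, zero_mul, add_zero, zero_add]
  abel

theorem cenP {p : ℕ} [Fact p.Prime] [CharP F p] [Nonempty ι] : CenP p (Subgroup.center (SpecialLinearGroup ι F)) where
  cen := fun z hz g => (Subgroup.mem_center_iff.1 hz g).symm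
  prime := by
    intro z hz h
    obtain ⟨r, hr, e⟩ := Matrix.SpecialLinearGroup.mem_center_iff.1 hz
    obtain ⟨i⟩ := ‹Nonempty ι›
    have h1 : r ^ p = 1 := by
      have h2 := congrArg (fun g : SpecialLinearGroup ι F => g i i) h
      have h3 : (z ^ p).1 = (Matrix.scalar ι (r ^ p)) := by
        show z.1 ^ p = _
        rw [← e, ← map_pow]
      have h4 : (z ^ p) i i = r ^ p := by
        show (z ^ p).1 i i = _
        rw [h3]; simp
      rw [← h4, h, slone_apply, if_pos rfl]
    have h2 : r = 1 := by
      have : (r - 1) ^ p = 0 := by rw [sub_pow_char, h1, one_pow, sub_self]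
      exact sub_eq_zero.1 (eq_zero_of_pow_eq_zero this)
    apply Subtype.ext
    rw [← e, h2, map_one]; rfl

theorem t_pow_p {p : ℕ} [Fact p.Prime] [CharP F p] {a b : ι} (h : a ≠ b) (t : F) :
    (SpecialLinearGroup.transvection h t : SpecialLinearGroup ι F) ^ p = 1 := by
  have : ∀ k : ℕ, (SpecialLinearGroup.transvection h t : SpecialLinearGroup ι F) ^ k = SpecialLinearGroup.transvection h (k * t) := by
    intro k
    induction k with
    | zero => rw [pow_zero, Nat.cast_zero, zero_mul, SpecialLinearGroup.transvection_coeff_zero]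
    | succ k ih => rw [pow_succ, ih, ← SpecialLinearGroup.transvection_add]; congr 1; push_cast; ring
  rw [this, CharP.cast_eq_zero, zero_mul, SpecialLinearGroup.transvection_coeff_zero]

/-- equality in the quotient of conjugates of transvections -/
theorem Q_inj {p : ℕ} [Fact p.Prime] [CharP F p] [Nonempty ι] {u v : SpecialLinearGroup ι F} (hu : ∃ k, u ^ p ^ k = 1)
    (hv : ∃ k, v ^ p ^ k = 1) (h : Q u = Q v) : u = v := by
  have h1 : u⁻¹ * v ∈ Subgroup.center (SpecialLinearGroup ι F) := QuotientGroup.eq.1 h
  have := (cenP (F := F) (ι := ι) (p := p)).eq_one (a := u) (b := v) h1 (by group) hu hv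
  rw [inv_mul_eq_one] at this
  exact this

theorem mult_of_sq [Finite F] (f : F → F) (hadd : ∀ s t, f (s + t) = f s + f t) (h1 : f 1 = 1)
    (h : ∀ t s, f (t ^ 2 * s) = f t ^ 2 * f s) : ∀ t s, f (t * s) = f t * f s := by
  have hsq : ∀ t, f (t ^ 2) = f t ^ 2 := by
    intro t; have := h t 1; rwa [mul_one, h1, mul_one] at this
  intro t s
  by_cases h2 : (2 : F) = 0
  · have : CharP F 2 := CharTwo.of_one_ne_zero_of_two_eq_zero one_ne_zero h2
    obtain ⟨r, hr⟩ : ∃ r, r ^ 2 = t := by
      have hi : Function.Injective (frobenius F 2) := frobenius_inj F 2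
      obtain ⟨r, hr⟩ := (Finite.injective_iff_surjective.1 hi) t
      exact ⟨r, hr⟩
    rw [← hr, h, hsq]
  · have h3 := hsq (t + s)
    rw [hadd, show (t + s) ^ 2 = t ^ 2 + (t * s + t * s) + s ^ 2 by ring, hadd, hadd, hadd, hsq, hsq] at h3
    have h4 : 2 * f (t * s) = 2 * (f t * f s) := by linear_combination h3
    exact mul_left_cancel₀ h2 h4

end gen

variable {m : ℕ} {F : Type*} [Field F]

theorem x_add (i : Fin m) (s t : F) : x i (s + t) = x i s * x i t := SpecialLinearGroup.transvection_add _ _ _
theorem y_add (i : Fin m) (s t : F) : y i (s + t) = y i s * y i t := SpecialLinearGroup.transvection_add _ _ _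

theorem x_inj (i : Fin m) {s t : F} (h : x i s = x i t) : s = t := by
  have : (x i s : SpecialLinearGroup (Fin (m + 1)) F) i.castSucc i.succ = (x i t : SpecialLinearGroup (Fin (m + 1)) F) i.castSucc i.succ := by rw [h]
  rw [x, x, transvection_apply, transvection_apply] at this
  simpa [ne_i i] using this

theorem y_inj (i : Fin m) {s t : F} (h : y i s = y i t) : s = t := by
  have : (y i s : SpecialLinearGroup (Fin (m + 1)) F) i.succ i.castSucc = (y i t : SpecialLinearGroup (Fin (m + 1)) F) i.succ i.castSucc := by rw [h]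
  rw [y, y, transvection_apply, transvection_apply] at this
  simpa [(ne_i i).symm] using this

theorem rank_one (i : Fin m) {a b c r r' : F} (hr : r ≠ 0)
    (h : x i a * y i b * x i c * x i r = y i r' * (x i a * y i b * x i c)) : 1 + a * b = 0 := by
  have e1 : (x i a * y i b * x i c * x i r : SpecialLinearGroup (Fin (m + 1)) F) i.castSucc i.succ =
    (y i r' * (x i a * y i b * x i c) : SpecialLinearGroup (Fin (m + 1)) F) i.castSucc i.succ := by rw [h]
  rw [x, x, x, y, y, mul_t_apply, t_mul_apply, if_pos rfl, if_neg (ne_i i), add_zero] at e1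
  have e2 : (SpecialLinearGroup.transvection (ne_i i) a * SpecialLinearGroup.transvection (ne_i i).symm b *
      SpecialLinearGroup.transvection (ne_i i) c : SpecialLinearGroup (Fin (m + 1)) F) i.castSucc i.castSucc * r = 0 := by
    linear_combination e1
  have e3 := (mul_eq_zero.1 e2).resolve_right hr
  rw [mul_t_apply, t_mul_apply, if_neg (ne_i i), add_zero, if_pos rfl, transvection_apply, transvection_apply] at e3
  simpa [ne_i i, (ne_i i).symm] using e3

variable [Finite F]

theorem p_conj {p : ℕ} {G : Type*} [Group G] {g h : G} {k : ℕ} (hk : g ^ p ^ k = 1) : ∃ k, (h * g * h⁻¹) ^ p ^ k = 1 :=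
  ⟨k, by rw [conj_pow, hk]; simp⟩

theorem main0 (p : ℕ) [Fact p.Prime] [CharP F p] (hm : 0 < m) (β : MulAut (ProjectiveSpecialLinearGroup (Fin (m + 1)) F)) (f g : Fin m → F → F)
    (hf : ∀ i t, β (Q (x i t)) = Q (x i (f i t))) (hg : ∀ i t, β (Q (y i t)) = Q (y i (g i t)))
    (h1 : ∀ i, f i 1 = 1) : ∃ σ : F ≃+* F, β = ind (fl σ) := by
  have px : ∀ (i : Fin m) (t : F), ∃ k, (x i t) ^ p ^ k = 1 := fun i t => ⟨1, by rw [pow_one]; exact t_pow_p _ t⟩
  have py : ∀ (i : Fin m) (t : F), ∃ k, (y i t) ^ p ^ k = 1 := fun i t => ⟨1, by rw [pow_one]; exact t_pow_p _ t⟩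
  have Qx : ∀ (i : Fin m) (s t : F), Q (x i s) = Q (x i t) → s = t := fun i s t h => x_inj i (Q_inj (px i s) (px i t) h)
  have Qy : ∀ (i : Fin m) (s t : F), Q (y i s) = Q (y i t) → s = t := fun i s t h => y_inj i (Q_inj (py i s) (py i t) h)
  have fadd : ∀ i s t, f i (s + t) = f i s + f i t := by
    intro i s t
    apply Qx i
    rw [← hf, x_add, map_mul, map_mul, hf, hf, ← map_mul, ← x_add]
  have gadd : ∀ i s t, g i (s + t) = g i s + g i t := by
    intro i s t
    apply Qy i
    rw [← hg, y_add, map_mul, map_mul, hg, hg, ← map_mul, ← y_add]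
  have f0 : ∀ i, f i 0 = 0 := by intro i; have := fadd i 0 0; simpa using this
  have g0 : ∀ i, g i 0 = 0 := by intro i; have := gadd i 0 0; simpa using this
  have fneg : ∀ i t, f i (-t) = - f i t := by
    intro i t; have := fadd i t (-t); rw [add_neg_cancel, f0] at this; exact (neg_eq_of_add_eq_zero_right this.symm).symm
  have gneg : ∀ i t, g i (-t) = - g i t := by
    intro i t; have := gadd i t (-t); rw [add_neg_cancel, g0] at this; exact (neg_eq_of_add_eq_zero_right this.symm).symm
  have finj : ∀ i s t, f i s = f i t → s = t := by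
    intro i s t h
    have : β (Q (x i s)) = β (Q (x i t)) := by rw [hf, hf, h]
    exact Qx i _ _ (β.injective this)
  have fne : ∀ i t, t ≠ 0 → f i t ≠ 0 := by
    intro i t ht h; exact ht (finj i _ _ (by rw [h, f0]))
  -- rank one relation
  have rel : ∀ (i : Fin m) (t s : F), t ≠ 0 →
      x i (f i t) * y i (g i (-t⁻¹)) * x i (f i t) * x i (f i s) =
        y i (g i (-(t⁻¹ ^ 2 * s))) * (x i (f i t) * y i (g i (-t⁻¹)) * x i (f i t)) := by
    intro i t s ht
    have e := nn_mul (F := F) (ne_i i) ht s
    have e2 : β (Q (x i t * y i (-t⁻¹) * x i t * x i s)) = β (Q (y i (-(t⁻¹ ^ 2 * s)) * (x i t * y i (-t⁻¹) * x i t))) := by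
      congr 2
    simp only [map_mul, hf, hg] at e2
    simp only [← map_mul] at e2
    obtain ⟨w, hw⟩ : ∃ w, w = x i (f i t) * y i (g i (-t⁻¹)) * x i (f i t) := ⟨_, rfl⟩
    rw [← hw] at e2 ⊢
    have e3 : Q (w * x i (f i s) * w⁻¹) = Q (y i (g i (-(t⁻¹ ^ 2 * s)))) := by
      rw [map_mul, e2, map_mul, map_inv, mul_inv_cancel_right]
    have e4 := Q_inj (p := p) (by
      obtain ⟨k, hk⟩ := px i (f i s)
      exact p_conj hk) (py i _) e3
    rw [← e4]; group
  have gf : ∀ i t, t ≠ 0 → g i (-t⁻¹) = - (f i t)⁻¹ := by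
    intro i t ht
    have h2 := rank_one i (one_ne_zero (α := F)) (by have := rel i t 1 ht; rwa [h1] at this)
    have h3 := fne i t ht
    apply mul_left_cancel₀ h3
    rw [mul_neg, mul_inv_cancel₀ h3]
    linear_combination h2
  have gf2 : ∀ i t s, t ≠ 0 → g i (-(t⁻¹ ^ 2 * s)) = - ((f i t)⁻¹ ^ 2 * f i s) := by
    intro i t s ht
    have e := rel i t s ht
    rw [gf i t ht] at e
    have e2 := nn_mul (F := F) (ne_i i) (fne i t ht) (f i s)
    have e3 : x i (f i t) * y i (-(f i t)⁻¹) * x i (f i t) * x i (f i s) =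
      y i (-((f i t)⁻¹ ^ 2 * f i s)) * (x i (f i t) * y i (-(f i t)⁻¹) * x i (f i t)) := e2
    rw [e3] at e
    exact (y_inj i (mul_right_cancel e)).symm
  have geq : ∀ i t, g i t = f i t := by
    intro i t
    have := gf2 i 1 (-t) one_ne_zero
    rw [h1, fneg] at this
    simpa using this
  have finv : ∀ i t, t ≠ 0 → f i t⁻¹ = (f i t)⁻¹ := by
    intro i t ht
    have := gf i t ht
    rw [geq, fneg] at this
    exact neg_injective this
  have fsq : ∀ i t s, f i (t ^ 2 * s) = f i t ^ 2 * f i s := by
    intro i t s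
    by_cases ht : t = 0
    · subst ht; rw [f0]; simp [f0]
    · have := gf2 i t⁻¹ s (inv_ne_zero ht)
      rw [geq, fneg, inv_inv, finv i t ht, inv_inv] at this
      exact neg_injective this
  have fmul : ∀ i t s, f i (t * s) = f i t * f i s := fun i => mult_of_sq (f i) (fadd i) (h1 i) (fsq i)
  -- comparison of neighbours
  have fnb : ∀ (i : ℕ) (hi : i + 1 < m) (t : F), f ⟨i, by omega⟩ t = f ⟨i + 1, hi⟩ t := by
    intro i hi t
    set a : Fin m := ⟨i, by omega⟩ with ha
    set b : Fin m := ⟨i + 1, hi⟩ with hb
    have hab : a.succ = b.castSucc := by ext; simp [ha, hb]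
    have hac : a.castSucc ≠ b.succ := by
      intro h; have := congrArg Fin.val h; simp [ha, hb] at this; omega
    have hk : b.castSucc ≠ b.succ := ne_i b
    have hik : a.castSucc ≠ b.castSucc := by rw [← hab]; exact ne_i a
    have hx : ∀ t : F, x a t = SpecialLinearGroup.transvection hik t := by
      intro t; rw [x]
    have cm : ∀ s t : F, ⁅x a s, x b t⁆ = SpecialLinearGroup.transvection hac (s * t) := by
      intro s t
      rw [hx]
      exact comm_t hac hik hk s t
    have c1 : ⁅x a t, x b (1 : F)⁆ = ⁅x a (1 : F), x b t⁆ := by rw [cm, cm, mul_one, one_mul]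
    have c2 := congrArg (fun z => β (Q z)) c1
    simp only [map_commutatorElement, hf] at c2
    rw [← map_commutatorElement, ← map_commutatorElement, cm, cm, h1, h1, mul_one, one_mul] at c2
    have c3 := Q_inj (p := p) ⟨1, by rw [pow_one]; exact t_pow_p _ _⟩ ⟨1, by rw [pow_one]; exact t_pow_p _ _⟩ c2
    have c4 : (SpecialLinearGroup.transvection hac (f a t) : SpecialLinearGroup (Fin (m + 1)) F) a.castSucc b.succ =
      (SpecialLinearGroup.transvection hac (f b t) : SpecialLinearGroup (Fin (m + 1)) F) a.castSucc b.succ := by rw [c3]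
    rw [transvection_apply, transvection_apply] at c4
    simpa [hac] using c4
  have fall : ∀ (k : ℕ) (hk : k < m) (t : F), f ⟨k, hk⟩ t = f ⟨0, hm⟩ t := by
    intro k
    induction k with
    | zero => intro hk t; rfl
    | succ k ih => intro hk t; rw [← fnb k hk t, ih]
  let φ : F →+* F :=
    { toFun := f ⟨0, hm⟩
      map_one' := h1 _
      map_mul' := fmul _
      map_zero' := f0 _
      map_add' := fadd _ }
  let σ : F ≃+* F := RingEquiv.ofBijective φ (Finite.injective_iff_bijective.1 φ.injective)
  have hσ : ∀ i t, σ t = f i t := by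
    intro i t
    have := fall i i.2 t
    exact this.symm
  refine ⟨σ, ext_Q fun s => ?_⟩
  rw [ind_apply]
  have key : ∀ s, s ∈ (⊤ : Subgroup (SpecialLinearGroup (Fin (m + 1)) F)) := fun s => trivial
  let K : Subgroup (SpecialLinearGroup (Fin (m + 1)) F) :=
    MonoidHom.eqLocus ((β : _ →* ProjectiveSpecialLinearGroup (Fin (m + 1)) F).comp Q) (Q.comp ((fl σ : SpecialLinearGroup (Fin (m + 1)) F ≃* _) : SpecialLinearGroup (Fin (m + 1)) F →* _))
  have hK : K = ⊤ := by
    have hmap : ∀ {a b : Fin (m + 1)} (h : a ≠ b) (t : F), fl σ (SpecialLinearGroup.transvection h t) =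
        SpecialLinearGroup.transvection h (σ t) := by
      intro a b h t
      ext i j
      show σ ((SpecialLinearGroup.transvection h t : SpecialLinearGroup (Fin (m + 1)) F) i j) = _
      rw [transvection_apply, transvection_apply]
      split_ifs <;> simp
    apply mem_of_gen
    · intro i t
      show β (Q (x i t)) = Q (fl σ (x i t))
      rw [hf, x, x, hmap, hσ i]
    · intro i t
      show β (Q (y i t)) = Q (fl σ (y i t))
      rw [hg, geq, y, y, hmap, hσ i]
  have : s ∈ K := by rw [hK]; trivial
  exact this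

end Cfsg.Agent.H8.AutPSL
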