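import Mathlib
import Cfsg.Agent.H8.AutPSL2

set_option autoImplicit false
set_option linter.all false

/-! Automorphisms of `PSL_n(F)`: the main theorem. -/

namespace Cfsg.Agent.H8.AutPSL

open scoped commutatorElement
open Matrix Pointwise Cfsg.Agent.H8.AutBN Cfsg.Agent.H8.SLPat Cfsg.Agent.H8.SLTri

section gen

variable {ι : Type*} [Fintype ι] [DecidableEq ι] {F : Type*} [Field F]

theorem conj_Q (s : SpecialLinearGroup ι F) : MulAut.conj (Q s) = ind (MulAut.conj s) := by
  apply ext_Q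
  intro t
  rfl

theorem conj_Q' (s : SpecialLinearGroup ι F) : MulAut.conj (Q s) = ind (cg (SpecialLinearGroup.toGL s)) := by
  rw [conj_Q, conj_eq_cg]

/-- diagonal matrix -/
def dg (e : ι → Fˣ) : GL ι F := ⟨Matrix.diagonal (fun i => (e i : F)), Matrix.diagonal (fun i => ((e i)⁻¹ : Fˣ)),
  by rw [Matrix.diagonal_mul_diagonal]; simp, by rw [Matrix.diagonal_mul_diagonal]; simp⟩

theorem cg_dg (e : ι → Fˣ) {a b : ι} (h : a ≠ b) (t : F) :
    cg (dg e) (SpecialLinearGroup.transvection h t) = SpecialLinearGroup.transvection h ((e a : F) * t * ((e b)⁻¹ : Fˣ)) := by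
  apply Subtype.ext
  show Matrix.diagonal (fun i => (e i : F)) * (1 + Matrix.single a b t) * Matrix.diagonal (fun i => (((e i)⁻¹ : Fˣ) : F)) =
    1 + Matrix.single a b ((e a : F) * t * ((e b)⁻¹ : Fˣ))
  rw [mul_add, add_mul, mul_one, Matrix.diagonal_mul_diagonal]
  congr 1
  · simp
  · ext i j
    rw [Matrix.mul_diagonal, Matrix.diagonal_mul, Matrix.single_apply, Matrix.single_apply]
    by_cases h1 : a = i ∧ b = j
    · rw [if_pos h1, if_pos h1, h1.1, h1.2]
    · rw [if_neg h1, if_neg h1]; simp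

theorem mono_t {n : SpecialLinearGroup ι F} {ω : Equiv.Perm ι} (h : Mono n ω) {a b : ι} (hab : a ≠ b)
    (hab' : ω a ≠ ω b) (t : F) :
    ∃ t', n * SpecialLinearGroup.transvection hab t * n⁻¹ = SpecialLinearGroup.transvection hab' t' := by
  refine ⟨n (ω a) a * t * (n (ω b) b)⁻¹, ?_⟩
  rw [mul_inv_eq_iff_eq_mul]
  ext i j
  rw [mul_t_apply, t_mul_apply]
  by_cases hj : j = b
  · subst hj
    rw [if_pos rfl]
    by_cases hi : i = ω a
    · subst hi
      rw [if_pos rfl]
      have := h.ne_zero j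
      field_simp
    · rw [h i a hi, zero_mul, if_neg hi]
  · rw [if_neg hj]
    by_cases hi : i = ω a
    · subst hi
      rw [if_pos rfl, h (ω b) j (fun e => hj (ω.injective e.symm)), mul_zero]
    · rw [if_neg hi]

theorem tps_t {a b : ι} (h : a ≠ b) (t : F) :
    tps (SpecialLinearGroup.transvection h t) = SpecialLinearGroup.transvection h.symm t := by
  apply Subtype.ext
  show (1 + Matrix.single a b t).transpose = 1 + Matrix.single b a t
  rw [Matrix.transpose_add, Matrix.transpose_one, Matrix.transpose_single]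

theorem it_t {a b : ι} (h : a ≠ b) (t : F) :
    it (SpecialLinearGroup.transvection h t) = SpecialLinearGroup.transvection h.symm (-t) := by
  show tps (SpecialLinearGroup.transvection h t)⁻¹ = _
  rw [SpecialLinearGroup.transvection_inv, tps_t]

end gen

theorem charP_of_card {F : Type*} [Field F] [Fintype F] {p f : ℕ} [Fact p.Prime] (hF : Fintype.card F = p ^ f) (hf : 1 ≤ f) :
    CharP F p := by
  have : (Fintype.card F : F) = 0 := FiniteField.cast_card_eq_zero F
  have h0 : ((p : ℕ) : F) = 0 := by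
    rw [hF] at this; push_cast at this
    exact pow_eq_zero_iff (by omega) |>.1 this
  obtain ⟨q, hq⟩ := CharP.exists F
  have h1 := (CharP.cast_eq_zero_iff F q p).1 h0
  rcases (Nat.dvd_prime (Fact.out : p.Prime)).1 h1 with h | h
  · subst h
    have := CharP.cast_eq_zero F 1
    rw [Nat.cast_one] at this
    exact absurd this one_ne_zero
  · subst h; exact hq

theorem perm_path {m : ℕ} (π : Equiv.Perm (Fin m))
    (h : ∀ (i : ℕ) (hi : i + 1 < m), (π ⟨i, by omega⟩ : ℕ) + 1 = π ⟨i + 1, hi⟩ ∨ (π ⟨i + 1, hi⟩ : ℕ) + 1 = π ⟨i, by omega⟩) :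
    π = 1 ∨ π = Fin.revPerm := by
  rcases Nat.lt_or_ge m 2 with hm | hm
  · left
    ext i
    have := i.2
    have := (π i).2
    have := ((1 : Equiv.Perm (Fin m)) i).2
    omega
  · have hinj : ∀ (i j : ℕ) (hi : i < m) (hj : j < m), (π ⟨i, hi⟩ : ℕ) = π ⟨j, hj⟩ → i = j := by
      intro i j hi hj h
      have := π.injective (Fin.ext h)
      simpa using this
    rcases h 0 (by omega) with h0 | h0
    · left
      have key : ∀ (k : ℕ) (hk : k < m), (π ⟨k, hk⟩ : ℕ) = π ⟨0, by omega⟩ + k ∧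
          (∀ hk' : k + 1 < m, (π ⟨k, hk⟩ : ℕ) + 1 = π ⟨k + 1, hk'⟩) := by
        intro k
        induction k with
        | zero => intro hk; exact ⟨rfl, fun hk' => h0⟩
        | succ k ih =>
          intro hk
          obtain ⟨h1, h2⟩ := ih (by omega)
          have h3 := h2 hk
          refine ⟨by omega, fun hk' => ?_⟩
          rcases h (k + 1) hk' with h4 | h4
          · exact h4
          · exfalso
            have := hinj k (k + 1 + 1) (by omega) hk' (by omega)
            omega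
      have h5 := (key (m - 1) (by omega)).1
      have h6 := (π ⟨m - 1, by omega⟩).2
      ext i
      have h7 := (key i i.2).1
      show (π i : ℕ) = i
      have : (⟨(i : ℕ), i.2⟩ : Fin m) = i := rfl
      rw [this] at h7
      omega
    · right
      have key : ∀ (k : ℕ) (hk : k < m), (π ⟨k, hk⟩ : ℕ) + k = π ⟨0, by omega⟩ ∧
          (∀ hk' : k + 1 < m, (π ⟨k + 1, hk'⟩ : ℕ) + 1 = π ⟨k, hk⟩) := by
        intro k
        induction k with
        | zero => intro hk; exact ⟨rfl, fun hk' => h0⟩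
        | succ k ih =>
          intro hk
          obtain ⟨h1, h2⟩ := ih (by omega)
          have h3 := h2 hk
          refine ⟨by omega, fun hk' => ?_⟩
          rcases h (k + 1) hk' with h4 | h4
          · exfalso
            have := hinj k (k + 1 + 1) (by omega) hk' (by omega)
            omega
          · exact h4
      have h5 := (key (m - 1) (by omega)).1
      have h6 := (π ⟨0, by omega⟩).2
      ext i
      have h7 := (key i i.2).1
      show (π i : ℕ) = Fin.rev i
      have : (⟨(i : ℕ), i.2⟩ : Fin m) = i := rfl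
      rw [this] at h7
      rw [Fin.val_rev]
      omega

variable {m : ℕ} {F : Type*} [Field F] [Finite F]

section

variable (p : ℕ) [Fact p.Prime] [CharP F p]

/-- the quotient data -/
noncomputable abbrev D (p m : ℕ) (F : Type*) [Field F] [Finite F] [Fact p.Prime] [CharP F p] :
    Data p (ProjectiveSpecialLinearGroup (Fin (m + 1)) F) (Fin m) :=
  (SLData.dat p m F).quot (cenP (F := F) (ι := Fin (m + 1)) (p := p))

theorem mem_DX (i : Fin m) (u : ProjectiveSpecialLinearGroup (Fin (m + 1)) F) : u ∈ (D p m F).X i ↔ ∃ t, u = Q (x i t) := by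
  rw [Data.quot_X]
  constructor
  · rintro ⟨v, hv, rfl⟩
    obtain ⟨t, rfl⟩ := (SLData.dat_X p i v).1 hv
    exact ⟨t, rfl⟩
  · rintro ⟨t, rfl⟩
    exact ⟨x i t, (SLData.dat_X p i _).2 ⟨t, rfl⟩, rfl⟩

theorem mem_DY (i : Fin m) (u : ProjectiveSpecialLinearGroup (Fin (m + 1)) F) : u ∈ (D p m F).Y i ↔ ∃ t, u = Q (y i t) := by
  rw [Data.quot_Y]
  constructor
  · rintro ⟨v, hv, rfl⟩
    obtain ⟨t, rfl⟩ := (SLData.dat_Y p i v).1 hv
    exact ⟨t, rfl⟩
  · rintro ⟨t, rfl⟩
    exact ⟨y i t, (SLData.dat_Y p i _).2 ⟨t, rfl⟩, rfl⟩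

include p in
theorem main1 (hm : 0 < m) (β : MulAut (ProjectiveSpecialLinearGroup (Fin (m + 1)) F))
    (hX : ∀ i, β • (D p m F).X i = (D p m F).X i) (hY : ∀ i, β • (D p m F).Y i = (D p m F).Y i) :
    ∃ (d : GL (Fin (m + 1)) F) (σ : F ≃+* F), β = ind (cg d * fl σ) := by
  have h1 : ∀ i t, ∃ t', β (Q (x i t)) = Q (x i t') := by
    intro i t
    rw [← mem_DX p, ← hX, mem_smul]
    rw [show β⁻¹ (β (Q (x i t))) = Q (x i t) by simp]
    exact (mem_DX p i _).2 ⟨t, rfl⟩
  have h2 : ∀ i t, ∃ t', β (Q (y i t)) = Q (y i t') := by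
    intro i t
    rw [← mem_DY p, ← hY, mem_smul]
    rw [show β⁻¹ (β (Q (y i t))) = Q (y i t) by simp]
    exact (mem_DY p i _).2 ⟨t, rfl⟩
  choose f hf using h1
  choose g hg using h2
  have hne : ∀ i, f i 1 ≠ 0 := by
    intro i h
    have e : β (Q (x i 1)) = β (Q (x i 0)) := by
      rw [hf, h, x, SpecialLinearGroup.transvection_coeff_zero, map_one, map_one]
    have e2 := β.injective e
    have e3 := Q_inj (p := p) ⟨1, by rw [pow_one]; exact t_pow_p _ _⟩ ⟨1, by rw [pow_one]; exact t_pow_p _ _⟩ e2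
    exact one_ne_zero (x_inj i e3)
  let u : Fin m → Fˣ := fun i => Units.mk0 _ (hne i)
  let e : Fin (m + 1) → Fˣ := fun k => ∏ j : Fin m, if (j : ℕ) < k then u j else 1
  have he : ∀ i : Fin m, e i.succ = e i.castSucc * u i := by
    intro i
    have : ∀ j : Fin m, (if (j : ℕ) < (i.succ : Fin (m + 1)) then u j else 1) =
        (if (j : ℕ) < (i.castSucc : Fin (m + 1)) then u j else 1) * (if j = i then u i else 1) := by
      intro j
      have e1 : ((i.succ : Fin (m + 1)) : ℕ) = i + 1 := by simp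
      have e2 : ((i.castSucc : Fin (m + 1)) : ℕ) = i := by simp
      rw [e1, e2]
      by_cases h1 : j = i
      · subst h1; simp
      · have h2 : (j : ℕ) ≠ i := fun h => h1 (Fin.ext h)
        rw [if_neg h1, mul_one]
        by_cases h3 : (j : ℕ) < i
        · rw [if_pos h3, if_pos (by omega)]
        · rw [if_neg h3, if_neg (by omega)]
    show (∏ j : Fin m, if (j : ℕ) < (i.succ : Fin (m + 1)) then u j else 1) = _
    rw [Finset.prod_congr rfl (fun j _ => this j), Finset.prod_mul_distrib]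
    simp [e]
  obtain ⟨σ, hσ⟩ := main0 p hm (ind (cg (dg e)) * β) (fun i t => (e i.castSucc : F) * f i t * ((e i.succ)⁻¹ : Fˣ))
    (fun i t => (e i.succ : F) * g i t * ((e i.castSucc)⁻¹ : Fˣ)) (by
      intro i t
      rw [MulAut.mul_apply, hf, ind_apply, x, cg_dg]; rfl) (by
      intro i t
      rw [MulAut.mul_apply, hg, ind_apply, y, cg_dg]; rfl) (by
      intro i
      show (e i.castSucc : F) * f i 1 * ((e i.succ)⁻¹ : Fˣ) = 1
      have : f i 1 = (u i : F) := rfl
      rw [this, ← Units.val_mul, ← he, ← Units.val_mul, mul_inv_cancel, Units.val_one])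
  refine ⟨(dg e)⁻¹, σ, ?_⟩
  rw [map_mul, ← hσ, map_inv, map_inv, inv_mul_cancel_left]

theorem comm_x_iff {i j : Fin m} (hij : i ≠ j) :
    (∀ u ∈ (D p m F).X i, ∀ v ∈ (D p m F).X j, u * v = v * u) ↔ ¬ ((i : ℕ) + 1 = j ∨ (j : ℕ) + 1 = i) := by
  have key : ∀ (i j : Fin m) (h : (i : ℕ) + 1 = j), ¬ (Q (x i (1 : F)) * Q (x j 1) = Q (x j 1) * Q (x i 1)) := by
    intro i j h e
    have hab : i.succ = j.castSucc := by ext; simp [h]
    have hac : i.castSucc ≠ j.succ := by
      intro h; have := congrArg Fin.val h; simp at this; omega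
    have hk : j.castSucc ≠ j.succ := ne_i j
    have hik : i.castSucc ≠ j.castSucc := by rw [← hab]; exact ne_i i
    have hx : ∀ t : F, x i t = SpecialLinearGroup.transvection hik t := by
      intro t; rw [x]; congr 1
    have cm : ⁅x i (1 : F), x j (1 : F)⁆ = SpecialLinearGroup.transvection hac (1 * 1) := by
      rw [hx]
      exact comm_t hac hik hk 1 1
    have c2 : Q (⁅x i (1 : F), x j (1 : F)⁆) = Q 1 := by
      rw [map_commutatorElement, map_one, commutatorElement_eq_one_iff_mul_comm]; exact e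
    rw [cm] at c2
    have c3 := Q_inj (p := p) ⟨1, by rw [pow_one]; exact t_pow_p _ _⟩ ⟨1, by simp⟩ c2
    have c4 : (SpecialLinearGroup.transvection hac (1 * 1 : F) : SpecialLinearGroup (Fin (m + 1)) F) i.castSucc j.succ =
      (1 : SpecialLinearGroup (Fin (m + 1)) F) i.castSucc j.succ := by rw [c3]
    rw [transvection_apply, slone_apply] at c4
    simp [hac] at c4
  constructor
  · rintro h (h' | h')
    · exact key i j h' (h _ ((mem_DX p i _).2 ⟨1, rfl⟩) _ ((mem_DX p j _).2 ⟨1, rfl⟩))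
    · exact key j i h' (h _ ((mem_DX p i _).2 ⟨1, rfl⟩) _ ((mem_DX p j _).2 ⟨1, rfl⟩)).symm
  · intro h u hu v hv
    obtain ⟨t, rfl⟩ := (mem_DX p i _).1 hu
    obtain ⟨s, rfl⟩ := (mem_DX p j _).1 hv
    rw [← map_mul, ← map_mul]
    congr 1
    push Not at h
    apply Subtype.ext
    show (1 + Matrix.single i.castSucc i.succ t) * (1 + Matrix.single j.castSucc j.succ s) =
      (1 + Matrix.single j.castSucc j.succ s) * (1 + Matrix.single i.castSucc i.succ t)
    have h1 : i.succ ≠ j.castSucc := fun e => h.1 (by have := congrArg Fin.val e; simpa using this)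
    have h2 : j.succ ≠ i.castSucc := fun e => h.2 (by have := congrArg Fin.val e; simpa using this)
    rw [add_mul, add_mul, mul_add, mul_add, mul_add, mul_add, Matrix.single_mul_single_of_ne _ _ _ _ h1,
      Matrix.single_mul_single_of_ne _ _ _ _ h2]
    simp only [mul_one, one_mul, add_zero]
    abel

theorem smul_X_of {κ : MulAut (ProjectiveSpecialLinearGroup (Fin (m + 1)) F)} (π : Fin m → Fin m)
    (h : ∀ i (t : F), ∃ t', κ (Q (x i t)) = Q (x (π i) t')) (h' : ∀ i (t : F), ∃ t', κ⁻¹ (Q (x (π i) t)) = Q (x i t')) (i : Fin m) :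
    κ • (D p m F).X i = (D p m F).X (π i) := by
  ext u
  rw [mem_smul, mem_DX, mem_DX]
  constructor
  · rintro ⟨t, ht⟩
    obtain ⟨t', ht'⟩ := h i t
    refine ⟨t', ?_⟩
    rw [← ht', ← ht]; simp
  · rintro ⟨t, rfl⟩
    exact h' i t

theorem smul_Y_of {κ : MulAut (ProjectiveSpecialLinearGroup (Fin (m + 1)) F)} (π : Fin m → Fin m)
    (h : ∀ i (t : F), ∃ t', κ (Q (y i t)) = Q (y (π i) t')) (h' : ∀ i (t : F), ∃ t', κ⁻¹ (Q (y (π i) t)) = Q (y i t')) (i : Fin m) :
    κ • (D p m F).Y i = (D p m F).Y (π i) := by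
  ext u
  rw [mem_smul, mem_DY, mem_DY]
  constructor
  · rintro ⟨t, ht⟩
    obtain ⟨t', ht'⟩ := h i t
    refine ⟨t', ?_⟩
    rw [← ht', ← ht]; simp
  · rintro ⟨t, rfl⟩
    exact h' i t

include p in
/-- Every automorphism of `PSL_{m+1}(F)` is standard. -/
theorem main (hm : 0 < m) (α : MulAut (ProjectiveSpecialLinearGroup (Fin (m + 1)) F)) :
    ∃ (g : GL (Fin (m + 1)) F) (σ : F ≃+* F), α = ind (cg g * fl σ) ∨ α = ind (cg g * fl σ * it) := by
  obtain ⟨g, π, hU, hV, hX, hY⟩ := (D p m F).main (Data.quot_hXY _ _ (SLData.dat_XY p)) α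
  obtain ⟨g, rfl⟩ := Q_surj g
  obtain ⟨β, hβ⟩ : ∃ β, β = c (Q g) * α := ⟨_, rfl⟩
  rw [← hβ] at hX hY
  have hα : α = ind (cg (SpecialLinearGroup.toGL g)⁻¹) * β := by
    rw [hβ, map_inv, map_inv, ← conj_Q', inv_mul_cancel_left]
  have hcomm : ∀ i j : Fin m, i ≠ j → (((i : ℕ) + 1 = j ∨ (j : ℕ) + 1 = i) ↔ ((π i : ℕ) + 1 = π j ∨ (π j : ℕ) + 1 = π i)) := by
    intro i j hij
    rw [← not_iff_not, ← comm_x_iff (F := F) p hij, ← comm_x_iff (F := F) p (fun e => hij (π.injective e))]
    rw [← hX i, ← hX j]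
    constructor
    · intro h u hu v hv
      rw [mem_smul] at hu hv
      have := h _ hu _ hv
      rw [← map_mul, ← map_mul] at this
      exact β⁻¹.injective this
    · intro h u hu v hv
      have := h (β u) (by rw [mem_smul]; simpa using hu) (β v) (by rw [mem_smul]; simpa using hv)
      rw [← map_mul, ← map_mul] at this
      exact β.injective this
  rcases perm_path π (fun i hi => (hcomm ⟨i, by omega⟩ ⟨i + 1, hi⟩ (by intro h; have := congrArg Fin.val h; simp at this)).1 (Or.inl rfl))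
    with rfl | rfl
  · obtain ⟨d, σ, h⟩ := main1 p hm β (by simpa using hX) (by simpa using hY)
    refine ⟨(SpecialLinearGroup.toGL g)⁻¹ * d, σ, Or.inl ?_⟩
    rw [hα, h, map_mul, map_mul, map_mul, map_mul, mul_assoc]
  · let n := SLData.n0 F m
    have hn : Mono n Fin.revPerm := SLData.n0_mono
    let κ : MulAut (ProjectiveSpecialLinearGroup (Fin (m + 1)) F) := ind (MulAut.conj n * it)
    have e1 : ∀ i : Fin m, Fin.rev i.succ = (Fin.rev i).castSucc := fun i => Fin.rev_succ i
    have e2 : ∀ i : Fin m, Fin.rev i.castSucc = (Fin.rev i).succ := fun i => Fin.rev_castSucc i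
    have k1 : ∀ (i : Fin m) (t : F), ∃ t', κ (Q (x i t)) = Q (x (Fin.revPerm i) t') := by
      intro i t
      obtain ⟨t', ht'⟩ := mono_t hn (ne_i i).symm (by
        show Fin.rev i.succ ≠ Fin.rev i.castSucc
        rw [e1, e2]; exact ne_i _) (-t)
      refine ⟨t', ?_⟩
      rw [ind_apply, MulAut.mul_apply, x, it_t, MulAut.conj_apply, ht', x]
      congr 2
      · exact e1 i
      · exact e2 i
    have k2 : ∀ (i : Fin m) (t : F), ∃ t', κ (Q (y i t)) = Q (y (Fin.revPerm i) t') := by
      intro i t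
      obtain ⟨t', ht'⟩ := mono_t hn (ne_i i) (by
        show Fin.rev i.castSucc ≠ Fin.rev i.succ
        rw [e1, e2]; exact (ne_i _).symm) (-t)
      refine ⟨t', ?_⟩
      rw [ind_apply, MulAut.mul_apply, y, it_t, MulAut.conj_apply, ht', y]
      congr 2
      · exact e2 i
      · exact e1 i
    have kinv : κ⁻¹ = ind (it * MulAut.conj n⁻¹) := by
      rw [← map_inv, _root_.mul_inv_rev, map_inv]
      congr 2
    have k3 : ∀ (i : Fin m) (t : F), ∃ t', κ⁻¹ (Q (x (Fin.revPerm i) t)) = Q (x i t') := by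
      intro i t
      rw [kinv]
      obtain ⟨t', ht'⟩ := mono_t hn.inv (ne_i (Fin.rev i)) (by
        show Fin.rev (Fin.rev i).castSucc ≠ Fin.rev (Fin.rev i).succ
        rw [e1, e2]; exact (ne_i _).symm) t
      refine ⟨-t', ?_⟩
      rw [ind_apply, MulAut.mul_apply, MulAut.conj_apply, x]
      show Q (it (n⁻¹ * SpecialLinearGroup.transvection (ne_i (Fin.rev i)) t * n⁻¹⁻¹)) = _
      rw [ht', it_t, x]
      congr 2
      · show Fin.rev (Fin.rev i).succ = _
        rw [e1, Fin.rev_rev]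
      · show Fin.rev (Fin.rev i).castSucc = _
        rw [e2, Fin.rev_rev]
    have k4 : ∀ (i : Fin m) (t : F), ∃ t', κ⁻¹ (Q (y (Fin.revPerm i) t)) = Q (y i t') := by
      intro i t
      rw [kinv]
      obtain ⟨t', ht'⟩ := mono_t hn.inv (ne_i (Fin.rev i)).symm (by
        show Fin.rev (Fin.rev i).succ ≠ Fin.rev (Fin.rev i).castSucc
        rw [e1, e2]; exact (ne_i _)) t
      refine ⟨-t', ?_⟩
      rw [ind_apply, MulAut.mul_apply, MulAut.conj_apply, y]
      show Q (it (n⁻¹ * SpecialLinearGroup.transvection (ne_i (Fin.rev i)).symm t * n⁻¹⁻¹)) = _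
      rw [ht', it_t, y]
      congr 2
      · show Fin.rev (Fin.rev i).castSucc = _
        rw [e2, Fin.rev_rev]
      · show Fin.rev (Fin.rev i).succ = _
        rw [e1, Fin.rev_rev]
    have hκX := smul_X_of (F := F) p (κ := κ) Fin.revPerm k1 k3
    have hκY := smul_Y_of (F := F) p (κ := κ) Fin.revPerm k2 k4
    obtain ⟨d, σ, h⟩ := main1 p hm (β * κ) (by intro i; rw [mul_smul, hκX, hX]; simp) (by intro i; rw [mul_smul, hκY, hY]; simp)
    have hβ2 : β = ind (cg d * fl σ) * ind (cg (SpecialLinearGroup.toGL n) * it)⁻¹ := by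
      rw [← h, map_inv]
      rw [← conj_eq_cg, mul_inv_cancel_right]
    refine ⟨(SpecialLinearGroup.toGL g)⁻¹ * d * mg σ (itg (SpecialLinearGroup.toGL n)⁻¹), σ, Or.inr ?_⟩
    rw [hα, hβ2, ← map_mul, ← map_mul]
    congr 1
    have i1 : (it : MulAut (SpecialLinearGroup (Fin (m + 1)) F))⁻¹ = it := by
      rw [inv_eq_iff_mul_eq_one, it_mul_it]
    have i2 : (cg (SpecialLinearGroup.toGL n) * it)⁻¹ = cg (itg (SpecialLinearGroup.toGL n)⁻¹) * it := by
      rw [_root_.mul_inv_rev, i1, ← it_mul_cg, map_inv]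
    rw [i2]
    have i3 : cg d * fl σ * (cg (itg (SpecialLinearGroup.toGL n)⁻¹) * it) =
        cg d * (cg (mg σ (itg (SpecialLinearGroup.toGL n)⁻¹)) * fl σ) * it := by
      rw [← fl_mul_cg]; simp only [mul_assoc]
    rw [i3, map_mul, map_mul]
    simp only [mul_assoc]

end

end Cfsg.Agent.H8.AutPSL
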