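import Mathlib
import Cfsg.Prelude.Def_Solvable
import Cfsg.Agent.Lib.Cores

set_option autoImplicit false
set_option linter.all false

/-! Cores of centralizers of outer automorphisms, abstractly. -/

namespace Cfsg.Agent.H8.CoreAbs

open Cfsg Cfsg.Agent.Lib Cfsg.Agent.Lib.Cores

variable {G : Type*} [Group G] [Finite G]

theorem core_bot (A I L : Subgroup G) (x : G) (p : ℕ) [hp : Fact p.Prime] (hxp : orderOf x = p) (hIA : I ≤ A) [hI : I.Normal]
    (hL : L ≤ I) (hLx : L ≤ Subgroup.centralizer {x}) (hnorm : ∀ c ∈ I, c * x = x * c → ∀ l ∈ L, c * l * c⁻¹ ∈ L)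
    (hC : ∀ g : G, (∀ l ∈ L, g * l = l * g) → g ∈ Subgroup.zpowers x)
    (hpL : ∀ N : Subgroup L, N.Normal → (Nat.card N).Coprime p → N = ⊥) :
    pPrimeCore p ↥(A ⊓ Subgroup.centralizer {x}) = ⊥ := by
  set H : Subgroup G := A ⊓ Subgroup.centralizer {x} with hH
  haveI hOn := pPrimeCore_normal (G := H) p
  have hcop := pPrimeCore_coprime (G := H) p
  set O : Subgroup G := (pPrimeCore p H).map H.subtype with hO
  have hcard : (Nat.card O).Coprime p := by
    have : Nat.card O = Nat.card (pPrimeCore p H) := Subgroup.card_map_of_injective H.subtype_injective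
    rw [this]; exact hcop
  have hOH : ∀ h ∈ H, ∀ o ∈ O, h * o * h⁻¹ ∈ O := by
    rintro h hh _ ⟨o, ho, rfl⟩
    exact ⟨⟨h, hh⟩ * o * ⟨h, hh⟩⁻¹, hOn.conj_mem o ho _, rfl⟩
  have hOle : O ≤ H := by rintro _ ⟨o, _, rfl⟩; exact o.2
  have hcomm : ∀ h ∈ H, h * x = x * h := by
    intro h hh
    have := Subgroup.mem_centralizer_iff.1 (Subgroup.mem_inf.1 hh).2 x rfl
    exact this.symm
  have hLH : ∀ l ∈ L, l ∈ H := fun l hl => Subgroup.mem_inf.2 ⟨hIA (hL hl), hLx hl⟩
  have hOL : ∀ y ∈ O, y ∈ L → y = 1 := by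
    have h1 := hpL ((O ⊓ L).subgroupOf L) (by
      constructor
      intro n hn l
      rw [Subgroup.mem_subgroupOf] at hn ⊢
      exact Subgroup.mem_inf.2 ⟨hOH l.1 (hLH _ l.2) n.1 (Subgroup.mem_inf.1 hn).1, (l * n * l⁻¹).2⟩) (by
      have h2 : Nat.card ((O ⊓ L).subgroupOf L) = Nat.card ↥(O ⊓ L) :=
        Nat.card_congr (Subgroup.subgroupOfEquivOfLe inf_le_right).toEquiv
      rw [h2]
      exact Nat.Coprime.coprime_dvd_left (Subgroup.card_dvd_of_le inf_le_left) hcard)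
    intro y hy hyL
    have h3 : (⟨y, hyL⟩ : L) ∈ (O ⊓ L).subgroupOf L := Subgroup.mem_subgroupOf.2 (Subgroup.mem_inf.2 ⟨hy, hyL⟩)
    rw [h1, Subgroup.mem_bot] at h3
    exact congrArg Subtype.val h3
  have hz : ∀ y ∈ O, y ∈ Subgroup.zpowers x → y = 1 := by
    intro y hy hyz
    have h1 : orderOf y ∣ p := by
      rw [← hxp]
      exact orderOf_dvd_of_mem_zpowers hyz
    have h2 : orderOf y ∣ Nat.card O := by
      have := orderOf_dvd_natCard (⟨y, hy⟩ : O)
      rwa [Subgroup.orderOf_mk] at this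
    have h3 : orderOf y = 1 := Nat.eq_one_of_dvd_coprimes hcard h2 h1
    exact orderOf_eq_one_iff.1 h3
  have hstep : ∀ y ∈ O, y ∈ I → y = 1 := by
    intro y hy hyI
    apply hz y hy
    apply hC
    intro l hl
    have h1 : y * l * y⁻¹ * l⁻¹ = 1 := by
      apply hOL
      · have : y * l * y⁻¹ * l⁻¹ = y * (l * y⁻¹ * l⁻¹) := by group
        rw [this]
        exact mul_mem hy (hOH l (hLH l hl) _ (inv_mem hy))
      · exact mul_mem (hnorm y hyI (hcomm y (hOle hy)) l hl) (inv_mem hl)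
    rw [mul_inv_eq_one, mul_inv_eq_iff_eq_mul] at h1
    exact h1
  have hfin : ∀ y ∈ O, y = 1 := by
    intro y hy
    apply hz y hy
    apply hC
    intro l hl
    have h1 : y * l * y⁻¹ * l⁻¹ = 1 := by
      apply hstep
      · have : y * l * y⁻¹ * l⁻¹ = y * (l * y⁻¹ * l⁻¹) := by group
        rw [this]
        exact mul_mem hy (hOH l (hLH l hl) _ (inv_mem hy))
      · exact mul_mem (hI.conj_mem l (hL hl) y) (inv_mem (hL hl))
    rw [mul_inv_eq_one, mul_inv_eq_iff_eq_mul] at h1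
    exact h1
  rw [eq_bot_iff]
  intro o ho
  rw [Subgroup.mem_bot]
  apply Subtype.ext
  exact hfin o.1 ⟨o, ho, rfl⟩

theorem core_ne (A I : Subgroup G) (x : G) (p : ℕ) [hp : Fact p.Prime] (hIA : I ≤ A) [hI : I.Normal]
    (hne : I ⊓ Subgroup.centralizer {x} ≠ ⊥) (hcop : (Nat.card ↥(I ⊓ Subgroup.centralizer {x})).Coprime p) :
    pPrimeCore p ↥(A ⊓ Subgroup.centralizer {x}) ≠ ⊥ := by
  set H : Subgroup G := A ⊓ Subgroup.centralizer {x} with hH
  have hle : I ⊓ Subgroup.centralizer {x} ≤ H := inf_le_inf_right _ hIA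
  intro h0
  apply hne
  have h1 : (I ⊓ Subgroup.centralizer {x}).subgroupOf H ≤ pPrimeCore p H := by
    apply le_pPrimeCore
    · constructor
      intro n hn h
      rw [Subgroup.mem_subgroupOf] at hn ⊢
      obtain ⟨a, b⟩ := Subgroup.mem_inf.1 hn
      refine Subgroup.mem_inf.2 ⟨hI.conj_mem _ a _, ?_⟩
      have hc := (Subgroup.mem_inf.1 h.2).2
      exact mul_mem (mul_mem hc b) (inv_mem hc)
    · rw [Nat.card_congr (Subgroup.subgroupOfEquivOfLe hle).toEquiv]
      exact hcop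
  rw [h0, le_bot_iff, Subgroup.subgroupOf_eq_bot, disjoint_iff] at h1
  rw [inf_eq_left.2 hle] at h1
  exact h1

/-- transport along conjugation -/
theorem core_conj (A : Subgroup G) (x a : G) (p : ℕ) :
    pPrimeCore p ↥(A ⊓ Subgroup.centralizer {x}) = ⊥ ↔
      pPrimeCore p ↥(A.map (MulAut.conj a).toMonoidHom ⊓ Subgroup.centralizer {a * x * a⁻¹}) = ⊥ := by
  have e1 : A.map (MulAut.conj a).toMonoidHom ⊓ Subgroup.centralizer {a * x * a⁻¹} =
      (A ⊓ Subgroup.centralizer {x}).map (MulAut.conj a).toMonoidHom := by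
    ext y
    rw [Subgroup.mem_inf, Subgroup.mem_map]
    constructor
    · rintro ⟨⟨z, hz, rfl⟩, h⟩
      refine ⟨z, Subgroup.mem_inf.2 ⟨hz, ?_⟩, rfl⟩
      rw [Subgroup.mem_centralizer_singleton_iff] at h ⊢
      have h2 : a * z * a⁻¹ * (a * x * a⁻¹) = a * x * a⁻¹ * (a * z * a⁻¹) := h
      have h3 : a * (z * x) * a⁻¹ = a * (x * z) * a⁻¹ := by
        calc _ = a * z * a⁻¹ * (a * x * a⁻¹) := by group
          _ = a * x * a⁻¹ * (a * z * a⁻¹) := h2
          _ = _ := by group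
      exact mul_left_cancel (mul_right_cancel h3)
    · rintro ⟨z, hz, rfl⟩
      obtain ⟨h1, h2⟩ := Subgroup.mem_inf.1 hz
      refine ⟨⟨z, h1, rfl⟩, ?_⟩
      rw [Subgroup.mem_centralizer_singleton_iff] at h2 ⊢
      show a * z * a⁻¹ * (a * x * a⁻¹) = a * x * a⁻¹ * (a * z * a⁻¹)
      calc _ = a * (z * x) * a⁻¹ := by group
        _ = a * (x * z) * a⁻¹ := by rw [h2]
        _ = _ := by group
  rw [e1]
  let e := (A ⊓ Subgroup.centralizer {x}).equivMapOfInjective (MulAut.conj a).toMonoidHom (MulAut.conj a).injective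
  have h := pPrimeCore_map_equiv p e
  rw [← h]
  constructor
  · intro h0
    rw [h0, Subgroup.map_bot]
  · intro h0
    rw [Subgroup.map_eq_bot_iff_of_injective _ e.injective] at h0
    exact h0

end Cfsg.Agent.H8.CoreAbs
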