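import Mathlib
import Cfsg.Agent.Lib.FusSimple
import Cfsg.Agent.Lib.FusGroup
import Cfsg.Agent.Lib.PNilp

set_option autoImplicit false
set_option linter.all false

/-! Simple fusion systems of groups: group-theoretic criteria. -/

namespace Cfsg.Agent.H8.FSim

open Cfsg Cfsg.FusionSystem Cfsg.Agent.Lib.FusBase Cfsg.Agent.Lib.FusSat Cfsg.Agent.Lib.FusNormal
open Cfsg.Agent.Lib.FusGroup Cfsg.Agent.Lib.FusSimple
open scoped commutatorElement

variable {G : Type*} [Group G]

/-- strongly closed subgroups, in group terms -/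
def SC (S T : Subgroup G) : Prop := T ≤ S ∧ ∀ x ∈ T, ∀ g : G, g * x * g⁻¹ ∈ S → g * x * g⁻¹ ∈ T

theorem sc_of {S T : Subgroup G} (h : (groupFusionSystem S).StronglyClosed T) : SC S T := by
  refine ⟨h.1, fun x hx g hg => ?_⟩
  have hR : Subgroup.zpowers x ≤ T := by rwa [Subgroup.zpowers_le]
  have hmem : conjHom (Subgroup.zpowers x) g ∈ (groupFusionSystem S).Hom (Subgroup.zpowers x) := by
    refine ⟨hR.trans h.1, ?_, g, fun _ => rfl⟩
    rintro ⟨_, n, rfl⟩
    show g * x ^ n * g⁻¹ ∈ S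
    have e : g * x ^ n * g⁻¹ = (g * x * g⁻¹) ^ n := by
      rw [conj_zpow]
    rw [e]
    exact S.zpow_mem hg n
  exact h.2 _ hR _ hmem ⟨x, Subgroup.mem_zpowers x⟩

theorem SC.normal {S T : Subgroup G} (h : SC S T) {s x : G} (hs : s ∈ S) (hx : x ∈ T) : s * x * s⁻¹ ∈ T :=
  h.2 x hx s (S.mul_mem (S.mul_mem hs (h.1 hx)) (S.inv_mem hs))

/-- conjugating a strongly closed subgroup -/
theorem SC.conj {S T : Subgroup G} (h : SC S T) (g : G) :
    SC (S.map (MulAut.conj g).toMonoidHom) (T.map (MulAut.conj g).toMonoidHom) := by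
  refine ⟨Subgroup.map_mono h.1, ?_⟩
  rintro _ ⟨x, hx, rfl⟩ k ⟨y, hy, hyk⟩
  have e : y = (g⁻¹ * k * g) * x * (g⁻¹ * k * g)⁻¹ := by
    have h1 : g * y * g⁻¹ = k * (g * x * g⁻¹) * k⁻¹ := hyk
    calc y = g⁻¹ * (g * y * g⁻¹) * g := by group
      _ = _ := by rw [h1]; group
  refine ⟨y, ?_, hyk⟩
  rw [e]
  refine h.2 x hx _ ?_
  rw [← e]; exact hy

/-- nontrivial strongly closed subgroups meet the centre -/
theorem SC.exists_central [Finite G] {p : ℕ} [Fact p.Prime] {S T : Subgroup G} (hS : IsPGroup p S) (h : SC S T) (hT : T ≠ ⊥) :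
    ∃ z ∈ T, orderOf z = p ∧ ∀ s ∈ S, s * z = z * s := by
  haveI hn : (T.subgroupOf S).Normal := ⟨fun x hx s => by
    rw [Subgroup.mem_subgroupOf] at hx ⊢
    exact h.normal s.2 hx⟩
  have hne : T.subgroupOf S ≠ ⊥ := by
    intro h0
    apply hT
    rw [eq_bot_iff]
    intro x hx
    have : (⟨x, h.1 hx⟩ : S) ∈ T.subgroupOf S := Subgroup.mem_subgroupOf.2 hx
    rw [h0, Subgroup.mem_bot] at this
    exact congrArg Subtype.val this
  haveI : Nontrivial (T.subgroupOf S) := (Subgroup.nontrivial_iff_ne_bot _).2 hne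
  have h1 : Nontrivial (Subgroup.center S ⊓ T.subgroupOf S : Subgroup S) := by
    -- counting fixed points of `S` acting on the normal subgroup
    have hp : p.Prime := Fact.out
    have hdvd : p ∣ Nat.card (T.subgroupOf S) := by
      obtain ⟨n, hn⟩ := IsPGroup.iff_card.1 (hS.to_subgroup (T.subgroupOf S))
      rw [hn]
      have : n ≠ 0 := by
        rintro rfl
        rw [pow_zero] at hn
        exact (Finite.one_lt_card (α := T.subgroupOf S)).ne' hn
      exact dvd_pow_self p this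
    have hfix := (hS : IsPGroup p S)
    letI : MulAction S (T.subgroupOf S) :=
      { smul := fun s x => ⟨s * x * s⁻¹, hn.conj_mem x x.2 s⟩
        one_smul := fun x => Subtype.ext (by show (1 : S) * (x : S) * 1⁻¹ = x; group)
        mul_smul := fun a b x => Subtype.ext (by show (a * b : S) * (x : S) * (a * b)⁻¹ = a * (b * x * b⁻¹) * a⁻¹; group) }
    have h4 := hfix.exists_fixed_point_of_prime_dvd_card_of_fixed_point (T.subgroupOf S) hdvd
      (a := 1) (by
        intro s
        apply Subtype.ext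
        show (s : S) * 1 * s⁻¹ = 1
        group)
    obtain ⟨b, hb, hb1⟩ := h4
    refine (Subgroup.nontrivial_iff_exists_ne_one _).2 ⟨b.1, ⟨?_, b.2⟩, ?_⟩
    · refine Subgroup.mem_center_iff.2 fun s => ?_
      have h5 := congrArg Subtype.val (hb s)
      have h6 : s * b.1 * s⁻¹ = b.1 := h5
      calc s * b.1 = (s * b.1 * s⁻¹) * s := by group
        _ = b.1 * s := by rw [h6]
    · intro h5
      exact hb1 (Subtype.ext h5.symm)
  have hp' : IsPGroup p (Subgroup.center S ⊓ T.subgroupOf S : Subgroup S) := hS.to_subgroup _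
  obtain ⟨n, hn2⟩ := IsPGroup.iff_card.1 hp'
  have hd : p ∣ Nat.card (Subgroup.center S ⊓ T.subgroupOf S : Subgroup S) := by
    rw [hn2]
    have : n ≠ 0 := by
      rintro rfl
      rw [pow_zero] at hn2
      exact (Finite.one_lt_card (α := (Subgroup.center S ⊓ T.subgroupOf S : Subgroup S))).ne' hn2
    exact dvd_pow_self p this
  obtain ⟨z, hz⟩ := exists_prime_orderOf_dvd_card' p hd
  refine ⟨((z : S) : G), z.2.2, ?_, ?_⟩
  · rw [Subgroup.orderOf_coe, Subgroup.orderOf_coe]; exact hz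
  · intro s hs
    have h5 := Subgroup.mem_center_iff.1 z.2.1 ⟨s, hs⟩
    exact congrArg Subtype.val h5

/-- no strongly closed subgroup of index two in a perfect group -/
theorem SC.index_two [Finite G] (hG : commutator G = ⊤) (S : Sylow 2 G) {T : Subgroup G} (h : SC (S : Subgroup G) T)
    (h2 : T.relIndex S = 2) : False := by
  have h1 := Cfsg.Agent.Lib.PNilp.commutator_inf_eq_focal (S : Subgroup G) (Cfsg.Agent.Lib.PNilp.focal_index_coprime_sylow S)
  rw [hG, top_inf_eq] at h1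
  have h3 : (S : Subgroup G).focalSubgroup ≤ T := by
    rw [Subgroup.focalSubgroup_def, Subgroup.closure_le]
    rintro _ ⟨hg, x, hx, u, rfl⟩
    have hy : u * x⁻¹ * u⁻¹ ∈ (S : Subgroup G) := by
      have : u * x⁻¹ * u⁻¹ = x⁻¹ * ⁅x, u⁆ := by rw [commutatorElement_def]; group
      rw [this]; exact S.mul_mem (S.inv_mem hx) hg
    have e : ⁅x, u⁆ = x * (u * x⁻¹ * u⁻¹) := by rw [commutatorElement_def]; group
    have hiff : u * x⁻¹ * u⁻¹ ∈ T ↔ x ∈ T := by
      constructor
      · intro h4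
        have h5 := h.2 _ h4 u⁻¹ (by
          have : u⁻¹ * (u * x⁻¹ * u⁻¹) * u⁻¹⁻¹ = x⁻¹ := by group
          rw [this]; exact S.inv_mem hx)
        have : u⁻¹ * (u * x⁻¹ * u⁻¹) * u⁻¹⁻¹ = x⁻¹ := by group
        rw [this] at h5
        exact (Subgroup.inv_mem_iff T).1 h5
      · intro h4
        exact h.2 _ (T.inv_mem h4) u hy
    show ⁅x, u⁆ ∈ T
    rw [e]
    have h5 := (Subgroup.mul_mem_iff_of_index_two (G := (S : Subgroup G)) (H := T.subgroupOf S) (show (T.subgroupOf S).index = 2 from h2)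
      (a := ⟨x, hx⟩) (b := ⟨_, hy⟩)).2 (by
        rw [Subgroup.mem_subgroupOf, Subgroup.mem_subgroupOf]
        exact hiff.symm)
    exact h5
  have h4 : (S : Subgroup G) ≤ T := h1.le.trans h3
  rw [Subgroup.relIndex_eq_one.2 h4] at h2
  omega

/-- the automizer of a Sylow subgroup is inner as soon as it is a `p`-group -/
theorem aut_le_inn [Finite G] {p : ℕ} [Fact p.Prime] (S : Sylow p G) (h : IsPGroup p (autInducedBy ⊤ (S : Subgroup G))) :
    autInducedBy ⊤ (S : Subgroup G) ≤ Inn (S : Subgroup G) := by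
  have h1 := FN_FA S.isPGroup' (saturated_grp S) (S_FN _)
  rw [FA_iff S.isPGroup' le_rfl, autGroup_grp le_rfl, ← inn_eq_autInducedBy] at h1
  have h2 : (Inn (S : Subgroup G)).relIndex (autInducedBy ⊤ (S : Subgroup G)) = 1 := by
    obtain ⟨n, hn⟩ := IsPGroup.iff_card.1 h
    have h3 : (Inn (S : Subgroup G)).relIndex (autInducedBy ⊤ (S : Subgroup G)) ∣ p ^ n := by
      rw [← hn]; exact Subgroup.relIndex_dvd_card _ _
    obtain ⟨k, -, hk⟩ := (Nat.dvd_prime_pow Fact.out).1 h3
    rcases Nat.eq_zero_or_pos k with h0 | h0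
    · rw [hk, h0, pow_zero]
    · exact absurd (hk ▸ dvd_pow_self p h0.ne') h1
  exact Subgroup.relIndex_eq_one.1 h2

/-- criterion: elements of order prime to `p` normalizing `S` centralize it -/
theorem aut_of_pprime [Finite G] {p : ℕ} [Fact p.Prime] (S : Sylow p G)
    (h : ∀ g ∈ Subgroup.normalizer ((S : Subgroup G) : Set G), ¬ p ∣ orderOf g → ∀ x ∈ (S : Subgroup G), g * x = x * g) :
    IsPGroup p (autInducedBy ⊤ (S : Subgroup G)) := by
  rintro ⟨α, hα⟩
  obtain ⟨g, -, hg⟩ := mem_autInducedBy.1 hα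
  have hgN : g ∈ Subgroup.normalizer ((S : Subgroup G) : Set G) := by
    apply mem_normalizer_of_conj_mem
    intro x hx
    rw [← hg ⟨x, hx⟩]
    exact (α ⟨x, hx⟩).2
  -- a `p`-power of `g` has order prime to `p`
  obtain ⟨a, m, hm, hn⟩ := Nat.exists_eq_pow_mul_and_not_dvd (orderOf_pos g).ne' p (Fact.out : p.Prime).ne_one
  have h1 : orderOf (g ^ p ^ a) = m := by
    rw [orderOf_pow' g (pow_ne_zero _ (Fact.out : p.Prime).ne_zero), hn, Nat.gcd_mul_right_left, Nat.mul_div_cancel_left _ (pow_pos (Fact.out : p.Prime).pos _)]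
  have h2 := h (g ^ p ^ a) (Subgroup.pow_mem _ hgN _) (by rw [h1]; exact hm)
  refine ⟨a, ?_⟩
  apply Subtype.ext
  show α ^ p ^ a = 1
  have h3 : ∀ n : ℕ, ∀ x : (S : Subgroup G), (((α ^ n) x : (S : Subgroup G)) : G) = g ^ n * x * (g ^ n)⁻¹ := by
    intro n
    induction n with
    | zero => intro x; rw [pow_zero, pow_zero]; show (x : G) = 1 * x * 1⁻¹; group
    | succ n ih =>
      intro x
      rw [pow_succ]
      show (((α ^ n) (α x) : (S : Subgroup G)) : G) = _
      rw [ih, hg, pow_succ]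
      group
  apply MulEquiv.ext
  intro x
  apply Subtype.ext
  rw [h3]
  show _ = (x : G)
  rw [h2 x x.2]; group

/-- the basic criterion -/
theorem simple_of [Finite G] {p : ℕ} [Fact p.Prime] (S : Sylow p G) (h1 : (S : Subgroup G) ≠ ⊥)
    (haut : IsPGroup p (autInducedBy ⊤ (S : Subgroup G)))
    (hsc : ∀ T : Subgroup G, SC (S : Subgroup G) T → T ≠ ⊥ → T = (S : Subgroup G)) :
    (groupFusionSystem (S : Subgroup G)).IsSimple p := by
  refine isSimple_of_sc (saturated_grp S) h1 ?_ ?_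
  · rw [autGroup_grp le_rfl]
    exact aut_le_inn S haut
  · intro T hT
    by_cases hT1 : T = ⊥
    · exact Or.inl hT1
    · exact Or.inr (hsc T (sc_of hT) hT1)

end Cfsg.Agent.H8.FSim
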