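import Mathlib
import Cfsg.Agent.H8.FSim1
import Cfsg.Agent.Lib.PGrpD

set_option autoImplicit false
set_option linter.all false

/-! Simple fusion systems: Sylow 2-subgroups with a cyclic subgroup of index 2; `PSL_2(q)`. -/

namespace Cfsg.Agent.H8.FSim

open Cfsg Cfsg.FusionSystem Cfsg.Agent.Lib.FusBase Cfsg.Agent.Lib.FusSat Cfsg.Agent.Lib.FusNormal
open Cfsg.Agent.Lib.FusGroup Cfsg.Agent.Lib.FusSimple
open scoped commutatorElement

variable {G : Type*} [Group G]

/-- the automizer is a 2-group when there is an invariant chain with indices at most two -/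
theorem aut_of_chain [Finite G] (S : Sylow 2 G) (Rs : ℕ → Subgroup G) (n : ℕ) (h0 : Rs 0 = ⊥) (hn : (S : Subgroup G) ≤ Rs n)
    (hidx : ∀ i < n, ∀ x ∈ Rs (i + 1), ∀ y ∈ Rs (i + 1), x ∉ Rs i → y ∉ Rs i → x⁻¹ * y ∈ Rs i)
    (hnorm : ∀ g ∈ Subgroup.normalizer ((S : Subgroup G) : Set G), ∀ i ≤ n, ∀ x ∈ Rs i, g * x * g⁻¹ ∈ Rs i) :
    IsPGroup 2 (autInducedBy ⊤ (S : Subgroup G)) := by
  refine isPGroup_of_stab (p := 2) S.isPGroup' Rs h0 n hn ?_
  intro α hα i hi x hx
  obtain ⟨g, -, hg⟩ := mem_autInducedBy.1 hα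
  have hgN : g ∈ Subgroup.normalizer ((S : Subgroup G) : Set G) := by
    apply mem_normalizer_of_conj_mem
    intro x hx
    rw [← hg ⟨x, hx⟩]
    exact (α ⟨x, hx⟩).2
  rw [hg]
  have h1 := hnorm g hgN (i + 1) hi x hx
  by_cases h2 : (x : G) ∈ Rs i
  · exact (Rs i).mul_mem ((Rs i).inv_mem h2) (hnorm g hgN i hi.le x h2)
  · refine hidx i hi _ hx _ h1 h2 ?_
    intro h3
    apply h2
    have h4 := hnorm g⁻¹ (Subgroup.inv_mem _ hgN) i hi.le _ h3
    have e : g⁻¹ * (g * (x : G) * g⁻¹) * g⁻¹⁻¹ = x := by group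
    rwa [e] at h4

/-- an invariant cyclic subgroup `⟨c⟩` of order `2^k` and index at most two -/
theorem aut_of_cyclic [Finite G] (S : Sylow 2 G) {c : G} (hc : c ∈ (S : Subgroup G)) {k : ℕ} (hk : orderOf c = 2 ^ k)
    (hi : ∀ x ∈ (S : Subgroup G), ∀ y ∈ (S : Subgroup G), x ∉ Subgroup.zpowers c → y ∉ Subgroup.zpowers c → x⁻¹ * y ∈ Subgroup.zpowers c)
    (hnorm : ∀ g ∈ Subgroup.normalizer ((S : Subgroup G) : Set G), g * c * g⁻¹ ∈ Subgroup.zpowers c) :
    IsPGroup 2 (autInducedBy ⊤ (S : Subgroup G)) := by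
  let Rs : ℕ → Subgroup G := fun i => if i ≤ k then Subgroup.zpowers (c ^ 2 ^ (k - i)) else S
  refine aut_of_chain S Rs (k + 1) ?_ ?_ ?_ ?_
  · show (if 0 ≤ k then Subgroup.zpowers (c ^ 2 ^ (k - 0)) else (S : Subgroup G)) = ⊥
    rw [if_pos (Nat.zero_le _), Nat.sub_zero, ← hk, pow_orderOf_eq_one, Subgroup.zpowers_one_eq_bot]
  · show _ ≤ (if k + 1 ≤ k then Subgroup.zpowers (c ^ 2 ^ (k - (k + 1))) else (S : Subgroup G))
    rw [if_neg (by omega)]
  · intro i hi' x hx y hy hx1 hy1
    by_cases hik : i = k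
    · subst hik
      have e1 : Rs (i + 1) = S := by
        show (if i + 1 ≤ i then Subgroup.zpowers (c ^ 2 ^ (i - (i + 1))) else (S : Subgroup G)) = S
        rw [if_neg (by omega)]
      have e2 : Rs i = Subgroup.zpowers c := by
        show (if i ≤ i then Subgroup.zpowers (c ^ 2 ^ (i - i)) else (S : Subgroup G)) = _
        rw [if_pos le_rfl, Nat.sub_self, pow_zero, pow_one]
      rw [e1] at hx hy
      rw [e2] at hx1 hy1 ⊢
      exact hi x hx y hy hx1 hy1
    · have e1 : Rs (i + 1) = Subgroup.zpowers (c ^ 2 ^ (k - (i + 1))) := by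
        show (if i + 1 ≤ k then _ else (S : Subgroup G)) = _
        rw [if_pos (by omega)]
      have e2 : Rs i = Subgroup.zpowers ((c ^ 2 ^ (k - (i + 1))) ^ 2) := by
        show (if i ≤ k then Subgroup.zpowers (c ^ 2 ^ (k - i)) else (S : Subgroup G)) = _
        rw [if_pos (by omega), ← pow_mul, ← pow_succ]
        congr 3
        omega
      rw [e1] at hx hy
      rw [e2] at hx1 hy1 ⊢
      set d := c ^ 2 ^ (k - (i + 1))
      obtain ⟨a, rfl⟩ := hx
      obtain ⟨b, rfl⟩ := hy
      have ho : ∀ a : ℤ, (fun x => d ^ x) a ∉ Subgroup.zpowers (d ^ 2) → Odd a := by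
        intro a ha
        rw [← Int.not_even_iff_odd]
        rintro ⟨j, rfl⟩
        apply ha
        refine ⟨j, ?_⟩
        show (d ^ 2) ^ j = d ^ (j + j)
        rw [← zpow_natCast, ← zpow_mul]
        congr 1
        push_cast; ring
      obtain ⟨a', ha'⟩ := ho a hx1
      obtain ⟨b', hb'⟩ := ho b hy1
      refine ⟨b' - a', ?_⟩
      show (d ^ 2) ^ (b' - a') = (d ^ a)⁻¹ * d ^ b
      rw [← zpow_natCast, ← zpow_mul, ← zpow_neg, ← zpow_add, ha', hb']
      congr 1
      push_cast; ring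
  · intro g hg i hi' x hx
    by_cases hik : i ≤ k
    · have e1 : Rs i = Subgroup.zpowers (c ^ 2 ^ (k - i)) := by
        show (if i ≤ k then _ else (S : Subgroup G)) = _
        rw [if_pos hik]
      rw [e1] at hx ⊢
      obtain ⟨a, rfl⟩ := hx
      obtain ⟨j, hj⟩ := hnorm g hg
      refine ⟨j * a, ?_⟩
      show (c ^ 2 ^ (k - i)) ^ (j * a) = g * (c ^ 2 ^ (k - i)) ^ a * g⁻¹
      have hj' : c ^ j = g * c * g⁻¹ := hj
      rw [← conj_zpow, ← conj_pow, ← hj', ← zpow_natCast, ← zpow_natCast, ← zpow_mul, ← zpow_mul, ← zpow_mul]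
      congr 1
      ring
    · have e1 : Rs i = S := by
        show (if i ≤ k then _ else (S : Subgroup G)) = _
        rw [if_neg hik]
      rw [e1] at hx ⊢
      exact (Subgroup.mem_normalizer_iff.1 hg x).1 hx

theorem two_squares {F : Type*} [Field F] [Fintype F] (hF : Fintype.card F % 2 = 1) (x : F) : ∃ a b : F, a ^ 2 + b ^ 2 = x := by
  classical
  let f : Polynomial F := Polynomial.X ^ 2
  let g : Polynomial F := Polynomial.X ^ 2 - Polynomial.C x
  obtain ⟨a, b, hab⟩ : ∃ a b, f.eval a + g.eval b = 0 :=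
    @FiniteField.exists_root_sum_quadratic _ _ _ _ f g (Polynomial.degree_X_pow 2) (Polynomial.degree_X_pow_sub_C (by decide) _) (by omega)
  refine ⟨a, b, ?_⟩
  rw [← sub_eq_zero]
  simpa only [f, g, Polynomial.eval_C, Polynomial.eval_X, Polynomial.eval_pow, Polynomial.eval_sub, ← add_sub_assoc] using hab

section sl2

variable {F : Type*} [Field F]

local notation "SL2" => Matrix.SpecialLinearGroup (Fin 2) F

theorem sl_sq {X : SL2} (h : X * X = -1) : X.1 1 1 = - X.1 0 0 ∧ X.1 0 0 * X.1 0 0 + X.1 0 1 * X.1 1 0 = -1 := by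
  have hdet := X.det_coe
  rw [Matrix.det_fin_two] at hdet
  have hm : X.1 * X.1 = -1 := by
    have := congrArg (fun g : SL2 => g.1) h
    simpa using this
  have h00 := congrFun (congrFun hm 0) 0
  have h01 := congrFun (congrFun hm 0) 1
  have h10 := congrFun (congrFun hm 1) 0
  have h11 := congrFun (congrFun hm 1) 1
  simp [Matrix.mul_apply, Fin.sum_univ_two] at h00 h01 h10 h11
  generalize X.1 0 0 = a at *
  generalize X.1 0 1 = b at *
  generalize X.1 1 0 = c at *
  generalize X.1 1 1 = d at *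
  have h1 : a * (a + d) = 0 := by linear_combination h00 + hdet
  have h2 : b * (a + d) = 0 := by linear_combination h01
  have h3 : c * (a + d) = 0 := by linear_combination h10
  have h4 : d * (a + d) = 0 := by linear_combination h11 + hdet
  have h5 : a + d = 0 := by
    by_contra h
    have ha := (mul_eq_zero.1 h1).resolve_right h
    have hb := (mul_eq_zero.1 h2).resolve_right h
    rw [ha, hb] at hdet
    simp at hdet
  exact ⟨by linear_combination h5, h00⟩

/-- all square roots of `-1` in `SL_2(q)` are conjugate -/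
theorem sl_conj [Fintype F] (hF : Fintype.card F % 2 = 1) {X : SL2} (h : X * X = -1) :
    ∃ P : SL2, (X * P).1 = P.1 * !![0, 1; -1, 0] := by
  have h2 : (2 : F) ≠ 0 := by
    intro h0
    have hc : CharP F 2 := CharTwo.of_one_ne_zero_of_two_eq_zero one_ne_zero h0
    obtain ⟨n, -, hn⟩ := FiniteField.card F 2
    rw [hn] at hF
    have := n.pos.ne'
    obtain ⟨k, hk⟩ := Nat.exists_eq_succ_of_ne_zero this
    rw [hk, pow_succ, Nat.mul_mod_left] at hF
    omega
  obtain ⟨hd, hq⟩ := sl_sq h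
  generalize ha : X.1 0 0 = a at *
  generalize hb : X.1 0 1 = b at *
  generalize hc : X.1 1 0 = c at *
  -- the quadratic form represents one
  obtain ⟨x, y, hxy⟩ : ∃ x y : F, -c * x ^ 2 + 2 * a * x * y + b * y ^ 2 = 1 := by
    by_cases hc0 : c = 0
    · subst hc0
      have ha0 : a ≠ 0 := by
        rintro rfl
        simp at hq
      refine ⟨(1 - b) / (2 * a), 1, ?_⟩
      field_simp
      ring
    · obtain ⟨u, v, huv⟩ := two_squares hF (-c)
      refine ⟨(u + a * v) / c, v, ?_⟩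
      field_simp
      linear_combination (v ^ 2) * hq - huv
  refine ⟨⟨!![x, -(a * x + b * y); y, -(c * x - a * y)], ?_⟩, ?_⟩
  · rw [Matrix.det_fin_two_of]
    linear_combination hxy
  · have hX : X.1 = !![a, b; c, -a] := by
      ext i j
      fin_cases i <;> fin_cases j
      · exact ha
      · exact hb
      · exact hc
      · exact hd
    show X.1 * _ = _
    rw [hX]
    ext i j
    fin_cases i <;> fin_cases j
    · simp [Matrix.mul_apply, Fin.sum_univ_two]
    · simp [Matrix.mul_apply, Fin.sum_univ_two]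
      linear_combination (-x) * hq
    · simp [Matrix.mul_apply, Fin.sum_univ_two]
      ring
    · simp [Matrix.mul_apply, Fin.sum_univ_two]
      linear_combination (-y) * hq

theorem sl_conj2 [Fintype F] (hF : Fintype.card F % 2 = 1) {X Y : SL2} (hX : X * X = -1) (hY : Y * Y = -1) :
    ∃ P : SL2, P * X * P⁻¹ = Y := by
  obtain ⟨P, hP⟩ := sl_conj hF hX
  obtain ⟨R, hR⟩ := sl_conj hF hY
  let J : SL2 := ⟨!![0, 1; -1, 0], by rw [Matrix.det_fin_two_of]; ring⟩
  have hP' : X * P = P * J := Subtype.ext hP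
  have hR' : Y * R = R * J := Subtype.ext hR
  refine ⟨R * P⁻¹, ?_⟩
  calc R * P⁻¹ * X * (R * P⁻¹)⁻¹ = R * (P⁻¹ * (X * P)) * R⁻¹ := by group
    _ = (R * J) * R⁻¹ := by rw [hP']; group
    _ = Y := by rw [← hR']; group

end sl2

end Cfsg.Agent.H8.FSim
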