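import Mathlib
import Cfsg.Agent.H8.FSim2

set_option autoImplicit false
set_option linter.all false

/-! Simple fusion systems: central quotients of groups with quaternion Sylow subgroups. -/

namespace Cfsg.Agent.H8.FSim

open Cfsg Cfsg.FusionSystem Cfsg.Agent.Lib.FusBase Cfsg.Agent.Lib.FusSat Cfsg.Agent.Lib.FusNormal
open Cfsg.Agent.Lib.FusGroup Cfsg.Agent.Lib.FusSimple

/-- a cyclic 2-group contains no four-group; Sylow version -/
theorem not_cyclic_of_comm {G : Type*} [Group G] [Finite G] {a b : G} (ha : a * a = 1) (hb : b * b = 1) (ha1 : a ≠ 1) (hb1 : b ≠ 1)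
    (hab : a ≠ b) (hc : a * b = b * a) (S : Sylow 2 G) (hS : IsCyclic (S : Subgroup G)) : False := by
  have hpa : IsPGroup 2 (Subgroup.zpowers a) := by
    rintro ⟨_, n, rfl⟩
    refine ⟨1, Subtype.ext ?_⟩
    show (a ^ n) ^ (2 ^ 1) = 1
    rw [pow_one, ← zpow_natCast, ← zpow_mul, mul_comm, zpow_mul, zpow_natCast, pow_two, ha, one_zpow]
  have hpb : IsPGroup 2 (Subgroup.zpowers b) := by
    rintro ⟨_, n, rfl⟩
    refine ⟨1, Subtype.ext ?_⟩
    show (b ^ n) ^ (2 ^ 1) = 1
    rw [pow_one, ← zpow_natCast, ← zpow_mul, mul_comm, zpow_mul, zpow_natCast, pow_two, hb, one_zpow]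
  have hn : Subgroup.zpowers a ≤ Subgroup.normalizer ((Subgroup.zpowers b : Subgroup G) : Set G) := by
    rw [Subgroup.zpowers_le]
    apply mem_normalizer_of_conj_mem
    rintro _ ⟨n, rfl⟩
    refine ⟨n, ?_⟩
    show b ^ n = a * b ^ n * a⁻¹
    rw [← conj_zpow, hc, mul_assoc, mul_inv_cancel, mul_one]
  obtain ⟨R, hR⟩ := (hpa.to_sup_of_normal_right' hpb hn).exists_le_sylow
  obtain ⟨g, hg⟩ := MulAction.exists_smul_eq G R S
  haveI : IsCyclic (R : Subgroup G) := by
    have e : (R : Subgroup G) ≃* (S : Subgroup G) := by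
      rw [← hg]; exact Subgroup.equivSMul (MulAut.conj g) (R : Subgroup G)
    exact isCyclic_of_surjective e.symm e.symm.surjective
  classical
  haveI : Fintype (R : Subgroup G) := Fintype.ofFinite _
  have h1 := IsCyclic.card_pow_eq_one_le (α := (R : Subgroup G)) (n := 2) (by norm_num)
  have haR : a ∈ (R : Subgroup G) := hR (Subgroup.mem_sup_left (Subgroup.mem_zpowers a))
  have hbR : b ∈ (R : Subgroup G) := hR (Subgroup.mem_sup_right (Subgroup.mem_zpowers b))
  have h2 : ({1, ⟨a, haR⟩, ⟨b, hbR⟩} : Finset (R : Subgroup G)) ⊆ Finset.univ.filter (fun x => x ^ 2 = 1) := by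
    intro x hx
    simp only [Finset.mem_insert, Finset.mem_singleton] at hx
    rw [Finset.mem_filter]
    refine ⟨Finset.mem_univ _, ?_⟩
    rcases hx with rfl | rfl | rfl
    · exact one_pow 2
    · rw [pow_two]; exact Subtype.ext ha
    · rw [pow_two]; exact Subtype.ext hb
  have h3 := (Finset.card_le_card h2).trans h1
  rw [Finset.card_eq_three.2 ⟨1, ⟨a, haR⟩, ⟨b, hbR⟩, fun h => ha1 (congrArg Subtype.val h).symm, fun h => hb1 (congrArg Subtype.val h).symm,
    fun h => hab (congrArg Subtype.val h), rfl⟩] at h3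
  omega

theorem simple_quat {A G : Type*} [Group A] [Group G] [Finite A] [Finite G] (π : A →* G) (hπ : Function.Surjective π) (z : A)
    (hz2 : z * z = 1) (hz1 : z ≠ 1) (hker : ∀ x, π x = 1 ↔ x = 1 ∨ x = z) (huniq : ∀ x : A, x * x = 1 → x = 1 ∨ x = z)
    (h16 : 16 ∣ Nat.card A) (hconj : ∀ x y : A, x * x = z → y * y = z → ∃ g, g * x * g⁻¹ = y)
    (hq8 : ∃ x y : A, x * x = z ∧ y * y = z ∧ x * y = z * (y * x)) (S : Sylow 2 G) :
    (groupFusionSystem (S : Subgroup G)).IsSimple 2 := by
  have hπz : π z = 1 := (hker z).2 (Or.inr rfl)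
  set T₀ : Subgroup A := (S : Subgroup G).comap π with hT₀
  have hkerP : IsPGroup 2 π.ker := by
    rintro ⟨x, hx⟩
    refine ⟨1, Subtype.ext ?_⟩
    show x ^ 2 ^ 1 = 1
    rcases (hker x).1 hx with rfl | rfl
    · exact one_pow _
    · rw [pow_one, pow_two]; exact hz2
  have hP : IsPGroup 2 T₀ := S.isPGroup'.comap_of_ker_isPGroup π hkerP
  have hidx : T₀.index = (S : Subgroup G).index := Subgroup.index_comap_of_surjective _ hπ
  have hT16 : 16 ∣ Nat.card T₀ := by
    have h1 := T₀.card_mul_index
    rw [← h1, hidx] at h16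
    have h2 : Nat.Coprime 16 (S : Subgroup G).index := by
      rw [show (16 : ℕ) = 2 ^ 4 by norm_num]
      exact Nat.Coprime.pow_left _ ((Nat.Prime.coprime_iff_not_dvd Nat.prime_two).2 S.not_dvd_index)
    exact h2.dvd_of_dvd_mul_right h16
  have hzT : z ∈ T₀ := by
    show π z ∈ (S : Subgroup G)
    rw [hπz]; exact (S : Subgroup G).one_mem
  have huT : ∀ x y : T₀, orderOf x = 2 → orderOf y = 2 → x = y := by
    have h1 : ∀ x : T₀, orderOf x = 2 → (x : A) = z := by
      intro x hx
      have h2 : x * x = 1 := by rw [← pow_two, ← hx, pow_orderOf_eq_one]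
      rcases huniq x (congrArg Subtype.val h2) with h3 | h3
      · have : x = 1 := Subtype.ext h3
        rw [this, orderOf_one] at hx; omega
      · exact h3
    intro x y hx hy
    exact Subtype.ext ((h1 x hx).trans (h1 y hy).symm)
  have himg : ∀ s ∈ (S : Subgroup G), ∃ x : T₀, π x = s := by
    intro s hs
    obtain ⟨x, rfl⟩ := hπ s
    exact ⟨⟨x, hs⟩, rfl⟩
  rcases Cfsg.Agent.Lib.PGrpD.cyclic_or_quaternion hP huT with hcyc | ⟨m, a, b, hm, hao, hb2, hba, hbn, hcard⟩
  · -- the cyclic case
    exfalso
    obtain ⟨x, y, hx, hy, hxy⟩ := hq8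
    have hS : IsCyclic (S : Subgroup G) := by
      let f : T₀ →* (S : Subgroup G) := (π.domRestrict T₀).codRestrict _ (fun x => x.2)
      refine isCyclic_of_surjective f ?_
      rintro ⟨s, hs⟩
      obtain ⟨x, hx⟩ := himg s hs
      exact ⟨x, Subtype.ext hx⟩
    refine not_cyclic_of_comm (a := π x) (b := π y) ?_ ?_ ?_ ?_ ?_ ?_ S hS
    · rw [← map_mul, hx, hπz]
    · rw [← map_mul, hy, hπz]
    · intro h
      rcases (hker x).1 h with rfl | rfl
      · rw [mul_one] at hx; exact hz1 hx.symm
      · rw [hz2] at hx; exact hz1 hx.symm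
    · intro h
      rcases (hker y).1 h with rfl | rfl
      · rw [mul_one] at hy; exact hz1 hy.symm
      · rw [hz2] at hy; exact hz1 hy.symm
    · intro h
      have h1 : π (x * y⁻¹) = 1 := by rw [map_mul, map_inv, h, mul_inv_cancel]
      have h2 : x * y = y * x := by
        rcases (hker _).1 h1 with h3 | h3
        · rw [mul_inv_eq_one] at h3; rw [h3]
        · have h4 : x = z * y := by rw [← h3]; group
          have h5 : z * y = y * z := by
            rw [← hy]; group
          calc x * y = z * y * y := by rw [h4]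
            _ = y * z * y := by rw [h5]
            _ = y * (z * y) := mul_assoc _ _ _
            _ = y * x := by rw [h4]
      rw [h2] at hxy
      have : z = 1 := by
        have h6 : z * (y * x) = 1 * (y * x) := by rw [← hxy, one_mul]
        exact mul_right_cancel h6
      exact hz1 this
    · rw [← map_mul, hxy, map_mul, hπz, one_mul, map_mul]
  · -- the quaternion case
    have hm2 : 2 ≤ m := by
      by_contra h
      have : m = 1 := by omega
      subst this
      rw [hcard] at hT16
      norm_num at hT16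
    have hcz : (Subgroup.zpowers a).index = 2 := by
      have h1 := (Subgroup.zpowers a).card_mul_index
      rw [Nat.card_zpowers, hao, hcard, show 2 ^ (m + 2) = 2 ^ (m + 1) * 2 by ring] at h1
      exact Nat.eq_of_mul_eq_mul_left (by positivity) h1
    have hsq : ∀ y : T₀, y ∉ Subgroup.zpowers a → (y : A) * y = z := by
      intro y hy
      have h1 : y * b⁻¹ ∈ Subgroup.zpowers a := by
        rw [Subgroup.mul_mem_iff_of_index_two hcz, Subgroup.inv_mem_iff]
        exact ⟨fun h => absurd h hy, fun h => absurd h hbn⟩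
      obtain ⟨i, hi⟩ := h1
      have hi' : a ^ i = y * b⁻¹ := hi
      have hy' : y = a ^ i * b := by rw [hi']; group
      have h2 : y * y = b ^ 2 := by
        have h3 : b * a ^ i * b⁻¹ = a ^ (-i) := by
          rw [← conj_zpow, hba, inv_zpow, zpow_neg]
        calc y * y = a ^ i * (b * a ^ i * b⁻¹) * (b * b) := by rw [hy']; group
          _ = b ^ 2 := by rw [h3, ← zpow_add, add_neg_cancel, zpow_zero, one_mul, pow_two]
      have h3 : (b ^ 2) * (b ^ 2) = 1 := by
        rw [hb2, ← pow_add, ← two_mul, ← pow_succ', ← hao, pow_orderOf_eq_one]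
      have h4 : b ^ 2 ≠ 1 := by
        rw [hb2]
        intro h
        have := orderOf_dvd_of_pow_eq_one h
        rw [hao] at this
        have h5 := Nat.le_of_dvd (by positivity) this
        have h6 : 2 ^ m < 2 ^ (m + 1) := Nat.pow_lt_pow_right (by norm_num) (by omega)
        omega
      rcases huniq ((b ^ 2 : T₀) : A) (congrArg Subtype.val h3) with h5 | h5
      · exact absurd (Subtype.ext h5) h4
      · have := congrArg Subtype.val h2
        exact this.trans h5
    have hzz : (⟨z, hzT⟩ : T₀) ∈ Subgroup.zpowers a := by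
      by_contra h
      have h1 := hsq _ h
      rw [hz2] at h1
      exact hz1 h1.symm
    -- the image of `a`
    set c : G := π a with hc
    have hcS : c ∈ (S : Subgroup G) := a.2
    have hcm : ∀ x : T₀, π x ∈ Subgroup.zpowers c ↔ x ∈ Subgroup.zpowers a := by
      intro x
      constructor
      · rintro ⟨i, hi⟩
        have hi' : c ^ i = π x := hi
        have h1 : π ((x : A) * ((a ^ i : T₀) : A)⁻¹) = 1 := by
          rw [map_mul, map_inv, ← hi', Subgroup.coe_zpow, map_zpow, mul_inv_cancel]
        rcases (hker _).1 h1 with h2 | h2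
        · have : x = a ^ i := Subtype.ext (mul_inv_eq_one.1 h2)
          rw [this]; exact ⟨i, rfl⟩
        · have : x = (⟨z, hzT⟩ : T₀) * a ^ i := by
            apply Subtype.ext
            show (x : A) = z * ((a ^ i : T₀) : A)
            rw [← h2]; group
          rw [this]
          exact Subgroup.mul_mem _ hzz ⟨i, rfl⟩
      · rintro ⟨i, rfl⟩
        refine ⟨i, ?_⟩
        show c ^ i = π ((a ^ i : T₀) : A)
        rw [Subgroup.coe_zpow, map_zpow]
    have hco : orderOf c = 2 ^ m := by
      have hm' : m = (m - 1) + 1 := by omega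
      rw [hm']
      haveI : Fact (Nat.Prime 2) := ⟨Nat.prime_two⟩
      apply orderOf_eq_prime_pow
      · intro h
        have h1 : π ((a ^ 2 ^ (m - 1) : T₀) : A) = 1 := by rw [Subgroup.coe_pow, map_pow]; exact h
        have h2 : (a ^ 2 ^ (m - 1)) * (a ^ 2 ^ (m - 1)) = 1 := by
          apply Subtype.ext
          rcases (hker _).1 h1 with h3 | h3
          · show ((a ^ 2 ^ (m - 1) : T₀) : A) * ((a ^ 2 ^ (m - 1) : T₀) : A) = 1
            rw [h3, mul_one]
          · show ((a ^ 2 ^ (m - 1) : T₀) : A) * ((a ^ 2 ^ (m - 1) : T₀) : A) = 1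
            rw [h3, hz2]
        rw [← pow_add, ← two_mul, ← pow_succ', ← hm'] at h2
        have h3 := orderOf_dvd_of_pow_eq_one h2
        rw [hao] at h3
        have h5 := Nat.le_of_dvd (by positivity) h3
        have h6 : 2 ^ m < 2 ^ (m + 1) := Nat.pow_lt_pow_right (by norm_num) (by omega)
        omega
      · rw [← hm']
        have h1 : (a ^ 2 ^ m) * (a ^ 2 ^ m) = 1 := by
          rw [← pow_add, ← two_mul, ← pow_succ', ← hao, pow_orderOf_eq_one]
        have h2 : π ((a ^ 2 ^ m : T₀) : A) = 1 := (hker _).2 (huniq _ (congrArg Subtype.val h1))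
        rw [Subgroup.coe_pow, map_pow] at h2
        exact h2
    -- elements outside `⟨c⟩` are involutions
    have hinv : ∀ s ∈ (S : Subgroup G), s ∉ Subgroup.zpowers c → s * s = 1 := by
      intro s hs hsc
      obtain ⟨x, rfl⟩ := himg s hs
      rw [hcm] at hsc
      rw [← map_mul, hsq x hsc, hπz]
    have haut : IsPGroup 2 (autInducedBy ⊤ (S : Subgroup G)) := by
      refine aut_of_cyclic S hcS hco ?_ ?_
      · intro x hx y hy hx1 hy1
        obtain ⟨x, rfl⟩ := himg x hx
        obtain ⟨y, rfl⟩ := himg y hy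
        rw [hcm] at hx1 hy1
        have h1 : x⁻¹ * y ∈ Subgroup.zpowers a := by
          rw [Subgroup.mul_mem_iff_of_index_two hcz, Subgroup.inv_mem_iff]
          exact ⟨fun h => absurd h hx1, fun h => absurd h hy1⟩
        have h2 := (hcm _).2 h1
        rw [Subgroup.coe_mul, Subgroup.coe_inv, map_mul, map_inv] at h2
        exact h2
      · intro g hg
        by_contra hn
        have h1 := hinv _ ((Subgroup.mem_normalizer_iff.1 hg c).1 hcS) hn
        have h2 : c ^ 2 = 1 := by
          have h3 : g * c * g⁻¹ * (g * c * g⁻¹) = g * c ^ 2 * g⁻¹ := by rw [pow_two]; group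
          rw [h3] at h1
          have := congrArg (fun y => g⁻¹ * y * g) h1
          simp only [mul_one, inv_mul_cancel] at this
          rw [← this]; group
        have h3 := orderOf_dvd_of_pow_eq_one h2
        rw [hco] at h3
        have h4 := Nat.le_of_dvd (by norm_num) h3
        have h5 : 2 ^ 2 ≤ 2 ^ m := Nat.pow_le_pow_right (by norm_num) hm2
        omega
    have hbc : π b ∉ Subgroup.zpowers c := by rw [hcm]; exact hbn
    refine simple_of S ?_ haut ?_
    · intro h
      have : π b ∈ (S : Subgroup G) := b.2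
      rw [h, Subgroup.mem_bot] at this
      rw [this] at hbc
      exact hbc (Subgroup.one_mem _)
    · intro T hT hT1
      obtain ⟨w, hwT, hw2, -⟩ := hT.exists_central (p := 2) S.isPGroup' hT1
      have hlift : ∀ s : G, s * s = 1 → s ≠ 1 → ∃ x : A, π x = s ∧ x * x = z := by
        intro s hs hs1
        obtain ⟨x, rfl⟩ := hπ s
        refine ⟨x, rfl, ?_⟩
        rw [← map_mul] at hs
        rcases (hker _).1 hs with h1 | h1
        · rcases huniq x h1 with rfl | rfl
          · exact absurd (map_one π) hs1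
          · exact absurd hπz hs1
        · exact h1
      have hall : ∀ s ∈ (S : Subgroup G), s * s = 1 → s ∈ T := by
        intro s hs hss
        by_cases hs1 : s = 1
        · rw [hs1]; exact T.one_mem
        obtain ⟨x, hx, hx2⟩ := hlift s hss hs1
        obtain ⟨y, hy, hy2⟩ := hlift w (by rw [← pow_two, ← hw2, pow_orderOf_eq_one]) (by
          rintro rfl; rw [orderOf_one] at hw2; omega)
        obtain ⟨g, hg⟩ := hconj y x hy2 hx2
        have h1 : s = π g * w * (π g)⁻¹ := by rw [← hx, ← hy, ← hg, map_mul, map_mul, map_inv]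
        rw [h1]
        exact hT.2 w hwT (π g) (by rw [← h1]; exact hs)
      apply le_antisymm hT.1
      intro s hs
      have hbS : π b ∈ (S : Subgroup G) := b.2
      have hbT := hall _ hbS (hinv _ hbS hbc)
      by_cases hsc : s ∈ Subgroup.zpowers c
      · have h1 : s * π b ∉ Subgroup.zpowers c := by
          intro h
          exact hbc ((Subgroup.mul_mem_cancel_left _ hsc).1 h)
        have h2 := hall _ ((S : Subgroup G).mul_mem hs hbS) (hinv _ ((S : Subgroup G).mul_mem hs hbS) h1)
        exact (Subgroup.mul_mem_cancel_right _ hbT).1 h2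
      · exact hall s hs (hinv s hs hsc)

end Cfsg.Agent.H8.FSim
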