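import Mathlib
import Cfsg.Agent.H8.FSim3

set_option autoImplicit false
set_option linter.all false

/-! Simple 2-fusion systems: groups of type `L_3^ε(q)`, `q` odd. -/

namespace Cfsg.Agent.H8.FSim

open Cfsg Cfsg.FusionSystem Cfsg.Agent.Lib.FusBase Cfsg.Agent.Lib.FusSat Cfsg.Agent.Lib.FusNormal
open Cfsg.Agent.Lib.FusGroup Cfsg.Agent.Lib.FusSimple

/-- transport of the criterion to a conjugate Sylow subgroup -/
theorem simple_of' {G : Type*} [Group G] [Finite G] {p : ℕ} [Fact p.Prime] (S₀ S : Sylow p G) (h1 : (S₀ : Subgroup G) ≠ ⊥)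
    (hcen : ∀ g ∈ Subgroup.normalizer ((S₀ : Subgroup G) : Set G), ¬ p ∣ orderOf g → ∀ x ∈ (S₀ : Subgroup G), g * x = x * g)
    (hsc : ∀ T : Subgroup G, SC (S₀ : Subgroup G) T → T ≠ ⊥ → (S₀ : Subgroup G) ≤ T) :
    (groupFusionSystem (S : Subgroup G)).IsSimple p := by
  obtain ⟨c, hc1⟩ := MulAction.exists_smul_eq G S₀ S
  have hc2 : (S : Subgroup G) = (S₀ : Subgroup G).map (MulAut.conj c).toMonoidHom := by
    rw [← hc1]; rfl
  have hcm : ∀ {H : Subgroup G} {x : G}, x ∈ H.map (MulAut.conj c).toMonoidHom ↔ c⁻¹ * x * c ∈ H := by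
    intro H x
    constructor
    · rintro ⟨y, hy, rfl⟩
      have : c⁻¹ * (c * y * c⁻¹) * c = y := by group
      show c⁻¹ * (c * y * c⁻¹) * c ∈ H
      rw [this]; exact hy
    · intro hx
      refine ⟨_, hx, ?_⟩
      show c * (c⁻¹ * x * c) * c⁻¹ = x
      group
  refine simple_of S ?_ (aut_of_pprime S ?_) ?_
  · intro h0
    rw [hc2, Subgroup.map_eq_bot_iff_of_injective _ (MulAut.conj c).injective] at h0
    exact h1 h0
  · intro g hg hgo x hx
    have hx' := hx
    rw [hc2, hcm] at hx'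
    have h2 := hcen (c⁻¹ * g * c) (by
      apply mem_normalizer_of_conj_mem
      intro y hy
      have h3 := (Subgroup.mem_normalizer_iff.1 hg (c * y * c⁻¹)).1 (by
        rw [hc2, hcm]
        have : c⁻¹ * (c * y * c⁻¹) * c = y := by group
        rw [this]; exact hy)
      rw [hc2, hcm] at h3
      have e1 : c⁻¹ * (g * (c * y * c⁻¹) * g⁻¹) * c = c⁻¹ * g * c * y * (c⁻¹ * g * c)⁻¹ := by group
      rwa [e1] at h3) (by
      have : orderOf (c⁻¹ * g * c) = orderOf g := by
        have := orderOf_injective (MulAut.conj c⁻¹).toMonoidHom (MulAut.conj c⁻¹).injective g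
        have e : (MulAut.conj c⁻¹).toMonoidHom g = c⁻¹ * g * c := by
          show c⁻¹ * g * c⁻¹⁻¹ = _
          rw [inv_inv]
        rwa [e] at this
      rwa [this]) _ hx'
    have h3 : c⁻¹ * (g * x) * c = c⁻¹ * (x * g) * c := by
      calc c⁻¹ * (g * x) * c = c⁻¹ * g * c * (c⁻¹ * x * c) := by group
        _ = c⁻¹ * x * c * (c⁻¹ * g * c) := h2
        _ = _ := by group
    exact mul_left_cancel (mul_right_cancel h3)
  · intro T hT hT1
    apply le_antisymm hT.1
    have h2 := hT.conj c⁻¹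
    have h3 : (S : Subgroup G).map (MulAut.conj c⁻¹).toMonoidHom = S₀ := by
      ext x
      constructor
      · rintro ⟨y, hy, rfl⟩
        have hy' : y ∈ (S : Subgroup G) := hy
        rw [hc2, hcm] at hy'
        show c⁻¹ * y * c⁻¹⁻¹ ∈ _
        rw [inv_inv]; exact hy'
      · intro hx
        refine ⟨c * x * c⁻¹, ?_, ?_⟩
        · show c * x * c⁻¹ ∈ (S : Subgroup G)
          rw [hc2, hcm]
          have : c⁻¹ * (c * x * c⁻¹) * c = x := by group
          rw [this]; exact hx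
        · show c⁻¹ * (c * x * c⁻¹) * c⁻¹⁻¹ = x
          group
    rw [h3] at h2
    have h4 := hsc _ h2 (by
      intro h0
      rw [Subgroup.map_eq_bot_iff_of_injective _ (MulAut.conj c⁻¹).injective] at h0
      exact hT1 h0)
    intro x hx
    rw [hc2, hcm] at hx
    obtain ⟨y, hy, hyx⟩ := h4 hx
    have h5 : c⁻¹ * y * c⁻¹⁻¹ = c⁻¹ * x * c := hyx
    have h6 : y = x := by
      rw [inv_inv] at h5
      exact mul_left_cancel (mul_right_cancel h5)
    rw [← h6]; exact hy

/-- the data of a group of type `L_3^ε(q)` -/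
structure GLD (G H A : Type*) [Group G] [Group H] [CommGroup A] where
  ι : H →* G
  δ : H →* A
  z : H
  t : H
  w : H
  D : Subgroup H
  ker_c : ∀ k, ι k = 1 → ∀ x, k * x = x * k
  ker_o : ∀ k, ι k = 1 → Odd (orderOf k)
  z2 : z * z = 1
  z1 : z ≠ 1
  zc : ∀ x, z * x = x * z
  zδ : δ z = 1
  cent : ∀ g : G, g * ι z = ι z * g → ∃ h, ι h = g
  inv : ∀ x y : G, orderOf x = 2 → orderOf y = 2 → ∃ g, g * x * g⁻¹ = y
  uniq : ∀ x, δ x = 1 → x * x = 1 → x = 1 ∨ x = z
  conj4 : ∀ x y, δ x = 1 → δ y = 1 → x * x = z → y * y = z → ∃ g, g * x * g⁻¹ = y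
  q8 : ∃ x y, δ x = 1 ∧ δ y = 1 ∧ x * x = z ∧ y * y = z ∧ x * y = z * (y * x)
  tt : t * t = 1
  t1 : t ≠ 1
  ww : w * w = z
  wδ : δ w = 1
  tw : t * w = z * (w * t)
  hD : IsPGroup 2 D
  tD : t ∈ D
  wD : w ∈ D
  cen : ∀ x, x * x = 1 → x * t = t * x → x * w = w * x → x = 1 ∨ x = z
  sq : ∀ j j' x, δ j = 1 → δ j' = 1 → j * j = z → j' * j' = z → j * j' = z * (j' * j) →
    (x * j = j * x ∨ x * j = z * (j * x)) → (x * j' = j' * x ∨ x * j' = z * (j' * x)) → ∃ l : A, δ x = l * l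
  ab : ∀ j a b, δ j = 1 → j * j = z → a * j = j * a → b * j = j * b → a * b = b * a
  nsq : ∃ d ∈ D, ∀ l, δ d ≠ l * l
  fus : ∀ x : H, (∃ k : ℕ, orderOf x = 2 ^ k) → ∃ y ∈ D, ∃ y' ∈ D, δ y = δ x ∧ δ y' = 1 ∧ ∃ g : G, g * ι y' * g⁻¹ = ι y

namespace GLD

variable {G H A : Type*} [Group G] [Group H] [CommGroup A] [Finite G] [Finite H] (X : GLD G H A)

theorem two_of_ker {x : H} (hx : ∃ k : ℕ, orderOf x = 2 ^ k) (h : X.ι x = 1) : x = 1 := by
  obtain ⟨k, hk⟩ := hx
  have h1 := X.ker_o x h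
  rw [hk] at h1
  have h2 : k = 0 := by
    by_contra hk0
    exact (Nat.not_even_iff_odd.2 h1) (Nat.even_pow.2 ⟨even_two, hk0⟩)
  rw [h2, pow_zero, orderOf_eq_one_iff] at hk
  exact hk

theorem two_of_mem {P : Subgroup H} (hP : IsPGroup 2 P) {x : H} (hx : x ∈ P) : ∃ k : ℕ, orderOf x = 2 ^ k := by
  obtain ⟨k, hk⟩ := hP ⟨x, hx⟩
  have h2 : x ^ 2 ^ k = 1 := by
    have := congrArg Subtype.val hk
    simpa using this
  obtain ⟨m, -, hm2⟩ := (Nat.dvd_prime_pow Nat.prime_two).1 (orderOf_dvd_of_pow_eq_one h2)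
  exact ⟨m, hm2⟩

theorem odd_two_eq_one {x : H} (h1 : ∃ k : ℕ, orderOf x = 2 ^ k) {n : ℕ} (hn : Odd n) (h2 : x ^ n = 1) : x = 1 := by
  obtain ⟨k, hk⟩ := h1
  have h3 := orderOf_dvd_of_pow_eq_one h2
  rw [hk] at h3
  have h4 : k = 0 := by
    by_contra hk0
    have : 2 ∣ n := (dvd_pow_self 2 hk0).trans h3
    exact (Nat.not_even_iff_odd.2 hn) (even_iff_two_dvd.2 this)
  rw [h4, pow_zero, orderOf_eq_one_iff] at hk
  exact hk

/-- elements of order four invariant under `P` -/
def J (P : Subgroup H) (j : H) : Prop := j ∈ P ∧ X.δ j = 1 ∧ j * j = X.z ∧ ∀ x ∈ P, x * j = j * x ∨ x * j = X.z * (j * x)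

theorem exists_J (P : Subgroup H) (hP : IsPGroup 2 P) (hD : X.D ≤ P) : ∃ j, X.J P j := by
  have hzP : X.z ∈ P := by rw [← X.ww]; exact P.mul_mem (hD X.wD) (hD X.wD)
  let Z : Subgroup P := Subgroup.zpowers ⟨X.z, hzP⟩
  haveI hZn : Z.Normal := ⟨by
    rintro _ ⟨i, rfl⟩ g
    refine ⟨i, ?_⟩
    have h1 : Commute g (⟨X.z, hzP⟩ : P) := Subtype.ext (X.zc g).symm
    have h2 := h1.zpow_right i
    show (⟨X.z, hzP⟩ : P) ^ i = g * (⟨X.z, hzP⟩ : P) ^ i * g⁻¹
    rw [h2.eq, mul_inv_cancel_right]⟩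
  have hZm : ∀ x : P, x ∈ Z ↔ (x : H) = 1 ∨ (x : H) = X.z := by
    intro x
    constructor
    · rintro ⟨i, rfl⟩
      have h2 : (⟨X.z, hzP⟩ : P) ^ 2 = 1 := Subtype.ext (by rw [pow_two]; exact X.z2)
      rcases Int.even_or_odd i with ⟨k, hk⟩ | ⟨k, hk⟩
      · left
        have : (⟨X.z, hzP⟩ : P) ^ i = 1 := by
          rw [hk, ← two_mul, zpow_mul, zpow_ofNat, h2, one_zpow]
        show (((⟨X.z, hzP⟩ : P) ^ i : P) : H) = 1
        rw [this]; rfl
      · right
        have : (⟨X.z, hzP⟩ : P) ^ i = ⟨X.z, hzP⟩ := by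
          rw [hk, zpow_add, zpow_mul, zpow_ofNat, h2, one_zpow, one_mul, zpow_one]
        show (((⟨X.z, hzP⟩ : P) ^ i : P) : H) = X.z
        rw [this]
    · rintro (h | h)
      · have : x = 1 := Subtype.ext h
        rw [this]; exact Z.one_mem
      · have : x = ⟨X.z, hzP⟩ := Subtype.ext h
        rw [this]; exact Subgroup.mem_zpowers _
  let Q : Subgroup (P ⧸ Z) := (X.δ.ker.subgroupOf P).map (QuotientGroup.mk' Z)
  have hsc : SC (⊤ : Subgroup (P ⧸ Z)) Q := by
    refine ⟨le_top, ?_⟩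
    rintro _ ⟨x, hx, rfl⟩ g -
    obtain ⟨g, rfl⟩ := QuotientGroup.mk_surjective g
    refine ⟨g * x * g⁻¹, ?_, rfl⟩
    have hx' : X.δ (x : H) = 1 := hx
    show X.δ ((g * x * g⁻¹ : P) : H) = 1
    rw [Subgroup.coe_mul, Subgroup.coe_mul, map_mul, map_mul, hx', mul_one, Subgroup.coe_inv, map_inv, mul_inv_cancel]
  have hQ1 : Q ≠ ⊥ := by
    intro h
    have h1 : (QuotientGroup.mk' Z) ⟨X.w, hD X.wD⟩ ∈ Q := ⟨_, X.wδ, rfl⟩
    rw [h, Subgroup.mem_bot] at h1
    have h2 := (QuotientGroup.eq_one_iff _).1 h1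
    rcases (hZm _).1 h2 with h3 | h3
    · have h4 : X.w = 1 := h3
      have h5 := X.ww
      rw [h4, mul_one] at h5
      exact X.z1 h5.symm
    · have h4 : X.w = X.z := h3
      have h5 := X.ww
      rw [h4, X.z2] at h5
      exact X.z1 h5.symm
  have hPq : IsPGroup 2 (⊤ : Subgroup (P ⧸ Z)) := (hP.to_quotient Z).to_subgroup ⊤
  obtain ⟨y, hyQ, hyo, hyc⟩ := hsc.exists_central (p := 2) hPq hQ1
  obtain ⟨j, hj, rfl⟩ := hyQ
  have hjδ : X.δ (j : H) = 1 := hj
  have hjj : (j : H) * j = 1 ∨ (j : H) * j = X.z := by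
    rw [← Subgroup.coe_mul]
    rw [← hZm, ← QuotientGroup.eq_one_iff]
    have h1 : ((QuotientGroup.mk' Z) j) ^ 2 = 1 := by rw [← hyo]; exact pow_orderOf_eq_one _
    rw [pow_two] at h1
    exact h1
  have hjz : (j : H) * j = X.z := by
    rcases hjj with h | h
    · exfalso
      have h1 := X.uniq _ hjδ h
      rw [← hZm, ← QuotientGroup.eq_one_iff] at h1
      have h2 : (QuotientGroup.mk' Z) j = 1 := h1
      rw [h2, orderOf_one] at hyo
      omega
    · exact h
  refine ⟨j, j.2, hjδ, hjz, ?_⟩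
  intro x hx
  have h1 := hyc ((QuotientGroup.mk' Z) ⟨x, hx⟩) trivial
  have h2 : (QuotientGroup.mk' Z) (⟨x, hx⟩ * j * (j * ⟨x, hx⟩)⁻¹) = 1 := by
    rw [map_mul, map_inv, mul_inv_eq_one, map_mul, map_mul]
    exact h1
  have h3 := (QuotientGroup.eq_one_iff _).1 h2
  rcases (hZm _).1 h3 with h4 | h4
  · left
    have h5 : x * (j : H) * ((j : H) * x)⁻¹ = 1 := h4
    exact mul_inv_eq_one.1 h5
  · right
    have h5 : x * (j : H) * ((j : H) * x)⁻¹ = X.z := h4
    exact mul_inv_eq_iff_eq_mul.1 h5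

theorem J_unique (P : Subgroup H) (hD : X.D ≤ P) {j j' : H} (hj : X.J P j) (hj' : X.J P j') : j' = j ∨ j' = X.z * j := by
  by_contra hcon
  push Not at hcon
  have hne : j * j' ≠ j' * j := by
    intro hc
    have h1 : (j * j') * (j * j') = 1 := by
      calc (j * j') * (j * j') = j * (j' * j) * j' := by group
        _ = j * (j * j') * j' := by rw [hc]
        _ = (j * j) * (j' * j') := by group
        _ = 1 := by rw [hj.2.2.1, hj'.2.2.1, X.z2]
    rcases X.uniq (j * j') (by rw [map_mul, hj.2.1, hj'.2.1, one_mul]) h1 with h2 | h2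
    · apply hcon.2
      have h3 : j' = j⁻¹ := eq_inv_of_mul_eq_one_right h2
      rw [h3, eq_comm, ← hj.2.2.1]
      rw [← mul_eq_one_iff_eq_inv]
      rw [mul_assoc, mul_assoc, ← mul_assoc, hj.2.2.1, X.z2]
    · apply hcon.1
      rw [← hj.2.2.1] at h2
      exact mul_left_cancel h2
  have hz : j * j' = X.z * (j' * j) := by
    rcases hj'.2.2.2 j hj.1 with h | h
    · exact absurd h hne
    · exact h
  obtain ⟨d, hdD, hd⟩ := X.nsq
  obtain ⟨l, hl⟩ := X.sq j j' d hj.2.1 hj'.2.1 hj.2.2.1 hj'.2.2.1 hz (hj.2.2.2 d (hD hdD)) (hj'.2.2.2 d (hD hdD))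
  exact hd l hl

/-- elements of odd order normalizing `P` centralize it -/
theorem odd_cent (P : Subgroup H) (hP : IsPGroup 2 P) (hD : X.D ≤ P) (h : H) (ho : Odd (orderOf h))
    (hn : ∀ x ∈ P, h * x * h⁻¹ ∈ P) : ∀ x ∈ P, h * x * h⁻¹ = x := by
  have hn' : ∀ x ∈ P, h⁻¹ * x * h ∈ P := by
    have h1 : h ∈ Subgroup.normalizer (P : Set H) := mem_normalizer_of_conj_mem hn
    intro x hx
    exact (Subgroup.mem_normalizer_iff''.1 h1 x).1 hx
  obtain ⟨j, hj⟩ := X.exists_J P hP hD
  have hzh : ∀ x, X.z * x = x * X.z := X.zc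
  have hj2 : X.J P (h * j * h⁻¹) := by
    refine ⟨hn j hj.1, ?_, ?_, ?_⟩
    · rw [map_mul, map_mul, hj.2.1, mul_one, map_inv, mul_inv_cancel]
    · calc h * j * h⁻¹ * (h * j * h⁻¹) = h * (j * j) * h⁻¹ := by group
        _ = X.z := by rw [hj.2.2.1, ← hzh]; group
    · intro x hx
      rcases hj.2.2.2 _ (hn' x hx) with h1 | h1
      · left
        calc x * (h * j * h⁻¹) = h * (h⁻¹ * x * h * j) * h⁻¹ := by group
          _ = h * (j * (h⁻¹ * x * h)) * h⁻¹ := by rw [h1]
          _ = _ := by group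
      · right
        calc x * (h * j * h⁻¹) = h * (h⁻¹ * x * h * j) * h⁻¹ := by group
          _ = h * (X.z * (j * (h⁻¹ * x * h))) * h⁻¹ := by rw [h1]
          _ = (h * X.z) * (j * (h⁻¹ * x * h)) * h⁻¹ := by group
          _ = (X.z * h) * (j * (h⁻¹ * x * h)) * h⁻¹ := by rw [hzh h]
          _ = _ := by group
  have hcj : h * j = j * h := by
    have h2 : h ^ 2 * j = j * h ^ 2 := by
      have h3 : h * (h * j * h⁻¹) * h⁻¹ = j := by
        rcases X.J_unique P hD hj hj2 with h4 | h4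
        · rw [h4, h4]
        · calc h * (h * j * h⁻¹) * h⁻¹ = h * (X.z * j) * h⁻¹ := by rw [h4]
            _ = (h * X.z) * j * h⁻¹ := by group
            _ = X.z * (h * j * h⁻¹) := by rw [← hzh]; group
            _ = j := by rw [h4, ← mul_assoc, X.z2, one_mul]
      calc h ^ 2 * j = h * (h * j * h⁻¹) * h⁻¹ * h ^ 2 := by rw [pow_two]; group
        _ = j * h ^ 2 := by rw [h3]
    obtain ⟨k, hk⟩ := ho
    have h5 : h = (h ^ 2) ^ (k + 1) := by
      rw [← pow_mul, show 2 * (k + 1) = (2 * k + 1) + 1 by ring, pow_succ, ← hk, pow_orderOf_eq_one, one_mul]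
    have h6 : Commute (h ^ 2) j := h2
    have h7 := h6.pow_left (k + 1)
    rw [← h5] at h7
    exact h7
  intro x hx
  set c := h * x * h⁻¹ * x⁻¹ with hc
  have hcP : c ∈ P := P.mul_mem (hn x hx) (P.inv_mem hx)
  have hcomm : h * c = c * h := by
    -- both factors commute with `j`
    have h1 : (x * h⁻¹ * x⁻¹) * j = j * (x * h⁻¹ * x⁻¹) := by
      have h2 : x⁻¹ * j * x = j ∨ x⁻¹ * j * x = X.z * j := by
        rcases hj.2.2.2 _ (P.inv_mem hx) with h3 | h3
        · left; rw [h3]; group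
        · right; rw [h3]; group
      have h3 : h⁻¹ * (x⁻¹ * j * x) = (x⁻¹ * j * x) * h⁻¹ := by
        have h4 : h⁻¹ * j = j * h⁻¹ := by
          calc h⁻¹ * j = h⁻¹ * (j * h) * h⁻¹ := by group
            _ = h⁻¹ * (h * j) * h⁻¹ := by rw [hcj]
            _ = _ := by group
        rcases h2 with h2 | h2
        · rw [h2, h4]
        · rw [h2, ← mul_assoc, ← hzh, mul_assoc, h4, mul_assoc]
      calc (x * h⁻¹ * x⁻¹) * j = x * (h⁻¹ * (x⁻¹ * j * x)) * x⁻¹ := by group
        _ = x * ((x⁻¹ * j * x) * h⁻¹) * x⁻¹ := by rw [h3]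
        _ = _ := by group
    have h2 : c = h * (x * h⁻¹ * x⁻¹) := by rw [hc]; group
    have h3 : h * (x * h⁻¹ * x⁻¹) = (x * h⁻¹ * x⁻¹) * h := X.ab j _ _ hj.2.1 hj.2.2.1 hcj h1
    rw [h2]
    calc h * (h * (x * h⁻¹ * x⁻¹)) = h * ((x * h⁻¹ * x⁻¹) * h) := by rw [h3]
      _ = _ := by group
  have hpow : ∀ k : ℕ, h ^ k * x * (h ^ k)⁻¹ = c ^ k * x := by
    intro k
    induction k with
    | zero => simp
    | succ k ih =>
      have h1 : Commute h (c ^ k) := (show Commute h c from hcomm).pow_right k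
      calc h ^ (k + 1) * x * (h ^ (k + 1))⁻¹ = h * (h ^ k * x * (h ^ k)⁻¹) * h⁻¹ := by
            rw [pow_succ']; group
        _ = h * c ^ k * x * h⁻¹ := by rw [ih]; group
        _ = c ^ k * (h * x * h⁻¹) := by rw [h1.eq]; group
        _ = c ^ k * (c * x) := by rw [hc]; group
        _ = c ^ (k + 1) * x := by rw [pow_succ]; group
  have h1 := hpow (orderOf h)
  rw [pow_orderOf_eq_one, one_mul, inv_one, mul_one] at h1
  have h2 : c ^ orderOf h = 1 := by
    have : c ^ orderOf h * x = 1 * x := by rw [one_mul]; exact h1.symm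
    exact mul_right_cancel this
  have h3 : c = 1 := odd_two_eq_one (two_of_mem hP hcP) ho h2
  rw [hc, mul_inv_eq_one] at h3
  exact h3

include X in
theorem simple (S : Sylow 2 G) : (groupFusionSystem (S : Subgroup G)).IsSimple 2 := by
  obtain ⟨P, hDP⟩ := IsPGroup.exists_le_sylow X.hD
  have hP : IsPGroup 2 (P : Subgroup H) := P.isPGroup'
  have hinj : ∀ x ∈ (P : Subgroup H), X.ι x = 1 → x = 1 := fun x hx h => X.two_of_ker (two_of_mem hP hx) h
  have hzP : X.z ∈ (P : Subgroup H) := by rw [← X.ww]; exact (P : Subgroup H).mul_mem (hDP X.wD) (hDP X.wD)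
  have hιz : X.ι X.z ≠ 1 := fun h => X.z1 (hinj _ hzP h)
  have hιzz : X.ι X.z * X.ι X.z = 1 := by rw [← map_mul, X.z2, map_one]
  have hιzo : orderOf (X.ι X.z) = 2 := orderOf_eq_prime (by rw [pow_two]; exact hιzz) hιz
  have hmapP : IsPGroup 2 ((P : Subgroup H).map X.ι) := hP.map X.ι
  have hmapne : (P : Subgroup H).map X.ι ≠ ⊥ := by
    intro h
    have : X.ι X.z ∈ (P : Subgroup H).map X.ι := ⟨_, hzP, rfl⟩
    rw [h, Subgroup.mem_bot] at this
    exact hιz this
  -- the image is Sylow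
  have hidx : ¬ 2 ∣ ((P : Subgroup H).map X.ι).index := by
    rw [Subgroup.index_map]
    intro hd
    rcases (Nat.Prime.dvd_mul Nat.prime_two).1 hd with hd | hd
    · exact P.not_dvd_index (hd.trans (Subgroup.index_dvd_of_le le_sup_left))
    · -- a Sylow subgroup inside the range
      obtain ⟨S1, hS1⟩ := hmapP.exists_le_sylow
      have hS1ne : (S1 : Subgroup G) ≠ ⊥ := fun h => hmapne (le_bot_iff.1 (hS1.trans h.le))
      have hscS : SC (S1 : Subgroup G) (S1 : Subgroup G) := ⟨le_rfl, fun x _ g h => h⟩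
      obtain ⟨c, hcS, hco, hcc⟩ := hscS.exists_central (p := 2) S1.isPGroup' hS1ne
      obtain ⟨g, hg⟩ := X.inv c _ hco hιzo
      have hle : ((g • S1 : Sylow 2 G) : Subgroup G) ≤ X.ι.range := by
        intro x hx
        have hx' : x ∈ (S1 : Subgroup G).map (MulAut.conj g).toMonoidHom := hx
        obtain ⟨y, hy, rfl⟩ := hx'
        have hy1 := hcc y hy
        obtain ⟨h, hh⟩ := X.cent (g * y * g⁻¹) (by
          rw [← hg]
          calc g * y * g⁻¹ * (g * c * g⁻¹) = g * (y * c) * g⁻¹ := by group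
            _ = g * (c * y) * g⁻¹ := by rw [hy1]
            _ = _ := by group)
        exact ⟨h, hh⟩
      exact (g • S1).not_dvd_index (hd.trans (Subgroup.index_dvd_of_le hle))
  let S₀ : Sylow 2 G := hmapP.toSylow hidx
  have hS₀ : (S₀ : Subgroup G) = (P : Subgroup H).map X.ι := rfl
  -- lifting of the action
  have hlift : ∀ h : H, X.ι h ∈ Subgroup.normalizer ((S₀ : Subgroup G) : Set G) → ∀ x ∈ (P : Subgroup H), h * x * h⁻¹ ∈ (P : Subgroup H) := by
    intro h hh x hx
    have h1 : X.ι h * X.ι x * (X.ι h)⁻¹ ∈ (S₀ : Subgroup G) := (Subgroup.mem_normalizer_iff.1 hh _).1 ⟨x, hx, rfl⟩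
    obtain ⟨y, hy, hyx⟩ := h1
    have h2 : X.ι (y⁻¹ * (h * x * h⁻¹)) = 1 := by
      rw [map_mul, map_inv, map_mul, map_mul, map_inv, hyx]
      group
    have hk := X.ker_c _ h2
    have hko := X.ker_o _ h2
    set k := y⁻¹ * (h * x * h⁻¹) with hkd
    have hyk : h * x * h⁻¹ = y * k := by rw [hkd]; group
    -- `k` is a 2-element
    have hk1 : k = 1 := by
      obtain ⟨a, ha⟩ := two_of_mem hP hx
      obtain ⟨b, hb⟩ := two_of_mem hP hy
      have h3 : (h * x * h⁻¹) ^ 2 ^ a = 1 := by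
        rw [conj_pow, ← ha, pow_orderOf_eq_one, mul_one, mul_inv_cancel]
      have h4 : y ^ 2 ^ b = 1 := by rw [← hb, pow_orderOf_eq_one]
      have h5 : Commute y k := (hk y).symm
      have h6 : k ^ 2 ^ (a + b) = 1 := by
        have h7 : (y * k) ^ 2 ^ (a + b) = 1 := by
          rw [← hyk, pow_add, pow_mul, h3, one_pow]
        rw [h5.mul_pow, pow_add, mul_comm (2 ^ a) (2 ^ b), pow_mul, h4, one_pow, one_mul] at h7
        rw [pow_add, mul_comm]; exact h7
      obtain ⟨m, -, hm2⟩ := (Nat.dvd_prime_pow Nat.prime_two).1 (orderOf_dvd_of_pow_eq_one h6)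
      exact X.two_of_ker ⟨m, hm2⟩ h2
    rw [hyk, hk1, mul_one]; exact hy
  refine simple_of' S₀ S hmapne ?_ ?_
  · -- automizer
    intro g hg hgo s hs
    -- `g` centralizes `ι z`
    have hgz : g * X.ι X.z = X.ι X.z * g := by
      have h1 : g * X.ι X.z * g⁻¹ ∈ (S₀ : Subgroup G) := (Subgroup.mem_normalizer_iff.1 hg _).1 ⟨_, hzP, rfl⟩
      obtain ⟨x, hx, hxg⟩ := h1
      have hcen : ∀ y ∈ (S₀ : Subgroup G), y * X.ι x = X.ι x * y := by
        intro y hy
        have hy' : g⁻¹ * y * g ∈ (S₀ : Subgroup G) := (Subgroup.mem_normalizer_iff''.1 hg y).1 hy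
        obtain ⟨u, hu, huy⟩ := hy'
        have h2 : X.ι u * X.ι X.z = X.ι X.z * X.ι u := by rw [← map_mul, ← map_mul, X.zc]
        rw [hxg]
        calc y * (g * X.ι X.z * g⁻¹) = g * ((g⁻¹ * y * g) * X.ι X.z) * g⁻¹ := by group
          _ = g * (X.ι X.z * (g⁻¹ * y * g)) * g⁻¹ := by rw [← huy, h2]
          _ = _ := by group
      have hlc : ∀ y ∈ (P : Subgroup H), x * y = y * x := by
        intro y hy
        have h2 := hcen (X.ι y) ⟨y, hy, rfl⟩
        have h3 : X.ι (x * y * (y * x)⁻¹) = 1 := by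
          rw [map_mul, map_inv, map_mul, map_mul, h2, mul_inv_cancel]
        exact mul_inv_eq_one.1 (hinj _ ((P : Subgroup H).mul_mem ((P : Subgroup H).mul_mem hx hy)
          ((P : Subgroup H).inv_mem ((P : Subgroup H).mul_mem hy hx))) h3)
      have hxx : x * x = 1 := by
        apply hinj _ ((P : Subgroup H).mul_mem hx hx)
        rw [map_mul, hxg]
        calc g * X.ι X.z * g⁻¹ * (g * X.ι X.z * g⁻¹) = g * (X.ι X.z * X.ι X.z) * g⁻¹ := by group
          _ = 1 := by rw [hιzz]; group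
      rcases X.cen x hxx (hlc _ (hDP X.tD)) (hlc _ (hDP X.wD)) with h2 | h2
      · exfalso
        rw [h2, map_one] at hxg
        apply hιz
        calc X.ι X.z = g⁻¹ * (g * X.ι X.z * g⁻¹) * g := by group
          _ = 1 := by rw [← hxg]; group
      · rw [h2] at hxg
        have h3 : X.ι X.z = g * X.ι X.z * g⁻¹ := hxg
        calc g * X.ι X.z = g * X.ι X.z * g⁻¹ * g := by group
          _ = X.ι X.z * g := by rw [← h3]
    obtain ⟨h, rfl⟩ := X.cent g hgz
    -- `h` has odd order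
    have hho : Odd (orderOf h) := by
      have h1 : Odd (orderOf (X.ι h)) := by
        rw [← Nat.not_even_iff_odd, even_iff_two_dvd]; exact hgo
      have h2 : X.ι (h ^ orderOf (X.ι h)) = 1 := by rw [map_pow, pow_orderOf_eq_one]
      have h3 := X.ker_o _ h2
      have h4 : h ^ (orderOf (X.ι h) * orderOf (h ^ orderOf (X.ι h))) = 1 := by
        rw [pow_mul, pow_orderOf_eq_one]
      exact (h1.mul h3).of_dvd_nat (orderOf_dvd_of_pow_eq_one h4)
    obtain ⟨x, hx, rfl⟩ := hs
    have h5 := X.odd_cent (P : Subgroup H) hP hDP h hho (hlift h hg) x hx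
    show X.ι h * X.ι x = X.ι x * X.ι h
    rw [← map_mul, ← map_mul]
    congr 1
    calc h * x = h * x * h⁻¹ * h := by group
      _ = x * h := by rw [h5]
  · -- strongly closed subgroups
    intro T hT hT1
    obtain ⟨c, hcT, hco, -⟩ := hT.exists_central (p := 2) S₀.isPGroup' hT1
    have hinvT : ∀ x ∈ (P : Subgroup H), x * x = 1 → X.ι x ∈ T := by
      intro x hx hxx
      by_cases hx1 : x = 1
      · rw [hx1, map_one]; exact T.one_mem
      have h1 : orderOf (X.ι x) = 2 := orderOf_eq_prime (by rw [pow_two, ← map_mul, hxx, map_one]) fun h => hx1 (hinj x hx h)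
      obtain ⟨g, hg⟩ := X.inv c _ hco h1
      rw [← hg]
      exact hT.2 c hcT g (by rw [hg]; exact ⟨x, hx, rfl⟩)
    have htT := hinvT _ (hDP X.tD) X.tt
    have htwT := hinvT _ ((P : Subgroup H).mul_mem (hDP X.tD) (hDP X.wD)) (by
      calc X.t * X.w * (X.t * X.w) = X.t * (X.w * X.t) * X.w := by group
        _ = X.t * (X.z * (X.t * X.w)) * X.w := by
          rw [X.tw, ← mul_assoc X.z X.z, X.z2, one_mul]
        _ = (X.t * X.z) * X.t * (X.w * X.w) := by group
        _ = X.z * (X.t * X.t) * X.z := by rw [← X.zc, X.ww]; group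
        _ = 1 := by rw [X.tt, mul_one, X.z2])
    have hwT : X.ι X.w ∈ T := by
      have h1 := T.mul_mem (T.inv_mem htT) htwT
      rw [map_mul, inv_mul_cancel_left] at h1
      exact h1
    have h4T : ∀ x ∈ (P : Subgroup H), X.δ x = 1 → x * x = X.z → X.ι x ∈ T := by
      intro x hx hxδ hxx
      obtain ⟨g, hg⟩ := X.conj4 X.w x X.wδ hxδ X.ww hxx
      have h1 : X.ι x = X.ι g * X.ι X.w * (X.ι g)⁻¹ := by rw [← hg, map_mul, map_mul, map_inv]
      rw [h1]
      exact hT.2 _ hwT _ (by rw [← h1]; exact ⟨x, hx, rfl⟩)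
    -- the quaternion group
    let Q : Subgroup H := (P : Subgroup H) ⊓ X.δ.ker
    have hQP : IsPGroup 2 Q := hP.to_le inf_le_left
    have huQ : ∀ x y : Q, orderOf x = 2 → orderOf y = 2 → x = y := by
      have h1 : ∀ x : Q, orderOf x = 2 → (x : H) = X.z := by
        intro x hx
        have h2 : x * x = 1 := by rw [← pow_two, ← hx, pow_orderOf_eq_one]
        rcases X.uniq x x.2.2 (congrArg Subtype.val h2) with h3 | h3
        · have : x = 1 := Subtype.ext h3
          rw [this, orderOf_one] at hx; omega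
        · exact h3
      intro x y hx hy
      exact Subtype.ext ((h1 x hx).trans (h1 y hy).symm)
    have hQT : ∀ x ∈ Q, X.ι x ∈ T := by
      rcases Cfsg.Agent.Lib.PGrpD.cyclic_or_quaternion hQP huQ with hcyc | ⟨m, a, b, hm, hao, hb2, hba, hbn, hcard⟩
      · exfalso
        obtain ⟨x, y, hxδ, hyδ, hxx, hyy, hxy⟩ := X.q8
        -- the group generated by `x` and `y` is a 2-group
        have hzx : X.z * x = x * X.z := X.zc x
        have hzy : X.z * y = y * X.z := X.zc y
        let f : Fin 2 × Fin 4 → H := fun p => y ^ (p.1 : ℕ) * x ^ (p.2 : ℕ)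
        have hR : IsPGroup 2 (Subgroup.closure ({x, y} : Set H)) := by
          haveI : Fact (Nat.Prime 2) := ⟨Nat.prime_two⟩
          have hxp : IsPGroup 2 (Subgroup.zpowers x) := by
            apply IsPGroup.of_card (n := 2)
            rw [Nat.card_zpowers]
            have h1 : x ^ 2 = X.z := by rw [pow_two]; exact hxx
            apply orderOf_eq_prime_pow (p := 2) (n := 1)
            · rw [pow_one, h1]; exact X.z1
            · rw [show 2 ^ (1 + 1) = 2 * 2 by norm_num, pow_mul, h1, pow_two]; exact X.z2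
          have hyp : IsPGroup 2 (Subgroup.zpowers y) := by
            apply IsPGroup.of_card (n := 2)
            rw [Nat.card_zpowers]
            have h1 : y ^ 2 = X.z := by rw [pow_two]; exact hyy
            apply orderOf_eq_prime_pow (p := 2) (n := 1)
            · rw [pow_one, h1]; exact X.z1
            · rw [show 2 ^ (1 + 1) = 2 * 2 by norm_num, pow_mul, h1, pow_two]; exact X.z2
          have hnorm : Subgroup.zpowers y ≤ Subgroup.normalizer (Subgroup.zpowers x : Set H) := by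
            rw [Subgroup.zpowers_le]
            apply mem_normalizer_of_conj_mem
            rintro _ ⟨i, rfl⟩
            refine ⟨-i, ?_⟩
            show x ^ (-i) = y * x ^ i * y⁻¹
            rw [← conj_zpow, zpow_neg, ← inv_zpow]
            congr 1
            have h1 : x⁻¹ = X.z * x := by
              rw [eq_comm, ← mul_eq_one_iff_eq_inv, mul_assoc, hxx, X.z2]
            rw [h1, eq_comm, mul_inv_eq_iff_eq_mul]
            rw [mul_assoc, hxy, ← mul_assoc, X.z2, one_mul]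
          have h3 := hxp.to_sup_of_normal_left' hyp hnorm
          refine h3.to_le ?_
          rw [Subgroup.closure_le]
          rintro u (rfl | rfl)
          · exact (le_sup_left : _ ≤ Subgroup.zpowers u ⊔ _) (Subgroup.mem_zpowers _)
          · exact (le_sup_right : _ ≤ _ ⊔ Subgroup.zpowers u) (Subgroup.mem_zpowers _)
        obtain ⟨P1, hP1⟩ := hR.exists_le_sylow
        obtain ⟨g, hg⟩ := MulAction.exists_smul_eq H P1 P
        have hmem : ∀ u ∈ (P1 : Subgroup H), g * u * g⁻¹ ∈ (P : Subgroup H) := by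
          intro u hu
          rw [← hg]
          exact ⟨u, hu, rfl⟩
        have hx1 : g * x * g⁻¹ ∈ Q := ⟨hmem x (hP1 (Subgroup.subset_closure (Or.inl rfl))), by
          show X.δ _ = 1
          rw [map_mul, map_mul, hxδ, mul_one, map_inv, mul_inv_cancel]⟩
        have hy1 : g * y * g⁻¹ ∈ Q := ⟨hmem y (hP1 (Subgroup.subset_closure (Or.inr rfl))), by
          show X.δ _ = 1
          rw [map_mul, map_mul, hyδ, mul_one, map_inv, mul_inv_cancel]⟩
        obtain ⟨c0, hc0⟩ := hcyc.exists_generator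
        have hcomm : (⟨_, hx1⟩ : Q) * ⟨_, hy1⟩ = ⟨_, hy1⟩ * ⟨_, hx1⟩ := by
          obtain ⟨i, hi⟩ := hc0 ⟨_, hx1⟩
          obtain ⟨k, hk⟩ := hc0 ⟨_, hy1⟩
          have hi' : c0 ^ i = (⟨_, hx1⟩ : Q) := hi
          have hk' : c0 ^ k = (⟨_, hy1⟩ : Q) := hk
          rw [← hi', ← hk', ← zpow_add, ← zpow_add, add_comm]
        have h1 : g * x * g⁻¹ * (g * y * g⁻¹) = g * y * g⁻¹ * (g * x * g⁻¹) := congrArg Subtype.val hcomm
        have h2 : x * y = y * x := by
          have e1 : g * x * g⁻¹ * (g * y * g⁻¹) = g * (x * y) * g⁻¹ := by group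
          have e2 : g * y * g⁻¹ * (g * x * g⁻¹) = g * (y * x) * g⁻¹ := by group
          rw [e1, e2] at h1
          exact mul_left_cancel (mul_right_cancel h1)
        rw [h2] at hxy
        have h3 : X.z * (y * x) = 1 * (y * x) := by rw [← hxy, one_mul]
        exact X.z1 (mul_right_cancel h3)
      · -- quaternion
        have hcz : (Subgroup.zpowers a).index = 2 := by
          have h1 := (Subgroup.zpowers a).card_mul_index
          rw [Nat.card_zpowers, hao, hcard, show 2 ^ (m + 2) = 2 ^ (m + 1) * 2 by ring] at h1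
          exact Nat.eq_of_mul_eq_mul_left (by positivity) h1
        have hsq : ∀ y : Q, y ∉ Subgroup.zpowers a → (y : H) * y = X.z := by
          intro y hy
          have h1 : y * b⁻¹ ∈ Subgroup.zpowers a := by
            rw [Subgroup.mul_mem_iff_of_index_two hcz, Subgroup.inv_mem_iff]
            exact ⟨fun h => absurd h hy, fun h => absurd h hbn⟩
          obtain ⟨i, hi⟩ := h1
          have hi' : a ^ i = y * b⁻¹ := hi
          have hy' : y = a ^ i * b := by rw [hi']; group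
          have h2 : y * y = b ^ 2 := by
            have h3 : b * a ^ i * b⁻¹ = a ^ (-i) := by
              rw [← conj_zpow, hba, inv_zpow, zpow_neg]
            calc y * y = a ^ i * (b * a ^ i * b⁻¹) * (b * b) := by rw [hy']; group
              _ = b ^ 2 := by rw [h3, ← zpow_add, add_neg_cancel, zpow_zero, one_mul, pow_two]
          have h3 : (b ^ 2) * (b ^ 2) = 1 := by
            rw [hb2, ← pow_add, ← two_mul, ← pow_succ', ← hao, pow_orderOf_eq_one]
          have h4 : b ^ 2 ≠ 1 := by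
            rw [hb2]
            intro h
            have := orderOf_dvd_of_pow_eq_one h
            rw [hao] at this
            have h5 := Nat.le_of_dvd (by positivity) this
            have h6 : 2 ^ m < 2 ^ (m + 1) := Nat.pow_lt_pow_right (by norm_num) (by omega)
            omega
          rcases X.uniq ((b ^ 2 : Q) : H) (b ^ 2 : Q).2.2 (congrArg Subtype.val h3) with h5 | h5
          · exact absurd (Subtype.ext h5) h4
          · have := congrArg Subtype.val h2
            exact this.trans h5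
        intro x hx
        have hbT : X.ι b ∈ T := h4T _ b.2.1 b.2.2 (hsq b hbn)
        by_cases hxa : (⟨x, hx⟩ : Q) ∈ Subgroup.zpowers a
        · have h1 : (⟨x, hx⟩ : Q) * b ∉ Subgroup.zpowers a := fun h => hbn ((Subgroup.mul_mem_cancel_left _ hxa).1 h)
          have h2 := h4T _ ((⟨x, hx⟩ : Q) * b).2.1 ((⟨x, hx⟩ : Q) * b).2.2 (hsq _ h1)
          rw [Subgroup.coe_mul, map_mul] at h2
          exact (Subgroup.mul_mem_cancel_right _ hbT).1 h2
        · exact h4T x hx.1 hx.2 (hsq ⟨x, hx⟩ hxa)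
    rintro _ ⟨x, hx, rfl⟩
    obtain ⟨y, hyD, y', hy'D, hyx, hy'1, g, hg⟩ := X.fus x (two_of_mem hP hx)
    have h1 : X.ι y' ∈ T := hQT _ ⟨hDP hy'D, hy'1⟩
    have h2 : X.ι y ∈ T := by
      rw [← hg]
      exact hT.2 _ h1 g (by rw [hg]; exact ⟨y, hDP hyD, rfl⟩)
    have h3 : X.ι (y⁻¹ * x) ∈ T := hQT _ ⟨(P : Subgroup H).mul_mem ((P : Subgroup H).inv_mem (hDP hyD)) hx, by
      show X.δ _ = 1
      rw [map_mul, map_inv, hyx, inv_mul_cancel]⟩
    have h4 := T.mul_mem h2 h3
    rw [← map_mul, mul_inv_cancel_left] at h4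
    exact h4

end GLD

end Cfsg.Agent.H8.FSim
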