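import Mathlib
import Cfsg.Agent.Lib.AutPSL4

set_option autoImplicit false
set_option linter.all false

/-! Element orders of `GL_n(2)`. -/

namespace Cfsg.Agent.H8.GlTwo

open Polynomial Matrix
open Cfsg.Agent.Lib.AutPSL (mk mk_eq_iff)

theorem prime_pow_dvd_lcm {r a x y : ℕ} (hr : r.Prime) (hx : x ≠ 0) (hy : y ≠ 0) (h : r ^ a ∣ Nat.lcm x y) :
    r ^ a ∣ x ∨ r ^ a ∣ y := by
  rw [hr.pow_dvd_iff_le_factorization (Nat.lcm_ne_zero hx hy), Nat.factorization_lcm hx hy, Finsupp.sup_apply, le_sup_iff] at h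
  rcases h with h | h
  · left; rwa [hr.pow_dvd_iff_le_factorization hx]
  · right; rwa [hr.pow_dvd_iff_le_factorization hy]

theorem prime_pow_dvd_finset_lcm {ι : Type*} [DecidableEq ι] (s : Finset ι) (M : ι → ℕ) (h0 : ∀ i, M i ≠ 0) {r a : ℕ} (hr : r.Prime) (ha : a ≠ 0)
    (h : r ^ a ∣ s.lcm M) : ∃ i ∈ s, r ^ a ∣ M i := by
  induction s using Finset.induction_on with
  | empty =>
    rw [Finset.lcm_empty, Nat.dvd_one] at h
    exact absurd h (Nat.one_lt_pow ha hr.one_lt).ne'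
  | insert i s hi ih =>
    rw [Finset.lcm_insert] at h
    have hs : s.lcm M ≠ 0 := by
      intro h1
      rw [Finset.lcm_eq_zero_iff] at h1
      obtain ⟨j, -, hj⟩ := h1
      exact h0 j hj
    rcases prime_pow_dvd_lcm hr (h0 i) hs h with h1 | h1
    · exact ⟨i, Finset.mem_insert_self _ _, h1⟩
    · obtain ⟨j, hj, h2⟩ := ih h1
      exact ⟨j, Finset.mem_insert_of_mem hj, h2⟩

theorem exists_order {L : Type*} [Group L] {K : ℕ} (M : Fin K → ℕ) (h0 : ∀ i, M i ≠ 0) (g : Fin K → L) (hg : ∀ i, orderOf (g i) = M i)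
    {N : ℕ} (hN : N ∣ Finset.univ.lcm M) : ∃ f : Fin K → L, orderOf f = N := by
  have hf : ∀ i, orderOf (g i ^ (M i / Nat.gcd N (M i))) = Nat.gcd N (M i) := by
    intro i
    have h1 : Nat.gcd N (M i) ∣ M i := Nat.gcd_dvd_right _ _
    rw [orderOf_pow_of_dvd, hg, Nat.div_div_self h1 (h0 i)]
    · exact (Nat.div_pos (Nat.le_of_dvd (Nat.pos_of_ne_zero (h0 i)) h1) (Nat.pos_of_dvd_of_pos h1 (Nat.pos_of_ne_zero (h0 i)))).ne'
    · rw [hg]; exact Nat.div_dvd_of_dvd h1
  refine ⟨fun i => g i ^ (M i / Nat.gcd N (M i)), Nat.dvd_antisymm ?_ ?_⟩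
  · apply orderOf_dvd_of_pow_eq_one
    funext i
    show (g i ^ (M i / Nat.gcd N (M i))) ^ N = 1
    rw [← orderOf_dvd_iff_pow_eq_one, hf]
    exact Nat.gcd_dvd_left _ _
  · rw [Nat.dvd_iff_prime_pow_dvd_dvd]
    intro r a hr h
    by_cases ha : a = 0
    · rw [ha, pow_zero]; exact one_dvd _
    obtain ⟨i, -, hi⟩ := prime_pow_dvd_finset_lcm Finset.univ M h0 hr ha (h.trans hN)
    refine (Nat.dvd_gcd h hi).trans ?_
    rw [← hf i]
    exact orderOf_map_dvd (Pi.evalMonoidHom (fun _ : Fin K => L) i) (fun i => g i ^ (M i / Nat.gcd N (M i)))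

section Poly
variable {F : Type*} [Field F] [Fintype F]

theorem dvd_pow_deg (P : F[X]) : ∀ χ : F[X], χ ≠ 0 → (∀ f : F[X], Irreducible f → f ∣ χ → f ∣ P) → χ ∣ P ^ χ.natDegree := by
  intro χ
  induction χ using WfDvdMonoid.induction_on_irreducible with
  | zero => intro h; exact absurd rfl h
  | unit u hu => intro _ _; exact hu.dvd
  | mul a i ha hi ih =>
    intro _ h
    have h1 := ih ha fun f hf hfa => h f hf (hfa.mul_left _)
    have h2 : i ∣ P := h i hi (dvd_mul_right _ _)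
    rw [Polynomial.natDegree_mul hi.ne_zero ha]
    have h3 : 1 ≤ i.natDegree := hi.natDegree_pos
    exact (mul_dvd_mul h2 h1).trans (by rw [← pow_succ']; exact pow_dvd_pow _ (by omega))

theorem pow_eq_one (hF : Fintype.card F = 2) {n : ℕ} (A : Matrix (Fin n) (Fin n) F) (hdet : A.det ≠ 0) {e J : ℕ}
    (h1 : ∀ d, 1 ≤ d → d ≤ n → 2 ^ d - 1 ∣ e) (hJ : n ≤ 2 ^ J) : A ^ (e * 2 ^ J) = 1 := by
  classical
  haveI : Fact (Nat.Prime 2) := ⟨Nat.prime_two⟩
  haveI : CharP F 2 := charP_of_card_eq_prime hF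
  set χ := A.charpoly with hχ
  have hmon : χ.Monic := A.charpoly_monic
  have hdeg : χ.natDegree = n := by rw [hχ, A.charpoly_natDegree_eq_dim, Fintype.card_fin]
  have hirr : ∀ f : F[X], Irreducible f → f ∣ χ → f ∣ (X ^ e - 1 : F[X]) := by
    intro f hf hfχ
    have hnX : ¬ f ∣ X := by
      intro hX
      have h2 : Associated f X := hf.associated_of_dvd Polynomial.irreducible_X hX
      have h3 : X ∣ χ := h2.symm.dvd.trans hfχ
      rw [Polynomial.X_dvd_iff, hχ] at h3
      have h4 := Matrix.det_eq_sign_charpoly_coeff A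
      rw [h3, mul_zero] at h4
      exact hdet h4
    have hd1 : 1 ≤ f.natDegree := hf.natDegree_pos
    have hdn : f.natDegree ≤ n := by rw [← hdeg]; exact Polynomial.natDegree_le_of_dvd hfχ hmon.ne_zero
    have h2 : f ∣ X ^ (Nat.card F) ^ f.natDegree - X := hf.natDegree_dvd_iff_dvd_X_pow_card_pow_sub_X.1 dvd_rfl
    rw [Nat.card_eq_fintype_card, hF] at h2
    have h3 : (X ^ 2 ^ f.natDegree - X : F[X]) = X * (X ^ (2 ^ f.natDegree - 1) - 1) := by
      rw [mul_sub, mul_one, ← pow_succ', Nat.sub_add_cancel Nat.one_le_two_pow]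
    rw [h3] at h2
    have h4 : f ∣ X ^ (2 ^ f.natDegree - 1) - 1 := (hf.prime.dvd_or_dvd h2).resolve_left hnX
    obtain ⟨c, hc⟩ := h1 _ hd1 hdn
    refine h4.trans ?_
    rw [hc, pow_mul]
    have := sub_dvd_pow_sub_pow (X ^ (2 ^ f.natDegree - 1) : F[X]) 1 c
    rwa [one_pow] at this
  have h5 : χ ∣ (X ^ e - 1) ^ n := by
    have := dvd_pow_deg (X ^ e - 1 : F[X]) χ hmon.ne_zero hirr
    rwa [hdeg] at this
  have h6 : χ ∣ X ^ (e * 2 ^ J) - 1 := by
    refine (h5.trans (pow_dvd_pow _ hJ)).trans ?_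
    rw [sub_pow_char_pow, one_pow, ← pow_mul]
  obtain ⟨Q, hQ⟩ := h6
  have h7 := congrArg (Polynomial.aeval A) hQ
  rw [map_mul, hχ, Matrix.aeval_self_charpoly, zero_mul, map_sub, map_pow, Polynomial.aeval_X, map_one, sub_eq_zero] at h7
  exact h7

end Poly

section Elts
variable {F : Type*} [Field F] [Fintype F] (hF : Fintype.card F = 2) {n : ℕ}

local notation "PSL" => Matrix.ProjectiveSpecialLinearGroup (Fin n) F
local notation "SL" => Matrix.SpecialLinearGroup (Fin n) F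
local notation "Mat" => Matrix (Fin n) (Fin n) F

include hF

theorem eq_one {x : F} (hx : x ≠ 0) : x = 1 := by
  have := FiniteField.pow_card_sub_one_eq_one x hx
  rwa [hF, pow_one] at this

theorem mk_inj : Function.Injective (mk : SL → PSL) := by
  intro a b h
  obtain ⟨ρ, hρ⟩ := (mk_eq_iff _ _).1 h
  by_cases h0 : n = 0
  · subst h0; apply Subtype.ext; ext i; exact i.elim0
  have hρ0 : ρ ≠ 0 := by
    rintro rfl
    rw [zero_smul] at hρ
    have h1 : (b : Mat).det = 1 := b.2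
    have hρ' : (b : Mat) = 0 := hρ
    haveI : Nonempty (Fin n) := ⟨⟨0, Nat.pos_of_ne_zero h0⟩⟩
    rw [hρ', Matrix.det_zero] at h1
    exact zero_ne_one h1
  rw [eq_one hF hρ0, one_smul] at hρ
  exact (Subtype.ext hρ).symm

theorem orderOf_mk (s : SL) : orderOf (mk s) = orderOf (s : Mat) := by
  have h1 : orderOf (mk s) = orderOf s := orderOf_injective (QuotientGroup.mk' _ : SL →* PSL) (mk_inj hF) s
  have h2 : orderOf (s : Mat) = orderOf s := orderOf_injective (Matrix.SpecialLinearGroup.coeMonoidHom : SL →* Mat) Subtype.val_injective s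
  rw [h1, h2]

theorem exists_elt {m : ℕ} (hm : m ≠ 0) {A : Mat} (hA : orderOf A = m) : ∃ x : PSL, orderOf x = m := by
  have h1 : A ^ m = 1 := by rw [← hA]; exact pow_orderOf_eq_one A
  have h2 : A.det ≠ 0 := by
    intro h
    have h3 : (A ^ m).det = 1 := by rw [h1, Matrix.det_one]
    rw [Matrix.det_pow, h, zero_pow hm] at h3
    exact zero_ne_one h3
  refine ⟨mk ⟨A, eq_one hF h2⟩, ?_⟩
  exact (orderOf_mk hF (⟨A, eq_one hF h2⟩ : SL)).trans hA

theorem singer {d : ℕ} (hd : 1 ≤ d) (hdn : d ≤ n) : ∃ A : Mat, orderOf A = 2 ^ d - 1 := by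
  haveI : Fact (Nat.Prime 2) := ⟨Nat.prime_two⟩
  haveI : CharP F 2 := charP_of_card_eq_prime hF
  haveI : NeZero d := ⟨by omega⟩
  let K := FiniteField.Extension F 2 d
  have hK : Nat.card K = 2 ^ d := by rw [FiniteField.natCard_extension, Nat.card_eq_fintype_card, hF]
  have hfr : Module.finrank F K = d := FiniteField.finrank_extension F 2 d
  haveI : Finite K := inferInstance
  obtain ⟨ζ, hζ⟩ := IsCyclic.exists_generator (α := Kˣ)
  have hζo : orderOf ζ = 2 ^ d - 1 := by
    rw [orderOf_eq_card_of_forall_mem_zpowers hζ, Nat.card_units, hK]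
  let V := K × (Fin (n - d) → F)
  have hV : Module.finrank F V = Module.finrank F (Fin n → F) := by
    rw [Module.finrank_prod, hfr, Module.finrank_fin_fun, Module.finrank_fin_fun]
    omega
  let φ : V ≃ₗ[F] (Fin n → F) := LinearEquiv.ofFinrankEq V (Fin n → F) hV
  let T : Kˣ →* Module.End F V :=
    { toFun := fun u => (LinearMap.mulLeft F (u : K)).prodMap LinearMap.id
      map_one' := by
        ext x <;> simp
      map_mul' := fun a b => by
        ext x <;> simp [mul_assoc] }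
  have hT : Function.Injective T := by
    intro a b h
    have h1 := congrArg (fun f : Module.End F V => (f (1, 0)).1) h
    have h2 : (a : K) * 1 = (b : K) * 1 := h1
    rw [mul_one, mul_one] at h2
    exact Units.ext h2
  let C : Module.End F V →* Mat :=
    { toFun := fun f => LinearMap.toMatrix' (φ.conj f)
      map_one' := by
        have : φ.conj (1 : Module.End F V) = LinearMap.id := LinearEquiv.conj_id φ
        rw [this, LinearMap.toMatrix'_id]
      map_mul' := fun a b => by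
        rw [Module.End.mul_eq_comp, LinearEquiv.conj_comp, LinearMap.toMatrix'_comp] }
  have hC : Function.Injective C := by
    intro a b h
    exact φ.conj.injective (LinearMap.toMatrix'.injective h)
  refine ⟨C (T ζ), ?_⟩
  rw [orderOf_injective C hC, orderOf_injective T hT, hζo]

theorem unip (hn : 2 ≤ n) : ∃ A : Mat, orderOf A = 2 ^ Nat.clog 2 n := by
  haveI : Fact (Nat.Prime 2) := ⟨Nat.prime_two⟩
  haveI : CharP F 2 := charP_of_card_eq_prime hF
  haveI : Nonempty (Fin n) := ⟨⟨0, by omega⟩⟩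
  let N : Module.End F (Fin n → F) :=
    { toFun := fun v i => if h : i.1 + 1 < n then v ⟨i.1 + 1, h⟩ else 0
      map_add' := fun v w => by
        funext i
        show (if h : i.1 + 1 < n then (v + w) ⟨i.1 + 1, h⟩ else 0) = (if h : i.1 + 1 < n then v ⟨i.1 + 1, h⟩ else 0) + (if h : i.1 + 1 < n then w ⟨i.1 + 1, h⟩ else 0)
        split_ifs <;> simp
      map_smul' := fun c v => by
        funext i
        show (if h : i.1 + 1 < n then (c • v) ⟨i.1 + 1, h⟩ else 0) = c • (if h : i.1 + 1 < n then v ⟨i.1 + 1, h⟩ else 0)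
        split_ifs <;> simp }
  have hN1 : ∀ (v : Fin n → F) (i : Fin n), N v i = if h : i.1 + 1 < n then v ⟨i.1 + 1, h⟩ else 0 := fun v i => rfl
  have hNk : ∀ (k : ℕ) (v : Fin n → F) (i : Fin n), (N ^ k) v i = if h : i.1 + k < n then v ⟨i.1 + k, h⟩ else 0 := by
    intro k
    induction k with
    | zero =>
      intro v i
      rw [dif_pos (by have := i.2; omega : i.1 + 0 < n)]
      rfl
    | succ k ih =>
      intro v i
      rw [pow_succ, Module.End.mul_apply, ih]
      by_cases h1 : i.1 + k < n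
      · rw [dif_pos h1, hN1]
        by_cases h2 : i.1 + (k + 1) < n
        · rw [dif_pos h2, dif_pos (by show i.1 + k + 1 < n; omega)]
          rfl
        · rw [dif_neg h2, dif_neg (by show ¬ i.1 + k + 1 < n; omega)]
      · rw [dif_neg h1, dif_neg (by omega)]
  let B : Mat := LinearMap.toMatrixAlgEquiv' N
  have hBk : ∀ k, B ^ k = LinearMap.toMatrixAlgEquiv' (N ^ k) := fun k => (map_pow _ _ _).symm
  have hpow : ∀ j : ℕ, (1 + B) ^ 2 ^ j = 1 + B ^ 2 ^ j := by
    intro j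
    have := add_pow_char_pow_of_commute (p := 2) j (Commute.one_left B)
    rwa [one_pow] at this
  obtain ⟨j, hj⟩ : ∃ j, Nat.clog 2 n = j + 1 := ⟨Nat.clog 2 n - 1, by have := Nat.clog_pos (b := 2) (n := n) (by norm_num) (by omega); omega⟩
  refine ⟨1 + B, ?_⟩
  rw [hj]
  apply orderOf_eq_prime_pow
  · rw [hpow]
    intro h
    have h1 : B ^ 2 ^ j = 0 := by simpa using h
    rw [hBk] at h1
    have h2 : N ^ 2 ^ j = 0 := by
      apply LinearMap.toMatrixAlgEquiv'.injective
      rw [h1, map_zero]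
    have h3 : 2 ^ j < n := Nat.pow_lt_of_lt_clog (by omega)
    have h4 := hNk (2 ^ j) (fun _ => 1) ⟨0, by omega⟩
    rw [h2, dif_pos (by show 0 + 2 ^ j < n; omega)] at h4
    simp at h4
  · rw [hpow, hBk]
    have h3 : n ≤ 2 ^ (j + 1) := by rw [← hj]; exact Nat.le_pow_clog (by norm_num) n
    have h2 : N ^ 2 ^ (j + 1) = 0 := by
      apply LinearMap.ext
      intro v
      funext i
      rw [hNk, dif_neg (by omega)]
      rfl
    rw [h2, map_zero, add_zero]

/-- the orders realized by the `k₀` factors -/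
def MM (n : ℕ) (i : Fin ((n + 3) / 2)) : ℕ := if i.1 = 0 then 2 ^ Nat.clog 2 n else 2 ^ (n + 1 - i.1) - 1

omit hF in
omit [Fintype F] in
omit [Field F] in
theorem MM_ne (n : ℕ) (i : Fin ((n + 3) / 2)) : MM n i ≠ 0 := by
  rw [MM]
  split_ifs with h
  · positivity
  · have h1 := i.2
    have h2 : 1 ≤ n + 1 - i.1 := by omega
    have h3 : 2 ^ 1 ≤ 2 ^ (n + 1 - i.1) := Nat.pow_le_pow_right (by norm_num) h2
    omega

theorem exists_MM (hn : 2 ≤ n) (i : Fin ((n + 3) / 2)) : ∃ x : PSL, orderOf x = MM n i := by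
  have h0 := MM_ne n i
  rw [MM] at h0 ⊢
  split_ifs at h0 ⊢ with h
  · obtain ⟨A, hA⟩ := unip hF hn
    exact exists_elt hF h0 hA
  · have h1 := i.2
    obtain ⟨A, hA⟩ := singer hF (n := n) (d := n + 1 - i.1) (by omega) (by omega)
    exact exists_elt hF h0 hA

theorem pow_MM (hn : 2 ≤ n) (x : PSL) : orderOf x ∣ Finset.univ.lcm (MM n) := by
  obtain ⟨s, rfl⟩ := Cfsg.Agent.Lib.AutPSL.mk_surj x
  rw [orderOf_mk hF]
  apply orderOf_dvd_of_pow_eq_one
  have h0 : 2 ^ Nat.clog 2 n ∣ Finset.univ.lcm (MM n) := by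
    have := Finset.dvd_lcm (f := MM n) (Finset.mem_univ (⟨0, by omega⟩ : Fin ((n + 3) / 2)))
    rwa [MM, if_pos rfl] at this
  have h1 : ∀ d, 1 ≤ d → d ≤ n → 2 ^ d - 1 ∣ Finset.univ.lcm (MM n) := by
    intro d hd hdn
    -- a multiple of `d` in `(n/2, n]`
    obtain ⟨c, hc1, hc2⟩ : ∃ c, d * c ≤ n ∧ n / 2 + 1 ≤ d * c := by
      refine ⟨n / d, Nat.mul_div_le n d, ?_⟩
      have h2 := Nat.div_add_mod n d
      have h3 := Nat.mod_lt n (by omega : 0 < d)
      have h4 : 1 ≤ n / d := Nat.div_pos hdn (by omega)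
      have h5 : d ≤ d * (n / d) := Nat.le_mul_of_pos_right _ h4
      omega
    have h2 : 2 ^ d - 1 ∣ 2 ^ (d * c) - 1 := by
      rw [pow_mul]
      have := Nat.sub_dvd_pow_sub_pow (2 ^ d) 1 c
      rwa [one_pow] at this
    refine h2.trans ?_
    have := Finset.dvd_lcm (f := MM n) (Finset.mem_univ (⟨n + 1 - d * c, by omega⟩ : Fin ((n + 3) / 2)))
    rw [MM, if_neg (by show ¬ n + 1 - d * c = 0; omega)] at this
    have h3 : n + 1 - (n + 1 - d * c) = d * c := by omega
    rwa [h3] at this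
  obtain ⟨e, he⟩ := h0
  rw [he, mul_comm]
  refine pow_eq_one hF _ ?_ ?_ (Nat.le_pow_clog (by norm_num) n)
  · have : (s : Mat).det = 1 := s.2
    rw [this]; exact one_ne_zero
  · intro d hd hdn
    have h2 := h1 d hd hdn
    rw [he] at h2
    refine Nat.Coprime.dvd_of_dvd_mul_left ?_ h2
    apply Nat.Coprime.pow_right
    rw [Nat.coprime_comm, Nat.coprime_two_left]
    have h3 : 2 ∣ 2 ^ d := dvd_pow_self _ (by omega)
    have h4 : 1 ≤ 2 ^ d := Nat.one_le_two_pow
    rw [Nat.odd_iff]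
    omega

theorem main (hn : 2 ≤ n) {k : ℕ} (hk : (n + 3) / 2 ≤ k) :
    Set.range (orderOf : (Fin k → PSL) → ℕ) = {N | N ∣ Finset.univ.lcm (MM n)} := by
  ext N
  constructor
  · rintro ⟨f, rfl⟩
    show orderOf f ∣ _
    apply orderOf_dvd_of_pow_eq_one
    funext i
    show f i ^ _ = 1
    rw [← orderOf_dvd_iff_pow_eq_one]
    exact pow_MM hF hn (f i)
  · intro hN
    choose g hg using exists_MM hF hn
    obtain ⟨f, hf⟩ := exists_order (MM n) (MM_ne n) g hg hN
    refine ⟨fun i => if h : i.1 < (n + 3) / 2 then f ⟨i.1, h⟩ else 1, ?_⟩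
    rw [← hf]
    apply Nat.dvd_antisymm
    · apply orderOf_dvd_of_pow_eq_one
      funext i
      show (if h : i.1 < (n + 3) / 2 then f ⟨i.1, h⟩ else 1) ^ _ = 1
      split_ifs with h
      · exact congrFun (pow_orderOf_eq_one f) ⟨i.1, h⟩
      · exact one_pow _
    · apply orderOf_dvd_of_pow_eq_one
      funext i
      have h1 := congrFun (pow_orderOf_eq_one (fun i : Fin k => if h : i.1 < (n + 3) / 2 then f ⟨i.1, h⟩ else 1)) ⟨i.1, lt_of_lt_of_le i.2 hk⟩
      simp only [Pi.pow_apply, Pi.one_apply] at h1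
      rw [dif_pos i.2] at h1
      exact h1

end Elts

end Cfsg.Agent.H8.GlTwo
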