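import Mathlib
import Cfsg.Agent.H8.SLData
import Cfsg.Agent.H8.AutPSL2

set_option autoImplicit false
set_option linter.all false

/-! Bruhat decomposition for the fixed points of a "duality" of `SL_n`. -/

namespace Cfsg.Agent.H8.Theta

open scoped commutatorElement
open Matrix Pointwise Cfsg.Agent.H8.AutBN Cfsg.Agent.H8.SLPat Cfsg.Agent.H8.SLTri Cfsg.Agent.H8.SLData

variable {N : ℕ} {F : Type*} [Field F]

section unique

theorem perm_eq_one_of_le (π : Equiv.Perm (Fin (N + 1))) (h : ∀ j, π j ≤ j) : π = 1 := by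
  have key : ∀ k : ℕ, ∀ j : Fin (N + 1), (j : ℕ) = k → π j = j := by
    intro k
    induction k using Nat.strong_induction_on with
    | _ k ih =>
      intro j hj
      by_contra hne
      have hlt : π j < j := lt_of_le_of_ne (h j) hne
      have := ih (π j) (by rw [← hj]; exact hlt) (π j) rfl
      exact hne (π.injective this)
  ext j
  rw [key j j rfl]; rfl

theorem mono_unique {b1 b2 n n' : SpecialLinearGroup (Fin (N + 1)) F} {ω ω' : Equiv.Perm (Fin (N + 1))}
    (hb1 : ∀ i, b1 i i ≠ 0) (hb2 : ∀ i j, j < i → b2 i j = 0) (hn : Mono n ω) (hn' : Mono n' ω') (h : b1 * n = n' * b2) : ω = ω' := by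
  have key : ∀ j, (ω'⁻¹ * ω) j ≤ j := by
    intro j
    by_contra hcon
    have hlt : j < (ω'⁻¹ * ω) j := not_le.1 hcon
    have e1 : (b1 * n) (ω j) j = b1 (ω j) (ω j) * n (ω j) j := by
      rw [slmul_apply, Finset.sum_eq_single (ω j)]
      · intro k _ hk
        rw [hn k j hk, mul_zero]
      · simp
    have e2 : (n' * b2) (ω j) j = n' (ω j) ((ω'⁻¹ * ω) j) * b2 ((ω'⁻¹ * ω) j) j := by
      rw [slmul_apply, Finset.sum_eq_single ((ω'⁻¹ * ω) j)]
      · intro k _ hk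
        rw [hn' _ k, zero_mul]
        intro e
        apply hk
        rw [Equiv.Perm.mul_apply, e]; simp
      · simp
    rw [h, e2, hb2 _ _ hlt, mul_zero] at e1
    rcases mul_eq_zero.1 e1.symm with h1 | h1
    · exact hb1 _ h1
    · exact hn.ne_zero j h1
  have := perm_eq_one_of_le _ key
  rw [inv_mul_eq_one] at this
  exact this.symm

end unique

variable [Finite F]

section count

/-- the entries of a pattern element -/
noncomputable def patEquiv {R : Fin (N + 1) → Fin (N + 1) → Prop} (hR : Str R) (hlt : ∀ a b, R a b → a < b) :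
    (patU hR : Subgroup (SpecialLinearGroup (Fin (N + 1)) F)) ≃ ({q : Fin (N + 1) × Fin (N + 1) // R q.1 q.2} → F) := by
  classical
  refine Equiv.ofBijective (fun g q => g.1 q.1.1 q.1.2) ⟨?_, ?_⟩
  · intro g h e
    apply Subtype.ext
    ext a b
    by_cases hab : R a b
    · exact congrFun e ⟨(a, b), hab⟩
    · rw [mem_patU.1 g.2 a b hab, mem_patU.1 h.2 a b hab]
  · intro f
    let M : Matrix (Fin (N + 1)) (Fin (N + 1)) F := fun a b => if h : R a b then f ⟨(a, b), h⟩ else if a = b then 1 else 0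
    have hM1 : ∀ a b, ¬ R a b → M a b = if a = b then 1 else 0 := by
      intro a b h; simp only [M, dif_neg h]
    have hdet : M.det = 1 := by
      rw [Matrix.det_of_isUpperTriangular]
      · apply Finset.prod_eq_one
        intro i _
        rw [hM1 i i (hR.irr i), if_pos rfl]
      · intro i j hij
        have hij' : j < i := hij
        rw [hM1 i j (fun h => lt_asymm (hlt _ _ h) hij'), if_neg hij'.ne']
    refine ⟨⟨⟨M, hdet⟩, ?_⟩, ?_⟩
    · exact mem_patU.2 (fun a b hab => hM1 a b hab)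
    · funext q
      show M q.1.1 q.1.2 = f q
      simp only [M, dif_pos q.2]

theorem card_patU {R : Fin (N + 1) → Fin (N + 1) → Prop} (hR : Str R) (hlt : ∀ a b, R a b → a < b) :
    Nat.card (patU hR : Subgroup (SpecialLinearGroup (Fin (N + 1)) F)) =
      Nat.card F ^ Nat.card {q : Fin (N + 1) × Fin (N + 1) // R q.1 q.2} := by
  rw [Nat.card_congr (patEquiv hR hlt), Nat.card_fun]

theorem factor (ω : Equiv.Perm (Fin (N + 1))) (u : SpecialLinearGroup (Fin (N + 1)) F) (hu : u ∈ U N F) :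
    ∃ u1 ∈ patU (str_inf (str_lt (α := Fin (N + 1))) (str_perm (str_gt (α := Fin (N + 1))) ω)),
      ∃ u2 ∈ patU (str_inf (str_lt (α := Fin (N + 1))) (str_perm (str_lt (α := Fin (N + 1))) ω)), u = u1 * u2 := by
  classical
  let P1 : Subgroup (SpecialLinearGroup (Fin (N + 1)) F) := patU (str_inf (str_lt (α := Fin (N + 1))) (str_perm (str_gt (α := Fin (N + 1))) ω))
  let P2 : Subgroup (SpecialLinearGroup (Fin (N + 1)) F) := patU (str_inf (str_lt (α := Fin (N + 1))) (str_perm (str_lt (α := Fin (N + 1))) ω))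
  have h1 : P1 ≤ U N F := patU_le_iff.2 (fun a b h => h.1)
  have h2 : P2 ≤ U N F := patU_le_iff.2 (fun a b h => h.1)
  have hbot : P1 ⊓ P2 = ⊥ := by
    show patU _ ⊓ patU _ = ⊥
    rw [patU_inf]
    exact patU_bot (fun a b h => lt_asymm h.1.2 h.2.2)
  let f : P1 × P2 → U N F := fun q => ⟨q.1.1 * q.2.1, mul_mem (h1 q.1.2) (h2 q.2.2)⟩
  have hinj : Function.Injective f := by
    rintro ⟨⟨a, ha⟩, ⟨b, hb⟩⟩ ⟨⟨a', ha'⟩, ⟨b', hb'⟩⟩ e
    have e1 : a * b = a' * b' := congrArg Subtype.val e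
    have e2 : a'⁻¹ * a = b' * b⁻¹ := by
      rw [inv_mul_eq_iff_eq_mul, ← mul_assoc, ← e1]; group
    have e3 : a'⁻¹ * a ∈ P1 ⊓ P2 := Subgroup.mem_inf.2 ⟨P1.mul_mem (P1.inv_mem ha') ha, by rw [e2]; exact P2.mul_mem hb' (P2.inv_mem hb)⟩
    rw [hbot, Subgroup.mem_bot] at e3
    have e4 : a = a' := by rw [inv_mul_eq_one] at e3; exact e3.symm
    rw [e3] at e2
    have e5 : b = b' := by
      have := e2.symm
      rw [mul_inv_eq_one] at this; exact this.symm
    subst e4; subst e5; rfl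
  have hcard : Nat.card (P1 × P2) = Nat.card (U N F) := by
    rw [Nat.card_prod, card_patU _ (fun a b h => h.1), card_patU _ (fun a b h => h.1), card_patU _ (fun a b h => h), ← pow_add]
    congr 1
    rw [← Nat.card_sum]
    refine Nat.card_congr (Equiv.ofBijective (Sum.elim (fun q => ⟨q.1, q.2.1⟩) (fun q => ⟨q.1, q.2.1⟩)) ⟨?_, ?_⟩)
    · rintro (⟨q, hq⟩ | ⟨q, hq⟩) (⟨q', hq'⟩ | ⟨q', hq'⟩) e
      · have : q = q' := congrArg Subtype.val e
        subst this; rfl
      · have : q = q' := congrArg Subtype.val e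
        subst this
        exact absurd hq'.2 (lt_asymm hq.2)
      · have : q = q' := congrArg Subtype.val e
        subst this
        exact absurd hq'.2 (lt_asymm hq.2)
      · have : q = q' := congrArg Subtype.val e
        subst this; rfl
    · rintro ⟨⟨a, b⟩, hab⟩
      rcases lt_or_gt_of_ne (fun e => (ne_of_lt hab) (ω⁻¹.injective e) : ω⁻¹ a ≠ ω⁻¹ b) with h | h
      · exact ⟨Sum.inr ⟨(a, b), hab, h⟩, rfl⟩
      · exact ⟨Sum.inl ⟨(a, b), hab, h⟩, rfl⟩
  have hfin : Finite (P1 × P2) := inferInstance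
  have hsurj : Function.Surjective f := by
    have : Nat.card (P1 × P2) = Nat.card (U N F) := hcard
    exact ((Nat.bijective_iff_injective_and_card f).2 ⟨hinj, this⟩).2
  obtain ⟨⟨a, b⟩, e⟩ := hsurj ⟨u, hu⟩
  exact ⟨a.1, a.2, b.1, b.2, (congrArg Subtype.val e).symm⟩

end count

/-- splitting off the diagonal -/
theorem exists_diag {b : SpecialLinearGroup (Fin (N + 1)) F} (hb : b ∈ B N F) :
    ∃ d u : SpecialLinearGroup (Fin (N + 1)) F, Mono d 1 ∧ u ∈ U N F ∧ b = d * u := by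
  have hdet : (Matrix.diagonal (fun i => b i i) : Matrix (Fin (N + 1)) (Fin (N + 1)) F).det = 1 := by
    rw [Matrix.det_diagonal]
    have h1 : b.1.det = 1 := b.2
    rw [Matrix.det_of_isUpperTriangular (fun i j hij => hb i j hij)] at h1
    exact h1
  let d : SpecialLinearGroup (Fin (N + 1)) F := ⟨_, hdet⟩
  have hd : Mono d 1 := by
    intro i j hij
    exact Matrix.diagonal_apply_ne _ hij
  refine ⟨d, d⁻¹ * b, hd, ?_, by group⟩
  rw [mem_U]
  have hdB : d ∈ B N F := mono_one_mem hd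
  refine ⟨mul_mem (inv_mem hdB) hb, fun i => ?_⟩
  rw [diag_mul (inv_mem hdB) hb]
  have h1 := diag_mul (inv_mem hdB) hdB i
  rw [inv_mul_cancel, slone_apply, if_pos rfl] at h1
  have h2 : d i i = b i i := Matrix.diagonal_apply_eq _ _
  rw [h2] at h1
  exact h1.symm

/-- refined Bruhat decomposition -/
theorem bruhat_ref (g : SpecialLinearGroup (Fin (N + 1)) F) : ∃ (ω : Equiv.Perm (Fin (N + 1))) (n u b : SpecialLinearGroup (Fin (N + 1)) F),
    Mono n ω ∧ u ∈ patU (str_inf (str_lt (α := Fin (N + 1))) (str_perm (str_gt (α := Fin (N + 1))) ω)) ∧ b ∈ B N F ∧ g = u * n * b := by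
  obtain ⟨b1, hb1, n, ⟨ω, hn⟩, b2, hb2, rfl⟩ := bruhat g
  obtain ⟨d, u, hd, hu, rfl⟩ := exists_diag hb1
  have hu' : d * u * d⁻¹ ∈ U N F := by
    have h1 := B_norm (mono_one_mem hd)
    have : d * u * d⁻¹ ∈ c d • U N F := by
      rw [mem_c_smul]
      have e : d⁻¹ * (d * u * d⁻¹) * d = u := by group
      rw [e]; exact hu
    rwa [h1] at this
  obtain ⟨u1, hu1, u2, hu2, e⟩ := factor ω _ hu'
  refine ⟨ω, n, u1, (n⁻¹ * u2 * n) * (n⁻¹ * d * n) * b2, hn, hu1, ?_, ?_⟩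
  · apply mul_mem (mul_mem _ _) hb2
    · have h1 : u2 ∈ c n • U N F := by
        rw [hn.smul]
        exact patU_le_iff.2 (fun a b h => h.2) hu2
      exact U_le_B (mem_c_smul.1 h1)
    · apply mono_one_mem
      have := (hn.inv.mul hd).mul hn
      simpa using this
  · have e2 : d * u = u1 * u2 * d := by rw [← e]; group
    rw [e2]; group

section theta

/-- antidiagonal matrix -/
def Jf (e : Fin (N + 1) → F) : Matrix (Fin (N + 1)) (Fin (N + 1)) F := Matrix.of fun a b => if b = Fin.rev a then e a else 0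

omit [Finite F] in
theorem Jf_apply (e : Fin (N + 1) → F) (a b : Fin (N + 1)) : Jf e a b = if b = Fin.rev a then e a else 0 := rfl

omit [Finite F] in
theorem Jf_mul {e e' : Fin (N + 1) → F} (h : ∀ a, e a * e' (Fin.rev a) = 1) : Jf e * Jf e' = 1 := by
  ext a b
  rw [Matrix.mul_apply, Finset.sum_eq_single (Fin.rev a)]
  · rw [Jf_apply, Jf_apply, if_pos rfl, Fin.rev_rev, Matrix.one_apply]
    by_cases h1 : b = a
    · subst h1; simp [h]
    · rw [if_neg h1, mul_zero, if_neg (Ne.symm h1)]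
  · intro k _ hk
    rw [Jf_apply, if_neg hk, zero_mul]
  · simp

/-- the antidiagonal matrix with entries `ε_a` -/
def Jm (ε : Fin (N + 1) → Fˣ) : GL (Fin (N + 1)) F where
  val := Jf (fun a => (ε a : F))
  inv := Jf (fun a => (((ε (Fin.rev a))⁻¹ : Fˣ) : F))
  val_inv := Jf_mul (fun a => by simp)
  inv_val := Jf_mul (fun a => by simp)

/-- the duality -/
def Th (τ : F ≃+* F) (ε : Fin (N + 1) → Fˣ) : MulAut (SpecialLinearGroup (Fin (N + 1)) F) :=
  AutPSL.cg (Jm ε) * AutPSL.it * AutPSL.fl τ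

variable (τ : F ≃+* F) (ε : Fin (N + 1) → Fˣ)

omit [Finite F] in
theorem Th_apply (g : SpecialLinearGroup (Fin (N + 1)) F) (a b : Fin (N + 1)) :
    (Th τ ε g) a b = (ε a : F) * τ (g⁻¹ (Fin.rev b) (Fin.rev a)) * ((ε b)⁻¹ : Fˣ) := by
  have h1 : (Th τ ε g).1 = (Jm ε).1 * ((AutPSL.fl τ g)⁻¹).1.transpose * ((Jm ε)⁻¹ : GL _ F).1 := rfl
  show (Th τ ε g).1 a b = _
  rw [h1, Matrix.mul_apply, Finset.sum_eq_single (Fin.rev b)]
  · rw [Matrix.mul_apply, Finset.sum_eq_single (Fin.rev a)]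
    · have e1 : (Jm ε).1 a (Fin.rev a) = ε a := by
        show Jf _ _ _ = _
        rw [Jf_apply, if_pos rfl]
      have e2 : ((Jm ε)⁻¹ : GL _ F).1 (Fin.rev b) b = ((ε b)⁻¹ : Fˣ) := by
        show Jf _ _ _ = _
        rw [Jf_apply, Fin.rev_rev, if_pos rfl]
      rw [e1, e2, Matrix.transpose_apply]
      rw [← map_inv]
      rfl
    · intro k _ hk
      have e1 : (Jm ε).1 a k = 0 := by
        show Jf _ _ _ = _
        rw [Jf_apply, if_neg hk]
      rw [e1, zero_mul]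
    · simp
  · intro k _ hk
    have e2 : ((Jm ε)⁻¹ : GL _ F).1 k b = 0 := by
      show Jf _ _ _ = _
      rw [Jf_apply, if_neg]
      rintro rfl; exact hk (by simp)
    rw [e2, mul_zero]
  · simp

/-- transformed relation -/
theorem str_rev {R : Fin (N + 1) → Fin (N + 1) → Prop} (hR : Str R) : Str (fun a b => R (Fin.rev b) (Fin.rev a)) :=
  ⟨fun a => hR.irr _, fun _ _ _ h1 h2 => hR.tr _ _ _ h2 h1⟩

theorem Th_mem {R : Fin (N + 1) → Fin (N + 1) → Prop} {hR : Str R} {g : SpecialLinearGroup (Fin (N + 1)) F} (hg : g ∈ patU hR) :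
    Th τ ε g ∈ patU (str_rev hR) := by
  rw [mem_patU]
  intro a b hab
  rw [Th_apply, mem_patU.1 (inv_mem hg) _ _ hab]
  by_cases h : a = b
  · subst h; simp
  · rw [if_neg h, if_neg (fun e => h (Fin.rev_injective e).symm)]; simp

theorem Th_mem_B {g : SpecialLinearGroup (Fin (N + 1)) F} (hg : g ∈ B N F) : Th τ ε g ∈ B N F := by
  intro a b hab
  rw [Th_apply, inv_mem hg _ _ (Fin.rev_lt_rev.2 hab)]; simp

theorem Th_mem_U {g : SpecialLinearGroup (Fin (N + 1)) F} (hg : g ∈ U N F) : Th τ ε g ∈ U N F := by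
  have := Th_mem τ ε hg
  have e : (patU (str_rev (str_lt (α := Fin (N + 1)))) : Subgroup (SpecialLinearGroup (Fin (N + 1)) F)) = U N F := by
    rw [patU_eq_iff]; intro a b; exact Fin.rev_lt_rev
  rwa [e] at this

omit [Finite F] in
theorem Th_mono {n : SpecialLinearGroup (Fin (N + 1)) F} {ω : Equiv.Perm (Fin (N + 1))} (h : Mono n ω) :
    Mono (Th τ ε n) (Fin.revPerm * ω * Fin.revPerm) := by
  intro a b hab
  rw [Th_apply, h.inv, map_zero, mul_zero, zero_mul]
  intro e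
  apply hab
  show a = Fin.rev (ω (Fin.rev b))
  rw [e]; simp

/-- the fixed points -/
def Gr : Subgroup (SpecialLinearGroup (Fin (N + 1)) F) :=
  MonoidHom.eqLocus ((Th τ ε : SpecialLinearGroup (Fin (N + 1)) F ≃* _) : SpecialLinearGroup (Fin (N + 1)) F →* _) (MonoidHom.id _)

omit [Finite F] in
theorem mem_Gr {g : SpecialLinearGroup (Fin (N + 1)) F} : g ∈ Gr τ ε ↔ Th τ ε g = g := Iff.rfl

omit [Finite F] in
theorem Gr_inv {g : SpecialLinearGroup (Fin (N + 1)) F} (hg : g ∈ Gr τ ε) (a b : Fin (N + 1)) :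
    g⁻¹ a b = (ε a : F) * τ (g (Fin.rev b) (Fin.rev a)) * ((ε b)⁻¹ : Fˣ) := by
  have := Th_apply τ ε g⁻¹ a b
  rw [inv_inv] at this
  rw [← this]
  have h2 : Th τ ε g⁻¹ = g⁻¹ := (Gr τ ε).inv_mem hg
  rw [h2]

omit [Finite F] in
theorem Gr_mono {n : SpecialLinearGroup (Fin (N + 1)) F} {ω : Equiv.Perm (Fin (N + 1))} (hn : n ∈ Gr τ ε) (h : Mono n ω)
    (a : Fin (N + 1)) : ω (Fin.rev a) = Fin.rev (ω a) := by
  have h1 := Th_mono τ ε h
  rw [(mem_Gr τ ε).1 hn] at h1
  by_contra hne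
  have h2 := h1 (ω (Fin.rev a)) (Fin.rev a) (by
    intro e
    apply hne
    rw [e]
    show Fin.rev (ω (Fin.rev (Fin.rev a))) = _
    rw [Fin.rev_rev])
  exact h.ne_zero _ h2

/-- Bruhat decomposition of `Gr`. -/
theorem bruhat_Gr {g : SpecialLinearGroup (Fin (N + 1)) F} (hg : g ∈ Gr τ ε) : ∃ u n u' : SpecialLinearGroup (Fin (N + 1)) F,
    u ∈ U N F ∧ u ∈ Gr τ ε ∧ (∃ ω, Mono n ω) ∧ n ∈ Gr τ ε ∧ u' ∈ U N F ∧ u' ∈ Gr τ ε ∧ g = u * n * u' := by
  obtain ⟨ω, n, u, b, hn, hu, hb, rfl⟩ := bruhat_ref g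
  have hg' := (mem_Gr τ ε).1 hg
  rw [map_mul, map_mul] at hg'
  have hn' := Th_mono τ ε hn
  have huU : u ∈ U N F := patU_le_iff.2 (fun a b h => h.1) hu
  have hω : ω = Fin.revPerm * ω * Fin.revPerm := by
    apply mono_unique (b1 := (Th τ ε u)⁻¹ * u) (b2 := Th τ ε b * b⁻¹) (n := n) (n' := Th τ ε n) _ _ hn hn'
    · have e : (Th τ ε u)⁻¹ * (Th τ ε u * Th τ ε n * Th τ ε b) * b⁻¹ = (Th τ ε u)⁻¹ * (u * n * b) * b⁻¹ := by rw [hg']
      have e2 : Th τ ε n * (Th τ ε b * b⁻¹) = (Th τ ε u)⁻¹ * (Th τ ε u * Th τ ε n * Th τ ε b) * b⁻¹ := by group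
      rw [e2, e]; group
    · intro i
      have h1 : (Th τ ε u)⁻¹ * u ∈ U N F := mul_mem (inv_mem (Th_mem_U τ ε huU)) huU
      rw [(mem_U.1 h1).2]; exact one_ne_zero
    · exact mul_mem (Th_mem_B τ ε hb) (inv_mem hb)
  have hu2 : Th τ ε u ∈ patU (str_inf (str_lt (α := Fin (N + 1))) (str_perm (str_gt (α := Fin (N + 1))) ω)) := by
    have h1 := Th_mem τ ε hu
    have e : ∀ a, ω⁻¹ (Fin.rev a) = Fin.rev (ω⁻¹ a) := by
      intro a
      have h2 := congrArg (fun f : Equiv.Perm (Fin (N + 1)) => f⁻¹) hω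
      simp only [_root_.mul_inv_rev] at h2
      have h3 : ω⁻¹ (Fin.rev a) = Fin.rev (ω⁻¹ (Fin.rev (Fin.rev a))) := by
        conv_lhs => rw [h2]
        rfl
      rw [h3, Fin.rev_rev]
    refine patU_le_iff.2 ?_ h1
    rintro a b ⟨h2, h3⟩
    refine ⟨Fin.rev_lt_rev.1 h2, ?_⟩
    have h4 : ω⁻¹ (Fin.rev a) < ω⁻¹ (Fin.rev b) := h3
    rw [e, e, Fin.rev_lt_rev] at h4
    exact h4
  -- u is fixed
  have huG : Th τ ε u = u := by
    have h1 : u⁻¹ * Th τ ε u ∈ patU (str_inf (str_lt (α := Fin (N + 1))) (str_perm (str_gt (α := Fin (N + 1))) ω)) :=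
      mul_mem (inv_mem hu) hu2
    have h2 : u⁻¹ * Th τ ε u ∈ c n • V N F := by
      rw [hn.smul]
      exact patU_le_iff.2 (fun a b h => h.2) h1
    rw [mem_c_smul] at h2
    have e1 : n⁻¹ * (u⁻¹ * Th τ ε u) * n = b * (Th τ ε b)⁻¹ * ((Th τ ε n)⁻¹ * n) := by
      have e2 : Th τ ε u = u * n * b * (Th τ ε b)⁻¹ * (Th τ ε n)⁻¹ := by rw [← hg']; group
      conv_lhs => rw [e2]
      group
    have h3 : n⁻¹ * (u⁻¹ * Th τ ε u) * n ∈ B N F := by
      rw [e1]
      apply mul_mem (mul_mem hb (inv_mem (Th_mem_B τ ε hb)))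
      apply mono_one_mem
      have := hn'.inv.mul hn
      rwa [← hω, inv_mul_cancel] at this
    have h4 : n⁻¹ * (u⁻¹ * Th τ ε u) * n = 1 := by
      ext a d
      rw [slone_apply]
      by_cases h5 : d < a
      · rw [h3 a d h5, if_neg h5.ne']
      · exact mem_patU.1 h2 a d h5
    have h5 : u⁻¹ * Th τ ε u = 1 := by
      have : u⁻¹ * Th τ ε u = n * (n⁻¹ * (u⁻¹ * Th τ ε u) * n) * n⁻¹ := by group
      rw [this, h4]; group
    rw [inv_mul_eq_one] at h5
    exact h5.symm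
  have hnb : Th τ ε (n * b) = n * b := by
    have : Th τ ε u * (Th τ ε (n * b)) = u * (n * b) := by rw [map_mul, ← mul_assoc, ← mul_assoc, hg']
    rw [huG] at this
    exact mul_left_cancel this
  obtain ⟨d, v, hd, hv, rfl⟩ := exists_diag hb
  have hnd : Mono (n * d) ω := by
    have := hn.mul hd; rwa [mul_one] at this
  have hnd' := Th_mono τ ε hnd
  rw [← hω] at hnd'
  have e3 : Th τ ε (n * d) * Th τ ε v = n * d * v := by rw [← map_mul, ← mul_assoc] at *; rw [hnb]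
  have h6 : (n * d)⁻¹ * Th τ ε (n * d) = v * (Th τ ε v)⁻¹ := by
    rw [inv_mul_eq_iff_eq_mul, ← mul_assoc, ← e3]; group
  have h7 : (n * d)⁻¹ * Th τ ε (n * d) = 1 := by
    have h8 : Mono ((n * d)⁻¹ * Th τ ε (n * d)) 1 := by
      have := hnd.inv.mul hnd'
      rwa [inv_mul_cancel] at this
    have h9 : (n * d)⁻¹ * Th τ ε (n * d) ∈ U N F := by
      rw [h6]; exact mul_mem hv (inv_mem (Th_mem_U τ ε hv))
    ext a e
    rw [slone_apply]
    by_cases h10 : a = e
    · subst h10; rw [(mem_U.1 h9).2, if_pos rfl]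
    · rw [h8 a e h10, if_neg h10]
  refine ⟨u, n * d, v, huU, huG, ⟨ω, hnd⟩, ?_, hv, ?_, by group⟩
  · rw [inv_mul_eq_one] at h7; exact h7.symm
  · rw [h7] at h6
    have := h6.symm
    rw [mul_inv_eq_one] at this
    exact this.symm

end theta

end Cfsg.Agent.H8.Theta
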