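import Mathlib
import Cfsg.Agent.H8.Theta
import Cfsg.Agent.H8.AutExt2

set_option autoImplicit false
set_option linter.all false

/-! Combinatorics of the Weyl group of type `B/C` inside the symmetric group. -/

namespace Cfsg.Agent.H8.GrComb

open Cfsg.Agent.H8.SLPat Cfsg.Agent.H8.SLData

/-- values of the reflections -/
def sv (N m i z : ℕ) : ℕ :=
  if i + 1 < m then
    (if z = i then i + 1 else if z = i + 1 then i else if z = N - i then N - i - 1 else if z + 1 = N - i then N - i else z)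
  else (if z = i then N - i else if z = N - i then i else z)

/-- the positive roots made negative by the reflection -/
def blk (N m i a b : ℕ) : Prop :=
  a < b ∧ ((i + 1 < m ∧ ((a = i ∧ b = i + 1) ∨ (a + 1 = N - i ∧ b = N - i))) ∨ (¬ i + 1 < m ∧ i ≤ a ∧ b ≤ N - i))

section nat

variable {N m : ℕ} (hN : N = 2 * m ∨ N + 1 = 2 * m)
include hN

theorem sv_le {i z : ℕ} (hi : i < m) (hz : z ≤ N) : sv N m i z ≤ N := by
  unfold sv; split_ifs <;> omega

theorem sv_sv {i z : ℕ} (hi : i < m) (hz : z ≤ N) : sv N m i (sv N m i z) = z := by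
  unfold sv; split_ifs <;> omega

theorem sv_rev {i z : ℕ} (hi : i < m) (hz : z ≤ N) : sv N m i (N - z) = N - sv N m i z := by
  unfold sv; split_ifs <;> omega

theorem blk_iff {i a b : ℕ} (hi : i < m) (hb : b ≤ N) (hab : a < b) : sv N m i b < sv N m i a ↔ blk N m i a b := by
  unfold sv blk; split_ifs <;> omega

theorem blk_iff' {i a b : ℕ} (hi : i < m) (hb : b ≤ N) (hab : a < b) : sv N m i a < sv N m i b ↔ ¬ blk N m i a b := by
  rw [← blk_iff hN hi hb hab]
  constructor
  · omega
  · intro h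
    have : sv N m i a ≠ sv N m i b := by
      intro e
      have h1 := sv_sv hN hi (z := a) (by omega)
      rw [e, sv_sv hN hi hb] at h1
      omega
    omega

theorem blk_disj {i j a b : ℕ} (hi : i < m) (hj : j < m) (h : blk N m i a b) (h' : blk N m j a b) : i = j := by
  unfold blk at h h'; omega

theorem blk_rev {i a b : ℕ} (hi : i < m) (hb : b ≤ N) (h : blk N m i a b) : blk N m i (N - b) (N - a) := by
  unfold blk at *; omega

end nat

variable {N m : ℕ} (hN : N = 2 * m ∨ N + 1 = 2 * m)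

/-- the reflections -/
def sg (i : Fin m) : Equiv.Perm (Fin (N + 1)) where
  toFun z := ⟨sv N m i z, Nat.lt_succ_of_le (sv_le hN i.2 (Nat.le_of_lt_succ z.2))⟩
  invFun z := ⟨sv N m i z, Nat.lt_succ_of_le (sv_le hN i.2 (Nat.le_of_lt_succ z.2))⟩
  left_inv z := by ext; exact sv_sv hN i.2 (Nat.le_of_lt_succ z.2)
  right_inv z := by ext; exact sv_sv hN i.2 (Nat.le_of_lt_succ z.2)

theorem sg_val (i : Fin m) (z : Fin (N + 1)) : ((sg hN i z : Fin (N + 1)) : ℕ) = sv N m i z := rfl
theorem sg_inv (i : Fin m) : (sg hN i)⁻¹ = sg hN i := rfl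
theorem sg_sg (i : Fin m) (z : Fin (N + 1)) : sg hN i (sg hN i z) = z := (sg hN i).left_inv z
theorem sg_mul (i : Fin m) : sg hN i * sg hN i = 1 := by ext z; exact congrArg Fin.val (sg_sg hN i z)

/-- commuting with the reversal -/
def Com (ω : Equiv.Perm (Fin (N + 1))) : Prop := ∀ a, ω (Fin.rev a) = Fin.rev (ω a)

theorem sg_com (i : Fin m) : Com (sg hN i) := by
  intro a
  ext
  rw [sg_val, Fin.val_rev, Fin.val_rev, sg_val]
  have := sv_rev hN i.2 (Nat.le_of_lt_succ a.2)
  have e1 : N + 1 - (↑a + 1) = N - a := by omega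
  rw [e1, this]; omega

theorem Com.mul {ω ω' : Equiv.Perm (Fin (N + 1))} (h : Com ω) (h' : Com ω') : Com (ω * ω') := by
  intro a; rw [Equiv.Perm.mul_apply, h', h]; rfl

theorem Com.inv {ω : Equiv.Perm (Fin (N + 1))} (h : Com ω) : Com ω⁻¹ := by
  intro a
  apply ω.injective
  rw [h]; simp

/-- relations -/
def Rb (N m : ℕ) (i : Fin m) : Fin (N + 1) → Fin (N + 1) → Prop := fun a b => blk N m i a b
def Rc (N m : ℕ) (i : Fin m) : Fin (N + 1) → Fin (N + 1) → Prop := fun a b => a < b ∧ ¬ blk N m i a b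

include hN in
theorem strb (i : Fin m) : Str (Rb N m i) := by
  refine ⟨fun a h => lt_irrefl _ h.1, ?_⟩
  intro a b d h1 h2
  unfold Rb blk at *
  have := i.2
  omega

include hN in
theorem strc (i : Fin m) : Str (Rc N m i) := by
  refine ⟨fun a h => lt_irrefl _ h.1, ?_⟩
  rintro a b d ⟨h1, h2⟩ ⟨h3, h4⟩
  refine ⟨h1.trans h3, ?_⟩
  have := i.2
  rw [Fin.lt_def] at h1 h3
  unfold blk at *
  omega

theorem str_swap {α : Type*} {R : α → α → Prop} (h : Str R) : Str (fun a b => R b a) :=
  ⟨fun a => h.irr a, fun _ _ _ h1 h2 => h.tr _ _ _ h2 h1⟩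

theorem lt_iff_c (i : Fin m) (a b : Fin (N + 1)) : (a < b ∧ (sg hN i)⁻¹ a < (sg hN i)⁻¹ b) ↔ Rc N m i a b := by
  rw [sg_inv]
  constructor
  · rintro ⟨h1, h2⟩
    refine ⟨h1, ?_⟩
    rw [Fin.lt_def, sg_val, sg_val, blk_iff' hN i.2 (Nat.le_of_lt_succ b.2) h1] at h2
    exact h2
  · rintro ⟨h1, h2⟩
    refine ⟨h1, ?_⟩
    rw [Fin.lt_def, sg_val, sg_val, blk_iff' hN i.2 (Nat.le_of_lt_succ b.2) h1]
    exact h2

theorem lt_iff_b (i : Fin m) (a b : Fin (N + 1)) : (a < b ∧ (sg hN i)⁻¹ b < (sg hN i)⁻¹ a) ↔ Rb N m i a b := by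
  rw [sg_inv]
  constructor
  · rintro ⟨h1, h2⟩
    rw [Fin.lt_def, sg_val, sg_val, blk_iff hN i.2 (Nat.le_of_lt_succ b.2) h1] at h2
    exact h2
  · intro h
    refine ⟨h.1, ?_⟩
    rw [Fin.lt_def, sg_val, sg_val, blk_iff hN i.2 (Nat.le_of_lt_succ b.2) h.1]
    exact h

/-- descent at `i` -/
def Des (i : Fin m) (w : Equiv.Perm (Fin (N + 1))) : Prop := ∀ a b : Fin (N + 1), Rb N m i a b → w b < w a
def Asc (i : Fin m) (w : Equiv.Perm (Fin (N + 1))) : Prop := ∀ a b : Fin (N + 1), Rb N m i a b → w a < w b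

include hN in
/-- the two ends of the block -/
theorem exists_blk (i : Fin m) : ∃ a b : Fin (N + 1), Rb N m i a b := by
  by_cases h : (i : ℕ) + 1 < m
  · exact ⟨⟨i, by omega⟩, ⟨i + 1, by omega⟩, by unfold Rb blk; simp; omega⟩
  · exact ⟨⟨i, by omega⟩, ⟨N - i, by omega⟩, by unfold Rb blk; simp; omega⟩

include hN in
theorem des_or {w : Equiv.Perm (Fin (N + 1))} (hw : Com w) (i : Fin m) : Des i w ∨ Asc i w := by
  have hv : ∀ a : Fin (N + 1), ∀ b : Fin (N + 1), (a : ℕ) + b = N → (w b : ℕ) + w a = N := by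
    intro a b h
    have e : b = Fin.rev a := by ext; rw [Fin.val_rev]; omega
    have := congrArg Fin.val (hw a)
    rw [Fin.val_rev] at this
    rw [e, this]
    omega
  have hi := i.2
  by_cases h : (i : ℕ) + 1 < m
  · obtain ⟨p, hp⟩ : ∃ p : Fin (N + 1), (p : ℕ) = i := ⟨⟨i, by omega⟩, rfl⟩
    obtain ⟨q, hq⟩ : ∃ q : Fin (N + 1), (q : ℕ) = i + 1 := ⟨⟨i + 1, by omega⟩, rfl⟩
    have hne : w p ≠ w q := by
      intro e; have := congrArg Fin.val (w.injective e); omega
    rcases lt_or_gt_of_ne hne with h1 | h1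
    · right
      intro a b hab
      have hab' : blk N m i a b := hab
      unfold blk at hab'
      rw [Fin.lt_def] at h1 ⊢
      rcases hab' with ⟨h2, ⟨_, ⟨h3, h4⟩ | ⟨h3, h4⟩⟩ | ⟨h3, _⟩⟩
      · have e1 : a = p := Fin.ext (by omega)
        have e2 : b = q := Fin.ext (by omega)
        rw [e1, e2]; exact h1
      · have e1 := hv p b (by omega)
        have e2 := hv q a (by omega)
        omega
      · exact absurd h h3
    · left
      intro a b hab
      have hab' : blk N m i a b := hab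
      unfold blk at hab'
      rw [Fin.lt_def] at h1
      rw [Fin.lt_def]
      rcases hab' with ⟨h2, ⟨_, ⟨h3, h4⟩ | ⟨h3, h4⟩⟩ | ⟨h3, _⟩⟩
      · have e1 : a = p := Fin.ext (by omega)
        have e2 : b = q := Fin.ext (by omega)
        rw [e1, e2]; exact h1
      · have e1 := hv p b (by omega)
        have e2 := hv q a (by omega)
        omega
      · exact absurd h h3
  · obtain ⟨p, hp⟩ : ∃ p : Fin (N + 1), (p : ℕ) = i := ⟨⟨i, by omega⟩, rfl⟩
    obtain ⟨q, hq⟩ : ∃ q : Fin (N + 1), (q : ℕ) = N - i := ⟨⟨N - i, by omega⟩, rfl⟩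
    have hpq := hv p q (by omega)
    have hne : w p ≠ w q := by
      intro e; have := congrArg Fin.val (w.injective e); omega
    -- general position of an element of the block
    have hmid : ∀ z : Fin (N + 1), (i : ℕ) ≤ z → (z : ℕ) ≤ N - i → z = p ∨ z = q ∨ (w z : ℕ) + w z = N := by
      intro z h1 h2
      by_cases e1 : (z : ℕ) = i
      · left; ext; omega
      · by_cases e2 : (z : ℕ) = N - i
        · right; left; ext; omega
        · right; right
          exact hv z z (by omega)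
    rcases lt_or_gt_of_ne hne with h1 | h1
    · right
      intro a b hab
      have hab' : blk N m i a b := hab
      unfold blk at hab'
      rcases hab' with ⟨h2, ⟨h3, _⟩ | ⟨_, h3, h4⟩⟩
      · exact absurd h3 h
      · rw [Fin.lt_def] at h1 ⊢
        rcases hmid a h3 (by omega) with rfl | rfl | e1 <;> rcases hmid b (by omega) h4 with rfl | rfl | e2 <;> first | omega | skip
        have e3 : (a : ℕ) + a = N := by
          by_contra hcon
          obtain ⟨a', ha'⟩ : ∃ a' : Fin (N + 1), (a : ℕ) + a' = N := ⟨⟨N - a, by omega⟩, by simp; omega⟩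
          have e4 := hv a a' ha'
          have e5 : w a = w a' := Fin.ext (by omega)
          have := congrArg Fin.val (w.injective e5)
          omega
        have e6 : (b : ℕ) + b = N := by
          by_contra hcon
          obtain ⟨a', ha'⟩ : ∃ a' : Fin (N + 1), (b : ℕ) + a' = N := ⟨⟨N - b, by omega⟩, by simp; omega⟩
          have e4 := hv b a' ha'
          have e5 : w b = w a' := Fin.ext (by omega)
          have := congrArg Fin.val (w.injective e5)
          omega
        omega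
    · left
      intro a b hab
      have hab' : blk N m i a b := hab
      unfold blk at hab'
      rcases hab' with ⟨h2, ⟨h3, _⟩ | ⟨_, h3, h4⟩⟩
      · exact absurd h3 h
      · rw [Fin.lt_def] at h1
        rw [Fin.lt_def]
        rcases hmid a h3 (by omega) with rfl | rfl | e1 <;> rcases hmid b (by omega) h4 with rfl | rfl | e2 <;> first | omega | skip
        have e3 : (a : ℕ) + a = N := by
          by_contra hcon
          obtain ⟨a', ha'⟩ : ∃ a' : Fin (N + 1), (a : ℕ) + a' = N := ⟨⟨N - a, by omega⟩, by simp; omega⟩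
          have e4 := hv a a' ha'
          have e5 : w a = w a' := Fin.ext (by omega)
          have := congrArg Fin.val (w.injective e5)
          omega
        have e6 : (b : ℕ) + b = N := by
          by_contra hcon
          obtain ⟨a', ha'⟩ : ∃ a' : Fin (N + 1), (b : ℕ) + a' = N := ⟨⟨N - b, by omega⟩, by simp; omega⟩
          have e4 := hv b a' ha'
          have e5 : w b = w a' := Fin.ext (by omega)
          have := congrArg Fin.val (w.injective e5)
          omega
        omega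

include hN in
/-- if there is no descent then the permutation is trivial -/
theorem eq_one_of_asc {w : Equiv.Perm (Fin (N + 1))} (h : ∀ i : Fin m, Asc i w) : w = 1 := by
  by_contra hne
  obtain ⟨d, hd⟩ := exists_descent w hne
  -- the pair (d, d+1) lies in a block
  have hd2 := d.2
  obtain ⟨i, hi⟩ : ∃ i : Fin m, Rb N m i d.castSucc d.succ := by
    by_cases h1 : (d : ℕ) + 1 < m
    · exact ⟨⟨d, by omega⟩, by unfold Rb blk; simp; omega⟩
    · by_cases h2 : N - d < m
      · exact ⟨⟨N - d - 1, by omega⟩, by unfold Rb blk; simp; omega⟩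
      · exact ⟨⟨m - 1, by omega⟩, by unfold Rb blk; simp; omega⟩
  exact lt_asymm hd (h i _ _ hi)

include hN in
theorem exists_des {w : Equiv.Perm (Fin (N + 1))} (hw : Com w) (hne : w ≠ 1) : ∃ i : Fin m, Des i w := by
  by_contra hcon
  push Not at hcon
  exact hne (eq_one_of_asc hN (fun i => (des_or hN hw i).resolve_left (hcon i)))

theorem rev_com : Com (Fin.revPerm : Equiv.Perm (Fin (N + 1))) := fun a => rfl

include hN in
theorem eq_rev_of_des {w : Equiv.Perm (Fin (N + 1))} (h : ∀ i : Fin m, Des i w) : w = Fin.revPerm := by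
  have h2 : Fin.revPerm * w = 1 := by
    apply eq_one_of_asc hN (m := m)
    intro i a b hab
    exact Fin.rev_lt_rev.2 (h i a b hab)
  have h3 : Fin.revPerm * (Fin.revPerm * w) = Fin.revPerm := by rw [h2, mul_one]
  rw [← mul_assoc] at h3
  have h4 : (Fin.revPerm : Equiv.Perm (Fin (N + 1))) * Fin.revPerm = 1 := by
    ext z; simp
  rw [h4, one_mul] at h3
  exact h3

/-- length-like function -/
def mu (w : Equiv.Perm (Fin (N + 1))) : ℕ := ∑ a : Fin (N + 1), (N - (a : ℕ)) * (w a : ℕ)

theorem mu_lt {w : Equiv.Perm (Fin (N + 1))} {i : Fin m} (h : Des i w) : mu (w * sg hN i) < mu w := by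
  have e1 : mu (w * sg hN i) = ∑ a : Fin (N + 1), (N - (sg hN i a : ℕ)) * (w a : ℕ) := by
    unfold mu
    rw [← Equiv.sum_comp (sg hN i)]
    apply Finset.sum_congr rfl
    intro a _
    rw [Equiv.Perm.mul_apply, sg_sg]
  have hpos : ∀ a : Fin (N + 1), 0 ≤ (((sg hN i a : ℕ) : ℤ) - (a : ℕ)) * (((w a : ℕ) : ℤ) - (w (sg hN i a) : ℕ)) := by
    intro a
    rcases lt_trichotomy (a : ℕ) (sg hN i a : ℕ) with h1 | h1 | h1
    · have h2 : Rb N m i a (sg hN i a) := by
        rw [← lt_iff_b hN]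
        refine ⟨h1, ?_⟩
        rw [sg_inv, sg_sg]; exact h1
      have h3 := h _ _ h2
      rw [Fin.lt_def] at h3
      apply mul_nonneg <;> omega
    · rw [← h1]; simp
    · have h2 : Rb N m i (sg hN i a) a := by
        rw [← lt_iff_b hN]
        refine ⟨h1, ?_⟩
        rw [sg_inv, sg_sg]; exact h1
      have h3 := h _ _ h2
      rw [Fin.lt_def] at h3
      apply mul_nonneg_of_nonpos_of_nonpos <;> omega
  obtain ⟨a0, b0, hab⟩ := exists_blk hN i
  -- a strictly positive term
  have hstrict : ∃ a : Fin (N + 1), 0 < (((sg hN i a : ℕ) : ℤ) - (a : ℕ)) * (((w a : ℕ) : ℤ) - (w (sg hN i a) : ℕ)) := by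
    obtain ⟨a, ha⟩ : ∃ a : Fin (N + 1), (a : ℕ) = i := ⟨⟨i, by omega⟩, rfl⟩
    have h1 : (a : ℕ) < (sg hN i a : ℕ) := by
      rw [sg_val, ha]
      have := i.2
      unfold sv; split_ifs <;> omega
    have h2 : Rb N m i a (sg hN i a) := by
      rw [← lt_iff_b hN]
      refine ⟨h1, ?_⟩
      rw [sg_inv, sg_sg]; exact h1
    have h3 := h _ _ h2
    rw [Fin.lt_def] at h3
    refine ⟨a, ?_⟩
    apply mul_pos <;> omega
  have hsum : 0 < ∑ a : Fin (N + 1), (((sg hN i a : ℕ) : ℤ) - (a : ℕ)) * (((w a : ℕ) : ℤ) - (w (sg hN i a) : ℕ)) := by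
    obtain ⟨a, ha⟩ := hstrict
    exact Finset.sum_pos' (fun a _ => hpos a) ⟨a, Finset.mem_univ _, ha⟩
  have e2 : ∑ a : Fin (N + 1), (((sg hN i a : ℕ) : ℤ) - (a : ℕ)) * (w (sg hN i a) : ℕ) =
      - ∑ a : Fin (N + 1), (((sg hN i a : ℕ) : ℤ) - (a : ℕ)) * (w a : ℕ) := by
    rw [← Equiv.sum_comp (sg hN i), ← Finset.sum_neg_distrib]
    apply Finset.sum_congr rfl
    intro a _
    rw [sg_sg]; ring
  have e3 : (mu w : ℤ) - mu (w * sg hN i) = ∑ a : Fin (N + 1), (((sg hN i a : ℕ) : ℤ) - (a : ℕ)) * (w a : ℕ) := by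
    rw [e1]
    unfold mu
    push_cast
    rw [← Finset.sum_sub_distrib]
    apply Finset.sum_congr rfl
    intro a _
    have h1 : (a : ℕ) ≤ N := Nat.le_of_lt_succ a.2
    have h2 : (sg hN i a : ℕ) ≤ N := Nat.le_of_lt_succ (sg hN i a).2
    rw [Nat.cast_sub h1, Nat.cast_sub h2]; ring
  simp only [mul_sub, Finset.sum_sub_distrib] at hsum
  rw [e2] at hsum
  omega

end Cfsg.Agent.H8.GrComb
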