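import Mathlib
import Cfsg.Agent.H8.GrComb

set_option autoImplicit false
set_option linter.all false

/-! The data of `AutBN` for subgroups of the fixed points of a duality. -/

namespace Cfsg.Agent.H8.GrData

open scoped commutatorElement
open Matrix Pointwise Cfsg.Agent.H8.AutBN Cfsg.Agent.H8.SLPat Cfsg.Agent.H8.SLTri Cfsg.Agent.H8.SLData
  Cfsg.Agent.H8.Theta Cfsg.Agent.H8.GrComb

section pu

variable {ι : Type*} [Fintype ι] [DecidableEq ι] {F : Type*} [Field F] [Finite F]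

/-- pattern subgroup of a subgroup -/
def pu (K : Subgroup (SpecialLinearGroup ι F)) {R : ι → ι → Prop} (hR : Str R) : Subgroup K := (patU hR).subgroupOf K

variable {K : Subgroup (SpecialLinearGroup ι F)}

theorem mem_pu {R : ι → ι → Prop} {hR : Str R} {u : K} : u ∈ pu K hR ↔ u.1 ∈ patU hR := Subgroup.mem_subgroupOf

theorem pu_le {R S : ι → ι → Prop} {hR : Str R} {hS : Str S} (h : ∀ a b, R a b → S a b) : pu K hR ≤ pu K hS := by
  intro u hu
  rw [mem_pu] at hu ⊢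
  exact patU_le_iff.2 h hu

theorem pu_congr {R S : ι → ι → Prop} {hR : Str R} {hS : Str S} (h : ∀ a b, R a b ↔ S a b) : pu K hR = pu K hS :=
  le_antisymm (pu_le (fun a b => (h a b).1)) (pu_le (fun a b => (h a b).2))

theorem pu_inf {R S : ι → ι → Prop} (hR : Str R) (hS : Str S) : pu K hR ⊓ pu K hS = pu K (str_inf hR hS) := by
  ext u
  rw [Subgroup.mem_inf, mem_pu, mem_pu, mem_pu, ← patU_inf hR hS, Subgroup.mem_inf]

theorem le_pu_inf {H : Subgroup K} {R S : ι → ι → Prop} (hR : Str R) (hS : Str S) (h1 : H ≤ pu K hR) (h2 : H ≤ pu K hS) :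
    H ≤ pu K (str_inf hR hS) := by
  rw [← pu_inf hR hS]; exact le_inf h1 h2

theorem pu_bot {R : ι → ι → Prop} {hR : Str R} (h : ∀ a b, ¬ R a b) : pu K hR = ⊥ := by
  rw [eq_bot_iff]
  intro u hu
  rw [mem_pu, patU_bot h, Subgroup.mem_bot] at hu
  rw [Subgroup.mem_bot]
  exact Subtype.ext hu

theorem pu_smul {n : K} {ω : Equiv.Perm ι} (h : Mono n.1 ω) {R : ι → ι → Prop} (hR : Str R) :
    c n • pu K hR = pu K (str_perm hR ω) := by
  ext u
  rw [mem_c_smul, mem_pu, mem_pu, ← h.smul hR, mem_c_smul]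
  exact Iff.rfl

end pu

variable {N m : ℕ} {F : Type*} [Field F] [Finite F]

theorem ideal_norm {R : Fin (N + 1) → Fin (N + 1) → Prop} (hR : Str R)
    (hid : ∀ a b a' b', R a b → a' ≤ a → b ≤ b' → R a' b') {b u : SpecialLinearGroup (Fin (N + 1)) F} (hb : b ∈ B N F)
    (hu : u ∈ patU hR) : b * u * b⁻¹ ∈ patU hR := by
  rw [mem_patU] at hu ⊢
  intro i j hij
  have e : (b * u * b⁻¹).1 = 1 + b.1 * (u.1 - 1) * (b⁻¹).1 := by
    have e1 : (b * u * b⁻¹).1 = b.1 * u.1 * (b⁻¹).1 := rfl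
    have e2 : b.1 * (b⁻¹).1 = 1 := by
      have : (b * b⁻¹).1 = 1 := by rw [mul_inv_cancel]; rfl
      exact this
    rw [e1, mul_sub, sub_mul, mul_one, e2]; abel
  have e3 : (b * u * b⁻¹) i j = (1 + b.1 * (u.1 - 1) * (b⁻¹).1) i j := by
    show (b * u * b⁻¹).1 i j = _
    rw [e]
  have hbinv : b⁻¹ ∈ B N F := inv_mem hb
  rw [e3, Matrix.add_apply, Matrix.one_apply, Matrix.mul_apply, Finset.sum_eq_zero, add_zero]
  intro l _
  rw [Matrix.mul_apply, Finset.sum_mul]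
  apply Finset.sum_eq_zero
  intro k _
  by_cases h1 : k < i
  · have h2 : b.1 i k = 0 := hb i k h1
    rw [h2]; ring
  · by_cases h2 : j < l
    · have h3 : (b⁻¹).1 l j = 0 := hbinv l j h2
      rw [h3]; ring
    · have h3 : (u.1 - 1 : Matrix _ _ F) k l = 0 := by
        rw [Matrix.sub_apply, Matrix.one_apply]
        have h4 := hu k l (fun h => hij (hid _ _ _ _ h (not_lt.1 h1) (not_lt.1 h2)))
        have h5 : u.1 k l = if k = l then 1 else 0 := h4
        rw [h5, sub_self]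
      rw [h3]; ring

/-- uniqueness of the permutation -/
theorem mono_inj {n : SpecialLinearGroup (Fin (N + 1)) F} {ω ω' : Equiv.Perm (Fin (N + 1))} (h : Mono n ω) (h' : Mono n ω') : ω = ω' := by
  ext j
  by_contra hne
  exact h.ne_zero j (h' _ _ (fun e => hne (congrArg Fin.val e)))

theorem factor_Gr (τ : F ≃+* F) (ε : Fin (N + 1) → Fˣ) {ω : Equiv.Perm (Fin (N + 1))} (hω : Com ω)
    {u : SpecialLinearGroup (Fin (N + 1)) F} (hu : u ∈ U N F) (huG : u ∈ Gr τ ε) :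
    ∃ u1 ∈ patU (str_inf (str_lt (α := Fin (N + 1))) (str_perm (str_gt (α := Fin (N + 1))) ω)),
      ∃ u2 ∈ patU (str_inf (str_lt (α := Fin (N + 1))) (str_perm (str_lt (α := Fin (N + 1))) ω)), u1 ∈ Gr τ ε ∧ u2 ∈ Gr τ ε ∧ u = u1 * u2 := by
  obtain ⟨u1, h1, u2, h2, e⟩ := factor ω u hu
  have hinv := hω.inv
  have t1 : Th τ ε u1 ∈ patU (str_inf (str_lt (α := Fin (N + 1))) (str_perm (str_gt (α := Fin (N + 1))) ω)) := by
    refine patU_le_iff.2 ?_ (Th_mem τ ε h1)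
    rintro a b ⟨h3, h4⟩
    refine ⟨Fin.rev_lt_rev.1 h3, ?_⟩
    have h5 : ω⁻¹ (Fin.rev a) < ω⁻¹ (Fin.rev b) := h4
    rw [hinv, hinv, Fin.rev_lt_rev] at h5
    exact h5
  have t2 : Th τ ε u2 ∈ patU (str_inf (str_lt (α := Fin (N + 1))) (str_perm (str_lt (α := Fin (N + 1))) ω)) := by
    refine patU_le_iff.2 ?_ (Th_mem τ ε h2)
    rintro a b ⟨h3, h4⟩
    refine ⟨Fin.rev_lt_rev.1 h3, ?_⟩
    have h5 : ω⁻¹ (Fin.rev b) < ω⁻¹ (Fin.rev a) := h4
    rw [hinv, hinv, Fin.rev_lt_rev] at h5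
    exact h5
  have e2 : Th τ ε u1 * Th τ ε u2 = u1 * u2 := by rw [← map_mul, ← e, (mem_Gr τ ε).1 huG, e]
  have e3 : u1⁻¹ * Th τ ε u1 = u2 * (Th τ ε u2)⁻¹ := by
    rw [inv_mul_eq_iff_eq_mul, ← mul_assoc, ← e2]; group
  have e4 : u1⁻¹ * Th τ ε u1 = 1 := by
    have h3 : u1⁻¹ * Th τ ε u1 ∈ patU (str_inf (str_lt (α := Fin (N + 1))) (str_perm (str_gt (α := Fin (N + 1))) ω)) ⊓
        patU (str_inf (str_lt (α := Fin (N + 1))) (str_perm (str_lt (α := Fin (N + 1))) ω)) := by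
      refine Subgroup.mem_inf.2 ⟨mul_mem (inv_mem h1) t1, ?_⟩
      rw [e3]; exact mul_mem h2 (inv_mem t2)
    rw [patU_inf, patU_bot (fun a b h => lt_asymm h.1.2 h.2.2), Subgroup.mem_bot] at h3
    exact h3
  refine ⟨u1, h1, u2, h2, ?_, ?_, e⟩
  · rw [inv_mul_eq_one] at e4; exact e4.symm
  · rw [e4] at e3
    have := e3.symm
    rw [mul_inv_eq_one] at this; exact this.symm

theorem exists_diag_Gr (τ : F ≃+* F) (ε : Fin (N + 1) → Fˣ) {b : SpecialLinearGroup (Fin (N + 1)) F} (hb : b ∈ B N F) (hG : b ∈ Gr τ ε) :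
    ∃ d u : SpecialLinearGroup (Fin (N + 1)) F, Mono d 1 ∧ u ∈ U N F ∧ d ∈ Gr τ ε ∧ u ∈ Gr τ ε ∧ b = d * u := by
  obtain ⟨d, u, hd, hu, e⟩ := exists_diag hb
  have hd' : Mono (Th τ ε d) 1 := by
    have := Th_mono τ ε hd
    have e1 : (Fin.revPerm * 1 * Fin.revPerm : Equiv.Perm (Fin (N + 1))) = 1 := by ext z; simp
    rwa [e1] at this
  have e2 : Th τ ε d * Th τ ε u = d * u := by rw [← map_mul, ← e, (mem_Gr τ ε).1 hG, e]
  have e3 : d⁻¹ * Th τ ε d = u * (Th τ ε u)⁻¹ := by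
    rw [inv_mul_eq_iff_eq_mul, ← mul_assoc, ← e2]; group
  have e4 : d⁻¹ * Th τ ε d = 1 := by
    have h8 : Mono (d⁻¹ * Th τ ε d) 1 := by
      have := hd.inv.mul hd'
      simpa using this
    have h9 : d⁻¹ * Th τ ε d ∈ U N F := by
      rw [e3]; exact mul_mem hu (inv_mem (Th_mem_U τ ε hu))
    ext a e
    rw [slone_apply]
    by_cases h10 : a = e
    · subst h10; rw [(mem_U.1 h9).2, if_pos rfl]
    · rw [h8 a e h10, if_neg h10]
  refine ⟨d, u, hd, hu, ?_, ?_, e⟩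
  · rw [inv_mul_eq_one] at e4; exact e4.symm
  · rw [e4] at e3
    have := e3.symm
    rw [mul_inv_eq_one] at this; exact this.symm

/-- the input for the construction -/
structure Inp (N m : ℕ) (F : Type*) [Field F] [Finite F] where
  hN : N = 2 * m ∨ N + 1 = 2 * m
  τ : F ≃+* F
  ε : Fin (N + 1) → Fˣ
  K : Subgroup (SpecialLinearGroup (Fin (N + 1)) F)
  hK : K ≤ Gr τ ε
  hUK : ∀ u ∈ U N F, u ∈ Gr τ ε → u ∈ K
  s : Fin m → K
  smono : ∀ i, Mono (s i).1 (sg hN i)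
  Xne : ∀ i, pu K (strb hN i) ≠ ⊥
  sgen : ∀ i, s i ∈ pu K (strb hN i) ⊔ pu K (str_swap (strb hN i))

namespace Inp

variable (P : Inp N m F)

/-- monomial elements exist -/
theorem exists_n : ∀ ω : Equiv.Perm (Fin (N + 1)), Com ω → ∃ n : P.K, Mono n.1 ω := by
  have key : ∀ (k : ℕ) (ω : Equiv.Perm (Fin (N + 1))), Com ω → mu ω⁻¹ = k → ∃ n : P.K, Mono n.1 ω := by
    intro k
    induction k using Nat.strong_induction_on with
    | _ k ih =>
      intro ω hω hk
      by_cases h1 : ω = 1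
      · refine ⟨1, ?_⟩
        rw [h1]
        intro i j hij
        show (1 : SpecialLinearGroup (Fin (N + 1)) F) i j = 0
        rw [slone_apply, if_neg (by simpa using hij)]
      · obtain ⟨i, hi⟩ := exists_des P.hN hω.inv (by simpa using h1)
        have h2 := mu_lt P.hN hi
        obtain ⟨n, hn⟩ := ih (mu (ω⁻¹ * sg P.hN i)) (by rw [← hk]; exact h2) (sg P.hN i * ω) ((sg_com P.hN i).mul hω) (by
          rw [_root_.mul_inv_rev, sg_inv])
        refine ⟨P.s i * n, ?_⟩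
        have := (P.smono i).mul hn
        rw [← mul_assoc, sg_mul, one_mul] at this
        exact this
  exact fun ω hω => key _ ω hω rfl

/-- a lift of the longest element -/
noncomputable def n0 : P.K := (P.exists_n Fin.revPerm rev_com).choose
theorem n0_mono : Mono P.n0.1 Fin.revPerm := (P.exists_n Fin.revPerm rev_com).choose_spec

/-- the groups `U`, `V` -/
def UU : Subgroup P.K := pu P.K (str_lt (α := Fin (N + 1)))
def VV : Subgroup P.K := pu P.K (str_gt (α := Fin (N + 1)))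

theorem com_of {n : P.K} {ω : Equiv.Perm (Fin (N + 1))} (h : Mono n.1 ω) : Com ω := fun a => Gr_mono P.τ P.ε (P.hK n.2) h a

theorem c_pu_one {n : P.K} (h : Mono n.1 1) {R : Fin (N + 1) → Fin (N + 1) → Prop} (hR : Str R) : c n • pu P.K hR = pu P.K hR := by
  rw [pu_smul h]
  exact pu_congr (fun a b => by simp)

theorem U_inf_n {n : P.K} {ω : Equiv.Perm (Fin (N + 1))} (h : Mono n.1 ω) : P.UU ⊓ c n • P.UU =
    pu P.K (str_inf (str_lt (α := Fin (N + 1))) (str_perm (str_lt (α := Fin (N + 1))) ω)) := by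
  rw [UU, pu_smul h, pu_inf]

theorem Ui_eq (i : Fin m) : P.UU ⊓ c (P.s i) • P.UU = pu P.K (strc P.hN i) := by
  rw [P.U_inf_n (P.smono i)]
  exact pu_congr (fun a b => lt_iff_c P.hN i a b)

theorem Xp_eq (i : Fin m) : P.UU ⊓ c (P.s i) • P.VV = pu P.K (strb P.hN i) := by
  rw [UU, VV, pu_smul (P.smono i), pu_inf]
  exact pu_congr (fun a b => lt_iff_b P.hN i a b)

theorem Vi_eq (i : Fin m) : P.VV ⊓ c (P.s i) • P.VV = pu P.K (str_swap (strc P.hN i)) := by
  rw [VV, pu_smul (P.smono i), pu_inf]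
  exact pu_congr (fun a b => lt_iff_c P.hN i b a)

theorem Yp_eq (i : Fin m) : P.VV ⊓ c (P.s i) • P.UU = pu P.K (str_swap (strb P.hN i)) := by
  rw [UU, VV, pu_smul (P.smono i), pu_inf]
  exact pu_congr (fun a b => lt_iff_b P.hN i b a)

theorem B_norm {b : P.K} (hb : b.1 ∈ B N F) {R : Fin (N + 1) → Fin (N + 1) → Prop} (hR : Str R)
    (hid : ∀ a b a' b', R a b → a' ≤ a → b ≤ b' → R a' b') : c b • pu P.K hR = pu P.K hR := by
  rw [← mem_normalizer, Subgroup.mem_normalizer_iff]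
  intro u
  constructor
  · intro hu
    rw [mem_pu] at hu ⊢
    exact ideal_norm hR hid hb hu
  · intro hu
    rw [mem_pu] at hu ⊢
    have := ideal_norm hR hid (inv_mem hb) hu
    have e : b.1⁻¹ * (b * u * b⁻¹ : P.K).1 * b.1⁻¹⁻¹ = u.1 := by
      show b.1⁻¹ * (b.1 * u.1 * b.1⁻¹) * b.1⁻¹⁻¹ = u.1
      group
    rwa [e] at this

theorem mono_of_U {n : P.K} {ω : Equiv.Perm (Fin (N + 1))} (h : Mono n.1 ω) (h1 : c n • P.UU = P.UU) : ω = 1 := by
  by_contra hne
  obtain ⟨i, hi⟩ := exists_des P.hN (P.com_of h).inv (by simpa using hne)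
  apply P.Xne i
  rw [eq_bot_iff]
  have h2 : pu P.K (strb P.hN i) ≤ P.UU ⊓ c n • P.UU := by
    rw [h1, inf_idem]; exact pu_le (fun a b h => h.1)
  have h3 : pu P.K (strb P.hN i) ≤ pu P.K (str_inf (strb P.hN i) (str_inf (str_lt (α := Fin (N + 1))) (str_perm (str_lt (α := Fin (N + 1))) ω))) := by
    apply le_pu_inf _ _ le_rfl
    rw [← P.U_inf_n h]; exact h2
  refine h3.trans (le_of_eq (pu_bot ?_))
  rintro a b ⟨h4, _, h5⟩
  exact lt_asymm h5 (hi a b h4)

theorem smul_U_iff {g : P.K} : c g • P.UU = P.UU ↔ g.1 ∈ B N F := by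
  constructor
  · intro h
    obtain ⟨u, n, u', hu, huG, ⟨ω, hn⟩, hnG, hu', huG', e⟩ := bruhat_Gr P.τ P.ε (P.hK g.2)
    have huK := P.hUK u hu huG
    have huK' := P.hUK u' hu' huG'
    have hnK : n ∈ P.K := by
      have : n = u⁻¹ * g.1 * u'⁻¹ := by rw [e]; group
      rw [this]
      exact mul_mem (mul_mem (inv_mem huK) g.2) (inv_mem huK')
    have e2 : g = ⟨u, huK⟩ * ⟨n, hnK⟩ * ⟨u', huK'⟩ := Subtype.ext e
    have nU : ∀ (v : P.K), v.1 ∈ U N F → c v • P.UU = P.UU := by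
      intro v hv
      exact P.B_norm (U_le_B hv) _ (fun a b a' b' h h1 h2 => lt_of_le_of_lt h1 (lt_of_lt_of_le h h2))
    rw [e2, c_mul, c_mul, mul_smul, mul_smul, nU _ hu'] at h
    have h2 : c (⟨n, hnK⟩ : P.K) • P.UU = P.UU := by
      have h3 := congrArg (fun H => c (⟨u, huK⟩ : P.K)⁻¹ • H) h
      rw [smul_smul, ← c_mul, inv_mul_cancel, c_one, one_smul, nU (⟨u, huK⟩⁻¹ : P.K) (inv_mem hu)] at h3
      exact h3
    have h3 := P.mono_of_U hn h2
    subst h3
    rw [e]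
    exact mul_mem (mul_mem (U_le_B hu) (mono_one_mem hn)) (U_le_B hu')
  · intro h
    exact P.B_norm h _ (fun a b a' b' h h1 h2 => lt_of_le_of_lt h1 (lt_of_lt_of_le h h2))

theorem n0_U : c P.n0 • P.UU = P.VV := by
  rw [UU, VV, pu_smul P.n0_mono]
  apply pu_congr
  intro a b
  show Fin.rev a < Fin.rev b ↔ b < a
  rw [Fin.rev_lt_rev]

theorem n0_V : c P.n0 • P.VV = P.UU := by
  rw [UU, VV, pu_smul P.n0_mono]
  apply pu_congr
  intro a b
  show Fin.rev b < Fin.rev a ↔ a < b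
  rw [Fin.rev_lt_rev]

variable (p : ℕ) [Fact p.Prime] [CharP F p]

/-- the data -/
noncomputable def dat : Data p P.K (Fin m) where
  U := P.UU
  V := P.VV
  N := {n | ∃ ω, Mono n.1 ω}
  s := P.s
  n0 := P.n0
  star := Equiv.refl _
  isP := (isP (p := p)).comap_subtype
  mx := by
    rintro g hg ⟨k, hk⟩
    rw [P.smul_U_iff] at hg
    rw [UU, mem_pu, mem_U]
    refine ⟨hg, fun i => ?_⟩
    have hk' : g.1 ^ p ^ k = 1 := congrArg Subtype.val hk
    have h1 : g.1 i i ^ p ^ k = 1 := by rw [← diag_pow hg, hk', slone_apply, if_pos rfl]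
    have h2 : (g.1 i i - 1) ^ p ^ k = 0 := by
      rw [sub_pow_char_pow, h1, one_pow, sub_self]
    exact sub_eq_zero.1 (eq_zero_of_pow_eq_zero h2)
  hV := P.n0_U.symm
  disj := by
    rw [UU, VV, pu_inf]
    exact pu_bot (fun a b h => lt_asymm h.1 h.2)
  bruhat := by
    intro g
    obtain ⟨u, n, u', hu, huG, ⟨ω, hn⟩, hnG, hu', huG', e⟩ := bruhat_Gr P.τ P.ε (P.hK g.2)
    have huK := P.hUK u hu huG
    have huK' := P.hUK u' hu' huG'
    have hnK : n ∈ P.K := by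
      have : n = u⁻¹ * g.1 * u'⁻¹ := by rw [e]; group
      rw [this]
      exact mul_mem (mul_mem (inv_mem huK) g.2) (inv_mem huK')
    exact ⟨⟨u, huK⟩, ⟨n, hnK⟩, ⟨u', huK'⟩, P.smul_U_iff.2 (U_le_B hu), ⟨ω, hn⟩, P.smul_U_iff.2 (U_le_B hu'), Subtype.ext e⟩
  small := by
    rintro n ⟨ω, hn⟩ hne
    obtain ⟨i, hi⟩ := exists_des P.hN (P.com_of hn).inv (by
      rintro h
      apply hne
      have : ω = 1 := by simpa using h
      subst this
      exact P.c_pu_one hn _)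
    refine ⟨i, ?_⟩
    rw [P.U_inf_n hn, P.Ui_eq]
    apply pu_le
    rintro a b ⟨h1, h2⟩
    exact ⟨h1, fun h => lt_asymm h2 (hi a b h)⟩
  s_ne := by
    intro i h
    have h1 := P.mono_of_U (P.smono i) h
    obtain ⟨a, b, hab⟩ := exists_blk P.hN i
    have h2 := (lt_iff_b P.hN i a b).2 hab
    rw [h1] at h2
    simp at h2
    exact lt_asymm h2.1 h2.2
  opp := by
    rintro n ⟨ω, hn⟩ h
    have hc := P.com_of hn
    have h2 : ω⁻¹ = Fin.revPerm := by
      apply eq_rev_of_des P.hN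
      intro i
      rcases des_or P.hN hc.inv i with h1 | h1
      · exact h1
      · exfalso
        apply P.Xne i
        rw [eq_bot_iff, ← h, P.U_inf_n hn]
        exact pu_le (fun a b h3 => ⟨h3.1, h1 a b h3⟩)
    rw [UU, VV, pu_smul hn]
    apply pu_congr
    intro a b
    rw [h2]
    exact Fin.rev_lt_rev
  Uinj := by
    intro i j h
    rw [P.Ui_eq, P.Ui_eq] at h
    by_contra hne
    apply P.Xne j
    rw [eq_bot_iff]
    have h1 : pu P.K (strb P.hN j) ≤ pu P.K (strc P.hN i) :=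
      pu_le (fun a b h3 => ⟨h3.1, fun h4 => hne (Fin.ext (blk_disj P.hN i.2 j.2 h4 h3))⟩)
    have h2 : pu P.K (strb P.hN j) ≤ pu P.K (str_inf (strb P.hN j) (strc P.hN j)) := by
      exact le_pu_inf _ _ le_rfl (h1.trans h)
    refine h2.trans (le_of_eq (pu_bot ?_))
    rintro a b ⟨h3, h4⟩
    exact h4.2 h3
  Unorm := by
    intro i b hb
    rw [P.smul_U_iff] at hb
    rw [P.Ui_eq]
    apply P.B_norm hb
    rintro a b a' b' ⟨h1, h2⟩ h3 h4
    have hi := i.2
    rw [Fin.lt_def] at h1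
    rw [Fin.le_def] at h3 h4
    refine ⟨?_, ?_⟩
    · rw [Fin.lt_def]; omega
    · unfold blk at *; omega
  Vstar := by
    intro i
    rw [P.Ui_eq, Equiv.refl_apply, P.Vi_eq, pu_smul P.n0_mono]
    apply pu_congr
    intro a b
    have e : ∀ z : Fin (N + 1), (Fin.revPerm (n := N + 1))⁻¹ z = Fin.rev z := fun z => rfl
    rw [e, e]
    constructor
    · rintro ⟨h1, h2⟩
      refine ⟨Fin.rev_lt_rev.1 h1, fun h3 => h2 ?_⟩
      have := blk_rev P.hN i.2 (Nat.le_of_lt_succ a.2) h3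
      rw [Fin.val_rev, Fin.val_rev]
      have e1 : N + 1 - ((a : ℕ) + 1) = N - a := by omega
      have e2 : N + 1 - ((b : ℕ) + 1) = N - b := by omega
      rw [e1, e2]; exact this
    · rintro ⟨h1, h2⟩
      refine ⟨Fin.rev_lt_rev.2 h1, fun h3 => h2 ?_⟩
      have h4 := blk_rev P.hN i.2 (Nat.le_of_lt_succ (Fin.rev b).2) h3
      rw [Fin.val_rev, Fin.val_rev] at h4
      have e1 : N - (N + 1 - ((b : ℕ) + 1)) = b := by omega
      have e2 : N - (N + 1 - ((a : ℕ) + 1)) = a := by omega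
      rw [e1, e2] at h4; exact h4

open Classical in
/-- the length function -/
noncomputable def mul (n : P.K) : ℕ := if h : ∃ ω, Mono n.1 ω then mu (h.choose)⁻¹ else 0

omit [Fact p.Prime] [CharP F p] in
theorem mul_eq {n : P.K} {ω : Equiv.Perm (Fin (N + 1))} (h : Mono n.1 ω) : P.mul n = mu ω⁻¹ := by
  have h1 : ∃ ω, Mono n.1 ω := ⟨ω, h⟩
  rw [mul, dif_pos h1, mono_inj h1.choose_spec h]

omit [Fact p.Prime] [CharP F p] in
theorem tor_mono {h : P.K} (h1 : c h • P.UU = P.UU) (h2 : c h • P.VV = P.VV) : Mono h.1 1 := by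
  have hB := P.smul_U_iff.1 h1
  have h3 : c (P.n0⁻¹ * h * P.n0) • P.UU = P.UU := by
    rw [c_mul, c_mul, mul_smul, mul_smul, P.n0_U, h2, c_inv, inv_smul_eq_iff, P.n0_U]
  have h4 := P.smul_U_iff.1 h3
  intro a b hab
  rcases lt_or_gt_of_ne (show a ≠ b from hab) with h5 | h5
  · have h6 := h4 (Fin.rev a) (Fin.rev b) (Fin.rev_lt_rev.2 h5)
    have h7 : (P.n0.1⁻¹ * h.1 * P.n0.1) (Fin.rev a) (Fin.rev b) = 0 := h6
    rw [P.n0_mono.conj_zero] at h7
    simpa using h7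
  · exact hB a b h5

/-- the extra hypotheses -/
theorem ext : (P.dat p).Ext P.mul where
  mulN := by
    rintro a ⟨ω, h⟩ b ⟨ω', h'⟩
    exact ⟨_, h.mul h'⟩
  invN := by
    rintro a ⟨ω, h⟩
    exact ⟨_, h.inv⟩
  n0N := ⟨_, P.n0_mono⟩
  sN := fun i => ⟨_, P.smono i⟩
  n02 := P.n0_V
  s2U := by
    intro i
    apply P.c_pu_one
    have := (P.smono i).mul (P.smono i)
    rwa [sg_mul] at this
  s2V := by
    intro i
    apply P.c_pu_one
    have := (P.smono i).mul (P.smono i)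
    rwa [sg_mul] at this
  comU := by
    intro i
    show c (P.n0 * P.s i) • P.UU = c (P.s i * P.n0) • P.UU
    rw [UU, pu_smul (n := P.n0 * P.s i) (P.n0_mono.mul (P.smono i)), pu_smul (n := P.s i * P.n0) ((P.smono i).mul P.n0_mono)]
    have e : (Fin.revPerm * sg P.hN i : Equiv.Perm (Fin (N + 1))) = sg P.hN i * Fin.revPerm := by
      ext z; exact congrArg Fin.val (sg_com P.hN i z).symm
    apply pu_congr
    intro a b
    rw [e]
  comV := by
    intro i
    show c (P.n0 * P.s i) • P.VV = c (P.s i * P.n0) • P.VV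
    rw [VV, pu_smul (n := P.n0 * P.s i) (P.n0_mono.mul (P.smono i)), pu_smul (n := P.s i * P.n0) ((P.smono i).mul P.n0_mono)]
    have e : (Fin.revPerm * sg P.hN i : Equiv.Perm (Fin (N + 1))) = sg P.hN i * Fin.revPerm := by
      ext z; exact congrArg Fin.val (sg_com P.hN i z).symm
    apply pu_congr
    intro a b
    rw [e]
  NU := by
    rintro n ⟨ω, hn⟩ h
    have := P.mono_of_U hn h
    subst this
    exact P.c_pu_one hn _
  desc := by
    rintro n ⟨ω, hn⟩ hne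
    obtain ⟨i, hi⟩ := exists_des P.hN (P.com_of hn).inv (by
      rintro h
      apply hne
      have : ω = 1 := by simpa using h
      subst this
      exact P.c_pu_one hn _)
    refine ⟨i, ?_, ?_, ?_⟩
    · show P.UU ⊓ c n • P.UU ≤ P.UU ⊓ c (P.s i) • P.UU
      rw [P.U_inf_n hn, P.Ui_eq]
      apply pu_le
      rintro a b ⟨h1, h2⟩
      exact ⟨h1, fun h => lt_asymm h2 (hi a b h)⟩
    · show P.UU ⊓ c (P.s i) • P.VV ≤ c n • P.VV
      rw [P.Xp_eq, VV, pu_smul hn]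
      apply pu_le
      intro a b h
      exact hi a b h
    · have h1 : Mono ((P.s i)⁻¹ * n : P.K).1 ((sg P.hN i)⁻¹ * ω) := (P.smono i).inv.mul hn
      show P.mul ((P.s i)⁻¹ * n) < P.mul n
      rw [P.mul_eq h1, P.mul_eq hn, _root_.mul_inv_rev, inv_inv]
      exact mu_lt P.hN hi
  both := by
    rintro n ⟨ω, hn⟩ i h1 h2
    have h1' : P.UU ⊓ c (P.s i) • P.VV ≤ c n • P.VV := h1
    have h2' : P.VV ⊓ c (P.s i) • P.UU ≤ c n • P.VV := h2
    rw [P.Xp_eq, VV, pu_smul hn] at h1'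
    rw [P.Yp_eq, VV, pu_smul hn] at h2'
    rcases des_or P.hN (P.com_of hn).inv i with h | h
    · have h3 : pu P.K (str_swap (strb P.hN i)) = ⊥ := by
        rw [eq_bot_iff]
        have h4 : pu P.K (str_swap (strb P.hN i)) ≤ pu P.K (str_inf (str_swap (strb P.hN i)) (str_perm (str_gt (α := Fin (N + 1))) ω)) := by
          exact le_pu_inf _ _ le_rfl h2'
        refine h4.trans (le_of_eq (pu_bot ?_))
        rintro a b ⟨h5, h6⟩
        exact lt_asymm h6 (h b a h5)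
      apply P.Xne i
      have h5 : c (P.s i) • pu P.K (str_swap (strb P.hN i)) = pu P.K (strb P.hN i) := by
        rw [← P.Yp_eq, ← P.Xp_eq, Subgroup.smul_inf, smul_smul, ← c_mul]
        have h6 : c (P.s i * P.s i) • P.UU = P.UU := by
          apply P.c_pu_one
          have := (P.smono i).mul (P.smono i)
          rwa [sg_mul] at this
        rw [h6, inf_comm]
      rw [← h5, h3, Subgroup.smul_bot]
    · apply P.Xne i
      rw [eq_bot_iff]
      have h4 : pu P.K (strb P.hN i) ≤ pu P.K (str_inf (strb P.hN i) (str_perm (str_gt (α := Fin (N + 1))) ω)) := by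
        exact le_pu_inf _ _ le_rfl h1'
      refine h4.trans (le_of_eq (pu_bot ?_))
      rintro a b ⟨h5, h6⟩
      exact lt_asymm h6 (h a b h5)
  facU := by
    intro i u hu
    obtain ⟨u1, h1, u2, h2, h3, h4, e⟩ := factor_Gr P.τ P.ε (sg_com P.hN i) (mem_pu.1 hu) (P.hK u.2)
    have hu1 : u1 ∈ U N F := patU_le_iff.2 (fun a b h => h.1) h1
    have hu2 : u2 ∈ U N F := patU_le_iff.2 (fun a b h => h.1) h2
    refine ⟨⟨u1, P.hUK u1 hu1 h3⟩, ?_, ?_⟩
    · show _ ∈ P.UU ⊓ c (P.s i) • P.VV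
      rw [P.Xp_eq, mem_pu]
      exact patU_le_iff.2 (fun a b h => (lt_iff_b P.hN i a b).1 h) h1
    · show _ ∈ P.UU ⊓ c (P.s i) • P.UU
      rw [P.Ui_eq, mem_pu]
      have e2 : ((⟨u1, P.hUK u1 hu1 h3⟩ : P.K)⁻¹ * u).1 = u2 := by
        show u1⁻¹ * u.1 = u2
        rw [e]; group
      rw [e2]
      exact patU_le_iff.2 (fun a b h => (lt_iff_c P.hN i a b).1 h) h2
  torU := by
    intro b hb
    have hB := P.smul_U_iff.1 hb
    obtain ⟨d, u, hd, hu, hdG, huG, e⟩ := exists_diag_Gr P.τ P.ε hB (P.hK b.2)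
    have huK := P.hUK u hu huG
    have hdK : d ∈ P.K := by
      have : d = b.1 * u⁻¹ := by rw [e]; group
      rw [this]; exact mul_mem b.2 (inv_mem huK)
    have hd1 : Mono (⟨d, hdK⟩ : P.K).1 1 := hd
    have hdU : c (⟨d, hdK⟩ : P.K) • P.UU = P.UU := P.c_pu_one hd1 _
    have hdV : c (⟨d, hdK⟩ : P.K) • P.VV = P.VV := P.c_pu_one hd1 _
    refine ⟨⟨d, hdK⟩ * ⟨u, huK⟩ * ⟨d, hdK⟩⁻¹, ?_, ⟨d, hdK⟩, ⟨hdU, hdV⟩, ?_⟩
    · show _ ∈ P.UU
      rw [← hdU, mem_c_smul]
      have e3 : (⟨d, hdK⟩ : P.K)⁻¹ * (⟨d, hdK⟩ * ⟨u, huK⟩ * ⟨d, hdK⟩⁻¹) * ⟨d, hdK⟩ = ⟨u, huK⟩ := by group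
      rw [e3]
      exact mem_pu.2 hu
    · have e4 : b = ⟨d, hdK⟩ * ⟨u, huK⟩ := Subtype.ext e
      rw [e4]; group
  torS := by
    rintro h ⟨h1, h2⟩ i
    have h3 := P.tor_mono h1 h2
    have h4 : Mono (h * P.s i : P.K).1 (sg P.hN i) := by
      have := Mono.mul h3 (P.smono i)
      rwa [one_mul] at this
    constructor
    · show c h • c (P.s i) • P.UU = c (P.s i) • P.UU
      rw [smul_smul, ← c_mul, UU, pu_smul h4, pu_smul (P.smono i)]
    · show c h • c (P.s i) • P.VV = c (P.s i) • P.VV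
      rw [smul_smul, ← c_mul, VV, pu_smul h4, pu_smul (P.smono i)]
  Xne := by
    intro i
    show P.UU ⊓ c (P.s i) • P.VV ≠ ⊥
    rw [P.Xp_eq]; exact P.Xne i
  sgen := by
    intro i
    show P.s i ∈ (P.UU ⊓ c (P.s i) • P.VV) ⊔ (P.VV ⊓ c (P.s i) • P.UU)
    rw [P.Xp_eq, P.Yp_eq]; exact P.sgen i
  abel := by
    rintro h h' ⟨h1, h2⟩ ⟨h1', h2'⟩
    have h3 := P.tor_mono h1 h2
    have h3' := P.tor_mono h1' h2'
    apply Subtype.ext
    show h.1 * h'.1 = h'.1 * h.1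
    ext a b
    rw [slmul_apply, slmul_apply, Finset.sum_eq_single a, Finset.sum_eq_single a]
    · by_cases hab : a = b
      · subst hab; ring
      · rw [h3' a b hab, h3 a b hab]; ring
    · intro k _ hk
      rw [h3' a k (Ne.symm hk), zero_mul]
    · simp
    · intro k _ hk
      rw [h3 a k (Ne.symm hk), zero_mul]
    · simp

theorem X_eq (i : Fin m) : (P.dat p).X i = pu P.K (strb P.hN i) := by
  rw [(P.ext p).X_eq]
  exact P.Xp_eq i

theorem Y_eq (i : Fin m) : (P.dat p).Y i = pu P.K (str_swap (strb P.hN i)) := by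
  rw [(P.ext p).Y_eq]
  exact P.Yp_eq i

omit [Finite F] in
theorem comm_mat {u v : SpecialLinearGroup (Fin (N + 1)) F} (h1 : (u.1 - 1) * (v.1 - 1) = 0) (h2 : (v.1 - 1) * (u.1 - 1) = 0) : u * v = v * u := by
  apply Subtype.ext
  show u.1 * v.1 = v.1 * u.1
  rw [sub_mul, mul_sub, mul_sub, mul_one, one_mul, mul_one] at h1 h2
  have e1 : u.1 * v.1 = u.1 + v.1 - 1 := by
    rw [← sub_eq_zero]
    rw [← h1]; abel
  have e2 : v.1 * u.1 = u.1 + v.1 - 1 := by
    rw [← sub_eq_zero]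
    rw [← h2]; abel
  rw [e1, e2]

theorem hXY (i j : Fin m) : (∀ u ∈ (P.dat p).X i, ∀ v ∈ (P.dat p).Y j, u * v = v * u) ↔ i ≠ j := by
  constructor
  · rintro h rfl
    exact (P.ext p).XY_self i h
  · intro hij u hu v hv
    rw [X_eq, mem_pu, mem_patU] at hu
    rw [Y_eq, mem_pu, mem_patU] at hv
    have hi := i.2
    have hj := j.2
    have hne : (i : ℕ) ≠ j := fun e => hij (Fin.ext e)
    have hN := P.hN
    apply Subtype.ext
    have hu' : ∀ a b : Fin (N + 1), ¬ blk N m i a b → (u.1.1 - 1 : Matrix (Fin (N + 1)) (Fin (N + 1)) F) a b = 0 := by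
      intro a b hab
      rw [Matrix.sub_apply, Matrix.one_apply]
      have : u.1.1 a b = if a = b then 1 else 0 := hu a b hab
      rw [this, sub_self]
    have hv' : ∀ a b : Fin (N + 1), ¬ blk N m j b a → (v.1.1 - 1 : Matrix (Fin (N + 1)) (Fin (N + 1)) F) a b = 0 := by
      intro a b hab
      rw [Matrix.sub_apply, Matrix.one_apply]
      have : v.1.1 a b = if a = b then 1 else 0 := hv a b hab
      rw [this, sub_self]
    refine comm_mat (u := u.1) (v := v.1) ?_ ?_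
    · ext a b
      rw [Matrix.mul_apply]
      apply Finset.sum_eq_zero
      intro k _
      by_cases h1 : blk N m i a k
      · by_cases h2 : blk N m j b k
        · exfalso
          unfold blk at h1 h2; omega
        · rw [hv' k b h2, mul_zero]
      · rw [hu' a k h1, zero_mul]
    · ext a b
      rw [Matrix.mul_apply]
      apply Finset.sum_eq_zero
      intro k _
      by_cases h1 : blk N m j k a
      · by_cases h2 : blk N m i k b
        · exfalso
          unfold blk at h1 h2; omega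
        · rw [hu' k b h2, mul_zero]
      · rw [hv' a k h1, zero_mul]

end Inp

end Cfsg.Agent.H8.GrData
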