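import Mathlib
import Cfsg.Agent.H8.GrData
import Cfsg.Agent.H8.AutPSL3

set_option autoImplicit false
set_option linter.all false

/-! The permutation of the simple roots induced by an automorphism. -/

namespace Cfsg.Agent.H8.GrPi

open scoped commutatorElement
open Matrix Pointwise Cfsg.Agent.H8.AutBN Cfsg.Agent.H8.SLPat Cfsg.Agent.H8.SLTri Cfsg.Agent.H8.SLData
  Cfsg.Agent.H8.Theta Cfsg.Agent.H8.GrComb Cfsg.Agent.H8.GrData

section comb

variable {N m : ℕ} (hN : N = 2 * m ∨ N + 1 = 2 * m)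

theorem sg_pow_apply (i j : Fin m) (z : Fin (N + 1)) :
    ((((sg hN i * sg hN j) ^ 2) z : Fin (N + 1)) : ℕ) = sv N m i (sv N m j (sv N m i (sv N m j z))) ∧
    ((((sg hN i * sg hN j) ^ 3) z : Fin (N + 1)) : ℕ) = sv N m i (sv N m j (sv N m i (sv N m j (sv N m i (sv N m j z))))) := by
  constructor
  · rw [pow_succ, pow_one]; rfl
  · rw [pow_succ, pow_succ, pow_one]; rfl

include hN in
theorem sq_of_far {i j : Fin m} (h : (i : ℕ) + 1 < j ∨ (j : ℕ) + 1 < i) : (sg hN i * sg hN j) ^ 2 = 1 := by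
  ext z
  rw [(sg_pow_apply hN i j z).1, Equiv.Perm.one_apply]
  have hz := Nat.le_of_lt_succ z.2
  have hi := i.2
  have hj := j.2
  generalize (z : ℕ) = w at *
  generalize (i : ℕ) = a at *
  generalize (j : ℕ) = b at *
  have fx : ∀ a w, a < m → w ≤ N → ¬ (w = a ∨ w = a + 1 ∨ w = N - a ∨ w + 1 = N - a) → sv N m a w = w := by
    intro a w h1 h2 h3; unfold sv; split_ifs <;> omega
  have mv : ∀ a w, a < m → w ≤ N → (w = a ∨ w = a + 1 ∨ w = N - a ∨ w + 1 = N - a) →
      (sv N m a w = a ∨ sv N m a w = a + 1 ∨ sv N m a w = N - a ∨ sv N m a w + 1 = N - a) := by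
    intro a w h1 h2 h3; unfold sv; split_ifs <;> omega
  by_cases hb : (w = b ∨ w = b + 1 ∨ w = N - b ∨ w + 1 = N - b)
  · have h1 := mv b w hj hz hb
    have h2 := sv_le hN hj hz
    rw [fx a (sv N m b w) hi h2 (by omega), sv_sv hN hj hz, fx a w hi hz (by omega)]
  · rw [fx b w hj hz hb]
    by_cases ha : (w = a ∨ w = a + 1 ∨ w = N - a ∨ w + 1 = N - a)
    · have h1 := mv a w hi hz ha
      have h2 := sv_le hN hi hz
      rw [fx b (sv N m a w) hj h2 (by omega), sv_sv hN hi hz]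
    · rw [fx a w hi hz ha, fx b w hj hz hb, fx a w hi hz ha]

include hN in
theorem sq_ne_of_adj {i j : Fin m} (h : (i : ℕ) + 1 = j) : (sg hN i * sg hN j) ^ 2 ≠ 1 := by
  intro h1
  have hi := i.2
  have hj := j.2
  have h2 := congrArg (fun f : Equiv.Perm (Fin (N + 1)) => ((f ⟨i, by omega⟩ : Fin (N + 1)) : ℕ)) h1
  simp only [Equiv.Perm.one_apply] at h2
  rw [(sg_pow_apply hN i j _).1] at h2
  dsimp only at h2
  generalize (i : ℕ) = a at *
  generalize (j : ℕ) = b at *
  subst h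
  have e1 : sv N m (a + 1) a = a := by unfold sv; split_ifs <;> omega
  have e2 : sv N m a a = a + 1 := by unfold sv; split_ifs <;> omega
  rw [e1, e2] at h2
  by_cases h3 : a + 1 + 1 < m
  · have e3 : sv N m (a + 1) (a + 1) = a + 2 := by unfold sv; split_ifs <;> omega
    have e4 : sv N m a (a + 2) = a + 2 := by unfold sv; split_ifs <;> omega
    rw [e3, e4] at h2
    omega
  · have e3 : sv N m (a + 1) (a + 1) = N - a - 1 := by unfold sv; split_ifs <;> omega
    have e4 : sv N m a (N - a - 1) = N - a := by unfold sv; split_ifs <;> omega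
    rw [e3, e4] at h2
    omega

include hN in
theorem cube_eq (hm : 3 ≤ m) : (sg hN ⟨0, by omega⟩ * sg hN ⟨1, by omega⟩) ^ 3 = 1 := by
  ext z
  rw [(sg_pow_apply hN _ _ z).2, Equiv.Perm.one_apply]
  have hz := Nat.le_of_lt_succ z.2
  generalize (z : ℕ) = w at *
  dsimp only
  have a0 : sv N m 0 0 = 1 := by unfold sv; split_ifs <;> first | omega | contradiction
  have a1 : sv N m 0 1 = 0 := by unfold sv; split_ifs <;> first | omega | contradiction
  have a2 : sv N m 0 2 = 2 := by unfold sv; split_ifs <;> first | omega | contradiction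
  have a3 : sv N m 0 (N - 2) = N - 2 := by unfold sv; split_ifs <;> first | omega | contradiction
  have a4 : sv N m 0 (N - 1) = N := by unfold sv; split_ifs <;> first | omega | contradiction
  have a5 : sv N m 0 N = N - 1 := by unfold sv; split_ifs <;> first | omega | contradiction
  have b0 : sv N m 1 0 = 0 := by unfold sv; split_ifs <;> first | omega | contradiction
  have b1 : sv N m 1 1 = 2 := by unfold sv; split_ifs <;> first | omega | contradiction
  have b2 : sv N m 1 2 = 1 := by unfold sv; split_ifs <;> first | omega | contradiction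
  have b3 : sv N m 1 (N - 2) = N - 1 := by unfold sv; split_ifs <;> first | omega | contradiction
  have b4 : sv N m 1 (N - 1) = N - 2 := by unfold sv; split_ifs <;> first | omega | contradiction
  have b5 : sv N m 1 N = N := by unfold sv; split_ifs <;> first | omega | contradiction
  rcases (by omega : w = 0 ∨ w = 1 ∨ w = 2 ∨ w = N - 2 ∨ w = N - 1 ∨ w = N ∨ (3 ≤ w ∧ w + 3 ≤ N)) with
    h | h | h | h | h | h | h
  · subst h; rw [b0, a0, b1, a2, b2, a1]
  · subst h; rw [b1, a2, b2, a1, b0, a0]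
  · subst h; rw [b2, a1, b0, a0, b1, a2]
  · rw [h, b3, a4, b5, a5, b4, a3]
  · rw [h, b4, a3, b3, a4, b5, a5]
  · rw [h, b5, a5, b4, a3, b3, a4]
  · have e1 : sv N m 1 w = w := by unfold sv; split_ifs <;> first | omega | contradiction
    have e2 : sv N m 0 w = w := by unfold sv; split_ifs <;> first | omega | contradiction
    rw [e1, e2, e1, e2, e1, e2]

include hN in
theorem cube_ne (hm : 2 ≤ m) : (sg hN ⟨m - 2, by omega⟩ * sg hN ⟨m - 1, by omega⟩) ^ 3 ≠ 1 := by
  intro h1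
  have h2 := congrArg (fun f : Equiv.Perm (Fin (N + 1)) => ((f ⟨m - 1, by omega⟩ : Fin (N + 1)) : ℕ)) h1
  simp only [Equiv.Perm.one_apply] at h2
  rw [(sg_pow_apply hN _ _ _).2] at h2
  dsimp only at h2
  have e1 : sv N m (m - 1) (m - 1) = N - (m - 1) := by unfold sv; split_ifs <;> omega
  have e2 : sv N m (m - 2) (N - (m - 1)) = N - (m - 2) := by unfold sv; split_ifs <;> omega
  have e3 : sv N m (m - 1) (N - (m - 2)) = N - (m - 2) := by unfold sv; split_ifs <;> omega
  have e4 : sv N m (m - 2) (N - (m - 2)) = N - (m - 1) := by unfold sv; split_ifs <;> omega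
  have e5 : sv N m (m - 1) (N - (m - 1)) = m - 1 := by unfold sv; split_ifs <;> omega
  have e6 : sv N m (m - 2) (m - 1) = m - 2 := by unfold sv; split_ifs <;> omega
  rw [e1, e2, e3, e4, e5, e6] at h2
  omega

include hN in
theorem pi_or (π : Equiv.Perm (Fin m))
    (h : ∀ (i j : Fin m) (k : ℕ), (sg hN i * sg hN j) ^ k = 1 ↔ (sg hN (π i) * sg hN (π j)) ^ k = 1) :
    π = 1 ∨ π = Fin.revPerm := by
  apply AutPSL.perm_path
  intro i hi
  by_contra hcon
  push Not at hcon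
  have h1 : (π ⟨i, by omega⟩ : ℕ) ≠ π ⟨i + 1, hi⟩ := by
    intro e
    have := congrArg Fin.val (π.injective (Fin.ext e))
    simp at this
  have h2 := sq_of_far hN (i := π ⟨i, by omega⟩) (j := π ⟨i + 1, hi⟩) (by omega)
  exact sq_ne_of_adj hN (i := ⟨i, by omega⟩) (j := ⟨i + 1, hi⟩) rfl ((h _ _ 2).2 h2)

include hN in
theorem pi_eq_one (hm : 3 ≤ m) (π : Equiv.Perm (Fin m))
    (h : ∀ (i j : Fin m) (k : ℕ), (sg hN i * sg hN j) ^ k = 1 ↔ (sg hN (π i) * sg hN (π j)) ^ k = 1) : π = 1 := by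
  rcases pi_or hN π h with h1 | h1
  · exact h1
  · exfalso
    have h2 := (h ⟨0, by omega⟩ ⟨1, by omega⟩ 3).1 (cube_eq hN hm)
    rw [h1] at h2
    have e0 : Fin.revPerm (⟨0, by omega⟩ : Fin m) = ⟨m - 1, by omega⟩ := by
      ext; show (Fin.rev (⟨0, by omega⟩ : Fin m) : ℕ) = _
      rw [Fin.val_rev]
    have e1 : Fin.revPerm (⟨1, by omega⟩ : Fin m) = ⟨m - 2, by omega⟩ := by
      ext; show (Fin.rev (⟨1, by omega⟩ : Fin m) : ℕ) = _
      rw [Fin.val_rev]
    rw [e0, e1] at h2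
    apply cube_ne hN (by omega : 2 ≤ m)
    have h3 : sg hN ⟨m - 2, by omega⟩ * sg hN ⟨m - 1, by omega⟩ = (sg hN ⟨m - 1, by omega⟩ * sg hN ⟨m - 2, by omega⟩)⁻¹ := by
      rw [_root_.mul_inv_rev, sg_inv, sg_inv]
    rw [h3, inv_pow, h2, inv_one]

end comb

variable {N m : ℕ} {F : Type*} [Field F] [Finite F] (P : Inp N m F) (p : ℕ) [Fact p.Prime] [CharP F p]

/-- the quotient -/
abbrev QG : Type _ := P.K ⧸ Subgroup.center P.K

/-- projection -/
abbrev Q : P.K →* QG P := QuotientGroup.mk' (Subgroup.center P.K)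

/-- the data of the quotient -/
noncomputable abbrev qd : Data p (QG P) (Fin m) := (P.dat p).quot (P.dat p).cenP_center

theorem tor_iff {g : P.K} : (P.dat p).Tor g ↔ Mono g.1 1 :=
  ⟨fun h => P.tor_mono h.1 h.2, fun h => ⟨P.c_pu_one h _, P.c_pu_one h _⟩⟩

theorem tor_pow_iff (i j : Fin m) (k : ℕ) : (P.dat p).Tor (((P.dat p).s i * (P.dat p).s j) ^ k) ↔ (sg P.hN i * sg P.hN j) ^ k = 1 := by
  rw [tor_iff]
  have h1 : Mono (((P.s i * P.s j) ^ k : P.K)).1 ((sg P.hN i * sg P.hN j) ^ k) := by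
    induction k with
    | zero =>
      rw [pow_zero, pow_zero]
      intro i j hij
      show (1 : SpecialLinearGroup (Fin (N + 1)) F) i j = 0
      rw [slone_apply, if_neg (by simpa using hij)]
    | succ k ih =>
      rw [pow_succ, pow_succ]
      exact Mono.mul ih (Mono.mul (P.smono i) (P.smono j))
  constructor
  · intro h
    exact mono_inj h1 h
  · intro h
    rw [h] at h1
    exact h1

theorem norm (α : MulAut (QG P)) : ∃ (g : P.K) (π : Equiv.Perm (Fin m)),
    (∀ i, (c (Q P g) * α) • (qd P p).X i = (qd P p).X (π i)) ∧ (∀ i, (c (Q P g) * α) • (qd P p).Y i = (qd P p).Y (π i)) ∧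
    (∀ (i j : Fin m) (k : ℕ), (sg P.hN i * sg P.hN j) ^ k = 1 ↔ (sg P.hN (π i) * sg P.hN (π j)) ^ k = 1) := by
  obtain ⟨g, π, hU, hV, hX, hY⟩ := (qd P p).main (Data.quot_hXY _ _ (P.hXY p)) α
  obtain ⟨g, rfl⟩ := QuotientGroup.mk'_surjective _ g
  refine ⟨g, π, hX, hY, ?_⟩
  intro i j k
  generalize c (Q P g) * α = β at *
  constructor
  · intro h
    rw [← tor_pow_iff P p] at h ⊢
    exact (P.ext p).coxeter (P.dat p).cenP_center β π hU hV hX hY i j k h
  · intro h
    rw [← tor_pow_iff P p] at h ⊢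
    have := (P.ext p).coxeter (P.dat p).cenP_center β⁻¹ π⁻¹ (by rw [inv_smul_eq_iff, hU]) (by rw [inv_smul_eq_iff, hV])
      (by intro i; rw [inv_smul_eq_iff, hX]; simp) (by intro i; rw [inv_smul_eq_iff, hY]; simp) (π i) (π j) k h
    simpa using this

theorem norm3 (hm : 3 ≤ m) (α : MulAut (QG P)) : ∃ (g : P.K),
    (∀ i, (c (Q P g) * α) • (qd P p).X i = (qd P p).X i) ∧ (∀ i, (c (Q P g) * α) • (qd P p).Y i = (qd P p).Y i) := by
  obtain ⟨g, π, hX, hY, h⟩ := norm P p α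
  have := pi_eq_one P.hN hm π h
  subst this
  exact ⟨g, hX, hY⟩

theorem mem_qX (i : Fin m) (u : QG P) : u ∈ (qd P p).X i ↔ ∃ x ∈ pu P.K (strb P.hN i), u = Q P x := by
  rw [Data.quot_X, P.X_eq]
  constructor
  · rintro ⟨v, hv, rfl⟩
    exact ⟨v, hv, rfl⟩
  · rintro ⟨v, hv, rfl⟩
    exact ⟨v, hv, rfl⟩

theorem mem_qY (i : Fin m) (u : QG P) : u ∈ (qd P p).Y i ↔ ∃ x ∈ pu P.K (str_swap (strb P.hN i)), u = Q P x := by
  rw [Data.quot_Y, P.Y_eq]
  constructor
  · rintro ⟨v, hv, rfl⟩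
    exact ⟨v, hv, rfl⟩
  · rintro ⟨v, hv, rfl⟩
    exact ⟨v, hv, rfl⟩

include p in
theorem Q_inj {u v : P.K} (hu : ∃ k, u ^ p ^ k = 1) (hv : ∃ k, v ^ p ^ k = 1) (h : Q P u = Q P v) : u = v := by
  have h1 : u⁻¹ * v ∈ Subgroup.center P.K := QuotientGroup.eq.1 h
  have := ((P.dat p).cenP_center).eq_one (a := u) (b := v) h1 (by group) hu hv
  rw [inv_mul_eq_one] at this
  exact this

include p in
theorem pE_X {i : Fin m} {u : P.K} (h : u ∈ pu P.K (strb P.hN i)) : ∃ k, u ^ p ^ k = 1 := by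
  apply pE (P.dat p).isP
  exact pu_le (fun a b h => h.1) h

include p in
theorem pE_Y {i : Fin m} {u : P.K} (h : u ∈ pu P.K (str_swap (strb P.hN i))) : ∃ k, u ^ p ^ k = 1 := by
  apply pE (P.dat p).isPV
  exact pu_le (hS := str_gt) (fun a b h => h.1) h

include p in
theorem rigid (γ : MulAut (QG P)) (hX : ∀ i, ∀ x ∈ pu P.K (strb P.hN i), γ (Q P x) = Q P x)
    (hY : ∀ i, ∀ y ∈ pu P.K (str_swap (strb P.hN i)), γ (Q P y) = Q P y) : γ = 1 := by
  apply (P.ext p).fixQ γ
  · intro i x hx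
    rw [P.X_eq] at hx
    exact hX i x hx
  · intro i x hx
    rw [P.Y_eq] at hx
    exact hY i x hx

end Cfsg.Agent.H8.GrPi
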