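import Mathlib
import Cfsg.Agent.H8.AutPSL2

set_option autoImplicit false
set_option linter.all false

/-! Automorphisms in rank one (abstract form). -/

namespace Cfsg.Agent.H8.RankOne

theorem rank_one_abs {K0 : Type*} [Field K0] [Finite K0] {H : Type*} [Group H] (x y : K0 → H)
    (xadd : ∀ s t, x (s + t) = x s * x t) (yadd : ∀ s t, y (s + t) = y s * y t)
    (xinj : Function.Injective x) (yinj : Function.Injective y)
    (rel : ∀ t s, t ≠ 0 → x t * y (-t⁻¹) * x t * x s = y (-(t⁻¹ ^ 2 * s)) * (x t * y (-t⁻¹) * x t))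
    (key : ∀ a b c r r', r ≠ 0 → x a * y b * x c * x r = y r' * (x a * y b * x c) → 1 + a * b = 0)
    (β : MulAut H) (f g : K0 → K0) (hf : ∀ t, β (x t) = x (f t)) (hg : ∀ t, β (y t) = y (g t)) (h1 : f 1 = 1) :
    (∀ t, g t = f t) ∧ ∃ σ : K0 ≃+* K0, ∀ t, f t = σ t := by
  have fadd : ∀ s t, f (s + t) = f s + f t := by
    intro s t
    apply xinj
    rw [← hf, xadd, map_mul, hf, hf, ← xadd]
  have gadd : ∀ s t, g (s + t) = g s + g t := by
    intro s t
    apply yinj
    rw [← hg, yadd, map_mul, hg, hg, ← yadd]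
  have f0 : f 0 = 0 := by have := fadd 0 0; simpa using this
  have fneg : ∀ t, f (-t) = - f t := by
    intro t; have := fadd t (-t); rw [add_neg_cancel, f0] at this; exact (neg_eq_of_add_eq_zero_right this.symm).symm
  have finj : ∀ s t, f s = f t → s = t := by
    intro s t h
    have : β (x s) = β (x t) := by rw [hf, hf, h]
    exact xinj (β.injective this)
  have fne : ∀ t, t ≠ 0 → f t ≠ 0 := by
    intro t ht h; exact ht (finj _ _ (by rw [h, f0]))
  have rel2 : ∀ (t s : K0), t ≠ 0 → x (f t) * y (g (-t⁻¹)) * x (f t) * x (f s) =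
      y (g (-(t⁻¹ ^ 2 * s))) * (x (f t) * y (g (-t⁻¹)) * x (f t)) := by
    intro t s ht
    have e := congrArg β (rel t s ht)
    simpa only [map_mul, hf, hg] using e
  have gf : ∀ t, t ≠ 0 → g (-t⁻¹) = - (f t)⁻¹ := by
    intro t ht
    have h2 := key _ _ _ _ _ (one_ne_zero (α := K0)) (by have := rel2 t 1 ht; rwa [h1] at this)
    have h3 := fne t ht
    apply mul_left_cancel₀ h3
    rw [mul_neg, mul_inv_cancel₀ h3]
    linear_combination h2
  have gf2 : ∀ t s, t ≠ 0 → g (-(t⁻¹ ^ 2 * s)) = - ((f t)⁻¹ ^ 2 * f s) := by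
    intro t s ht
    have e := rel2 t s ht
    rw [gf t ht, rel (f t) (f s) (fne t ht)] at e
    exact (yinj (mul_right_cancel e)).symm
  have geq : ∀ t, g t = f t := by
    intro t
    have := gf2 1 (-t) one_ne_zero
    rw [h1, fneg] at this
    simpa using this
  have finv : ∀ t, t ≠ 0 → f t⁻¹ = (f t)⁻¹ := by
    intro t ht
    have := gf t ht
    rw [geq, fneg] at this
    exact neg_injective this
  have fsq : ∀ t s, f (t ^ 2 * s) = f t ^ 2 * f s := by
    intro t s
    by_cases ht : t = 0
    · subst ht; rw [f0]; simp [f0]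
    · have := gf2 t⁻¹ s (inv_ne_zero ht)
      rw [geq, fneg, inv_inv, finv t ht, inv_inv] at this
      exact neg_injective this
  have fmul : ∀ t s, f (t * s) = f t * f s := AutPSL.mult_of_sq f fadd h1 fsq
  let φ : K0 →+* K0 :=
    { toFun := f
      map_one' := h1
      map_mul' := fmul
      map_zero' := f0
      map_add' := fadd }
  exact ⟨geq, RingEquiv.ofBijective φ (Finite.injective_iff_bijective.1 φ.injective), fun t => rfl⟩

end Cfsg.Agent.H8.RankOne
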