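import Mathlib
import Cfsg.Agent.H8.GrPi
import Cfsg.Agent.H8.RankOne

set_option autoImplicit false
set_option linter.all false

/-! Root elements of the form `x_{ab}(t) x_{b'a'}(-t^τ)`. -/

namespace Cfsg.Agent.H8.GrShort

open scoped commutatorElement
open Matrix Pointwise Cfsg.Agent.H8.AutBN Cfsg.Agent.H8.SLPat Cfsg.Agent.H8.SLTri Cfsg.Agent.H8.SLData
  Cfsg.Agent.H8.Theta Cfsg.Agent.H8.GrComb Cfsg.Agent.H8.GrData

section comm

variable {ι : Type*} [Fintype ι] [DecidableEq ι] {F : Type*} [Field F]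

theorem comm_tt {i j k l : ι} (hij : i ≠ j) (hkl : k ≠ l) (h1 : j ≠ k) (h2 : l ≠ i) (s t : F) :
    Commute (SpecialLinearGroup.transvection hij s : SpecialLinearGroup ι F) (SpecialLinearGroup.transvection hkl t) := by
  apply Subtype.ext
  show (1 + Matrix.single i j s) * (1 + Matrix.single k l t) = (1 + Matrix.single k l t) * (1 + Matrix.single i j s)
  rw [add_mul, add_mul, mul_add, mul_add, mul_add, mul_add, Matrix.single_mul_single_of_ne _ _ _ _ h1,
    Matrix.single_mul_single_of_ne _ _ _ _ h2]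
  simp only [mul_one, one_mul, add_zero]
  abel

end comm

variable {N : ℕ} {F : Type*} [Field F]

theorem rev_ne {a b : Fin (N + 1)} (h : a ≠ b) : Fin.rev b ≠ Fin.rev a := fun e => h (Fin.rev_injective e).symm

/-- the root element -/
def RT (τ : F ≃+* F) {a b : Fin (N + 1)} (h : a ≠ b) (t : F) : SpecialLinearGroup (Fin (N + 1)) F :=
  SpecialLinearGroup.transvection h t * SpecialLinearGroup.transvection (rev_ne h) (-τ t)

/-- general position -/
structure GP (a b : Fin (N + 1)) : Prop where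
  ab : a ≠ b
  ab' : a ≠ Fin.rev b
  aa : a ≠ Fin.rev a
  bb : b ≠ Fin.rev b

theorem GP.ba' {a b : Fin (N + 1)} (h : GP a b) : b ≠ Fin.rev a := by
  intro e; apply h.ab'; rw [e, Fin.rev_rev]

theorem GP.symm {a b : Fin (N + 1)} (h : GP a b) : GP b a := ⟨h.ab.symm, h.ba', h.bb, h.aa⟩

variable {a b : Fin (N + 1)} (hg : GP a b) (τ : F ≃+* F)

theorem RT_mul_apply (t : F) (w : SpecialLinearGroup (Fin (N + 1)) F) (i j : Fin (N + 1)) :
    (RT τ hg.ab t * w) i j = w i j + (if i = a then t * w b j else 0) + (if i = Fin.rev b then -τ t * w (Fin.rev a) j else 0) := by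
  rw [RT, mul_assoc, AutPSL.t_mul_apply, AutPSL.t_mul_apply, AutPSL.t_mul_apply, if_neg hg.bb, add_zero]
  ring

theorem mul_RT_apply (t : F) (w : SpecialLinearGroup (Fin (N + 1)) F) (i j : Fin (N + 1)) :
    (w * RT τ hg.ab t) i j = w i j + (if j = b then w i a * t else 0) + (if j = Fin.rev a then w i (Fin.rev b) * -τ t else 0) := by
  rw [RT, ← mul_assoc, AutPSL.mul_t_apply, AutPSL.mul_t_apply, AutPSL.mul_t_apply, if_neg hg.bb.symm, add_zero]

theorem RT_apply (t : F) (i j : Fin (N + 1)) :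
    (RT τ hg.ab t) i j = (if i = j then 1 else 0) + (if i = a ∧ j = b then t else 0) +
      (if i = Fin.rev b ∧ j = Fin.rev a then -τ t else 0) := by
  have := RT_mul_apply hg τ t 1 i j
  rw [mul_one] at this
  rw [this, slone_apply, slone_apply, slone_apply]
  congr 1
  · congr 1
    by_cases h : i = a
    · by_cases h' : j = b
      · subst h'; simp [h]
      · rw [if_pos h, if_neg (Ne.symm h'), mul_zero, if_neg (fun e => h' e.2)]
    · rw [if_neg h, if_neg (fun e => h e.1)]
  · by_cases h : i = Fin.rev b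
    · by_cases h' : j = Fin.rev a
      · subst h'; simp [h]
      · rw [if_pos h, if_neg (Ne.symm h'), mul_zero, if_neg (fun e => h' e.2)]
    · rw [if_neg h, if_neg (fun e => h e.1)]

include hg in
theorem c12 (s t : F) : Commute (SpecialLinearGroup.transvection hg.ab s : SpecialLinearGroup (Fin (N + 1)) F)
    (SpecialLinearGroup.transvection (rev_ne hg.ab) t) :=
  comm_tt _ _ hg.bb hg.aa.symm s t

include hg in
theorem c12' (s t : F) : Commute (SpecialLinearGroup.transvection hg.ab s : SpecialLinearGroup (Fin (N + 1)) F)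
    (SpecialLinearGroup.transvection (rev_ne hg.ab).symm t) :=
  comm_tt _ _ hg.ba' hg.ab'.symm s t

include hg in
theorem RT_add (s t : F) : RT τ hg.ab (s + t) = RT τ hg.ab s * RT τ hg.ab t := by
  have h := (c12 hg t (-τ s)).eq
  rw [RT, RT, RT, map_add, neg_add, SpecialLinearGroup.transvection_add, SpecialLinearGroup.transvection_add]
  calc _ = SpecialLinearGroup.transvection hg.ab s * (SpecialLinearGroup.transvection hg.ab t * SpecialLinearGroup.transvection (rev_ne hg.ab) (-τ s)) * SpecialLinearGroup.transvection (rev_ne hg.ab) (-τ t) := by group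
    _ = _ := by rw [h]; group

include hg in
theorem RT_inj {s t : F} (h : RT τ hg.ab s = RT τ hg.ab t) : s = t := by
  have h1 : RT τ hg.ab s a b = RT τ hg.ab t a b := by rw [h]
  rw [RT_apply hg, RT_apply hg] at h1
  simpa [hg.ab, hg.ab'] using h1

include hg in
theorem RT_zero : RT τ hg.ab 0 = 1 := by
  rw [RT, map_zero, neg_zero, SpecialLinearGroup.transvection_coeff_zero, SpecialLinearGroup.transvection_coeff_zero, one_mul]

include hg in
theorem RT_neg (t : F) : RT τ hg.ab (-t) = (RT τ hg.ab t)⁻¹ := by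
  have := RT_add hg τ t (-t)
  rw [add_neg_cancel, RT_zero hg] at this
  exact (inv_eq_of_mul_eq_one_right this.symm).symm

/-- the reflection element -/
def NR (t : F) : SpecialLinearGroup (Fin (N + 1)) F := RT τ hg.ab t * RT τ hg.symm.ab (-t⁻¹) * RT τ hg.ab t

theorem nn_comm (s t : F) : Commute (nn hg.ab s : SpecialLinearGroup (Fin (N + 1)) F) (nn (rev_ne hg.ab) t) := by
  have h1 := fun s t => c12 hg (F := F) s t
  have h2 := fun s t => c12' hg (F := F) s t
  have h3 := fun s t => c12 hg.symm (F := F) s t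
  have h4 := fun s t => c12' hg.symm (F := F) s t
  unfold nn
  apply Commute.mul_left
  · apply Commute.mul_left
    · exact ((h1 _ _).mul_right (h2 _ _)).mul_right (h1 _ _)
    · exact ((h4 _ _).mul_right (h3 _ _)).mul_right (h4 _ _)
  · exact ((h1 _ _).mul_right (h2 _ _)).mul_right (h1 _ _)

theorem NR_eq {t : F} (ht : t ≠ 0) : NR hg τ t = nn hg.ab t * nn (rev_ne hg.ab) (-τ t) := by
  have h1 := fun s t => (c12 hg (F := F) s t).eq
  have h2 := fun s t => (c12' hg (F := F) s t).eq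
  have h3 := fun s t => (c12 hg.symm (F := F) s t).eq
  have h4 := fun s t => (c12' hg.symm (F := F) s t).eq
  have e : (-(-τ t)⁻¹ : F) = -τ (-t⁻¹) := by rw [map_neg, map_inv₀, inv_neg]
  unfold NR RT nn
  rw [e]
  set A := (SpecialLinearGroup.transvection hg.ab t : SpecialLinearGroup (Fin (N + 1)) F) with hA
  set A' := (SpecialLinearGroup.transvection (rev_ne hg.ab) (-τ t) : SpecialLinearGroup (Fin (N + 1)) F) with hA'
  have e1 : (SpecialLinearGroup.transvection hg.symm.ab (-t⁻¹) : SpecialLinearGroup (Fin (N + 1)) F) = SpecialLinearGroup.transvection hg.ab.symm (-t⁻¹) := rfl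
  set B := (SpecialLinearGroup.transvection hg.symm.ab (-t⁻¹) : SpecialLinearGroup (Fin (N + 1)) F) with hB
  set B' := (SpecialLinearGroup.transvection (rev_ne hg.symm.ab) (-τ (-t⁻¹)) : SpecialLinearGroup (Fin (N + 1)) F) with hB'
  have k1 : A * A' = A' * A := h1 _ _
  have k2 : A * B' = B' * A := h2 _ _
  have k3 : B * B' = B' * B := h3 _ _
  have k4 : B * A' = A' * B := h4 _ _
  calc A * A' * (B * B') * (A * A') = A * (A' * B) * B' * (A * A') := by group
    _ = A * B * (A' * B') * A * A' := by rw [← k4]; group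
    _ = A * B * A' * (B' * A) * A' := by group
    _ = A * B * A' * A * B' * A' := by rw [← k2]; group
    _ = A * B * (A' * A) * B' * A' := by group
    _ = A * B * A * (A' * B' * A') := by rw [← k1]; group

theorem NR_mul {t : F} (ht : t ≠ 0) (s : F) : NR hg τ t * RT τ hg.ab s = RT τ hg.symm.ab (-(t⁻¹ ^ 2 * s)) * NR hg τ t := by
  have ht' : -τ t ≠ 0 := by
    rw [Ne, neg_eq_zero]
    exact fun h => ht (by simpa using h)
  rw [NR_eq hg τ ht, RT, RT]
  have e1 := nn_mul hg.ab ht s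
  have e2 := nn_mul (rev_ne hg.ab) ht' (-τ s)
  have h1 := fun s t => (c12 hg (F := F) s t)
  have h2 := fun s t => (c12' hg (F := F) s t)
  have h3 := fun s t => (c12 hg.symm (F := F) s t)
  have h4 := fun s t => (c12' hg.symm (F := F) s t)
  have k1 : Commute (nn (rev_ne hg.ab) (-τ t)) (SpecialLinearGroup.transvection hg.ab s : SpecialLinearGroup (Fin (N + 1)) F) := by
    unfold nn
    exact ((((h1 _ _).mul_right (h2 _ _)).mul_right (h1 _ _))).symm
  have k2 : Commute (nn hg.ab t) (SpecialLinearGroup.transvection (rev_ne hg.ab).symm (-((-τ t)⁻¹ ^ 2 * -τ s)) : SpecialLinearGroup (Fin (N + 1)) F) := by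
    unfold nn
    exact (((h2 _ _)).mul_left (h3 _ _)).mul_left (h2 _ _)
  have e3 : -((-τ t)⁻¹ ^ 2 * -τ s) = -τ (-(t⁻¹ ^ 2 * s)) := by
    rw [map_neg, map_mul, map_pow, map_inv₀, inv_neg]; ring
  rw [e3] at e2 k2
  calc nn hg.ab t * nn (rev_ne hg.ab) (-τ t) * (SpecialLinearGroup.transvection hg.ab s * SpecialLinearGroup.transvection (rev_ne hg.ab) (-τ s))
      = nn hg.ab t * (nn (rev_ne hg.ab) (-τ t) * SpecialLinearGroup.transvection hg.ab s) * SpecialLinearGroup.transvection (rev_ne hg.ab) (-τ s) := by group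
    _ = (nn hg.ab t * SpecialLinearGroup.transvection hg.ab s) * (nn (rev_ne hg.ab) (-τ t) * SpecialLinearGroup.transvection (rev_ne hg.ab) (-τ s)) := by rw [k1.eq]; group
    _ = SpecialLinearGroup.transvection hg.ab.symm (-(t⁻¹ ^ 2 * s)) * (nn hg.ab t * SpecialLinearGroup.transvection (rev_ne hg.ab).symm (-τ (-(t⁻¹ ^ 2 * s)))) * nn (rev_ne hg.ab) (-τ t) := by rw [e1, e2]; group
    _ = _ := by rw [k2.eq]; group

theorem RT_key {s t u r r' : F} (hr : r ≠ 0)
    (h : RT τ hg.ab s * RT τ hg.symm.ab t * RT τ hg.ab u * RT τ hg.ab r = RT τ hg.symm.ab r' * (RT τ hg.ab s * RT τ hg.symm.ab t * RT τ hg.ab u)) :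
    1 + s * t = 0 := by
  have e1 : (RT τ hg.ab s * RT τ hg.symm.ab t * RT τ hg.ab u * RT τ hg.ab r) a b =
      (RT τ hg.symm.ab r' * (RT τ hg.ab s * RT τ hg.symm.ab t * RT τ hg.ab u)) a b := by rw [h]
  rw [mul_RT_apply hg, RT_mul_apply hg.symm, if_pos rfl, if_neg hg.ba', add_zero, if_neg hg.ab, if_neg hg.aa, add_zero, add_zero] at e1
  have e2 : (RT τ hg.ab s * RT τ hg.symm.ab t * RT τ hg.ab u) a a * r = 0 := by linear_combination e1
  have e3 := (mul_eq_zero.1 e2).resolve_right hr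
  rw [mul_assoc, RT_mul_apply hg, if_pos rfl, if_neg hg.ab', add_zero, RT_mul_apply hg.symm, RT_mul_apply hg.symm,
    if_neg hg.ab, if_neg hg.aa, if_pos rfl, if_neg hg.ba', RT_apply hg, RT_apply hg] at e3
  simp [hg.ab, hg.ab.symm, hg.ab', hg.ba', hg.aa, hg.bb] at e3
  linear_combination e3

variable (ε : Fin (N + 1) → Fˣ)

theorem Th_t {a b : Fin (N + 1)} (h : a ≠ b) (t : F) : Th τ ε (SpecialLinearGroup.transvection h t) =
    SpecialLinearGroup.transvection (rev_ne h) (-(ε (Fin.rev b) * τ t * ((ε (Fin.rev a))⁻¹ : Fˣ))) := by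
  ext i j
  rw [Th_apply, SpecialLinearGroup.transvection_inv, transvection_apply, transvection_apply]
  by_cases h1 : i = j
  · subst h1
    have h2 : ¬ (Fin.rev i = a ∧ Fin.rev i = b) := fun e => h (e.1.symm.trans e.2)
    have h3 : ¬ (i = Fin.rev b ∧ i = Fin.rev a) := fun e => rev_ne h (e.1.symm.trans e.2)
    rw [if_pos rfl, if_neg h2, if_pos rfl, if_neg h3, add_zero, map_one, mul_one, Units.mul_inv]
  · have h1' : Fin.rev j ≠ Fin.rev i := fun e => h1 (Fin.rev_injective e).symm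
    rw [if_neg h1', if_neg h1, zero_add, zero_add]
    by_cases h2 : Fin.rev j = a ∧ Fin.rev i = b
    · have h3 : i = Fin.rev b ∧ j = Fin.rev a := by
        rw [← h2.1, ← h2.2, Fin.rev_rev, Fin.rev_rev]; exact ⟨rfl, rfl⟩
      rw [if_pos h2, if_pos h3, h3.1, h3.2, map_neg]; ring
    · have h3 : ¬ (i = Fin.rev b ∧ j = Fin.rev a) := by
        rintro ⟨rfl, rfl⟩; apply h2; simp
      rw [if_neg h2, if_neg h3]; simp

theorem RT_mem (hτ : ∀ t, τ (τ t) = t) (he : ε a = ε b) (he' : ε (Fin.rev a) = ε (Fin.rev b)) (t : F) :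
    RT τ hg.ab t ∈ Gr τ ε := by
  rw [mem_Gr, RT, map_mul, Th_t, Th_t]
  have e1 : -((ε (Fin.rev b) : F) * τ t * ((ε (Fin.rev a))⁻¹ : Fˣ)) = -τ t := by
    rw [he', mul_comm (ε (Fin.rev b) : F), mul_assoc, Units.mul_inv, mul_one]
  have e2 : -((ε (Fin.rev (Fin.rev a)) : F) * τ (-τ t) * ((ε (Fin.rev (Fin.rev b)))⁻¹ : Fˣ)) = t := by
    rw [Fin.rev_rev, Fin.rev_rev, he, map_neg, hτ, mul_comm (ε b : F), mul_assoc, Units.mul_inv, mul_one, neg_neg]
  rw [e1, e2]
  have e3 : (SpecialLinearGroup.transvection (rev_ne (rev_ne hg.ab)) t : SpecialLinearGroup (Fin (N + 1)) F) = SpecialLinearGroup.transvection hg.ab t := by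
    ext i j
    rw [transvection_apply, transvection_apply, Fin.rev_rev, Fin.rev_rev]
  rw [e3]
  exact (c12 hg _ _).eq.symm


theorem comm_prod {G : Type*} [Group G] {A A' B B' : G} (h1 : Commute A A') (h2 : Commute A B') (h3 : Commute B A') (h4 : Commute B B') :
    ⁅A * A', B * B'⁆ = ⁅A, B⁆ * ⁅A', B'⁆ := by
  have e1 : Commute A ⁅A', B'⁆ := by
    rw [commutatorElement_def]
    exact ((h1.mul_right h2).mul_right h1.inv_right).mul_right h2.inv_right
  have e2 : Commute B ⁅A', B'⁆ := by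
    rw [commutatorElement_def]
    exact ((h3.mul_right h4).mul_right h3.inv_right).mul_right h4.inv_right
  have e3 : A' * B' = ⁅A', B'⁆ * B' * A' := by rw [commutatorElement_def]; group
  have e4 : A * B = ⁅A, B⁆ * B * A := by rw [commutatorElement_def]; group
  rw [commutatorElement_def (A * A')]
  calc A * A' * (B * B') * (A * A')⁻¹ * (B * B')⁻¹ = A * (A' * B) * B' * (A * A')⁻¹ * (B * B')⁻¹ := by group
    _ = (A * B) * (A' * B') * (A * A')⁻¹ * (B * B')⁻¹ := by rw [← h3.eq]; group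
    _ = ⁅A, B⁆ * B * (A * ⁅A', B'⁆) * B' * A' * (A * A')⁻¹ * (B * B')⁻¹ := by rw [e3, e4]; group
    _ = ⁅A, B⁆ * (B * ⁅A', B'⁆) * A * B' * A' * (A * A')⁻¹ * (B * B')⁻¹ := by rw [e1.eq]; group
    _ = ⁅A, B⁆ * ⁅A', B'⁆ * B * (A * B') * A' * (A * A')⁻¹ * (B * B')⁻¹ := by rw [e2.eq]; group
    _ = _ := by rw [h2.eq]; group

theorem comm_A2 {a b c : Fin (N + 1)} (h1 : GP a b) (h2 : GP b c) (h3 : GP a c) (s t : F) :
    ⁅RT τ h1.ab s, RT τ h2.ab t⁆ = RT τ h3.ab (s * t) := by
  have r1 : Fin.rev b ≠ Fin.rev a := fun e => h1.ab (Fin.rev_injective e).symm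
  have r2 : Fin.rev c ≠ Fin.rev a := fun e => h3.ab (Fin.rev_injective e).symm
  have r3 : Fin.rev c ≠ Fin.rev b := fun e => h2.ab (Fin.rev_injective e).symm
  unfold RT
  have k1 := c12 h1 s (-τ s)
  have k2 := comm_tt (F := F) h1.ab (rev_ne h2.ab) h2.ab' h1.ab'.symm s (-τ t)
  have k3 := comm_tt (F := F) h2.ab (rev_ne h1.ab) h2.ba' h1.ba'.symm t (-τ s)
  have k4 := c12 h2 t (-τ t)
  rw [comm_prod k1 k2 k3 k4]
  rw [AutPSL.comm_t h3.ab h1.ab h2.ab, ← commutatorElement_inv, AutPSL.comm_t (rev_ne h3.ab) (rev_ne h2.ab) (rev_ne h1.ab),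
    SpecialLinearGroup.transvection_inv, map_mul]
  congr 2
  ring

theorem comm_B2 {a b : Fin (N + 1)} (h : GP a b) (t u : F) :
    ⁅RT τ h.ab t, SpecialLinearGroup.transvection h.bb u⁆ =
      SpecialLinearGroup.transvection h.aa (t * (u * τ t)) * SpecialLinearGroup.transvection h.ba' (u * τ t) * SpecialLinearGroup.transvection h.ab' (t * u) := by
  have e0 : ∀ {G : Type _} [Group G] (A A' B : G), ⁅A * A', B⁆ = ⁅A, ⁅A', B⁆⁆ * ⁅A', B⁆ * ⁅A, B⁆ := by
    intro G _ A A' B
    simp only [commutatorElement_def]; group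
  unfold RT
  rw [e0]
  have e1 : ⁅(SpecialLinearGroup.transvection (rev_ne h.ab) (-τ t) : SpecialLinearGroup (Fin (N + 1)) F), SpecialLinearGroup.transvection h.bb u⁆ =
      SpecialLinearGroup.transvection h.ba' (u * τ t) := by
    rw [← commutatorElement_inv, AutPSL.comm_t h.ba' h.bb (rev_ne h.ab), SpecialLinearGroup.transvection_inv]
    congr 1
    ring
  rw [e1, AutPSL.comm_t h.aa h.ab h.ba', AutPSL.comm_t h.ab' h.ab h.bb]

end Cfsg.Agent.H8.GrShort
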