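import Mathlib
import Cfsg.Agent.H8.Theta
import Cfsg.Agent.H8.AutPSL3
import Cfsg.Agent.Lib.FinGal

set_option autoImplicit false
set_option linter.all false

/-! Standard automorphisms of the fixed point groups `Gr`. -/

namespace Cfsg.Agent.H8.GrStd

open scoped commutatorElement
open Matrix Pointwise Cfsg.Agent.H8.AutBN Cfsg.Agent.H8.SLPat Cfsg.Agent.H8.SLTri Cfsg.Agent.H8.SLData
  Cfsg.Agent.H8.Theta Cfsg.Agent.H8.AutPSL

/-- induced automorphism on the quotient by the center -/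
def indG {G : Type*} [Group G] : MulAut G →* MulAut (G ⧸ Subgroup.center G) where
  toFun φ := QuotientGroup.congr _ _ φ (by
    exact Subgroup.characteristic_iff_map_eq.1 inferInstance φ)
  map_one' := by
    ext x
    obtain ⟨x, rfl⟩ := QuotientGroup.mk_surjective x
    rfl
  map_mul' := by
    intro φ ψ
    ext x
    obtain ⟨x, rfl⟩ := QuotientGroup.mk_surjective x
    rfl

theorem indG_apply {G : Type*} [Group G] (φ : MulAut G) (s : G) : indG φ (QuotientGroup.mk' _ s) = QuotientGroup.mk' _ (φ s) := rfl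

theorem ext_mk {G : Type*} [Group G] {Z : Subgroup G} [Z.Normal] {α β : MulAut (G ⧸ Z)}
    (h : ∀ s, α (QuotientGroup.mk' Z s) = β (QuotientGroup.mk' Z s)) : α = β := by
  ext x
  obtain ⟨s, rfl⟩ := QuotientGroup.mk'_surjective Z x
  exact h s

theorem indG_conj {G : Type*} [Group G] (g : G) : indG (MulAut.conj g) = MulAut.conj (QuotientGroup.mk' (Subgroup.center G) g) := by
  apply ext_mk
  intro s
  rfl

/-- restriction of an automorphism -/
def res {S : Type*} [Group S] (K : Subgroup S) (φ : MulAut S) (h : ∀ s, φ s ∈ K ↔ s ∈ K) : MulAut K where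
  toFun s := ⟨φ s.1, (h _).2 s.2⟩
  invFun s := ⟨φ.symm s.1, by rw [← h]; simpa using s.2⟩
  left_inv s := by apply Subtype.ext; simp
  right_inv s := by apply Subtype.ext; simp
  map_mul' s t := by apply Subtype.ext; simp

theorem res_apply {S : Type*} [Group S] (K : Subgroup S) (φ : MulAut S) (h : ∀ s, φ s ∈ K ↔ s ∈ K) (s : K) :
    (res K φ h s).1 = φ s.1 := rfl

theorem res_mul {S : Type*} [Group S] (K : Subgroup S) (φ ψ : MulAut S) (h : ∀ s, φ s ∈ K ↔ s ∈ K) (h' : ∀ s, ψ s ∈ K ↔ s ∈ K)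
    (h'' : ∀ s, (φ * ψ) s ∈ K ↔ s ∈ K) : res K (φ * ψ) h'' = res K φ h * res K ψ h' := by
  ext s; rfl

variable {ι : Type*} [Fintype ι] [DecidableEq ι] {F : Type*} [Field F]

theorem map_mulM (σ : F ≃+* F) (A B : Matrix ι ι F) : (A * B).map σ = A.map σ * B.map σ := Matrix.map_mul (f := (σ : F →+* F))

theorem map_oneM (σ : F ≃+* F) : (1 : Matrix ι ι F).map σ = 1 := Matrix.map_one (σ : F →+* F) (map_zero _) (map_one _)

/-- semilinear similitudes -/
def GJ (τ : F ≃+* F) (J : Matrix ι ι F) : Subgroup (GL ι F) where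
  carrier := {g | ∃ μ : Fˣ, g.1 * J * (g.1.map τ).transpose = (μ : F) • J}
  one_mem' := ⟨1, by rw [Units.val_one, map_oneM, Matrix.transpose_one, one_mul, mul_one, Units.val_one, one_smul]⟩
  mul_mem' := by
    rintro g h ⟨μ, hμ⟩ ⟨ν, hν⟩
    refine ⟨ν * μ, ?_⟩
    rw [Units.val_mul, map_mulM, Matrix.transpose_mul]
    calc g.1 * h.1 * J * ((h.1.map τ).transpose * (g.1.map τ).transpose)
        = g.1 * (h.1 * J * (h.1.map τ).transpose) * (g.1.map τ).transpose := by simp only [mul_assoc]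
      _ = ((ν * μ : Fˣ) : F) • J := by rw [hν, mul_smul_comm, smul_mul_assoc, hμ, smul_smul, Units.val_mul]
  inv_mem' := by
    rintro g ⟨μ, hμ⟩
    refine ⟨μ⁻¹, ?_⟩
    have h1 : g⁻¹.1 * g.1 = 1 := by rw [← Units.val_mul, inv_mul_cancel, Units.val_one]
    have h2 : (g.1.map τ).transpose * (g⁻¹.1.map τ).transpose = 1 := by
      rw [← Matrix.transpose_mul, ← map_mulM, h1, map_oneM, Matrix.transpose_one]
    calc g⁻¹.1 * J * (g⁻¹.1.map τ).transpose = ((μ⁻¹ : Fˣ) : F) • (g⁻¹.1 * ((μ : F) • J) * (g⁻¹.1.map τ).transpose) := by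
          rw [mul_smul_comm, smul_mul_assoc, smul_smul, ← Units.val_mul, inv_mul_cancel, Units.val_one, one_smul]
      _ = ((μ⁻¹ : Fˣ) : F) • ((g⁻¹.1 * g.1) * J * ((g.1.map τ).transpose * (g⁻¹.1.map τ).transpose)) := by
          rw [← hμ]; simp only [mul_assoc]
      _ = _ := by rw [h1, h2, one_mul, mul_one]

theorem mem_GJ {τ : F ≃+* F} {J : Matrix ι ι F} {g : GL ι F} : g ∈ GJ τ J ↔ ∃ μ : Fˣ, g.1 * J * (g.1.map τ).transpose = (μ : F) • J := Iff.rfl

theorem mg_mem {τ : F ≃+* F} {J : Matrix ι ι F} {g : GL ι F} (σ : F ≃+* F) (hc : ∀ x, σ (τ x) = τ (σ x)) (hJ : J.map σ = J) (h : g ∈ GJ τ J) :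
    mg σ g ∈ GJ τ J := by
  obtain ⟨μ, hμ⟩ := h
  refine ⟨Units.map (σ : F →* F) μ, ?_⟩
  have h1 := congrArg (fun A : Matrix ι ι F => A.map σ) hμ
  simp only [map_mulM, hJ] at h1
  have e1 : ((g.1.map τ).transpose).map σ = (((mg σ g).1).map τ).transpose := by
    ext i j
    show σ (τ (g.1 j i)) = τ (σ (g.1 j i))
    rw [hc]
  have e2 : ((μ : F) • J).map σ = (σ μ) • J := by
    conv_rhs => rw [← hJ]
    ext i j
    show σ ((μ : F) * J i j) = σ μ * σ (J i j)
    rw [map_mul]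
  rw [e1, e2] at h1
  exact h1

variable {N : ℕ}

theorem Jm_coe (ε : Fin (N + 1) → Fˣ) : (Jm ε).1 = Jf (fun a => (ε a : F)) := rfl

theorem mem_Gr_iff (τ : F ≃+* F) (ε : Fin (N + 1) → Fˣ) (s : SpecialLinearGroup (Fin (N + 1)) F) :
    s ∈ Gr τ ε ↔ s.1 * (Jm ε).1 * (s.1.map τ).transpose = (Jm ε).1 := by
  rw [mem_Gr]
  have h1 : (Th τ ε s).1 = (Jm ε).1 * ((AutPSL.fl τ s)⁻¹).1.transpose * ((Jm ε)⁻¹ : GL _ F).1 := rfl
  have h2 : ((AutPSL.fl τ s)⁻¹).1.transpose * (s.1.map τ).transpose = 1 := by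
    rw [← Matrix.transpose_mul]
    have : (s.1.map τ) * ((AutPSL.fl τ s)⁻¹).1 = 1 := by
      have : (AutPSL.fl τ s * (AutPSL.fl τ s)⁻¹).1 = 1 := by rw [mul_inv_cancel]; rfl
      exact this
    rw [this, Matrix.transpose_one]
  have h2' : (s.1.map τ).transpose * ((AutPSL.fl τ s)⁻¹).1.transpose = 1 := mul_eq_one_comm.1 h2
  have h3 : ((Jm ε)⁻¹ : GL _ F).1 * (Jm ε).1 = 1 := by rw [← Units.val_mul, inv_mul_cancel, Units.val_one]
  have h3' : (Jm ε).1 * ((Jm ε)⁻¹ : GL _ F).1 = 1 := by rw [← Units.val_mul, mul_inv_cancel, Units.val_one]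
  constructor
  · intro h
    have h4 := congrArg Subtype.val h
    rw [h1] at h4
    have h5 : s.1 * (Jm ε).1 * (s.1.map τ).transpose = (Jm ε).1 * ((AutPSL.fl τ s)⁻¹).1.transpose * ((Jm ε)⁻¹ : GL _ F).1 * (Jm ε).1 * ((s.1).map τ).transpose := by
      rw [h4]
    rw [h5]
    calc (Jm ε).1 * ((AutPSL.fl τ s)⁻¹).1.transpose * ((Jm ε)⁻¹ : GL _ F).1 * (Jm ε).1 * ((s.1).map τ).transpose
        = (Jm ε).1 * (((AutPSL.fl τ s)⁻¹).1.transpose * (((Jm ε)⁻¹ : GL _ F).1 * (Jm ε).1) * ((s.1).map τ).transpose) := by simp only [mul_assoc]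
      _ = (Jm ε).1 := by rw [h3, mul_one, h2, mul_one]
  · intro h
    apply Subtype.ext
    rw [h1]
    conv_lhs => rw [← h]
    calc s.1 * (Jm ε).1 * (s.1.map τ).transpose * ((AutPSL.fl τ s)⁻¹).1.transpose * ((Jm ε)⁻¹ : GL _ F).1
        = s.1 * ((Jm ε).1 * ((s.1.map τ).transpose * ((AutPSL.fl τ s)⁻¹).1.transpose) * ((Jm ε)⁻¹ : GL _ F).1) := by simp only [mul_assoc]
      _ = s.1 := by rw [h2', mul_one, h3', mul_one]

theorem cg_mem {τ : F ≃+* F} {ε : Fin (N + 1) → Fˣ} {g : GL (Fin (N + 1)) F} (hg : g ∈ GJ τ (Jm ε).1) (s : SpecialLinearGroup (Fin (N + 1)) F) :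
    cg g s ∈ Gr τ ε ↔ s ∈ Gr τ ε := by
  have key : ∀ g ∈ GJ τ (Jm ε).1, ∀ s : SpecialLinearGroup (Fin (N + 1)) F, s ∈ Gr τ ε → cg g s ∈ Gr τ ε := by
    intro g hg s hs
    rw [mem_Gr_iff] at hs ⊢
    obtain ⟨ν, hν⟩ := inv_mem hg
    obtain ⟨μ, hμ⟩ := hg
    rw [cg_coe, map_mulM, map_mulM, Matrix.transpose_mul, Matrix.transpose_mul]
    calc g.1 * s.1 * g⁻¹.1 * (Jm ε).1 * ((g⁻¹.1.map τ).transpose * ((s.1.map τ).transpose * (g.1.map τ).transpose))
        = g.1 * (s.1 * (g⁻¹.1 * (Jm ε).1 * (g⁻¹.1.map τ).transpose) * (s.1.map τ).transpose) * (g.1.map τ).transpose := by simp only [mul_assoc]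
      _ = ((ν : F) * (μ : F)) • (Jm ε).1 := by
          rw [hν, mul_smul_comm, smul_mul_assoc, hs, mul_smul_comm, smul_mul_assoc, hμ, smul_smul]
      _ = (Jm ε).1 := by
          -- μ ν = 1
          have h1 : g.1 * (g⁻¹.1 * (Jm ε).1 * (g⁻¹.1.map τ).transpose) * (g.1.map τ).transpose = (Jm ε).1 := by
            have h2 : g.1 * g⁻¹.1 = 1 := by rw [← Units.val_mul, mul_inv_cancel, Units.val_one]
            have h3 : (g⁻¹.1.map τ).transpose * (g.1.map τ).transpose = 1 := by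
              rw [← Matrix.transpose_mul, ← map_mulM, h2, map_oneM, Matrix.transpose_one]
            calc _ = (g.1 * g⁻¹.1) * (Jm ε).1 * ((g⁻¹.1.map τ).transpose * (g.1.map τ).transpose) := by simp only [mul_assoc]
              _ = _ := by rw [h2, h3, one_mul, mul_one]
          rw [hν, mul_smul_comm, smul_mul_assoc, hμ, smul_smul] at h1
          exact h1
  constructor
  · intro h
    have := key _ (inv_mem hg) _ h
    rwa [← MulAut.mul_apply, ← map_mul, inv_mul_cancel, map_one, MulAut.one_apply] at this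
  · exact key g hg s

theorem fl_mem [Finite F] {τ : F ≃+* F} {ε : Fin (N + 1) → Fˣ} (hε : ∀ (σ : F ≃+* F) a, σ (ε a) = ε a) (σ : F ≃+* F) (s : SpecialLinearGroup (Fin (N + 1)) F) :
    fl σ s ∈ Gr τ ε ↔ s ∈ Gr τ ε := by
  have hcomm : ∀ (σ : F ≃+* F) x, σ (τ x) = τ (σ x) := by
    haveI := Fintype.ofFinite F
    haveI := Cfsg.Agent.Lib.FinGal.cyclic_gal F
    intro σ x
    letI := IsCyclic.commGroup (α := (F ≃+* F))
    have h1 : σ * τ = τ * σ := mul_comm σ τ
    exact congrArg (fun f : F ≃+* F => f x) h1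
  have key : ∀ (σ : F ≃+* F) (s : SpecialLinearGroup (Fin (N + 1)) F), s ∈ Gr τ ε → fl σ s ∈ Gr τ ε := by
    intro σ s hs
    rw [mem_Gr_iff] at hs ⊢
    have hJ : (Jm ε).1.map σ = (Jm ε).1 := by
      ext i j
      show σ (Jf _ i j) = Jf _ i j
      rw [Jf_apply]
      split_ifs
      · exact hε σ i
      · exact map_zero _
    have h1 := congrArg (fun A : Matrix (Fin (N + 1)) (Fin (N + 1)) F => A.map σ) hs
    simp only [map_mulM, hJ] at h1
    have e1 : ((s.1.map τ).transpose).map σ = (((fl σ s).1).map τ).transpose := by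
      ext i j
      show σ (τ (s.1 j i)) = τ (σ (s.1 j i))
      rw [hcomm]
    rw [e1] at h1
    exact h1
  constructor
  · intro h
    have := key σ⁻¹ _ h
    rwa [← MulAut.mul_apply, ← map_mul, inv_mul_cancel, map_one, MulAut.one_apply] at this
  · exact key σ s

theorem comm_gal [Finite F] (σ τ : F ≃+* F) (x : F) : σ (τ x) = τ (σ x) := by
  haveI := Fintype.ofFinite F
  haveI := Cfsg.Agent.Lib.FinGal.cyclic_gal F
  letI := IsCyclic.commGroup (α := (F ≃+* F))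
  have h1 : σ * τ = τ * σ := mul_comm σ τ
  exact congrArg (fun f : F ≃+* F => f x) h1

end Cfsg.Agent.H8.GrStd
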