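import Mathlib
import Cfsg.Agent.H8.GrShort
import Cfsg.Agent.H8.GrStd

set_option autoImplicit false
set_option linter.all false

/-! Three term root elements `1 + u E_{ac} + w E_{cb} + v E_{ab}`. -/

namespace Cfsg.Agent.H8.GrCen

open scoped commutatorElement
open Matrix Pointwise Cfsg.Agent.H8.AutBN Cfsg.Agent.H8.SLPat Cfsg.Agent.H8.SLTri Cfsg.Agent.H8.SLData
  Cfsg.Agent.H8.Theta Cfsg.Agent.H8.GrComb Cfsg.Agent.H8.GrData Cfsg.Agent.H8.GrShort

section gen

variable {ι : Type*} [Fintype ι] [DecidableEq ι] {F : Type*} [Field F]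

/-- distinct triples -/
structure T3 (a c b : ι) : Prop where
  ac : a ≠ c
  cb : c ≠ b
  ab : a ≠ b

omit [Fintype ι] [DecidableEq ι] in
theorem T3.symm {a c b : ι} (h : T3 a c b) : T3 b c a := ⟨h.cb.symm, h.ac.symm, h.ab.symm⟩

variable {a c b : ι} (h : T3 a c b)

/-- the elements -/
def X3 (u w v : F) : SpecialLinearGroup ι F :=
  SpecialLinearGroup.transvection h.cb w * SpecialLinearGroup.transvection h.ac u * SpecialLinearGroup.transvection h.ab v

theorem X3_coe (u w v : F) : (X3 h u w v).1 = 1 + Matrix.single a c u + Matrix.single c b w + Matrix.single a b v := by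
  show (1 + Matrix.single c b w) * (1 + Matrix.single a c u) * (1 + Matrix.single a b v) = _
  have e1 : Matrix.single c b w * Matrix.single a c u = 0 := Matrix.single_mul_single_of_ne _ _ _ _ h.ab.symm _
  have e2 : Matrix.single a c u * Matrix.single a b v = 0 := Matrix.single_mul_single_of_ne _ _ _ _ h.ac.symm _
  have e3 : Matrix.single c b w * Matrix.single a b v = 0 := Matrix.single_mul_single_of_ne _ _ _ _ h.ab.symm _
  simp only [mul_add, add_mul, mul_one, one_mul, e1, e2, e3, add_zero, zero_add]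
  abel

theorem X3_mul (u w v u' w' v' : F) : X3 h u w v * X3 h u' w' v' = X3 h (u + u') (w + w') (v + v' + u * w') := by
  apply Subtype.ext
  show (X3 h u w v).1 * (X3 h u' w' v').1 = _
  rw [X3_coe, X3_coe, X3_coe, Matrix.single_add, Matrix.single_add, Matrix.single_add, Matrix.single_add]
  have e1 : Matrix.single a c u * Matrix.single a c u' = 0 := Matrix.single_mul_single_of_ne _ _ _ _ h.ac.symm _
  have e2 : Matrix.single a c u * Matrix.single c b w' = Matrix.single a b (u * w') := Matrix.single_mul_single_same _ _ _ _ _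
  have e3 : Matrix.single a c u * Matrix.single a b v' = 0 := Matrix.single_mul_single_of_ne _ _ _ _ h.ac.symm _
  have e4 : Matrix.single c b w * Matrix.single a c u' = 0 := Matrix.single_mul_single_of_ne _ _ _ _ h.ab.symm _
  have e5 : Matrix.single c b w * Matrix.single c b w' = 0 := Matrix.single_mul_single_of_ne _ _ _ _ h.cb.symm _
  have e6 : Matrix.single c b w * Matrix.single a b v' = 0 := Matrix.single_mul_single_of_ne _ _ _ _ h.ab.symm _
  have e7 : Matrix.single a b v * Matrix.single a c u' = 0 := Matrix.single_mul_single_of_ne _ _ _ _ h.ab.symm _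
  have e8 : Matrix.single a b v * Matrix.single c b w' = 0 := Matrix.single_mul_single_of_ne _ _ _ _ h.cb.symm _
  have e9 : Matrix.single a b v * Matrix.single a b v' = 0 := Matrix.single_mul_single_of_ne _ _ _ _ h.ab.symm _
  simp only [mul_add, add_mul, mul_one, one_mul, e1, e2, e3, e4, e5, e6, e7, e8, e9, add_zero, zero_add]
  abel

theorem X3_apply (u w v : F) (i j : ι) : (X3 h u w v) i j = (if i = j then 1 else 0) + (if i = a ∧ j = c then u else 0) +
    (if i = c ∧ j = b then w else 0) + (if i = a ∧ j = b then v else 0) := by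
  show (X3 h u w v).1 i j = _
  rw [X3_coe]
  simp only [Matrix.add_apply, Matrix.one_apply, Matrix.single_apply, eq_comm (a := a) (b := i), eq_comm (a := c) (b := j),
    eq_comm (a := c) (b := i), eq_comm (a := b) (b := j)]

theorem X3_ac (u w v : F) : (X3 h u w v) a c = u := by
  rw [X3_apply]; simp [h.ac, h.cb, h.ab]
theorem X3_cb (u w v : F) : (X3 h u w v) c b = w := by
  rw [X3_apply]; simp [h.ac.symm, h.cb, h.ab]
theorem X3_ab (u w v : F) : (X3 h u w v) a b = v := by
  rw [X3_apply]; simp [h.ac, h.cb.symm, h.ab]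

theorem X3_inj {u w v u' w' v' : F} (e : X3 h u w v = X3 h u' w' v') : u = u' ∧ w = w' ∧ v = v' := by
  refine ⟨?_, ?_, ?_⟩
  · rw [← X3_ac h u w v, e, X3_ac]
  · rw [← X3_cb h u w v, e, X3_cb]
  · rw [← X3_ab h u w v, e, X3_ab]

theorem X3_zero : X3 h (0 : F) 0 0 = 1 := by
  unfold X3
  rw [SpecialLinearGroup.transvection_coeff_zero, SpecialLinearGroup.transvection_coeff_zero, SpecialLinearGroup.transvection_coeff_zero]
  simp

theorem X3_t (v : F) : X3 h (0 : F) 0 v = SpecialLinearGroup.transvection h.ab v := by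
  unfold X3
  rw [SpecialLinearGroup.transvection_coeff_zero, SpecialLinearGroup.transvection_coeff_zero]
  simp

theorem X3_form {x : SpecialLinearGroup ι F} (hx : ∀ i j, ¬ ((i = a ∧ j = c) ∨ (i = c ∧ j = b) ∨ (i = a ∧ j = b)) → x i j = if i = j then 1 else 0) :
    x = X3 h (x a c) (x c b) (x a b) := by
  ext i j
  rw [X3_apply]
  by_cases h1 : i = a ∧ j = c
  · obtain ⟨rfl, rfl⟩ := h1; simp [h.ac, h.cb, h.ab]
  · by_cases h2 : i = c ∧ j = b
    · obtain ⟨rfl, rfl⟩ := h2; simp [h.ac.symm, h.cb, h.ab]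
    · by_cases h3 : i = a ∧ j = b
      · obtain ⟨rfl, rfl⟩ := h3; simp [h.ac, h.cb.symm, h.ab]
      · rw [hx i j (by tauto), if_neg h1, if_neg h2, if_neg h3]; ring

theorem X3_inv (u w v : F) : (X3 h u w v)⁻¹ = X3 h (-u) (-w) (-v + u * w) := by
  rw [inv_eq_iff_mul_eq_one, X3_mul, ← X3_zero h]
  congr 1 <;> ring

theorem X3_comm (u w v u' w' v' : F) : ⁅X3 h u w v, X3 h u' w' v'⁆ = X3 h 0 0 (u * w' - u' * w) := by
  rw [commutatorElement_def, X3_inv, X3_inv, X3_mul, X3_mul, X3_mul]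
  congr 1 <;> ring

theorem cg_X3 (e : ι → Fˣ) (u w v : F) : AutPSL.cg (AutPSL.dg e) (X3 h u w v) =
    X3 h ((e a : F) * u * ((e c)⁻¹ : Fˣ)) ((e c : F) * w * ((e b)⁻¹ : Fˣ)) ((e a : F) * v * ((e b)⁻¹ : Fˣ)) := by
  unfold X3
  rw [map_mul, map_mul, AutPSL.cg_dg, AutPSL.cg_dg, AutPSL.cg_dg]

theorem fl_T {ι : Type*} [Fintype ι] [DecidableEq ι] (σ : F ≃+* F) {a b : ι} (h : a ≠ b) (t : F) :
    AutPSL.fl σ (SpecialLinearGroup.transvection h t) = SpecialLinearGroup.transvection h (σ t) := by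
  ext i j
  show σ ((SpecialLinearGroup.transvection h t : SpecialLinearGroup ι F) i j) = _
  rw [transvection_apply, transvection_apply]
  split_ifs <;> simp

theorem fl_X3 (σ : F ≃+* F) (u w v : F) : AutPSL.fl σ (X3 h u w v) = X3 h (σ u) (σ w) (σ v) := by
  unfold X3
  rw [map_mul, map_mul, fl_T, fl_T, fl_T]

end gen

section rv

variable {N : ℕ} {F : Type*} [Field F] {a c b : Fin (N + 1)} (h : T3 a c b) (τ : F ≃+* F)

/-- the trivial scaling -/
abbrev e1 (N : ℕ) (F : Type*) [Field F] : Fin (N + 1) → Fˣ := fun _ => 1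

theorem Th_T {a b : Fin (N + 1)} (h : a ≠ b) {a' b' : Fin (N + 1)} (h' : a' ≠ b') (ha : Fin.rev b = a') (hb : Fin.rev a = b') (t : F) :
    Th τ (e1 N F) (SpecialLinearGroup.transvection h t) = SpecialLinearGroup.transvection h' (-τ t) := by
  rw [Th_t]
  subst ha; subst hb
  simp

theorem Th_X3 (hc : Fin.rev c = c) (hab : Fin.rev a = b) (u w v : F) :
    Th τ (e1 N F) (X3 h u w v) = X3 h (-τ w) (-τ u) (-τ v + τ w * τ u) := by
  have hba : Fin.rev b = a := by rw [← hab, Fin.rev_rev]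
  have e2 : X3 h u w v = SpecialLinearGroup.transvection h.cb w * SpecialLinearGroup.transvection h.ac u * SpecialLinearGroup.transvection h.ab v := rfl
  rw [e2, map_mul, map_mul, Th_T τ h.cb h.ac hba hc, Th_T τ h.ac h.cb hc hab, Th_T τ h.ab h.ab hba hab]
  have e3 : (SpecialLinearGroup.transvection h.ac (-τ w) : SpecialLinearGroup (Fin (N + 1)) F) = X3 h (-τ w) 0 0 := by
    unfold X3
    rw [SpecialLinearGroup.transvection_coeff_zero, SpecialLinearGroup.transvection_coeff_zero]; simp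
  have e4 : (SpecialLinearGroup.transvection h.cb (-τ u) : SpecialLinearGroup (Fin (N + 1)) F) = X3 h 0 (-τ u) 0 := by
    unfold X3
    rw [SpecialLinearGroup.transvection_coeff_zero, SpecialLinearGroup.transvection_coeff_zero]; simp
  rw [e3, e4, ← X3_t h, X3_mul, X3_mul]
  congr 1 <;> ring

theorem X3_mem_iff (hτ : ∀ t, τ (τ t) = t) (hc : Fin.rev c = c) (hab : Fin.rev a = b) (u w v : F) :
    X3 h u w v ∈ Gr τ (e1 N F) ↔ w = -τ u ∧ v + τ v = -(u * τ u) := by
  rw [mem_Gr, Th_X3 h τ hc hab]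
  constructor
  · intro e
    obtain ⟨e1, e2, e3⟩ := X3_inj h e
    refine ⟨e2.symm, ?_⟩
    rw [← e2, map_neg, hτ] at e3
    linear_combination -e3
  · rintro ⟨e1, e2⟩
    subst e1
    congr 1
    · rw [map_neg, hτ]; ring
    · rw [map_neg, hτ]
      linear_combination -e2

/-- conjugation by `NR` -/
theorem NR_X3 {a b c : Fin (N + 1)} (hg : GP a b) (hc : Fin.rev c = c) (hb : T3 b c (Fin.rev b)) (ha : T3 a c (Fin.rev a)) {t : F} (ht : t ≠ 0)
    (u v : F) : NR hg τ t * X3 hb u (-τ u) v = X3 ha (t * u) (-τ (t * u)) (t * τ t * v) * NR hg τ t := by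
  have hτt : τ t ≠ 0 := by rw [Ne, map_eq_zero_iff τ τ.injective]; exact ht
  have hn := nn_coe (F := F) hg.ab ht
  have hn' := nn_coe (F := F) (rev_ne hg.ab) (neg_ne_zero.2 hτt)
  rw [NR_eq hg τ ht]
  apply Subtype.ext
  show (nn hg.ab t : SpecialLinearGroup (Fin (N + 1)) F).1 * (nn (rev_ne hg.ab) (-τ t) : SpecialLinearGroup (Fin (N + 1)) F).1 * (X3 hb u (-τ u) v).1 =
    (X3 ha (t * u) (-τ (t * u)) (t * τ t * v)).1 * ((nn hg.ab t : SpecialLinearGroup (Fin (N + 1)) F).1 * (nn (rev_ne hg.ab) (-τ t) : SpecialLinearGroup (Fin (N + 1)) F).1)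
  rw [X3_coe, X3_coe]
  have n1 := hg.ab; have n2 := hg.ab'; have n3 := hg.aa; have n4 := hg.bb; have n5 := hg.ba'
  have n6 := rev_ne hg.ab
  have n7 := ha.ac; have n8 := ha.cb; have n9 := hb.ac; have n10 := hb.cb
  have E : ∀ i j : Fin (N + 1), ∀ s, Matrix.single i j s = s • (Matrix.single i j (1 : F)) := by
    intro i j s; rw [Matrix.smul_single, smul_eq_mul, mul_one]
  have M : ∀ i j k l : Fin (N + 1), Matrix.single i j (1 : F) * Matrix.single k l (1 : F) = if j = k then Matrix.single i l (1 : F) else 0 := by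
    intro i j k l
    split_ifs with h
    · subst h; rw [Matrix.single_mul_single_same, mul_one]
    · rw [Matrix.single_mul_single_of_ne _ _ _ _ h]
  have L1 : (nn hg.ab t : SpecialLinearGroup (Fin (N + 1)) F).1 * (nn (rev_ne hg.ab) (-τ t) : SpecialLinearGroup (Fin (N + 1)) F).1 =
      1 + t • Matrix.single a b (1 : F) - t⁻¹ • Matrix.single b a (1 : F) - Matrix.single a a (1 : F) - Matrix.single b b (1 : F)
      + (-τ t) • Matrix.single (Fin.rev b) (Fin.rev a) (1 : F) - (-τ t)⁻¹ • Matrix.single (Fin.rev a) (Fin.rev b) (1 : F) - Matrix.single (Fin.rev b) (Fin.rev b) (1 : F) - Matrix.single (Fin.rev a) (Fin.rev a) (1 : F) := by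
    rw [hn, hn']
    simp only [mul_add, add_mul, mul_sub, sub_mul, mul_one, one_mul, Matrix.smul_mul, Matrix.mul_smul, M, n1, n2, n3, n4, n5, n6, n1.symm, n2.symm, n3.symm, n4.symm, n5.symm, n6.symm,
      if_false, if_true, smul_zero, sub_zero, add_zero, zero_add]
  rw [L1]
  rw [E b c u, E c (Fin.rev b) (-τ u), E b (Fin.rev b) v, E a c (t * u), E c (Fin.rev a) (-τ (t * u)), E a (Fin.rev a) (t * τ t * v)]
  simp only [mul_add, add_mul, mul_sub, sub_mul, mul_one, one_mul, Matrix.smul_mul, Matrix.mul_smul, M, n1, n2, n3, n4, n5, n6, n1.symm, n2.symm, n3.symm, n4.symm, n5.symm, n6.symm,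
    n7, n8, n9, n10, n7.symm, n8.symm, n9.symm, n10.symm,
    if_false, if_true, smul_zero, sub_zero, add_zero, zero_add, smul_smul, map_mul]
  have k1 : (-τ t)⁻¹ * -(τ t * τ u) = τ u := by field_simp
  have k2 : (-τ t)⁻¹ * (t * τ t * v) = -(v * t) := by field_simp
  rw [k1, k2, mul_comm u t]
  simp only [neg_smul]
  abel

end rv

end Cfsg.Agent.H8.GrCen
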