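import Mathlib
import Cfsg.Agent.H8.GrShort

set_option autoImplicit false
set_option linter.all false

/-! The input for `Sp_{2m}` and `SU_{2m}`. -/

namespace Cfsg.Agent.H8.GrEven

open scoped commutatorElement
open Matrix Pointwise Cfsg.Agent.H8.AutBN Cfsg.Agent.H8.SLPat Cfsg.Agent.H8.SLTri Cfsg.Agent.H8.SLData
  Cfsg.Agent.H8.Theta Cfsg.Agent.H8.GrComb Cfsg.Agent.H8.GrData Cfsg.Agent.H8.GrShort Cfsg.Agent.H8.GrPi

variable {k : ℕ} {F : Type*} [Field F]

theorem hNk (k : ℕ) : 2 * k + 1 = 2 * (k + 1) ∨ 2 * k + 1 + 1 = 2 * (k + 1) := Or.inr (by ring)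

/-- signs -/
def ea (k : ℕ) (F : Type*) [Field F] : Fin (2 * k + 1 + 1) → Fˣ := fun z => if (z : ℕ) ≤ k then -1 else 1

def pa (i : Fin (k + 1)) : Fin (2 * k + 1 + 1) := ⟨i, by omega⟩
def pb (i : Fin (k + 1)) : Fin (2 * k + 1 + 1) := ⟨i + 1, by omega⟩

theorem pa_val (i : Fin (k + 1)) : ((pa i : Fin (2 * k + 1 + 1)) : ℕ) = i := rfl
theorem pb_val (i : Fin (k + 1)) : ((pb i : Fin (2 * k + 1 + 1)) : ℕ) = i + 1 := rfl
theorem rev_val (z : Fin (2 * k + 1 + 1)) : ((Fin.rev z : Fin (2 * k + 1 + 1)) : ℕ) = 2 * k + 1 - z := by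
  rw [Fin.val_rev]; omega

theorem pab (i : Fin (k + 1)) : pa i ≠ pb i := by
  intro h; have := congrArg Fin.val h; rw [pa_val, pb_val] at this; omega

theorem gp (i : Fin (k + 1)) (hi : (i : ℕ) < k) : GP (pa i) (pb i) where
  ab := pab i
  ab' := by intro h; have := congrArg Fin.val h; rw [rev_val, pa_val, pb_val] at this; omega
  aa := by intro h; have := congrArg Fin.val h; rw [rev_val, pa_val] at this; omega
  bb := by intro h; have := congrArg Fin.val h; rw [rev_val, pb_val] at this; omega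

/-- the last index -/
abbrev il (k : ℕ) : Fin (k + 1) := Fin.last k

theorem rev_pa_il : Fin.rev (pa (il k)) = pb (il k) := by
  ext; rw [rev_val, pa_val, pb_val]; simp; omega
theorem rev_pb_il : Fin.rev (pb (il k)) = pa (il k) := by
  rw [← rev_pa_il, Fin.rev_rev]

theorem blk_short {i : Fin (k + 1)} (hi : (i : ℕ) < k) (p q : Fin (2 * k + 1 + 1)) :
    Rb (2 * k + 1) (k + 1) i p q ↔ (p = pa i ∧ q = pb i) ∨ (p = Fin.rev (pb i) ∧ q = Fin.rev (pa i)) := by
  unfold Rb blk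
  simp only [Fin.ext_iff, rev_val, pa_val, pb_val]
  omega

theorem blk_last (p q : Fin (2 * k + 1 + 1)) :
    Rb (2 * k + 1) (k + 1) (il k) p q ↔ (p = pa (il k) ∧ q = pb (il k)) := by
  unfold Rb blk
  simp only [Fin.ext_iff, pa_val, pb_val, Fin.val_last]
  omega

theorem swap_val' {n : ℕ} (a b z : Fin n) : ((Equiv.swap a b z : Fin n) : ℕ) = if (z : ℕ) = a then (b : ℕ) else if (z : ℕ) = b then (a : ℕ) else z := by
  rw [Equiv.swap_apply_def]
  simp only [← Fin.ext_iff]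
  split_ifs <;> rfl

theorem sg_short {i : Fin (k + 1)} (hi : (i : ℕ) < k) :
    Equiv.swap (pa i) (pb i) * Equiv.swap (Fin.rev (pb i)) (Fin.rev (pa i)) = sg (hNk k) i := by
  ext z
  rw [Equiv.Perm.mul_apply, sg_val, swap_val', swap_val', rev_val, rev_val, pa_val, pb_val]
  have := z.2
  unfold sv
  split_ifs <;> omega

theorem sg_last : Equiv.swap (pa (il k)) (pb (il k)) = sg (hNk k) (il k) := by
  ext z
  rw [sg_val, swap_val', pa_val, pb_val, Fin.val_last]
  have := z.2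
  unfold sv
  split_ifs <;> omega

theorem ea_lo {z : Fin (2 * k + 1 + 1)} (h : (z : ℕ) ≤ k) : ea k F z = -1 := if_pos h
theorem ea_hi {z : Fin (2 * k + 1 + 1)} (h : k < (z : ℕ)) : ea k F z = 1 := if_neg (by omega)

theorem ea_ab {i : Fin (k + 1)} (hi : (i : ℕ) < k) : ea k F (pa i) = ea k F (pb i) := by
  rw [ea_lo (by rw [pa_val]; omega), ea_lo (by rw [pb_val]; omega)]

theorem ea_ab' {i : Fin (k + 1)} (hi : (i : ℕ) < k) : ea k F (Fin.rev (pa i)) = ea k F (Fin.rev (pb i)) := by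
  rw [ea_hi (by rw [rev_val, pa_val]; omega), ea_hi (by rw [rev_val, pb_val]; omega)]

variable (τ : F ≃+* F)

theorem Th_long (u : F) : Th τ (ea k F) (SpecialLinearGroup.transvection (pab (il k)) u) = SpecialLinearGroup.transvection (pab (il k)) (τ u) := by
  rw [Th_t]
  ext i j
  rw [transvection_apply, transvection_apply, rev_pa_il, rev_pb_il]
  have e1 : ea k F (pa (il k)) = -1 := ea_lo (by rw [pa_val, Fin.val_last])
  have e2 : ea k F (pb (il k)) = 1 := ea_hi (by rw [pb_val, Fin.val_last]; omega)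
  rw [e1, e2]
  simp

theorem Th_long' (u : F) : Th τ (ea k F) (SpecialLinearGroup.transvection (pab (il k)).symm u) = SpecialLinearGroup.transvection (pab (il k)).symm (τ u) := by
  rw [Th_t]
  ext i j
  rw [transvection_apply, transvection_apply, rev_pa_il, rev_pb_il]
  have e1 : ea k F (pa (il k)) = -1 := ea_lo (by rw [pa_val, Fin.val_last])
  have e2 : ea k F (pb (il k)) = 1 := ea_hi (by rw [pb_val, Fin.val_last]; omega)
  rw [e1, e2]
  simp

theorem long_mem {u : F} (hu : τ u = u) : SpecialLinearGroup.transvection (pab (il k)) u ∈ Gr τ (ea k F) := by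
  rw [mem_Gr, Th_long, hu]

theorem long_mem' {u : F} (hu : τ u = u) : SpecialLinearGroup.transvection (pab (il k)).symm u ∈ Gr τ (ea k F) := by
  rw [mem_Gr, Th_long', hu]

section
variable (hτ : ∀ t, τ (τ t) = t)
include hτ

theorem short_mem {i : Fin (k + 1)} (hi : (i : ℕ) < k) (t : F) : RT τ (gp i hi).ab t ∈ Gr τ (ea k F) :=
  RT_mem (gp i hi) τ _ hτ (ea_ab hi) (ea_ab' hi) t

theorem short_mem' {i : Fin (k + 1)} (hi : (i : ℕ) < k) (t : F) : RT τ (gp i hi).symm.ab t ∈ Gr τ (ea k F) :=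
  RT_mem (gp i hi).symm τ _ hτ (ea_ab hi).symm (ea_ab' hi).symm t

end

variable [Finite F]

theorem short_pat {i : Fin (k + 1)} (hi : (i : ℕ) < k) (t : F) : RT τ (gp i hi).ab t ∈ patU (strb (hNk k) i) := by
  rw [mem_patU]
  intro p q h
  rw [blk_short hi] at h
  push Not at h
  rw [RT_apply (gp i hi), if_neg (c := p = pa i ∧ q = pb i) (fun e => h.1 e.1 e.2),
    if_neg (c := p = Fin.rev (pb i) ∧ q = Fin.rev (pa i)) (fun e => h.2 e.1 e.2), add_zero, add_zero]

theorem short_pat' {i : Fin (k + 1)} (hi : (i : ℕ) < k) (t : F) : RT τ (gp i hi).symm.ab t ∈ patU (str_swap (strb (hNk k) i)) := by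
  rw [mem_patU]
  intro p q h
  rw [blk_short hi] at h
  push Not at h
  rw [RT_apply (gp i hi).symm, if_neg (c := p = pb i ∧ q = pa i) (fun e => h.1 e.2 e.1),
    if_neg (c := p = Fin.rev (pa i) ∧ q = Fin.rev (pb i)) (fun e => h.2 e.2 e.1), add_zero, add_zero]

theorem long_pat (u : F) : SpecialLinearGroup.transvection (pab (il k)) u ∈ patU (strb (hNk k) (il k)) := by
  rw [mem_patU]
  intro p q h
  rw [blk_last] at h
  rw [transvection_apply, if_neg h, add_zero]

theorem long_pat' (u : F) : SpecialLinearGroup.transvection (pab (il k)).symm u ∈ patU (str_swap (strb (hNk k) (il k))) := by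
  rw [mem_patU]
  intro p q h
  rw [blk_last] at h
  rw [transvection_apply, if_neg (c := p = pb (il k) ∧ q = pa (il k)) (fun e => h ⟨e.2, e.1⟩), add_zero]

variable (hτ : ∀ t, τ (τ t) = t)

/-- root elements in the group -/
def xs {i : Fin (k + 1)} (hi : (i : ℕ) < k) (t : F) : Gr τ (ea k F) := ⟨RT τ (gp i hi).ab t, short_mem τ hτ hi t⟩
def ys {i : Fin (k + 1)} (hi : (i : ℕ) < k) (t : F) : Gr τ (ea k F) := ⟨RT τ (gp i hi).symm.ab t, short_mem' τ hτ hi t⟩

/-- the fixed field -/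
abbrev L : Subfield F := (τ : F →+* F).eqLocusField (RingHom.id F)
theorem mem_L {u : F} : u ∈ L τ ↔ τ u = u := Iff.rfl

def xl (u : L τ) : Gr τ (ea k F) := ⟨SpecialLinearGroup.transvection (pab (il k)) u.1, long_mem τ u.2⟩
def yl (u : L τ) : Gr τ (ea k F) := ⟨SpecialLinearGroup.transvection (pab (il k)).symm u.1, long_mem' τ u.2⟩

/-- reflections -/
noncomputable def sr (i : Fin (k + 1)) : Gr τ (ea k F) :=
  if hi : (i : ℕ) < k then xs τ hτ hi 1 * ys τ hτ hi (-1) * xs τ hτ hi 1 else xl τ 1 * yl τ (-1) * xl τ 1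

theorem sr_short {i : Fin (k + 1)} (hi : (i : ℕ) < k) : sr τ hτ i = xs τ hτ hi 1 * ys τ hτ hi (-1) * xs τ hτ hi 1 := dif_pos hi
theorem sr_long : sr τ hτ (il k) = xl τ 1 * yl τ (-1) * xl τ 1 := dif_neg (by simp)

theorem il_or (i : Fin (k + 1)) : (i : ℕ) < k ∨ i = il k := by
  by_cases h : (i : ℕ) < k
  · exact Or.inl h
  · right; ext; simp; omega

theorem sr_mono (i : Fin (k + 1)) : Mono (sr τ hτ i).1 (sg (hNk k) i) := by
  rcases il_or i with hi | rfl
  · rw [sr_short τ hτ hi]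
    have e : (xs τ hτ hi 1 * ys τ hτ hi (-1) * xs τ hτ hi 1).1 = NR (gp i hi) τ 1 := by
      show RT τ (gp i hi).ab 1 * RT τ (gp i hi).symm.ab (-1) * RT τ (gp i hi).ab 1 = NR (gp i hi) τ 1
      rw [NR, inv_one]
    rw [e, NR_eq (gp i hi) τ one_ne_zero, ← sg_short hi]
    exact (nn_mono _ one_ne_zero).mul (nn_mono _ (by rw [map_one]; exact neg_ne_zero.2 one_ne_zero))
  · rw [sr_long]
    have e : (xl τ 1 * yl τ (-1) * xl τ 1 : Gr τ (ea k F)).1 = nn (pab (il k)) 1 := by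
      show SpecialLinearGroup.transvection (pab (il k)) (1 : F) * SpecialLinearGroup.transvection (pab (il k)).symm (-1 : F) * SpecialLinearGroup.transvection (pab (il k)) (1 : F) = nn (pab (il k)) 1
      rw [nn, inv_one]
    rw [e, ← sg_last]
    exact nn_mono _ one_ne_zero

/-- the input -/
noncomputable def inp : Inp (2 * k + 1) (k + 1) F where
  hN := hNk k
  τ := τ
  ε := ea k F
  K := Gr τ (ea k F)
  hK := le_rfl
  hUK := fun u _ h => h
  s := sr τ hτ
  smono := sr_mono τ hτ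
  Xne := by
    intro i h
    rcases il_or i with hi | rfl
    · have h1 : xs τ hτ hi 1 ∈ pu (Gr τ (ea k F)) (strb (hNk k) i) := mem_pu.2 (short_pat τ hi 1)
      rw [h, Subgroup.mem_bot] at h1
      have h2 : RT τ (gp i hi).ab 1 = RT τ (gp i hi).ab 0 := by
        rw [RT_zero (gp i hi)]; exact congrArg Subtype.val h1
      exact one_ne_zero (RT_inj (gp i hi) τ h2)
    · have h1 : xl τ 1 ∈ pu (Gr τ (ea k F)) (strb (hNk k) (il k)) := mem_pu.2 (long_pat 1)
      rw [h, Subgroup.mem_bot] at h1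
      have h2 : (SpecialLinearGroup.transvection (pab (il k)) (1 : F) : SpecialLinearGroup (Fin (2 * k + 1 + 1)) F) = 1 := congrArg Subtype.val h1
      have h3 : (SpecialLinearGroup.transvection (pab (il k)) (1 : F) : SpecialLinearGroup (Fin (2 * k + 1 + 1)) F) (pa (il k)) (pb (il k)) = (1 : SpecialLinearGroup (Fin (2 * k + 1 + 1)) F) (pa (il k)) (pb (il k)) := by rw [h2]
      rw [transvection_apply, slone_apply, if_neg (pab (il k)), if_pos ⟨rfl, rfl⟩, zero_add] at h3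
      exact one_ne_zero h3
  sgen := by
    intro i
    rcases il_or i with hi | rfl
    · rw [sr_short τ hτ hi]
      have h1 : ∀ t, xs τ hτ hi t ∈ pu (Gr τ (ea k F)) (strb (hNk k) i) ⊔ pu (Gr τ (ea k F)) (str_swap (strb (hNk k) i)) :=
        fun t => Subgroup.mem_sup_left (mem_pu.2 (short_pat τ hi t))
      have h2 : ∀ t, ys τ hτ hi t ∈ pu (Gr τ (ea k F)) (strb (hNk k) i) ⊔ pu (Gr τ (ea k F)) (str_swap (strb (hNk k) i)) :=
        fun t => Subgroup.mem_sup_right (mem_pu.2 (short_pat' τ hi t))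
      exact mul_mem (mul_mem (h1 _) (h2 _)) (h1 _)
    · rw [sr_long]
      have h1 : ∀ t, xl τ t ∈ pu (Gr τ (ea k F)) (strb (hNk k) (il k)) ⊔ pu (Gr τ (ea k F)) (str_swap (strb (hNk k) (il k))) :=
        fun t => Subgroup.mem_sup_left (mem_pu.2 (long_pat t.1))
      have h2 : ∀ t, yl τ t ∈ pu (Gr τ (ea k F)) (strb (hNk k) (il k)) ⊔ pu (Gr τ (ea k F)) (str_swap (strb (hNk k) (il k))) :=
        fun t => Subgroup.mem_sup_right (mem_pu.2 (long_pat' t.1))
      exact mul_mem (mul_mem (h1 _) (h2 _)) (h1 _)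

omit [Finite F] in
/-- form of the elements of a block -/
theorem form_RT {N : ℕ} {a b : Fin (N + 1)} (hg : GP a b) (ε : Fin (N + 1) → Fˣ) (he' : ε (Fin.rev a) = ε (Fin.rev b))
    {x : SpecialLinearGroup (Fin (N + 1)) F} (hx : x ∈ Gr τ ε)
    (h : ∀ p q, ¬ ((p = a ∧ q = b) ∨ (p = Fin.rev b ∧ q = Fin.rev a)) → x p q = if p = q then 1 else 0) :
    x = RT τ hg.ab (x a b) := by
  have e1 : x = SpecialLinearGroup.transvection hg.ab (x a b) * SpecialLinearGroup.transvection (rev_ne hg.ab) (x (Fin.rev b) (Fin.rev a)) := by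
    ext p q
    rw [AutPSL.t_mul_apply, transvection_apply, transvection_apply]
    by_cases h1 : p = a ∧ q = b
    · obtain ⟨rfl, rfl⟩ := h1
      simp [hg.ab, hg.ab', hg.bb]
    · by_cases h2 : p = Fin.rev b ∧ q = Fin.rev a
      · obtain ⟨rfl, rfl⟩ := h2
        simp [hg.ab'.symm, (rev_ne hg.ab)]
      · rw [h p q (by tauto)]
        rw [if_neg h2, add_zero]
        by_cases h3 : p = a
        · subst h3
          have h4 : q ≠ b := fun e => h1 ⟨rfl, e⟩
          rw [if_pos rfl, if_neg (Ne.symm h4), if_neg (c := b = Fin.rev b ∧ q = Fin.rev p) (fun e => hg.bb e.1)]; ring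
        · rw [if_neg h3, add_zero]
  have hTh := (mem_Gr τ ε).1 hx
  obtain ⟨t, ht⟩ : ∃ t, t = x a b := ⟨_, rfl⟩
  obtain ⟨t', ht'⟩ : ∃ t', t' = x (Fin.rev b) (Fin.rev a) := ⟨_, rfl⟩
  rw [← ht, ← ht'] at e1
  rw [← ht]
  have e2 : (Th τ ε x) (Fin.rev b) (Fin.rev a) = -τ t := by
    rw [e1, map_mul, Th_t, Th_t, AutPSL.t_mul_apply, if_pos rfl]
    have hne : Fin.rev b ≠ Fin.rev a := rev_ne hg.ab
    rw [transvection_apply, transvection_apply, Fin.rev_rev, Fin.rev_rev, if_neg hne, if_pos rfl, if_neg (fun e => hg.ab'.symm e.1),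
      if_neg (fun e => hg.aa.symm e.1), add_zero, zero_add, add_zero, mul_one, he', mul_comm (ε (Fin.rev b) : F), mul_assoc, Units.mul_inv, mul_one]
  rw [hTh, ← ht'] at e2
  rw [RT, ← e2]
  exact e1

theorem form_short {i : Fin (k + 1)} (hi : (i : ℕ) < k) {x : (inp (k := k) τ hτ).K} (hx : x ∈ pu (inp τ hτ).K (strb (hNk k) i)) :
    ∃ t, x = xs τ hτ hi t := by
  rw [mem_pu, mem_patU] at hx
  refine ⟨_, Subtype.ext (form_RT τ (gp i hi) (ea k F) (ea_ab' hi) x.2 ?_)⟩
  intro p q h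
  apply hx
  rw [blk_short hi]
  exact h

theorem form_short' {i : Fin (k + 1)} (hi : (i : ℕ) < k) {x : (inp (k := k) τ hτ).K} (hx : x ∈ pu (inp τ hτ).K (str_swap (strb (hNk k) i))) :
    ∃ t, x = ys τ hτ hi t := by
  rw [mem_pu, mem_patU] at hx
  refine ⟨_, Subtype.ext (form_RT τ (gp i hi).symm (ea k F) (ea_ab' hi).symm x.2 ?_)⟩
  intro p q h
  apply hx
  rw [blk_short hi]
  tauto

theorem form_T {ι : Type*} [Fintype ι] [DecidableEq ι] {a b : ι} (hab : a ≠ b) {x : SpecialLinearGroup ι F}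
    (h : ∀ p q, ¬ (p = a ∧ q = b) → x p q = if p = q then 1 else 0) : x = SpecialLinearGroup.transvection hab (x a b) := by
  ext p q
  rw [transvection_apply]
  by_cases h1 : p = a ∧ q = b
  · obtain ⟨rfl, rfl⟩ := h1
    simp [hab]
  · rw [h p q h1, if_neg h1, add_zero]

omit [Finite F] in
theorem T_inj {ι : Type*} [Fintype ι] [DecidableEq ι] {a b : ι} (hab : a ≠ b) {s t : F}
    (h : (SpecialLinearGroup.transvection hab s : SpecialLinearGroup ι F) = SpecialLinearGroup.transvection hab t) : s = t := by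
  have h1 : (SpecialLinearGroup.transvection hab s : SpecialLinearGroup ι F) a b = (SpecialLinearGroup.transvection hab t : SpecialLinearGroup ι F) a b := by rw [h]
  rw [transvection_apply, transvection_apply] at h1
  simpa [hab] using h1

theorem form_long {x : (inp (k := k) τ hτ).K} (hx : x ∈ pu (inp τ hτ).K (strb (hNk k) (il k))) : ∃ t, x = xl τ t := by
  rw [mem_pu, mem_patU] at hx
  have e := form_T (pab (il k)) (x := x.1) (fun p q h => hx p q (by rw [blk_last]; exact h))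
  have hTh := (mem_Gr τ (ea k F)).1 x.2
  obtain ⟨t, ht⟩ : ∃ t, t = x.1 (pa (il k)) (pb (il k)) := ⟨_, rfl⟩
  rw [← ht] at e
  rw [e, Th_long] at hTh
  exact ⟨⟨t, T_inj (pab (il k)) hTh⟩, Subtype.ext e⟩

theorem form_long' {x : (inp (k := k) τ hτ).K} (hx : x ∈ pu (inp τ hτ).K (str_swap (strb (hNk k) (il k)))) : ∃ t, x = yl τ t := by
  rw [mem_pu, mem_patU] at hx
  have e := form_T (pab (il k)).symm (x := x.1) (fun p q h => hx p q (by rw [blk_last]; exact fun e => h ⟨e.2, e.1⟩))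
  have hTh := (mem_Gr τ (ea k F)).1 x.2
  obtain ⟨t, ht⟩ : ∃ t, t = x.1 (pb (il k)) (pa (il k)) := ⟨_, rfl⟩
  rw [← ht] at e
  rw [e, Th_long'] at hTh
  exact ⟨⟨t, T_inj (pab (il k)).symm hTh⟩, Subtype.ext e⟩

end Cfsg.Agent.H8.GrEven
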