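import Mathlib
import Cfsg.Agent.H8.GrEven
import Cfsg.Agent.H8.GrStd

set_option autoImplicit false
set_option linter.all false

/-! Automorphisms of `PSp_{2m}` and `PSU_{2m}`. -/

namespace Cfsg.Agent.H8.GrEven

open scoped commutatorElement
open Matrix Pointwise Cfsg.Agent.H8.AutBN Cfsg.Agent.H8.SLPat Cfsg.Agent.H8.SLTri Cfsg.Agent.H8.SLData
  Cfsg.Agent.H8.Theta Cfsg.Agent.H8.GrComb Cfsg.Agent.H8.GrData Cfsg.Agent.H8.GrShort Cfsg.Agent.H8.GrPi
  Cfsg.Agent.H8.GrStd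

variable {k : ℕ} {F : Type*} [Field F] [Finite F] (τ : F ≃+* F) (hτ : ∀ t, τ (τ t) = t)
  (p : ℕ) [Fact p.Prime] [CharP F p]

/-- the input, with the implicit arguments fixed -/
noncomputable abbrev IP (k : ℕ) {F : Type*} [Field F] [Finite F] (τ : F ≃+* F) (hτ : ∀ t, τ (τ t) = t) : Inp (2 * k + 1) (k + 1) F :=
  inp (k := k) τ hτ

/-- projection -/
noncomputable abbrev q (k : ℕ) {F : Type*} [Field F] [Finite F] (τ : F ≃+* F) (hτ : ∀ t, τ (τ t) = t) :
    Gr τ (ea k F) →* QG (IP k τ hτ) := Q (IP k τ hτ)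

include p in
theorem conj_inj {w u v : Gr τ (ea k F)} (hu : ∃ n, u ^ p ^ n = 1) (hv : ∃ n, v ^ p ^ n = 1)
    (h : q k τ hτ w * q k τ hτ u = q k τ hτ v * q k τ hτ w) : w * u = v * w := by
  have h1 : q k τ hτ (w * u * w⁻¹) = q k τ hτ v := by
    rw [map_mul, map_mul, h, map_inv]; group
  have h3 : ∃ n, (w * u * w⁻¹ : Gr τ (ea k F)) ^ p ^ n = 1 := by
    obtain ⟨n, hn⟩ := hu
    exact ⟨n, by rw [conj_pow, hn]; simp⟩
  have h2 := Q_inj (IP k τ hτ) p (u := w * u * w⁻¹) (v := v) h3 hv h1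
  rw [← h2]; group

section elems

theorem xs_pu {i : Fin (k + 1)} (hi : (i : ℕ) < k) (t : F) : (xs τ hτ hi t : (IP k τ hτ).K) ∈ pu (IP k τ hτ).K (strb (hNk k) i) :=
  mem_pu.2 (short_pat τ hi t)
theorem ys_pu {i : Fin (k + 1)} (hi : (i : ℕ) < k) (t : F) : (ys τ hτ hi t : (IP k τ hτ).K) ∈ pu (IP k τ hτ).K (str_swap (strb (hNk k) i)) :=
  mem_pu.2 (short_pat' τ hi t)
theorem xl_pu (t : L τ) : (xl τ t : (IP k τ hτ).K) ∈ pu (IP k τ hτ).K (strb (hNk k) (il k)) :=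
  mem_pu.2 (long_pat t.1)
theorem yl_pu (t : L τ) : (yl τ t : (IP k τ hτ).K) ∈ pu (IP k τ hτ).K (str_swap (strb (hNk k) (il k))) :=
  mem_pu.2 (long_pat' t.1)

include p in
theorem pxs {i : Fin (k + 1)} (hi : (i : ℕ) < k) (t : F) : ∃ n, (xs τ hτ hi t) ^ p ^ n = 1 :=
  pE_X (IP k τ hτ) p (xs_pu τ hτ hi t)
include p in
theorem pys {i : Fin (k + 1)} (hi : (i : ℕ) < k) (t : F) : ∃ n, (ys τ hτ hi t) ^ p ^ n = 1 :=
  pE_Y (IP k τ hτ) p (ys_pu τ hτ hi t)
include p hτ in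
theorem pxl (t : L τ) : ∃ n, (xl (k := k) τ t) ^ p ^ n = 1 :=
  pE_X (IP k τ hτ) p (xl_pu τ hτ t)
include p hτ in
theorem pyl (t : L τ) : ∃ n, (yl (k := k) τ t) ^ p ^ n = 1 :=
  pE_Y (IP k τ hτ) p (yl_pu τ hτ t)

/-- rank one, short roots -/
theorem rank_short (β : MulAut (QG (IP k τ hτ))) {i : Fin (k + 1)} (hi : (i : ℕ) < k) (f g : F → F)
    (hf : ∀ t, β (q k τ hτ (xs τ hτ hi t)) = q k τ hτ (xs τ hτ hi (f t)))
    (hg : ∀ t, β (q k τ hτ (ys τ hτ hi t)) = q k τ hτ (ys τ hτ hi (g t))) (h1 : f 1 = 1) :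
    (∀ t, g t = f t) ∧ ∃ σ : F ≃+* F, ∀ t, f t = σ t := by
  obtain ⟨p, hp⟩ := CharP.exists F
  haveI : Fact p.Prime := ⟨CharP.char_is_prime F p⟩
  have mk : ∀ u v : SpecialLinearGroup (Fin (2 * k + 1 + 1)) F, ∀ (hu : u ∈ Gr τ (ea k F)) (hv : v ∈ Gr τ (ea k F)), u = v →
      (⟨u, hu⟩ : Gr τ (ea k F)) = ⟨v, hv⟩ := fun u v hu hv h => Subtype.ext h
  apply RankOne.rank_one_abs (fun t => q k τ hτ (xs τ hτ hi t)) (fun t => q k τ hτ (ys τ hτ hi t)) _ _ _ _ _ _ β f g hf hg h1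
  · intro s t
    rw [← map_mul]
    congr 1
    exact Subtype.ext (RT_add (gp i hi) τ s t)
  · intro s t
    rw [← map_mul]
    congr 1
    exact Subtype.ext (RT_add (gp i hi).symm τ s t)
  · intro s t h
    have := Q_inj (IP k τ hτ) p (pxs τ hτ p hi s) (pxs τ hτ p hi t) h
    exact RT_inj (gp i hi) τ (congrArg Subtype.val this)
  · intro s t h
    have := Q_inj (IP k τ hτ) p (pys τ hτ p hi s) (pys τ hτ p hi t) h
    exact RT_inj (gp i hi).symm τ (congrArg Subtype.val this)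
  · intro t s ht
    simp only [← map_mul]
    congr 1
    exact Subtype.ext (NR_mul (gp i hi) τ ht s)
  · intro a b c r r' hr h
    simp only [← map_mul] at h
    rw [map_mul (q k τ hτ) _ (xs τ hτ hi r), map_mul (q k τ hτ) (ys τ hτ hi r')] at h
    have h2 := conj_inj τ hτ p (pxs τ hτ p hi r) (pys τ hτ p hi r') h
    exact RT_key (gp i hi) τ hr (congrArg Subtype.val h2)

omit [Finite F] [Fact p.Prime] [CharP F p] in
theorem T_key {ι : Type*} [Fintype ι] [DecidableEq ι] {a b : ι} (hab : a ≠ b) {s t u r r' : F} (hr : r ≠ 0)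
    (h : (SpecialLinearGroup.transvection hab s * SpecialLinearGroup.transvection hab.symm t * SpecialLinearGroup.transvection hab u *
      SpecialLinearGroup.transvection hab r : SpecialLinearGroup ι F) =
      SpecialLinearGroup.transvection hab.symm r' * (SpecialLinearGroup.transvection hab s * SpecialLinearGroup.transvection hab.symm t * SpecialLinearGroup.transvection hab u)) :
    1 + s * t = 0 := by
  have e1 : (SpecialLinearGroup.transvection hab s * SpecialLinearGroup.transvection hab.symm t * SpecialLinearGroup.transvection hab u *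
      SpecialLinearGroup.transvection hab r : SpecialLinearGroup ι F) a b =
      (SpecialLinearGroup.transvection hab.symm r' * (SpecialLinearGroup.transvection hab s * SpecialLinearGroup.transvection hab.symm t * SpecialLinearGroup.transvection hab u) : SpecialLinearGroup ι F) a b := by
    rw [h]
  rw [AutPSL.mul_t_apply, AutPSL.t_mul_apply, if_pos rfl, if_neg hab, add_zero] at e1
  have e2 : (SpecialLinearGroup.transvection hab s * SpecialLinearGroup.transvection hab.symm t * SpecialLinearGroup.transvection hab u : SpecialLinearGroup ι F) a a * r = 0 := by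
    linear_combination e1
  have e3 := (mul_eq_zero.1 e2).resolve_right hr
  rw [mul_assoc, AutPSL.t_mul_apply, if_pos rfl, AutPSL.t_mul_apply, AutPSL.t_mul_apply, if_neg hab, if_pos rfl, transvection_apply, transvection_apply] at e3
  simp [hab, hab.symm] at e3
  linear_combination e3

/-- rank one, long root -/
theorem rank_long (β : MulAut (QG (IP k τ hτ))) (f g : L τ → L τ)
    (hf : ∀ t, β (q k τ hτ (xl τ t)) = q k τ hτ (xl τ (f t)))
    (hg : ∀ t, β (q k τ hτ (yl τ t)) = q k τ hτ (yl τ (g t))) (h1 : f 1 = 1) :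
    (∀ t, g t = f t) ∧ ∃ σ : L τ ≃+* L τ, ∀ t, f t = σ t := by
  obtain ⟨p, hp⟩ := CharP.exists F
  haveI : Fact p.Prime := ⟨CharP.char_is_prime F p⟩
  apply RankOne.rank_one_abs (fun t => q k τ hτ (xl τ t)) (fun t => q k τ hτ (yl τ t)) _ _ _ _ _ _ β f g hf hg h1
  · intro s t
    rw [← map_mul]
    congr 1
    exact Subtype.ext (SpecialLinearGroup.transvection_add (pab (il k)) s.1 t.1)
  · intro s t
    rw [← map_mul]
    congr 1
    exact Subtype.ext (SpecialLinearGroup.transvection_add (pab (il k)).symm s.1 t.1)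
  · intro s t h
    have := Q_inj (IP k τ hτ) p (pxl τ hτ p s) (pxl τ hτ p t) h
    exact Subtype.ext (T_inj (pab (il k)) (congrArg Subtype.val this))
  · intro s t h
    have := Q_inj (IP k τ hτ) p (pyl τ hτ p s) (pyl τ hτ p t) h
    exact Subtype.ext (T_inj (pab (il k)).symm (congrArg Subtype.val this))
  · intro t s ht
    simp only [← map_mul]
    congr 1
    exact Subtype.ext (nn_mul (pab (il k)) (fun h => ht (Subtype.ext h)) s.1)
  · intro a b c r r' hr h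
    simp only [← map_mul] at h
    rw [map_mul (q k τ hτ) _ (xl τ r), map_mul (q k τ hτ) (yl τ r')] at h
    have h2 := conj_inj τ hτ p (pxl τ hτ p r) (pyl τ hτ p r') h
    have h3 := T_key (pab (il k)) (fun h => hr (Subtype.ext h)) (congrArg Subtype.val h2)
    exact Subtype.ext h3

end elems

/-- unipotent elements -/
theorem pU {u : Gr τ (ea k F)} (h : u.1 ∈ U (2 * k + 1) F) : ∃ n, u ^ p ^ n = 1 := by
  obtain ⟨n, hn⟩ := pE (isP (F := F) (m := 2 * k + 1) (p := p)) h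
  exact ⟨n, Subtype.ext hn⟩

theorem xsU {i : Fin (k + 1)} (hi : (i : ℕ) < k) (t : F) : (xs τ hτ hi t).1 ∈ U (2 * k + 1) F :=
  patU_le_iff.2 (fun a b h => h.1) (short_pat τ hi t)
theorem xlU (t : L τ) : (xl (k := k) τ t).1 ∈ U (2 * k + 1) F :=
  patU_le_iff.2 (fun a b h => h.1) (long_pat t.1)

/-- comparison of neighbouring short roots -/
theorem nb_short (β : MulAut (QG (IP k τ hτ))) {i j : Fin (k + 1)} (hi : (i : ℕ) < k) (hj : (j : ℕ) < k) (hij : (i : ℕ) + 1 = j) (f g : F → F)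
    (hf : ∀ t, β (q k τ hτ (xs τ hτ hi t)) = q k τ hτ (xs τ hτ hi (f t)))
    (hg : ∀ t, β (q k τ hτ (xs τ hτ hj t)) = q k τ hτ (xs τ hτ hj (g t))) (h1 : f 1 = 1) (h1' : g 1 = 1) (t : F) : f t = g t := by
  obtain ⟨p, hp⟩ := CharP.exists F
  haveI : Fact p.Prime := ⟨CharP.char_is_prime F p⟩
  have hpb : pb i = pa j := by ext; rw [pa_val, pb_val, hij]
  have hg3 : GP (pa i) (pb j) := by
    constructor
    · intro h; have := congrArg Fin.val h; rw [pa_val, pb_val] at this; omega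
    · intro h; have := congrArg Fin.val h; rw [rev_val, pa_val, pb_val] at this; omega
    · exact (gp i hi).aa
    · exact (gp j hj).bb
  have hgi : GP (pa i) (pa j) := hpb ▸ gp i hi
  have cm : ∀ s t : F, (⁅xs τ hτ hi s, xs τ hτ hj t⁆ : Gr τ (ea k F)).1 = RT τ hg3.ab (s * t) := by
    intro s t
    have e : (⁅xs τ hτ hi s, xs τ hτ hj t⁆ : Gr τ (ea k F)).1 = ⁅RT τ (gp i hi).ab s, RT τ (gp j hj).ab t⁆ := rfl
    rw [e]
    have e2 : RT τ (gp i hi).ab s = RT τ hgi.ab s := by congr 1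
    rw [e2]
    exact comm_A2 τ hgi (gp j hj) hg3 s t
  have c1 : ⁅xs τ hτ hi t, xs τ hτ hj (1 : F)⁆ = ⁅xs τ hτ hi (1 : F), xs τ hτ hj t⁆ := by
    apply Subtype.ext
    rw [cm, cm, mul_one, one_mul]
  have c2 := congrArg (fun z => β (q k τ hτ z)) c1
  simp only [map_commutatorElement, hf, hg, h1, h1'] at c2
  rw [← map_commutatorElement, ← map_commutatorElement] at c2
  have hU : ∀ s t, (⁅xs τ hτ hi s, xs τ hτ hj t⁆ : Gr τ (ea k F)).1 ∈ U (2 * k + 1) F := by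
    intro s t
    have e : (⁅xs τ hτ hi s, xs τ hτ hj t⁆ : Gr τ (ea k F)).1 = ⁅(xs τ hτ hi s).1, (xs τ hτ hj t).1⁆ := rfl
    rw [e, commutatorElement_def]
    exact mul_mem (mul_mem (mul_mem (xsU τ hτ hi s) (xsU τ hτ hj t)) (inv_mem (xsU τ hτ hi s))) (inv_mem (xsU τ hτ hj t))
  have c3 := Q_inj (IP k τ hτ) p (pU τ p (hU (f t) 1)) (pU τ p (hU 1 (g t))) c2
  have c4 := congrArg Subtype.val c3
  have c5 : RT τ hg3.ab (f t * 1) = RT τ hg3.ab (1 * g t) := by rw [← cm, ← cm]; exact c4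
  have := RT_inj hg3 τ c5
  simpa using this

/-- comparison with the long root -/
theorem nb_long (β : MulAut (QG (IP k τ hτ))) {i : Fin (k + 1)} (hi : (i : ℕ) < k) (hik : (i : ℕ) + 1 = k) (f g : F → F) (f' : L τ → L τ)
    (hf : ∀ t, β (q k τ hτ (xs τ hτ hi t)) = q k τ hτ (xs τ hτ hi (f t)))
    (hg : ∀ t, β (q k τ hτ (ys τ hτ hi t)) = q k τ hτ (ys τ hτ hi (g t)))
    (hf' : ∀ t, β (q k τ hτ (xl τ t)) = q k τ hτ (xl τ (f' t))) (h1 : f 1 = 1) (hm1 : g (-1) = -1) (h1' : f' 1 = 1) (t : L τ) : f t = (f' t).1 := by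
  obtain ⟨p, hp⟩ := CharP.exists F
  haveI : Fact p.Prime := ⟨CharP.char_is_prime F p⟩
  obtain ⟨a, ha⟩ : ∃ a, a = pa i := ⟨_, rfl⟩
  obtain ⟨b, hb⟩ : ∃ b, b = pb i := ⟨_, rfl⟩
  have hgp : GP a b := by rw [ha, hb]; exact gp i hi
  have hbl : pa (il k) = b := by rw [hb]; ext; rw [pa_val, pb_val, hik]; rfl
  have hbl' : pb (il k) = Fin.rev b := by rw [← hbl, rev_pa_il]
  have exs : ∀ t, (xs τ hτ hi t).1 = RT τ hgp.ab t := by
    subst ha; subst hb
    intro t; rfl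
  have eys : ∀ t, (ys τ hτ hi t).1 = RT τ hgp.symm.ab t := by
    subst ha; subst hb
    intro t; rfl
  have exl : ∀ t : L τ, (xl (k := k) τ t).1 = SpecialLinearGroup.transvection hgp.bb t.1 := by
    intro t
    show SpecialLinearGroup.transvection (pab (il k)) t.1 = _
    congr 1
  -- commutators
  have cm : ∀ (s : F) (u : L τ), (⁅xs τ hτ hi s, xl (k := k) τ u⁆ : Gr τ (ea k F)).1 =
      SpecialLinearGroup.transvection hgp.aa (s * (u * τ s)) * SpecialLinearGroup.transvection hgp.ba' (u * τ s) * SpecialLinearGroup.transvection hgp.ab' (s * u) := by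
    intro s u
    have e : (⁅xs τ hτ hi s, xl (k := k) τ u⁆ : Gr τ (ea k F)).1 = ⁅(xs τ hτ hi s).1, (xl (k := k) τ u).1⁆ := rfl
    rw [e, exs, exl]
    exact comm_B2 τ hgp s u
  have ent : ∀ x y z : F, (SpecialLinearGroup.transvection hgp.aa x * SpecialLinearGroup.transvection hgp.ba' y * SpecialLinearGroup.transvection hgp.ab' z : SpecialLinearGroup (Fin (2 * k + 1 + 1)) F) a (Fin.rev b) = z := by
    intro x y z
    have hne : Fin.rev a ≠ Fin.rev b := fun e => hgp.ab (Fin.rev_injective e)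
    rw [AutPSL.mul_t_apply, AutPSL.t_mul_apply, AutPSL.t_mul_apply]
    simp only [transvection_apply, if_pos rfl]
    simp [hne, hne.symm, hgp.ab, hgp.ab', hgp.ab.symm, hgp.aa, hgp.ba', hgp.ba'.symm, hgp.aa.symm]
  -- the reflection
  have hsr : β (q k τ hτ (sr τ hτ i)) = q k τ hτ (sr τ hτ i) := by
    rw [sr_short τ hτ hi, map_mul, map_mul, map_mul, map_mul, hf, hg, h1, hm1]
  have hmono : Mono (sr τ hτ i).1 (sg (hNk k) i) := sr_mono τ hτ i
  have hsa : sg (hNk k) i b = a := by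
    ext
    rw [sg_val, ha, hb, pa_val, pb_val]
    unfold sv; split_ifs <;> omega
  have hsa' : sg (hNk k) i (Fin.rev b) = Fin.rev a := by rw [sg_com, hsa]
  have hsb : sg (hNk k) i a = b := by rw [← hsa, sg_sg]
  have hsb' : sg (hNk k) i (Fin.rev a) = Fin.rev b := by rw [sg_com, hsb]
  -- T_{aa'}(v)
  have hW1 : ∀ v : L τ, ∃ v' : F, ((sr τ hτ i) * xl τ v * (sr τ hτ i)⁻¹ : Gr τ (ea k F)).1 = SpecialLinearGroup.transvection hgp.aa v' := by
    intro v
    obtain ⟨v', hv'⟩ := AutPSL.mono_t hmono hgp.bb (by rw [hsa, hsa']; exact hgp.aa) v.1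
    refine ⟨v', ?_⟩
    have e : ((sr τ hτ i) * xl τ v * (sr τ hτ i)⁻¹ : Gr τ (ea k F)).1 = (sr τ hτ i).1 * (xl (k := k) τ v).1 * (sr τ hτ i).1⁻¹ := rfl
    rw [e, exl, hv']
    congr 1
  have hW2 : ∀ v : L τ, ∃ w : Gr τ (ea k F), w.1 = SpecialLinearGroup.transvection hgp.aa v.1 ∧ ∃ v' : F, ∃ w' : Gr τ (ea k F), w'.1 = SpecialLinearGroup.transvection hgp.aa v' ∧
      β (q k τ hτ w) = q k τ hτ w' := by
    intro v
    have hmem : SpecialLinearGroup.transvection hgp.aa v.1 ∈ Gr τ (ea k F) := by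
      rw [mem_Gr, Th_t]
      ext i' j'
      rw [transvection_apply, transvection_apply, Fin.rev_rev]
      have e1 : ea k F a = -1 := ea_lo (by rw [ha, pa_val]; omega)
      have e2 : ea k F (Fin.rev a) = 1 := ea_hi (by rw [rev_val, ha, pa_val]; omega)
      have e3 : τ v.1 = v.1 := v.2
      rw [e1, e2, e3]
      simp
    obtain ⟨v1, hv1⟩ := AutPSL.mono_t hmono.inv hgp.aa (by rw [sg_inv, hsb, hsb']; exact hgp.bb) v.1
    have e1 : ((sr τ hτ i)⁻¹ * (⟨_, hmem⟩ : Gr τ (ea k F)) * (sr τ hτ i)).1 = SpecialLinearGroup.transvection hgp.bb v1 := by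
      have e : ((sr τ hτ i)⁻¹ * (⟨_, hmem⟩ : Gr τ (ea k F)) * (sr τ hτ i)).1 = (sr τ hτ i).1⁻¹ * SpecialLinearGroup.transvection hgp.aa v.1 * (sr τ hτ i).1⁻¹⁻¹ := by
        rw [inv_inv]; rfl
      rw [e, hv1]
      congr 1
    have hv1L : τ v1 = v1 := by
      have h5 := ((sr τ hτ i)⁻¹ * (⟨_, hmem⟩ : Gr τ (ea k F)) * (sr τ hτ i)).2
      rw [e1] at h5
      have h6 : (SpecialLinearGroup.transvection hgp.bb v1 : SpecialLinearGroup (Fin (2 * k + 1 + 1)) F) = SpecialLinearGroup.transvection (pab (il k)) v1 := by congr 1 <;> simp [hbl, hbl']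
      rw [h6, mem_Gr, Th_long] at h5
      exact T_inj _ h5
    have e2 : (⟨_, hmem⟩ : Gr τ (ea k F)) = sr τ hτ i * xl τ ⟨v1, hv1L⟩ * (sr τ hτ i)⁻¹ := by
      have e3 : xl (k := k) τ ⟨v1, hv1L⟩ = (sr τ hτ i)⁻¹ * (⟨_, hmem⟩ : Gr τ (ea k F)) * (sr τ hτ i) := by
        apply Subtype.ext
        rw [e1, exl]
      rw [e3]; group
    obtain ⟨v', hv'⟩ := hW1 (f' ⟨v1, hv1L⟩)
    refine ⟨⟨_, hmem⟩, rfl, v', _, hv', ?_⟩
    rw [e2]
    simp only [map_mul, map_inv, hsr, hf']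
  have hvL : t.1 * t.1 - t.1 ∈ L τ := by
    rw [mem_L, map_sub, map_mul]
    have e3 : τ t.1 = t.1 := t.2
    rw [e3]
  obtain ⟨w, hw, v', w', hw', hβw⟩ := hW2 ⟨_, hvL⟩
  have c1 : ⁅xs τ hτ hi t.1, xl τ 1⁆ = w * ⁅xs τ hτ hi 1, xl τ t⁆ := by
    apply Subtype.ext
    have e : (w * ⁅xs τ hτ hi 1, xl τ t⁆ : Gr τ (ea k F)).1 = w.1 * (⁅xs τ hτ hi 1, xl τ t⁆ : Gr τ (ea k F)).1 := rfl
    rw [e, cm, cm, hw]
    simp only [← mul_assoc]
    rw [← SpecialLinearGroup.transvection_add]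
    have e3 : τ t.1 = t.1 := t.2
    have e4 : ((1 : L τ) : F) = 1 := rfl
    rw [e3, e4, map_one]
    simp only [one_mul, mul_one, sub_add_cancel]
  have c2 := congrArg (fun z => β (q k τ hτ z)) c1
  simp only [map_mul, map_commutatorElement, hf, hf', h1, h1', hβw] at c2
  rw [← map_commutatorElement, ← map_commutatorElement, ← map_mul] at c2
  have hU : ∀ s t, (⁅xs τ hτ hi s, xl τ t⁆ : Gr τ (ea k F)).1 ∈ U (2 * k + 1) F := by
    intro s t
    have e : (⁅xs τ hτ hi s, xl τ t⁆ : Gr τ (ea k F)).1 = ⁅(xs τ hτ hi s).1, (xl (k := k) τ t).1⁆ := rfl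
    rw [e, commutatorElement_def]
    exact mul_mem (mul_mem (mul_mem (xsU τ hτ hi s) (xlU τ t)) (inv_mem (xsU τ hτ hi s))) (inv_mem (xlU τ t))
  have hwU : w'.1 ∈ U (2 * k + 1) F := by
    rw [hw']
    apply transvection_mem_patU
    rw [Fin.lt_def, rev_val, ha, pa_val]; omega
  have c3 := Q_inj (IP k τ hτ) p (pU τ p (hU (f t) 1)) (pU τ p (u := w' * ⁅xs τ hτ hi 1, xl τ (f' t)⁆) (mul_mem hwU (hU 1 (f' t)))) c2
  have c4 : (⁅xs τ hτ hi (f t), xl τ 1⁆ : Gr τ (ea k F)).1 a (Fin.rev b) = (w' * ⁅xs τ hτ hi 1, xl τ (f' t)⁆ : Gr τ (ea k F)).1 a (Fin.rev b) := by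
    rw [c3]
  have e5 : (w' * ⁅xs τ hτ hi 1, xl τ (f' t)⁆ : Gr τ (ea k F)).1 = w'.1 * (⁅xs τ hτ hi 1, xl τ (f' t)⁆ : Gr τ (ea k F)).1 := rfl
  rw [e5, cm, cm, hw'] at c4
  simp only [← mul_assoc] at c4
  rw [← SpecialLinearGroup.transvection_add, ent, ent] at c4
  have e4 : ((1 : L τ) : F) = 1 := rfl
  rw [e4, mul_one, one_mul] at c4
  exact c4

end Cfsg.Agent.H8.GrEven
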