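import Mathlib
import Cfsg.Agent.H8.GrEven2

set_option autoImplicit false
set_option linter.all false

/-! Automorphisms of `PSp_{2m}` and `PSU_{2m}`: main theorem. -/

namespace Cfsg.Agent.H8.GrEven

open scoped commutatorElement
open Matrix Pointwise Cfsg.Agent.H8.AutBN Cfsg.Agent.H8.SLPat Cfsg.Agent.H8.SLTri Cfsg.Agent.H8.SLData
  Cfsg.Agent.H8.Theta Cfsg.Agent.H8.GrComb Cfsg.Agent.H8.GrData Cfsg.Agent.H8.GrShort Cfsg.Agent.H8.GrPi
  Cfsg.Agent.H8.GrStd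

variable {k : ℕ} {F : Type*} [Field F] [Finite F] (τ : F ≃+* F) (hτ : ∀ t, τ (τ t) = t)

omit [Finite F] in
theorem ea_fix (σ : F ≃+* F) (a : Fin (2 * k + 1 + 1)) : σ (ea k F a) = ea k F a := by
  unfold ea
  split_ifs <;> simp

/-- induced automorphisms -/
noncomputable def iq (k : ℕ) {F : Type*} [Field F] [Finite F] (τ : F ≃+* F) (hτ : ∀ t, τ (τ t) = t) :
    MulAut (Gr τ (ea k F)) →* MulAut (QG (IP k τ hτ)) := indG (G := Gr τ (ea k F))

theorem iq_apply (φ : MulAut (Gr τ (ea k F))) (s : Gr τ (ea k F)) : iq k τ hτ φ (q k τ hτ s) = q k τ hτ (φ s) := rfl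

theorem iq_inv_apply (φ : MulAut (Gr τ (ea k F))) (s : Gr τ (ea k F)) : (iq k τ hτ φ)⁻¹ (q k τ hτ (φ s)) = q k τ hτ s := by
  rw [← iq_apply, MulAut.inv_apply_self]

/-- the field automorphism of `Gr` -/
noncomputable def flK (σ : F ≃+* F) : MulAut (Gr τ (ea k F)) := res (Gr τ (ea k F)) (AutPSL.fl σ) (fl_mem (fun σ a => ea_fix σ a) σ)

/-- conjugation by a similitude -/
noncomputable def cgK (g : GL (Fin (2 * k + 1 + 1)) F) (hg : g ∈ GJ τ (Jm (ea k F)).1) : MulAut (Gr τ (ea k F)) :=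
  res (Gr τ (ea k F)) (AutPSL.cg g) (cg_mem hg)

omit [Finite F] in
theorem fl_T {ι : Type*} [Fintype ι] [DecidableEq ι] (σ : F ≃+* F) {a b : ι} (h : a ≠ b) (t : F) :
    AutPSL.fl σ (SpecialLinearGroup.transvection h t) = SpecialLinearGroup.transvection h (σ t) := by
  ext i j
  show σ ((SpecialLinearGroup.transvection h t : SpecialLinearGroup ι F) i j) = _
  rw [transvection_apply, transvection_apply]
  split_ifs <;> simp

theorem flK_xs (σ : F ≃+* F) {i : Fin (k + 1)} (hi : (i : ℕ) < k) (t : F) : flK τ σ (xs τ hτ hi t) = xs τ hτ hi (σ t) := by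
  apply Subtype.ext
  show AutPSL.fl σ (RT τ (gp i hi).ab t) = RT τ (gp i hi).ab (σ t)
  rw [RT, RT, map_mul, fl_T, fl_T, map_neg, comm_gal]

theorem flK_ys (σ : F ≃+* F) {i : Fin (k + 1)} (hi : (i : ℕ) < k) (t : F) : flK τ σ (ys τ hτ hi t) = ys τ hτ hi (σ t) := by
  apply Subtype.ext
  show AutPSL.fl σ (RT τ (gp i hi).symm.ab t) = RT τ (gp i hi).symm.ab (σ t)
  rw [RT, RT, map_mul, fl_T, fl_T, map_neg, comm_gal]

theorem main0 (hk : 0 < k) (β : MulAut (QG (IP k τ hτ))) (f g : ∀ i : Fin (k + 1), (i : ℕ) < k → F → F) (f' g' : L τ → L τ)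
    (hf : ∀ i hi t, β (q k τ hτ (xs τ hτ (i := i) hi t)) = q k τ hτ (xs τ hτ hi (f i hi t)))
    (hg : ∀ i hi t, β (q k τ hτ (ys τ hτ (i := i) hi t)) = q k τ hτ (ys τ hτ hi (g i hi t)))
    (hf' : ∀ t, β (q k τ hτ (xl τ t)) = q k τ hτ (xl τ (f' t)))
    (hg' : ∀ t, β (q k τ hτ (yl τ t)) = q k τ hτ (yl τ (g' t)))
    (h1 : ∀ i hi, f i hi 1 = 1) (h1' : f' 1 = 1) :
    ∃ σ : F ≃+* F, β = iq k τ hτ (flK τ σ) := by
  obtain ⟨p, hp⟩ := CharP.exists F
  haveI : Fact p.Prime := ⟨CharP.char_is_prime F p⟩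
  have A := fun i hi => rank_short τ hτ β (i := i) hi (f i hi) (g i hi) (hf i hi) (hg i hi) (h1 i hi)
  have B := rank_long τ hτ β f' g' hf' hg' h1'
  have C : ∀ (j : ℕ) (hj : j < k) (t : F), f ⟨j, by omega⟩ hj t = f ⟨0, by omega⟩ hk t := by
    intro j
    induction j with
    | zero => intro hj t; rfl
    | succ j ih =>
      intro hj t
      rw [← ih (by omega) t]
      exact (nb_short τ hτ β (i := ⟨j, by omega⟩) (j := ⟨j + 1, by omega⟩) (by show j < k; omega) hj rfl _ _ (hf _ _) (hf _ _) (h1 _ _) (h1 _ _) t).symm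
  obtain ⟨σ, hσ⟩ := (A ⟨0, by omega⟩ hk).2
  have D : ∀ (i : Fin (k + 1)) (hi : (i : ℕ) < k) (t : F), f i hi t = σ t := by
    intro i hi t
    have := C i hi t
    rw [← hσ, ← this]
  have E : ∀ t : L τ, σ t.1 = (f' t).1 := by
    intro t
    have hg1 : g ⟨k - 1, by omega⟩ (by show k - 1 < k; omega) (-1) = -1 := by
      rw [(A _ _).1, D]; simp
    have := nb_long τ hτ β (i := ⟨k - 1, by omega⟩) (by show k - 1 < k; omega) (by show k - 1 + 1 = k; omega) _ _ f' (hf _ _) (hg _ _) hf' (h1 _ _) hg1 h1' t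
    rw [← D ⟨k - 1, by omega⟩ (by show k - 1 < k; omega)]
    exact this
  refine ⟨σ, ?_⟩
  have hfin : (iq k τ hτ (flK (k := k) τ σ))⁻¹ * β = 1 := by
    apply rigid (IP k τ hτ) p
    · intro i x hx
      rcases il_or i with hi | rfl
      · obtain ⟨t, rfl⟩ := form_short τ hτ hi hx
        rw [MulAut.mul_apply]
        show (iq k τ hτ (flK (k := k) τ σ))⁻¹ (β (q k τ hτ (xs τ hτ hi t))) = q k τ hτ (xs τ hτ hi t)
        rw [hf, D, ← flK_xs τ hτ σ]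
        exact iq_inv_apply τ hτ (flK (k := k) τ σ) (xs τ hτ hi t)
      · obtain ⟨t, rfl⟩ := form_long τ hτ hx
        rw [MulAut.mul_apply]
        show (iq k τ hτ (flK (k := k) τ σ))⁻¹ (β (q k τ hτ (xl τ t))) = q k τ hτ (xl τ t)
        have e : xl (k := k) τ (f' t) = flK τ σ (xl τ t) := by
          apply Subtype.ext
          show SpecialLinearGroup.transvection (pab (il k)) (f' t).1 = AutPSL.fl σ (SpecialLinearGroup.transvection (pab (il k)) t.1)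
          rw [fl_T, E]
        rw [hf', e]
        exact iq_inv_apply τ hτ (flK (k := k) τ σ) (xl τ t)
    · intro i x hx
      rcases il_or i with hi | rfl
      · obtain ⟨t, rfl⟩ := form_short' τ hτ hi hx
        rw [MulAut.mul_apply]
        show (iq k τ hτ (flK (k := k) τ σ))⁻¹ (β (q k τ hτ (ys τ hτ hi t))) = q k τ hτ (ys τ hτ hi t)
        rw [hg, (A i hi).1, D, ← flK_ys τ hτ σ]
        exact iq_inv_apply τ hτ (flK (k := k) τ σ) (ys τ hτ hi t)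
      · obtain ⟨t, rfl⟩ := form_long' τ hτ hx
        rw [MulAut.mul_apply]
        show (iq k τ hτ (flK (k := k) τ σ))⁻¹ (β (q k τ hτ (yl τ t))) = q k τ hτ (yl τ t)
        have e : yl (k := k) τ (g' t) = flK τ σ (yl τ t) := by
          apply Subtype.ext
          show SpecialLinearGroup.transvection (pab (il k)).symm (g' t).1 = AutPSL.fl σ (SpecialLinearGroup.transvection (pab (il k)).symm t.1)
          rw [fl_T, E, B.1]
        rw [hg', e]
        exact iq_inv_apply τ hτ (flK (k := k) τ σ) (yl τ t)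
  rw [inv_mul_eq_one] at hfin
  exact hfin.symm

omit [Finite F] in
/-- diagonal similitudes -/
theorem dg_mem {N : ℕ} (ε e : Fin (N + 1) → Fˣ) (μ : Fˣ) (h : ∀ a, (e a : F) * τ (e (Fin.rev a)) = μ) : AutPSL.dg e ∈ GJ τ (Jm ε).1 := by
  refine ⟨μ, ?_⟩
  have h1 : (AutPSL.dg e).1 = Matrix.diagonal (fun i => (e i : F)) := rfl
  rw [h1, Matrix.diagonal_map (map_zero _), Matrix.diagonal_transpose]
  ext i j
  rw [Matrix.mul_diagonal, Matrix.diagonal_mul, Matrix.smul_apply, smul_eq_mul, Jm_coe, Jf_apply]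
  by_cases hij : j = Fin.rev i
  · subst hij
    rw [if_pos rfl]
    have := h i
    show (e i : F) * (ε i : F) * τ (e (Fin.rev i)) = _
    rw [← this]; ring
  · rw [if_neg hij]; ring

omit [Finite F] in
theorem cg_RT {N : ℕ} (e : Fin (N + 1) → Fˣ) (μ : Fˣ) (h : ∀ a, (e a : F) * τ (e (Fin.rev a)) = μ) (hμ : τ (μ : F) = μ) (hτ : ∀ t, τ (τ t) = t)
    {a b : Fin (N + 1)} (hab : a ≠ b) (t : F) :
    AutPSL.cg (AutPSL.dg e) (RT τ hab t) = RT τ hab ((e a : F) * t * ((e b)⁻¹ : Fˣ)) := by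
  rw [RT, RT, map_mul, AutPSL.cg_dg, AutPSL.cg_dg]
  congr 1
  congr 1
  have h1 := h (Fin.rev b)
  have h2 := h a
  rw [Fin.rev_rev] at h1
  have e1 : ((e (Fin.rev b) : Fˣ) : F) = μ * (τ (e b : F))⁻¹ := by
    rw [← h1, mul_inv_cancel_right₀]
    rw [Ne, map_eq_zero_iff τ τ.injective]; exact (e b).ne_zero
  have h3 := congrArg τ h2
  rw [map_mul, hτ, hμ] at h3
  have e2 : (((e (Fin.rev a))⁻¹ : Fˣ) : F) = (μ : F)⁻¹ * τ (e a : F) := by
    rw [Units.val_inv_eq_inv_val, ← h3, mul_inv]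
    have : τ (e a : F) ≠ 0 := by rw [Ne, map_eq_zero_iff τ τ.injective]; exact (e a).ne_zero
    field_simp
  rw [e1, e2, map_mul, map_mul, Units.val_inv_eq_inv_val, map_inv₀]
  have hm : (μ : F) ≠ 0 := μ.ne_zero
  field_simp

theorem res_congr {S : Type*} [Group S] (K : Subgroup S) (φ ψ : MulAut S) (h : ∀ s, φ s ∈ K ↔ s ∈ K) (h' : ∀ s, ψ s ∈ K ↔ s ∈ K) (e : φ = ψ) :
    res K φ h = res K ψ h' := by
  subst e; rfl

/-- the normalisation of the parameters -/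
theorem main1 (hk : 0 < k) (β : MulAut (QG (IP k τ hτ))) (p : ℕ) [Fact p.Prime] [CharP F p]
    (hX : ∀ i, β • (qd (IP k τ hτ) p).X i = (qd (IP k τ hτ) p).X i) (hY : ∀ i, β • (qd (IP k τ hτ) p).Y i = (qd (IP k τ hτ) p).Y i) :
    ∃ (g : GL (Fin (2 * k + 1 + 1)) F) (hg : g ∈ GJ τ (Jm (ea k F)).1) (σ : F ≃+* F), β = iq k τ hτ (cgK τ g hg * flK τ σ) := by
  have hx : ∀ i, ∀ x ∈ pu (IP k τ hτ).K (strb (hNk k) i), ∃ y ∈ pu (IP k τ hτ).K (strb (hNk k) i), β (q k τ hτ x) = q k τ hτ y := by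
    intro i x hx
    have h1 : β (q k τ hτ x) ∈ β • (qd (IP k τ hτ) p).X i := Subgroup.smul_mem_pointwise_smul _ β _ ((mem_qX (IP k τ hτ) p i _).2 ⟨x, hx, rfl⟩)
    rw [hX] at h1
    exact (mem_qX (IP k τ hτ) p i _).1 h1
  have hy : ∀ i, ∀ x ∈ pu (IP k τ hτ).K (str_swap (strb (hNk k) i)), ∃ y ∈ pu (IP k τ hτ).K (str_swap (strb (hNk k) i)), β (q k τ hτ x) = q k τ hτ y := by
    intro i x hx
    have h1 : β (q k τ hτ x) ∈ β • (qd (IP k τ hτ) p).Y i := Subgroup.smul_mem_pointwise_smul _ β _ ((mem_qY (IP k τ hτ) p i _).2 ⟨x, hx, rfl⟩)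
    rw [hY] at h1
    exact (mem_qY (IP k τ hτ) p i _).1 h1
  have h1 : ∀ (i : Fin (k + 1)) (hi : (i : ℕ) < k) (t : F), ∃ t', β (q k τ hτ (xs τ hτ hi t)) = q k τ hτ (xs τ hτ hi t') := by
    intro i hi t
    obtain ⟨y, hy1, hy2⟩ := hx i _ (xs_pu τ hτ hi t)
    obtain ⟨t', rfl⟩ := form_short τ hτ hi hy1
    exact ⟨t', hy2⟩
  have h2 : ∀ (i : Fin (k + 1)) (hi : (i : ℕ) < k) (t : F), ∃ t', β (q k τ hτ (ys τ hτ hi t)) = q k τ hτ (ys τ hτ hi t') := by
    intro i hi t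
    obtain ⟨y, hy1, hy2⟩ := hy i _ (ys_pu τ hτ hi t)
    obtain ⟨t', rfl⟩ := form_short' τ hτ hi hy1
    exact ⟨t', hy2⟩
  have h3 : ∀ (t : L τ), ∃ t', β (q k τ hτ (xl τ t)) = q k τ hτ (xl τ t') := by
    intro t
    obtain ⟨y, hy1, hy2⟩ := hx _ _ (xl_pu τ hτ t)
    obtain ⟨t', rfl⟩ := form_long τ hτ hy1
    exact ⟨t', hy2⟩
  have h4 : ∀ (t : L τ), ∃ t', β (q k τ hτ (yl τ t)) = q k τ hτ (yl τ t') := by
    intro t
    obtain ⟨y, hy1, hy2⟩ := hy _ _ (yl_pu τ hτ t)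
    obtain ⟨t', rfl⟩ := form_long' τ hτ hy1
    exact ⟨t', hy2⟩
  choose f hf using h1
  choose g hg using h2
  choose f' hf' using h3
  choose g' hg' using h4
  have hne : ∀ i hi, f i hi 1 ≠ 0 := by
    intro i hi h
    have e : β (q k τ hτ (xs τ hτ hi 1)) = β (q k τ hτ (xs τ hτ hi 0)) := by
      rw [hf, h]
      have e0 : xs τ hτ hi 0 = 1 := Subtype.ext (RT_zero (gp i hi) τ)
      rw [e0, map_one, map_one]
    have e2 := Q_inj (IP k τ hτ) p (pxs τ hτ p hi 1) (pxs τ hτ p hi 0) (β.injective e)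
    exact one_ne_zero (RT_inj (gp i hi) τ (congrArg Subtype.val e2))
  have hne' : (f' 1).1 ≠ 0 := by
    intro h
    have e : β (q k τ hτ (xl τ 1)) = β (q k τ hτ (xl τ 0)) := by
      rw [hf']
      have e0 : xl (k := k) τ 0 = 1 := Subtype.ext (SpecialLinearGroup.transvection_coeff_zero (pab (il k)))
      have e1 : f' 1 = 0 := Subtype.ext h
      rw [e1, e0, map_one, map_one]
    have e2 := Q_inj (IP k τ hτ) p (pxl τ hτ p 1) (pxl τ hτ p 0) (β.injective e)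
    have e3 : (1 : F) = 0 := T_inj (pab (il k)) (congrArg Subtype.val e2)
    exact one_ne_zero e3
  -- the diagonal matrix
  let u : ℕ → Fˣ := fun j => if h : j < k then Units.mk0 _ (hne ⟨j, by omega⟩ h) else 1
  let E : ℕ → Fˣ := fun n => ∏ j ∈ Finset.range n, u j
  have hE : ∀ n, E (n + 1) = E n * u n := fun n => Finset.prod_range_succ _ _
  let μ : Fˣ := E k * Units.map (τ : F →* F) (E k) * Units.mk0 _ hne'
  have hμ : τ (μ : F) = μ := by
    have e1 : (μ : F) = (E k : F) * τ (E k : F) * (f' 1).1 := rfl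
    rw [e1, map_mul, map_mul, hτ]
    have e2 : τ (f' 1).1 = (f' 1).1 := (f' 1).2
    rw [e2]; ring
  let e : Fin (2 * k + 1 + 1) → Fˣ := fun z => if (z : ℕ) ≤ k then E z else μ * (Units.map (τ : F →* F) (E (2 * k + 1 - z)))⁻¹
  have he_lo : ∀ z : Fin (2 * k + 1 + 1), (z : ℕ) ≤ k → e z = E z := fun z h => if_pos h
  have he_hi : ∀ z : Fin (2 * k + 1 + 1), k < (z : ℕ) → (e z : F) = μ * (τ (E (2 * k + 1 - z) : F))⁻¹ := by
    intro z h
    have : e z = μ * (Units.map (τ : F →* F) (E (2 * k + 1 - z)))⁻¹ := if_neg (by omega)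
    rw [this, Units.val_mul, Units.val_inv_eq_inv_val]; rfl
  have hne2 : ∀ n, τ (E n : F) ≠ 0 := by
    intro n; rw [Ne, map_eq_zero_iff τ τ.injective]; exact (E n).ne_zero
  have hsim : ∀ a, (e a : F) * τ (e (Fin.rev a)) = μ := by
    intro a
    rcases le_or_gt (a : ℕ) k with h | h
    · rw [he_lo a h, he_hi (Fin.rev a) (by rw [rev_val]; omega), map_mul, map_inv₀, hτ, hμ, rev_val]
      have e1 : 2 * k + 1 - (2 * k + 1 - (a : ℕ)) = a := by have := a.2; omega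
      rw [e1]
      have := (E (a : ℕ)).ne_zero
      field_simp
    · rw [he_hi a h, he_lo (Fin.rev a) (by rw [rev_val]; omega), rev_val]
      have := hne2 (2 * k + 1 - (a : ℕ))
      field_simp
  have hdg := dg_mem τ (ea k F) e μ hsim
  have hea : ∀ (i : Fin (k + 1)), e (pa i) = E i := fun i => he_lo _ (by rw [pa_val]; omega)
  have heb : ∀ (i : Fin (k + 1)) (hi : (i : ℕ) < k), e (pb i) = E (i + 1) := fun i hi => he_lo _ (by rw [pb_val]; omega)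
  have k1 : ∀ (i : Fin (k + 1)) (hi : (i : ℕ) < k) t, cgK τ _ hdg (xs τ hτ hi t) = xs τ hτ hi ((e (pa i) : F) * t * ((e (pb i))⁻¹ : Fˣ)) := by
    intro i hi t
    exact Subtype.ext (cg_RT τ e μ hsim hμ hτ (gp i hi).ab t)
  have k2 : ∀ (i : Fin (k + 1)) (hi : (i : ℕ) < k) t, cgK τ _ hdg (ys τ hτ hi t) = ys τ hτ hi ((e (pb i) : F) * t * ((e (pa i))⁻¹ : Fˣ)) := by
    intro i hi t
    exact Subtype.ext (cg_RT τ e μ hsim hμ hτ (gp i hi).symm.ab t)
  -- the long root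
  have hlong : (e (pa (il k)) : F) * ((e (pb (il k)))⁻¹ : Fˣ) = (f' 1).1⁻¹ := by
    have e1 : ((pb (il k) : Fin (2 * k + 1 + 1)) : ℕ) = k + 1 := by rw [pb_val, Fin.val_last]
    have e2 : ((il k : Fin (k + 1)) : ℕ) = k := Fin.val_last k
    rw [hea, Units.val_inv_eq_inv_val, he_hi _ (by rw [e1]; omega), e1, e2]
    have e3 : 2 * k + 1 - (k + 1) = k := by omega
    have e4 : (μ : F) = (E k : F) * τ (E k : F) * (f' 1).1 := rfl
    rw [e3, e4]
    have := (E k).ne_zero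
    have := hne2 k
    field_simp
  have hL1 : ∀ t : L τ, (e (pa (il k)) : F) * t.1 * ((e (pb (il k)))⁻¹ : Fˣ) ∈ L τ := by
    intro t
    have : (e (pa (il k)) : F) * t.1 * ((e (pb (il k)))⁻¹ : Fˣ) = (f' 1).1⁻¹ * t.1 := by rw [← hlong]; ring
    rw [this]
    exact mul_mem (inv_mem (f' 1).2) t.2
  have hL2 : ∀ t : L τ, (e (pb (il k)) : F) * t.1 * ((e (pa (il k)))⁻¹ : Fˣ) ∈ L τ := by
    intro t
    have : (e (pb (il k)) : F) * t.1 * ((e (pa (il k)))⁻¹ : Fˣ) = (f' 1).1 * t.1 := by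
      have h5 := congrArg (fun x => x⁻¹) hlong
      simp only [mul_inv, inv_inv] at h5
      rw [← h5]
      rw [Units.val_inv_eq_inv_val, Units.val_inv_eq_inv_val, inv_inv]; ring
    rw [this]
    exact mul_mem (f' 1).2 t.2
  have k3 : ∀ t : L τ, cgK τ _ hdg (xl τ t) = xl τ ⟨_, hL1 t⟩ := by
    intro t
    exact Subtype.ext (AutPSL.cg_dg e (pab (il k)) t.1)
  have k4 : ∀ t : L τ, cgK τ _ hdg (yl τ t) = yl τ ⟨_, hL2 t⟩ := by
    intro t
    exact Subtype.ext (AutPSL.cg_dg e (pab (il k)).symm t.1)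
  obtain ⟨σ, hσ⟩ := main0 τ hτ hk (iq k τ hτ (cgK τ _ hdg) * β)
    (fun i hi t => (e (pa i) : F) * f i hi t * ((e (pb i))⁻¹ : Fˣ)) (fun i hi t => (e (pb i) : F) * g i hi t * ((e (pa i))⁻¹ : Fˣ))
    (fun t => ⟨_, hL1 (f' t)⟩) (fun t => ⟨_, hL2 (g' t)⟩)
    (by intro i hi t; rw [MulAut.mul_apply, hf]; exact congrArg (q k τ hτ) (k1 i hi _))
    (by intro i hi t; rw [MulAut.mul_apply, hg]; exact congrArg (q k τ hτ) (k2 i hi _))
    (by intro t; rw [MulAut.mul_apply, hf']; exact congrArg (q k τ hτ) (k3 _))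
    (by intro t; rw [MulAut.mul_apply, hg']; exact congrArg (q k τ hτ) (k4 _))
    (by
      intro i hi
      have e1 : f i hi 1 = (u i : F) := by
        have : u i = Units.mk0 _ (hne i hi) := dif_pos hi
        rw [this]; rfl
      show (e (pa i) : F) * f i hi 1 * ((e (pb i))⁻¹ : Fˣ) = 1
      rw [e1, hea, heb i hi, hE, ← Units.val_mul, ← Units.val_mul, mul_inv_cancel, Units.val_one])
    (by
      apply Subtype.ext
      show (e (pa (il k)) : F) * (f' 1).1 * ((e (pb (il k)))⁻¹ : Fˣ) = 1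
      have : (e (pa (il k)) : F) * (f' 1).1 * ((e (pb (il k)))⁻¹ : Fˣ) = (f' 1).1⁻¹ * (f' 1).1 := by rw [← hlong]; ring
      rw [this, inv_mul_cancel₀ hne'])
  refine ⟨(AutPSL.dg e)⁻¹, inv_mem hdg, σ, ?_⟩
  have e5 : cgK τ _ (inv_mem hdg) * cgK τ _ hdg = 1 := by
    ext s : 1
    apply Subtype.ext
    show AutPSL.cg (AutPSL.dg e)⁻¹ (AutPSL.cg (AutPSL.dg e) s.1) = s.1
    rw [← MulAut.mul_apply, ← map_mul, inv_mul_cancel, map_one, MulAut.one_apply]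
  rw [map_mul, ← hσ, ← mul_assoc, ← map_mul, e5, map_one, one_mul]

theorem cgK_conj (g : Gr τ (ea k F)) (h : SpecialLinearGroup.toGL g.1 ∈ GJ τ (Jm (ea k F)).1) :
    cgK τ _ h = MulAut.conj g := by
  ext s : 1
  apply Subtype.ext
  show AutPSL.cg (SpecialLinearGroup.toGL g.1) s.1 = g.1 * s.1 * g.1⁻¹
  rw [← AutPSL.conj_eq_cg]; rfl

theorem toGL_mem (g : Gr τ (ea k F)) : SpecialLinearGroup.toGL g.1 ∈ GJ τ (Jm (ea k F)).1 := by
  refine ⟨1, ?_⟩
  rw [Units.val_one, one_smul]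
  exact (mem_Gr_iff τ _ g.1).1 g.2

theorem main2 (hk : 0 < k) (α : MulAut (QG (IP k τ hτ))) (p : ℕ) [Fact p.Prime] [CharP F p] (g : (IP k τ hτ).K)
    (hX : ∀ i, (c (Q (IP k τ hτ) g) * α) • (qd (IP k τ hτ) p).X i = (qd (IP k τ hτ) p).X i)
    (hY : ∀ i, (c (Q (IP k τ hτ) g) * α) • (qd (IP k τ hτ) p).Y i = (qd (IP k τ hτ) p).Y i) :
    ∃ (g : GL (Fin (2 * k + 1 + 1)) F) (hg : g ∈ GJ τ (Jm (ea k F)).1) (σ : F ≃+* F), α = iq k τ hτ (cgK τ g hg * flK τ σ) := by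
  obtain ⟨d, hd, σ, e⟩ := main1 τ hτ hk _ p hX hY
  have h1 : α = (c (Q (IP k τ hτ) g))⁻¹ * iq k τ hτ (cgK τ d hd * flK τ σ) := by rw [← e]; group
  have hg := toGL_mem τ (k := k) g⁻¹
  refine ⟨SpecialLinearGroup.toGL (g⁻¹ : Gr τ (ea k F)).1 * d, mul_mem hg hd, σ, ?_⟩
  have e2 : cgK τ _ (mul_mem hg hd) = cgK τ _ hg * cgK τ d hd := by
    ext s : 1
    apply Subtype.ext
    show AutPSL.cg _ s.1 = AutPSL.cg _ (AutPSL.cg _ s.1)
    rw [map_mul]; rfl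
  have e3 : (c (Q (IP k τ hτ) g))⁻¹ = iq k τ hτ (cgK τ _ hg) := by
    rw [cgK_conj, ← map_inv, ← map_inv]
    exact (indG_conj (g⁻¹ : Gr τ (ea k F))).symm
  rw [h1, e2, e3, ← map_mul, mul_assoc]

/-- every automorphism is standard, rank at least three -/
theorem main3 (hk : 2 ≤ k) (α : MulAut (QG (IP k τ hτ))) :
    ∃ (g : GL (Fin (2 * k + 1 + 1)) F) (hg : g ∈ GJ τ (Jm (ea k F)).1) (σ : F ≃+* F), α = iq k τ hτ (cgK τ g hg * flK τ σ) := by
  obtain ⟨p, hp⟩ := CharP.exists F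
  haveI : Fact p.Prime := ⟨CharP.char_is_prime F p⟩
  obtain ⟨g, hX, hY⟩ := norm3 (IP k τ hτ) p (by omega) α
  exact main2 τ hτ (by omega) α p g hX hY

end Cfsg.Agent.H8.GrEven
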