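import Mathlib
import Cfsg.Agent.H8.GrEven3

set_option autoImplicit false
set_option linter.all false

/-! Automorphisms of `PSp_4(q)`, `q` odd, and `PSU_4(q)`. -/

namespace Cfsg.Agent.H8.GrEven

open scoped commutatorElement
open Matrix Pointwise Cfsg.Agent.H8.AutBN Cfsg.Agent.H8.SLPat Cfsg.Agent.H8.SLTri Cfsg.Agent.H8.SLData
  Cfsg.Agent.H8.Theta Cfsg.Agent.H8.GrComb Cfsg.Agent.H8.GrData Cfsg.Agent.H8.GrShort Cfsg.Agent.H8.GrPi
  Cfsg.Agent.H8.GrStd

variable {F : Type*} [Field F] [Finite F] (τ : F ≃+* F) (hτ : ∀ t, τ (τ t) = t)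

/-- every automorphism is standard, rank two -/
theorem main4 (h2 : (∃ t, τ t ≠ t) ∨ (2 : F) ≠ 0) (α : MulAut (QG (IP 1 τ hτ))) :
    ∃ (g : GL (Fin (2 * 1 + 1 + 1)) F) (hg : g ∈ GJ τ (Jm (ea 1 F)).1) (σ : F ≃+* F), α = iq 1 τ hτ (cgK τ g hg * flK τ σ) := by
  obtain ⟨p, hp⟩ := CharP.exists F
  haveI : Fact p.Prime := ⟨CharP.char_is_prime F p⟩
  obtain ⟨g, π, hX, hY, _⟩ := norm (IP 1 τ hτ) p α
  obtain ⟨β, hβ⟩ : ∃ β, β = c (Q (IP 1 τ hτ) g) * α := ⟨_, rfl⟩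
  have hπ : π = 1 := by
    by_contra hne
    rw [← hβ] at hX hY
    have h01 : ∀ i : Fin 2, i = 0 ∨ i = 1 := by decide
    have h0 : π 0 = 1 := by
      rcases h01 (π 0) with h | h
      · exfalso
        apply hne
        have h1 : π 1 = 1 := by
          rcases h01 (π 1) with h' | h'
          · exfalso
            have := π.injective (h.trans h'.symm)
            exact absurd this (by decide)
          · exact h'
        ext i
        rcases h01 i with rfl | rfl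
        · rw [h]; rfl
        · rw [h1]; rfl
      · exact h
    have h1 : π 1 = 0 := by
      rcases h01 (π 1) with h' | h'
      · exact h'
      · exfalso
        have := π.injective (h0.trans h'.symm)
        exact absurd this (by decide)
    have h0k : ((0 : Fin (1 + 1)) : ℕ) < 1 := by decide
    have hil : (1 : Fin (1 + 1)) = il 1 := rfl
    have hx0 : ∀ t : F, ∃ u : L τ, β (q 1 τ hτ (xs τ hτ h0k t)) = q 1 τ hτ (xl τ u) := by
      intro t
      have h3 : β (q 1 τ hτ (xs τ hτ h0k t)) ∈ β • (qd (IP 1 τ hτ) p).X 0 := Subgroup.smul_mem_pointwise_smul _ β _ ((mem_qX (IP 1 τ hτ) p 0 _).2 ⟨_, xs_pu τ hτ h0k t, rfl⟩)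
      rw [hX, h0, hil] at h3
      obtain ⟨y, hy1, hy2⟩ := (mem_qX (IP 1 τ hτ) p _ _).1 h3
      obtain ⟨u, rfl⟩ := form_long τ hτ hy1
      exact ⟨u, hy2⟩
    have hx1 : ∀ u : L τ, ∃ t : F, β (q 1 τ hτ (xl τ u)) = q 1 τ hτ (xs τ hτ h0k t) := by
      intro u
      have h3 : β (q 1 τ hτ (xl τ u)) ∈ β • (qd (IP 1 τ hτ) p).X 1 := Subgroup.smul_mem_pointwise_smul _ β _ ((mem_qX (IP 1 τ hτ) p 1 _).2 ⟨_, xl_pu τ hτ u, rfl⟩)
      rw [hX, h1] at h3
      obtain ⟨y, hy1, hy2⟩ := (mem_qX (IP 1 τ hτ) p _ _).1 h3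
      obtain ⟨t, rfl⟩ := form_short τ hτ h0k hy1
      exact ⟨t, hy2⟩
    rcases h2 with ⟨t0, ht0⟩ | h2
    · choose a ha using hx0
      have hinj : Function.Injective a := by
        intro s t hst
        have e1 : β (q 1 τ hτ (xs τ hτ h0k s)) = β (q 1 τ hτ (xs τ hτ h0k t)) := by rw [ha, ha, hst]
        have e2 := Q_inj (IP 1 τ hτ) p (pxs τ hτ p h0k s) (pxs τ hτ p h0k t) (β.injective e1)
        exact RT_inj (gp 0 h0k) τ (congrArg Subtype.val e2)
      have hsurj : Function.Surjective (Subtype.val : L τ → F) := by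
        have h3 : Nat.card F ≤ Nat.card (L τ) := Nat.card_le_card_of_injective a hinj
        have h4 : Nat.card (L τ) ≤ Nat.card F := Nat.card_le_card_of_injective _ (Subtype.val_injective : Function.Injective (Subtype.val : L τ → F))
        exact ((Nat.bijective_iff_injective_and_card (Subtype.val : L τ → F)).2 ⟨Subtype.val_injective, le_antisymm h4 h3⟩).2
      obtain ⟨u, hu⟩ := hsurj t0
      apply ht0
      rw [← hu]; exact u.2
    · obtain ⟨a, ha⟩ : ∃ a, a = pa (k := 1) 0 := ⟨_, rfl⟩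
      obtain ⟨b, hb⟩ : ∃ b, b = pb (k := 1) 0 := ⟨_, rfl⟩
      have hgp : GP a b := by rw [ha, hb]; exact gp 0 h0k
      have hbl : pa (il 1) = b := by rw [hb]; rfl
      have exs : ∀ t, (xs τ hτ h0k t).1 = RT τ hgp.ab t := by
        subst ha; subst hb
        intro t; rfl
      have exl : ∀ t : L τ, (xl (k := 1) τ t).1 = SpecialLinearGroup.transvection hgp.bb t.1 := by
        intro t
        show SpecialLinearGroup.transvection (pab (il 1)) t.1 = _
        congr 1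
        rw [hb]; rfl
      have cm : ∀ (s : F) (u : L τ), (⁅xs τ hτ h0k s, xl (k := 1) τ u⁆ : Gr τ (ea 1 F)).1 =
          SpecialLinearGroup.transvection hgp.aa (s * (u * τ s)) * SpecialLinearGroup.transvection hgp.ba' (u * τ s) * SpecialLinearGroup.transvection hgp.ab' (s * u) := by
        intro s u
        have e : (⁅xs τ hτ h0k s, xl (k := 1) τ u⁆ : Gr τ (ea 1 F)).1 = ⁅(xs τ hτ h0k s).1, (xl (k := 1) τ u).1⁆ := rfl
        rw [e, exs, exl]
        exact comm_B2 τ hgp s u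
      have tr1 : ∀ (u u' : L τ) (t : F), ⁅xl (k := 1) τ u, ⁅xl (k := 1) τ u', xs τ hτ h0k t⁆⁆ = 1 := by
        intro u u' t
        rw [← commutatorElement_inv (xs τ hτ h0k t) (xl (k := 1) τ u'), commutatorElement_eq_one_iff_commute]
        apply Commute.inv_right
        apply Subtype.ext
        show (xl (k := 1) τ u).1 * (⁅xs τ hτ h0k t, xl (k := 1) τ u'⁆ : Gr τ (ea 1 F)).1 = (⁅xs τ hτ h0k t, xl (k := 1) τ u'⁆ : Gr τ (ea 1 F)).1 * (xl (k := 1) τ u).1
        rw [exl, cm]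
        have hne : Fin.rev a ≠ Fin.rev b := fun e => hgp.ab (Fin.rev_injective e)
        exact (((comm_tt hgp.bb hgp.aa hgp.ab'.symm hgp.ba'.symm u.1 _).mul_right (comm_tt hgp.bb hgp.ba' hgp.bb.symm hgp.ba'.symm u.1 _)).mul_right
          (comm_tt hgp.bb hgp.ab' hgp.ab'.symm hgp.bb.symm u.1 _)).eq
      obtain ⟨u, hu⟩ := hx0 1
      obtain ⟨t, ht⟩ := hx1 1
      have e1 : β (q 1 τ hτ ⁅xs τ hτ h0k 1, ⁅xs τ hτ h0k 1, xl τ 1⁆⁆) = 1 := by
        rw [map_commutatorElement, map_commutatorElement, map_commutatorElement, map_commutatorElement, hu, ht,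
          ← map_commutatorElement, ← map_commutatorElement, tr1, map_one]
      have e2 : q 1 τ hτ ⁅xs τ hτ h0k 1, ⁅xs τ hτ h0k 1, xl τ 1⁆⁆ = q 1 τ hτ 1 := by
        apply β.injective
        rw [e1, map_one, map_one]
      have hU1 : (⁅xs τ hτ h0k 1, xl τ 1⁆ : Gr τ (ea 1 F)).1 ∈ U (2 * 1 + 1) F := by
        have e : (⁅xs τ hτ h0k 1, xl τ 1⁆ : Gr τ (ea 1 F)).1 = ⁅(xs τ hτ h0k 1).1, (xl (k := 1) τ 1).1⁆ := rfl
        rw [e, commutatorElement_def]
        exact mul_mem (mul_mem (mul_mem (xsU τ hτ h0k _) (xlU τ _)) (inv_mem (xsU τ hτ h0k _))) (inv_mem (xlU τ _))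
      have hU2 : (⁅xs τ hτ h0k 1, ⁅xs τ hτ h0k 1, xl τ 1⁆⁆ : Gr τ (ea 1 F)).1 ∈ U (2 * 1 + 1) F := by
        have e : (⁅xs τ hτ h0k 1, ⁅xs τ hτ h0k 1, xl τ 1⁆⁆ : Gr τ (ea 1 F)).1 = ⁅(xs τ hτ h0k 1).1, (⁅xs τ hτ h0k 1, xl τ 1⁆ : Gr τ (ea 1 F)).1⁆ := rfl
        rw [e, commutatorElement_def]
        exact mul_mem (mul_mem (mul_mem (xsU τ hτ h0k _) hU1) (inv_mem (xsU τ hτ h0k _))) (inv_mem hU1)
      have e3 : (⁅xs τ hτ h0k 1, ⁅xs τ hτ h0k 1, xl (k := 1) τ 1⁆⁆ : Gr τ (ea 1 F)) = 1 :=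
        Q_inj (IP 1 τ hτ) p (pU τ p hU2) (pU τ p (u := (1 : Gr τ (ea 1 F))) (one_mem _)) e2
      rw [commutatorElement_eq_one_iff_commute] at e3
      have e4 : (xs τ hτ h0k 1).1 * (⁅xs τ hτ h0k 1, xl τ 1⁆ : Gr τ (ea 1 F)).1 = (⁅xs τ hτ h0k 1, xl τ 1⁆ : Gr τ (ea 1 F)).1 * (xs τ hτ h0k 1).1 := congrArg Subtype.val e3.eq
      rw [cm, exs] at e4
      have e5 : (RT τ hgp.ab 1 * (SpecialLinearGroup.transvection hgp.aa (1 * (((1 : L τ) : F) * τ 1)) * SpecialLinearGroup.transvection hgp.ba' (((1 : L τ) : F) * τ 1) * SpecialLinearGroup.transvection hgp.ab' (1 * ((1 : L τ) : F)))) a (Fin.rev a) =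
        ((SpecialLinearGroup.transvection hgp.aa (1 * (((1 : L τ) : F) * τ 1)) * SpecialLinearGroup.transvection hgp.ba' (((1 : L τ) : F) * τ 1) * SpecialLinearGroup.transvection hgp.ab' (1 * ((1 : L τ) : F))) * RT τ hgp.ab 1) a (Fin.rev a) := by rw [e4]
      have e6 : ((1 : L τ) : F) = 1 := rfl
      rw [e6, RT_mul_apply hgp, mul_RT_apply hgp, if_pos rfl, if_neg hgp.ab', if_neg hgp.ba'.symm, if_pos rfl] at e5
      have hne : Fin.rev a ≠ Fin.rev b := fun e => hgp.ab (Fin.rev_injective e)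
      have n1 := hgp.ab; have n2 := hgp.ab'; have n3 := hgp.aa; have n4 := hgp.bb; have n5 := hgp.ba'
      simp only [AutPSL.mul_t_apply, AutPSL.t_mul_apply, transvection_apply, map_one, mul_one, one_mul] at e5
      simp [hne, hne.symm, n1, n2, n3, n4, n5, n1.symm, n2.symm, n3.symm, n4.symm, n5.symm] at e5
      apply h2
      linear_combination e5
  subst hπ
  exact main2 τ hτ (by omega) α p g hX hY

end Cfsg.Agent.H8.GrEven
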