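import Mathlib
import Cfsg.Agent.H8.GrCen

set_option autoImplicit false
set_option linter.all false

/-! Semilinearity from a generating set. -/

namespace Cfsg.Agent.H8.GrGen

variable {F : Type*} [Field F]

/-- multiplicativity against `D` implies multiplicativity -/
def Gen (D : Set F) : Prop := ∀ ψ : F → F, (∀ x y, ψ (x + y) = ψ x + ψ y) → ψ 1 = 1 →
  (∀ x ∈ D, ∀ y, ψ (x * y) = ψ x * ψ y) → ∀ x y, ψ (x * y) = ψ x * ψ y

theorem gen_of {D : Set F} (h : ∀ x, x ≠ 0 → x ∈ D) : Gen D := by
  intro ψ hadd h1 hD x y
  have h0 : ψ 0 = 0 := by have := hadd 0 0; simpa using this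
  by_cases hx : x = 0
  · subst hx; rw [zero_mul, h0, zero_mul]
  · exact hD x (h x hx) y

variable [Finite F]

/-- the subfield of multipliers -/
def mulSub (ψ : F → F) (hadd : ∀ x y, ψ (x + y) = ψ x + ψ y) (h1 : ψ 1 = 1) : Subfield F where
  carrier := {x | ∀ y, ψ (x * y) = ψ x * ψ y}
  mul_mem' := by
    intro a b ha hb y
    rw [mul_assoc, ha, hb, ha, mul_assoc]
  one_mem' := by intro y; rw [one_mul, h1, one_mul]
  add_mem' := by
    intro a b ha hb y
    rw [add_mul, hadd, ha, hb, hadd, add_mul]
  zero_mem' := by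
    have h0 : ψ 0 = 0 := by have := hadd 0 0; simpa using this
    intro y; rw [zero_mul, h0, zero_mul]
  neg_mem' := by
    intro a ha y
    have h0 : ψ 0 = 0 := by have := hadd 0 0; simpa using this
    have hneg : ∀ t, ψ (-t) = - ψ t := by
      intro t; have := hadd t (-t); rw [add_neg_cancel, h0] at this; exact (neg_eq_of_add_eq_zero_right this.symm).symm
    rw [neg_mul, hneg, ha, hneg, neg_mul]
  inv_mem' := by
    intro a ha y
    by_cases h : a = 0
    · subst h
      have h0 : ψ 0 = 0 := by have := hadd 0 0; simpa using this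
      rw [inv_zero, zero_mul, h0, zero_mul]
    · have h2 : ψ a ≠ 0 := by
        intro h3
        have := ha a⁻¹
        rw [mul_inv_cancel₀ h, h1, h3, zero_mul] at this
        exact one_ne_zero this
      have h3 := ha (a⁻¹ * y)
      rw [mul_inv_cancel_left₀ h] at h3
      have h4 := ha a⁻¹
      rw [mul_inv_cancel₀ h, h1] at h4
      apply mul_left_cancel₀ h2
      rw [← h3, ← mul_assoc, ← h4, one_mul]

theorem gen_sq (τ : F ≃+* F) (hτ : ∀ t, τ (τ t) = t) (hq : 4 < Nat.card F) : Gen {x : F | ∃ t : F, t ≠ 0 ∧ x = t ^ 2 / τ t} := by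
  intro ψ hadd h1 hD
  haveI := Fintype.ofFinite F
  suffices h : mulSub ψ hadd h1 = ⊤ by
    intro x y
    have : x ∈ mulSub ψ hadd h1 := by rw [h]; trivial
    exact this y
  set S := mulSub ψ hadd h1 with hS
  have hcard : Nat.card F = Nat.card S ^ Module.finrank S F := Module.natCard_eq_pow_finrank
  -- the homomorphism
  let φ : Fˣ →* Fˣ := 
    { toFun := fun t => t ^ 2 * (Units.map (τ : F →* F) t)⁻¹
      map_one' := by simp
      map_mul' := by intro a b; rw [map_mul, mul_pow, _root_.mul_inv_rev]; simp only [mul_comm, mul_left_comm, mul_assoc] }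
  have hφ : ∀ t : Fˣ, ((φ t : Fˣ) : F) = (t : F) ^ 2 / τ t := by
    intro t
    show (((t ^ 2 * (Units.map (τ : F →* F) t)⁻¹ : Fˣ)) : F) = _
    rw [Units.val_mul, Units.val_inv_eq_inv_val, Units.val_pow_eq_pow_val, div_eq_mul_inv]; rfl
  have hker : Nat.card φ.ker ≤ 3 := by
    have h2 : ∀ t : φ.ker, (t.1 : Fˣ) ^ 3 = 1 := by
      intro t
      have h3 : ((φ t.1 : Fˣ) : F) = 1 := by rw [t.2]; rfl
      rw [hφ, div_eq_one_iff_eq (by rw [Ne, map_eq_zero_iff τ τ.injective]; exact t.1.ne_zero)] at h3
      have h4 := congrArg τ h3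
      rw [map_pow, hτ, ← h3] at h4
      ext
      rw [Units.val_pow_eq_pow_val, Units.val_one]
      have h5 : (t.1 : F) ≠ 0 := t.1.ne_zero
      apply mul_left_cancel₀ h5
      linear_combination h4
    let g : φ.ker → rootsOfUnity 3 F := fun t => ⟨t.1, h2 t⟩
    have hg : Function.Injective g := by
      intro a b hab
      exact Subtype.ext (congrArg (fun z : rootsOfUnity 3 F => z.1) hab)
    have := Nat.card_le_card_of_injective g hg
    exact this.trans (card_rootsOfUnity F 3)
  have hmem : ∀ t : Fˣ, ((φ t : Fˣ) : F) ∈ S := by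
    intro t
    exact hD _ ⟨t, t.ne_zero, hφ t⟩
  have hrange : Nat.card φ.range + 1 ≤ Nat.card S := by
    let g : Option φ.range → S := fun o => match o with
      | none => 0
      | some t => ⟨((t.1 : Fˣ) : F), by
          obtain ⟨s, hs⟩ := t.2
          rw [← hs]; exact hmem s⟩
    have hg : Function.Injective g := by
      intro a b hab
      match a, b with
      | none, none => rfl
      | none, some t =>
        exfalso
        exact (t.1).ne_zero (congrArg Subtype.val hab).symm
      | some t, none =>
        exfalso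
        exact (t.1).ne_zero (congrArg Subtype.val hab)
      | some t, some s =>
        have : ((t.1 : Fˣ) : F) = ((s.1 : Fˣ) : F) := congrArg Subtype.val hab
        congr 1
        exact Subtype.ext (Units.ext this)
    have h2 := Nat.card_le_card_of_injective g hg
    rw [Finite.card_option] at h2
    exact h2
  have hmul : Nat.card φ.ker * Nat.card φ.range = Nat.card Fˣ := by
    have h2 := Subgroup.card_mul_index φ.ker
    rw [Subgroup.index_ker] at h2
    exact h2
  have hunits : Nat.card Fˣ + 1 = Nat.card F := by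
    rw [Nat.card_units]
    have := Nat.card_pos (α := F)
    omega
  have hSpos : 2 ≤ Nat.card S := by
    have : 1 ≤ Nat.card φ.range := Nat.card_pos
    omega
  -- finrank is one
  have hfr : Module.finrank S F = 1 := by
    rcases Nat.lt_or_ge (Module.finrank S F) 2 with h | h
    · interval_cases hh : Module.finrank S F
      · rw [pow_zero] at hcard
        omega
      · rfl
    · exfalso
      have h3 : Nat.card S ^ 2 ≤ Nat.card F := by
        rw [hcard]; exact Nat.pow_le_pow_right (by omega) h
      have h4 : Nat.card F - 1 ≤ 3 * (Nat.card S - 1) := by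
        have h5 : Nat.card φ.ker * Nat.card φ.range ≤ 3 * (Nat.card S - 1) := Nat.mul_le_mul hker (by omega)
        omega
      obtain ⟨s, hs⟩ : ∃ s, s = Nat.card S := ⟨_, rfl⟩
      obtain ⟨n, hn⟩ : ∃ n, n = Nat.card F := ⟨_, rfl⟩
      rw [← hs, ← hn] at h3 h4
      rw [← hs] at hSpos
      rw [← hn] at hq
      have h6 : s ≤ 2 := by
        by_contra h7
        push Not at h7
        have : 3 * s ≤ s ^ 2 := by rw [pow_two]; exact Nat.mul_le_mul_right s h7
        omega
      have h7 : s = 2 := by omega
      subst h7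
      omega
  rw [hfr, pow_one] at hcard
  rw [eq_top_iff]
  intro x _
  have hbij : Function.Bijective (Subtype.val : S → F) := by
    rw [Nat.bijective_iff_injective_and_card]
    exact ⟨Subtype.val_injective, hcard.symm⟩
  obtain ⟨y, hy⟩ := hbij.2 x
  rw [← hy]; exact y.2

end Cfsg.Agent.H8.GrGen
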