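import Mathlib
import Cfsg.Agent.H8.GrCen
import Cfsg.Agent.H8.GrEven2

set_option autoImplicit false
set_option linter.all false

/-! The input in odd dimension `2k+3`. -/

namespace Cfsg.Agent.H8.GrOdd

open scoped commutatorElement
open Matrix Pointwise Cfsg.Agent.H8.AutBN Cfsg.Agent.H8.SLPat Cfsg.Agent.H8.SLTri Cfsg.Agent.H8.SLData
  Cfsg.Agent.H8.Theta Cfsg.Agent.H8.GrComb Cfsg.Agent.H8.GrData Cfsg.Agent.H8.GrShort Cfsg.Agent.H8.GrPi
  Cfsg.Agent.H8.GrCen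

variable {k : ℕ} {F : Type*} [Field F]

theorem hNk (k : ℕ) : 2 * k + 2 = 2 * (k + 1) ∨ 2 * k + 2 + 1 = 2 * (k + 1) := Or.inl (by ring)

def pa (i : Fin (k + 1)) : Fin (2 * k + 2 + 1) := ⟨i, by omega⟩
def pb (i : Fin (k + 1)) : Fin (2 * k + 2 + 1) := ⟨i + 1, by omega⟩

theorem pa_val (i : Fin (k + 1)) : ((pa i : Fin (2 * k + 2 + 1)) : ℕ) = i := rfl
theorem pb_val (i : Fin (k + 1)) : ((pb i : Fin (2 * k + 2 + 1)) : ℕ) = i + 1 := rfl
theorem rev_val (z : Fin (2 * k + 2 + 1)) : ((Fin.rev z : Fin (2 * k + 2 + 1)) : ℕ) = 2 * k + 2 - z := by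
  rw [Fin.val_rev]; omega

theorem pab (i : Fin (k + 1)) : pa i ≠ pb i := by
  intro h; have := congrArg Fin.val h; rw [pa_val, pb_val] at this; omega

theorem gp (i : Fin (k + 1)) (hi : (i : ℕ) < k) : GP (pa i) (pb i) where
  ab := pab i
  ab' := by intro h; have := congrArg Fin.val h; rw [rev_val, pa_val, pb_val] at this; omega
  aa := by intro h; have := congrArg Fin.val h; rw [rev_val, pa_val] at this; omega
  bb := by intro h; have := congrArg Fin.val h; rw [rev_val, pb_val] at this; omega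

/-- the last index -/
abbrev il (k : ℕ) : Fin (k + 1) := Fin.last k

/-- the three central positions -/
abbrev la (k : ℕ) : Fin (2 * k + 2 + 1) := pa (il k)
abbrev lc (k : ℕ) : Fin (2 * k + 2 + 1) := pb (il k)
abbrev lb (k : ℕ) : Fin (2 * k + 2 + 1) := Fin.rev (pa (il k))

theorem la_val (k : ℕ) : (la k : ℕ) = k := rfl
theorem lc_val (k : ℕ) : (lc k : ℕ) = k + 1 := rfl
theorem lb_val (k : ℕ) : (lb k : ℕ) = k + 2 := by rw [rev_val, pa_val, Fin.val_last]; omega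

theorem rev_lc (k : ℕ) : Fin.rev (lc k) = lc k := by
  ext; rw [rev_val, lc_val]; omega

theorem t3 (k : ℕ) : T3 (la k) (lc k) (lb k) where
  ac := by intro h; have := congrArg Fin.val h; rw [la_val, lc_val] at this; omega
  cb := by intro h; have := congrArg Fin.val h; rw [lc_val, lb_val] at this; omega
  ab := by intro h; have := congrArg Fin.val h; rw [la_val, lb_val] at this; omega

theorem blk_short {i : Fin (k + 1)} (hi : (i : ℕ) < k) (p q : Fin (2 * k + 2 + 1)) :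
    Rb (2 * k + 2) (k + 1) i p q ↔ (p = pa i ∧ q = pb i) ∨ (p = Fin.rev (pb i) ∧ q = Fin.rev (pa i)) := by
  unfold Rb blk
  simp only [Fin.ext_iff, rev_val, pa_val, pb_val]
  omega

theorem blk_last (p q : Fin (2 * k + 2 + 1)) :
    Rb (2 * k + 2) (k + 1) (il k) p q ↔ (p = la k ∧ q = lc k) ∨ (p = lc k ∧ q = lb k) ∨ (p = la k ∧ q = lb k) := by
  unfold Rb blk
  simp only [Fin.ext_iff, la_val, lc_val, lb_val, Fin.val_last]
  omega

theorem swap_val' {n : ℕ} (a b z : Fin n) : ((Equiv.swap a b z : Fin n) : ℕ) = if (z : ℕ) = a then (b : ℕ) else if (z : ℕ) = b then (a : ℕ) else z := by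
  rw [Equiv.swap_apply_def]
  simp only [← Fin.ext_iff]
  split_ifs <;> rfl

theorem sg_short {i : Fin (k + 1)} (hi : (i : ℕ) < k) :
    Equiv.swap (pa i) (pb i) * Equiv.swap (Fin.rev (pb i)) (Fin.rev (pa i)) = sg (hNk k) i := by
  ext z
  rw [Equiv.Perm.mul_apply, sg_val, swap_val', swap_val', rev_val, rev_val, pa_val, pb_val]
  have := z.2
  unfold sv
  split_ifs <;> omega

theorem sg_last : Equiv.swap (la k) (lb k) = sg (hNk k) (il k) := by
  ext z
  rw [sg_val, swap_val', la_val, lb_val, Fin.val_last]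
  have := z.2
  unfold sv
  split_ifs <;> omega

variable [Finite F]

/-- the input in odd dimension -/
structure OI (k : ℕ) (F : Type*) [Field F] [Finite F] where
  τ : F ≃+* F
  hτ : ∀ t, τ (τ t) = t
  K : Subgroup (SpecialLinearGroup (Fin (2 * k + 2 + 1)) F)
  hK : K ≤ Gr τ (e1 (2 * k + 2) F)
  hUK : ∀ u ∈ U (2 * k + 2) F, u ∈ Gr τ (e1 (2 * k + 2) F) → u ∈ K
  hVK : ∀ u ∈ V (2 * k + 2) F, u ∈ Gr τ (e1 (2 * k + 2) F) → u ∈ K
  sl : K
  slm : Mono sl.1 (sg (hNk k) (il k))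
  slg : sl ∈ pu K (strb (hNk k) (il k)) ⊔ pu K (str_swap (strb (hNk k) (il k)))
  Xl : pu K (strb (hNk k) (il k)) ≠ ⊥

namespace OI

variable (P : OI k F)

theorem short_mem {i : Fin (k + 1)} (hi : (i : ℕ) < k) (t : F) : RT P.τ (gp i hi).ab t ∈ Gr P.τ (e1 (2 * k + 2) F) :=
  RT_mem (gp i hi) P.τ _ P.hτ rfl rfl t

theorem short_mem' {i : Fin (k + 1)} (hi : (i : ℕ) < k) (t : F) : RT P.τ (gp i hi).symm.ab t ∈ Gr P.τ (e1 (2 * k + 2) F) :=
  RT_mem (gp i hi).symm P.τ _ P.hτ rfl rfl t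

theorem short_pat {i : Fin (k + 1)} (hi : (i : ℕ) < k) (t : F) : RT P.τ (gp i hi).ab t ∈ patU (strb (hNk k) i) := by
  rw [mem_patU]
  intro p q h
  rw [blk_short hi] at h
  push Not at h
  rw [RT_apply (gp i hi), if_neg (c := p = pa i ∧ q = pb i) (fun e => h.1 e.1 e.2),
    if_neg (c := p = Fin.rev (pb i) ∧ q = Fin.rev (pa i)) (fun e => h.2 e.1 e.2), add_zero, add_zero]

theorem short_pat' {i : Fin (k + 1)} (hi : (i : ℕ) < k) (t : F) : RT P.τ (gp i hi).symm.ab t ∈ patU (str_swap (strb (hNk k) i)) := by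
  rw [mem_patU]
  intro p q h
  rw [blk_short hi] at h
  push Not at h
  rw [RT_apply (gp i hi).symm, if_neg (c := p = pb i ∧ q = pa i) (fun e => h.1 e.2 e.1),
    if_neg (c := p = Fin.rev (pa i) ∧ q = Fin.rev (pb i)) (fun e => h.2 e.2 e.1), add_zero, add_zero]

theorem patb_U {i : Fin (k + 1)} {u : SpecialLinearGroup (Fin (2 * k + 2 + 1)) F} (h : u ∈ patU (strb (hNk k) i)) : u ∈ U (2 * k + 2) F :=
  patU_le_iff.2 (fun a b h => h.1) h
theorem patb_V {i : Fin (k + 1)} {u : SpecialLinearGroup (Fin (2 * k + 2 + 1)) F} (h : u ∈ patU (str_swap (strb (hNk k) i))) : u ∈ V (2 * k + 2) F :=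
  patU_le_iff.2 (fun a b h => h.1) h

/-- short root elements -/
def xs {i : Fin (k + 1)} (hi : (i : ℕ) < k) (t : F) : P.K := ⟨RT P.τ (gp i hi).ab t, P.hUK _ (patb_U (P.short_pat hi t)) (P.short_mem hi t)⟩
def ys {i : Fin (k + 1)} (hi : (i : ℕ) < k) (t : F) : P.K := ⟨RT P.τ (gp i hi).symm.ab t, P.hVK _ (patb_V (P.short_pat' hi t)) (P.short_mem' hi t)⟩

open Classical in
/-- reflections -/
noncomputable def sr (i : Fin (k + 1)) : P.K :=
  if hi : (i : ℕ) < k then P.xs hi 1 * P.ys hi (-1) * P.xs hi 1 else P.sl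

theorem sr_short {i : Fin (k + 1)} (hi : (i : ℕ) < k) : P.sr i = P.xs hi 1 * P.ys hi (-1) * P.xs hi 1 := dif_pos hi
theorem sr_last : P.sr (il k) = P.sl := dif_neg (by simp)

theorem il_or (i : Fin (k + 1)) : (i : ℕ) < k ∨ i = il k := by
  by_cases h : (i : ℕ) < k
  · exact Or.inl h
  · right; ext; simp; omega

theorem NR_eq' {i : Fin (k + 1)} (hi : (i : ℕ) < k) (t : F) : (P.xs hi t * P.ys hi (-t⁻¹) * P.xs hi t).1 = NR (gp i hi) P.τ t := rfl

theorem sr_mono (i : Fin (k + 1)) : Mono (P.sr i).1 (sg (hNk k) i) := by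
  rcases il_or i with hi | rfl
  · rw [P.sr_short hi]
    have e : (P.xs hi 1 * P.ys hi (-1) * P.xs hi 1).1 = NR (gp i hi) P.τ 1 := by
      rw [← P.NR_eq', inv_one]
    rw [e, NR_eq (gp i hi) P.τ one_ne_zero, ← sg_short hi]
    exact (nn_mono _ one_ne_zero).mul (nn_mono _ (by rw [map_one]; exact neg_ne_zero.2 one_ne_zero))
  · rw [P.sr_last]
    exact P.slm

theorem xs_pu {i : Fin (k + 1)} (hi : (i : ℕ) < k) (t : F) : P.xs hi t ∈ pu P.K (strb (hNk k) i) := mem_pu.2 (P.short_pat hi t)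
theorem ys_pu {i : Fin (k + 1)} (hi : (i : ℕ) < k) (t : F) : P.ys hi t ∈ pu P.K (str_swap (strb (hNk k) i)) := mem_pu.2 (P.short_pat' hi t)

/-- the input -/
noncomputable def inp : Inp (2 * k + 2) (k + 1) F where
  hN := hNk k
  τ := P.τ
  ε := e1 (2 * k + 2) F
  K := P.K
  hK := P.hK
  hUK := P.hUK
  s := P.sr
  smono := P.sr_mono
  Xne := by
    intro i
    rcases il_or i with hi | rfl
    · intro h
      have h1 := P.xs_pu hi 1
      rw [h, Subgroup.mem_bot] at h1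
      have h2 : RT P.τ (gp i hi).ab 1 = RT P.τ (gp i hi).ab 0 := by
        rw [RT_zero (gp i hi)]; exact congrArg Subtype.val h1
      exact one_ne_zero (RT_inj (gp i hi) P.τ h2)
    · exact P.Xl
  sgen := by
    intro i
    rcases il_or i with hi | rfl
    · rw [P.sr_short hi]
      have h1 : ∀ t, P.xs hi t ∈ pu P.K (strb (hNk k) i) ⊔ pu P.K (str_swap (strb (hNk k) i)) :=
        fun t => Subgroup.mem_sup_left (P.xs_pu hi t)
      have h2 : ∀ t, P.ys hi t ∈ pu P.K (strb (hNk k) i) ⊔ pu P.K (str_swap (strb (hNk k) i)) :=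
        fun t => Subgroup.mem_sup_right (P.ys_pu hi t)
      exact mul_mem (mul_mem (h1 _) (h2 _)) (h1 _)
    · rw [P.sr_last]
      exact P.slg

theorem form_short {i : Fin (k + 1)} (hi : (i : ℕ) < k) {x : P.K} (hx : x ∈ pu P.K (strb (hNk k) i)) : ∃ t, x = P.xs hi t := by
  rw [mem_pu, mem_patU] at hx
  refine ⟨_, Subtype.ext (GrEven.form_RT P.τ (gp i hi) (e1 (2 * k + 2) F) rfl (P.hK x.2) ?_)⟩
  intro p q h
  apply hx
  rw [blk_short hi]
  exact h

theorem form_short' {i : Fin (k + 1)} (hi : (i : ℕ) < k) {x : P.K} (hx : x ∈ pu P.K (str_swap (strb (hNk k) i))) : ∃ t, x = P.ys hi t := by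
  rw [mem_pu, mem_patU] at hx
  refine ⟨_, Subtype.ext (GrEven.form_RT P.τ (gp i hi).symm (e1 (2 * k + 2) F) rfl (P.hK x.2) ?_)⟩
  intro p q h
  apply hx
  rw [blk_short hi]
  tauto

/-- form of the last root group -/
theorem form_last {x : P.K} (hx : x ∈ pu P.K (strb (hNk k) (il k))) :
    ∃ u v, v + P.τ v = -(u * P.τ u) ∧ x.1 = X3 (t3 k) u (-P.τ u) v := by
  rw [mem_pu, mem_patU] at hx
  have h1 := X3_form (t3 k) (x := x.1) (fun p q h => hx p q (by rw [blk_last]; exact h))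
  have h2 := P.hK x.2
  rw [h1, X3_mem_iff (t3 k) P.τ P.hτ (rev_lc k) rfl] at h2
  refine ⟨x.1 (la k) (lc k), x.1 (la k) (lb k), h2.2, ?_⟩
  rw [← h2.1]; exact h1

theorem form_last' {x : P.K} (hx : x ∈ pu P.K (str_swap (strb (hNk k) (il k)))) :
    ∃ u v, v + P.τ v = -(u * P.τ u) ∧ x.1 = X3 (t3 k).symm u (-P.τ u) v := by
  rw [mem_pu, mem_patU] at hx
  have h1 := X3_form (t3 k).symm (x := x.1) (fun p q h => hx p q (by rw [blk_last]; tauto))
  have h2 := P.hK x.2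
  rw [h1, X3_mem_iff (t3 k).symm P.τ P.hτ (rev_lc k) (by rw [Fin.rev_rev])] at h2
  refine ⟨x.1 (lb k) (lc k), x.1 (lb k) (la k), h2.2, ?_⟩
  rw [← h2.1]; exact h1

omit P in
theorem last_pat (u w v : F) : X3 (t3 k) u w v ∈ patU (strb (hNk k) (il k)) := by
  rw [mem_patU]
  intro p q h
  rw [blk_last] at h
  push Not at h
  rw [X3_apply, if_neg (c := p = la k ∧ q = lc k) (fun e => h.1 e.1 e.2), if_neg (c := p = lc k ∧ q = lb k) (fun e => h.2.1 e.1 e.2),
    if_neg (c := p = la k ∧ q = lb k) (fun e => h.2.2 e.1 e.2), add_zero, add_zero, add_zero]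

omit P in
theorem last_pat' (u w v : F) : X3 (t3 k).symm u w v ∈ patU (str_swap (strb (hNk k) (il k))) := by
  rw [mem_patU]
  intro p q h
  rw [blk_last] at h
  push Not at h
  rw [X3_apply, if_neg (c := p = lb k ∧ q = lc k) (fun e => h.2.1 e.2 e.1), if_neg (c := p = lc k ∧ q = la k) (fun e => h.1 e.2 e.1),
    if_neg (c := p = lb k ∧ q = la k) (fun e => h.2.2 e.2 e.1), add_zero, add_zero, add_zero]

/-- last root elements -/
def xl (u v : F) (h : v + P.τ v = -(u * P.τ u)) : P.K := ⟨X3 (t3 k) u (-P.τ u) v, P.hUK _ (patb_U (last_pat _ _ _))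
  ((X3_mem_iff (t3 k) P.τ P.hτ (rev_lc k) rfl _ _ _).2 ⟨rfl, h⟩)⟩
def yl (u v : F) (h : v + P.τ v = -(u * P.τ u)) : P.K := ⟨X3 (t3 k).symm u (-P.τ u) v, P.hVK _ (patb_V (last_pat' _ _ _))
  ((X3_mem_iff (t3 k).symm P.τ P.hτ (rev_lc k) (by rw [Fin.rev_rev]) _ _ _).2 ⟨rfl, h⟩)⟩

theorem xl_pu (u v : F) (h : v + P.τ v = -(u * P.τ u)) : P.xl u v h ∈ pu P.K (strb (hNk k) (il k)) := mem_pu.2 (last_pat _ _ _)
theorem yl_pu (u v : F) (h : v + P.τ v = -(u * P.τ u)) : P.yl u v h ∈ pu P.K (str_swap (strb (hNk k) (il k))) := mem_pu.2 (last_pat' _ _ _)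

theorem form_xl {x : P.K} (hx : x ∈ pu P.K (strb (hNk k) (il k))) : ∃ u v h, x = P.xl u v h := by
  obtain ⟨u, v, h, e⟩ := P.form_last hx
  exact ⟨u, v, h, Subtype.ext e⟩
theorem form_yl {x : P.K} (hx : x ∈ pu P.K (str_swap (strb (hNk k) (il k)))) : ∃ u v h, x = P.yl u v h := by
  obtain ⟨u, v, h, e⟩ := P.form_last' hx
  exact ⟨u, v, h, Subtype.ext e⟩

theorem xl_inj {u v u' v' : F} {h : v + P.τ v = -(u * P.τ u)} {h' : v' + P.τ v' = -(u' * P.τ u')} (e : P.xl u v h = P.xl u' v' h') : u = u' ∧ v = v' := by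
  obtain ⟨h1, h2, h3⟩ := X3_inj (t3 k) (congrArg Subtype.val e)
  exact ⟨h1, h3⟩
theorem yl_inj {u v u' v' : F} {h : v + P.τ v = -(u * P.τ u)} {h' : v' + P.τ v' = -(u' * P.τ u')} (e : P.yl u v h = P.yl u' v' h') : u = u' ∧ v = v' := by
  obtain ⟨h1, h2, h3⟩ := X3_inj (t3 k).symm (congrArg Subtype.val e)
  exact ⟨h1, h3⟩

theorem xl_mul {u v u' v' : F} (h : v + P.τ v = -(u * P.τ u)) (h' : v' + P.τ v' = -(u' * P.τ u'))
    (h'' : (v + v' - u * P.τ u') + P.τ (v + v' - u * P.τ u') = -((u + u') * P.τ (u + u'))) :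
    P.xl u v h * P.xl u' v' h' = P.xl (u + u') (v + v' - u * P.τ u') h'' := by
  apply Subtype.ext
  show X3 (t3 k) u (-P.τ u) v * X3 (t3 k) u' (-P.τ u') v' = X3 (t3 k) (u + u') (-P.τ (u + u')) (v + v' - u * P.τ u')
  rw [X3_mul, map_add]
  congr 1 <;> ring

theorem rel_mul {u v u' v' : F} (h : v + P.τ v = -(u * P.τ u)) (h' : v' + P.τ v' = -(u' * P.τ u')) :
    (v + v' - u * P.τ u') + P.τ (v + v' - u * P.τ u') = -((u + u') * P.τ (u + u')) := by
  simp only [map_add, map_sub, map_mul, P.hτ]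
  linear_combination h + h'

end OI

end Cfsg.Agent.H8.GrOdd
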