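import Mathlib
import Cfsg.Agent.H8.GrOdd

set_option autoImplicit false
set_option linter.all false

/-! Automorphisms in odd dimension: generalities. -/

namespace Cfsg.Agent.H8.GrOdd

open scoped commutatorElement
open Matrix Pointwise Cfsg.Agent.H8.AutBN Cfsg.Agent.H8.SLPat Cfsg.Agent.H8.SLTri Cfsg.Agent.H8.SLData
  Cfsg.Agent.H8.Theta Cfsg.Agent.H8.GrComb Cfsg.Agent.H8.GrData Cfsg.Agent.H8.GrShort Cfsg.Agent.H8.GrPi
  Cfsg.Agent.H8.GrCen Cfsg.Agent.H8.GrStd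

section abs

variable {N m : ℕ} {F : Type*} [Field F] [Finite F] (P : Inp N m F) (p : ℕ) [Fact p.Prime] [CharP F p]

theorem norm_UV (α : MulAut (QG P)) : ∃ (g : P.K) (π : Equiv.Perm (Fin m)),
    (c (Q P g) * α) • (qd P p).U = (qd P p).U ∧ (c (Q P g) * α) • (qd P p).V = (qd P p).V ∧
    (∀ i, (c (Q P g) * α) • (qd P p).X i = (qd P p).X (π i)) ∧ (∀ i, (c (Q P g) * α) • (qd P p).Y i = (qd P p).Y (π i)) ∧
    (∀ (i j : Fin m) (k : ℕ), (sg P.hN i * sg P.hN j) ^ k = 1 ↔ (sg P.hN (π i) * sg P.hN (π j)) ^ k = 1) := by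
  obtain ⟨g, π, hU, hV, hX, hY⟩ := (qd P p).main (Data.quot_hXY _ _ (P.hXY p)) α
  obtain ⟨g, rfl⟩ := QuotientGroup.mk'_surjective _ g
  refine ⟨g, π, hU, hV, hX, hY, ?_⟩
  intro i j k
  generalize c (Q P g) * α = β at *
  constructor
  · intro h
    rw [← tor_pow_iff P p] at h ⊢
    exact (P.ext p).coxeter (P.dat p).cenP_center β π hU hV hX hY i j k h
  · intro h
    rw [← tor_pow_iff P p] at h ⊢
    have := (P.ext p).coxeter (P.dat p).cenP_center β⁻¹ π⁻¹ (by rw [inv_smul_eq_iff, hU]) (by rw [inv_smul_eq_iff, hV])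
      (by intro i; rw [inv_smul_eq_iff, hX]; simp) (by intro i; rw [inv_smul_eq_iff, hY]; simp) (π i) (π j) k h
    simpa using this

theorem tor_map (β : MulAut (QG P)) (hU : β • (qd P p).U = (qd P p).U) (hV : β • (qd P p).V = (qd P p).V) {h : P.K} (hh : Mono h.1 1) :
    ∃ h' : P.K, Mono h'.1 1 ∧ β (Q P h) = Q P h' := by
  obtain ⟨h', e⟩ := QuotientGroup.mk'_surjective _ (β (Q P h))
  refine ⟨h', ?_, e.symm⟩
  rw [← tor_iff P p]
  have h1 : (qd P p).Tor (Q P h) := by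
    rw [Data.quot_tor]; exact (tor_iff P p).2 hh
  have h2 : (qd P p).Tor (Q P h') := by
    have e' : Q P h' = β (Q P h) := e
    rw [e']
    constructor
    · have := congrArg (fun H => β • H) h1.1
      simp only [smul_c, hU] at this
      exact this
    · have := congrArg (fun H => β • H) h1.2
      simp only [smul_c, hV] at this
      exact this
  rw [Data.quot_tor] at h2
  exact h2

/-- the reflection exchanges the root groups -/
theorem sX (i : Fin m) : c (P.s i) • pu P.K (str_swap (strb P.hN i)) = pu P.K (strb P.hN i) := by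
  rw [← P.Yp_eq, ← P.Xp_eq, Subgroup.smul_inf, smul_smul, ← c_mul]
  have h6 : c (P.s i * P.s i) • P.UU = P.UU := by
    apply P.c_pu_one
    have := (P.smono i).mul (P.smono i)
    rwa [sg_mul] at this
  rw [h6, inf_comm]

include p in
theorem conj_inj {w u v : P.K} (hu : ∃ n, u ^ p ^ n = 1) (hv : ∃ n, v ^ p ^ n = 1)
    (h : Q P w * Q P u = Q P v * Q P w) : w * u = v * w := by
  have h1 : Q P (w * u * w⁻¹) = Q P v := by
    rw [map_mul, map_mul, h, map_inv]; group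
  have h3 : ∃ n, (w * u * w⁻¹ : P.K) ^ p ^ n = 1 := by
    obtain ⟨n, hn⟩ := hu
    exact ⟨n, by rw [conj_pow, hn]; simp⟩
  have h2 := Q_inj P p (u := w * u * w⁻¹) (v := v) h3 hv h1
  rw [← h2]; group

/-- unipotent elements -/
theorem pU {u : P.K} (h : u.1 ∈ U N F) : ∃ n, u ^ p ^ n = 1 := by
  obtain ⟨n, hn⟩ := pE (isP (F := F) (m := N) (p := p)) h
  exact ⟨n, Subtype.ext hn⟩

end abs

variable {k : ℕ} {F : Type*} [Field F] [Finite F] (P : OI k F) (p : ℕ) [Fact p.Prime] [CharP F p]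

namespace OI

/-- projection -/
noncomputable abbrev q : P.K →* QG P.inp := Q P.inp

include p in
theorem pxs {i : Fin (k + 1)} (hi : (i : ℕ) < k) (t : F) : ∃ n, (P.xs hi t) ^ p ^ n = 1 := pE_X P.inp p (P.xs_pu hi t)
include p in
theorem pys {i : Fin (k + 1)} (hi : (i : ℕ) < k) (t : F) : ∃ n, (P.ys hi t) ^ p ^ n = 1 := pE_Y P.inp p (P.ys_pu hi t)
include p in
theorem pxl (u v : F) (h : v + P.τ v = -(u * P.τ u)) : ∃ n, (P.xl u v h) ^ p ^ n = 1 := pE_X P.inp p (P.xl_pu u v h)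
include p in
theorem pyl (u v : F) (h : v + P.τ v = -(u * P.τ u)) : ∃ n, (P.yl u v h) ^ p ^ n = 1 := pE_Y P.inp p (P.yl_pu u v h)

/-- rank one, short roots -/
theorem rank_short (β : MulAut (QG P.inp)) {i : Fin (k + 1)} (hi : (i : ℕ) < k) (f g : F → F)
    (hf : ∀ t, β (P.q (P.xs hi t)) = P.q (P.xs hi (f t)))
    (hg : ∀ t, β (P.q (P.ys hi t)) = P.q (P.ys hi (g t))) (h1 : f 1 = 1) :
    (∀ t, g t = f t) ∧ ∃ σ : F ≃+* F, ∀ t, f t = σ t := by
  obtain ⟨p, hp⟩ := CharP.exists F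
  haveI : Fact p.Prime := ⟨CharP.char_is_prime F p⟩
  apply RankOne.rank_one_abs (fun t => P.q (P.xs hi t)) (fun t => P.q (P.ys hi t)) _ _ _ _ _ _ β f g hf hg h1
  · intro s t
    rw [← map_mul]
    congr 1
    exact Subtype.ext (RT_add (gp i hi) P.τ s t)
  · intro s t
    rw [← map_mul]
    congr 1
    exact Subtype.ext (RT_add (gp i hi).symm P.τ s t)
  · intro s t h
    have := Q_inj P.inp p (P.pxs p hi s) (P.pxs p hi t) h
    exact RT_inj (gp i hi) P.τ (congrArg Subtype.val this)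
  · intro s t h
    have := Q_inj P.inp p (P.pys p hi s) (P.pys p hi t) h
    exact RT_inj (gp i hi).symm P.τ (congrArg Subtype.val this)
  · intro t s ht
    simp only [← map_mul]
    congr 1
    exact Subtype.ext (NR_mul (gp i hi) P.τ ht s)
  · intro a b c r r' hr h
    simp only [← map_mul] at h
    rw [map_mul P.q _ (P.xs hi r), map_mul P.q (P.ys hi r')] at h
    have h2 := conj_inj P.inp p (P.pxs p hi r) (P.pys p hi r') h
    exact RT_key (gp i hi) P.τ hr (congrArg Subtype.val h2)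

theorem xsU {i : Fin (k + 1)} (hi : (i : ℕ) < k) (t : F) : (P.xs hi t).1 ∈ U (2 * k + 2) F := patb_U (P.short_pat hi t)
theorem xlU (u v : F) (h : v + P.τ v = -(u * P.τ u)) : (P.xl u v h).1 ∈ U (2 * k + 2) F := patb_U (last_pat _ _ _)

theorem commU {x y : P.K} (hx : x.1 ∈ U (2 * k + 2) F) (hy : y.1 ∈ U (2 * k + 2) F) : (⁅x, y⁆ : P.K).1 ∈ U (2 * k + 2) F := by
  have e : (⁅x, y⁆ : P.K).1 = ⁅x.1, y.1⁆ := rfl
  rw [e, commutatorElement_def]
  exact mul_mem (mul_mem (mul_mem hx hy) (inv_mem hx)) (inv_mem hy)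

/-- comparison of neighbouring short roots -/
theorem nb_short (β : MulAut (QG P.inp)) {i j : Fin (k + 1)} (hi : (i : ℕ) < k) (hj : (j : ℕ) < k) (hij : (i : ℕ) + 1 = j) (f g : F → F)
    (hf : ∀ t, β (P.q (P.xs hi t)) = P.q (P.xs hi (f t)))
    (hg : ∀ t, β (P.q (P.xs hj t)) = P.q (P.xs hj (g t))) (h1 : f 1 = 1) (h1' : g 1 = 1) (t : F) : f t = g t := by
  obtain ⟨p, hp⟩ := CharP.exists F
  haveI : Fact p.Prime := ⟨CharP.char_is_prime F p⟩
  have hpb : pb i = pa j := by ext; rw [pa_val, pb_val, hij]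
  have hg3 : GP (pa i) (pb j) := by
    constructor
    · intro h; have := congrArg Fin.val h; rw [pa_val, pb_val] at this; omega
    · intro h; have := congrArg Fin.val h; rw [rev_val, pa_val, pb_val] at this; omega
    · exact (gp i hi).aa
    · exact (gp j hj).bb
  have hgi : GP (pa i) (pa j) := hpb ▸ gp i hi
  have cm : ∀ s t : F, (⁅P.xs hi s, P.xs hj t⁆ : P.K).1 = RT P.τ hg3.ab (s * t) := by
    intro s t
    have e : (⁅P.xs hi s, P.xs hj t⁆ : P.K).1 = ⁅RT P.τ (gp i hi).ab s, RT P.τ (gp j hj).ab t⁆ := rfl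
    rw [e]
    have e2 : RT P.τ (gp i hi).ab s = RT P.τ hgi.ab s := by congr 1
    rw [e2]
    exact comm_A2 P.τ hgi (gp j hj) hg3 s t
  have c1 : ⁅P.xs hi t, P.xs hj (1 : F)⁆ = ⁅P.xs hi (1 : F), P.xs hj t⁆ := by
    apply Subtype.ext
    rw [cm, cm, mul_one, one_mul]
  have c2 := congrArg (fun z => β (P.q z)) c1
  simp only [map_commutatorElement, hf, hg, h1, h1'] at c2
  rw [← map_commutatorElement, ← map_commutatorElement] at c2
  have hU : ∀ s t, (⁅P.xs hi s, P.xs hj t⁆ : P.K).1 ∈ U (2 * k + 2) F := fun s t => P.commU (P.xsU hi s) (P.xsU hj t)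
  have c3 := Q_inj P.inp p (pU P.inp p (hU (f t) 1)) (pU P.inp p (hU 1 (g t))) c2
  have c4 := congrArg Subtype.val c3
  have c5 : RT P.τ hg3.ab (f t * 1) = RT P.τ hg3.ab (1 * g t) := by rw [← cm, ← cm]; exact c4
  have := RT_inj hg3 P.τ c5
  simpa using this

/-- torus elements from a short root -/
noncomputable def Nn {i : Fin (k + 1)} (hi : (i : ℕ) < k) (t : F) : P.K := P.xs hi t * P.ys hi (-t⁻¹) * P.xs hi t
noncomputable def Hn {i : Fin (k + 1)} (hi : (i : ℕ) < k) (t : F) : P.K := (P.Nn hi 1)⁻¹ * P.Nn hi t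

theorem Nn_val {i : Fin (k + 1)} (hi : (i : ℕ) < k) (t : F) : (P.Nn hi t).1 = NR (gp i hi) P.τ t := rfl

theorem rel_N {u v : F} (h : v + P.τ v = -(u * P.τ u)) (t : F) :
    (t * P.τ t * v) + P.τ (t * P.τ t * v) = -((t * u) * P.τ (t * u)) := by
  simp only [map_mul, P.hτ]
  linear_combination (t * P.τ t) * h

theorem Hn_xl {i : Fin (k + 1)} (hi : (i : ℕ) < k) (hik : (i : ℕ) + 1 = k) {t : F} (ht : t ≠ 0) (u v : F) (h : v + P.τ v = -(u * P.τ u)) :
    P.Hn hi t * P.xl u v h = P.xl (t * u) (t * P.τ t * v) (P.rel_N h t) * P.Hn hi t := by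
  obtain ⟨a, ha⟩ : ∃ a, a = pa i := ⟨_, rfl⟩
  obtain ⟨b, hb⟩ : ∃ b, b = pb i := ⟨_, rfl⟩
  have hgp : GP a b := by rw [ha, hb]; exact gp i hi
  have hbl : la k = b := by rw [hb]; ext; rw [la_val, pb_val, hik]
  have eNn : ∀ t, (P.Nn hi t).1 = NR hgp P.τ t := by
    subst ha; subst hb
    intro t; rfl
  have tb : T3 b (lc k) (Fin.rev b) := by subst hbl; exact t3 k
  have ta : T3 a (lc k) (Fin.rev a) := by
    constructor
    · intro h; have := congrArg Fin.val h; rw [ha, pa_val, lc_val] at this; omega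
    · intro h; have := congrArg Fin.val h; rw [ha, rev_val, pa_val, lc_val] at this; omega
    · exact hgp.aa
  have exl : ∀ u v h, (P.xl u v h).1 = X3 tb u (-P.τ u) v := by
    subst hbl
    intro u v h; rfl
  have A := fun {t : F} (ht : t ≠ 0) u v => NR_X3 P.τ hgp (rev_lc k) tb ta ht u v
  have e1 : (P.Nn hi t * P.xl u v h).1 = X3 ta (t * u) (-P.τ (t * u)) (t * P.τ t * v) * (P.Nn hi t).1 := by
    show (P.Nn hi t).1 * (P.xl u v h).1 = _
    rw [eNn, exl]; exact A ht u v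
  have e2 : (P.Nn hi 1 * P.xl (t * u) (t * P.τ t * v) (P.rel_N h t)).1 = X3 ta (t * u) (-P.τ (t * u)) (t * P.τ t * v) * (P.Nn hi 1).1 := by
    show (P.Nn hi 1).1 * (P.xl _ _ _).1 = _
    rw [eNn, exl, A one_ne_zero]
    simp only [one_mul, map_one, mul_one]
  apply Subtype.ext
  show (P.Nn hi 1).1⁻¹ * (P.Nn hi t).1 * (P.xl u v h).1 = (P.xl (t * u) (t * P.τ t * v) (P.rel_N h t)).1 * ((P.Nn hi 1).1⁻¹ * (P.Nn hi t).1)
  have e1' : (P.Nn hi t).1 * (P.xl u v h).1 = X3 ta (t * u) (-P.τ (t * u)) (t * P.τ t * v) * (P.Nn hi t).1 := e1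
  have e2' : (P.Nn hi 1).1 * (P.xl (t * u) (t * P.τ t * v) (P.rel_N h t)).1 = X3 ta (t * u) (-P.τ (t * u)) (t * P.τ t * v) * (P.Nn hi 1).1 := e2
  rw [mul_assoc, e1', eq_comm, ← mul_right_inj ((P.Nn hi 1).1), ← mul_assoc, ← mul_assoc, e2']
  group

theorem beta_Hn (β : MulAut (QG P.inp)) {i : Fin (k + 1)} (hi : (i : ℕ) < k) (σ : F ≃+* F)
    (hf : ∀ t, β (P.q (P.xs hi t)) = P.q (P.xs hi (σ t)))
    (hg : ∀ t, β (P.q (P.ys hi t)) = P.q (P.ys hi (σ t))) (t : F) : β (P.q (P.Hn hi t)) = P.q (P.Hn hi (σ t)) := by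
  unfold Hn Nn
  simp only [map_mul, map_inv, hf, hg, map_neg, map_inv₀, map_one]

theorem fix_aux (γ : MulAut (QG P.inp))
    (h3 : ∀ u v h, γ (P.q (P.xl u v h)) = P.q (P.xl u v h)) (h4 : γ (P.q P.sl) = P.q P.sl) {y : P.K}
    (hy : y ∈ pu P.K (str_swap (strb (hNk k) (il k)))) : γ (P.q y) = P.q y := by
  have e1 : P.inp.s (il k) = P.sl := P.sr_last
  have e2 : P.sl * y * P.sl⁻¹ ∈ pu P.K (strb (hNk k) (il k)) := by
    have h5 : c (P.inp.s (il k)) • pu P.inp.K (str_swap (strb P.inp.hN (il k))) = pu P.inp.K (strb P.inp.hN (il k)) := sX P.inp (il k)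
    rw [e1] at h5
    have h6 : P.sl * y * P.sl⁻¹ ∈ c P.sl • pu P.K (str_swap (strb (hNk k) (il k))) := by
      rw [mem_c_smul]
      have : P.sl⁻¹ * (P.sl * y * P.sl⁻¹) * P.sl = y := by group
      rw [this]; exact hy
    exact h5 ▸ h6
  obtain ⟨u, v, h, e3⟩ := P.form_xl e2
  have e4 : y = P.sl⁻¹ * P.xl u v h * P.sl := by rw [← e3]; group
  rw [e4, map_mul, map_mul, map_mul, map_mul, map_inv, map_inv, h4, h3]

/-- everything is fixed -/
theorem fix_all (γ : MulAut (QG P.inp)) (h1 : ∀ (i : Fin (k + 1)) (hi : (i : ℕ) < k) t, γ (P.q (P.xs hi t)) = P.q (P.xs hi t))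
    (h2 : ∀ (i : Fin (k + 1)) (hi : (i : ℕ) < k) t, γ (P.q (P.ys hi t)) = P.q (P.ys hi t))
    (h3 : ∀ u v h, γ (P.q (P.xl u v h)) = P.q (P.xl u v h)) (h4 : γ (P.q P.sl) = P.q P.sl) : γ = 1 := by
  obtain ⟨p, hp⟩ := CharP.exists F
  haveI : Fact p.Prime := ⟨CharP.char_is_prime F p⟩
  apply rigid P.inp p
  · intro i x hx
    rcases il_or i with hi | rfl
    · obtain ⟨t, rfl⟩ := P.form_short hi hx
      exact h1 i hi t
    · obtain ⟨u, v, h, rfl⟩ := P.form_xl hx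
      exact h3 u v h
  · intro i y hy
    rcases il_or i with hi | rfl
    · obtain ⟨t, rfl⟩ := P.form_short' hi hy
      exact h2 i hi t
    · have key : ∀ y : P.K, y ∈ pu P.K (str_swap (strb (hNk k) (il k))) → γ (P.q y) = P.q y := by
        intro y hy
        exact P.fix_aux γ h3 h4 hy
      exact key y hy

end OI

end Cfsg.Agent.H8.GrOdd
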