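import Mathlib
import Cfsg.Agent.H8.GrOdd2
import Cfsg.Agent.H8.GrGen

set_option autoImplicit false
set_option linter.all false

/-! Automorphisms in odd dimension, unitary case: the last root group. -/

namespace Cfsg.Agent.H8.GrOdd

open scoped commutatorElement
open Matrix Pointwise Cfsg.Agent.H8.AutBN Cfsg.Agent.H8.SLPat Cfsg.Agent.H8.SLTri Cfsg.Agent.H8.SLData
  Cfsg.Agent.H8.Theta Cfsg.Agent.H8.GrComb Cfsg.Agent.H8.GrData Cfsg.Agent.H8.GrShort Cfsg.Agent.H8.GrPi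
  Cfsg.Agent.H8.GrCen Cfsg.Agent.H8.GrStd Cfsg.Agent.H8.GrGen

/-- an element commuting with a set goes to one commuting with the set -/
theorem cen_abs {G H : Type*} [Group G] [Group H] (q : G →* H) (β : MulAut H) (S : Set G)
    (hinv : ∀ s ∈ S, ∃ r ∈ S, β (q r) = q s) (hl : ∀ a ∈ S, ∀ b ∈ S, q a * q b = q b * q a → a * b = b * a)
    {x x' : G} (hx : x ∈ S) (hx' : x' ∈ S) (e : β (q x) = q x') (hc : ∀ s ∈ S, x * s = s * x) : ∀ s ∈ S, x' * s = s * x' := by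
  intro s hs
  obtain ⟨r, hr, er⟩ := hinv s hs
  apply hl _ hx' _ hs
  rw [← e, ← er, ← map_mul, ← map_mul, ← map_mul, ← map_mul, hc r hr]

section trace

variable {F : Type*} [Field F] (τ : F ≃+* F) (hτ : ∀ t, τ (τ t) = t) (hne : ∃ t, τ t ≠ t)
include hτ hne

theorem exists_tr : ∃ s : F, s + τ s = 1 := by
  obtain ⟨t, ht⟩ := hne
  have h1 : ∃ x : F, x + τ x ≠ 0 := by
    by_contra hcon
    push Not at hcon
    have h2 := hcon 1
    rw [map_one] at h2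
    apply ht
    have h3 := hcon t
    have h4 : t * (1 + 1) = 0 := by rw [h2, mul_zero]
    linear_combination h3 - h4
  obtain ⟨x, hx⟩ := h1
  have hfix : τ (x + τ x) = x + τ x := by rw [map_add, hτ]; ring
  refine ⟨x / (x + τ x), ?_⟩
  rw [map_div₀, hfix]
  field_simp

theorem exists_rel (u : F) : ∃ v : F, v + τ v = -(u * τ u) := by
  obtain ⟨s, hs⟩ := exists_tr τ hτ hne
  refine ⟨-(u * τ u) * s, ?_⟩
  simp only [map_mul, map_neg, hτ]
  linear_combination (-(u * τ u)) * hs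

theorem exists_skew_rep {w : F} (hw : w + τ w = 0) : ∃ x : F, x - τ x = w := by
  obtain ⟨s, hs⟩ := exists_tr τ hτ hne
  refine ⟨w * s, ?_⟩
  rw [map_mul]
  linear_combination w * hs - hw * τ s

end trace

variable {k : ℕ} {F : Type*} [Field F] [Finite F] (P : OI k F) (p : ℕ) [Fact p.Prime] [CharP F p]

namespace OI

/-- parameters -/
def R : Type _ := {r : F × F // r.2 + P.τ r.2 = -(r.1 * P.τ r.1)}

variable {P}

@[ext] theorem R.ext {r s : P.R} (h1 : r.1.1 = s.1.1) (h2 : r.1.2 = s.1.2) : r = s := Subtype.ext (Prod.ext h1 h2)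

/-- product of parameters -/
def R.mul (r s : P.R) : P.R := ⟨(r.1.1 + s.1.1, r.1.2 + s.1.2 - r.1.1 * P.τ s.1.1), P.rel_mul r.2 s.2⟩

variable (P)

def XX (r : P.R) : P.K := P.xl r.1.1 r.1.2 r.2
def YY (r : P.R) : P.K := P.yl r.1.1 r.1.2 r.2

theorem XX_mul (r s : P.R) : P.XX (r.mul s) = P.XX r * P.XX s := (P.xl_mul r.2 s.2 (P.rel_mul r.2 s.2)).symm

theorem XX_inj {r s : P.R} (h : P.XX r = P.XX s) : r = s := by
  obtain ⟨h1, h2⟩ := P.xl_inj h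
  exact R.ext h1 h2

theorem XX_pu (r : P.R) : P.XX r ∈ pu P.K (strb (hNk k) (il k)) := P.xl_pu _ _ _
theorem YY_pu (r : P.R) : P.YY r ∈ pu P.K (str_swap (strb (hNk k) (il k))) := P.yl_pu _ _ _
theorem form_XX {x : P.K} (hx : x ∈ pu P.K (strb (hNk k) (il k))) : ∃ r, x = P.XX r := by
  obtain ⟨u, v, h, e⟩ := P.form_xl hx
  exact ⟨⟨(u, v), h⟩, e⟩
theorem form_YY {x : P.K} (hx : x ∈ pu P.K (str_swap (strb (hNk k) (il k)))) : ∃ r, x = P.YY r := by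
  obtain ⟨u, v, h, e⟩ := P.form_yl hx
  exact ⟨⟨(u, v), h⟩, e⟩

theorem XXU (r : P.R) : (P.XX r).1 ∈ U (2 * k + 2) F := P.xlU _ _ _
theorem YYV (r : P.R) : (P.YY r).1 ∈ V (2 * k + 2) F := patb_V (last_pat' _ _ _)

theorem qXX_inj {r s : P.R} (h : P.q (P.XX r) = P.q (P.XX s)) : r = s := by
  obtain ⟨p, hp⟩ := CharP.exists F
  haveI : Fact p.Prime := ⟨CharP.char_is_prime F p⟩
  exact P.XX_inj (Q_inj P.inp p (P.pxl p _ _ _) (P.pxl p _ _ _) h)

theorem qYY_inj {r s : P.R} (h : P.q (P.YY r) = P.q (P.YY s)) : r = s := by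
  obtain ⟨p, hp⟩ := CharP.exists F
  haveI : Fact p.Prime := ⟨CharP.char_is_prime F p⟩
  obtain ⟨h1, h2⟩ := P.yl_inj (Q_inj P.inp p (P.pyl p _ _ _) (P.pyl p _ _ _) h)
  exact R.ext h1 h2

/-- commuting elements -/
theorem liftX {a b : P.K} (ha : a ∈ pu P.K (strb (hNk k) (il k))) (hb : b ∈ pu P.K (strb (hNk k) (il k)))
    (h : P.q a * P.q b = P.q b * P.q a) : a * b = b * a := by
  obtain ⟨p, hp⟩ := CharP.exists F
  haveI : Fact p.Prime := ⟨CharP.char_is_prime F p⟩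
  exact conj_inj P.inp p (pE_X P.inp p hb) (pE_X P.inp p hb) h

theorem liftY {a b : P.K} (ha : a ∈ pu P.K (str_swap (strb (hNk k) (il k)))) (hb : b ∈ pu P.K (str_swap (strb (hNk k) (il k))))
    (h : P.q a * P.q b = P.q b * P.q a) : a * b = b * a := by
  obtain ⟨p, hp⟩ := CharP.exists F
  haveI : Fact p.Prime := ⟨CharP.char_is_prime F p⟩
  exact conj_inj P.inp p (pE_Y P.inp p hb) (pE_Y P.inp p hb) h

section uni

variable (hne : ∃ t, P.τ t ≠ t)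
include hne

theorem cen_rel {u : F} (h : ∀ u' : F, u' * P.τ u = u * P.τ u') : u = 0 := by
  obtain ⟨t, ht⟩ := hne
  by_contra hu
  have h1 := h 1
  rw [map_one, one_mul, mul_one] at h1
  have h2 := h t
  rw [h1, mul_comm t u] at h2
  exact ht (mul_left_cancel₀ hu h2).symm

theorem cenX {r : P.R} (h : ∀ s : P.R, P.XX r * P.XX s = P.XX s * P.XX r) : r.1.1 = 0 := by
  apply P.cen_rel hne
  intro u'
  obtain ⟨v', hv'⟩ := exists_rel P.τ P.hτ hne u'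
  have h1 := congrArg Subtype.val (h ⟨(u', v'), hv'⟩)
  have h2 : X3 (t3 k) r.1.1 (-P.τ r.1.1) r.1.2 * X3 (t3 k) u' (-P.τ u') v' = X3 (t3 k) u' (-P.τ u') v' * X3 (t3 k) r.1.1 (-P.τ r.1.1) r.1.2 := h1
  rw [X3_mul, X3_mul] at h2
  obtain ⟨_, _, h3⟩ := X3_inj (t3 k) h2
  linear_combination h3

theorem cenY {r : P.R} (h : ∀ s : P.R, P.YY r * P.YY s = P.YY s * P.YY r) : r.1.1 = 0 := by
  apply P.cen_rel hne
  intro u'
  obtain ⟨v', hv'⟩ := exists_rel P.τ P.hτ hne u'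
  have h1 := congrArg Subtype.val (h ⟨(u', v'), hv'⟩)
  have h2 : X3 (t3 k).symm r.1.1 (-P.τ r.1.1) r.1.2 * X3 (t3 k).symm u' (-P.τ u') v' = X3 (t3 k).symm u' (-P.τ u') v' * X3 (t3 k).symm r.1.1 (-P.τ r.1.1) r.1.2 := h1
  rw [X3_mul, X3_mul] at h2
  obtain ⟨_, _, h3⟩ := X3_inj (t3 k).symm h2
  linear_combination h3

omit hne in
theorem cenX' {r : P.R} (h : r.1.1 = 0) (s : P.R) : P.XX r * P.XX s = P.XX s * P.XX r := by
  apply Subtype.ext
  show X3 (t3 k) r.1.1 (-P.τ r.1.1) r.1.2 * X3 (t3 k) s.1.1 (-P.τ s.1.1) s.1.2 = X3 (t3 k) s.1.1 (-P.τ s.1.1) s.1.2 * X3 (t3 k) r.1.1 (-P.τ r.1.1) r.1.2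
  rw [X3_mul, X3_mul, h, map_zero]
  congr 1 <;> ring

omit hne in
theorem cenY' {r : P.R} (h : r.1.1 = 0) (s : P.R) : P.YY r * P.YY s = P.YY s * P.YY r := by
  apply Subtype.ext
  show X3 (t3 k).symm r.1.1 (-P.τ r.1.1) r.1.2 * X3 (t3 k).symm s.1.1 (-P.τ s.1.1) s.1.2 = X3 (t3 k).symm s.1.1 (-P.τ s.1.1) s.1.2 * X3 (t3 k).symm r.1.1 (-P.τ r.1.1) r.1.2
  rw [X3_mul, X3_mul, h, map_zero]
  congr 1 <;> ring

/-- the center goes to the center -/
theorem B_cen (β : MulAut (QG P.inp)) (hinv : ∀ r : P.R, ∃ s : P.R, β (P.q (P.XX s)) = P.q (P.XX r)) {r s : P.R}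
    (e : β (P.q (P.XX r)) = P.q (P.XX s)) (h : r.1.1 = 0) : s.1.1 = 0 := by
  apply P.cenX hne
  intro s'
  have := cen_abs P.q β (pu P.K (strb (hNk k) (il k)) : Set P.K) (by
      intro x hx
      obtain ⟨r', rfl⟩ := P.form_XX hx
      obtain ⟨s'', e''⟩ := hinv r'
      exact ⟨P.XX s'', P.XX_pu s'', e''⟩) (fun a ha b hb h => P.liftX ha hb h) (P.XX_pu r) (P.XX_pu s) e (by
      intro x hx
      obtain ⟨r', rfl⟩ := P.form_XX hx
      exact P.cenX' h r')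
  exact this _ (P.XX_pu s')

theorem B_cenY (β : MulAut (QG P.inp)) (hinv : ∀ r : P.R, ∃ s : P.R, β (P.q (P.YY s)) = P.q (P.YY r)) {r s : P.R}
    (e : β (P.q (P.YY r)) = P.q (P.YY s)) (h : r.1.1 = 0) : s.1.1 = 0 := by
  apply P.cenY hne
  intro s'
  have := cen_abs P.q β (pu P.K (str_swap (strb (hNk k) (il k))) : Set P.K) (by
      intro x hx
      obtain ⟨r', rfl⟩ := P.form_YY hx
      obtain ⟨s'', e''⟩ := hinv r'
      exact ⟨P.YY s'', P.YY_pu s'', e''⟩) (fun a ha b hb h => P.liftY ha hb h) (P.YY_pu r) (P.YY_pu s) e (by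
      intro x hx
      obtain ⟨r', rfl⟩ := P.form_YY hx
      exact P.cenY' h r')
  exact this _ (P.YY_pu s')

/-- zero first coordinate -/
def z0 (w : F) (hw : w + P.τ w = 0) : P.R := ⟨(0, w), by rw [hw]; simp⟩

omit hne in
theorem skew_sub {r s : P.R} (h : r.1.1 = s.1.1) : (s.1.2 - r.1.2) + P.τ (s.1.2 - r.1.2) = 0 := by
  have h1 := r.2
  have h2 := s.2
  rw [h] at h1
  rw [map_sub]
  linear_combination h2 - h1

omit hne in
theorem eq_mul_z0 {r s : P.R} (h : r.1.1 = s.1.1) : s = r.mul (P.z0 _ (P.skew_sub h)) := by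
  apply R.ext
  · show s.1.1 = r.1.1 + 0
    rw [add_zero, h]
  · show s.1.2 = r.1.2 + (s.1.2 - r.1.2) - r.1.1 * P.τ 0
    rw [map_zero]; ring

/-- the map on the first coordinates -/
theorem exists_phi (β : MulAut (QG P.inp)) (B : P.R → P.R) (hB : ∀ r, β (P.q (P.XX r)) = P.q (P.XX (B r)))
    (hinv : ∀ r, ∃ s, B s = r) :
    (∀ r s : P.R, B (r.mul s) = (B r).mul (B s)) ∧
    ∃ φ : F → F, (∀ r, (B r).1.1 = φ r.1.1) ∧ (∀ x y, φ (x + y) = φ x + φ y) ∧ (∀ x, φ x = 0 → x = 0) := by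
  have hmul : ∀ r s : P.R, B (r.mul s) = (B r).mul (B s) := by
    intro r s
    apply P.qXX_inj
    rw [← hB, XX_mul, map_mul, map_mul, hB, hB, XX_mul, map_mul]
  refine ⟨hmul, ?_⟩
  have hinv' : ∀ r : P.R, ∃ s : P.R, β (P.q (P.XX s)) = P.q (P.XX r) := by
    intro r
    obtain ⟨s, hs⟩ := hinv r
    exact ⟨s, by rw [hB, hs]⟩
  have hcen : ∀ r : P.R, r.1.1 = 0 → (B r).1.1 = 0 := fun r h => P.B_cen hne β hinv' (hB r) h
  have hdep : ∀ r s : P.R, r.1.1 = s.1.1 → (B r).1.1 = (B s).1.1 := by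
    intro r s h
    have e := P.eq_mul_z0 h
    rw [e, hmul]
    show _ = (B r).1.1 + (B _).1.1
    rw [hcen (P.z0 _ (P.skew_sub h)) rfl, add_zero]
  choose tr htr using exists_rel P.τ P.hτ hne
  let ρ : F → P.R := fun u => ⟨(u, tr u), htr u⟩
  refine ⟨fun u => (B (ρ u)).1.1, fun r => hdep _ _ rfl, ?_, ?_⟩
  · intro x y
    show (B (ρ (x + y))).1.1 = (B (ρ x)).1.1 + (B (ρ y)).1.1
    rw [hdep (ρ (x + y)) ((ρ x).mul (ρ y)) rfl, hmul]; rfl
  · intro x hx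
    -- use the inverse
    have h1 : β⁻¹ (P.q (P.XX (B (ρ x)))) = P.q (P.XX (ρ x)) := by rw [← hB, MulAut.inv_apply_self]
    have h2 : ∀ r : P.R, ∃ s : P.R, β⁻¹ (P.q (P.XX s)) = P.q (P.XX r) := by
      intro r
      exact ⟨B r, by rw [← hB, MulAut.inv_apply_self]⟩
    exact P.B_cen hne β⁻¹ h2 h1 hx

end uni

/-- diagonal elements -/
theorem tor_xl {h : P.K} (hh : Mono h.1 1) (r : P.R) :
    ∃ hr : _, h * P.XX r = P.XX (⟨((h.1 (la k) (la k) * (h.1 (lc k) (lc k))⁻¹) * r.1.1,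
      ((h.1 (la k) (la k) * (h.1 (lc k) (lc k))⁻¹) * P.τ (h.1 (la k) (la k) * (h.1 (lc k) (lc k))⁻¹)) * r.1.2), hr⟩ : P.R) * h := by
  have hd : ∀ i, h.1 i i ≠ 0 := fun i => hh.ne_zero i
  let e : Fin (2 * k + 2 + 1) → Fˣ := fun i => Units.mk0 (h.1 i i) (hd i)
  have he : SpecialLinearGroup.toGL h.1 = AutPSL.dg e := by
    apply Units.ext
    show h.1.1 = Matrix.diagonal (fun i => (e i : F))
    ext i j
    rw [Matrix.diagonal_apply]
    by_cases hij : i = j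
    · subst hij; rw [if_pos rfl]; rfl
    · rw [if_neg hij]; exact hh i j hij
  have h1 : ∀ i, h.1 i i * P.τ (h.1 (Fin.rev i) (Fin.rev i)) = 1 := by
    intro i
    have h2 := Gr_inv P.τ (e1 (2 * k + 2) F) (P.hK h.2) i i
    have h3 : (h.1 * h.1⁻¹) i i = h.1 i i * h.1⁻¹ i i := by
      rw [slmul_apply, Finset.sum_eq_single i]
      · intro j _ hj
        rw [hh i j (Ne.symm hj), zero_mul]
      · simp
    rw [mul_inv_cancel, slone_apply, if_pos rfl, h2] at h3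
    simpa using h3.symm
  have hcc := h1 (lc k)
  rw [rev_lc] at hcc
  have haa := h1 (la k)
  have e3 : h.1 * (P.XX r).1 * h.1⁻¹ = AutPSL.cg (AutPSL.dg e) (P.XX r).1 := by
    rw [← he, ← AutPSL.conj_eq_cg]; rfl
  have e4 : (P.XX r).1 = X3 (t3 k) r.1.1 (-P.τ r.1.1) r.1.2 := rfl
  rw [e4, cg_X3] at e3
  have ea : (e (la k) : F) = h.1 (la k) (la k) := rfl
  have ec : (((e (lc k))⁻¹ : Fˣ) : F) = (h.1 (lc k) (lc k))⁻¹ := by rw [Units.val_inv_eq_inv_val]; rfl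
  have eb : (((e (lb k))⁻¹ : Fˣ) : F) = (h.1 (lb k) (lb k))⁻¹ := by rw [Units.val_inv_eq_inv_val]; rfl
  have ec' : (e (lc k) : F) = h.1 (lc k) (lc k) := rfl
  rw [ea, ec, eb, ec'] at e3
  obtain ⟨x, hx⟩ : ∃ x, x = h.1 (la k) (la k) := ⟨_, rfl⟩
  obtain ⟨y, hy⟩ : ∃ y, y = h.1 (lc k) (lc k) := ⟨_, rfl⟩
  obtain ⟨z, hz⟩ : ∃ z, z = h.1 (lb k) (lb k) := ⟨_, rfl⟩
  have hbb : h.1 (Fin.rev (la k)) (Fin.rev (la k)) = z := hz.symm
  rw [hbb] at haa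
  rw [← hx] at haa
  rw [← hy] at hcc
  rw [← hx, ← hy, ← hz] at e3
  rw [← hx, ← hy]
  have hx0 : x ≠ 0 := by rw [hx]; exact hd _
  have hy0 : y ≠ 0 := by rw [hy]; exact hd _
  have hz0 : z ≠ 0 := by rw [hz]; exact hd _
  have hz1 : z⁻¹ = P.τ x := by
    have := congrArg P.τ haa
    rw [map_mul, P.hτ, map_one] at this
    exact (eq_inv_of_mul_eq_one_left this).symm
  have hy1 : P.τ y = y⁻¹ := by
    exact eq_inv_of_mul_eq_one_right hcc
  refine ⟨P.rel_N r.2 (x * y⁻¹), ?_⟩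
  apply Subtype.ext
  show h.1 * (P.XX r).1 = X3 (t3 k) (x * y⁻¹ * r.1.1) (-P.τ (x * y⁻¹ * r.1.1)) (x * y⁻¹ * P.τ (x * y⁻¹) * r.1.2) * h.1
  rw [← mul_inv_eq_iff_eq_mul, e4, e3, hz1]
  congr 1
  · ring
  · simp only [map_mul, map_inv₀, hy1, inv_inv]; ring
  · simp only [map_mul, map_inv₀, hy1, inv_inv]; field_simp

/-- the characters -/
def chi (h : P.K) : F := h.1 (la k) (la k) * (h.1 (lc k) (lc k))⁻¹

/-- scaling of the parameters -/
def sc (t : F) (r : P.R) : P.R := ⟨(t * r.1.1, t * P.τ t * r.1.2), P.rel_N r.2 t⟩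

theorem tor_XX {h : P.K} (hh : Mono h.1 1) (r : P.R) : h * P.XX r = P.XX (P.sc (P.chi h) r) * h := by
  obtain ⟨_, e⟩ := P.tor_xl hh r
  exact e

/-- the set of characters values -/
def DD : Set F := {x | ∃ h : P.K, Mono h.1 1 ∧ x = P.chi h}

theorem B_tor (β : MulAut (QG P.inp)) (B : P.R → P.R) (hB : ∀ r, β (P.q (P.XX r)) = P.q (P.XX (B r)))
    (hU : β • (qd P.inp p).U = (qd P.inp p).U) (hV : β • (qd P.inp p).V = (qd P.inp p).V) {x : F} (hx : x ∈ P.DD) :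
    ∃ x' ∈ P.DD, ∀ r, B (P.sc x r) = P.sc x' (B r) := by
  obtain ⟨h, hh, rfl⟩ := hx
  obtain ⟨h', hh', e⟩ : ∃ h' : P.K, Mono h'.1 1 ∧ β (P.q h) = P.q h' := tor_map P.inp p β hU hV (h := h) hh
  refine ⟨P.chi h', ⟨h', hh', rfl⟩, ?_⟩
  intro r
  apply P.qXX_inj
  have e1 : P.XX (P.sc (P.chi h) r) = h * P.XX r * h⁻¹ := by rw [P.tor_XX hh]; group
  have e2 : P.XX (P.sc (P.chi h') (B r)) = h' * P.XX (B r) * h'⁻¹ := by rw [P.tor_XX hh']; group
  have e' : β (P.q h) = P.q h' := e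
  rw [← hB, e1, e2, map_mul, map_mul, map_mul, map_mul, map_inv, map_inv, map_mul, map_mul, map_inv, e', hB]

end OI

end Cfsg.Agent.H8.GrOdd
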