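import Mathlib
import Cfsg.Agent.H8.GrOddU
import Cfsg.Agent.H8.GrEven3

set_option autoImplicit false
set_option linter.all false

/-! Automorphisms in odd dimension, unitary case: rigidity. -/

namespace Cfsg.Agent.H8.GrOdd

open scoped commutatorElement
open Matrix Pointwise Cfsg.Agent.H8.AutBN Cfsg.Agent.H8.SLPat Cfsg.Agent.H8.SLTri Cfsg.Agent.H8.SLData
  Cfsg.Agent.H8.Theta Cfsg.Agent.H8.GrComb Cfsg.Agent.H8.GrData Cfsg.Agent.H8.GrShort Cfsg.Agent.H8.GrPi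
  Cfsg.Agent.H8.GrCen Cfsg.Agent.H8.GrStd Cfsg.Agent.H8.GrGen

variable {k : ℕ} {F : Type*} [Field F] [Finite F] (P : OI k F) (p : ℕ) [Fact p.Prime] [CharP F p]

namespace OI

/-- the last root group is fixed pointwise -/
theorem fix_XX (hne : ∃ t, P.τ t ≠ t) (hD : Gen P.DD) (β : MulAut (QG P.inp)) (B : P.R → P.R) (hB : ∀ r, β (P.q (P.XX r)) = P.q (P.XX (B r)))
    (hU : β • (qd P.inp p).U = (qd P.inp p).U) (hV : β • (qd P.inp p).V = (qd P.inp p).V) (h1 : ∀ r, (B r).1.1 = r.1.1) : ∀ r, B r = r := by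
  have hmul : ∀ r s : P.R, B (r.mul s) = (B r).mul (B s) := by
    intro r s
    apply P.qXX_inj
    rw [← hB, XX_mul, map_mul, map_mul, hB, hB, XX_mul, map_mul]
  choose tr htr using exists_rel P.τ P.hτ hne
  let ρ : F → P.R := fun u => ⟨(u, tr u), htr u⟩
  have hmul2 : ∀ r s : P.R, (B (r.mul s)).1.2 = (B r).1.2 + (B s).1.2 - r.1.1 * P.τ s.1.1 := by
    intro r s
    rw [hmul]
    show (B r).1.2 + (B s).1.2 - (B r).1.1 * P.τ (B s).1.1 = _
    rw [h1, h1]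
  -- central elements
  have hcen : ∀ r : P.R, r.1.1 = 0 → (B r).1.2 = r.1.2 := by
    intro r hr
    have hw : r.1.2 + P.τ r.1.2 = 0 := by rw [r.2, hr]; simp
    obtain ⟨x, hx⟩ := exists_skew_rep P.τ P.hτ hne hw
    -- r * (ρ 1 * ρ x) = ρ x * ρ 1 up to sign
    have e : (ρ x).mul (ρ 1) = ((ρ 1).mul (ρ x)).mul (P.z0 (P.τ x - x) (by rw [map_sub, P.hτ]; ring)) := by
      apply R.ext
      · show x + 1 = 1 + x + 0
        ring
      · show tr x + tr 1 - x * P.τ 1 = tr 1 + tr x - 1 * P.τ x + (P.τ x - x) - (1 + x) * P.τ 0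
        rw [map_zero, map_one]; ring
    have e2 := congrArg (fun z => (B z).1.2) e
    simp only [hmul2] at e2
    have e3 : (B (P.z0 (P.τ x - x) (by rw [map_sub, P.hτ]; ring))).1.2 = P.τ x - x := by
      have a1 : (ρ x).1.1 = x := rfl
      have a2 : (ρ 1).1.1 = 1 := rfl
      have a3 : ((ρ 1).mul (ρ x)).1.1 = 1 + x := rfl
      have a4 : (P.z0 (P.τ x - x) (by rw [map_sub, P.hτ]; ring)).1.1 = 0 := rfl
      rw [a1, a2, a3, a4, map_zero, map_one] at e2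
      linear_combination -e2
    have e4 : r.mul (P.z0 (P.τ x - x) (by rw [map_sub, P.hτ]; ring)) = P.z0 0 (by simp) := by
      apply R.ext
      · show r.1.1 + 0 = 0
        rw [hr, add_zero]
      · show r.1.2 + (P.τ x - x) - r.1.1 * P.τ 0 = 0
        rw [← hx, map_zero]; ring
    have e5 : (B (P.z0 0 (by simp))).1.2 = 0 := by
      have e6 : (P.z0 0 (by simp)).mul (P.z0 0 (by simp)) = P.z0 0 (by simp) := by
        apply R.ext
        · show (0 : F) + 0 = 0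
          simp
        · show (0 : F) + 0 - 0 * P.τ 0 = 0
          simp
      have e7 := hmul2 (P.z0 0 (by simp)) (P.z0 0 (by simp))
      rw [e6] at e7
      have a4 : (P.z0 0 (by simp)).1.1 = 0 := rfl
      rw [a4, zero_mul, sub_zero] at e7
      exact left_eq_add.1 e7
    have e8 := hmul2 r (P.z0 (P.τ x - x) (by rw [map_sub, P.hτ]; ring))
    rw [e4, e5, e3, hr, zero_mul] at e8
    rw [← hx]
    linear_combination -e8
  -- the difference
  obtain ⟨δ, hδ⟩ : ∃ δ : F → F, ∀ u, δ u = (B (ρ u)).1.2 - tr u := ⟨_, fun u => rfl⟩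
  have hdep : ∀ r : P.R, (B r).1.2 = r.1.2 + δ r.1.1 := by
    intro r
    have e := P.eq_mul_z0 (r := ρ r.1.1) (s := r) rfl
    have e2 := hmul2 (ρ r.1.1) (P.z0 _ (P.skew_sub (r := ρ r.1.1) (s := r) rfl))
    rw [← e, hcen (P.z0 _ (P.skew_sub (r := ρ r.1.1) (s := r) rfl)) rfl] at e2
    have a1 : (P.z0 _ (P.skew_sub (r := ρ r.1.1) (s := r) rfl)).1.1 = 0 := rfl
    have a2 : (P.z0 _ (P.skew_sub (r := ρ r.1.1) (s := r) rfl)).1.2 = r.1.2 - tr r.1.1 := rfl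
    rw [a1, a2, map_zero] at e2
    rw [hδ, e2]; ring
  have hadd : ∀ x y, δ (x + y) = δ x + δ y := by
    intro x y
    have e := hmul2 (ρ x) (ρ y)
    rw [hdep, hdep, hdep] at e
    have a1 : ((ρ x).mul (ρ y)).1.1 = x + y := rfl
    have a2 : ((ρ x).mul (ρ y)).1.2 = tr x + tr y - x * P.τ y := rfl
    have a3 : (ρ x).1.1 = x := rfl
    have a4 : (ρ y).1.1 = y := rfl
    have a5 : (ρ x).1.2 = tr x := rfl
    have a6 : (ρ y).1.2 = tr y := rfl
    rw [a1, a2, a3, a4, a5, a6] at e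
    linear_combination e
  have hskew : ∀ u, P.τ (δ u) = - δ u := by
    intro u
    have e1 := (B (ρ u)).2
    have e2 := (ρ u).2
    rw [h1, hdep] at e1
    have a3 : (ρ u).1.1 = u := rfl
    have a5 : (ρ u).1.2 = tr u := rfl
    rw [a3, a5] at e1 e2
    rw [map_add] at e1
    linear_combination e1 - e2
  have hsc : ∀ x ∈ P.DD, ∀ u, δ (x * u) = x * P.τ x * δ u := by
    intro x hx u
    obtain ⟨x', _, hx'⟩ := P.B_tor p β B hB hU hV hx
    have e1 : x' = x := by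
      have e := congrArg (fun r : P.R => r.1.1) (hx' (ρ 1))
      have e' : (B (P.sc x (ρ 1))).1.1 = x' * (B (ρ 1)).1.1 := e
      rw [h1, h1] at e'
      have e'' : x * (1 : F) = x' * 1 := e'
      rw [mul_one, mul_one] at e''
      exact e''.symm
    rw [e1] at hx'
    have e := congrArg (fun r : P.R => r.1.2) (hx' (ρ u))
    have e' : (B (P.sc x (ρ u))).1.2 = x * P.τ x * (B (ρ u)).1.2 := e
    rw [hdep, hdep] at e'
    have a1 : (P.sc x (ρ u)).1.1 = x * u := rfl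
    have a2 : (P.sc x (ρ u)).1.2 = x * P.τ x * tr u := rfl
    have a3 : (ρ u).1.1 = u := rfl
    have a5 : (ρ u).1.2 = tr u := rfl
    rw [a1, a2, a3, a5] at e'
    linear_combination e'
  have hδ0 : ∀ u, δ u = 0 := by
    by_contra hcon
    push Not at hcon
    obtain ⟨u0, hu0⟩ := hcon
    let ψ : F → F := fun x => δ (x * u0) * (δ u0)⁻¹
    have ψ1 : ψ 1 = 1 := by
      show δ (1 * u0) * (δ u0)⁻¹ = 1
      rw [one_mul, mul_inv_cancel₀ hu0]
    have ψadd : ∀ x y, ψ (x + y) = ψ x + ψ y := by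
      intro x y
      show δ ((x + y) * u0) * (δ u0)⁻¹ = δ (x * u0) * (δ u0)⁻¹ + δ (y * u0) * (δ u0)⁻¹
      rw [add_mul, hadd, add_mul]
    have ψD : ∀ x ∈ P.DD, ∀ y, ψ (x * y) = ψ x * ψ y := by
      intro x hx y
      show δ (x * y * u0) * (δ u0)⁻¹ = δ (x * u0) * (δ u0)⁻¹ * (δ (y * u0) * (δ u0)⁻¹)
      rw [mul_assoc, hsc x hx, hsc x hx]
      field_simp
    have ψmul := hD ψ ψadd ψ1 ψD
    let Ψ : F →+* F :=
      { toFun := ψ
        map_one' := ψ1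
        map_mul' := ψmul
        map_zero' := by have := ψadd 0 0; simpa using this
        map_add' := ψadd }
    have hsurj : Function.Surjective Ψ := Finite.injective_iff_surjective.1 Ψ.injective
    obtain ⟨t, ht⟩ := hne
    obtain ⟨s, hs⟩ := hsurj t
    apply ht
    rw [← hs]
    show P.τ (δ (s * u0) * (δ u0)⁻¹) = δ (s * u0) * (δ u0)⁻¹
    rw [map_mul, map_inv₀, hskew, hskew]
    rw [inv_neg]; ring
  intro r
  apply R.ext
  · exact h1 r
  · rw [hdep, hδ0, add_zero]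

/-- the long root subgroup parameters -/
def th (θ : F) (hθ : P.τ θ = -θ) (s : GrEven.L P.τ) : P.R := P.z0 (θ * s.1) (by
  have : P.τ s.1 = s.1 := s.2
  rw [map_mul, hθ, this]; ring)

/-- the reflection is fixed -/
theorem fix_sl (hne : ∃ t, P.τ t ≠ t) (θ : F) (hθ0 : θ ≠ 0) (hθ : P.τ θ = -θ) (hθ' : P.τ θ⁻¹ = -θ⁻¹)
    (hsl : P.sl = P.XX (P.th θ hθ 1) * P.YY (P.th θ⁻¹ hθ' (-1)) * P.XX (P.th θ hθ 1))
    (β : MulAut (QG P.inp)) (hB : ∀ r, β (P.q (P.XX r)) = P.q (P.XX r))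
    (hY : ∀ r, ∃ s, β (P.q (P.YY r)) = P.q (P.YY s)) (hY' : ∀ r, ∃ s, β (P.q (P.YY s)) = P.q (P.YY r)) :
    β (P.q P.sl) = P.q P.sl := by
  obtain ⟨p, hp⟩ := CharP.exists F
  haveI : Fact p.Prime := ⟨CharP.char_is_prime F p⟩
  have hY2 : ∀ s : GrEven.L P.τ, ∃ s' : GrEven.L P.τ, β (P.q (P.YY (P.th θ⁻¹ hθ' s))) = P.q (P.YY (P.th θ⁻¹ hθ' s')) := by
    intro s
    obtain ⟨r, hr⟩ := hY (P.th θ⁻¹ hθ' s)
    have h1 := P.B_cenY hne β hY' hr rfl
    have h2 : r.1.2 + P.τ r.1.2 = 0 := by rw [r.2, h1]; simp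
    have hmem : θ * r.1.2 ∈ GrEven.L P.τ := by
      rw [GrEven.mem_L, map_mul, hθ]
      linear_combination (-θ) * h2
    refine ⟨⟨θ * r.1.2, hmem⟩, ?_⟩
    rw [hr]
    congr 2
    apply R.ext
    · exact h1
    · show r.1.2 = θ⁻¹ * (θ * r.1.2)
      rw [inv_mul_cancel_left₀ hθ0]
  choose g hg using hY2
  have eX : ∀ s : GrEven.L P.τ, (P.XX (P.th θ hθ s)).1 = SpecialLinearGroup.transvection (t3 k).ab (θ * s.1) := by
    intro s
    show X3 (t3 k) 0 (-P.τ 0) (θ * s.1) = _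
    rw [map_zero, neg_zero, X3_t]
  have eY : ∀ s : GrEven.L P.τ, (P.YY (P.th θ⁻¹ hθ' s)).1 = SpecialLinearGroup.transvection (t3 k).ab.symm (θ⁻¹ * s.1) := by
    intro s
    show X3 (t3 k).symm 0 (-P.τ 0) (θ⁻¹ * s.1) = _
    rw [map_zero, neg_zero, X3_t]
  have main : ∀ t, g t = (fun s => s) t := by
    refine (RankOne.rank_one_abs (fun s : GrEven.L P.τ => P.q (P.XX (P.th θ hθ s))) (fun s : GrEven.L P.τ => P.q (P.YY (P.th θ⁻¹ hθ' s)))
      ?_ ?_ ?_ ?_ ?_ ?_ β (fun s => s) g (fun t => hB _) hg rfl).1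
    · intro s t
      rw [← map_mul]
      congr 1
      apply Subtype.ext
      show (P.XX (P.th θ hθ (s + t))).1 = (P.XX (P.th θ hθ s)).1 * (P.XX (P.th θ hθ t)).1
      rw [eX, eX, eX, ← SpecialLinearGroup.transvection_add]
      congr 1
      show θ * (s.1 + t.1) = _
      ring
    · intro s t
      rw [← map_mul]
      congr 1
      apply Subtype.ext
      show (P.YY (P.th θ⁻¹ hθ' (s + t))).1 = (P.YY (P.th θ⁻¹ hθ' s)).1 * (P.YY (P.th θ⁻¹ hθ' t)).1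
      rw [eY, eY, eY, ← SpecialLinearGroup.transvection_add]
      congr 1
      show θ⁻¹ * (s.1 + t.1) = _
      ring
    · intro s t h
      have e : θ * s.1 = θ * t.1 := congrArg (fun r : P.R => r.1.2) (P.qXX_inj h)
      exact Subtype.ext (mul_left_cancel₀ hθ0 e)
    · intro s t h
      have e : θ⁻¹ * s.1 = θ⁻¹ * t.1 := congrArg (fun r : P.R => r.1.2) (P.qYY_inj h)
      exact Subtype.ext (mul_left_cancel₀ (inv_ne_zero hθ0) e)
    · intro t s ht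
      have ht0 : t.1 ≠ 0 := fun h => ht (Subtype.ext h)
      simp only [← map_mul]
      congr 1
      apply Subtype.ext
      show (P.XX (P.th θ hθ t)).1 * (P.YY (P.th θ⁻¹ hθ' (-t⁻¹))).1 * (P.XX (P.th θ hθ t)).1 * (P.XX (P.th θ hθ s)).1 =
        (P.YY (P.th θ⁻¹ hθ' (-(t⁻¹ ^ 2 * s)))).1 * ((P.XX (P.th θ hθ t)).1 * (P.YY (P.th θ⁻¹ hθ' (-t⁻¹))).1 * (P.XX (P.th θ hθ t)).1)
      rw [eX, eX, eY, eY]
      have e1 : θ⁻¹ * (-t⁻¹ : GrEven.L P.τ).1 = -(θ * t.1)⁻¹ := by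
        show θ⁻¹ * (-(t.1)⁻¹) = _
        rw [mul_inv]; ring
      have e2 : θ⁻¹ * (-(t⁻¹ ^ 2 * s) : GrEven.L P.τ).1 = -((θ * t.1)⁻¹ ^ 2 * (θ * s.1)) := by
        show θ⁻¹ * (-((t.1)⁻¹ ^ 2 * s.1)) = _
        field_simp
      rw [e1, e2]
      exact nn_mul (t3 k).ab (mul_ne_zero hθ0 ht0) (θ * s.1)
    · intro a b c r r' hr h
      simp only [← map_mul] at h
      rw [map_mul P.q _ (P.XX (P.th θ hθ r)), map_mul P.q (P.YY (P.th θ⁻¹ hθ' r'))] at h
      have h2 := conj_inj P.inp p (P.pxl p _ _ _) (P.pyl p _ _ _) h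
      have h3 : (P.XX (P.th θ hθ a)).1 * (P.YY (P.th θ⁻¹ hθ' b)).1 * (P.XX (P.th θ hθ c)).1 * (P.XX (P.th θ hθ r)).1 =
        (P.YY (P.th θ⁻¹ hθ' r')).1 * ((P.XX (P.th θ hθ a)).1 * (P.YY (P.th θ⁻¹ hθ' b)).1 * (P.XX (P.th θ hθ c)).1) := congrArg Subtype.val h2
      rw [eX, eX, eX, eY, eY] at h3
      have h4 := GrEven.T_key (t3 k).ab (mul_ne_zero hθ0 (fun h => hr (Subtype.ext h))) h3
      apply Subtype.ext
      show 1 + a.1 * b.1 = 0
      have h5 : θ * a.1 * (θ⁻¹ * b.1) = a.1 * b.1 := by field_simp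
      rw [h5] at h4; exact h4
  rw [hsl, map_mul, map_mul, map_mul, map_mul, hB, hg, main]

end OI

end Cfsg.Agent.H8.GrOdd
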