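import Mathlib
import Cfsg.Agent.H8.GrOddU2

set_option autoImplicit false
set_option linter.all false

/-! Automorphisms in odd dimension: reduction to normalised automorphisms. -/

namespace Cfsg.Agent.H8.GrOdd

open scoped commutatorElement
open Matrix Pointwise Cfsg.Agent.H8.AutBN Cfsg.Agent.H8.SLPat Cfsg.Agent.H8.SLTri Cfsg.Agent.H8.SLData
  Cfsg.Agent.H8.Theta Cfsg.Agent.H8.GrComb Cfsg.Agent.H8.GrData Cfsg.Agent.H8.GrShort Cfsg.Agent.H8.GrPi
  Cfsg.Agent.H8.GrCen Cfsg.Agent.H8.GrStd Cfsg.Agent.H8.GrGen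

variable {k : ℕ} {F : Type*} [Field F] [Finite F] (P : OI k F) (p : ℕ) [Fact p.Prime] [CharP F p]

theorem indG_smul {G : Type*} [Group G] (φ : MulAut G) (A : Subgroup G) (h : ∀ s, φ s ∈ A ↔ s ∈ A) :
    indG φ • A.map (QuotientGroup.mk' (Subgroup.center G)) = A.map (QuotientGroup.mk' (Subgroup.center G)) := by
  ext x
  obtain ⟨x, rfl⟩ := QuotientGroup.mk'_surjective _ x
  rw [mem_smul, ← map_inv]
  have e : indG φ⁻¹ (QuotientGroup.mk' (Subgroup.center G) x) = QuotientGroup.mk' (Subgroup.center G) (φ⁻¹ x) := rfl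
  rw [e]
  constructor
  · rintro ⟨y, hy, hxy⟩
    refine ⟨φ y, (h y).2 hy, ?_⟩
    have h2 := congrArg (indG φ) hxy
    rw [indG_apply, indG_apply, MulAut.apply_inv_self] at h2
    exact h2
  · rintro ⟨y, hy, hxy⟩
    refine ⟨φ⁻¹ y, ?_, ?_⟩
    · exact (h (φ⁻¹ y)).1 (by rw [MulAut.apply_inv_self]; exact hy)
    · have h2 := congrArg (indG φ⁻¹) hxy
      rw [indG_apply, indG_apply] at h2
      exact h2

namespace OI

/-- induced automorphisms -/
noncomputable def iq : MulAut P.K →* MulAut (QG P.inp) := indG (G := P.K)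

theorem iq_apply (φ : MulAut P.K) (s : P.K) : P.iq φ (P.q s) = P.q (φ s) := rfl

theorem iq_inv_apply (φ : MulAut P.K) (s : P.K) : (P.iq φ)⁻¹ (P.q (φ s)) = P.q s := by
  rw [← iq_apply, MulAut.inv_apply_self]

theorem iq_inv_apply' (φ : MulAut P.K) (s : P.K) : (P.iq φ)⁻¹ (P.q s) = P.q (φ⁻¹ s) := by
  rw [← map_inv, iq_apply]

theorem iq_smul_U (φ : MulAut P.K) (h : ∀ s : P.K, φ s ∈ P.inp.UU ↔ s ∈ P.inp.UU) : P.iq φ • (qd P.inp p).U = (qd P.inp p).U :=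
  indG_smul φ P.inp.UU h

theorem iq_smul_V (φ : MulAut P.K) (h : ∀ s : P.K, φ s ∈ P.inp.VV ↔ s ∈ P.inp.VV) : P.iq φ • (qd P.inp p).V = (qd P.inp p).V :=
  indG_smul φ P.inp.VV h

omit P in
theorem fl_pat {ι : Type*} [Fintype ι] [DecidableEq ι] (σ : F ≃+* F) {R : ι → ι → Prop} (hR : Str R) (s : SpecialLinearGroup ι F) :
    AutPSL.fl σ s ∈ patU hR ↔ s ∈ patU hR := by
  rw [mem_patU, mem_patU]
  constructor
  · intro h a b hab
    have h1 : σ (s a b) = if a = b then 1 else 0 := h a b hab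
    apply σ.injective
    rw [h1]; split_ifs <;> simp
  · intro h a b hab
    show σ (s a b) = _
    rw [h a b hab]; split_ifs <;> simp

omit P in
theorem dg_pat {ι : Type*} [Fintype ι] [DecidableEq ι] (e : ι → Fˣ) {R : ι → ι → Prop} (hR : Str R) (s : SpecialLinearGroup ι F) :
    AutPSL.cg (AutPSL.dg e) s ∈ patU hR ↔ s ∈ patU hR := by
  have h0 : ∀ a b, (AutPSL.cg (AutPSL.dg e) s) a b = (e a : F) * s a b * ((e b)⁻¹ : Fˣ) := by
    intro a b
    show (Matrix.diagonal (fun i => (e i : F)) * s.1 * Matrix.diagonal (fun i => (((e i)⁻¹ : Fˣ) : F))) a b = _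
    rw [Matrix.mul_diagonal, Matrix.diagonal_mul]
  rw [mem_patU, mem_patU]
  constructor
  · intro h a b hab
    have h1 := h a b hab
    rw [h0] at h1
    by_cases hab' : a = b
    · subst hab'
      rw [if_pos rfl] at h1 ⊢
      have h2 : (e a : F) * ((e a)⁻¹ : Fˣ) = 1 := Units.mul_inv _
      linear_combination h1 - s a a * h2
    · rw [if_neg hab'] at h1 ⊢
      have h2 := (mul_eq_zero.1 h1).resolve_right (Units.ne_zero _)
      exact (mul_eq_zero.1 h2).resolve_left (Units.ne_zero _)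
  · intro h a b hab
    rw [h0, h a b hab]
    by_cases hab' : a = b
    · subst hab'
      rw [if_pos rfl, mul_one, Units.mul_inv]
    · rw [if_neg hab', mul_zero, zero_mul]

section K

variable (hfl : ∀ (σ : F ≃+* F) s, AutPSL.fl σ s ∈ P.K ↔ s ∈ P.K)

/-- field automorphisms -/
noncomputable def flK (σ : F ≃+* F) : MulAut P.K := res P.K (AutPSL.fl σ) (hfl σ)

/-- conjugation -/
noncomputable def cgK (g : GL (Fin (2 * k + 2 + 1)) F) (hg : ∀ s, AutPSL.cg g s ∈ P.K ↔ s ∈ P.K) : MulAut P.K := res P.K (AutPSL.cg g) hg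

theorem flK_xs (σ : F ≃+* F) {i : Fin (k + 1)} (hi : (i : ℕ) < k) (t : F) : P.flK hfl σ (P.xs hi t) = P.xs hi (σ t) := by
  apply Subtype.ext
  show AutPSL.fl σ (RT P.τ (gp i hi).ab t) = RT P.τ (gp i hi).ab (σ t)
  rw [RT, RT, map_mul, GrCen.fl_T, GrCen.fl_T, map_neg, comm_gal]

theorem flK_ys (σ : F ≃+* F) {i : Fin (k + 1)} (hi : (i : ℕ) < k) (t : F) : P.flK hfl σ (P.ys hi t) = P.ys hi (σ t) := by
  apply Subtype.ext
  show AutPSL.fl σ (RT P.τ (gp i hi).symm.ab t) = RT P.τ (gp i hi).symm.ab (σ t)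
  rw [RT, RT, map_mul, GrCen.fl_T, GrCen.fl_T, map_neg, comm_gal]

/-- field automorphism on parameters -/
def flR (σ : F ≃+* F) (r : P.R) : P.R := ⟨(σ r.1.1, σ r.1.2), by
  have := congrArg σ r.2
  rw [map_add, map_neg, map_mul, comm_gal σ P.τ r.1.1, comm_gal σ P.τ r.1.2] at this
  exact this⟩

theorem flK_XX (σ : F ≃+* F) (r : P.R) : P.flK hfl σ (P.XX r) = P.XX (P.flR σ r) := by
  apply Subtype.ext
  show AutPSL.fl σ (X3 (t3 k) r.1.1 (-P.τ r.1.1) r.1.2) = X3 (t3 k) (σ r.1.1) (-P.τ (σ r.1.1)) (σ r.1.2)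
  rw [fl_X3, map_neg, comm_gal]

theorem flK_YY (σ : F ≃+* F) (r : P.R) : P.flK hfl σ (P.YY r) = P.YY (P.flR σ r) := by
  apply Subtype.ext
  show AutPSL.fl σ (X3 (t3 k).symm r.1.1 (-P.τ r.1.1) r.1.2) = X3 (t3 k).symm (σ r.1.1) (-P.τ (σ r.1.1)) (σ r.1.2)
  rw [fl_X3, map_neg, comm_gal]

theorem flR_inv (σ : F ≃+* F) (r : P.R) : P.flR σ (P.flR σ⁻¹ r) = r := by
  apply R.ext
  · exact σ.apply_symm_apply _
  · exact σ.apply_symm_apply _

theorem inv_XX (σ : F ≃+* F) (r : P.R) : (P.iq (P.flK hfl σ))⁻¹ (P.q (P.XX r)) = P.q (P.XX (P.flR σ⁻¹ r)) := by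
  have h := P.iq_inv_apply (P.flK hfl σ) (P.XX (P.flR σ⁻¹ r))
  rw [flK_XX, flR_inv] at h
  exact h

theorem inv_YY (σ : F ≃+* F) (r : P.R) : (P.iq (P.flK hfl σ))⁻¹ (P.q (P.YY r)) = P.q (P.YY (P.flR σ⁻¹ r)) := by
  have h := P.iq_inv_apply (P.flK hfl σ) (P.YY (P.flR σ⁻¹ r))
  rw [flK_YY, flR_inv] at h
  exact h

theorem main0 (hne : ∃ t, P.τ t ≠ t) (hD : Gen P.DD) (θ : F) (hθ0 : θ ≠ 0) (hθ : P.τ θ = -θ) (hθ' : P.τ θ⁻¹ = -θ⁻¹)
    (hsl : P.sl = P.XX (P.th θ hθ 1) * P.YY (P.th θ⁻¹ hθ' (-1)) * P.XX (P.th θ hθ 1))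
    (β : MulAut (QG P.inp)) (hU : β • (qd P.inp p).U = (qd P.inp p).U) (hV : β • (qd P.inp p).V = (qd P.inp p).V)
    (f g : ∀ i : Fin (k + 1), (i : ℕ) < k → F → F)
    (hf : ∀ (i : Fin (k + 1)) (hi : (i : ℕ) < k) t, β (P.q (P.xs hi t)) = P.q (P.xs hi (f i hi t)))
    (hg : ∀ (i : Fin (k + 1)) (hi : (i : ℕ) < k) t, β (P.q (P.ys hi t)) = P.q (P.ys hi (g i hi t)))
    (h1 : ∀ i hi, f i hi 1 = 1) (B : P.R → P.R) (hB : ∀ r, β (P.q (P.XX r)) = P.q (P.XX (B r))) (hinv : ∀ r, ∃ s, B s = r)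
    (hY : ∀ r, ∃ s, β (P.q (P.YY r)) = P.q (P.YY s)) (hY' : ∀ r, ∃ s, β (P.q (P.YY s)) = P.q (P.YY r))
    (hB1 : ∀ r, r.1.1 = 1 → (B r).1.1 = 1) :
    ∃ σ : F ≃+* F, β = P.iq (P.flK hfl σ) := by
  obtain ⟨hmul, φ, hφ, φadd, φinj⟩ := P.exists_phi hne β B hB hinv
  choose tr htr using exists_rel P.τ P.hτ hne
  let ρ : F → P.R := fun u => ⟨(u, tr u), htr u⟩
  have φ1 : φ 1 = 1 := by
    have := hB1 (ρ 1) rfl
    rw [hφ] at this; exact this
  have φD : ∀ x ∈ P.DD, ∀ y, φ (x * y) = φ x * φ y := by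
    intro x hx y
    obtain ⟨x', _, hx'⟩ := P.B_tor p β B hB hU hV hx
    have key : ∀ y, φ (x * y) = x' * φ y := by
      intro y
      have e := congrArg (fun r : P.R => r.1.1) (hx' (ρ y))
      have e' : (B (P.sc x (ρ y))).1.1 = x' * (B (ρ y)).1.1 := e
      rw [hφ, hφ] at e'
      exact e'
    rw [key]
    have := key 1
    rw [mul_one, φ1, mul_one] at this
    rw [this]
  have φmul := hD φ φadd φ1 φD
  let Φ : F →+* F :=
    { toFun := φ
      map_one' := φ1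
      map_mul' := φmul
      map_zero' := by have := φadd 0 0; simpa using this
      map_add' := φadd }
  let σ : F ≃+* F := RingEquiv.ofBijective Φ (Finite.injective_iff_bijective.1 Φ.injective)
  have hσ : ∀ t, φ t = σ t := fun t => rfl
  have A := fun (i : Fin (k + 1)) (hi : (i : ℕ) < k) => P.rank_short β hi (f i hi) (g i hi) (hf i hi) (hg i hi) (h1 i hi)
  have D : ∀ (i : Fin (k + 1)) (hi : (i : ℕ) < k) (t : F), f i hi t = σ t := by
    intro i hi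
    have hk : 0 < k := by omega
    have C : ∀ (j : ℕ) (hj : j < k) (t : F), f ⟨j, by omega⟩ hj t = f ⟨0, by omega⟩ hk t := by
      intro j
      induction j with
      | zero => intro hj t; rfl
      | succ j ih =>
        intro hj t
        rw [← ih (by omega) t]
        exact (P.nb_short β (i := ⟨j, by omega⟩) (j := ⟨j + 1, by omega⟩) (by show j < k; omega) hj rfl _ _ (hf _ _) (hf _ _) (h1 _ _) (h1 _ _) t).symm
    obtain ⟨σ', hσ'⟩ := (A ⟨k - 1, by omega⟩ (by show k - 1 < k; omega)).2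
    have hlast : ∀ t, σ' t = σ t := by
      intro t
      by_cases ht : t = 0
      · subst ht; rw [map_zero, map_zero]
      have hf' := hf ⟨k - 1, by omega⟩ (by show k - 1 < k; omega)
      have hg' := hg ⟨k - 1, by omega⟩ (by show k - 1 < k; omega)
      simp only [(A _ _).1, hσ'] at hf' hg'
      have e1 := P.beta_Hn β (i := ⟨k - 1, by omega⟩) (by show k - 1 < k; omega) σ' hf' hg' t
      have e2 := P.Hn_xl (i := ⟨k - 1, by omega⟩) (by show k - 1 < k; omega) (by show k - 1 + 1 = k; omega) ht 1 (tr 1) (htr 1)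
      have ht' : σ' t ≠ 0 := by rw [Ne, map_eq_zero_iff σ' σ'.injective]; exact ht
      have e3 := P.Hn_xl (i := ⟨k - 1, by omega⟩) (by show k - 1 < k; omega) (by show k - 1 + 1 = k; omega) ht' (B (ρ 1)).1.1 (B (ρ 1)).1.2 (B (ρ 1)).2
      have e4 : P.XX (P.sc t (ρ 1)) = P.Hn (i := ⟨k - 1, by omega⟩) (by show k - 1 < k; omega) t * P.XX (ρ 1) * (P.Hn (i := ⟨k - 1, by omega⟩) (by show k - 1 < k; omega) t)⁻¹ := by
        exact (mul_inv_eq_iff_eq_mul.2 e2).symm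
      have e5 : P.XX (P.sc (σ' t) (B (ρ 1))) = P.Hn (i := ⟨k - 1, by omega⟩) (by show k - 1 < k; omega) (σ' t) * P.XX (B (ρ 1)) * (P.Hn (i := ⟨k - 1, by omega⟩) (by show k - 1 < k; omega) (σ' t))⁻¹ := by
        exact (mul_inv_eq_iff_eq_mul.2 e3).symm
      have e6 : B (P.sc t (ρ 1)) = P.sc (σ' t) (B (ρ 1)) := by
        apply P.qXX_inj
        rw [← hB, e4, e5]
        simp only [map_mul, map_inv, e1, hB]
      have e7 := congrArg (fun r : P.R => r.1.1) e6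
      have e8 : (B (P.sc t (ρ 1))).1.1 = σ' t * (B (ρ 1)).1.1 := e7
      rw [hφ, hφ] at e8
      have a1 : (P.sc t (ρ 1)).1.1 = t * 1 := rfl
      have a2 : (ρ 1).1.1 = 1 := rfl
      rw [a1, a2, mul_one, φ1, mul_one, hσ] at e8
      exact e8.symm
    intro t
    have e1 := C i hi t
    have e2 := C (k - 1) (by omega) t
    rw [← hlast, ← hσ' t]
    show f i hi t = f ⟨k - 1, by omega⟩ (by show k - 1 < k; omega) t
    rw [e2, ← e1]
  refine ⟨σ, ?_⟩
  have hfin : (P.iq (P.flK hfl σ))⁻¹ * β = 1 := by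
    have hUf : P.iq (P.flK hfl σ) • (qd P.inp p).U = (qd P.inp p).U := P.iq_smul_U p _ (fun s => fl_pat σ str_lt s.1)
    have hVf : P.iq (P.flK hfl σ) • (qd P.inp p).V = (qd P.inp p).V := P.iq_smul_V p _ (fun s => fl_pat σ str_gt s.1)
    have hU2 : ((P.iq (P.flK hfl σ))⁻¹ * β) • (qd P.inp p).U = (qd P.inp p).U := by
      rw [mul_smul, hU, inv_smul_eq_iff, hUf]
    have hV2 : ((P.iq (P.flK hfl σ))⁻¹ * β) • (qd P.inp p).V = (qd P.inp p).V := by
      rw [mul_smul, hV, inv_smul_eq_iff, hVf]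
    have hB2 : ∀ r, ((P.iq (P.flK hfl σ))⁻¹ * β) (P.q (P.XX r)) = P.q (P.XX (P.flR σ⁻¹ (B r))) := by
      intro r
      rw [MulAut.mul_apply, hB, inv_XX]
    have hfirst : ∀ r, (P.flR σ⁻¹ (B r)).1.1 = r.1.1 := by
      intro r
      show σ⁻¹ (B r).1.1 = r.1.1
      rw [hφ, hσ]
      exact σ.symm_apply_apply _
    have hfix := P.fix_XX p hne hD _ _ hB2 hU2 hV2 hfirst
    have hB3 : ∀ r, ((P.iq (P.flK hfl σ))⁻¹ * β) (P.q (P.XX r)) = P.q (P.XX r) := by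
      intro r; rw [hB2, hfix]
    have hY2 : ∀ r, ∃ s, ((P.iq (P.flK hfl σ))⁻¹ * β) (P.q (P.YY r)) = P.q (P.YY s) := by
      intro r
      obtain ⟨s, hs⟩ := hY r
      exact ⟨_, by rw [MulAut.mul_apply, hs, inv_YY]⟩
    have hY2' : ∀ r, ∃ s, ((P.iq (P.flK hfl σ))⁻¹ * β) (P.q (P.YY s)) = P.q (P.YY r) := by
      intro r
      obtain ⟨s, hs⟩ := hY' (P.flR σ r)
      refine ⟨s, ?_⟩
      rw [MulAut.mul_apply, hs, ← P.flK_YY hfl]
      exact P.iq_inv_apply _ _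
    apply P.fix_all
    · intro i hi t
      rw [MulAut.mul_apply, hf, D, ← P.flK_xs hfl]
      exact P.iq_inv_apply _ _
    · intro i hi t
      rw [MulAut.mul_apply, hg, (A i hi).1, D, ← P.flK_ys hfl]
      exact P.iq_inv_apply _ _
    · intro u v h
      exact hB3 ⟨(u, v), h⟩
    · exact P.fix_sl hne θ hθ0 hθ hθ' hsl _ hB3 hY2 hY2'
  rw [inv_mul_eq_one] at hfin
  exact hfin.symm

end K

end OI

end Cfsg.Agent.H8.GrOdd
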