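import Mathlib
import Cfsg.Agent.H8.GrOddU3

set_option autoImplicit false
set_option linter.all false

/-! Automorphisms in odd dimension, unitary case: the theorem for stable families. -/

namespace Cfsg.Agent.H8.GrOdd

open scoped commutatorElement
open Matrix Pointwise Cfsg.Agent.H8.AutBN Cfsg.Agent.H8.SLPat Cfsg.Agent.H8.SLTri Cfsg.Agent.H8.SLData
  Cfsg.Agent.H8.Theta Cfsg.Agent.H8.GrComb Cfsg.Agent.H8.GrData Cfsg.Agent.H8.GrShort Cfsg.Agent.H8.GrPi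
  Cfsg.Agent.H8.GrCen Cfsg.Agent.H8.GrStd Cfsg.Agent.H8.GrGen

variable {k : ℕ} {F : Type*} [Field F] [Finite F] (P : OI k F) (p : ℕ) [Fact p.Prime] [CharP F p]

namespace OI

/-- `β` permutes the parameters -/
theorem param (β : MulAut (QG P.inp)) (hX : ∀ i, β • (qd P.inp p).X i = (qd P.inp p).X i) (hY : ∀ i, β • (qd P.inp p).Y i = (qd P.inp p).Y i) :
    (∀ (i : Fin (k + 1)) (hi : (i : ℕ) < k) (t : F), ∃ t', β (P.q (P.xs hi t)) = P.q (P.xs hi t')) ∧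
    (∀ (i : Fin (k + 1)) (hi : (i : ℕ) < k) (t : F), ∃ t', β (P.q (P.ys hi t)) = P.q (P.ys hi t')) ∧
    (∀ r, ∃ s, β (P.q (P.XX r)) = P.q (P.XX s)) ∧ (∀ r, ∃ s, β (P.q (P.YY r)) = P.q (P.YY s)) := by
  have hx : ∀ i, ∀ x ∈ pu P.K (strb (hNk k) i), ∃ y ∈ pu P.K (strb (hNk k) i), β (P.q x) = P.q y := by
    intro i x hx
    have h1 : β (P.q x) ∈ β • (qd P.inp p).X i := Subgroup.smul_mem_pointwise_smul _ β _ ((mem_qX P.inp p i _).2 ⟨x, hx, rfl⟩)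
    rw [hX] at h1
    exact (mem_qX P.inp p i _).1 h1
  have hy : ∀ i, ∀ x ∈ pu P.K (str_swap (strb (hNk k) i)), ∃ y ∈ pu P.K (str_swap (strb (hNk k) i)), β (P.q x) = P.q y := by
    intro i x hx
    have h1 : β (P.q x) ∈ β • (qd P.inp p).Y i := Subgroup.smul_mem_pointwise_smul _ β _ ((mem_qY P.inp p i _).2 ⟨x, hx, rfl⟩)
    rw [hY] at h1
    exact (mem_qY P.inp p i _).1 h1
  refine ⟨?_, ?_, ?_, ?_⟩
  · intro i hi t
    obtain ⟨y, hy1, hy2⟩ := hx i _ (P.xs_pu hi t)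
    obtain ⟨t', rfl⟩ := P.form_short hi hy1
    exact ⟨t', hy2⟩
  · intro i hi t
    obtain ⟨y, hy1, hy2⟩ := hy i _ (P.ys_pu hi t)
    obtain ⟨t', rfl⟩ := P.form_short' hi hy1
    exact ⟨t', hy2⟩
  · intro r
    obtain ⟨y, hy1, hy2⟩ := hx _ _ (P.XX_pu r)
    obtain ⟨t', rfl⟩ := P.form_XX hy1
    exact ⟨t', hy2⟩
  · intro r
    obtain ⟨y, hy1, hy2⟩ := hy _ _ (P.YY_pu r)
    obtain ⟨t', rfl⟩ := P.form_YY hy1
    exact ⟨t', hy2⟩

/-- diagonal action on the parameters: `e a τ(e a') = 1` -/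
theorem dg_XX (e : Fin (2 * k + 2 + 1) → Fˣ) (h : ∀ a, (e a : F) * P.τ (e (Fin.rev a)) = ((1 : Fˣ) : F)) (hc : e (lc k) = 1) (r : P.R) :
    AutPSL.cg (AutPSL.dg e) (P.XX r).1 = (P.XX (P.sc (e (la k)) r)).1 := by
  show AutPSL.cg (AutPSL.dg e) (X3 (t3 k) r.1.1 (-P.τ r.1.1) r.1.2) = X3 (t3 k) ((e (la k) : F) * r.1.1) (-P.τ ((e (la k) : F) * r.1.1)) ((e (la k) : F) * P.τ (e (la k)) * r.1.2)
  have h1 := h (la k)
  have h2 : ((e (lb k) : Fˣ) : F)⁻¹ = P.τ (e (la k)) := by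
    have h3 := congrArg P.τ h1
    rw [map_mul, P.hτ, Units.val_one, map_one] at h3
    exact (eq_inv_of_mul_eq_one_left h3).symm
  rw [cg_X3, hc, inv_one, Units.val_one, Units.val_inv_eq_inv_val]
  rw [h2]
  congr 1
  · ring
  · rw [map_mul]; ring
  · ring

theorem dg_YY (e : Fin (2 * k + 2 + 1) → Fˣ) (h : ∀ a, (e a : F) * P.τ (e (Fin.rev a)) = ((1 : Fˣ) : F)) (hc : e (lc k) = 1) (r : P.R) :
    AutPSL.cg (AutPSL.dg e) (P.YY r).1 = (P.YY (P.sc (e (lb k)) r)).1 := by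
  show AutPSL.cg (AutPSL.dg e) (X3 (t3 k).symm r.1.1 (-P.τ r.1.1) r.1.2) = X3 (t3 k).symm ((e (lb k) : F) * r.1.1) (-P.τ ((e (lb k) : F) * r.1.1)) ((e (lb k) : F) * P.τ (e (lb k)) * r.1.2)
  have h1 := h (lb k)
  rw [Fin.rev_rev] at h1
  have h2 : ((e (la k) : Fˣ) : F)⁻¹ = P.τ (e (lb k)) := by
    have h3 := congrArg P.τ h1
    rw [map_mul, P.hτ, Units.val_one, map_one] at h3
    exact (eq_inv_of_mul_eq_one_left h3).symm
  rw [cg_X3, hc, inv_one, Units.val_one, Units.val_inv_eq_inv_val]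
  rw [h2]
  congr 1
  · ring
  · rw [map_mul]; ring
  · ring

section K

variable (hfl : ∀ (σ : F ≃+* F) s, AutPSL.fl σ s ∈ P.K ↔ s ∈ P.K)
  (hcg : ∀ g ∈ GJ P.τ (Jm (e1 (2 * k + 2) F)).1, ∀ s, AutPSL.cg g s ∈ P.K ↔ s ∈ P.K)

theorem main1 (hne : ∃ t, P.τ t ≠ t) (hD : Gen P.DD) (θ : F) (hθ0 : θ ≠ 0) (hθ : P.τ θ = -θ) (hθ' : P.τ θ⁻¹ = -θ⁻¹)
    (hsl : P.sl = P.XX (P.th θ hθ 1) * P.YY (P.th θ⁻¹ hθ' (-1)) * P.XX (P.th θ hθ 1))
    (β : MulAut (QG P.inp)) (hU : β • (qd P.inp p).U = (qd P.inp p).U) (hV : β • (qd P.inp p).V = (qd P.inp p).V)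
    (hX : ∀ i, β • (qd P.inp p).X i = (qd P.inp p).X i) (hY : ∀ i, β • (qd P.inp p).Y i = (qd P.inp p).Y i) :
    ∃ (g : GL (Fin (2 * k + 2 + 1)) F) (hg : g ∈ GJ P.τ (Jm (e1 (2 * k + 2) F)).1) (σ : F ≃+* F), β = P.iq (P.cgK g (hcg g hg) * P.flK hfl σ) := by
  obtain ⟨h1, h2, h3, h4⟩ := P.param p β hX hY
  obtain ⟨_, _, h3', h4'⟩ := P.param p β⁻¹ (fun i => by rw [inv_smul_eq_iff, hX]) (fun i => by rw [inv_smul_eq_iff, hY])
  choose f hf using h1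
  choose g hg using h2
  choose B hB using h3
  have hinv : ∀ r, ∃ s, B s = r := by
    intro r
    obtain ⟨s, hs⟩ := h3' r
    refine ⟨s, P.qXX_inj ?_⟩
    rw [← hB, ← hs, MulAut.apply_inv_self]
  have hYinv : ∀ r, ∃ s, β (P.q (P.YY s)) = P.q (P.YY r) := by
    intro r
    obtain ⟨s, hs⟩ := h4' r
    exact ⟨s, by rw [← hs, MulAut.apply_inv_self]⟩
  obtain ⟨hmul, φ, hφ, φadd, φinj⟩ := P.exists_phi hne β B hB hinv
  have hne1 : ∀ i hi, f i hi 1 ≠ 0 := by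
    intro i hi h
    have e : β (P.q (P.xs hi 1)) = β (P.q (P.xs hi 0)) := by
      rw [hf, h]
      have e0 : P.xs hi 0 = 1 := Subtype.ext (RT_zero (gp i hi) P.τ)
      rw [e0, map_one, map_one]
    have e2 := Q_inj P.inp p (P.pxs p hi 1) (P.pxs p hi 0) (β.injective e)
    exact one_ne_zero (RT_inj (gp i hi) P.τ (congrArg Subtype.val e2))
  have hne2 : φ 1 ≠ 0 := fun h => one_ne_zero (φinj 1 h)
  -- the diagonal matrix
  let u : ℕ → Fˣ := fun j => if h : j < k then Units.mk0 _ (hne1 ⟨j, by omega⟩ h) else 1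
  let c0 : Fˣ := (Units.mk0 _ hne2)⁻¹ * (∏ j ∈ Finset.range k, u j)⁻¹
  let E : ℕ → Fˣ := fun n => c0 * ∏ j ∈ Finset.range n, u j
  have hE : ∀ n, E (n + 1) = E n * u n := by
    intro n
    show c0 * _ = c0 * _ * u n
    rw [Finset.prod_range_succ, ← mul_assoc]
  have hEk : (E k : F) = (φ 1)⁻¹ := by
    have : E k = (Units.mk0 _ hne2)⁻¹ := by
      show (Units.mk0 _ hne2)⁻¹ * (∏ j ∈ Finset.range k, u j)⁻¹ * (∏ j ∈ Finset.range k, u j) = _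
      rw [inv_mul_cancel_right]
    rw [this, Units.val_inv_eq_inv_val, Units.val_mk0]
  let e : Fin (2 * k + 2 + 1) → Fˣ := fun z => if (z : ℕ) ≤ k then E z else if (z : ℕ) = k + 1 then 1 else (Units.map (P.τ : F →* F) (E (2 * k + 2 - z)))⁻¹
  have he_lo : ∀ z : Fin (2 * k + 2 + 1), (z : ℕ) ≤ k → e z = E z := fun z h => if_pos h
  have he_c : e (lc k) = 1 := by
    show (if (lc k : ℕ) ≤ k then _ else _) = _
    rw [lc_val, if_neg (by omega), if_pos rfl]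
  have he_hi : ∀ z : Fin (2 * k + 2 + 1), k + 1 < (z : ℕ) → (e z : F) = (P.τ (E (2 * k + 2 - z) : F))⁻¹ := by
    intro z h
    have : e z = (Units.map (P.τ : F →* F) (E (2 * k + 2 - z)))⁻¹ := by
      show (if (z : ℕ) ≤ k then _ else _) = _
      rw [if_neg (by omega), if_neg (by omega)]
    rw [this, Units.val_inv_eq_inv_val]; rfl
  have hne3 : ∀ n, P.τ (E n : F) ≠ 0 := by
    intro n; rw [Ne, map_eq_zero_iff P.τ P.τ.injective]; exact (E n).ne_zero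
  have hsim : ∀ a, (e a : F) * P.τ (e (Fin.rev a)) = ((1 : Fˣ) : F) := by
    intro a
    rw [Units.val_one]
    rcases lt_trichotomy (a : ℕ) (k + 1) with h | h | h
    · rw [he_lo a (by omega), he_hi (Fin.rev a) (by rw [rev_val]; omega), map_inv₀, P.hτ, rev_val]
      have e1 : 2 * k + 2 - (2 * k + 2 - (a : ℕ)) = a := by have := a.2; omega
      rw [e1]
      exact mul_inv_cancel₀ (E (a : ℕ)).ne_zero
    · have : a = lc k := Fin.ext h
      rw [this, rev_lc, he_c, Units.val_one, map_one, mul_one]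
    · rw [he_hi a h, he_lo (Fin.rev a) (by rw [rev_val]; have := a.2; omega), rev_val]
      exact inv_mul_cancel₀ (hne3 _)
  have hdg : AutPSL.dg e ∈ GJ P.τ (Jm (e1 (2 * k + 2) F)).1 := GrEven.dg_mem P.τ (e1 (2 * k + 2) F) e 1 hsim
  have hea : ∀ (i : Fin (k + 1)), e (pa i) = E i := fun i => he_lo _ (by rw [pa_val]; omega)
  have heb : ∀ (i : Fin (k + 1)) (hi : (i : ℕ) < k), e (pb i) = E (i + 1) := fun i hi => he_lo _ (by rw [pb_val]; omega)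
  have hμ : P.τ ((1 : Fˣ) : F) = ((1 : Fˣ) : F) := by rw [Units.val_one, map_one]
  set D := P.cgK _ (hcg _ hdg) with hDdef
  have k1 : ∀ (i : Fin (k + 1)) (hi : (i : ℕ) < k) t, D (P.xs hi t) = P.xs hi ((e (pa i) : F) * t * ((e (pb i))⁻¹ : Fˣ)) := by
    intro i hi t
    exact Subtype.ext (GrEven.cg_RT P.τ e 1 hsim hμ P.hτ (gp i hi).ab t)
  have k2 : ∀ (i : Fin (k + 1)) (hi : (i : ℕ) < k) t, D (P.ys hi t) = P.ys hi ((e (pb i) : F) * t * ((e (pa i))⁻¹ : Fˣ)) := by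
    intro i hi t
    exact Subtype.ext (GrEven.cg_RT P.τ e 1 hsim hμ P.hτ (gp i hi).symm.ab t)
  have k3 : ∀ r, D (P.XX r) = P.XX (P.sc (e (la k)) r) := fun r => Subtype.ext (P.dg_XX e hsim he_c r)
  have k4 : ∀ r, D (P.YY r) = P.YY (P.sc (e (lb k)) r) := fun r => Subtype.ext (P.dg_YY e hsim he_c r)
  have scinv : ∀ (t : F) (ht : t ≠ 0) r, P.sc t (P.sc t⁻¹ r) = r := by
    intro t ht r
    have ht' : P.τ t ≠ 0 := by rw [Ne, map_eq_zero_iff P.τ P.τ.injective]; exact ht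
    apply R.ext
    · show t * (t⁻¹ * r.1.1) = r.1.1
      rw [mul_inv_cancel_left₀ ht]
    · show t * P.τ t * (t⁻¹ * P.τ t⁻¹ * r.1.2) = r.1.2
      rw [map_inv₀]; field_simp
  have hDU : P.iq D • (qd P.inp p).U = (qd P.inp p).U := P.iq_smul_U p _ (fun s => dg_pat e str_lt s.1)
  have hDV : P.iq D • (qd P.inp p).V = (qd P.inp p).V := P.iq_smul_V p _ (fun s => dg_pat e str_gt s.1)
  obtain ⟨σ, hσ⟩ := P.main0 p hfl hne hD θ hθ0 hθ hθ' hsl (P.iq D * β)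
    (by rw [mul_smul, hU, hDU]) (by rw [mul_smul, hV, hDV])
    (fun i hi t => (e (pa i) : F) * f i hi t * ((e (pb i))⁻¹ : Fˣ)) (fun i hi t => (e (pb i) : F) * g i hi t * ((e (pa i))⁻¹ : Fˣ))
    (by intro i hi t; rw [MulAut.mul_apply, hf]; exact congrArg P.q (k1 i hi _))
    (by intro i hi t; rw [MulAut.mul_apply, hg]; exact congrArg P.q (k2 i hi _))
    (by
      intro i hi
      have e1 : f i hi 1 = (u i : F) := by
        have : u i = Units.mk0 _ (hne1 i hi) := dif_pos hi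
        rw [this]; rfl
      show (e (pa i) : F) * f i hi 1 * ((e (pb i))⁻¹ : Fˣ) = 1
      rw [e1, hea, heb i hi, hE, ← Units.val_mul, ← Units.val_mul, mul_inv_cancel, Units.val_one])
    (fun r => P.sc (e (la k)) (B r))
    (by intro r; rw [MulAut.mul_apply, hB]; exact congrArg P.q (k3 _))
    (by
      intro r
      obtain ⟨s, hs⟩ := hinv (P.sc (e (la k) : F)⁻¹ r)
      refine ⟨s, ?_⟩
      show P.sc (e (la k)) (B s) = r
      rw [hs, scinv _ (Units.ne_zero _)])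
    (by
      intro r
      obtain ⟨s, hs⟩ := h4 r
      refine ⟨P.sc (e (lb k)) s, ?_⟩
      rw [MulAut.mul_apply, hs]
      exact congrArg P.q (k4 _))
    (by
      intro r
      obtain ⟨s, hs⟩ := hYinv (P.sc (e (lb k) : F)⁻¹ r)
      refine ⟨s, ?_⟩
      rw [MulAut.mul_apply, hs]
      have := congrArg P.q (k4 (P.sc (e (lb k) : F)⁻¹ r))
      rw [scinv _ (Units.ne_zero _)] at this
      exact this)
    (by
      intro r hr
      show (e (la k) : F) * (B r).1.1 = 1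
      rw [hφ, hr]
      have e1 : (e (la k) : F) = (E k : F) := by rw [hea]; rfl
      rw [e1, hEk, inv_mul_cancel₀ hne2])
  refine ⟨(AutPSL.dg e)⁻¹, inv_mem hdg, σ, ?_⟩
  have e5 : P.cgK _ (hcg _ (inv_mem hdg)) * D = 1 := by
    ext s : 1
    apply Subtype.ext
    show AutPSL.cg (AutPSL.dg e)⁻¹ (AutPSL.cg (AutPSL.dg e) s.1) = s.1
    rw [← MulAut.mul_apply, ← map_mul, inv_mul_cancel, map_one, MulAut.one_apply]
  rw [map_mul, ← hσ, ← mul_assoc, ← map_mul, e5, map_one, one_mul]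

omit p [Fact p.Prime] [CharP F p] in
theorem toGL_mem (g : P.K) : SpecialLinearGroup.toGL g.1 ∈ GJ P.τ (Jm (e1 (2 * k + 2) F)).1 := by
  refine ⟨1, ?_⟩
  rw [Units.val_one, one_smul]
  exact (mem_Gr_iff P.τ _ g.1).1 (P.hK g.2)

theorem cgK_conj (g : P.K) (h : ∀ s, AutPSL.cg (SpecialLinearGroup.toGL g.1) s ∈ P.K ↔ s ∈ P.K) :
    P.cgK _ h = MulAut.conj g := by
  ext s : 1
  apply Subtype.ext
  show AutPSL.cg (SpecialLinearGroup.toGL g.1) s.1 = g.1 * s.1 * g.1⁻¹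
  rw [← AutPSL.conj_eq_cg]; rfl

/-- assembling -/
theorem main2 (α : MulAut (QG P.inp)) (g : P.K) {d : GL (Fin (2 * k + 2 + 1)) F} (hd : d ∈ GJ P.τ (Jm (e1 (2 * k + 2) F)).1) (σ : F ≃+* F)
    (e : c (P.q g) * α = P.iq (P.cgK d (hcg d hd) * P.flK hfl σ)) :
    ∃ (g : GL (Fin (2 * k + 2 + 1)) F) (hg : g ∈ GJ P.τ (Jm (e1 (2 * k + 2) F)).1) (σ : F ≃+* F), α = P.iq (P.cgK g (hcg g hg) * P.flK hfl σ) := by
  have h1 : α = (c (P.q g))⁻¹ * P.iq (P.cgK d (hcg d hd) * P.flK hfl σ) := by rw [← e]; group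
  have hg := P.toGL_mem g⁻¹
  refine ⟨SpecialLinearGroup.toGL (g⁻¹ : P.K).1 * d, mul_mem hg hd, σ, ?_⟩
  have e2 : P.cgK _ (hcg _ (mul_mem hg hd)) = P.cgK _ (hcg _ hg) * P.cgK d (hcg d hd) := by
    ext s : 1
    apply Subtype.ext
    show AutPSL.cg _ s.1 = AutPSL.cg _ (AutPSL.cg _ s.1)
    rw [map_mul]; rfl
  have e3 : (c (P.q g))⁻¹ = P.iq (P.cgK _ (hcg _ hg)) := by
    rw [cgK_conj, ← map_inv, ← map_inv]
    exact (indG_conj (g⁻¹ : P.K)).symm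
  rw [h1, e2, e3, ← map_mul, mul_assoc]

end K

end OI

end Cfsg.Agent.H8.GrOdd
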