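import Mathlib
import Cfsg.Agent.H8.GrOddU4

set_option autoImplicit false
set_option linter.all false

/-! Automorphisms in odd dimension, orthogonal case. -/

namespace Cfsg.Agent.H8.GrOdd

open scoped commutatorElement
open Matrix Pointwise Cfsg.Agent.H8.AutBN Cfsg.Agent.H8.SLPat Cfsg.Agent.H8.SLTri Cfsg.Agent.H8.SLData
  Cfsg.Agent.H8.Theta Cfsg.Agent.H8.GrComb Cfsg.Agent.H8.GrData Cfsg.Agent.H8.GrShort Cfsg.Agent.H8.GrPi
  Cfsg.Agent.H8.GrCen Cfsg.Agent.H8.GrStd Cfsg.Agent.H8.GrGen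

section emb

variable {ι : Type*} [Fintype ι] [DecidableEq ι] {F : Type*} [Field F]

/-- the embedding matrix -/
def EE (F : Type*) [Field F] (a c b : ι) : Matrix ι (Fin 3) F := Matrix.of fun i j => if i = ![a, c, b] j then 1 else 0

theorem EtE {a c b : ι} (h : T3 a c b) : (EE F a c b).transpose * EE F a c b = 1 := by
  ext i j
  rw [Matrix.mul_apply]
  show ∑ x, (if x = ![a, c, b] i then (1 : F) else 0) * (if x = ![a, c, b] j then (1 : F) else 0) = _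
  rw [Finset.sum_eq_single (![a, c, b] i)]
  · rw [if_pos rfl, one_mul, Matrix.one_apply]
    have hac := h.ac
    have hcb := h.cb
    have hab := h.ab
    fin_cases i <;> fin_cases j <;> simp [hac, hcb, hab, hac.symm, hcb.symm, hab.symm]
  · intro x _ hx
    rw [if_neg hx, zero_mul]
  · simp

/-- block matrices -/
def em (a c b : ι) (M : Matrix (Fin 3) (Fin 3) F) : Matrix ι ι F := 1 + EE F a c b * (M - 1) * (EE F a c b).transpose

theorem em_mul {a c b : ι} (h : T3 a c b) (M M' : Matrix (Fin 3) (Fin 3) F) : em a c b (M * M') = em a c b M * em a c b M' := by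
  unfold em
  have e : EE F a c b * (M - 1) * (EE F a c b).transpose * (EE F a c b * (M' - 1) * (EE F a c b).transpose) =
      EE F a c b * ((M - 1) * (M' - 1)) * (EE F a c b).transpose := by
    calc EE F a c b * (M - 1) * (EE F a c b).transpose * (EE F a c b * (M' - 1) * (EE F a c b).transpose)
        = EE F a c b * (M - 1) * ((EE F a c b).transpose * EE F a c b) * (M' - 1) * (EE F a c b).transpose := by simp only [Matrix.mul_assoc]
      _ = _ := by rw [EtE h, Matrix.mul_one]; simp only [Matrix.mul_assoc]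
  have e2 : ∀ A B : Matrix ι ι F, (1 + A) * (1 + B) = 1 + (A + B + A * B) := by intro A B; noncomm_ring
  rw [e2, e, ← Matrix.add_mul, ← Matrix.mul_add, ← Matrix.add_mul, ← Matrix.mul_add]
  congr 3
  noncomm_ring

theorem em_inj {a c b : ι} (h : T3 a c b) {M M' : Matrix (Fin 3) (Fin 3) F} (e : em a c b M = em a c b M') : M = M' := by
  have h1 := congrArg (fun X => (EE F a c b).transpose * X * EE F a c b) e
  have key : ∀ M : Matrix (Fin 3) (Fin 3) F, (EE F a c b).transpose * em a c b M * EE F a c b = M := by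
    intro M
    unfold em
    rw [Matrix.mul_add, Matrix.mul_one, Matrix.add_mul, EtE h]
    have : (EE F a c b).transpose * (EE F a c b * (M - 1) * (EE F a c b).transpose) * EE F a c b =
        ((EE F a c b).transpose * EE F a c b) * (M - 1) * ((EE F a c b).transpose * EE F a c b) := by simp only [Matrix.mul_assoc]
    rw [this, EtE h, Matrix.one_mul, Matrix.mul_one, add_sub_cancel]
  simpa only [key] using h1

theorem em_eq {a c b : ι} (M : Matrix (Fin 3) (Fin 3) F) (p q : ι) : em a c b M p q = (1 : Matrix ι ι F) p q +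
    ∑ i, ∑ j, (if p = ![a, c, b] i then (1 : F) else 0) * (M - 1) i j * (if q = ![a, c, b] j then (1 : F) else 0) := by
  unfold em
  rw [Matrix.add_apply]
  congr 1
  rw [Matrix.mul_apply, Finset.sum_comm]
  refine Finset.sum_congr rfl fun j _ => ?_
  rw [Matrix.mul_apply, Finset.sum_mul]
  rfl

theorem X3_em {a c b : ι} (h : T3 a c b) (u w v : F) : (X3 h u w v).1 = em a c b !![1, u, v; 0, 1, w; 0, 0, 1] := by
  ext p q
  rw [em_eq]
  have h1 : (X3 h u w v).1 p q = _ := X3_apply h u w v p q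
  rw [h1, Matrix.one_apply]
  simp only [Fin.sum_univ_three, Matrix.sub_apply]
  simp [Matrix.one_apply]
  by_cases p1 : p = a
  · subst p1
    by_cases q1 : q = c
    · subst q1; simp [h.cb, h.ab, h.ac, h.cb.symm, h.ab.symm, h.ac.symm]
    · by_cases q2 : q = b
      · subst q2; simp [h.cb, h.ab, h.ac, h.cb.symm, h.ab.symm, h.ac.symm]
      · simp [q1, q2, h.ab, h.ac]
  · by_cases p2 : p = c
    · subst p2
      by_cases q2 : q = b
      · subst q2; simp [h.cb, h.ab, h.ac, h.cb.symm, h.ab.symm, h.ac.symm]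
      · simp [q2, p1, h.cb]
    · simp [p1, p2]

theorem X3_em' {a c b : ι} (h : T3 a c b) (u w v : F) : (X3 h.symm u w v).1 = em a c b !![1, 0, 0; w, 1, 0; v, u, 1] := by
  ext p q
  rw [em_eq]
  have h1 : (X3 h.symm u w v).1 p q = _ := X3_apply h.symm u w v p q
  rw [h1, Matrix.one_apply]
  simp only [Fin.sum_univ_three, Matrix.sub_apply]
  simp [Matrix.one_apply]
  by_cases p1 : p = b
  · subst p1
    by_cases q1 : q = c
    · subst q1; simp [h.cb, h.ab, h.ac, h.cb.symm, h.ab.symm, h.ac.symm]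
    · by_cases q2 : q = a
      · subst q2; simp [h.cb, h.ab, h.ac, h.cb.symm, h.ab.symm, h.ac.symm]
      · simp [q1, q2, h.ab, h.ac, h.cb, h.cb.symm, h.ab.symm]
  · by_cases p2 : p = c
    · subst p2
      by_cases q2 : q = a
      · subst q2; simp [h.cb, h.ab, h.ac, h.cb.symm, h.ab.symm, h.ac.symm]
      · simp [q2, p1, h.cb, h.ac.symm]
    · simp [p1, p2]

end emb

/-- rank one identity -/
theorem m3_rel {F : Type*} [Field F] (h2 : (2 : F) ≠ 0) {t : F} (ht : t ≠ 0) (s : F) :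
    (!![1, t, -(t ^ 2) / 2; 0, 1, -t; 0, 0, 1] : Matrix (Fin 3) (Fin 3) F) * !![1, 0, 0; -(-2 * -t⁻¹), 1, 0; -((-2 * -t⁻¹) ^ 2) / 2, (-2 * -t⁻¹), 1] * !![1, t, -(t ^ 2) / 2; 0, 1, -t; 0, 0, 1] *
      !![1, s, -(s ^ 2) / 2; 0, 1, -s; 0, 0, 1] =
    !![1, 0, 0; -(-2 * -(t⁻¹ ^ 2 * s)), 1, 0; -((-2 * -(t⁻¹ ^ 2 * s)) ^ 2) / 2, (-2 * -(t⁻¹ ^ 2 * s)), 1] *
      (!![1, t, -(t ^ 2) / 2; 0, 1, -t; 0, 0, 1] * !![1, 0, 0; -(-2 * -t⁻¹), 1, 0; -((-2 * -t⁻¹) ^ 2) / 2, (-2 * -t⁻¹), 1] * !![1, t, -(t ^ 2) / 2; 0, 1, -t; 0, 0, 1]) := by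
  ext i j
  fin_cases i <;> fin_cases j <;> simp [Matrix.mul_apply, Fin.sum_univ_three] <;>
    first | done | (field_simp; done) | (field_simp; ring; done) | (field_simp; ring_nf; simp; done)

theorem m3_key {F : Type*} [Field F] (h2 : (2 : F) ≠ 0) {a b c r r' : F} (hr : r ≠ 0)
    (h : (!![1, a, -(a ^ 2) / 2; 0, 1, -a; 0, 0, 1] : Matrix (Fin 3) (Fin 3) F) * !![1, 0, 0; -(-2 * b), 1, 0; -((-2 * b) ^ 2) / 2, (-2 * b), 1] * !![1, c, -(c ^ 2) / 2; 0, 1, -c; 0, 0, 1] *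
      !![1, r, -(r ^ 2) / 2; 0, 1, -r; 0, 0, 1] =
    !![1, 0, 0; -(-2 * r'), 1, 0; -((-2 * r') ^ 2) / 2, (-2 * r'), 1] *
      (!![1, a, -(a ^ 2) / 2; 0, 1, -a; 0, 0, 1] * !![1, 0, 0; -(-2 * b), 1, 0; -((-2 * b) ^ 2) / 2, (-2 * b), 1] * !![1, c, -(c ^ 2) / 2; 0, 1, -c; 0, 0, 1])) :
    1 + a * b = 0 := by
  have h01 := congrFun (congrFun h 0) 1
  simp [Matrix.mul_apply, Fin.sum_univ_three] at h01
  have h3 := h01.resolve_right hr
  have h4 : (1 + a * b) ^ 2 = 0 := by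
    field_simp at h3
    linear_combination h3
  exact pow_eq_zero_iff (two_ne_zero) |>.1 h4

variable {k : ℕ} {F : Type*} [Field F] [Finite F] (P : OI k F)

namespace OI

/-- parameters in the orthogonal case -/
def rho (hτ : ∀ t, P.τ t = t) (h2 : (2 : F) ≠ 0) (u : F) : P.R := ⟨(u, -(u ^ 2) / 2), by
  show -(u ^ 2) / 2 + P.τ (-(u ^ 2) / 2) = -(u * P.τ u)
  rw [hτ, hτ]; field_simp; ring⟩

variable (hτ : ∀ t, P.τ t = t) (h2 : (2 : F) ≠ 0)

theorem eq_rho (r : P.R) : r = P.rho hτ h2 r.1.1 := by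
  apply R.ext
  · rfl
  · show r.1.2 = -(r.1.1 ^ 2) / 2
    have := r.2
    rw [hτ, hτ] at this
    field_simp
    linear_combination this

theorem rho_mul (s t : F) : (P.rho hτ h2 s).mul (P.rho hτ h2 t) = P.rho hτ h2 (s + t) := by
  apply R.ext
  · rfl
  · show -(s ^ 2) / 2 + -(t ^ 2) / 2 - s * P.τ t = -((s + t) ^ 2) / 2
    rw [hτ]; field_simp; ring

theorem YY_mul (r s : P.R) : P.YY (r.mul s) = P.YY r * P.YY s := by
  apply Subtype.ext
  show X3 (t3 k).symm (r.1.1 + s.1.1) (-P.τ (r.1.1 + s.1.1)) (r.1.2 + s.1.2 - r.1.1 * P.τ s.1.1) = X3 (t3 k).symm r.1.1 (-P.τ r.1.1) r.1.2 * X3 (t3 k).symm s.1.1 (-P.τ s.1.1) s.1.2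
  rw [X3_mul, map_add]
  congr 1 <;> ring

/-- last root elements -/
def ex (t : F) : P.K := P.XX (P.rho hτ h2 t)
def ey (t : F) : P.K := P.YY (P.rho hτ h2 (-2 * t))

theorem ex_add (s t : F) : P.ex hτ h2 (s + t) = P.ex hτ h2 s * P.ex hτ h2 t := by
  unfold ex
  rw [← XX_mul, rho_mul]

theorem ey_add (s t : F) : P.ey hτ h2 (s + t) = P.ey hτ h2 s * P.ey hτ h2 t := by
  unfold ey
  rw [← YY_mul, rho_mul, mul_add]

theorem ex_val (t : F) : (P.ex hτ h2 t).1.1 = em (la k) (lc k) (lb k) !![1, t, -(t ^ 2) / 2; 0, 1, -t; 0, 0, 1] := by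
  show (X3 (t3 k) t (-P.τ t) (-(t ^ 2) / 2)).1 = _
  rw [X3_em (t3 k), hτ]

theorem ey_val (t : F) : (P.ey hτ h2 t).1.1 = em (la k) (lc k) (lb k) !![1, 0, 0; -(-2 * t), 1, 0; -((-2 * t) ^ 2) / 2, (-2 * t), 1] := by
  show (X3 (t3 k).symm (-2 * t) (-P.τ (-2 * t)) (-((-2 * t) ^ 2) / 2)).1 = _
  rw [X3_em' (t3 k), hτ]

theorem e_rel (t s : F) (ht : t ≠ 0) : P.ex hτ h2 t * P.ey hτ h2 (-t⁻¹) * P.ex hτ h2 t * P.ex hτ h2 s =
    P.ey hτ h2 (-(t⁻¹ ^ 2 * s)) * (P.ex hτ h2 t * P.ey hτ h2 (-t⁻¹) * P.ex hτ h2 t) := by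
  apply Subtype.ext
  apply Subtype.ext
  show (P.ex hτ h2 t).1.1 * (P.ey hτ h2 (-t⁻¹)).1.1 * (P.ex hτ h2 t).1.1 * (P.ex hτ h2 s).1.1 =
    (P.ey hτ h2 (-(t⁻¹ ^ 2 * s))).1.1 * ((P.ex hτ h2 t).1.1 * (P.ey hτ h2 (-t⁻¹)).1.1 * (P.ex hτ h2 t).1.1)
  simp only [ex_val, ey_val, ← em_mul (t3 k)]
  rw [m3_rel h2 ht]

theorem e_key (a b c r r' : F) (hr : r ≠ 0) (h : P.ex hτ h2 a * P.ey hτ h2 b * P.ex hτ h2 c * P.ex hτ h2 r =
    P.ey hτ h2 r' * (P.ex hτ h2 a * P.ey hτ h2 b * P.ex hτ h2 c)) : 1 + a * b = 0 := by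
  have h1 := congrArg (fun x : P.K => x.1.1) h
  have h3 : (P.ex hτ h2 a).1.1 * (P.ey hτ h2 b).1.1 * (P.ex hτ h2 c).1.1 * (P.ex hτ h2 r).1.1 =
    (P.ey hτ h2 r').1.1 * ((P.ex hτ h2 a).1.1 * (P.ey hτ h2 b).1.1 * (P.ex hτ h2 c).1.1) := h1
  simp only [ex_val, ey_val, ← em_mul (t3 k)] at h3
  exact m3_key h2 hr (em_inj (t3 k) h3)

include h2 in
/-- rank one, last root -/
theorem rank_last (β : MulAut (QG P.inp)) (f g : F → F) (hf : ∀ t, β (P.q (P.ex hτ h2 t)) = P.q (P.ex hτ h2 (f t)))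
    (hg : ∀ t, β (P.q (P.ey hτ h2 t)) = P.q (P.ey hτ h2 (g t))) (h1 : f 1 = 1) :
    (∀ t, g t = f t) ∧ ∃ σ : F ≃+* F, ∀ t, f t = σ t := by
  obtain ⟨p, hp⟩ := CharP.exists F
  haveI : Fact p.Prime := ⟨CharP.char_is_prime F p⟩
  apply RankOne.rank_one_abs (fun t => P.q (P.ex hτ h2 t)) (fun t => P.q (P.ey hτ h2 t)) _ _ _ _ _ _ β f g hf hg h1
  · intro s t
    show P.q (P.ex hτ h2 (s + t)) = P.q (P.ex hτ h2 s) * P.q (P.ex hτ h2 t)
    rw [← map_mul, ex_add]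
  · intro s t
    show P.q (P.ey hτ h2 (s + t)) = P.q (P.ey hτ h2 s) * P.q (P.ey hτ h2 t)
    rw [← map_mul, ey_add]
  · intro s t h
    have := congrArg (fun r : P.R => r.1.1) (P.qXX_inj h)
    exact this
  · intro s t h
    have := congrArg (fun r : P.R => r.1.1) (P.qYY_inj h)
    have h3 : -2 * s = -2 * t := this
    exact mul_left_cancel₀ (neg_ne_zero.2 h2) h3
  · intro t s ht
    simp only [← map_mul]
    congr 1
    exact P.e_rel hτ h2 t s ht
  · intro a b c r r' hr h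
    simp only [← map_mul] at h
    rw [map_mul P.q _ (P.ex hτ h2 r), map_mul P.q (P.ey hτ h2 r')] at h
    have h3 := conj_inj P.inp p (P.pxl p _ _ (P.rho hτ h2 r).2) (P.pyl p _ _ (P.rho hτ h2 (-2 * r')).2) h
    exact P.e_key hτ h2 a b c r r' hr h3

section K

variable (hfl : ∀ (σ : F ≃+* F) s, AutPSL.fl σ s ∈ P.K ↔ s ∈ P.K)

theorem flK_ex (σ : F ≃+* F) (t : F) : P.flK hfl σ (P.ex hτ h2 t) = P.ex hτ h2 (σ t) := by
  unfold ex
  rw [flK_XX, P.eq_rho hτ h2 (P.flR σ _)]; rfl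

theorem flK_ey (σ : F ≃+* F) (t : F) : P.flK hfl σ (P.ey hτ h2 t) = P.ey hτ h2 (σ t) := by
  unfold ey
  rw [flK_YY, P.eq_rho hτ h2 (P.flR σ _)]
  congr 2
  show σ (-2 * t) = -2 * σ t
  rw [map_mul, map_neg, map_ofNat]

theorem main0o (hk : 0 < k) (hsl : P.sl = P.ex hτ h2 1 * P.ey hτ h2 (-1) * P.ex hτ h2 1)
    (β : MulAut (QG P.inp)) (f g : ∀ i : Fin (k + 1), (i : ℕ) < k → F → F) (f' g' : F → F)
    (hf : ∀ (i : Fin (k + 1)) (hi : (i : ℕ) < k) t, β (P.q (P.xs hi t)) = P.q (P.xs hi (f i hi t)))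
    (hg : ∀ (i : Fin (k + 1)) (hi : (i : ℕ) < k) t, β (P.q (P.ys hi t)) = P.q (P.ys hi (g i hi t)))
    (hf' : ∀ t, β (P.q (P.ex hτ h2 t)) = P.q (P.ex hτ h2 (f' t)))
    (hg' : ∀ t, β (P.q (P.ey hτ h2 t)) = P.q (P.ey hτ h2 (g' t)))
    (h1 : ∀ i hi, f i hi 1 = 1) (h1' : f' 1 = 1) :
    ∃ σ : F ≃+* F, β = P.iq (P.flK hfl σ) := by
  obtain ⟨p, hp⟩ := CharP.exists F
  haveI : Fact p.Prime := ⟨CharP.char_is_prime F p⟩
  have A := fun (i : Fin (k + 1)) (hi : (i : ℕ) < k) => P.rank_short β hi (f i hi) (g i hi) (hf i hi) (hg i hi) (h1 i hi)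
  have B := P.rank_last hτ h2 β f' g' hf' hg' h1'
  obtain ⟨σ, hσ⟩ := B.2
  have D : ∀ (i : Fin (k + 1)) (hi : (i : ℕ) < k) (t : F), f i hi t = σ t := by
    intro i hi
    have C : ∀ (j : ℕ) (hj : j < k) (t : F), f ⟨j, by omega⟩ hj t = f ⟨0, by omega⟩ hk t := by
      intro j
      induction j with
      | zero => intro hj t; rfl
      | succ j ih =>
        intro hj t
        rw [← ih (by omega) t]
        exact (P.nb_short β (i := ⟨j, by omega⟩) (j := ⟨j + 1, by omega⟩) (by show j < k; omega) hj rfl _ _ (hf _ _) (hf _ _) (h1 _ _) (h1 _ _) t).symm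
    obtain ⟨σ', hσ'⟩ := (A ⟨k - 1, by omega⟩ (by show k - 1 < k; omega)).2
    have hlast : ∀ t, σ' t = σ t := by
      intro t
      by_cases ht : t = 0
      · subst ht; rw [map_zero, map_zero]
      have hfk := hf ⟨k - 1, by omega⟩ (by show k - 1 < k; omega)
      have hgk := hg ⟨k - 1, by omega⟩ (by show k - 1 < k; omega)
      simp only [(A _ _).1, hσ'] at hfk hgk
      have e1 := P.beta_Hn β (i := ⟨k - 1, by omega⟩) (by show k - 1 < k; omega) σ' hfk hgk t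
      have Hx : ∀ t : F, t ≠ 0 → P.ex hτ h2 t = P.Hn (i := ⟨k - 1, by omega⟩) (by show k - 1 < k; omega) t * P.ex hτ h2 1 * (P.Hn (i := ⟨k - 1, by omega⟩) (by show k - 1 < k; omega) t)⁻¹ := by
        intro t ht
        have e2 := P.Hn_xl (i := ⟨k - 1, by omega⟩) (by show k - 1 < k; omega) (by show k - 1 + 1 = k; omega) ht (P.rho hτ h2 1).1.1 (P.rho hτ h2 1).1.2 (P.rho hτ h2 1).2
        have e3 : P.ex hτ h2 t = P.XX (P.sc t (P.rho hτ h2 1)) := by
          unfold ex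
          rw [P.eq_rho hτ h2 (P.sc t _)]
          congr 2
          exact (mul_one t).symm
        rw [e3]
        exact (mul_inv_eq_iff_eq_mul.2 e2).symm
      have ht' : σ' t ≠ 0 := by rw [Ne, map_eq_zero_iff σ' σ'.injective]; exact ht
      have e4 : β (P.q (P.ex hτ h2 t)) = P.q (P.ex hτ h2 (σ' t)) := by
        rw [Hx t ht, Hx _ ht']
        simp only [map_mul, map_inv, e1, hf', h1']
      rw [hf', hσ] at e4
      exact (congrArg (fun r : P.R => r.1.1) (P.qXX_inj e4)).symm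
    intro t
    have e1 := C i hi t
    have e2 := C (k - 1) (by omega) t
    rw [← hlast, ← hσ' t]
    show f i hi t = f ⟨k - 1, by omega⟩ (by show k - 1 < k; omega) t
    rw [e2, ← e1]
  refine ⟨σ, ?_⟩
  have hfin : (P.iq (P.flK hfl σ))⁻¹ * β = 1 := by
    have hx : ∀ t, ((P.iq (P.flK hfl σ))⁻¹ * β) (P.q (P.ex hτ h2 t)) = P.q (P.ex hτ h2 t) := by
      intro t
      rw [MulAut.mul_apply, hf', hσ, ← P.flK_ex hτ h2 hfl]
      exact P.iq_inv_apply _ _
    have hy : ∀ t, ((P.iq (P.flK hfl σ))⁻¹ * β) (P.q (P.ey hτ h2 t)) = P.q (P.ey hτ h2 t) := by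
      intro t
      rw [MulAut.mul_apply, hg', B.1, hσ, ← P.flK_ey hτ h2 hfl]
      exact P.iq_inv_apply _ _
    apply P.fix_all
    · intro i hi t
      rw [MulAut.mul_apply, hf, D, ← P.flK_xs hfl]
      exact P.iq_inv_apply _ _
    · intro i hi t
      rw [MulAut.mul_apply, hg, (A i hi).1, D, ← P.flK_ys hfl]
      exact P.iq_inv_apply _ _
    · intro u v h
      have e : P.xl u v h = P.ex hτ h2 u := by
        have := P.eq_rho hτ h2 ⟨(u, v), h⟩
        unfold ex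
        rw [← this]; rfl
      rw [e]; exact hx u
    · rw [hsl, map_mul, map_mul, map_mul, map_mul, hx, hy]
  rw [inv_mul_eq_one] at hfin
  exact hfin.symm

end K

end OI

end Cfsg.Agent.H8.GrOdd
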