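import Mathlib
import Cfsg.Agent.H8.GrOddO

set_option autoImplicit false
set_option linter.all false

/-! Automorphisms in odd dimension, orthogonal case: normalisation. -/

namespace Cfsg.Agent.H8.GrOdd

open scoped commutatorElement
open Matrix Pointwise Cfsg.Agent.H8.AutBN Cfsg.Agent.H8.SLPat Cfsg.Agent.H8.SLTri Cfsg.Agent.H8.SLData
  Cfsg.Agent.H8.Theta Cfsg.Agent.H8.GrComb Cfsg.Agent.H8.GrData Cfsg.Agent.H8.GrShort Cfsg.Agent.H8.GrPi
  Cfsg.Agent.H8.GrCen Cfsg.Agent.H8.GrStd Cfsg.Agent.H8.GrGen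

variable {k : ℕ} {F : Type*} [Field F] [Finite F] (P : OI k F) (p : ℕ) [Fact p.Prime] [CharP F p]

namespace OI

variable (hτ : ∀ t, P.τ t = t) (h2 : (2 : F) ≠ 0)
variable (hfl : ∀ (σ : F ≃+* F) s, AutPSL.fl σ s ∈ P.K ↔ s ∈ P.K)
  (hcg : ∀ g ∈ GJ P.τ (Jm (e1 (2 * k + 2) F)).1, ∀ s, AutPSL.cg g s ∈ P.K ↔ s ∈ P.K)

theorem main1o (hk : 0 < k) (hsl : P.sl = P.ex hτ h2 1 * P.ey hτ h2 (-1) * P.ex hτ h2 1)
    (β : MulAut (QG P.inp))
    (hX : ∀ i, β • (qd P.inp p).X i = (qd P.inp p).X i) (hY : ∀ i, β • (qd P.inp p).Y i = (qd P.inp p).Y i) :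
    ∃ (g : GL (Fin (2 * k + 2 + 1)) F) (hg : g ∈ GJ P.τ (Jm (e1 (2 * k + 2) F)).1) (σ : F ≃+* F), β = P.iq (P.cgK g (hcg g hg) * P.flK hfl σ) := by
  obtain ⟨h1, h2', h3, h4⟩ := P.param p β hX hY
  choose f hf using h1
  choose g hg using h2'
  have h3' : ∀ t, ∃ t', β (P.q (P.ex hτ h2 t)) = P.q (P.ex hτ h2 t') := by
    intro t
    obtain ⟨s, hs⟩ := h3 (P.rho hτ h2 t)
    exact ⟨s.1.1, by rw [P.eq_rho hτ h2 s] at hs; exact hs⟩
  have h4' : ∀ t, ∃ t', β (P.q (P.ey hτ h2 t)) = P.q (P.ey hτ h2 t') := by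
    intro t
    obtain ⟨s, hs⟩ := h4 (P.rho hτ h2 (-2 * t))
    refine ⟨(-2)⁻¹ * s.1.1, ?_⟩
    unfold ey
    rw [mul_inv_cancel_left₀ (neg_ne_zero.2 h2), ← P.eq_rho hτ h2 s]
    exact hs
  choose f' hf' using h3'
  choose g' hg' using h4'
  have hne1 : ∀ i hi, f i hi 1 ≠ 0 := by
    intro i hi h
    have e : β (P.q (P.xs hi 1)) = β (P.q (P.xs hi 0)) := by
      rw [hf, h]
      have e0 : P.xs hi 0 = 1 := Subtype.ext (RT_zero (gp i hi) P.τ)
      rw [e0, map_one, map_one]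
    have e2 := Q_inj P.inp p (P.pxs p hi 1) (P.pxs p hi 0) (β.injective e)
    exact one_ne_zero (RT_inj (gp i hi) P.τ (congrArg Subtype.val e2))
  have hex0 : P.ex hτ h2 0 = 1 := by
    have := P.ex_add hτ h2 0 0
    rw [add_zero] at this
    exact mul_eq_left.1 this.symm
  have hne2 : f' 1 ≠ 0 := by
    intro h
    have e : β (P.q (P.ex hτ h2 1)) = β (P.q (P.ex hτ h2 0)) := by
      rw [hf', h, hex0, map_one, map_one]
    have e2 := congrArg (fun r : P.R => r.1.1) (P.qXX_inj (β.injective e))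
    exact one_ne_zero e2
  -- the diagonal matrix
  let u : ℕ → Fˣ := fun j => if h : j < k then Units.mk0 _ (hne1 ⟨j, by omega⟩ h) else 1
  let c0 : Fˣ := (Units.mk0 _ hne2)⁻¹ * (∏ j ∈ Finset.range k, u j)⁻¹
  let E : ℕ → Fˣ := fun n => c0 * ∏ j ∈ Finset.range n, u j
  have hE : ∀ n, E (n + 1) = E n * u n := by
    intro n
    show c0 * _ = c0 * _ * u n
    rw [Finset.prod_range_succ, ← mul_assoc]
  have hEk : (E k : F) = (f' 1)⁻¹ := by
    have : E k = (Units.mk0 _ hne2)⁻¹ := by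
      show (Units.mk0 _ hne2)⁻¹ * (∏ j ∈ Finset.range k, u j)⁻¹ * (∏ j ∈ Finset.range k, u j) = _
      rw [inv_mul_cancel_right]
    rw [this, Units.val_inv_eq_inv_val, Units.val_mk0]
  let e : Fin (2 * k + 2 + 1) → Fˣ := fun z => if (z : ℕ) ≤ k then E z else if (z : ℕ) = k + 1 then 1 else (E (2 * k + 2 - z))⁻¹
  have he_lo : ∀ z : Fin (2 * k + 2 + 1), (z : ℕ) ≤ k → e z = E z := fun z h => if_pos h
  have he_c : e (lc k) = 1 := by
    show (if (lc k : ℕ) ≤ k then _ else _) = _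
    rw [lc_val, if_neg (by omega), if_pos rfl]
  have he_hi : ∀ z : Fin (2 * k + 2 + 1), k + 1 < (z : ℕ) → (e z : F) = (E (2 * k + 2 - z) : F)⁻¹ := by
    intro z h
    have : e z = (E (2 * k + 2 - z))⁻¹ := by
      show (if (z : ℕ) ≤ k then _ else _) = _
      rw [if_neg (by omega), if_neg (by omega)]
    rw [this, Units.val_inv_eq_inv_val]
  have hsim : ∀ a, (e a : F) * P.τ (e (Fin.rev a)) = ((1 : Fˣ) : F) := by
    intro a
    rw [Units.val_one, hτ]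
    rcases lt_trichotomy (a : ℕ) (k + 1) with h | h | h
    · rw [he_lo a (by omega), he_hi (Fin.rev a) (by rw [rev_val]; omega), rev_val]
      have e1 : 2 * k + 2 - (2 * k + 2 - (a : ℕ)) = a := by have := a.2; omega
      rw [e1]
      exact mul_inv_cancel₀ (E (a : ℕ)).ne_zero
    · have : a = lc k := Fin.ext h
      rw [this, rev_lc, he_c, Units.val_one, mul_one]
    · rw [he_hi a h, he_lo (Fin.rev a) (by rw [rev_val]; have := a.2; omega), rev_val]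
      exact inv_mul_cancel₀ (E _).ne_zero
  have hdg : AutPSL.dg e ∈ GJ P.τ (Jm (e1 (2 * k + 2) F)).1 := GrEven.dg_mem P.τ (e1 (2 * k + 2) F) e 1 hsim
  have hea : ∀ (i : Fin (k + 1)), e (pa i) = E i := fun i => he_lo _ (by rw [pa_val]; omega)
  have heb : ∀ (i : Fin (k + 1)) (hi : (i : ℕ) < k), e (pb i) = E (i + 1) := fun i hi => he_lo _ (by rw [pb_val]; omega)
  have hμ : P.τ ((1 : Fˣ) : F) = ((1 : Fˣ) : F) := by rw [Units.val_one, map_one]
  set D := P.cgK _ (hcg _ hdg) with hDdef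
  have k1 : ∀ (i : Fin (k + 1)) (hi : (i : ℕ) < k) t, D (P.xs hi t) = P.xs hi ((e (pa i) : F) * t * ((e (pb i))⁻¹ : Fˣ)) := by
    intro i hi t
    exact Subtype.ext (GrEven.cg_RT P.τ e 1 hsim hμ P.hτ (gp i hi).ab t)
  have k2 : ∀ (i : Fin (k + 1)) (hi : (i : ℕ) < k) t, D (P.ys hi t) = P.ys hi ((e (pb i) : F) * t * ((e (pa i))⁻¹ : Fˣ)) := by
    intro i hi t
    exact Subtype.ext (GrEven.cg_RT P.τ e 1 hsim hμ P.hτ (gp i hi).symm.ab t)
  have k3 : ∀ t, D (P.ex hτ h2 t) = P.ex hτ h2 ((e (la k) : F) * t) := by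
    intro t
    have h5 : D (P.XX (P.rho hτ h2 t)) = P.XX (P.sc (e (la k)) (P.rho hτ h2 t)) := Subtype.ext (P.dg_XX e hsim he_c _)
    unfold ex
    rw [h5, P.eq_rho hτ h2 (P.sc _ _)]; rfl
  have k4 : ∀ t, D (P.ey hτ h2 t) = P.ey hτ h2 ((e (lb k) : F) * t) := by
    intro t
    have h5 : D (P.YY (P.rho hτ h2 (-2 * t))) = P.YY (P.sc (e (lb k)) (P.rho hτ h2 (-2 * t))) := Subtype.ext (P.dg_YY e hsim he_c _)
    unfold ey
    rw [h5, P.eq_rho hτ h2 (P.sc _ _)]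
    congr 2
    show (e (lb k) : F) * (-2 * t) = -2 * ((e (lb k) : F) * t)
    ring
  obtain ⟨σ, hσ⟩ := P.main0o hτ h2 hfl hk hsl (P.iq D * β)
    (fun i hi t => (e (pa i) : F) * f i hi t * ((e (pb i))⁻¹ : Fˣ)) (fun i hi t => (e (pb i) : F) * g i hi t * ((e (pa i))⁻¹ : Fˣ))
    (fun t => (e (la k) : F) * f' t) (fun t => (e (lb k) : F) * g' t)
    (by intro i hi t; rw [MulAut.mul_apply, hf]; exact congrArg P.q (k1 i hi _))
    (by intro i hi t; rw [MulAut.mul_apply, hg]; exact congrArg P.q (k2 i hi _))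
    (by intro t; rw [MulAut.mul_apply, hf']; exact congrArg P.q (k3 _))
    (by intro t; rw [MulAut.mul_apply, hg']; exact congrArg P.q (k4 _))
    (by
      intro i hi
      have e1 : f i hi 1 = (u i : F) := by
        have : u i = Units.mk0 _ (hne1 i hi) := dif_pos hi
        rw [this]; rfl
      show (e (pa i) : F) * f i hi 1 * ((e (pb i))⁻¹ : Fˣ) = 1
      rw [e1, hea, heb i hi, hE, ← Units.val_mul, ← Units.val_mul, mul_inv_cancel, Units.val_one])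
    (by
      have e1 : (e (la k) : F) = (E k : F) := by rw [hea]; rfl
      show (e (la k) : F) * f' 1 = 1
      rw [e1, hEk, inv_mul_cancel₀ hne2])
  refine ⟨(AutPSL.dg e)⁻¹, inv_mem hdg, σ, ?_⟩
  have e5 : P.cgK _ (hcg _ (inv_mem hdg)) * D = 1 := by
    ext s : 1
    apply Subtype.ext
    show AutPSL.cg (AutPSL.dg e)⁻¹ (AutPSL.cg (AutPSL.dg e) s.1) = s.1
    rw [← MulAut.mul_apply, ← map_mul, inv_mul_cancel, map_one, MulAut.one_apply]
  rw [map_mul, ← hσ, ← mul_assoc, ← map_mul, e5, map_one, one_mul]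

omit p [Fact p.Prime] [CharP F p] in
/-- every automorphism is standard, orthogonal case -/
theorem main_orth (hk : 2 ≤ k) (hsl : P.sl = P.ex hτ h2 1 * P.ey hτ h2 (-1) * P.ex hτ h2 1) (α : MulAut (QG P.inp)) :
    ∃ (g : GL (Fin (2 * k + 2 + 1)) F) (hg : g ∈ GJ P.τ (Jm (e1 (2 * k + 2) F)).1) (σ : F ≃+* F), α = P.iq (P.cgK g (hcg g hg) * P.flK hfl σ) := by
  obtain ⟨p, hp⟩ := CharP.exists F
  haveI : Fact p.Prime := ⟨CharP.char_is_prime F p⟩
  obtain ⟨g, hX, hY⟩ := norm3 P.inp p (by omega) α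
  obtain ⟨d, hd, σ, e⟩ := P.main1o p hτ h2 hfl hcg (by omega) hsl _ hX hY
  exact P.main2 hfl hcg α g hd σ e

end OI

end Cfsg.Agent.H8.GrOdd
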