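import Mathlib
import Cfsg.Agent.H8.GrOddU4

set_option autoImplicit false
set_option linter.all false

/-! Automorphisms of the odd dimensional unitary groups. -/

namespace Cfsg.Agent.H8.GrOdd

open scoped commutatorElement
open Matrix Pointwise Cfsg.Agent.H8.AutBN Cfsg.Agent.H8.SLPat Cfsg.Agent.H8.SLTri Cfsg.Agent.H8.SLData
  Cfsg.Agent.H8.Theta Cfsg.Agent.H8.GrComb Cfsg.Agent.H8.GrData Cfsg.Agent.H8.GrShort Cfsg.Agent.H8.GrPi
  Cfsg.Agent.H8.GrCen Cfsg.Agent.H8.GrStd Cfsg.Agent.H8.GrGen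

variable (k : ℕ) {F : Type*} [Field F] [Finite F] (τ : F ≃+* F) (hτ : ∀ t, τ (τ t) = t)

section long

variable {k}

include hτ in
theorem lmem {θ : F} (hθ : τ θ = -θ) : X3 (t3 k) 0 0 θ ∈ Gr τ (e1 (2 * k + 2) F) := by
  rw [X3_mem_iff (t3 k) τ hτ (rev_lc k) rfl, hθ]; simp

include hτ in
theorem lmem' {θ : F} (hθ : τ θ = -θ) : X3 (t3 k).symm 0 0 θ ∈ Gr τ (e1 (2 * k + 2) F) := by
  rw [X3_mem_iff (t3 k).symm τ hτ (rev_lc k) (by rw [Fin.rev_rev]), hθ]; simp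

end long

/-- the reflection -/
def slU {θ : F} (hθ : τ θ = -θ) (hθ' : τ (-θ⁻¹) = -(-θ⁻¹)) : Gr τ (e1 (2 * k + 2) F) :=
  ⟨_, lmem τ hτ hθ⟩ * ⟨_, lmem' τ hτ hθ'⟩ * ⟨_, lmem τ hτ hθ⟩

theorem slU_val {θ : F} (hθ : τ θ = -θ) (hθ' : τ (-θ⁻¹) = -(-θ⁻¹)) : (slU k τ hτ hθ hθ').1 = nn (t3 k).ab θ := by
  show X3 (t3 k) 0 0 θ * X3 (t3 k).symm 0 0 (-θ⁻¹) * X3 (t3 k) 0 0 θ = _
  rw [X3_t, X3_t]; rfl

/-- the input -/
def oiu {θ : F} (hθ0 : θ ≠ 0) (hθ : τ θ = -θ) (hθ' : τ (-θ⁻¹) = -(-θ⁻¹)) : OI k F where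
  τ := τ
  hτ := hτ
  K := Gr τ (e1 (2 * k + 2) F)
  hK := le_rfl
  hUK := fun u _ h => h
  hVK := fun u _ h => h
  sl := slU k τ hτ hθ hθ'
  slm := by
    rw [slU_val, ← sg_last]
    exact nn_mono _ hθ0
  slg := by
    have h1 : (⟨_, lmem τ hτ hθ⟩ : Gr τ (e1 (2 * k + 2) F)) ∈ pu (Gr τ (e1 (2 * k + 2) F)) (strb (hNk k) (il k)) ⊔ pu (Gr τ (e1 (2 * k + 2) F)) (str_swap (strb (hNk k) (il k))) :=
      Subgroup.mem_sup_left (mem_pu.2 (OI.last_pat _ _ _))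
    have h2 : (⟨_, lmem' τ hτ hθ'⟩ : Gr τ (e1 (2 * k + 2) F)) ∈ pu (Gr τ (e1 (2 * k + 2) F)) (strb (hNk k) (il k)) ⊔ pu (Gr τ (e1 (2 * k + 2) F)) (str_swap (strb (hNk k) (il k))) :=
      Subgroup.mem_sup_right (mem_pu.2 (OI.last_pat' _ _ _))
    exact mul_mem (mul_mem h1 h2) h1
  Xl := by
    intro h
    have h1 : (⟨_, lmem τ hτ hθ⟩ : Gr τ (e1 (2 * k + 2) F)) ∈ pu (Gr τ (e1 (2 * k + 2) F)) (strb (hNk k) (il k)) := mem_pu.2 (OI.last_pat _ _ _)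
    rw [h, Subgroup.mem_bot] at h1
    have h2 : X3 (t3 k) 0 0 θ = X3 (t3 k) 0 0 0 := by
      rw [X3_zero]; exact congrArg Subtype.val h1
    exact hθ0 (X3_inj (t3 k) h2).2.2

section main

variable {k} {θ : F} (hθ0 : θ ≠ 0) (hθ : τ θ = -θ) (hθ' : τ (-θ⁻¹) = -(-θ⁻¹))

/-- diagonal element for `n = 3` -/
theorem DD_zero (t : F) (ht : t ≠ 0) : t ^ 2 / τ t ∈ (oiu 0 τ hτ hθ0 hθ hθ').DD := by
  have ht' : τ t ≠ 0 := by rw [Ne, map_eq_zero_iff τ τ.injective]; exact ht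
  let e : Fin (2 * 0 + 2 + 1) → F := fun z => if (z : ℕ) = 0 then t else if (z : ℕ) = 1 then τ t / t else (τ t)⁻¹
  have hdet : (Matrix.diagonal e).det = 1 := by
    rw [Matrix.det_diagonal]
    have : (∏ i : Fin (2 * 0 + 2 + 1), e i) = e ⟨0, by omega⟩ * e ⟨1, by omega⟩ * e ⟨2, by omega⟩ := Fin.prod_univ_three e
    rw [this]
    show t * (τ t / t) * (τ t)⁻¹ = 1
    field_simp
  let d : SpecialLinearGroup (Fin (2 * 0 + 2 + 1)) F := ⟨Matrix.diagonal e, hdet⟩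
  have hmem : d ∈ Gr τ (e1 (2 * 0 + 2) F) := by
    rw [mem_Gr_iff]
    show Matrix.diagonal e * (Jm (e1 (2 * 0 + 2) F)).1 * ((Matrix.diagonal e).map τ).transpose = (Jm (e1 (2 * 0 + 2) F)).1
    rw [Matrix.diagonal_map (map_zero _), Matrix.diagonal_transpose]
    ext i j
    rw [Matrix.mul_diagonal, Matrix.diagonal_mul, Jm_coe, Jf_apply]
    by_cases hij : j = Fin.rev i
    · subst hij
      rw [if_pos rfl]
      have h3 : ∀ i : Fin (2 * 0 + 2 + 1), (i : ℕ) = 0 ∨ (i : ℕ) = 1 ∨ (i : ℕ) = 2 := by intro i; have := i.2; omega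
      show e i * ((1 : Fˣ) : F) * τ (e (Fin.rev i)) = ((1 : Fˣ) : F)
      rw [Units.val_one, mul_one]
      rcases h3 i with h | h | h
      · have e1 : e i = t := if_pos h
        have e2 : e (Fin.rev i) = (τ t)⁻¹ := by
          show (if (Fin.rev i : ℕ) = 0 then _ else _) = _
          rw [Fin.val_rev, h]; rfl
        rw [e1, e2, map_inv₀, hτ, mul_inv_cancel₀ ht]
      · have e1 : e i = τ t / t := by
          show (if (i : ℕ) = 0 then _ else _) = _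
          rw [h]; rfl
        have e2 : e (Fin.rev i) = τ t / t := by
          show (if (Fin.rev i : ℕ) = 0 then _ else _) = _
          rw [Fin.val_rev, h]; rfl
        rw [e1, e2, map_div₀, hτ]
        field_simp
      · have e1 : e i = (τ t)⁻¹ := by
          show (if (i : ℕ) = 0 then _ else _) = _
          rw [h]; rfl
        have e2 : e (Fin.rev i) = t := by
          show (if (Fin.rev i : ℕ) = 0 then _ else _) = _
          rw [Fin.val_rev, h]; rfl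
        rw [e1, e2, inv_mul_cancel₀ ht']
    · rw [if_neg hij]; ring
  refine ⟨⟨d, hmem⟩, ?_, ?_⟩
  · intro i j hij
    have hij' : i ≠ j := hij
    exact Matrix.diagonal_apply_ne e hij'
  · show t ^ 2 / τ t = Matrix.diagonal e (la 0) (la 0) * (Matrix.diagonal e (lc 0) (lc 0))⁻¹
    rw [Matrix.diagonal_apply_eq, Matrix.diagonal_apply_eq]
    have e1 : e (la 0) = t := rfl
    have e2 : e (lc 0) = τ t / t := rfl
    rw [e1, e2, inv_div]; ring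

theorem DD_pos (P : OI k F) (hne : ∃ t, P.τ t ≠ t) (hk : 0 < k) (t : F) (ht : t ≠ 0) : t ∈ P.DD := by
  have hi : ((⟨k - 1, by omega⟩ : Fin (k + 1)) : ℕ) < k := by show k - 1 < k; omega
  have hN : ∀ {s : F}, s ≠ 0 → Mono (P.Nn hi s).1 (sg (hNk k) ⟨k - 1, by omega⟩) := by
    intro s hs
    rw [P.Nn_val, NR_eq (gp _ hi) P.τ hs, ← sg_short hi]
    exact (nn_mono _ hs).mul (nn_mono _ (neg_ne_zero.2 (by rw [Ne, map_eq_zero_iff P.τ P.τ.injective]; exact hs)))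
  have hM : Mono (P.Hn hi t).1 1 := by
    have := (hN one_ne_zero).inv.mul (hN ht)
    rw [inv_mul_cancel] at this
    exact this
  refine ⟨P.Hn hi t, hM, ?_⟩
  obtain ⟨v, hv⟩ := exists_rel P.τ P.hτ hne 1
  have h1 := P.Hn_xl hi (by show k - 1 + 1 = k; omega) ht 1 v hv
  have h2 := P.tor_XX hM ⟨(1, v), hv⟩
  have h3 : P.XX (P.sc t ⟨(1, v), hv⟩) * P.Hn hi t = P.XX (P.sc (P.chi (P.Hn hi t)) ⟨(1, v), hv⟩) * P.Hn hi t := by
    rw [← h2]; exact h1.symm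
  have h4 := P.XX_inj (mul_right_cancel h3)
  have h5 : t * (1 : F) = P.chi (P.Hn hi t) * 1 := congrArg (fun r : P.R => r.1.1) h4
  rw [mul_one, mul_one] at h5
  exact h5

theorem gen_DD (hne : ∃ t, τ t ≠ t) (hq : 0 < k ∨ 4 < Nat.card F) : Gen (oiu k τ hτ hθ0 hθ hθ').DD := by
  rcases Nat.eq_zero_or_pos k with hk | hk
  · subst hk
    have hq' : 4 < Nat.card F := by omega
    intro ψ h1 h2 h3
    exact gen_sq τ hτ hq' ψ h1 h2 (by
      rintro x ⟨t, ht, rfl⟩ y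
      exact h3 _ (DD_zero τ hτ hθ0 hθ hθ' t ht) y)
  · exact gen_of (fun x hx => DD_pos _ hne hk x hx)

theorem X_of_smul {N m : ℕ} (P : Inp N m F) (p : ℕ) [Fact p.Prime] [CharP F p] (β : MulAut (QG P)) {i j : Fin m}
    (h : β • (qd P p).X i = (qd P p).X j) {x : P.K} (hx : x ∈ pu P.K (strb P.hN j)) : ∃ y ∈ pu P.K (strb P.hN i), Q P x = β (Q P y) := by
  have h4 : Q P x ∈ (qd P p).X j := (mem_qX P p _ _).2 ⟨_, hx, rfl⟩
  rw [← h, mem_smul] at h4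
  obtain ⟨y, hy1, hy2⟩ := (mem_qX P p _ _).1 h4
  refine ⟨y, hy1, ?_⟩
  rw [← hy2, MulAut.apply_inv_self]

theorem comm_of_smul {N m : ℕ} (P : Inp N m F) (p : ℕ) [Fact p.Prime] [CharP F p] (β : MulAut (QG P)) {i j : Fin m}
    (h : β • (qd P p).X i = (qd P p).X j) (hc : ∀ x ∈ pu P.K (strb P.hN i), ∀ y ∈ pu P.K (strb P.hN i), x * y = y * x)
    {x y : P.K} (hx : x ∈ pu P.K (strb P.hN j)) (hy : y ∈ pu P.K (strb P.hN j)) : x * y = y * x := by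
  apply conj_inj P p (pE_X P p hy) (pE_X P p hy)
  obtain ⟨x', hx', ex⟩ := X_of_smul P p β h hx
  obtain ⟨y', hy', ey⟩ := X_of_smul P p β h hy
  rw [ex, ey, ← map_mul, ← map_mul, ← map_mul, ← map_mul, hc x' hx' y' hy']

/-- the permutation of the simple roots is trivial -/
theorem pi_one (P : OI k F) (hne : ∃ t, P.τ t ≠ t) (p : ℕ) [Fact p.Prime] [CharP F p] (β : MulAut (QG P.inp)) (π : Equiv.Perm (Fin (k + 1)))
    (hX : ∀ i, β • (qd P.inp p).X i = (qd P.inp p).X (π i))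
    (h : ∀ (i j : Fin (k + 1)) (n : ℕ), (sg P.inp.hN i * sg P.inp.hN j) ^ n = 1 ↔ (sg P.inp.hN (π i) * sg P.inp.hN (π j)) ^ n = 1) : π = 1 := by
  rcases (by omega : k = 0 ∨ k = 1 ∨ 2 ≤ k) with hk | hk | hk
  · subst hk
    ext i
    have h1 := (π i).2
    have h2 := i.2
    have : ((1 : Equiv.Perm (Fin (0 + 1))) i : ℕ) = i := rfl
    rw [this]; omega
  · subst hk
    rcases pi_or P.inp.hN π h with h1 | h1
    · exact h1
    · exfalso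
      have h0k : ((0 : Fin (1 + 1)) : ℕ) < 1 := by decide
      have h2 : π 0 = il 1 := by rw [h1]; rfl
      have h3 := hX 0
      rw [h2] at h3
      have key : ∀ r s : P.R, P.XX r * P.XX s = P.XX s * P.XX r := by
        intro r s
        exact comm_of_smul P.inp p β h3 (by
          intro x hx y hy
          obtain ⟨t, ht⟩ := P.form_short h0k hx
          obtain ⟨t', ht'⟩ := P.form_short h0k hy
          rw [ht, ht']
          apply Subtype.ext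
          show RT P.τ (gp 0 h0k).ab t * RT P.τ (gp 0 h0k).ab t' = RT P.τ (gp 0 h0k).ab t' * RT P.τ (gp 0 h0k).ab t
          rw [← RT_add (gp 0 h0k), ← RT_add (gp 0 h0k), add_comm t t']) (P.XX_pu r) (P.XX_pu s)
      obtain ⟨v, hv⟩ := exists_rel P.τ P.hτ hne 1
      have := P.cenX hne (r := ⟨(1, v), hv⟩) (fun s => key _ s)
      exact one_ne_zero this
  · exact pi_eq_one P.inp.hN (by omega) π h

theorem e1_fix (σ : F ≃+* F) (a : Fin (2 * k + 2 + 1)) : σ (e1 (2 * k + 2) F a) = e1 (2 * k + 2) F a := by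
  show σ ((1 : Fˣ) : F) = ((1 : Fˣ) : F)
  simp

include hτ in
/-- every automorphism is standard -/
theorem main_odd (hne : ∃ t, τ t ≠ t) (hq : 0 < k ∨ 4 < Nat.card F) (α : MulAut (Gr τ (e1 (2 * k + 2) F) ⧸ Subgroup.center (Gr τ (e1 (2 * k + 2) F)))) :
    ∃ (g : GL (Fin (2 * k + 2 + 1)) F) (hg : g ∈ GJ τ (Jm (e1 (2 * k + 2) F)).1) (σ : F ≃+* F),
      α = indG (res (Gr τ (e1 (2 * k + 2) F)) (AutPSL.cg g) (cg_mem hg) * res (Gr τ (e1 (2 * k + 2) F)) (AutPSL.fl σ) (fl_mem (fun σ a => e1_fix σ a) σ)) := by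
  obtain ⟨p, hp⟩ := CharP.exists F
  haveI : Fact p.Prime := ⟨CharP.char_is_prime F p⟩
  obtain ⟨t, ht⟩ := hne
  have hθ : τ (t - τ t) = -(t - τ t) := by rw [map_sub, hτ]; ring
  have hθ0 : t - τ t ≠ 0 := sub_ne_zero.2 (Ne.symm ht)
  have hθ' : τ (-(t - τ t)⁻¹) = -(-(t - τ t)⁻¹) := by rw [map_neg, map_inv₀, hθ, inv_neg]
  have hθ'' : τ (t - τ t)⁻¹ = -(t - τ t)⁻¹ := by rw [map_inv₀, hθ, inv_neg]
  have hfl : ∀ (σ : F ≃+* F) s, AutPSL.fl σ s ∈ (oiu k τ hτ hθ0 hθ hθ').K ↔ s ∈ (oiu k τ hτ hθ0 hθ hθ').K := fun σ s => fl_mem (fun σ a => e1_fix σ a) σ s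
  have hcg : ∀ g ∈ GJ (oiu k τ hτ hθ0 hθ hθ').τ (Jm (e1 (2 * k + 2) F)).1, ∀ s, AutPSL.cg g s ∈ (oiu k τ hτ hθ0 hθ hθ').K ↔ s ∈ (oiu k τ hτ hθ0 hθ hθ').K := fun g hg s => cg_mem hg s
  have key : ∀ α : MulAut (QG (oiu k τ hτ hθ0 hθ hθ').inp), ∃ (g : GL (Fin (2 * k + 2 + 1)) F) (hg : g ∈ GJ (oiu k τ hτ hθ0 hθ hθ').τ (Jm (e1 (2 * k + 2) F)).1) (σ : F ≃+* F),
      α = (oiu k τ hτ hθ0 hθ hθ').iq ((oiu k τ hτ hθ0 hθ hθ').cgK g (hcg g hg) * (oiu k τ hτ hθ0 hθ hθ').flK hfl σ) := by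
    intro α
    obtain ⟨g, π, hU, hV, hX, hY, hc⟩ := norm_UV (oiu k τ hτ hθ0 hθ hθ').inp p α
    have hπ := pi_one (oiu k τ hτ hθ0 hθ hθ') ⟨t, ht⟩ p _ π hX hc
    subst hπ
    obtain ⟨d, hd, σ, e⟩ := (oiu k τ hτ hθ0 hθ hθ').main1 p hfl hcg ⟨t, ht⟩ (gen_DD τ hτ hθ0 hθ hθ' ⟨t, ht⟩ hq) (t - τ t) hθ0 hθ hθ'' (by
      apply Subtype.ext
      show X3 (t3 k) 0 0 (t - τ t) * X3 (t3 k).symm 0 0 (-(t - τ t)⁻¹) * X3 (t3 k) 0 0 (t - τ t) =
        X3 (t3 k) 0 (-τ 0) ((t - τ t) * ((1 : GrEven.L τ) : F)) * X3 (t3 k).symm 0 (-τ 0) ((t - τ t)⁻¹ * ((-1 : GrEven.L τ) : F)) * X3 (t3 k) 0 (-τ 0) ((t - τ t) * ((1 : GrEven.L τ) : F))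
      have e1 : ((1 : GrEven.L τ) : F) = 1 := rfl
      have e2 : ((-1 : GrEven.L τ) : F) = -1 := rfl
      rw [e1, e2, map_zero, neg_zero, mul_one, mul_neg, mul_one]) _ hU hV hX hY
    exact (oiu k τ hτ hθ0 hθ hθ').main2 hfl hcg α g hd σ e
  exact key α

end main

end Cfsg.Agent.H8.GrOdd
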