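import Mathlib
import Cfsg.Agent.H8.FSim6

set_option autoImplicit false
set_option linter.all false

/-! Matrix lemmas for `L_3^ε(q)`, `q` odd. -/

namespace Cfsg.Agent.H8.L3

open Matrix

variable {F : Type*} [Field F]

local notation "M2" => Matrix (Fin 2) (Fin 2) F
local notation "M3" => Matrix (Fin 3) (Fin 3) F

/-! ### 2×2 -/

theorem nonsc (h2 : (2 : F) ≠ 0) {j : M2} (h1 : j.det = 1) (hj : j * j = -1) : j 0 1 ≠ 0 ∨ j 1 0 ≠ 0 ∨ j 0 0 ≠ j 1 1 := by
  by_contra h
  push Not at h
  obtain ⟨h3, h4, h5⟩ := h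
  rw [Matrix.det_fin_two, h3, zero_mul, sub_zero, ← h5] at h1
  have h6 := congrFun (congrFun hj 0) 0
  simp only [Matrix.mul_apply, Fin.sum_univ_two, Matrix.neg_apply, Matrix.one_apply_eq] at h6
  rw [h3, zero_mul, add_zero, h1] at h6
  apply h2
  linear_combination h6

theorem comm_form {x j : M2} (h : x * j = j * x) (hj : j 0 1 ≠ 0 ∨ j 1 0 ≠ 0 ∨ j 0 0 ≠ j 1 1) : ∃ a b : F, x = a • 1 + b • j := by
  have h00 := congrFun (congrFun h 0) 0
  have h01 := congrFun (congrFun h 0) 1
  have h10 := congrFun (congrFun h 1) 0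
  simp only [Matrix.mul_apply, Fin.sum_univ_two] at h00 h01 h10
  rcases hj with hj | hj | hj
  · refine ⟨x 0 0 - x 0 1 / j 0 1 * j 0 0, x 0 1 / j 0 1, ?_⟩
    ext i k
    fin_cases i <;> fin_cases k <;> simp
    · field_simp
    · field_simp; linear_combination (-1 : F) * h00
    · field_simp; linear_combination (-1 : F) * h01
  · refine ⟨x 0 0 - x 1 0 / j 1 0 * j 0 0, x 1 0 / j 1 0, ?_⟩
    ext i k
    fin_cases i <;> fin_cases k <;> simp
    · field_simp; linear_combination h00
    · field_simp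
    · field_simp; linear_combination h10
  · have hd : j 0 0 - j 1 1 ≠ 0 := sub_ne_zero.2 hj
    refine ⟨x 0 0 - (x 0 0 - x 1 1) / (j 0 0 - j 1 1) * j 0 0, (x 0 0 - x 1 1) / (j 0 0 - j 1 1), ?_⟩
    ext i k
    fin_cases i <;> fin_cases k <;> simp
    · field_simp; linear_combination (-1 : F) * h01
    · field_simp; linear_combination h10
    · field_simp; ring

theorem comm_comm (h2 : (2 : F) ≠ 0) {j a b : M2} (h1 : j.det = 1) (hj : j * j = -1) (ha : a * j = j * a) (hb : b * j = j * b) :
    a * b = b * a := by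
  obtain ⟨p, q, rfl⟩ := comm_form ha (nonsc h2 h1 hj)
  obtain ⟨r, s, rfl⟩ := comm_form hb (nonsc h2 h1 hj)
  have h1 : Commute (1 : M2) j := Commute.one_left j
  exact ((((Commute.one_left _).smul_left p).add_left ((Commute.add_right ((Commute.one_right j).smul_right r) ((Commute.refl j).smul_right s)).smul_left q))).eq

theorem scal (h2 : (2 : F) ≠ 0) {j j' y : M2} (h1 : j.det = 1) (h1' : j'.det = 1) (hj : j * j = -1) (hjj : j * j' = -(j' * j))
    (ha : y * j = j * y) (hb : y * j' = j' * y) : ∃ a : F, y = a • 1 := by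
  obtain ⟨p, q, rfl⟩ := comm_form ha (nonsc h2 h1 hj)
  have h3 : (2 * q) • (j * j') = 0 := by
    have h4 : q • (j * j') = q • (j' * j) := by
      simp only [add_mul, mul_add, smul_mul_assoc, mul_smul_comm, one_mul, mul_one] at hb
      exact add_left_cancel hb
    have h5 : q • (j' * j) = - (q • (j * j')) := by rw [hjj, smul_neg, neg_neg]
    rw [mul_smul, two_smul]
    nth_rewrite 1 [h4]
    rw [h5, neg_add_cancel]
  have h4 := congrArg Matrix.det h3
  rw [Matrix.det_smul, Matrix.det_mul, h1, h1', Fintype.card_fin, Matrix.det_zero] at h4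
  have h5 : q = 0 := by
    have : (2 * q) ^ 2 = 0 := by simpa using h4
    have := pow_eq_zero_iff (two_ne_zero) |>.1 this
    exact (mul_eq_zero.1 this).resolve_left h2
  exact ⟨p, by rw [h5, zero_smul, add_zero]⟩

theorem sq_one {x : M2} (h2 : (2 : F) ≠ 0) (h1 : x.det = 1) (hx : x * x = 1) : x = 1 ∨ x = -1 := by
  rw [Matrix.det_fin_two] at h1
  have h00 := congrFun (congrFun hx 0) 0
  have h01 := congrFun (congrFun hx 0) 1
  have h10 := congrFun (congrFun hx 1) 0
  have h11 := congrFun (congrFun hx 1) 1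
  simp only [Matrix.mul_apply, Fin.sum_univ_two, Matrix.one_apply_eq] at h00 h11
  simp only [Matrix.mul_apply, Fin.sum_univ_two] at h01 h10
  have h01' : x 0 0 * x 0 1 + x 0 1 * x 1 1 = 0 := by rw [h01]; simp
  have h10' : x 1 0 * x 0 0 + x 1 1 * x 1 0 = 0 := by rw [h10]; simp
  have ht : (x 0 0 + x 1 1) * x 0 0 = 2 := by linear_combination h1 + h00
  have ht' : (x 0 0 + x 1 1) * x 1 1 = 2 := by linear_combination h1 + h11
  have htn : x 0 0 + x 1 1 ≠ 0 := by
    intro h
    rw [h, zero_mul] at ht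
    exact h2 ht.symm
  have e1 : x 0 1 = 0 := by
    have : (x 0 0 + x 1 1) * x 0 1 = 0 := by linear_combination h01'
    exact (mul_eq_zero.1 this).resolve_left htn
  have e2 : x 1 0 = 0 := by
    have : (x 0 0 + x 1 1) * x 1 0 = 0 := by linear_combination h10'
    exact (mul_eq_zero.1 this).resolve_left htn
  have e3 : x 1 1 = x 0 0 := by
    have : (x 0 0 + x 1 1) * (x 1 1 - x 0 0) = 0 := by linear_combination ht' - ht
    exact sub_eq_zero.1 ((mul_eq_zero.1 this).resolve_left htn)
  have e4 : (x 0 0 - 1) * (x 0 0 + 1) = 0 := by rw [e1] at h00; linear_combination h00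
  rcases mul_eq_zero.1 e4 with h | h
  · left
    have : x 0 0 = 1 := by linear_combination h
    ext i k
    fin_cases i <;> fin_cases k <;> simp [e1, e2, e3, this]
  · right
    have : x 0 0 = -1 := by linear_combination h
    ext i k
    fin_cases i <;> fin_cases k <;> simp [e1, e2, e3, this]

/-! ### 3×3 -/

/-- block matrices -/
def E3 (A : M2) (u : F) : M3 := !![A 0 0, A 0 1, 0; A 1 0, A 1 1, 0; 0, 0, u]

theorem E3_mul (A B : M2) (u v : F) : E3 A u * E3 B v = E3 (A * B) (u * v) := by
  ext i k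
  fin_cases i <;> fin_cases k <;> simp [E3, Matrix.mul_apply, Fin.sum_univ_three, Fin.sum_univ_two]

theorem E3_det (A : M2) (u : F) : (E3 A u).det = A.det * u := by
  rw [Matrix.det_fin_three, Matrix.det_fin_two]
  simp [E3]; ring

theorem E3_one : E3 (1 : M2) 1 = 1 := by
  ext i k
  fin_cases i <;> fin_cases k <;> simp [E3]

theorem E3_of {s : M3} (h02 : s 0 2 = 0) (h12 : s 1 2 = 0) (h20 : s 2 0 = 0) (h21 : s 2 1 = 0) :
    s = E3 !![s 0 0, s 0 1; s 1 0, s 1 1] (s 2 2) := by
  ext i k
  fin_cases i <;> fin_cases k <;> simp [E3, h02, h12, h20, h21]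

theorem inv_form {s : M3} (h2 : (2 : F) ≠ 0) (hs : s * s = 1) (hd : s.det = 1) (h1 : s ≠ 1) :
    ∃ (k : Fin 3) (v w : Fin 3 → F), w k = 1 ∧ w 0 * v 0 + w 1 * v 1 + w 2 * v 2 = 2 ∧ ∀ i j, s i j = (if i = j then -1 else 0) + v i * w j := by
  have hadj : s.adjugate = s := by
    have h3 : s * s.adjugate = 1 := by rw [Matrix.mul_adjugate, hd, one_smul]
    calc s.adjugate = (s * s) * s.adjugate := by rw [hs, one_mul]
      _ = s * (s * s.adjugate) := mul_assoc _ _ _
      _ = s := by rw [h3, mul_one]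
  rw [Matrix.adjugate_fin_three] at hadj
  have a00 := congrFun (congrFun hadj 0) 0
  have a01 := congrFun (congrFun hadj 0) 1
  have a02 := congrFun (congrFun hadj 0) 2
  have a10 := congrFun (congrFun hadj 1) 0
  have a11 := congrFun (congrFun hadj 1) 1
  have a12 := congrFun (congrFun hadj 1) 2
  have a20 := congrFun (congrFun hadj 2) 0
  have a21 := congrFun (congrFun hadj 2) 1
  have a22 := congrFun (congrFun hadj 2) 2
  simp at a00 a01 a02 a10 a11 a12 a20 a21 a22
  have e : ∀ i j, (s * s) i j = (1 : M3) i j := fun i j => by rw [hs]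
  have e00 := e 0 0
  have e01 := e 0 1
  have e02 := e 0 2
  have e10 := e 1 0
  have e11 := e 1 1
  have e12 := e 1 2
  have e20 := e 2 0
  have e21 := e 2 1
  have e22 := e 2 2
  simp [Matrix.mul_apply, Fin.sum_univ_three, Matrix.one_apply] at e00 e01 e02 e10 e11 e12 e20 e21 e22
  set T := s 0 0 + s 1 1 + s 2 2 with hT
  have hTm : T = -1 := by
    by_contra hne
    have hne' : T + 1 ≠ 0 := fun h => hne (by linear_combination h)
    apply h1
    have z00 : (T + 1) * (s 0 0 - 1) = 0 := by rw [hT]; linear_combination e00 + a11 + a22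
    have z11 : (T + 1) * (s 1 1 - 1) = 0 := by rw [hT]; linear_combination e11 + a00 + a22
    have z22 : (T + 1) * (s 2 2 - 1) = 0 := by rw [hT]; linear_combination e22 + a00 + a11
    have z01 : (T + 1) * s 0 1 = 0 := by rw [hT]; linear_combination e01 - a01
    have z02 : (T + 1) * s 0 2 = 0 := by rw [hT]; linear_combination e02 - a02
    have z10 : (T + 1) * s 1 0 = 0 := by rw [hT]; linear_combination e10 - a10
    have z12 : (T + 1) * s 1 2 = 0 := by rw [hT]; linear_combination e12 - a12
    have z20 : (T + 1) * s 2 0 = 0 := by rw [hT]; linear_combination e20 - a20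
    have z21 : (T + 1) * s 2 1 = 0 := by rw [hT]; linear_combination e21 - a21
    have y00 := sub_eq_zero.1 ((mul_eq_zero.1 z00).resolve_left hne')
    have y11 := sub_eq_zero.1 ((mul_eq_zero.1 z11).resolve_left hne')
    have y22 := sub_eq_zero.1 ((mul_eq_zero.1 z22).resolve_left hne')
    have y01 := (mul_eq_zero.1 z01).resolve_left hne'
    have y02 := (mul_eq_zero.1 z02).resolve_left hne'
    have y10 := (mul_eq_zero.1 z10).resolve_left hne'
    have y12 := (mul_eq_zero.1 z12).resolve_left hne'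
    have y20 := (mul_eq_zero.1 z20).resolve_left hne'
    have y21 := (mul_eq_zero.1 z21).resolve_left hne'
    ext i k
    fin_cases i <;> fin_cases k <;> simp [y00, y11, y22, y01, y02, y10, y12, y20, y21]
  rw [hT] at hTm
  have m011 : (1 + s 1 1) * (1 + s 0 0) = s 1 0 * s 0 1 := by linear_combination a22 + hTm
  have m022 : (1 + s 2 2) * (1 + s 0 0) = s 2 0 * s 0 2 := by linear_combination a11 + hTm
  have m012 : s 1 2 * (1 + s 0 0) = s 1 0 * s 0 2 := by linear_combination (-1 : F) * a12
  have m021 : s 2 1 * (1 + s 0 0) = s 2 0 * s 0 1 := by linear_combination (-1 : F) * a21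
  have m100 : (1 + s 0 0) * (1 + s 1 1) = s 0 1 * s 1 0 := by linear_combination a22 + hTm
  have m122 : (1 + s 2 2) * (1 + s 1 1) = s 2 1 * s 1 2 := by linear_combination a00 + hTm
  have m102 : s 0 2 * (1 + s 1 1) = s 0 1 * s 1 2 := by linear_combination (-1 : F) * a02
  have m120 : s 2 0 * (1 + s 1 1) = s 2 1 * s 1 0 := by linear_combination (-1 : F) * a20
  have m200 : (1 + s 0 0) * (1 + s 2 2) = s 0 2 * s 2 0 := by linear_combination a11 + hTm
  have m211 : (1 + s 1 1) * (1 + s 2 2) = s 1 2 * s 2 1 := by linear_combination a00 + hTm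
  have m201 : s 0 1 * (1 + s 2 2) = s 0 2 * s 2 1 := by linear_combination (-1 : F) * a01
  have m210 : s 1 0 * (1 + s 2 2) = s 1 2 * s 2 0 := by linear_combination (-1 : F) * a10
  have q : ∀ {a b c d : F}, d ≠ 0 → a * d = b * c → b * (c / d) = a := fun {a b c d} hd h => by
    rw [← mul_div_assoc, ← h, mul_div_assoc, div_self hd, mul_one]
  have q' : ∀ {a b c d : F}, d ≠ 0 → a * d = b * c → (c / d) * b = a := fun {a b c d} hd h => by
    rw [mul_comm]; exact q hd h
  have q0 : ∀ {c d : F}, d ≠ 0 → d * (c / d) = c := fun {c d} hd => mul_div_cancel₀ c hd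
  by_cases k0 : 1 + s 0 0 ≠ 0
  · refine ⟨0, ![1 + s 0 0, s 1 0, s 2 0], ![1, s 0 1 / (1 + s 0 0), s 0 2 / (1 + s 0 0)], by simp, ?_, ?_⟩
    · simp only [Matrix.cons_val_zero, Matrix.cons_val_one, Matrix.cons_val]
      rw [q' k0 m011, q' k0 m022]; linear_combination hTm
    · intro i j
      fin_cases i <;> fin_cases j <;> simp only [Matrix.cons_val_zero, Matrix.cons_val_one, Matrix.cons_val, Fin.zero_eta, Fin.mk_one, Fin.reduceFinMk, Fin.isValue]
      · rw [if_pos trivial]; ring
      · rw [if_neg (by decide), q0 k0, zero_add]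
      · rw [if_neg (by decide), q0 k0, zero_add]
      · rw [if_neg (by decide)]; ring
      · rw [if_pos trivial, q k0 m011]; ring
      · rw [if_neg (by decide), q k0 m012]; ring
      · rw [if_neg (by decide)]; ring
      · rw [if_neg (by decide), q k0 m021]; ring
      · rw [if_pos trivial, q k0 m022]; ring
  by_cases k1 : 1 + s 1 1 ≠ 0
  · refine ⟨1, ![s 0 1, 1 + s 1 1, s 2 1], ![s 1 0 / (1 + s 1 1), 1, s 1 2 / (1 + s 1 1)], by simp, ?_, ?_⟩
    · simp only [Matrix.cons_val_zero, Matrix.cons_val_one, Matrix.cons_val]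
      rw [q' k1 m100, q' k1 m122]; linear_combination hTm
    · intro i j
      fin_cases i <;> fin_cases j <;> simp only [Matrix.cons_val_zero, Matrix.cons_val_one, Matrix.cons_val, Fin.zero_eta, Fin.mk_one, Fin.reduceFinMk, Fin.isValue]
      · rw [if_pos trivial, q k1 m100]; ring
      · rw [if_neg (by decide)]; ring
      · rw [if_neg (by decide), q k1 m102]; ring
      · rw [if_neg (by decide), q0 k1]; ring
      · rw [if_pos trivial]; ring
      · rw [if_neg (by decide), q0 k1]; ring
      · rw [if_neg (by decide), q k1 m120]; ring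
      · rw [if_neg (by decide)]; ring
      · rw [if_pos trivial, q k1 m122]; ring
  · push Not at k0 k1
    have k2 : 1 + s 2 2 ≠ 0 := by
      intro h
      apply h2
      linear_combination (-1 : F) * hTm + k0 + k1 + h
    refine ⟨2, ![s 0 2, s 1 2, 1 + s 2 2], ![s 2 0 / (1 + s 2 2), s 2 1 / (1 + s 2 2), 1], by simp, ?_, ?_⟩
    · simp only [Matrix.cons_val_zero, Matrix.cons_val_one, Matrix.cons_val]
      rw [q' k2 m200, q' k2 m211]; linear_combination hTm
    · intro i j
      fin_cases i <;> fin_cases j <;> simp only [Matrix.cons_val_zero, Matrix.cons_val_one, Matrix.cons_val, Fin.zero_eta, Fin.mk_one, Fin.reduceFinMk, Fin.isValue]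
      · rw [if_pos trivial, q k2 m200]; ring
      · rw [if_neg (by decide), q k2 m201]; ring
      · rw [if_neg (by decide)]; ring
      · rw [if_neg (by decide), q k2 m210]; ring
      · rw [if_pos trivial, q k2 m211]; ring
      · rw [if_neg (by decide)]; ring
      · rw [if_neg (by decide), q0 k2]; ring
      · rw [if_neg (by decide), q0 k2]; ring
      · rw [if_pos trivial]; ring

end Cfsg.Agent.H8.L3
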