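import Mathlib
import Cfsg.Agent.H8.L3Base
import Cfsg.Agent.Lib.AutPSL2

set_option autoImplicit false
set_option linter.all false

/-! The 2-fusion system of `L_3(q)`, `q` odd. -/

namespace Cfsg.Agent.H8.L3

open Matrix
open Cfsg.Agent.Lib.AutPSL (mk mk_mul mk_inv mk_one mk_surj mk_eq_iff)

variable {F : Type*} [Field F]

local notation "M2" => Matrix (Fin 2) (Fin 2) F
local notation "M3" => Matrix (Fin 3) (Fin 3) F
local notation "G2" => GL (Fin 2) F
local notation "S3" => Matrix.SpecialLinearGroup (Fin 3) F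
local notation "P3" => Matrix.ProjectiveSpecialLinearGroup (Fin 3) F

/-- diagonal elements -/
def dg (a b : Fˣ) : G2 where
  val := !![(a : F), 0; 0, (b : F)]
  inv := !![((a⁻¹ : Fˣ) : F), 0; 0, ((b⁻¹ : Fˣ) : F)]
  val_inv := by ext i j; fin_cases i <;> fin_cases j <;> simp [Matrix.mul_apply, Fin.sum_univ_two]
  inv_val := by ext i j; fin_cases i <;> fin_cases j <;> simp [Matrix.mul_apply, Fin.sum_univ_two]

/-- antidiagonal elements -/
def ad (a b : Fˣ) : G2 where
  val := !![0, (a : F); (b : F), 0]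
  inv := !![0, ((b⁻¹ : Fˣ) : F); ((a⁻¹ : Fˣ) : F), 0]
  val_inv := by ext i j; fin_cases i <;> fin_cases j <;> simp [Matrix.mul_apply, Fin.sum_univ_two]
  inv_val := by ext i j; fin_cases i <;> fin_cases j <;> simp [Matrix.mul_apply, Fin.sum_univ_two]

theorem dg_val (a b : Fˣ) : (dg a b).1 = !![(a : F), 0; 0, (b : F)] := rfl
theorem ad_val (a b : Fˣ) : (ad a b).1 = !![0, (a : F); (b : F), 0] := rfl

theorem dg_dg (a b c d : Fˣ) : dg a b * dg c d = dg (a * c) (b * d) := by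
  apply Units.ext
  show (dg a b).1 * (dg c d).1 = _
  rw [dg_val, dg_val, dg_val]
  ext i j; fin_cases i <;> fin_cases j <;> simp [Matrix.mul_apply, Fin.sum_univ_two]

theorem dg_ad (a b c d : Fˣ) : dg a b * ad c d = ad (a * c) (b * d) := by
  apply Units.ext
  show (dg a b).1 * (ad c d).1 = _
  rw [dg_val, ad_val, ad_val]
  ext i j; fin_cases i <;> fin_cases j <;> simp [Matrix.mul_apply, Fin.sum_univ_two]

theorem ad_dg (a b c d : Fˣ) : ad a b * dg c d = ad (a * d) (b * c) := by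
  apply Units.ext
  show (ad a b).1 * (dg c d).1 = _
  rw [dg_val, ad_val, ad_val]
  ext i j; fin_cases i <;> fin_cases j <;> simp [Matrix.mul_apply, Fin.sum_univ_two]

theorem ad_ad (a b c d : Fˣ) : ad a b * ad c d = dg (a * d) (b * c) := by
  apply Units.ext
  show (ad a b).1 * (ad c d).1 = _
  rw [dg_val, ad_val, ad_val]
  ext i j; fin_cases i <;> fin_cases j <;> simp [Matrix.mul_apply, Fin.sum_univ_two]

theorem dg_one : dg (1 : Fˣ) 1 = 1 := by
  apply Units.ext
  rw [dg_val]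
  ext i j; fin_cases i <;> fin_cases j <;> simp

theorem dg_inv (a b : Fˣ) : (dg a b)⁻¹ = dg a⁻¹ b⁻¹ := by
  rw [eq_comm, ← mul_eq_one_iff_eq_inv, dg_dg, inv_mul_cancel, inv_mul_cancel, dg_one]

theorem ad_inv (a b : Fˣ) : (ad a b)⁻¹ = ad b⁻¹ a⁻¹ := by
  rw [eq_comm, ← mul_eq_one_iff_eq_inv, ad_ad, inv_mul_cancel, inv_mul_cancel, dg_one]

theorem dg_pow (a b : Fˣ) (n : ℕ) : (dg a b) ^ n = dg (a ^ n) (b ^ n) := by
  induction n with
  | zero => rw [pow_zero, pow_zero, pow_zero, dg_one]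
  | succ n ih => rw [pow_succ, ih, dg_dg, ← pow_succ, ← pow_succ]

/-- elements of 2-power order in a commutative group -/
def Two {A : Type*} [Group A] (a : A) : Prop := ∃ k : ℕ, a ^ 2 ^ k = 1

theorem Two.mul {A : Type*} [CommGroup A] {a b : A} (ha : Two a) (hb : Two b) : Two (a * b) := by
  obtain ⟨k, hk⟩ := ha
  obtain ⟨m, hm⟩ := hb
  refine ⟨k + m, ?_⟩
  rw [mul_pow, pow_add]
  nth_rewrite 1 [pow_mul]
  rw [hk, one_pow, one_mul, mul_comm, pow_mul, hm, one_pow]

theorem Two.inv {A : Type*} [CommGroup A] {a : A} (ha : Two a) : Two a⁻¹ := by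
  obtain ⟨k, hk⟩ := ha
  exact ⟨k, by rw [inv_pow, hk, inv_one]⟩

theorem Two.one {A : Type*} [CommGroup A] : Two (1 : A) := ⟨0, by simp⟩

/-- the monomial 2-group -/
def DD (B : Subgroup Fˣ) : Subgroup G2 where
  carrier := {g | ∃ a ∈ B, ∃ b ∈ B, Two a ∧ Two b ∧ (g = dg a b ∨ g = ad a b)}
  one_mem' := ⟨1, B.one_mem, 1, B.one_mem, Two.one, Two.one, Or.inl dg_one.symm⟩
  mul_mem' := by
    rintro _ _ ⟨a, haB, b, hbB, ha, hb, rfl | rfl⟩ ⟨c, hcB, d, hdB, hc, hd, rfl | rfl⟩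
    · exact ⟨_, B.mul_mem haB hcB, _, B.mul_mem hbB hdB, ha.mul hc, hb.mul hd, Or.inl (dg_dg _ _ _ _)⟩
    · exact ⟨_, B.mul_mem haB hcB, _, B.mul_mem hbB hdB, ha.mul hc, hb.mul hd, Or.inr (dg_ad _ _ _ _)⟩
    · exact ⟨_, B.mul_mem haB hdB, _, B.mul_mem hbB hcB, ha.mul hd, hb.mul hc, Or.inr (ad_dg _ _ _ _)⟩
    · exact ⟨_, B.mul_mem haB hdB, _, B.mul_mem hbB hcB, ha.mul hd, hb.mul hc, Or.inl (ad_ad _ _ _ _)⟩
  inv_mem' := by
    rintro _ ⟨a, haB, b, hbB, ha, hb, rfl | rfl⟩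
    · exact ⟨_, B.inv_mem haB, _, B.inv_mem hbB, ha.inv, hb.inv, Or.inl (dg_inv _ _)⟩
    · exact ⟨_, B.inv_mem hbB, _, B.inv_mem haB, hb.inv, ha.inv, Or.inr (ad_inv _ _)⟩

theorem DD_two (B : Subgroup Fˣ) : IsPGroup 2 (DD B) := by
  rintro ⟨g, a, haB, b, hbB, ⟨k, hk⟩, ⟨m, hm⟩, h⟩
  have h1 : ∀ a b : Fˣ, a ^ 2 ^ (k + m) = 1 → b ^ 2 ^ (k + m) = 1 → (dg a b) ^ 2 ^ (k + m) = 1 := fun a b ha hb => by
    rw [dg_pow, ha, hb, dg_one]
  have hak : a ^ 2 ^ (k + m) = 1 := by rw [pow_add, pow_mul, hk, one_pow]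
  have hbm : b ^ 2 ^ (k + m) = 1 := by rw [pow_add, mul_comm, pow_mul, hm, one_pow]
  refine ⟨k + m + 1, Subtype.ext ?_⟩
  show g ^ 2 ^ (k + m + 1) = 1
  rw [pow_succ, mul_comm, pow_mul]
  rcases h with rfl | rfl
  · rw [pow_two, dg_dg]
    exact h1 _ _ (by rw [mul_pow, hak, one_mul]) (by rw [mul_pow, hbm, one_mul])
  · rw [pow_two, ad_ad]
    exact h1 _ _ (by rw [mul_pow, hak, hbm, one_mul]) (by rw [mul_pow, hak, hbm, one_mul])

theorem det_dg (a b : Fˣ) : Matrix.GeneralLinearGroup.det (dg a b) = a * b := by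
  apply Units.ext
  show (dg a b).1.det = _
  rw [dg_val, Matrix.det_fin_two_of]; simp

theorem det_ad (a b : Fˣ) : Matrix.GeneralLinearGroup.det (ad a b) = -(a * b) := by
  apply Units.ext
  show (ad a b).1.det = _
  rw [ad_val, Matrix.det_fin_two_of]; simp

/-! ### embedding -/

/-- the embedding of `GL_2` -/
def emb : G2 →* S3 where
  toFun g := ⟨E3 g.1 ((Matrix.GeneralLinearGroup.det g)⁻¹ : Fˣ), by
    rw [E3_det]
    show ((Matrix.GeneralLinearGroup.det g : Fˣ) : F) * _ = 1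
    rw [Units.mul_inv]⟩
  map_one' := by
    apply Subtype.ext
    show E3 _ _ = _
    rw [map_one, inv_one]
    exact E3_one
  map_mul' g h := by
    apply Subtype.ext
    show E3 _ _ = E3 _ _ * E3 _ _
    rw [E3_mul, map_mul, _root_.mul_inv_rev, mul_comm, Units.val_mul]
    rfl

theorem emb_val (g : G2) : (emb g).1 = E3 g.1 ((Matrix.GeneralLinearGroup.det g)⁻¹ : Fˣ) := rfl

theorem smul_E3 (r : F) (A : M2) (u : F) : r • E3 A u = E3 (r • A) (r * u) := by
  ext i j; fin_cases i <;> fin_cases j <;> simp [E3]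

theorem E3_inj {A B : M2} {u v : F} (h : E3 A u = E3 B v) : A = B ∧ u = v := by
  have e : ∀ i j, E3 A u i j = E3 B v i j := fun i j => by rw [h]
  have e22 := e 2 2
  have e00 := e 0 0
  have e01 := e 0 1
  have e10 := e 1 0
  have e11 := e 1 1
  simp [E3] at e00 e01 e10 e11 e22
  refine ⟨?_, e22⟩
  ext i j; fin_cases i <;> fin_cases j <;> simp [e00, e01, e10, e11]

/-- the map to `PSL_3` -/
def io : G2 →* P3 := (QuotientGroup.mk' (Subgroup.center S3)).comp emb

theorem io_apply (g : G2) : io g = mk (emb g) := rfl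

theorem io_ker {g : G2} (h : io g = 1) : ∃ r : F, g.1 = r • 1 ∧ r ^ 3 = 1 := by
  have h1 : mk (1 : S3) = mk (emb g) := h.symm
  obtain ⟨r, hr⟩ := (mk_eq_iff _ _).1 h1
  have h2 : r • (1 : M3) = E3 g.1 ((Matrix.GeneralLinearGroup.det g)⁻¹ : Fˣ) := hr.symm
  rw [← E3_one, smul_E3] at h2
  obtain ⟨h3, h4⟩ := E3_inj h2
  refine ⟨r, h3.symm, ?_⟩
  have h5 : ((Matrix.GeneralLinearGroup.det g : Fˣ) : F) = r ^ 2 := by
    show g.1.det = _
    rw [← h3, Matrix.det_smul, Matrix.det_one, Fintype.card_fin, mul_one]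
  have h6 : ((Matrix.GeneralLinearGroup.det g : Fˣ) : F) * r = 1 := by
    rw [mul_one] at h4
    rw [h4, Units.mul_inv]
  rw [h5] at h6
  rw [← h6]; ring

theorem io_ker3 {g : G2} (h : io g = 1) : g ^ 3 = 1 := by
  obtain ⟨r, hr, hr3⟩ := io_ker h
  apply Units.ext
  show g.1 ^ 3 = 1
  rw [hr, smul_pow, one_pow, hr3, one_smul]

section fin
variable [Fintype F] (hodd : Fintype.card F % 2 = 1)

theorem two_ne (hodd : Fintype.card F % 2 = 1) : (2 : F) ≠ 0 := by
  intro h0
  have hc : CharP F 2 := CharTwo.of_one_ne_zero_of_two_eq_zero one_ne_zero h0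
  obtain ⟨n, -, hn⟩ := FiniteField.card F 2
  rw [hn] at hodd
  have := n.pos.ne'
  have h2 : 2 ∣ 2 ^ (n : ℕ) := dvd_pow_self 2 this
  omega

theorem GL_ext2 {g h : G2} (e : g.1 = h.1) : g = h := Units.ext e

theorem exists_nsq {A : Type*} [CommGroup A] [Finite A] [IsCyclic A] (h : Even (Nat.card A)) : ∃ a : A, Two a ∧ ∀ l, a ≠ l * l := by
  obtain ⟨g, hg⟩ := IsCyclic.exists_generator (α := A)
  have ho : orderOf g = Nat.card A := orderOf_eq_card_of_forall_mem_zpowers hg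
  obtain ⟨k, m, hm, hkm⟩ := Nat.exists_eq_two_pow_mul_odd (n := Nat.card A) Nat.card_pos.ne'
  refine ⟨g ^ m, ⟨k, by rw [← pow_mul, mul_comm, ← hkm, ← ho, pow_orderOf_eq_one]⟩, ?_⟩
  intro l hl
  obtain ⟨i, rfl⟩ := hg l
  have h1 : g ^ ((m : ℤ) - 2 * i) = 1 := by
    rw [_root_.zpow_sub, zpow_natCast, hl]
    show g ^ i * g ^ i * _ = 1
    rw [← _root_.zpow_add, ← two_mul, mul_inv_cancel]
  have h2 : ((orderOf g : ℕ) : ℤ) ∣ (m : ℤ) - 2 * i := orderOf_dvd_iff_zpow_eq_one.2 h1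
  have h3 : (2 : ℤ) ∣ ((orderOf g : ℕ) : ℤ) := by
    rw [ho]; exact_mod_cast even_iff_two_dvd.1 h
  have h4 := h3.trans h2
  obtain ⟨c, hc⟩ := hm
  omega

theorem det_scalar {y : G2} {a : F} (h : y.1 = a • 1) : ∃ l : Fˣ, Matrix.GeneralLinearGroup.det y = l * l ∧ (l : F) = a := by
  have h1 : ((Matrix.GeneralLinearGroup.det y : Fˣ) : F) = a * a := by
    show y.1.det = _
    rw [h, Matrix.det_smul, Matrix.det_one, Fintype.card_fin]; ring
  have ha : a ≠ 0 := by
    rintro rfl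
    rw [mul_zero] at h1
    exact (Matrix.GeneralLinearGroup.det y).ne_zero h1
  exact ⟨Units.mk0 a ha, Units.ext (by rw [h1]; rfl), rfl⟩

end fin

/-- diagonal involution -/
def DZ (F : Type*) [Field F] : Matrix (Fin 3) (Fin 3) F := E3 (-1) 1

/-- the central involution -/
def zz (F : Type*) [Field F] : GL (Fin 2) F := -1

theorem mul_E3 (P : M3) (i : Fin 3) : (P * DZ F : M3) i 0 = - P i 0 ∧ (P * DZ F : M3) i 1 = - P i 1 ∧ (P * DZ F : M3) i 2 = P i 2 := by
  simp [Matrix.mul_apply, Fin.sum_univ_three, E3, DZ]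

theorem form_mul {s P : M3} {v w : Fin 3 → F} (hs : ∀ i j, s i j = (if i = j then -1 else 0) + v i * w j) (i j : Fin 3) :
    (s * P) i j = - P i j + v i * (w 0 * P 0 j + w 1 * P 1 j + w 2 * P 2 j) := by
  rw [Matrix.mul_apply, Fin.sum_univ_three, hs, hs, hs]
  fin_cases i <;> simp <;> ring

theorem form_conj {s P : M3} {v w : Fin 3 → F} (hs : ∀ i j, s i j = (if i = j then -1 else 0) + v i * w j)
    (h0 : w 0 * P 0 0 + w 1 * P 1 0 + w 2 * P 2 0 = 0) (h1 : w 0 * P 0 1 + w 1 * P 1 1 + w 2 * P 2 1 = 0)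
    {e : F} (h2 : w 0 * P 0 2 + w 1 * P 1 2 + w 2 * P 2 2 = e) (h3 : ∀ i, 2 * P i 2 = e * v i) : s * P = P * DZ F := by
  ext i j
  obtain ⟨e0, e1, e2⟩ := mul_E3 P i
  rw [form_mul hs]
  fin_cases j
  · show _ + v i * (w 0 * P 0 0 + w 1 * P 1 0 + w 2 * P 2 0) = (P * DZ F : M3) i 0
    rw [e0, h0, mul_zero, add_zero]; rfl
  · show _ + v i * (w 0 * P 0 1 + w 1 * P 1 1 + w 2 * P 2 1) = (P * DZ F : M3) i 1
    rw [e1, h1, mul_zero, add_zero]; rfl
  · show - P i 2 + v i * (w 0 * P 0 2 + w 1 * P 1 2 + w 2 * P 2 2) = (P * DZ F : M3) i 2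
    rw [e2, h2]; linear_combination (-1 : F) * h3 i

theorem exists_P (h2 : (2 : F) ≠ 0) {s : M3} {k : Fin 3} {v w : Fin 3 → F} (hk : w k = 1)
    (hvw : w 0 * v 0 + w 1 * v 1 + w 2 * v 2 = 2) (hs : ∀ i j, s i j = (if i = j then -1 else 0) + v i * w j) :
    ∃ P : M3, P.det = 1 ∧ s * P = P * DZ F := by
  fin_cases k
  · have hk' : w 0 = 1 := hk
    refine ⟨!![-w 1, -w 2, v 0 / 2; 1, 0, v 1 / 2; 0, 1, v 2 / 2], ?_, form_conj hs (e := 1) ?_ ?_ ?_ ?_⟩
    · rw [Matrix.det_fin_three]; simp; field_simp; linear_combination hvw - v 0 * hk'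
    · simp; linear_combination (-w 1) * hk'
    · simp; linear_combination (-w 2) * hk'
    · simp; field_simp; linear_combination hvw
    · intro i; fin_cases i <;> simp <;> field_simp
  · have hk' : w 1 = 1 := hk
    refine ⟨!![1, 0, -v 0 / 2; -w 0, -w 2, -v 1 / 2; 0, 1, -v 2 / 2], ?_, form_conj hs (e := -1) ?_ ?_ ?_ ?_⟩
    · rw [Matrix.det_fin_three]; simp; field_simp; linear_combination hvw - v 1 * hk'
    · simp; linear_combination (-w 0) * hk'
    · simp; linear_combination (-w 2) * hk'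
    · simp; field_simp; linear_combination (-1 : F) * hvw
    · intro i; fin_cases i <;> simp <;> field_simp
  · have hk' : w 2 = 1 := hk
    refine ⟨!![1, 0, v 0 / 2; 0, 1, v 1 / 2; -w 0, -w 1, v 2 / 2], ?_, form_conj hs (e := 1) ?_ ?_ ?_ ?_⟩
    · rw [Matrix.det_fin_three]; simp; field_simp; linear_combination hvw - v 2 * hk'
    · simp; linear_combination (-w 0) * hk'
    · simp; linear_combination (-w 1) * hk'
    · simp; field_simp; linear_combination hvw
    · intro i; fin_cases i <;> simp <;> field_simp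

/-- involutions lift -/
theorem lift_inv {x : P3} (hx : orderOf x = 2) : ∃ s : S3, mk s = x ∧ s * s = 1 ∧ s ≠ 1 := by
  obtain ⟨s, rfl⟩ := mk_surj x
  have h1 : mk (1 : S3) = mk (s * s) := by
    rw [mk_mul, ← pow_two, ← hx, pow_orderOf_eq_one]; rfl
  obtain ⟨r, hr⟩ := (mk_eq_iff _ _).1 h1
  have hr' : s.1 * s.1 = r • (1 : M3) := hr
  have hr3 : r ^ 3 = 1 := by
    have := congrArg Matrix.det hr'
    rw [Matrix.det_mul, Matrix.det_smul, Matrix.det_one, Fintype.card_fin, s.2, mul_one, mul_one] at this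
    exact this.symm
  have hd : (r • s.1).det = 1 := by rw [Matrix.det_smul, Fintype.card_fin, s.2, mul_one, hr3]
  have hmk : mk (⟨r • s.1, hd⟩ : S3) = mk s := by
    symm
    exact (mk_eq_iff s (⟨r • s.1, hd⟩ : S3)).2 ⟨r, rfl⟩
  refine ⟨⟨r • s.1, hd⟩, hmk, ?_, ?_⟩
  · apply Subtype.ext
    show (r • s.1) * (r • s.1) = 1
    rw [smul_mul_smul_comm, hr', smul_smul]
    have : r * r * r = 1 := by rw [← hr3]; ring
    rw [this, one_smul]
  · intro h
    rw [h] at hmk
    rw [← hmk] at hx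
    have : orderOf (mk (1 : S3)) = 1 := by rw [mk_one, orderOf_one]
    omega

theorem emb_neg_one : (emb (zz F)).1 = DZ F := by
  rw [emb_val]
  have h1 : Matrix.GeneralLinearGroup.det (zz F) = 1 := by
    apply Units.ext
    show ((-1 : M2)).det = 1
    rw [Matrix.det_neg, Matrix.det_one, Fintype.card_fin]; ring
  rw [h1, inv_one]
  rfl

theorem inv_conj (h2 : (2 : F) ≠ 0) {x : P3} (hx : orderOf x = 2) : ∃ g : P3, g * io (zz F) * g⁻¹ = x := by
  obtain ⟨s, rfl, hs, hs1⟩ := lift_inv hx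
  obtain ⟨k, v, w, hk, hvw, hsf⟩ := inv_form (s := s.1) h2 (congrArg Subtype.val hs) s.2 fun h => hs1 (Subtype.ext h)
  obtain ⟨P, hP, hsP⟩ := exists_P h2 hk hvw hsf
  let P' : S3 := ⟨P, hP⟩
  refine ⟨mk P', ?_⟩
  rw [mul_inv_eq_iff_eq_mul, io_apply, ← mk_mul, ← mk_mul]
  congr 1
  apply Subtype.ext
  show P * (emb (zz F)).1 = s.1 * P
  rw [emb_neg_one, hsP]

theorem cent_lift (h2 : (2 : F) ≠ 0) (g : P3) (hg : g * io (zz F) = io (zz F) * g) : ∃ h : G2, io h = g := by
  obtain ⟨s, rfl⟩ := mk_surj g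
  rw [io_apply, ← mk_mul, ← mk_mul] at hg
  obtain ⟨r, hr⟩ := (mk_eq_iff _ _).1 hg
  have hr' : (DZ F : M3) * s.1 = r • (s.1 * DZ F) := by rw [← emb_neg_one]; exact hr
  have e : ∀ i j, ((DZ F : M3) * s.1) i j = r * (s.1 * DZ F : M3) i j := fun i j => by rw [hr']; rfl
  have e00 := e 0 0
  have e01 := e 0 1
  have e02 := e 0 2
  have e10 := e 1 0
  have e11 := e 1 1
  have e12 := e 1 2
  have e20 := e 2 0
  have e21 := e 2 1
  have e22 := e 2 2
  simp [Matrix.mul_apply, Fin.sum_univ_three, E3, DZ] at e00 e01 e02 e10 e11 e12 e20 e21 e22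
  have hdet := s.2
  rw [Matrix.det_fin_three] at hdet
  have hr3 : r ^ 3 = 1 := by
    have h4 := congrArg Matrix.det hr'
    have h5 : (DZ F : M3).det = 1 := by rw [DZ, E3_det, Matrix.det_neg, Matrix.det_one, Fintype.card_fin]; ring
    rw [Matrix.det_smul, Matrix.det_mul, Matrix.det_mul, s.2, Fintype.card_fin, h5] at h4
    rw [mul_one, mul_one] at h4
    exact h4.symm
  have hr1 : r = 1 := by
    by_contra hne
    have hne' : r - 1 ≠ 0 := sub_ne_zero.2 hne
    have z00 : s.1 0 0 = 0 := (mul_eq_zero.1 (by linear_combination (-1 : F) * e00 : (r - 1) * s.1 0 0 = 0)).resolve_left hne'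
    have z01 : s.1 0 1 = 0 := (mul_eq_zero.1 (by linear_combination (-1 : F) * e01 : (r - 1) * s.1 0 1 = 0)).resolve_left hne'
    have z10 : s.1 1 0 = 0 := (mul_eq_zero.1 (by linear_combination (-1 : F) * e10 : (r - 1) * s.1 1 0 = 0)).resolve_left hne'
    have z11 : s.1 1 1 = 0 := (mul_eq_zero.1 (by linear_combination (-1 : F) * e11 : (r - 1) * s.1 1 1 = 0)).resolve_left hne'
    have z22 : s.1 2 2 = 0 := (mul_eq_zero.1 (by linear_combination (-1 : F) * e22 : (r - 1) * s.1 2 2 = 0)).resolve_left hne'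
    rw [z00, z01, z10, z11, z22] at hdet
    simp at hdet
  rw [hr1] at e02 e12 e20 e21
  have z02 : s.1 0 2 = 0 := (mul_eq_zero.1 (by linear_combination (-1 : F) * e02 : 2 * s.1 0 2 = 0)).resolve_left h2
  have z12 : s.1 1 2 = 0 := (mul_eq_zero.1 (by linear_combination (-1 : F) * e12 : 2 * s.1 1 2 = 0)).resolve_left h2
  have z20 : s.1 2 0 = 0 := (mul_eq_zero.1 (by linear_combination e20 : 2 * s.1 2 0 = 0)).resolve_left h2
  have z21 : s.1 2 1 = 0 := (mul_eq_zero.1 (by linear_combination e21 : 2 * s.1 2 1 = 0)).resolve_left h2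
  have hE := E3_of z02 z12 z20 z21
  have hd : (!![s.1 0 0, s.1 0 1; s.1 1 0, s.1 1 1] : M2).det * s.1 2 2 = 1 := by
    rw [← E3_det, ← hE]; exact s.2
  have hd0 : (!![s.1 0 0, s.1 0 1; s.1 1 0, s.1 1 1] : M2).det ≠ 0 := left_ne_zero_of_mul_eq_one hd
  refine ⟨Matrix.GeneralLinearGroup.mkOfDetNeZero _ hd0, ?_⟩
  rw [io_apply]
  congr 1
  apply Subtype.ext
  rw [emb_val]
  conv_rhs => rw [hE]
  have h5 : (((Matrix.GeneralLinearGroup.det (Matrix.GeneralLinearGroup.mkOfDetNeZero _ hd0))⁻¹ : Fˣ) : F) = s.1 2 2 := by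
    rw [Units.val_inv_eq_inv_val]
    exact (eq_inv_of_mul_eq_one_right hd).symm
  rw [h5]
  rfl

/-- the rotation used for fusion -/
def rot : S3 := ⟨!![1, 0, 0; 0, 0, 1; 0, -1, 0], by rw [Matrix.det_fin_three]; simp⟩

theorem rot_conj (a : Fˣ) : rot * emb (dg a a⁻¹) = emb (dg a 1) * rot := by
  apply Subtype.ext
  show rot.1 * (emb (dg a a⁻¹)).1 = (emb (dg a 1)).1 * rot.1
  rw [emb_val, emb_val, det_dg, det_dg, dg_val, dg_val]
  ext i j
  fin_cases i <;> fin_cases j <;> simp [rot, E3, Matrix.mul_apply, Fin.sum_univ_three]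

/-- the data for `L_3(q)` -/
theorem data [Fintype F] (hodd : Fintype.card F % 2 = 1) : Nonempty (FSim.GLD P3 G2 Fˣ) := by
  have h2 : (2 : F) ≠ 0 := two_ne hodd
  have hm1 : (1 : F) ≠ -1 := fun h => h2 (by linear_combination h)
  have hdz : Matrix.GeneralLinearGroup.det (zz F) = 1 := by
    apply Units.ext
    show ((-1 : M2)).det = 1
    rw [Matrix.det_neg, Matrix.det_one, Fintype.card_fin]; ring
  have hzv : (zz F).1 = -1 := rfl
  -- conversion to matrices
  have det1 : ∀ {x : G2}, Matrix.GeneralLinearGroup.det x = 1 → x.1.det = 1 := fun {x} h => congrArg Units.val h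
  have sqz : ∀ {x : G2}, x * x = zz F → x.1 * x.1 = -1 := fun {x} h => congrArg Units.val h
  have val : ∀ {x y : G2}, x * y = y * x → x.1 * y.1 = y.1 * x.1 := fun {x y} h => congrArg Units.val h
  have valz : ∀ {x y : G2}, x * y = zz F * (y * x) → x.1 * y.1 = -(y.1 * x.1) := fun {x y} h => by
    have := congrArg Units.val h
    rw [← neg_one_mul]; exact this
  refine ⟨{
    ι := io
    δ := Matrix.GeneralLinearGroup.det
    z := zz F
    t := dg 1 (-1)
    w := ad 1 (-1)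
    D := DD ⊤
    ker_c := ?_
    ker_o := ?_
    z2 := by show (-1 : G2) * -1 = 1; rw [neg_mul_neg, one_mul]
    z1 := ?_
    zc := fun x => by show (-1 : G2) * x = x * -1; rw [neg_one_mul, mul_neg_one]
    zδ := hdz
    cent := cent_lift h2
    inv := ?_
    uniq := ?_
    conj4 := ?_
    q8 := ?_
    tt := ?_
    t1 := ?_
    ww := ?_
    wδ := ?_
    tw := ?_
    hD := DD_two _
    tD := ?_
    wD := ?_
    cen := ?_
    sq := ?_
    ab := ?_
    nsq := ?_
    fus := ?_ }⟩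
  · intro k hk x
    obtain ⟨r, hr, -⟩ := io_ker hk
    apply Units.ext
    show k.1 * x.1 = x.1 * k.1
    rw [hr, smul_mul_assoc, mul_smul_comm, one_mul, mul_one]
  · intro k hk
    exact Odd.of_dvd_nat (by decide : Odd 3) (orderOf_dvd_of_pow_eq_one (io_ker3 hk))
  · intro h
    have h' : (zz F).1 = (1 : M2) := congrArg Units.val h
    have := congrFun (congrFun h' 0) 0
    have h3 : (-1 : F) = 1 := by simpa [zz] using this
    exact hm1 h3.symm
  · intro x y hx hy
    obtain ⟨g, hg⟩ := inv_conj h2 hx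
    obtain ⟨h, hh⟩ := inv_conj h2 hy
    refine ⟨h * g⁻¹, ?_⟩
    rw [← hg, ← hh]; group
  · intro x hx hxx
    rcases sq_one h2 (det1 hx) (congrArg Units.val hxx) with h | h
    · exact Or.inl (Units.ext h)
    · exact Or.inr (Units.ext h)
  · intro x y hx hy hxx hyy
    let X : Matrix.SpecialLinearGroup (Fin 2) F := ⟨x.1, det1 hx⟩
    let Y : Matrix.SpecialLinearGroup (Fin 2) F := ⟨y.1, det1 hy⟩
    obtain ⟨P, hP⟩ := FSim.sl_conj2 hodd (X := X) (Y := Y) (Subtype.ext (by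
      show x.1 * x.1 = _
      rw [sqz hxx]; simp)) (Subtype.ext (by
      show y.1 * y.1 = _
      rw [sqz hyy]; simp))
    refine ⟨Matrix.SpecialLinearGroup.toGL P, ?_⟩
    rw [mul_inv_eq_iff_eq_mul] at hP ⊢
    apply Units.ext
    have := congrArg Subtype.val hP
    exact this
  · obtain ⟨a, b, hab⟩ := FSim.two_squares hodd (-1 : F)
    have hdet : (!![a, b; b, -a] : M2).det = 1 := by rw [Matrix.det_fin_two_of]; linear_combination (-1 : F) * hab
    refine ⟨ad 1 (-1), Matrix.GeneralLinearGroup.mkOfDetNeZero !![a, b; b, -a] (by rw [hdet]; exact one_ne_zero), ?_, ?_, ?_, ?_, ?_⟩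
    · rw [det_ad]; simp
    · apply Units.ext; exact hdet
    · rw [ad_ad]
      apply Units.ext
      rw [dg_val, hzv]
      ext i j; fin_cases i <;> fin_cases j <;> simp
    · apply Units.ext
      show !![a, b; b, -a] * !![a, b; b, -a] = (-1 : M2)
      ext i j; fin_cases i <;> fin_cases j <;> simp [Matrix.mul_apply, Fin.sum_univ_two] <;> first | ring1 | linear_combination hab
    · apply Units.ext
      show (ad 1 (-1)).1 * !![a, b; b, -a] = (-1 : M2) * (!![a, b; b, -a] * (ad 1 (-1)).1)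
      rw [ad_val]
      ext i j; fin_cases i <;> fin_cases j <;> simp [Matrix.mul_apply, Fin.sum_univ_two]
  · rw [dg_dg]; simp [dg_one]
  · intro h
    have h' : (dg (1 : Fˣ) (-1)).1 = (1 : M2) := congrArg Units.val h
    have := congrFun (congrFun h' 1) 1
    have h3 : (-1 : F) = 1 := by simpa [dg_val] using this
    exact hm1 h3.symm
  · rw [ad_ad]
    apply Units.ext
    rw [dg_val, hzv]
    ext i j; fin_cases i <;> fin_cases j <;> simp
  · rw [det_ad]; simp
  · rw [dg_ad, ad_dg]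
    apply Units.ext
    show (ad _ _).1 = (-1 : M2) * (ad _ _).1
    rw [ad_val, ad_val]
    ext i j; fin_cases i <;> fin_cases j <;> simp
  · exact ⟨1, trivial, -1, trivial, Two.one, ⟨1, by simp⟩, Or.inl rfl⟩
  · exact ⟨1, trivial, -1, trivial, Two.one, ⟨1, by simp⟩, Or.inr rfl⟩
  · -- cen
    intro x hxx hxt hxw
    have e1 := val hxt
    have e2 := val hxw
    rw [dg_val] at e1
    rw [ad_val] at e2
    have e01 := congrFun (congrFun e1 0) 1
    have e10 := congrFun (congrFun e1 1) 0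
    have f01 := congrFun (congrFun e2 0) 1
    simp [Matrix.mul_apply, Fin.sum_univ_two] at e01 e10 f01
    have z01 : x.1 0 1 = 0 := (mul_eq_zero.1 (by linear_combination (-1 : F) * e01 : 2 * x.1 0 1 = 0)).resolve_left h2
    have z10 : x.1 1 0 = 0 := (mul_eq_zero.1 (by linear_combination e10 : 2 * x.1 1 0 = 0)).resolve_left h2
    have hxx' : x.1 * x.1 = (1 : M2) := congrArg Units.val hxx
    have h00' : x.1 0 0 * x.1 0 0 + x.1 0 1 * x.1 1 0 = 1 := by
      have : (x.1 * x.1) 0 0 = 1 := by rw [hxx']; rfl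
      rwa [Matrix.mul_apply, Fin.sum_univ_two] at this
    have e4 : (x.1 0 0 - 1) * (x.1 0 0 + 1) = 0 := by rw [z01] at h00'; linear_combination h00'
    rcases mul_eq_zero.1 e4 with h | h
    · left
      have h5 : x.1 0 0 = 1 := by linear_combination h
      have h6 : x.1 1 1 = 1 := by rw [← f01]; exact h5
      apply Units.ext
      ext i k
      fin_cases i <;> fin_cases k <;> simp [z01, z10, h5, h6]
    · right
      have h5 : x.1 0 0 = -1 := by linear_combination h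
      have h6 : x.1 1 1 = -1 := by rw [← f01]; exact h5
      apply Units.ext
      rw [hzv]
      ext i k
      fin_cases i <;> fin_cases k <;> simp [z01, z10, h5, h6]
  · -- sq
    intro j j' x hj hj' hjj hjj' hjc hxj hxj'
    have hzc : ∀ x : G2, zz F * x = x * zz F := fun x => by show (-1 : G2) * x = x * -1; rw [neg_one_mul, mul_neg_one]
    have hz2 : zz F * zz F = 1 := by show (-1 : G2) * -1 = 1; rw [neg_mul_neg, one_mul]
    have fin : ∀ y : G2, y * j = j * y → y * j' = j' * y → ∃ l : Fˣ, Matrix.GeneralLinearGroup.det y = l * l := by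
      intro y h1 h2'
      obtain ⟨a, ha⟩ := scal h2 (det1 hj) (det1 hj') (sqz hjj) (valz hjc) (val h1) (val h2')
      obtain ⟨l, hl, -⟩ := det_scalar ha
      exact ⟨l, hl⟩
    have hji : j' * j = zz F * (j * j') := by rw [hjc, ← mul_assoc, hz2, one_mul]
    rcases hxj with h1 | h1 <;> rcases hxj' with h3 | h3
    · exact fin x h1 h3
    · obtain ⟨l, hl⟩ := fin (x * j) (by rw [mul_assoc, ← mul_assoc j x j, ← h1, mul_assoc]) (by
        calc x * j * j' = x * (j * j') := mul_assoc _ _ _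
          _ = x * (zz F * (j' * j)) := by rw [hjc]
          _ = zz F * (x * j') * j := by rw [← mul_assoc x, ← hzc x]; group
          _ = zz F * (zz F * (j' * x)) * j := by rw [h3]
          _ = (zz F * zz F) * (j' * (x * j)) := by group
          _ = j' * (x * j) := by rw [hz2, one_mul])
      exact ⟨l, by rw [← hl, map_mul, hj, mul_one]⟩
    · obtain ⟨l, hl⟩ := fin (x * j') (by
        calc x * j' * j = x * (j' * j) := mul_assoc _ _ _
          _ = x * (zz F * (j * j')) := by rw [hji]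
          _ = zz F * (x * j) * j' := by rw [← mul_assoc x, ← hzc x]; group
          _ = zz F * (zz F * (j * x)) * j' := by rw [h1]
          _ = (zz F * zz F) * (j * (x * j')) := by group
          _ = j * (x * j') := by rw [hz2, one_mul]) (by rw [mul_assoc, ← mul_assoc j' x j', ← h3, mul_assoc])
      exact ⟨l, by rw [← hl, map_mul, hj', mul_one]⟩
    · obtain ⟨l, hl⟩ := fin (x * (j * j')) (by
        calc x * (j * j') * j = x * j * (j' * j) := by group
          _ = (zz F * (j * x)) * (zz F * (j * j')) := by rw [h1, hji]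
          _ = (zz F * (j * x * zz F)) * (j * j') := by group
          _ = (zz F * (zz F * (j * x))) * (j * j') := by rw [← hzc (j * x)]
          _ = (zz F * zz F) * (j * (x * (j * j'))) := by group
          _ = j * (x * (j * j')) := by rw [hz2, one_mul]) (by
        calc x * (j * j') * j' = x * (zz F * (j' * j)) * j' := by rw [hjc]
          _ = zz F * (x * j') * (j * j') := by rw [← mul_assoc x, ← hzc x]; group
          _ = zz F * (zz F * (j' * x)) * (j * j') := by rw [h3]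
          _ = (zz F * zz F) * (j' * (x * (j * j'))) := by group
          _ = j' * (x * (j * j')) := by rw [hz2, one_mul])
      exact ⟨l, by rw [← hl, map_mul, map_mul, hj, hj', mul_one, mul_one]⟩
  · -- ab
    intro j a b hj hjj ha hb
    exact Units.ext (comm_comm h2 (det1 hj) (sqz hjj) (val ha) (val hb))
  · -- nsq
    obtain ⟨a, ha, hn⟩ := exists_nsq (A := Fˣ) (by
      rw [Nat.card_units, Nat.card_eq_fintype_card]
      have := Fintype.card_pos (α := F)
      rw [Nat.even_iff]; omega)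
    refine ⟨dg a 1, ⟨a, trivial, 1, trivial, ha, Two.one, Or.inl rfl⟩, fun l => ?_⟩
    rw [det_dg, mul_one]
    exact hn l
  · -- fus
    intro x hx
    obtain ⟨k, hk⟩ := hx
    set a := Matrix.GeneralLinearGroup.det x with ha
    have haT : Two a := ⟨k, by rw [ha, ← map_pow, ← hk, pow_orderOf_eq_one, map_one]⟩
    refine ⟨dg a 1, ⟨a, trivial, 1, trivial, haT, Two.one, Or.inl rfl⟩, dg a a⁻¹, ⟨a, trivial, a⁻¹, trivial, haT, haT.inv, Or.inl rfl⟩,
      by rw [det_dg, mul_one], by rw [det_dg, mul_inv_cancel], mk rot, ?_⟩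
    rw [mul_inv_eq_iff_eq_mul, io_apply, io_apply, ← mk_mul, ← mk_mul, rot_conj]

end Cfsg.Agent.H8.L3
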