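import Mathlib
import Cfsg.Prelude.Def_LieTypeDatum
import Cfsg.Agent.Lib.AutPSL12
import Cfsg.Agent.Lib.AutPSL13

set_option autoImplicit false
set_option linter.all false

/-! Abstract class splitting and coset conjugacy for groups of similitudes. -/

namespace Cfsg.Agent.H8.SimAbs

open Cfsg.Agent.Lib.AutPSL

variable {A G C : Type*} [Group A] [Group G] [CommGroup C]

theorem split_abs (D : G →* A) (K : Subgroup A) [hN : K.Normal] (hK : K ≤ D.range) (μ : G →* C)
    (hμ : Function.Surjective μ) (S : Subgroup C) (hS : ∀ g, D g ∈ K ↔ μ g ∈ S) (x : A) :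
    Cfsg.splitClassCount D.range K x = (S ⊔ ((Subgroup.centralizer {x}).comap D).map μ).index := by
  rw [split_count _ _ hK, ← Subgroup.index_comap]
  set L := (K ⊔ (D.range ⊓ Subgroup.centralizer {x})).comap D with hL
  have hker : μ.ker ≤ L := by
    intro g hg
    rw [MonoidHom.mem_ker] at hg
    rw [hL, Subgroup.mem_comap]
    apply Subgroup.mem_sup_left
    rw [hS, hg]; exact one_mem _
  rw [← Subgroup.index_map_eq L hμ hker]
  congr 1
  apply le_antisymm
  · rintro _ ⟨g, hg, rfl⟩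
    have hg' : D g ∈ ((K ⊔ (D.range ⊓ Subgroup.centralizer {x}) : Subgroup A) : Set A) := hg
    rw [Subgroup.normal_mul] at hg'
    obtain ⟨k, hk, c, ⟨⟨g', rfl⟩, hc⟩, hkc⟩ := hg'
    have hk2 : D (g * g'⁻¹) ∈ K := by
      have : D (g * g'⁻¹) = k := by
        rw [map_mul, map_inv, ← hkc]
        exact mul_inv_cancel_right _ _
      rw [this]; exact hk
    rw [hS] at hk2
    have : μ g = μ (g * g'⁻¹) * μ g' := by rw [← map_mul, inv_mul_cancel_right]
    rw [this]
    exact Subgroup.mul_mem _ (Subgroup.mem_sup_left hk2) (Subgroup.mem_sup_right ⟨g', hc, rfl⟩)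
  · apply sup_le
    · intro u hu
      obtain ⟨g, rfl⟩ := hμ u
      refine ⟨g, ?_, rfl⟩
      exact Subgroup.mem_sup_left ((hS g).2 hu)
    · rintro _ ⟨g, hg, rfl⟩
      exact ⟨g, Subgroup.mem_sup_right ⟨⟨g, rfl⟩, hg⟩, rfl⟩

theorem coset_abs (D : G →* A) [hN : D.range.Normal] {r : ℕ} {x δ α x0 : A} (hx : α * x * α⁻¹ = x0)
    (hδ : δ ∈ D.range) (hxr : orderOf x = r)
    (h : ∀ g : G, (D g * x0) ^ r = 1 → ∃ k : G, D g * x0 = D k * x0 * (D k)⁻¹) :
    orderOf (δ * x) = r ↔ Cfsg.IsConjUnder D.range x (δ * x) := by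
  constructor
  · intro ho
    obtain ⟨g, hg⟩ := hN.conj_mem δ hδ α
    have h2 : D g * x0 = α * (δ * x) * α⁻¹ := by
      rw [hg, ← hx]; group
    obtain ⟨k, hk⟩ := h g (by
      rw [h2]
      have := orderOf_conj (δ * x) α
      rw [ho] at this
      rw [← this]
      exact pow_orderOf_eq_one _)
    refine ⟨α⁻¹ * D k * α, ?_, ?_⟩
    · have := hN.conj_mem (D k) ⟨k, rfl⟩ α⁻¹
      rwa [inv_inv] at this
    · have h3 : δ * x = α⁻¹ * (D g * x0) * α := by rw [h2]; group
      rw [h3, hk, ← hx]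
      group
  · rintro ⟨h, -, he⟩
    rw [he, orderOf_conj, hxr]

end Cfsg.Agent.H8.SimAbs
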