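import Mathlib
import Cfsg.Prelude.Def_LieTypeDatum
import Cfsg.Agent.H8.GrStd
import Cfsg.Agent.H8.SimAbs
import Cfsg.Agent.Lib.FinGal2

set_option autoImplicit false
set_option linter.all false

/-! Matrix groups with similitudes and field automorphisms: abstract theory of the induced automorphisms of the central quotient. -/

namespace Cfsg.Agent.H8.MSys

open Matrix Cfsg.Agent.H8.GrStd Cfsg.Agent.H8.AutPSL Cfsg.Agent.Lib

/-- the data -/
structure Sys (ι : Type*) [Fintype ι] [DecidableEq ι] (F : Type*) [Field F] (S : Type*) [Group S] where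
  e : S →* GL ι F
  inj : Function.Injective e
  Γ : Subgroup (GL ι F)
  A : Subgroup (F ≃+* F)
  mem : ∀ s, e s ∈ Γ
  conj : ∀ g ∈ Γ, ∀ s, ∃ s', e s' = g * e s * g⁻¹
  gal : ∀ σ ∈ A, ∀ s, ∃ s', e s' = mg σ (e s)
  galΓ : ∀ σ ∈ A, ∀ g ∈ Γ, mg σ g ∈ Γ

variable {ι : Type*} [Fintype ι] [DecidableEq ι] {F : Type*} [Field F] {S : Type*} [Group S]

theorem mg_mul (σ τ : F ≃+* F) (g : GL ι F) : mg (σ * τ) g = mg σ (mg τ g) := by
  apply Units.ext; rfl
theorem mg_one (g : GL ι F) : mg (1 : F ≃+* F) g = g := by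
  apply Units.ext; rfl
theorem mg_coe (σ : F ≃+* F) (g : GL ι F) : (mg σ g).1 = g.1.map σ := rfl

namespace Sys

variable (P : Sys ι F S)

/-- conjugation -/
noncomputable def cj (g : P.Γ) : MulAut S where
  toFun s := (P.conj g.1 g.2 s).choose
  invFun s := (P.conj g.1⁻¹ (inv_mem g.2) s).choose
  left_inv s := by
    apply P.inj
    rw [(P.conj g.1⁻¹ (inv_mem g.2) _).choose_spec, (P.conj g.1 g.2 s).choose_spec]; group
  right_inv s := by
    apply P.inj
    rw [(P.conj g.1 g.2 _).choose_spec, (P.conj g.1⁻¹ (inv_mem g.2) s).choose_spec]; group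
  map_mul' s t := by
    apply P.inj
    refine (P.conj g.1 g.2 (s * t)).choose_spec.trans ?_
    rw [P.e.map_mul (P.conj g.1 g.2 s).choose, (P.conj g.1 g.2 s).choose_spec, (P.conj g.1 g.2 t).choose_spec, P.e.map_mul]; group

theorem e_cj (g : P.Γ) (s : S) : P.e (P.cj g s) = g.1 * P.e s * g.1⁻¹ := (P.conj g.1 g.2 s).choose_spec

/-- field automorphisms -/
noncomputable def fa (σ : P.A) : MulAut S where
  toFun s := (P.gal σ.1 σ.2 s).choose
  invFun s := (P.gal σ.1⁻¹ (inv_mem σ.2) s).choose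
  left_inv s := by
    apply P.inj
    rw [(P.gal σ.1⁻¹ (inv_mem σ.2) _).choose_spec, (P.gal σ.1 σ.2 s).choose_spec, ← mg_mul, inv_mul_cancel, mg_one]
  right_inv s := by
    apply P.inj
    rw [(P.gal σ.1 σ.2 _).choose_spec, (P.gal σ.1⁻¹ (inv_mem σ.2) s).choose_spec, ← mg_mul, mul_inv_cancel, mg_one]
  map_mul' s t := by
    apply P.inj
    refine (P.gal σ.1 σ.2 (s * t)).choose_spec.trans ?_
    rw [P.e.map_mul (P.gal σ.1 σ.2 s).choose, (P.gal σ.1 σ.2 s).choose_spec, (P.gal σ.1 σ.2 t).choose_spec, P.e.map_mul, map_mul]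

theorem e_fa (σ : P.A) (s : S) : P.e (P.fa σ s) = mg σ.1 (P.e s) := (P.gal σ.1 σ.2 s).choose_spec

/-- homomorphisms -/
noncomputable def cjH : P.Γ →* MulAut S where
  toFun := P.cj
  map_one' := by
    ext s : 1
    apply P.inj
    rw [e_cj]; simp
  map_mul' g h := by
    ext s : 1
    apply P.inj
    rw [MulAut.mul_apply, e_cj, e_cj, e_cj]
    show g.1 * h.1 * P.e s * (g.1 * h.1)⁻¹ = _
    group

noncomputable def faH : P.A →* MulAut S where
  toFun := P.fa
  map_one' := by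
    ext s : 1
    apply P.inj
    rw [e_fa]
    exact mg_one _
  map_mul' σ τ := by
    ext s : 1
    apply P.inj
    rw [MulAut.mul_apply, e_fa, e_fa, e_fa]
    exact mg_mul _ _ _

/-- the induced automorphisms -/
noncomputable def delta : P.Γ →* MulAut (S ⧸ Subgroup.center S) := indG.comp P.cjH
noncomputable def psi : P.A →* MulAut (S ⧸ Subgroup.center S) := indG.comp P.faH

/-- projection -/
abbrev pr (S : Type*) [Group S] : S →* S ⧸ Subgroup.center S := QuotientGroup.mk' (Subgroup.center S)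

theorem delta_pr (g : P.Γ) (s : S) : P.delta g (pr S s) = pr S (P.cj g s) := rfl
theorem psi_pr (σ : P.A) (s : S) : P.psi σ (pr S s) = pr S (P.fa σ s) := rfl

/-- action on similitudes -/
def fG (σ : P.A) : P.Γ →* P.Γ where
  toFun g := ⟨mg σ.1 g.1, P.galΓ σ.1 σ.2 g.1 g.2⟩
  map_one' := Subtype.ext (map_one _)
  map_mul' a b := Subtype.ext (map_mul _ _ _)

theorem psi_delta (σ : P.A) (g : P.Γ) : P.psi σ * P.delta g = P.delta (P.fG σ g) * P.psi σ := by
  apply ext_mk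
  intro s
  show pr S (P.fa σ (P.cj g s)) = pr S (P.cj (P.fG σ g) (P.fa σ s))
  congr 1
  apply P.inj
  rw [e_fa, e_cj, e_cj, e_fa]
  show mg σ.1 (g.1 * P.e s * g.1⁻¹) = mg σ.1 g.1 * mg σ.1 (P.e s) * (mg σ.1 g.1)⁻¹
  rw [map_mul, map_mul, map_inv]

/-- inner elements -/
def toΓ : S →* P.Γ where
  toFun s := ⟨P.e s, P.mem s⟩
  map_one' := Subtype.ext (map_one _)
  map_mul' a b := Subtype.ext (map_mul _ _ _)

theorem delta_toΓ (s : S) : P.delta (P.toΓ s) = MulAut.conj (pr S s) := by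
  apply ext_mk
  intro t
  show pr S (P.cj (P.toΓ s) t) = pr S (s * t * s⁻¹)
  congr 1
  apply P.inj
  rw [e_cj, map_mul, map_mul, map_inv]; rfl

theorem inn_le : Cfsg.Inn (S ⧸ Subgroup.center S) ≤ P.delta.range := by
  rintro _ ⟨x, rfl⟩
  obtain ⟨s, rfl⟩ := QuotientGroup.mk'_surjective _ x
  exact ⟨P.toΓ s, P.delta_toΓ s⟩

/-- scalar elements -/
def IsSc (g : P.Γ) : Prop := ∃ c : F, g.1.1 = c • (1 : Matrix ι ι F)

theorem sc_comm {g : GL ι F} {c : F} (h : g.1 = c • (1 : Matrix ι ι F)) (x : GL ι F) : g * x = x * g := by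
  apply Units.ext
  show g.1 * x.1 = x.1 * g.1
  rw [h, smul_mul_assoc, mul_smul_comm, one_mul, mul_one]

theorem delta_of_sc {g : P.Γ} (h : P.IsSc g) : P.delta g = 1 := by
  obtain ⟨c, hc⟩ := h
  apply ext_mk
  intro s
  show pr S (P.cj g s) = pr S s
  congr 1
  apply P.inj
  rw [e_cj, sc_comm hc]; group

/-- norms -/
def NS (σ : P.A) (g : P.Γ) : ℕ → P.Γ
  | 0 => 1
  | k + 1 => g * P.fG σ (NS σ g k)

theorem NS_succ (σ : P.A) (g : P.Γ) (k : ℕ) : P.NS σ g (k + 1) = g * P.fG σ (P.NS σ g k) := rfl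

theorem pow_eq (σ : P.A) (g : P.Γ) (k : ℕ) : (P.delta g * P.psi σ) ^ k = P.delta (P.NS σ g k) * P.psi (σ ^ k) := by
  induction k with
  | zero => rw [pow_zero, pow_zero, map_one, mul_one]; exact (map_one P.delta).symm
  | succ k ih =>
    rw [pow_succ', ih, NS_succ, map_mul, pow_succ' σ, map_mul]
    calc _ = P.delta g * (P.psi σ * P.delta (P.NS σ g k)) * P.psi (σ ^ k) := by group
      _ = _ := by rw [psi_delta]; group

theorem fG_mul (σ τ : P.A) (g : P.Γ) : P.fG (σ * τ) g = P.fG σ (P.fG τ g) := Subtype.ext (mg_mul _ _ _)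
theorem fG_one (g : P.Γ) : P.fG 1 g = g := Subtype.ext (mg_one _)

theorem NS_comm (σ : P.A) (g : P.Γ) (k : ℕ) : P.NS σ g (k + 1) = P.NS σ g k * P.fG (σ ^ k) g := by
  induction k with
  | zero =>
    rw [NS_succ]
    show g * P.fG σ 1 = 1 * P.fG 1 g
    rw [map_one, one_mul, mul_one, fG_one]
  | succ k ih =>
    rw [NS_succ, ih, map_mul, ← mul_assoc, ← NS_succ, ← fG_mul, ← pow_succ', ih]

/-- scaling -/
theorem NS_smul (σ : P.A) {z : P.Γ} {b : F} (hz : z.1.1 = b • (1 : Matrix ι ι F)) (g : P.Γ) (k : ℕ) :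
    (P.NS σ (z * g) k).1.1 = FinGal.nm σ.1 b k • (P.NS σ g k).1.1 := by
  induction k with
  | zero => show (1 : Matrix ι ι F) = (1 : F) • 1; rw [one_smul]
  | succ k ih =>
    rw [NS_succ, NS_succ]
    show z.1.1 * g.1.1 * ((P.NS σ (z * g) k).1.1.map σ.1) = _ • (g.1.1 * ((P.NS σ g k).1.1.map σ.1))
    rw [ih, hz, FinGal.nm_succ]
    have : (FinGal.nm σ.1 b k • (P.NS σ g k).1.1).map σ.1 = σ.1 (FinGal.nm σ.1 b k) • (P.NS σ g k).1.1.map σ.1 := by
      ext i j
      show σ.1 (FinGal.nm σ.1 b k * (P.NS σ g k).1.1 i j) = σ.1 (FinGal.nm σ.1 b k) * σ.1 ((P.NS σ g k).1.1 i j)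
      rw [map_mul]
    rw [this, smul_mul_assoc, one_mul, smul_mul_assoc, mul_smul_comm, smul_smul]

/-- the standard automorphisms -/
def stdG : Subgroup (MulAut (S ⧸ Subgroup.center S)) where
  carrier := {α | ∃ (g : P.Γ) (σ : P.A), α = P.delta g * P.psi σ}
  one_mem' := ⟨1, 1, by rw [map_one, map_one, one_mul]⟩
  mul_mem' := by
    rintro _ _ ⟨g, σ, rfl⟩ ⟨h, τ, rfl⟩
    refine ⟨g * P.fG σ h, σ * τ, ?_⟩
    rw [map_mul, map_mul]
    calc _ = P.delta g * (P.psi σ * P.delta h) * P.psi τ := by group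
      _ = _ := by rw [psi_delta]; group
  inv_mem' := by
    rintro _ ⟨g, σ, rfl⟩
    refine ⟨P.fG σ⁻¹ g⁻¹, σ⁻¹, ?_⟩
    rw [← psi_delta, map_inv, map_inv, _root_.mul_inv_rev]

theorem mem_stdG {α : MulAut (S ⧸ Subgroup.center S)} : α ∈ P.stdG ↔ ∃ (g : P.Γ) (σ : P.A), α = P.delta g * P.psi σ := Iff.rfl

theorem delta_le_std : P.delta.range ≤ P.stdG := by
  rintro _ ⟨g, rfl⟩
  exact ⟨g, 1, by rw [map_one, mul_one]⟩

theorem std_normalizes {α : MulAut (S ⧸ Subgroup.center S)} (hα : α ∈ P.stdG) (g : P.Γ) : α * P.delta g * α⁻¹ ∈ P.delta.range := by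
  obtain ⟨g', σ, rfl⟩ := hα
  refine ⟨g' * P.fG σ g * g'⁻¹, ?_⟩
  rw [map_mul, map_mul, map_inv]
  calc _ = P.delta g' * (P.delta (P.fG σ g) * P.psi σ) * (P.psi σ)⁻¹ * (P.delta g')⁻¹ := by group
    _ = P.delta g' * (P.psi σ * P.delta g) * (P.psi σ)⁻¹ * (P.delta g')⁻¹ := by rw [P.psi_delta]
    _ = _ := by group

theorem delta_normal (htop : P.stdG = ⊤) : P.delta.range.Normal := by
  constructor
  rintro _ ⟨g, rfl⟩ α
  exact P.std_normalizes (by rw [htop]; trivial) g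

section ker

variable (hker : ∀ (g : P.Γ) (σ : P.A), P.delta g * P.psi σ = 1 → σ = 1 ∧ P.IsSc g)
include hker

theorem delta_eq_one_iff (g : P.Γ) : P.delta g = 1 ↔ P.IsSc g :=
  ⟨fun h => (hker g 1 (by rw [map_one, mul_one, h])).2, fun h => P.delta_of_sc h⟩

theorem psi_inj : Function.Injective P.psi := by
  rw [injective_iff_map_eq_one]
  intro σ h
  exact (hker 1 σ (by rw [map_one, one_mul, h])).1

theorem delta_eq_iff (g h : P.Γ) : P.delta g = P.delta h ↔ ∃ c : F, h.1.1 = c • g.1.1 := by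
  rw [eq_comm, ← mul_inv_eq_one, ← map_inv, ← map_mul, P.delta_eq_one_iff hker]
  constructor
  · rintro ⟨c, hc⟩
    refine ⟨c, ?_⟩
    have : h = (h * g⁻¹) * g := by group
    have e : h.1.1 = (h * g⁻¹).1.1 * g.1.1 := by conv_lhs => rw [this]
                                                 rfl
    rw [e, hc, Matrix.smul_mul, Matrix.one_mul]
  · rintro ⟨c, hc⟩
    refine ⟨c, ?_⟩
    have e : (h * g⁻¹).1.1 = h.1.1 * (g.1⁻¹).1 := rfl
    rw [e, hc, Matrix.smul_mul]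
    congr 1
    rw [← Units.val_mul, mul_inv_cancel, Units.val_one]

theorem card_stdG : Nat.card P.stdG = Nat.card P.delta.range * Nat.card P.A := by
  rw [← Nat.card_prod]
  symm
  apply Nat.card_congr
  refine Equiv.ofBijective (fun x : P.delta.range × P.A =>
    (⟨x.1.1 * P.psi x.2, by obtain ⟨g, hg⟩ := x.1.2; exact ⟨g, x.2, by rw [hg]⟩⟩ : P.stdG)) ⟨?_, ?_⟩
  · rintro ⟨⟨_, ⟨g, rfl⟩⟩, σ⟩ ⟨⟨_, ⟨h, rfl⟩⟩, τ⟩ hgh
    have h1 : P.delta g * P.psi σ = P.delta h * P.psi τ := congrArg Subtype.val hgh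
    have h2 : P.delta (h⁻¹ * g) * P.psi (σ * τ⁻¹) = 1 := by
      rw [map_mul, map_mul, map_inv, map_inv]
      calc _ = (P.delta h)⁻¹ * (P.delta g * P.psi σ) * (P.psi τ)⁻¹ := by group
        _ = _ := by rw [h1]; group
    have h3 := (hker _ _ h2).1
    rw [mul_inv_eq_one] at h3
    subst h3
    have h4 := mul_right_cancel h1
    exact Prod.ext (Subtype.ext h4) rfl
  · rintro ⟨_, ⟨g, σ, rfl⟩⟩
    exact ⟨(⟨_, ⟨g, rfl⟩⟩, σ), rfl⟩

theorem conj_inj : Function.Injective (MulAut.conj : S ⧸ Subgroup.center S →* MulAut (S ⧸ Subgroup.center S)) := by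
  rw [injective_iff_map_eq_one]
  intro x hx
  obtain ⟨s, rfl⟩ := QuotientGroup.mk'_surjective _ x
  have hx' : MulAut.conj (pr S s) = 1 := hx
  rw [← P.delta_toΓ, P.delta_eq_one_iff hker] at hx'
  obtain ⟨c, hc⟩ := hx'
  refine (QuotientGroup.eq_one_iff s).2 ?_
  rw [Subgroup.mem_center_iff]
  intro t
  apply P.inj
  rw [map_mul, map_mul]
  exact (sc_comm hc (P.e t)).symm

theorem card_inn : Nat.card (Cfsg.Inn (S ⧸ Subgroup.center S)) = Nat.card (S ⧸ Subgroup.center S) :=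
  (Nat.card_congr (MonoidHom.ofInjective (P.conj_inj hker)).toEquiv).symm

/-- with a multiplier homomorphism detecting the inner automorphisms -/
theorem card_delta {C : Type*} [CommGroup C] (μ : P.Γ →* C) (hμ : Function.Surjective μ) (D : Subgroup C)
    (hD : ∀ g, P.delta g ∈ Cfsg.Inn (S ⧸ Subgroup.center S) ↔ μ g ∈ D) :
    Nat.card P.delta.range = D.index * Nat.card (S ⧸ Subgroup.center S) := by
  have h1 : (Cfsg.Inn (S ⧸ Subgroup.center S)).relIndex P.delta.range = D.index := by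
    rw [← Subgroup.index_comap]
    have h2 : (Cfsg.Inn (S ⧸ Subgroup.center S)).comap P.delta = D.comap μ := by
      ext g
      exact hD g
    rw [h2, Subgroup.index_comap_of_surjective _ hμ]
  rw [← h1, ← P.card_inn hker, mul_comm]
  have h3 := ((Cfsg.Inn (S ⧸ Subgroup.center S)).subgroupOf P.delta.range).card_mul_index
  rw [Nat.card_congr (Subgroup.subgroupOfEquivOfLe P.inn_le).toEquiv] at h3
  exact h3.symm

theorem mem_centralizer_iff (σ : P.A) (g : P.Γ) :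
    P.delta g ∈ Subgroup.centralizer {P.psi σ} ↔ ∃ c : F, g.1.1.map σ.1 = c • g.1.1 := by
  rw [Subgroup.mem_centralizer_singleton_iff, P.psi_delta, mul_left_inj, P.delta_eq_iff hker]
  rfl

end ker

/-- conjugating by a solution of Lang's equation -/
theorem lang_conj (σ : P.A) {g k z : P.Γ} (hz : P.IsSc z) (hk : z * g * P.fG σ k = k) :
    P.delta g * P.psi σ = P.delta k * P.psi σ * (P.delta k)⁻¹ := by
  have h3 : P.delta k = P.delta g * P.delta (P.fG σ k) := by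
    conv_lhs => rw [← hk]
    rw [map_mul, map_mul, P.delta_of_sc hz, one_mul]
  have h4 := P.psi_delta σ k
  calc P.delta g * P.psi σ = P.delta g * P.delta (P.fG σ k) * (P.delta (P.fG σ k))⁻¹ * P.psi σ := by group
    _ = P.delta k * (P.delta (P.fG σ k))⁻¹ * P.psi σ := by rw [← h3]
    _ = P.delta k * ((P.delta (P.fG σ k))⁻¹ * (P.psi σ * P.delta k)) * (P.delta k)⁻¹ := by group
    _ = P.delta k * ((P.delta (P.fG σ k))⁻¹ * (P.delta (P.fG σ k) * P.psi σ)) * (P.delta k)⁻¹ := by rw [h4]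
    _ = _ := by group

theorem NS_scalar_fixed (σ : P.A) {r : ℕ} (hr : orderOf σ.1 = r) {g : P.Γ} {c : F} [Nonempty ι]
    (h : (P.NS σ g r).1.1 = c • (1 : Matrix ι ι F)) : σ.1 c = c := by
  have h1 : (P.NS σ g (r + 1)).1.1 = g.1.1 * (c • (1 : Matrix ι ι F)).map σ.1 := by
    rw [NS_succ]
    show g.1.1 * (P.NS σ g r).1.1.map σ.1 = _
    rw [h]
  have hσr : σ ^ r = 1 := by
    apply Subtype.ext
    show σ.1 ^ r = 1
    rw [← hr, pow_orderOf_eq_one]
  have h2 : (P.NS σ g (r + 1)).1.1 = c • g.1.1 := by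
    rw [NS_comm, hσr, fG_one]
    show (P.NS σ g r).1.1 * g.1.1 = _
    rw [h, smul_mul_assoc, one_mul]
  have h3 : (c • (1 : Matrix ι ι F)).map σ.1 = σ.1 c • (1 : Matrix ι ι F) := by
    ext i j
    show σ.1 (c * (1 : Matrix ι ι F) i j) = σ.1 c * (1 : Matrix ι ι F) i j
    rw [map_mul]
    by_cases hij : i = j
    · subst hij; rw [Matrix.one_apply_eq, map_one]
    · rw [Matrix.one_apply_ne hij, map_zero]
  rw [h2, h3, mul_smul_comm, mul_one] at h1
  have hne : g.1.1 ≠ 0 := by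
    intro h0
    have h5 : g.1.1 * (g.1⁻¹).1 = 1 := by rw [← Units.val_mul, mul_inv_cancel, Units.val_one]
    rw [h0, zero_mul] at h5
    obtain ⟨i⟩ := ‹Nonempty ι›
    have := congrFun (congrFun h5 i) i
    rw [Matrix.one_apply_eq, Matrix.zero_apply] at this
    exact zero_ne_one this
  obtain ⟨a, b, hab⟩ : ∃ a b, g.1.1 a b ≠ 0 := by
    by_contra hcon
    push Not at hcon
    apply hne
    ext a b
    exact hcon a b
  have h4 := congrFun (congrFun h1 a) b
  exact (mul_right_cancel₀ hab h4).symm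

/-- Lang's theorem for the coset of a field automorphism -/
theorem coset_field (hker : ∀ (g : P.Γ) (σ : P.A), P.delta g * P.psi σ = 1 → σ = 1 ∧ P.IsSc g) [Nonempty ι]
    (σ : P.A) {r : ℕ} (hr : orderOf σ.1 = r)
    (hsc : ∀ (z : P.Γ) (c : F), z.1.1 = c • (1 : Matrix ι ι F) → σ.1 c = c → ∃ (w : P.Γ) (b : F), w.1.1 = b • (1 : Matrix ι ι F) ∧ FinGal.nm σ.1 b r * c = 1)
    (hlang : ∀ g : P.Γ, P.NS σ g r = 1 → ∃ k : P.Γ, g * P.fG σ k = k)
    (g : P.Γ) (h : (P.delta g * P.psi σ) ^ r = 1) :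
    ∃ k : P.Γ, P.delta g * P.psi σ = P.delta k * P.psi σ * (P.delta k)⁻¹ := by
  have hσr : σ ^ r = 1 := by
    apply Subtype.ext
    show σ.1 ^ r = 1
    rw [← hr, pow_orderOf_eq_one]
  have h1 : P.delta (P.NS σ g r) = 1 := by
    rw [pow_eq, hσr, map_one, mul_one] at h
    exact h
  obtain ⟨c, hc⟩ := (P.delta_eq_one_iff hker _).1 h1
  have hcσ := P.NS_scalar_fixed σ hr hc
  obtain ⟨w, b, hw, hb⟩ := hsc _ c hc hcσ
  have h2 : P.NS σ (w * g) r = 1 := by
    apply Subtype.ext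
    apply Units.ext
    rw [P.NS_smul σ hw, hc, smul_smul, hb, one_smul]; rfl
  obtain ⟨k, hk⟩ := hlang _ h2
  exact ⟨k, P.lang_conj σ ⟨b, hw⟩ hk⟩

end Sys

end Cfsg.Agent.H8.MSys
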