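import Mathlib
import Cfsg.Agent.H8.MSys

set_option autoImplicit false
set_option linter.all false

/-! Outer automorphism groups for matrix groups with similitudes. -/

namespace Cfsg.Agent.H8.MSys

open Matrix Cfsg.Agent.H8.GrStd Cfsg.Agent.H8.AutPSL Cfsg.Agent.Lib

namespace Sys

variable {ι : Type*} [Fintype ι] [DecidableEq ι] {F : Type*} [Field F] {S : Type*} [Group S] (P : Sys ι F S)

theorem out_hom (htop : P.stdG = ⊤) (hker : ∀ (g : P.Γ) (σ : P.A), P.delta g * P.psi σ = 1 → σ = 1 ∧ P.IsSc g) :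
    ∃ φ : Cfsg.Out (S ⧸ Subgroup.center S) →* P.A, Function.Surjective φ ∧
      (∀ x, φ x = 1 ↔ ∃ g : P.Γ, x = QuotientGroup.mk (P.delta g)) := by
  have hex : ∀ α : MulAut (S ⧸ Subgroup.center S), ∃ σ : P.A, ∃ g : P.Γ, α = P.delta g * P.psi σ := by
    intro α
    obtain ⟨g, σ, h⟩ := P.mem_stdG.1 (by rw [htop]; trivial : α ∈ P.stdG)
    exact ⟨σ, g, h⟩
  have huniq : ∀ (g h : P.Γ) (σ ρ : P.A), P.delta g * P.psi σ = P.delta h * P.psi ρ → σ = ρ := by
    intro g h σ ρ h1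
    have h2 : P.delta (h⁻¹ * g) * P.psi (σ * ρ⁻¹) = 1 := by
      rw [map_mul, map_mul, map_inv, map_inv]
      calc _ = (P.delta h)⁻¹ * (P.delta g * P.psi σ) * (P.psi ρ)⁻¹ := by group
        _ = _ := by rw [h1]; group
    have h3 := (hker _ _ h2).1
    rwa [mul_inv_eq_one] at h3
  choose s hs using hex
  have key : ∀ (g : P.Γ) (σ : P.A), s (P.delta g * P.psi σ) = σ := by
    intro g σ
    obtain ⟨g', hg'⟩ := hs (P.delta g * P.psi σ)
    exact (huniq _ _ _ _ hg').symm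
  let φ0 : MulAut (S ⧸ Subgroup.center S) →* P.A := MonoidHom.mk' s (by
    intro α β
    obtain ⟨g, hg⟩ := hs α
    obtain ⟨h, hh⟩ := hs β
    have : α * β = P.delta (g * P.fG (s α) h) * P.psi (s α * s β) := by
      conv_lhs => rw [hg, hh]
      rw [map_mul, map_mul]
      calc _ = P.delta g * (P.psi (s α) * P.delta h) * P.psi (s β) := by group
        _ = _ := by rw [psi_delta]; group
    rw [this, key])
  have hφd : ∀ g : P.Γ, φ0 (P.delta g) = 1 := by
    intro g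
    have := key g 1
    rwa [map_one, mul_one] at this
  have hle : Cfsg.Inn (S ⧸ Subgroup.center S) ≤ φ0.ker := by
    intro α hα
    obtain ⟨g, rfl⟩ := P.inn_le hα
    exact hφd g
  refine ⟨QuotientGroup.lift _ φ0 hle, ?_, ?_⟩
  · intro σ
    refine ⟨QuotientGroup.mk (P.psi σ), ?_⟩
    show s (P.psi σ) = σ
    have := key 1 σ
    rwa [map_one, one_mul] at this
  · intro x
    obtain ⟨α, rfl⟩ := QuotientGroup.mk_surjective x
    constructor
    · intro h
      have h' : s α = 1 := h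
      obtain ⟨g, hg⟩ := hs α
      rw [h', map_one, mul_one] at hg
      exact ⟨g, by rw [hg]⟩
    · rintro ⟨g, hg⟩
      rw [hg]
      exact hφd g

theorem out_ker_cyclic {C : Type*} [CommGroup C] [IsCyclic C] (μ : P.Γ →* C) (hμ : Function.Surjective μ) (D : Subgroup C)
    (hD : ∀ g, P.delta g ∈ Cfsg.Inn (S ⧸ Subgroup.center S) ↔ μ g ∈ D) {B : Type*} [Group B] (φ : Cfsg.Out (S ⧸ Subgroup.center S) →* B)
    (h : ∀ x, φ x = 1 ↔ ∃ g : P.Γ, x = QuotientGroup.mk (P.delta g)) : IsCyclic φ.ker := by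
  obtain ⟨u, hu⟩ := IsCyclic.exists_generator (α := C)
  obtain ⟨g0, rfl⟩ := hμ u
  refine ⟨⟨⟨QuotientGroup.mk (P.delta g0), (h _).2 ⟨g0, rfl⟩⟩, ?_⟩⟩
  rintro ⟨x, hx⟩
  obtain ⟨g, rfl⟩ := (h x).1 hx
  obtain ⟨k, hk⟩ := hu (μ g)
  refine ⟨k, ?_⟩
  apply Subtype.ext
  show (QuotientGroup.mk (P.delta g0) : Cfsg.Out (S ⧸ Subgroup.center S)) ^ k = QuotientGroup.mk (P.delta g)
  rw [← QuotientGroup.mk_zpow, QuotientGroup.eq, ← map_zpow, ← map_inv, ← map_mul]
  rw [hD, map_mul, map_inv, map_zpow]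
  have hk' : (μ g0) ^ k = μ g := hk
  rw [hk', inv_mul_cancel]
  exact one_mem _

end Sys

end Cfsg.Agent.H8.MSys
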