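import Mathlib
import Cfsg.Agent.H8.GrOddO2

set_option autoImplicit false
set_option linter.all false

/-! Orthogonal groups of odd dimension: the input. -/

namespace Cfsg.Agent.H8.Ort

open scoped commutatorElement
open Matrix Pointwise Cfsg.Agent.H8.AutBN Cfsg.Agent.H8.SLPat Cfsg.Agent.H8.SLTri Cfsg.Agent.H8.SLData
  Cfsg.Agent.H8.Theta Cfsg.Agent.H8.GrComb Cfsg.Agent.H8.GrData Cfsg.Agent.H8.GrShort Cfsg.Agent.H8.GrPi
  Cfsg.Agent.H8.GrCen Cfsg.Agent.H8.GrStd Cfsg.Agent.H8.GrGen Cfsg.Agent.H8.GrOdd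

variable (k : ℕ) {F : Type*} [Field F] [Finite F]

/-- the form group -/
abbrev GO1 (k : ℕ) (F : Type*) [Field F] : Subgroup (SpecialLinearGroup (Fin (2 * k + 2 + 1)) F) := Gr (RingEquiv.refl F) (e1 (2 * k + 2) F)

omit [Finite F] in
theorem xm (h2 : (2 : F) ≠ 0) (t : F) : X3 (t3 k) t (-t) (-(t ^ 2) / 2) ∈ GO1 k F := by
  rw [X3_mem_iff (t3 k) (RingEquiv.refl F) (fun _ => rfl) (rev_lc k) rfl]
  refine ⟨rfl, ?_⟩
  show -(t ^ 2) / 2 + -(t ^ 2) / 2 = -(t * t)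
  field_simp; ring

omit [Finite F] in
theorem ym (h2 : (2 : F) ≠ 0) (t : F) : X3 (t3 k).symm t (-t) (-(t ^ 2) / 2) ∈ GO1 k F := by
  rw [X3_mem_iff (t3 k).symm (RingEquiv.refl F) (fun _ => rfl) (rev_lc k) (by rw [Fin.rev_rev])]
  refine ⟨rfl, ?_⟩
  show -(t ^ 2) / 2 + -(t ^ 2) / 2 = -(t * t)
  field_simp; ring

section K

variable (h2 : (2 : F) ≠ 0) (K : Subgroup (SpecialLinearGroup (Fin (2 * k + 2 + 1)) F))
  (hUK : ∀ u ∈ U (2 * k + 2) F, u ∈ GO1 k F → u ∈ K)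
  (hVK : ∀ u ∈ V (2 * k + 2) F, u ∈ GO1 k F → u ∈ K)

def xk (t : F) : K := ⟨_, hUK _ (OI.patb_U (OI.last_pat t (-t) (-(t ^ 2) / 2))) (xm k h2 t)⟩
def yk (t : F) : K := ⟨_, hVK _ (OI.patb_V (OI.last_pat' t (-t) (-(t ^ 2) / 2))) (ym k h2 t)⟩

/-- the reflection -/
def slk : K := xk k h2 K hUK 1 * yk k h2 K hVK (-2 * -1) * xk k h2 K hUK 1

theorem slk_val : (slk k h2 K hUK hVK).1.1 = em (la k) (lc k) (lb k) !![0, 0, -1/2; 0, -1, 0; -2, 0, 0] := by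
  show (X3 (t3 k) 1 (-1) (-(1 ^ 2) / 2)).1 * (X3 (t3 k).symm (-2 * -1) (-(-2 * -1)) (-((-2 * -1) ^ 2) / 2)).1 * (X3 (t3 k) 1 (-1) (-(1 ^ 2) / 2)).1 = _
  rw [X3_em (t3 k), X3_em' (t3 k), ← em_mul (t3 k), ← em_mul (t3 k)]
  congr 1
  ext i j
  fin_cases i <;> fin_cases j <;> simp [Matrix.mul_apply, Fin.sum_univ_three] <;>
    first | done | (field_simp; done) | (field_simp; ring; done) | (field_simp; ring_nf; simp; done)

theorem slk_mono : Mono (slk k h2 K hUK hVK).1 (sg (hNk k) (il k)) := by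
  rw [← sg_last]
  intro i j hij
  show (slk k h2 K hUK hVK).1.1 i j = 0
  rw [slk_val, em_eq]
  have hac := (t3 k).ac
  have hcb := (t3 k).cb
  have hab := (t3 k).ab
  simp only [Fin.sum_univ_three, Matrix.sub_apply]
  by_cases j1 : j = la k
  · subst j1
    rw [Equiv.swap_apply_left] at hij
    by_cases i1 : i = la k
    · subst i1
      simp [hac, hab, hcb, hac.symm, hab.symm, hcb.symm]
    · simp [hac, hab, hcb, hac.symm, hab.symm, hcb.symm, hij, i1, Matrix.one_apply]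
  · by_cases j2 : j = lb k
    · subst j2
      rw [Equiv.swap_apply_right] at hij
      by_cases i1 : i = lb k
      · subst i1
        simp [hac, hab, hcb, hac.symm, hab.symm, hcb.symm]
      · simp [hac, hab, hcb, hac.symm, hab.symm, hcb.symm, hij, i1, Matrix.one_apply]
    · rw [Equiv.swap_apply_of_ne_of_ne j1 j2] at hij
      by_cases j3 : j = lc k
      · subst j3
        simp [hac, hab, hcb, hac.symm, hab.symm, hcb.symm, hij, Matrix.one_apply]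
      · simp [j1, j2, j3, hij, Matrix.one_apply]

/-- the input -/
def oiO (hK : K ≤ GO1 k F) : OI k F where
  τ := RingEquiv.refl F
  hτ := fun _ => rfl
  K := K
  hK := hK
  hUK := hUK
  hVK := hVK
  sl := slk k h2 K hUK hVK
  slm := slk_mono k h2 K hUK hVK
  slg := by
    have h1 : ∀ t, xk k h2 K hUK t ∈ pu K (strb (hNk k) (il k)) ⊔ pu K (str_swap (strb (hNk k) (il k))) := fun t =>
      Subgroup.mem_sup_left (mem_pu.2 (OI.last_pat _ _ _))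
    have h2 : ∀ t, yk k h2 K hVK t ∈ pu K (strb (hNk k) (il k)) ⊔ pu K (str_swap (strb (hNk k) (il k))) := fun t =>
      Subgroup.mem_sup_right (mem_pu.2 (OI.last_pat' _ _ _))
    exact mul_mem (mul_mem (h1 _) (h2 _)) (h1 _)
  Xl := by
    intro h
    have h1 : xk k h2 K hUK 1 ∈ pu K (strb (hNk k) (il k)) := mem_pu.2 (OI.last_pat _ _ _)
    rw [h, Subgroup.mem_bot] at h1
    have h3 : X3 (t3 k) 1 (-1) (-(1 ^ 2) / 2) = X3 (t3 k) 0 0 (0 : F) := by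
      rw [X3_zero]; exact congrArg Subtype.val h1
    exact one_ne_zero (X3_inj (t3 k) h3).1

theorem main_O (hK : K ≤ GO1 k F) (hk : 2 ≤ k) (hfl : ∀ (σ : F ≃+* F) s, AutPSL.fl σ s ∈ K ↔ s ∈ K)
    (hcg : ∀ g ∈ GJ (RingEquiv.refl F) (Jm (e1 (2 * k + 2) F)).1, ∀ s, AutPSL.cg g s ∈ K ↔ s ∈ K)
    (α : MulAut (QG (oiO k h2 K hUK hVK hK).inp)) :
    ∃ (g : GL (Fin (2 * k + 2 + 1)) F) (hg : g ∈ GJ (RingEquiv.refl F) (Jm (e1 (2 * k + 2) F)).1) (σ : F ≃+* F),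
      α = (oiO k h2 K hUK hVK hK).iq ((oiO k h2 K hUK hVK hK).cgK g (hcg g hg) * (oiO k h2 K hUK hVK hK).flK hfl σ) :=
  OI.main_orth (oiO k h2 K hUK hVK hK) (fun _ => rfl) h2 hfl hcg hk rfl α

end K

end Cfsg.Agent.H8.Ort
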