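import Mathlib
import Cfsg.Prelude.Def_LieTypeDatum
import Cfsg.Agent.H8.Ort1
import Cfsg.Agent.Lib.Orth14

set_option autoImplicit false
set_option linter.all false

/-! Orthogonal groups: derived groups of isometry groups inside `GL`; change of coordinates. -/

namespace Cfsg.Agent.H8.Ort

open Matrix Cfsg.Agent.H8.GrStd Cfsg.Agent.H8.AutPSL

/-- transport of the derived group -/
theorem comm_transport {A B : Type*} [Group A] [Group B] (φ : A ≃* B) (H : Subgroup A) (H' : Subgroup B)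
    (h : ∀ x, φ x ∈ H' ↔ x ∈ H) (x : A) : φ x ∈ ⁅H', H'⁆ ↔ x ∈ ⁅H, H⁆ := by
  have h1 : H' = H.map (φ : A →* B) := by
    ext y
    constructor
    · intro hy
      obtain ⟨z, rfl⟩ := φ.surjective y
      exact ⟨z, (h z).1 hy, rfl⟩
    · rintro ⟨z, hz, rfl⟩
      exact (h z).2 hz
  rw [h1, ← Subgroup.map_commutator]
  exact Subgroup.mem_map_iff_mem φ.injective

section Om

variable {ι : Type} [Fintype ι] [DecidableEq ι] {F : Type*} [Field F]

/-- derived group of the isometry group, inside `GL` -/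
def Om (F : Type*) [Field F] (Q : (ι → F) → F) : Subgroup (GL ι F) := ⁅Cfsg.isometryGroup F Q, Cfsg.isometryGroup F Q⁆

theorem mem_Om {Q : (ι → F) → F} {x : GL ι F} : x ∈ Om F Q ↔ ∃ s : Cfsg.Omega F Q, s.1.1 = x := by
  unfold Om
  rw [← Subgroup.map_subtype_commutator]
  constructor
  · rintro ⟨y, hy, rfl⟩
    exact ⟨⟨y, hy⟩, rfl⟩
  · rintro ⟨s, rfl⟩
    exact ⟨s.1, s.2, rfl⟩

theorem mem_iso {Q : (ι → F) → F} {g : GL ι F} : g ∈ Cfsg.isometryGroup F Q ↔ ∀ v, Q (g.1 *ᵥ v) = Q v := by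
  constructor
  · intro h v
    exact h v v
  · intro h v w
    exact h v

theorem Om_le (Q : (ι → F) → F) : Om F Q ≤ Cfsg.isometryGroup F Q :=
  Subgroup.commutator_le_self _

theorem iso_le_sim (Q : (ι → F) → F) : Cfsg.isometryGroup F Q ≤ Cfsg.Geo.quadSimilarityGroup Q := by
  intro g hg
  refine ⟨1, fun v => ?_⟩
  rw [mem_iso.1 hg, Units.val_one, one_mul]

theorem conj_iso {Q : (ι → F) → F} {g : GL ι F} (hg : g ∈ Cfsg.Geo.quadSimilarityGroup Q) (x : GL ι F) :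
    MulAut.conj g x ∈ Cfsg.isometryGroup F Q ↔ x ∈ Cfsg.isometryGroup F Q := by
  have key : ∀ g : GL ι F, g ∈ Cfsg.Geo.quadSimilarityGroup Q → ∀ x, x ∈ Cfsg.isometryGroup F Q → g * x * g⁻¹ ∈ Cfsg.isometryGroup F Q := by
    rintro g hg x hx
    obtain ⟨c, hc⟩ := hg
    obtain ⟨d, hd⟩ := inv_mem hg
    rw [mem_iso] at hx ⊢
    intro v
    show Q ((g.1 * x.1 * (g⁻¹).1) *ᵥ v) = Q v
    rw [← Matrix.mulVec_mulVec, ← Matrix.mulVec_mulVec, hc, hx, ← hc, Matrix.mulVec_mulVec, ← Units.val_mul, mul_inv_cancel, Units.val_one,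
      Matrix.one_mulVec]
  constructor
  · intro h
    have := key g⁻¹ (inv_mem hg) _ h
    rw [MulAut.conj_apply] at this
    have e : g⁻¹ * (g * x * g⁻¹) * g⁻¹⁻¹ = x := by group
    rwa [e] at this
  · intro h
    exact key g hg x h

theorem conj_Om {Q : (ι → F) → F} {g : GL ι F} (hg : g ∈ Cfsg.Geo.quadSimilarityGroup Q) (x : GL ι F) :
    MulAut.conj g x ∈ Om F Q ↔ x ∈ Om F Q := comm_transport (MulAut.conj g) _ _ (conj_iso hg) x

/-- field automorphisms on `GL` -/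
def mgE (σ : F ≃+* F) : GL ι F ≃* GL ι F where
  toFun := mg σ
  invFun := mg σ⁻¹
  left_inv g := by
    apply Units.ext
    ext i j
    exact σ.symm_apply_apply _
  right_inv g := by
    apply Units.ext
    ext i j
    exact σ.apply_symm_apply _
  map_mul' := map_mul _

theorem mgE_apply (σ : F ≃+* F) (g : GL ι F) : mgE σ g = mg σ g := rfl

/-- automorphisms of the field fixing the form -/
def fixQ (Q : (ι → F) → F) : Subgroup (F ≃+* F) where
  carrier := {σ | ∀ v, Q (fun i => σ (v i)) = σ (Q v)}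
  one_mem' := fun v => rfl
  mul_mem' := by
    intro σ τ hσ hτ v
    show Q (fun i => σ (τ (v i))) = σ (τ (Q v))
    rw [hσ (fun i => τ (v i)), hτ]
  inv_mem' := by
    intro σ hσ v
    have h := hσ (fun i => σ⁻¹ (v i))
    have h1 : (fun i => σ (σ⁻¹ (v i))) = v := by
      funext i; exact σ.apply_symm_apply _
    rw [h1] at h
    rw [h]
    exact (σ.symm_apply_apply _).symm

theorem mulVec_map' (σ : F ≃+* F) (M : Matrix ι ι F) (v : ι → F) :
    (M.map σ) *ᵥ v = fun i => σ ((M *ᵥ (fun j => σ.symm (v j))) i) := by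
  funext i
  simp only [Matrix.mulVec, dotProduct, map_sum, map_mul, Matrix.map_apply, RingEquiv.apply_symm_apply]

theorem mg_sim {Q : (ι → F) → F} {σ : F ≃+* F} (hσ : σ ∈ fixQ Q) {g : GL ι F} {c : F}
    (hg : ∀ v, Q (g.1 *ᵥ v) = c * Q v) (v : ι → F) : Q ((mg σ g).1 *ᵥ v) = σ c * Q v := by
  show Q ((g.1.map σ) *ᵥ v) = _
  rw [mulVec_map', hσ, hg, map_mul]
  congr 1
  rw [← hσ (fun j => σ.symm (v j))]
  congr 1
  funext j
  exact σ.apply_symm_apply _

theorem mg_mem_sim {Q : (ι → F) → F} {σ : F ≃+* F} (hσ : σ ∈ fixQ Q) {g : GL ι F} (hg : g ∈ Cfsg.Geo.quadSimilarityGroup Q) :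
    mg σ g ∈ Cfsg.Geo.quadSimilarityGroup Q := by
  obtain ⟨c, hc⟩ := hg
  refine ⟨Units.mk0 (σ c) ((map_ne_zero_iff σ σ.injective).2 c.ne_zero), fun v => ?_⟩
  exact mg_sim hσ hc v

theorem mg_mem_iso {Q : (ι → F) → F} {σ : F ≃+* F} (hσ : σ ∈ fixQ Q) (g : GL ι F) :
    mgE σ g ∈ Cfsg.isometryGroup F Q ↔ g ∈ Cfsg.isometryGroup F Q := by
  have key : ∀ σ : F ≃+* F, σ ∈ fixQ Q → ∀ g : GL ι F, g ∈ Cfsg.isometryGroup F Q → mg σ g ∈ Cfsg.isometryGroup F Q := by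
    intro σ hσ g hg
    rw [mem_iso] at hg ⊢
    intro v
    rw [mg_sim hσ (c := 1) (fun v => by rw [hg, one_mul]), map_one, one_mul]
  constructor
  · intro h
    have := key σ⁻¹ (inv_mem hσ) _ h
    have e : mg σ⁻¹ (mgE σ g) = g := (mgE σ).symm_apply_apply g
    rwa [e] at this
  · exact key σ hσ g

theorem mg_mem_Om {Q : (ι → F) → F} {σ : F ≃+* F} (hσ : σ ∈ fixQ Q) (g : GL ι F) :
    mgE σ g ∈ Om F Q ↔ g ∈ Om F Q := comm_transport (mgE σ) _ _ (mg_mem_iso hσ) g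

/-- elements of odd order are in the derived group -/
theorem odd_mem_Om [Finite F] (Q : QuadraticForm F (ι → F)) (hQ : Cfsg.Agent.Lib.Orth.ND Q) (h2 : (2 : F) ≠ 0) (hn : 2 ≤ Module.finrank F (ι → F))
    {x : GL ι F} (hx : x ∈ Cfsg.isometryGroup F ⇑Q) (ho : Odd (orderOf x)) : x ∈ Om F ⇑Q := by
  let y : Cfsg.isometryGroup F ⇑Q := ⟨x, hx⟩
  have hidx : (Cfsg.Omega F ⇑Q).index = 4 := by
    rw [Cfsg.Agent.Lib.Orth.index_Omega]
    exact Cfsg.Agent.Lib.Orth.index_commutator_odd hQ h2 hn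
  have h4 : y ^ 4 ∈ Cfsg.Omega F ⇑Q := by
    rw [← hidx]
    exact Subgroup.pow_index_mem _ y
  have hoy : orderOf y = orderOf x := (Subgroup.orderOf_coe y).symm
  have hcop : Nat.Coprime (orderOf y) 4 := by
    rw [hoy]
    exact Nat.Coprime.pow_right 2 (Nat.coprime_two_right.2 ho)
  have h5 : y ∈ Subgroup.zpowers (y ^ 4) := by
    rw [Subgroup.mem_zpowers_iff]
    obtain ⟨a, b, hab⟩ : ∃ a b : ℤ, (orderOf y : ℤ) * a + 4 * b = 1 := by
      refine ⟨Nat.gcdA (orderOf y) 4, Nat.gcdB (orderOf y) 4, ?_⟩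
      have := Nat.gcd_eq_gcd_ab (orderOf y) 4
      rw [hcop.gcd_eq_one] at this
      push_cast at this
      exact this.symm
    refine ⟨b, ?_⟩
    have h6 : y = y ^ ((orderOf y : ℤ) * a + 4 * b) := by rw [hab, zpow_one]
    conv_rhs => rw [h6]
    rw [_root_.zpow_add, _root_.zpow_mul, zpow_natCast, pow_orderOf_eq_one, _root_.one_zpow, one_mul, _root_.zpow_mul]
    norm_cast
  have h7 : y ∈ Cfsg.Omega F ⇑Q := (Subgroup.zpowers_le.2 h4) h5
  exact mem_Om.2 ⟨⟨y, h7⟩, rfl⟩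

end Om

end Cfsg.Agent.H8.Ort
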