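import Mathlib
import Cfsg.Agent.H8.Ort2

set_option autoImplicit false
set_option linter.all false

/-! Orthogonal groups of odd dimension: change of coordinates. -/

namespace Cfsg.Agent.H8.Ort

open Matrix Cfsg.Agent.H8.GrStd Cfsg.Agent.H8.AutPSL Cfsg.Agent.H8.Theta Cfsg.Agent.H8.GrCen Cfsg.Agent.H8.GrOdd

/-- indices -/
abbrev OIx (m : ℕ) : Type := Unit ⊕ (Fin m ⊕ Fin m)

def ixF (k : ℕ) : OIx (k + 1) → Fin (2 * k + 2 + 1)
  | .inl _ => lc k
  | .inr (.inl i) => pa i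
  | .inr (.inr i) => Fin.rev (pa i)

theorem ixF_inj (k : ℕ) : Function.Injective (ixF k) := by
  rintro (⟨⟩ | i | i) (⟨⟩ | j | j) h
  · rfl
  · have := congrArg Fin.val h
    have h1 : k + 1 = (j : ℕ) := this
    omega
  · have := congrArg Fin.val h
    have h1 : k + 1 = ((Fin.rev (pa j) : Fin (2 * k + 2 + 1)) : ℕ) := this
    rw [rev_val, pa_val] at h1; omega
  · have := congrArg Fin.val h
    have h1 : (i : ℕ) = k + 1 := this
    omega
  · have := congrArg Fin.val h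
    have h1 : (i : ℕ) = j := this
    rw [Fin.ext h1]
  · have := congrArg Fin.val h
    have h1 : (i : ℕ) = ((Fin.rev (pa j) : Fin (2 * k + 2 + 1)) : ℕ) := this
    rw [rev_val, pa_val] at h1; omega
  · have := congrArg Fin.val h
    have h1 : ((Fin.rev (pa i) : Fin (2 * k + 2 + 1)) : ℕ) = k + 1 := this
    rw [rev_val, pa_val] at h1; omega
  · have := congrArg Fin.val h
    have h1 : ((Fin.rev (pa i) : Fin (2 * k + 2 + 1)) : ℕ) = j := this
    rw [rev_val, pa_val] at h1; omega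
  · have h1 : pa i = pa j := Fin.rev_injective h
    have := congrArg Fin.val h1
    have h1 : (i : ℕ) = j := this
    rw [Fin.ext h1]

noncomputable def ix (k : ℕ) : OIx (k + 1) ≃ Fin (2 * k + 2 + 1) :=
  Equiv.ofBijective (ixF k) ((Fintype.bijective_iff_injective_and_card _).2 ⟨ixF_inj k, by simp; ring⟩)

variable {F : Type*} [Field F]

/-- scaling -/
def dv (m : ℕ) (F : Type*) [Field F] : OIx m → F
  | .inl _ => 1
  | .inr (.inl _) => 1
  | .inr (.inr _) => 2

theorem dv_ne (h2 : (2 : F) ≠ 0) {m : ℕ} (i : OIx m) : dv m F i ≠ 0 := by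
  rcases i with ⟨⟩ | i | i
  · exact one_ne_zero
  · exact one_ne_zero
  · exact h2

/-- the vector map -/
noncomputable def WV (k : ℕ) (x : Fin (2 * k + 2 + 1) → F) : OIx (k + 1) → F := fun i => dv (k + 1) F i * x (ix k i)

theorem WV_surj (h2 : (2 : F) ≠ 0) (k : ℕ) : Function.Surjective (WV (F := F) k) := by
  intro v
  refine ⟨fun j => (dv (k + 1) F ((ix k).symm j))⁻¹ * v ((ix k).symm j), ?_⟩
  funext i
  show dv (k + 1) F i * ((dv (k + 1) F ((ix k).symm (ix k i)))⁻¹ * v ((ix k).symm (ix k i))) = v i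
  rw [Equiv.symm_apply_apply, mul_inv_cancel_left₀ (dv_ne h2 i)]

/-- the quadratic form in coordinates -/
def RQ (k : ℕ) (x : Fin (2 * k + 2 + 1) → F) : F := ∑ j, x j * x (Fin.rev j)

theorem RQ_WV (k : ℕ) (x : Fin (2 * k + 2 + 1) → F) : Cfsg.quadFormOdd (k + 1) F (WV k x) = RQ k x := by
  unfold RQ Cfsg.quadFormOdd
  rw [← Equiv.sum_comp (ix k), Fintype.sum_sum_type, Fintype.sum_sum_type]
  have h0 : ∀ u : Unit, ix k (Sum.inl u) = lc k := fun _ => rfl
  have h1 : ∀ i, ix k (Sum.inr (Sum.inl i)) = pa i := fun _ => rfl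
  have h3 : ∀ i, ix k (Sum.inr (Sum.inr i)) = Fin.rev (pa i) := fun _ => rfl
  simp only [Fintype.sum_unique, h0, h1, h3, rev_lc, Fin.rev_rev]
  show (1 * x (lc k)) ^ 2 + ∑ i, (1 * x (pa i)) * (2 * x (Fin.rev (pa i))) = _
  rw [← Finset.sum_add_distrib]
  congr 1
  · ring
  · exact Finset.sum_congr rfl fun i _ => by ring

/-- the diagonal element -/
def DG (h2 : (2 : F) ≠ 0) (m : ℕ) : GL (OIx m) F where
  val := Matrix.diagonal (dv m F)
  inv := Matrix.diagonal (fun i => (dv m F i)⁻¹)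
  val_inv := by
    rw [Matrix.diagonal_mul_diagonal, ← Matrix.diagonal_one]
    congr 1; funext i; exact mul_inv_cancel₀ (dv_ne h2 i)
  inv_val := by
    rw [Matrix.diagonal_mul_diagonal, ← Matrix.diagonal_one]
    congr 1; funext i; exact inv_mul_cancel₀ (dv_ne h2 i)

/-- the isomorphism of the general linear groups -/
noncomputable def Ph (h2 : (2 : F) ≠ 0) (k : ℕ) : GL (Fin (2 * k + 2 + 1)) F ≃* GL (OIx (k + 1)) F :=
  (Units.mapEquiv (Matrix.reindexAlgEquiv F F (ix k).symm : _ ≃* _)).trans (MulAut.conj (DG h2 (k + 1)))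

theorem Ph_apply (h2 : (2 : F) ≠ 0) (k : ℕ) (g : GL (Fin (2 * k + 2 + 1)) F) (i j : OIx (k + 1)) :
    (Ph h2 k g).1 i j = dv (k + 1) F i * g.1 (ix k i) (ix k j) * (dv (k + 1) F j)⁻¹ := by
  show (Matrix.diagonal (dv (k + 1) F) * (Matrix.reindexAlgEquiv F F (ix k).symm g.1) * Matrix.diagonal (fun i => (dv (k + 1) F i)⁻¹)) i j = _
  rw [Matrix.mul_diagonal, Matrix.diagonal_mul]
  rfl

theorem Ph_mulVec (h2 : (2 : F) ≠ 0) (k : ℕ) (g : GL (Fin (2 * k + 2 + 1)) F) (x : Fin (2 * k + 2 + 1) → F) :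
    (Ph h2 k g).1 *ᵥ (WV k x) = WV k (g.1 *ᵥ x) := by
  funext i
  show ∑ j, (Ph h2 k g).1 i j * (dv (k + 1) F j * x (ix k j)) = dv (k + 1) F i * ∑ j, g.1 (ix k i) j * x j
  rw [← Equiv.sum_comp (ix k) (fun j => g.1 (ix k i) j * x j), Finset.mul_sum]
  refine Finset.sum_congr rfl fun j _ => ?_
  rw [Ph_apply]
  have := dv_ne h2 j
  field_simp

theorem Ph_mg (h2 : (2 : F) ≠ 0) (k : ℕ) (σ : F ≃+* F) (g : GL (Fin (2 * k + 2 + 1)) F) : Ph h2 k (mg σ g) = mg σ (Ph h2 k g) := by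
  have hd : ∀ i : OIx (k + 1), σ (dv (k + 1) F i) = dv (k + 1) F i := by
    rintro (⟨⟩ | i | i)
    · exact map_one σ
    · exact map_one σ
    · exact map_ofNat σ 2
  apply Units.ext
  ext i j
  rw [Ph_apply]
  show _ = σ ((Ph h2 k g).1 i j)
  rw [Ph_apply, map_mul, map_mul, map_inv₀, hd, hd]; rfl

/-- symmetric matrices -/
theorem sym_zero (h2 : (2 : F) ≠ 0) {n : Type*} [Fintype n] [DecidableEq n] {M : Matrix n n F} (hM : M.transpose = M) (h : ∀ x, x ⬝ᵥ (M *ᵥ x) = 0) : M = 0 := by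
  have hb : ∀ i j, Pi.single i (1 : F) ⬝ᵥ (M *ᵥ Pi.single j 1) = M i j := by
    intro i j
    rw [single_one_dotProduct, Matrix.mulVec_single_one]; rfl
  ext i j
  have h1 := h (Pi.single i 1 + Pi.single j 1)
  rw [Matrix.mulVec_add, dotProduct_add, add_dotProduct, add_dotProduct, h, h] at h1
  rw [hb, hb] at h1
  have h3 : M j i = M i j := congrFun (congrFun hM i) j
  rw [h3] at h1
  have h4 : 2 * M i j = 0 := by linear_combination h1
  exact (mul_eq_zero.1 h4).resolve_left h2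

theorem RQ_eq (k : ℕ) (x : Fin (2 * k + 2 + 1) → F) : RQ k x = x ⬝ᵥ ((Jm (e1 (2 * k + 2) F)).1 *ᵥ x) := by
  unfold RQ
  refine Finset.sum_congr rfl fun j _ => ?_
  congr 1
  show _ = ∑ l, Jf _ j l * x l
  rw [Finset.sum_eq_single (Fin.rev j)]
  · rw [Jf_apply, if_pos rfl]
    show _ = ((1 : Fˣ) : F) * _
    rw [Units.val_one, one_mul]
  · intro l _ hl
    rw [Jf_apply, if_neg hl, zero_mul]
  · simp

theorem J_tr (k : ℕ) : (Jm (e1 (2 * k + 2) F)).1.transpose = (Jm (e1 (2 * k + 2) F)).1 := by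
  ext i j
  show Jf (fun a => ((e1 (2 * k + 2) F a : Fˣ) : F)) j i = Jf (fun a => ((e1 (2 * k + 2) F a : Fˣ) : F)) i j
  rw [Jf_apply, Jf_apply]
  by_cases h : i = Fin.rev j
  · subst h
    rw [if_pos rfl, if_pos (Fin.rev_rev j).symm]
  · rw [if_neg h, if_neg (fun h' => h (by rw [h', Fin.rev_rev]))]

theorem J_sq (k : ℕ) : (Jm (e1 (2 * k + 2) F)).1 * (Jm (e1 (2 * k + 2) F)).1 = 1 := by
  have h := (Jm (e1 (2 * k + 2) F)).val_inv
  have h1 : (Jm (e1 (2 * k + 2) F)).inv = (Jm (e1 (2 * k + 2) F)).1 := by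
    show Jf (fun a => (((e1 (2 * k + 2) F (Fin.rev a))⁻¹ : Fˣ) : F)) = Jf (fun a => ((e1 (2 * k + 2) F a : Fˣ) : F))
    have h0 : ∀ a : Fin (2 * k + 2 + 1), (((e1 (2 * k + 2) F (Fin.rev a))⁻¹ : Fˣ) : F) = ((e1 (2 * k + 2) F a : Fˣ) : F) := by
      intro a
      show (((1 : Fˣ)⁻¹ : Fˣ) : F) = ((1 : Fˣ) : F)
      rw [inv_one]
    simp only [h0]
  rwa [h1] at h

/-- similarity in coordinates -/
theorem sim_iff (h2 : (2 : F) ≠ 0) (k : ℕ) (g : GL (Fin (2 * k + 2 + 1)) F) (c : F) :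
    (∀ v, Cfsg.quadFormOdd (k + 1) F ((Ph h2 k g).1 *ᵥ v) = c * Cfsg.quadFormOdd (k + 1) F v) ↔
      g.1 * (Jm (e1 (2 * k + 2) F)).1 * g.1.transpose = c • (Jm (e1 (2 * k + 2) F)).1 := by
  set J := (Jm (e1 (2 * k + 2) F)).1 with hJ
  have h1 : (∀ v, Cfsg.quadFormOdd (k + 1) F ((Ph h2 k g).1 *ᵥ v) = c * Cfsg.quadFormOdd (k + 1) F v) ↔ g.1.transpose * J * g.1 = c • J := by
    have e : ∀ x : Fin (2 * k + 2 + 1) → F, RQ k (g.1 *ᵥ x) - c * RQ k x = x ⬝ᵥ ((g.1.transpose * J * g.1 - c • J) *ᵥ x) := by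
      intro x
      rw [RQ_eq, RQ_eq, Matrix.sub_mulVec, dotProduct_sub, Matrix.smul_mulVec, dotProduct_smul, smul_eq_mul]
      congr 1
      rw [← Matrix.mulVec_mulVec, ← Matrix.mulVec_mulVec, Matrix.dotProduct_mulVec x g.1.transpose, Matrix.vecMul_transpose]
    constructor
    · intro h
      have := sym_zero h2 (M := g.1.transpose * J * g.1 - c • J) (by
        rw [Matrix.transpose_sub, Matrix.transpose_mul, Matrix.transpose_mul, Matrix.transpose_transpose, J_tr, Matrix.transpose_smul, J_tr,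
          Matrix.mul_assoc]) (by
        intro x
        rw [← e]
        have := h (WV k x)
        rw [Ph_mulVec, RQ_WV, RQ_WV] at this
        rw [this, sub_self])
      exact sub_eq_zero.1 this
    · intro h v
      obtain ⟨x, rfl⟩ := WV_surj h2 k v
      rw [Ph_mulVec, RQ_WV, RQ_WV, ← sub_eq_zero, e, h, sub_self, Matrix.zero_mulVec, dotProduct_zero]
  rw [h1]
  have hJJ : J * J = 1 := J_sq k
  constructor
  · intro h
    have e1 : (J * g.1.transpose * J) * g.1 = c • (1 : Matrix _ _ F) := by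
      calc (J * g.1.transpose * J) * g.1 = J * (g.1.transpose * J * g.1) := by simp only [Matrix.mul_assoc]
        _ = _ := by rw [h, Matrix.mul_smul, hJJ]
    have e2 : J * g.1.transpose * J = c • (g⁻¹).1 := by
      have : J * g.1.transpose * J = (J * g.1.transpose * J) * g.1 * (g⁻¹).1 := by
        rw [Matrix.mul_assoc (J * g.1.transpose * J), ← Units.val_mul, mul_inv_cancel, Units.val_one, Matrix.mul_one]
      rw [this, e1, Matrix.smul_mul, Matrix.one_mul]
    calc g.1 * J * g.1.transpose = g.1 * (J * g.1.transpose * J) * J := by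
          rw [Matrix.mul_assoc g.1 (J * g.1.transpose * J), Matrix.mul_assoc (J * g.1.transpose), hJJ, Matrix.mul_one, Matrix.mul_assoc]
      _ = _ := by rw [e2, Matrix.mul_smul, ← Units.val_mul, mul_inv_cancel, Units.val_one, Matrix.smul_mul, Matrix.one_mul]
  · intro h
    have e1 : g.1 * (J * g.1.transpose * J) = c • (1 : Matrix _ _ F) := by
      calc g.1 * (J * g.1.transpose * J) = (g.1 * J * g.1.transpose) * J := by simp only [Matrix.mul_assoc]
        _ = _ := by rw [h, Matrix.smul_mul, hJJ]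
    have e2 : J * g.1.transpose * J = c • (g⁻¹).1 := by
      have : J * g.1.transpose * J = (g⁻¹).1 * (g.1 * (J * g.1.transpose * J)) := by
        rw [← Matrix.mul_assoc (g⁻¹).1, ← Units.val_mul, inv_mul_cancel, Units.val_one, Matrix.one_mul]
      rw [this, e1, Matrix.mul_smul, Matrix.mul_one]
    calc g.1.transpose * J * g.1 = J * (J * g.1.transpose * J) * g.1 := by
          rw [Matrix.mul_assoc J g.1.transpose, ← Matrix.mul_assoc J J, hJJ, Matrix.one_mul]
      _ = _ := by rw [e2, Matrix.mul_smul, Matrix.smul_mul, Matrix.mul_assoc, ← Units.val_mul, inv_mul_cancel, Units.val_one, Matrix.mul_one]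

end Cfsg.Agent.H8.Ort
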