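import Mathlib
import Cfsg.Agent.H8.Ort3
import Cfsg.Agent.H8.MSys

set_option autoImplicit false
set_option linter.all false

/-! Orthogonal groups of odd dimension: the automorphisms in coordinates. -/

namespace Cfsg.Agent.H8.Ort

open scoped commutatorElement
open Matrix Pointwise Cfsg.Agent.H8.AutBN Cfsg.Agent.H8.SLPat Cfsg.Agent.H8.SLTri Cfsg.Agent.H8.SLData
  Cfsg.Agent.H8.Theta Cfsg.Agent.H8.GrComb Cfsg.Agent.H8.GrData Cfsg.Agent.H8.GrShort Cfsg.Agent.H8.GrPi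
  Cfsg.Agent.H8.GrCen Cfsg.Agent.H8.GrStd Cfsg.Agent.H8.GrGen Cfsg.Agent.H8.GrOdd Cfsg.Agent.H8.AutPSL

variable {F : Type*} [Field F]

/-- the determinant on coordinates -/
theorem det_Ph (h2 : (2 : F) ≠ 0) (k : ℕ) (g : GL (Fin (2 * k + 2 + 1)) F) : (Ph h2 k g).1.det = g.1.det := by
  show (Matrix.diagonal (dv (k + 1) F) * (Matrix.reindexAlgEquiv F F (ix k).symm g.1) * Matrix.diagonal (fun i => (dv (k + 1) F i)⁻¹)).det = _
  rw [Matrix.det_mul_comm, ← Matrix.mul_assoc, Matrix.diagonal_mul_diagonal]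
  have h1 : (fun i => (dv (k + 1) F i)⁻¹ * dv (k + 1) F i) = fun _ => (1 : F) := by
    funext i; exact inv_mul_cancel₀ (dv_ne h2 i)
  rw [h1, Matrix.diagonal_one, Matrix.one_mul, Matrix.det_reindexAlgEquiv]

/-- the group in coordinates -/
noncomputable def KO (h2 : (2 : F) ≠ 0) (k : ℕ) : Subgroup (SpecialLinearGroup (Fin (2 * k + 2 + 1)) F) :=
  (Om F (Cfsg.quadFormOdd (k + 1) F)).comap ((Ph h2 k : _ →* _).comp SpecialLinearGroup.toGL)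

theorem mem_KO {h2 : (2 : F) ≠ 0} {k : ℕ} {s : SpecialLinearGroup (Fin (2 * k + 2 + 1)) F} :
    s ∈ KO h2 k ↔ Ph h2 k (SpecialLinearGroup.toGL s) ∈ Om F (Cfsg.quadFormOdd (k + 1) F) := Iff.rfl

theorem gr_iff (h2 : (2 : F) ≠ 0) (k : ℕ) (s : SpecialLinearGroup (Fin (2 * k + 2 + 1)) F) :
    s ∈ GO1 k F ↔ Ph h2 k (SpecialLinearGroup.toGL s) ∈ Cfsg.isometryGroup F (Cfsg.quadFormOdd (k + 1) F) := by
  rw [mem_iso, mem_Gr_iff]
  have h := sim_iff h2 k (SpecialLinearGroup.toGL s) 1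
  simp only [one_mul, one_smul] at h
  rw [h]
  have e : s.1.map (RingEquiv.refl F) = s.1 := by ext i j; rfl
  rw [e]; rfl

theorem KO_le (h2 : (2 : F) ≠ 0) (k : ℕ) : KO h2 k ≤ GO1 k F := by
  intro s hs
  rw [gr_iff h2]
  exact Om_le _ hs

theorem fix_odd (m : ℕ) (σ : F ≃+* F) : σ ∈ fixQ (Cfsg.quadFormOdd m F) := by
  intro v
  unfold Cfsg.quadFormOdd
  rw [map_add, map_pow, map_sum]
  simp only [map_mul]

theorem KO_fl (h2 : (2 : F) ≠ 0) (k : ℕ) (σ : F ≃+* F) (s : SpecialLinearGroup (Fin (2 * k + 2 + 1)) F) :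
    AutPSL.fl σ s ∈ KO h2 k ↔ s ∈ KO h2 k := by
  rw [mem_KO, mem_KO, ← mg_mem_Om (fix_odd _ σ) (Ph h2 k (SpecialLinearGroup.toGL s))]
  have h : SpecialLinearGroup.toGL (AutPSL.fl σ s) = mg σ (SpecialLinearGroup.toGL s) := by
    apply Units.ext; rfl
  rw [h, Ph_mg]; rfl

theorem sim_of_GJ (h2 : (2 : F) ≠ 0) (k : ℕ) {g : GL (Fin (2 * k + 2 + 1)) F} (hg : g ∈ GJ (RingEquiv.refl F) (Jm (e1 (2 * k + 2) F)).1) :
    Ph h2 k g ∈ Cfsg.Geo.quadSimilarityGroup (Cfsg.quadFormOdd (k + 1) F) := by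
  obtain ⟨μ, hμ⟩ := hg
  refine ⟨μ, (sim_iff h2 k g μ).2 ?_⟩
  rw [← hμ]
  have e : g.1.map (RingEquiv.refl F) = g.1 := by ext i j; rfl
  rw [e]

theorem KO_cg (h2 : (2 : F) ≠ 0) (k : ℕ) (g : GL (Fin (2 * k + 2 + 1)) F) (hg : g ∈ GJ (RingEquiv.refl F) (Jm (e1 (2 * k + 2) F)).1)
    (s : SpecialLinearGroup (Fin (2 * k + 2 + 1)) F) : AutPSL.cg g s ∈ KO h2 k ↔ s ∈ KO h2 k := by
  rw [mem_KO, mem_KO, ← conj_Om (sim_of_GJ h2 k hg) (Ph h2 k (SpecialLinearGroup.toGL s))]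
  have h : SpecialLinearGroup.toGL (AutPSL.cg g s) = g * (SpecialLinearGroup.toGL s) * g⁻¹ := by
    apply Units.ext; rfl
  rw [h, map_mul, map_mul, map_inv]; rfl

section fin

variable [Finite F]

theorem finrank_OIx (m : ℕ) : Module.finrank F (OIx m → F) = 2 * m + 1 := by
  rw [Module.finrank_fintype_fun_eq_card]; simp; ring

theorem odd_K {h2 : (2 : F) ≠ 0} {k : ℕ} {s : SpecialLinearGroup (Fin (2 * k + 2 + 1)) F} (hs : s ∈ GO1 k F) (ho : Odd (orderOf s)) : s ∈ KO h2 k := by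
  rw [mem_KO]
  have hQ := Cfsg.Agent.Lib.Orth.nd_odd (F := F) (m := k + 1) h2
  have h1 : Ph h2 k (SpecialLinearGroup.toGL s) ∈ Cfsg.isometryGroup F ⇑(Cfsg.Agent.Lib.Orth.qOdd (k + 1) F) := by
    rw [Cfsg.Agent.Lib.Orth.coe_qOdd, ← gr_iff]; exact hs
  have h3 := odd_mem_Om (Cfsg.Agent.Lib.Orth.qOdd (k + 1) F) hQ h2 (by rw [finrank_OIx]; omega) h1 (by
    rw [MulEquiv.orderOf_eq]
    rw [orderOf_injective SpecialLinearGroup.toGL (by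
      intro a b h
      apply Subtype.ext
      exact congrArg (fun x : GL _ F => x.1) h) s]
    exact ho)
  rwa [Cfsg.Agent.Lib.Orth.coe_qOdd] at h3

theorem odd_of_p {G : Type*} [Group G] {p : ℕ} (hp : Odd p) {H : Subgroup G} [Fact p.Prime] (hH : IsPGroup p H) {x : G} (hx : x ∈ H) : Odd (orderOf x) := by
  obtain ⟨k, hk⟩ := IsPGroup.iff_orderOf.1 hH ⟨x, hx⟩
  rw [← Subgroup.orderOf_mk x hx, hk]
  exact hp.pow

theorem char_odd {p : ℕ} [Fact p.Prime] [CharP F p] (h2 : (2 : F) ≠ 0) : Odd p := by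
  refine (Fact.out : p.Prime).odd_of_ne_two ?_
  rintro rfl
  exact h2 (CharP.cast_eq_zero F 2)

theorem KO_U (h2 : (2 : F) ≠ 0) (k : ℕ) : ∀ u ∈ U (2 * k + 2) F, u ∈ GO1 k F → u ∈ KO h2 k := by
  intro u hu hG
  obtain ⟨p, hp⟩ := CharP.exists F
  haveI : Fact p.Prime := ⟨CharP.char_is_prime F p⟩
  exact odd_K hG (odd_of_p (char_odd h2) (SLData.isP (p := p)) hu)

theorem KO_V (h2 : (2 : F) ≠ 0) (k : ℕ) : ∀ u ∈ V (2 * k + 2) F, u ∈ GO1 k F → u ∈ KO h2 k := by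
  intro u hu hG
  obtain ⟨p, hp⟩ := CharP.exists F
  haveI : Fact p.Prime := ⟨CharP.char_is_prime F p⟩
  exact odd_K hG (odd_of_p (char_odd h2) ((dat p (2 * k + 2) F).isPV) hu)

/-- all automorphisms, in coordinates -/
theorem main_K (h2 : (2 : F) ≠ 0) {k : ℕ} (hk : 2 ≤ k) (α : MulAut (KO h2 k ⧸ Subgroup.center (KO h2 k))) :
    ∃ (g : GL (Fin (2 * k + 2 + 1)) F) (hg : g ∈ GJ (RingEquiv.refl F) (Jm (e1 (2 * k + 2) F)).1) (σ : F ≃+* F),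
      α = indG (res (KO h2 k) (AutPSL.cg g) (KO_cg h2 k g hg) * res (KO h2 k) (AutPSL.fl σ) (KO_fl h2 k σ)) :=
  main_O k h2 (KO h2 k) (KO_U h2 k) (KO_V h2 k) (KO_le h2 k) hk (KO_fl h2 k) (KO_cg h2 k) α

end fin

end Cfsg.Agent.H8.Ort
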