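import Mathlib
import Cfsg.Agent.H8.Ort4

set_option autoImplicit false
set_option linter.all false

/-! Automorphisms of orthogonal groups: the system; all automorphisms of `PΩ_{2m+1}(q)` are standard. -/

namespace Cfsg.Agent.H8.Ort

open Matrix Cfsg.Agent.H8.GrStd Cfsg.Agent.H8.AutPSL Cfsg.Agent.Lib Cfsg.Agent.H8.MSys Cfsg.Agent.H8.Theta
  Cfsg.Agent.H8.GrCen Cfsg.Agent.H8.GrOdd

section gen

variable {ι : Type} [Fintype ι] [DecidableEq ι] {F : Type*} [Field F]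

/-- the general system -/
def OSG (Q : (ι → F) → F) (Γ : Subgroup (GL ι F)) (h1 : Γ ≤ Cfsg.Geo.quadSimilarityGroup Q) (h2 : Om F Q ≤ Γ)
    (h3 : ∀ σ ∈ fixQ Q, ∀ g ∈ Γ, mg σ g ∈ Γ) : Sys ι F (Cfsg.Omega F Q) where
  e := (Cfsg.isometryGroup F Q).subtype.comp (Cfsg.Omega F Q).subtype
  inj := by
    intro s t h
    exact Subtype.ext (Subtype.ext h)
  Γ := Γ
  A := fixQ Q
  mem s := h2 (mem_Om.2 ⟨s, rfl⟩)
  conj g hg s := mem_Om.1 ((conj_Om (h1 hg) s.1.1).2 (mem_Om.2 ⟨s, rfl⟩))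
  gal σ hσ s := mem_Om.1 ((mg_mem_Om hσ s.1.1).2 (mem_Om.2 ⟨s, rfl⟩))
  galΓ := h3

section

variable {Q : (ι → F) → F} {Γ : Subgroup (GL ι F)} {h1 : Γ ≤ Cfsg.Geo.quadSimilarityGroup Q} {h2 : Om F Q ≤ Γ}
  {h3 : ∀ σ ∈ fixQ Q, ∀ g ∈ Γ, mg σ g ∈ Γ}

theorem isField_iff {σ : F ≃+* F} (hσ : σ ∈ fixQ Q) (β : MulAut (Cfsg.POmega F Q)) :
    Cfsg.IsFieldAutPOmegaOf Q σ β ↔ β = (OSG Q Γ h1 h2 h3).psi ⟨σ, hσ⟩ := by
  constructor
  · intro h
    apply ext_mk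
    intro s
    refine h s ((OSG Q Γ h1 h2 h3).fa ⟨σ, hσ⟩ s) ?_
    exact congrArg (fun x : GL ι F => x.1) ((OSG Q Γ h1 h2 h3).e_fa ⟨σ, hσ⟩ s)
  · rintro rfl s s' h
    show Sys.pr (Cfsg.Omega F Q) ((OSG Q Γ h1 h2 h3).fa ⟨σ, hσ⟩ s) = Sys.pr _ s'
    congr 1
    apply (OSG Q Γ h1 h2 h3).inj
    rw [Sys.e_fa]
    apply Units.ext
    exact h.symm

theorem induced_iff {σ : F ≃+* F} (hσ : σ ∈ fixQ Q) (g : (OSG Q Γ h1 h2 h3).Γ) (β : MulAut (Cfsg.POmega F Q)) :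
    Cfsg.IsInducedBySemilinearPOmega Q g.1 σ β ↔ β = (OSG Q Γ h1 h2 h3).delta g * (OSG Q Γ h1 h2 h3).psi ⟨σ, hσ⟩ := by
  constructor
  · intro h
    apply ext_mk
    intro s
    refine h s ((OSG Q Γ h1 h2 h3).cj g ((OSG Q Γ h1 h2 h3).fa ⟨σ, hσ⟩ s)) ?_
    have := (OSG Q Γ h1 h2 h3).e_cj g ((OSG Q Γ h1 h2 h3).fa ⟨σ, hσ⟩ s)
    rw [Sys.e_fa] at this
    exact congrArg (fun x : GL ι F => x.1) this
  · rintro rfl s s' h
    show Sys.pr (Cfsg.Omega F Q) ((OSG Q Γ h1 h2 h3).cj g ((OSG Q Γ h1 h2 h3).fa ⟨σ, hσ⟩ s)) = Sys.pr _ s'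
    congr 1
    apply (OSG Q Γ h1 h2 h3).inj
    rw [Sys.e_cj, Sys.e_fa]
    apply Units.ext
    exact h.symm

theorem induced_iff' (g : (OSG Q Γ h1 h2 h3).Γ) (β : MulAut (Cfsg.POmega F Q)) :
    Cfsg.IsInducedBySemilinearPOmega Q g.1 (RingEquiv.refl F) β ↔ β = (OSG Q Γ h1 h2 h3).delta g := by
  have h := induced_iff (h1 := h1) (h2 := h2) (h3 := h3) (show RingEquiv.refl F ∈ fixQ Q from one_mem (fixQ Q)) g β
  have h' : (OSG Q Γ h1 h2 h3).psi ⟨RingEquiv.refl F, one_mem (fixQ Q)⟩ = 1 := map_one (OSG Q Γ h1 h2 h3).psi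
  rw [h', mul_one] at h
  exact h

end

/-- scaling does not change the induced automorphism -/
theorem induced_smul {Q : (ι → F) → F} {g h : GL ι F} {c : F} (hgh : g.1 = c • h.1) (σ : F ≃+* F) (β : MulAut (Cfsg.POmega F Q)) :
    Cfsg.IsInducedBySemilinearPOmega Q g σ β ↔ Cfsg.IsInducedBySemilinearPOmega Q h σ β := by
  by_cases hc : c = 0
  · have h0 : ∀ M : Matrix ι ι F, M = 0 := by
      intro M
      have h1 : g.1 = 0 := by rw [hgh, hc, zero_smul]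
      have h2 : (g⁻¹).1 * g.1 = 1 := by rw [← Units.val_mul, inv_mul_cancel, Units.val_one]
      rw [h1, Matrix.mul_zero] at h2
      rw [← Matrix.mul_one M, ← h2, Matrix.mul_zero]
    have : g = h := by apply Units.ext; rw [h0 g.1, h0 h.1]
    rw [this]
  · have hi : (g⁻¹).1 = c⁻¹ • (h⁻¹).1 := by
      have h2 : (c⁻¹ • (h⁻¹).1) * g.1 = 1 := by
        rw [hgh, Matrix.smul_mul, Matrix.mul_smul, smul_smul, inv_mul_cancel₀ hc, one_smul, ← Units.val_mul, inv_mul_cancel, Units.val_one]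
      have h3 : (c⁻¹ • (h⁻¹).1) * g.1 * (g⁻¹).1 = (g⁻¹).1 := by rw [h2, Matrix.one_mul]
      rw [Matrix.mul_assoc, ← Units.val_mul, mul_inv_cancel, Units.val_one, Matrix.mul_one] at h3
      exact h3.symm
    have e : ∀ M : Matrix ι ι F, g.1 * M * (g⁻¹).1 = h.1 * M * (h⁻¹).1 := by
      intro M
      rw [hgh, hi, Matrix.smul_mul, Matrix.smul_mul, Matrix.mul_smul, smul_smul, mul_inv_cancel₀ hc, one_smul]
    unfold Cfsg.IsInducedBySemilinearPOmega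
    constructor
    · intro H s s' hs
      apply H
      rw [e]; exact hs
    · intro H s s' hs
      apply H
      rw [← e]; exact hs

end gen

section odd

variable {F : Type*} [Field F]

/-- special isometries -/
theorem mem_spec {ι : Type} [Fintype ι] [DecidableEq ι] {Q : (ι → F) → F} {g : GL ι F} :
    g ∈ Cfsg.specialIsometryGL F Q ↔ g ∈ Cfsg.isometryGroup F Q ∧ g.1.det = 1 := by
  unfold Cfsg.specialIsometryGL
  rw [Subgroup.mem_inf]
  apply and_congr_right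
  intro _
  show GeneralLinearGroup.det g = 1 ↔ _
  constructor
  · intro h
    exact congrArg Units.val h
  · intro h
    exact Units.ext h

theorem det_comm_one {ι : Type} [Fintype ι] [DecidableEq ι] {H : Subgroup (GL ι F)} {g : GL ι F} (hg : g ∈ ⁅H, H⁆) : g.1.det = 1 := by
  have h1 : ⁅H, H⁆ ≤ (GeneralLinearGroup.det : GL ι F →* Fˣ).ker := by
    rw [Subgroup.commutator_le]
    intro a _ b _
    rw [MonoidHom.mem_ker, map_commutatorElement, commutatorElement_eq_one_iff_mul_comm, mul_comm]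
  exact congrArg Units.val (h1 hg)

theorem spec_ok {ι : Type} [Fintype ι] [DecidableEq ι] (Q : (ι → F) → F) : Om F Q ≤ Cfsg.specialIsometryGL F Q := by
  intro g hg
  exact mem_spec.2 ⟨Om_le Q hg, det_comm_one hg⟩

theorem spec_le {ι : Type} [Fintype ι] [DecidableEq ι] (Q : (ι → F) → F) : Cfsg.specialIsometryGL F Q ≤ Cfsg.Geo.quadSimilarityGroup Q :=
  inf_le_left.trans (iso_le_sim Q)

theorem det_mg {ι : Type} [Fintype ι] [DecidableEq ι] (σ : F ≃+* F) (g : GL ι F) : (mg σ g).1.det = σ g.1.det := by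
  show (g.1.map σ).det = _
  exact (RingHom.map_det (σ : F →+* F) g.1).symm

theorem spec_mg {ι : Type} [Fintype ι] [DecidableEq ι] (Q : (ι → F) → F) : ∀ σ ∈ fixQ Q, ∀ g ∈ Cfsg.specialIsometryGL F Q, mg σ g ∈ Cfsg.specialIsometryGL F Q := by
  intro σ hσ g hg
  obtain ⟨h1, h2⟩ := mem_spec.1 hg
  refine mem_spec.2 ⟨(mg_mem_iso hσ g).2 h1, ?_⟩
  rw [det_mg, h2, map_one]

/-- the system for odd dimension -/
def OS (m : ℕ) (F : Type*) [Field F] : Sys (OIx m) F (Cfsg.Omega F (Cfsg.quadFormOdd m F)) :=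
  OSG (Cfsg.quadFormOdd m F) (Cfsg.specialIsometryGL F _) (spec_le _) (spec_ok _) (spec_mg _)

/-- field automorphisms -/
def ot (m : ℕ) (σ : F ≃+* F) : (OS m F).A := ⟨σ, fix_odd m σ⟩

theorem OS_e (m : ℕ) (s : Cfsg.Omega F (Cfsg.quadFormOdd m F)) : (OS m F).e s = s.1.1 := rfl

/-- the similitudes are scalar multiples of special isometries -/
theorem sim_split (h2 : (2 : F) ≠ 0) {k : ℕ} {g : GL (OIx (k + 1)) F} {c : F} (hg : ∀ v, Cfsg.quadFormOdd (k + 1) F (g.1 *ᵥ v) = c * Cfsg.quadFormOdd (k + 1) F v) :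
    ∃ (h : GL (OIx (k + 1)) F) (b : F), h ∈ Cfsg.specialIsometryGL F (Cfsg.quadFormOdd (k + 1) F) ∧ b ≠ 0 ∧ g.1 = b • h.1 := by
  obtain ⟨g', rfl⟩ := (Ph h2 k).surjective g
  have h1 := (sim_iff h2 k g' c).1 hg
  have hc0 : c ≠ 0 := by
    rintro rfl
    have h3 : (Ph h2 k g').1 *ᵥ (((Ph h2 k g')⁻¹).1 *ᵥ (Pi.single (Sum.inl ()) 1)) = Pi.single (Sum.inl ()) 1 := by
      rw [Matrix.mulVec_mulVec, ← Units.val_mul, mul_inv_cancel, Units.val_one, Matrix.one_mulVec]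
    have h4 := hg (((Ph h2 k g')⁻¹).1 *ᵥ (Pi.single (Sum.inl ()) 1))
    rw [h3, zero_mul] at h4
    unfold Cfsg.quadFormOdd at h4
    simp at h4
  have hdet : g'.1.det ^ 2 = c ^ (2 * k + 3) := by
    have h3 := congrArg Matrix.det h1
    rw [Matrix.det_mul, Matrix.det_mul, Matrix.det_transpose, Matrix.det_smul, Fintype.card_fin] at h3
    have h4 : ((Jm (e1 (2 * k + 2) F)).1).det ≠ 0 := by
      intro h0
      have h5 := congrArg Matrix.det (J_sq (F := F) k)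
      rw [Matrix.det_mul, h0, zero_mul, Matrix.det_one] at h5
      exact zero_ne_one h5
    apply mul_right_cancel₀ h4
    linear_combination h3
  set b : F := g'.1.det / c ^ (k + 1) with hb
  have hd0 : g'.1.det ≠ 0 := by
    intro h0
    rw [h0] at hdet
    have : c ^ (2 * k + 3) = 0 := by rw [← hdet]; ring
    exact hc0 (pow_eq_zero_iff (by omega) |>.1 this)
  have hb0 : b ≠ 0 := div_ne_zero hd0 (pow_ne_zero _ hc0)
  have hb2 : b ^ 2 = c := by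
    rw [hb, div_pow, hdet]
    field_simp
    ring
  let z : GL (OIx (k + 1)) F := GeneralLinearGroup.scalar (OIx (k + 1)) (Units.mk0 b hb0)
  have hz : z.1 = b • (1 : Matrix (OIx (k + 1)) (OIx (k + 1)) F) := by
    show Matrix.scalar (OIx (k + 1)) b = _
    rw [Matrix.smul_one_eq_diagonal]; rfl
  have hzi : (z⁻¹).1 = b⁻¹ • (1 : Matrix (OIx (k + 1)) (OIx (k + 1)) F) := by
    have h3 : (b⁻¹ • (1 : Matrix (OIx (k + 1)) (OIx (k + 1)) F)) * z.1 = 1 := by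
      rw [hz, Matrix.smul_mul, Matrix.one_mul, smul_smul, inv_mul_cancel₀ hb0, one_smul]
    calc (z⁻¹).1 = (b⁻¹ • (1 : Matrix (OIx (k + 1)) (OIx (k + 1)) F)) * z.1 * (z⁻¹).1 := by rw [h3, Matrix.one_mul]
      _ = _ := by rw [Matrix.mul_assoc, ← Units.val_mul, mul_inv_cancel, Units.val_one, Matrix.mul_one]
  have hval : (z⁻¹ * Ph h2 k g').1 = b⁻¹ • (Ph h2 k g').1 := by
    rw [Units.val_mul, hzi, Matrix.smul_mul, Matrix.one_mul]
  refine ⟨z⁻¹ * Ph h2 k g', b, mem_spec.2 ⟨?_, ?_⟩, hb0, ?_⟩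
  · rw [mem_iso]
    intro v
    rw [hval, Matrix.smul_mulVec]
    have hq : ∀ (a : F) w, Cfsg.quadFormOdd (k + 1) F (a • w) = a ^ 2 * Cfsg.quadFormOdd (k + 1) F w := by
      intro a w
      unfold Cfsg.quadFormOdd
      simp only [Pi.smul_apply, smul_eq_mul, mul_add, Finset.mul_sum]
      congr 1
      · ring
      · exact Finset.sum_congr rfl fun i _ => by ring
    rw [hq, hg, ← hb2]
    field_simp
  · rw [hval, Matrix.det_smul, det_Ph]
    have hcard : Fintype.card (OIx (k + 1)) = 2 * (k + 1) + 1 := by simp; ring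
    rw [hcard, pow_succ, pow_mul, inv_pow, hb2, hb]
    field_simp
    rw [one_div, inv_pow, inv_mul_cancel₀ (pow_ne_zero _ hc0)]
  · rw [hval, smul_smul, mul_inv_cancel₀ hb0, one_smul]

theorem det_symm (h2 : (2 : F) ≠ 0) (k : ℕ) (s : Cfsg.Omega F (Cfsg.quadFormOdd (k + 1) F)) : ((Ph h2 k).symm s.1.1).1.det = 1 := by
  rw [← det_Ph h2 k, MulEquiv.apply_symm_apply]
  have h : s.1.1 ∈ Om F (Cfsg.quadFormOdd (k + 1) F) := mem_Om.2 ⟨s, rfl⟩
  exact det_comm_one h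

/-- from the derived group to coordinates -/
noncomputable def toS (h2 : (2 : F) ≠ 0) (k : ℕ) (s : Cfsg.Omega F (Cfsg.quadFormOdd (k + 1) F)) : SpecialLinearGroup (Fin (2 * k + 2 + 1)) F :=
  ⟨((Ph h2 k).symm s.1.1).1, det_symm h2 k s⟩

theorem toGL_toS (h2 : (2 : F) ≠ 0) (k : ℕ) (s : Cfsg.Omega F (Cfsg.quadFormOdd (k + 1) F)) :
    SpecialLinearGroup.toGL (toS h2 k s) = (Ph h2 k).symm s.1.1 := by
  apply Units.ext; rfl

theorem toS_mem (h2 : (2 : F) ≠ 0) (k : ℕ) (s : Cfsg.Omega F (Cfsg.quadFormOdd (k + 1) F)) : toS h2 k s ∈ KO h2 k := by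
  rw [mem_KO, toGL_toS, MulEquiv.apply_symm_apply]
  exact mem_Om.2 ⟨s, rfl⟩

noncomputable def toK (h2 : (2 : F) ≠ 0) (k : ℕ) (s : Cfsg.Omega F (Cfsg.quadFormOdd (k + 1) F)) : KO h2 k :=
  ⟨toS h2 k s, toS_mem h2 k s⟩

theorem Ph_toK (h2 : (2 : F) ≠ 0) (k : ℕ) (s : Cfsg.Omega F (Cfsg.quadFormOdd (k + 1) F)) :
    Ph h2 k (SpecialLinearGroup.toGL (toK h2 k s).1) = s.1.1 := by
  have : SpecialLinearGroup.toGL (toK h2 k s).1 = (Ph h2 k).symm s.1.1 := toGL_toS h2 k s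
  rw [this, MulEquiv.apply_symm_apply]

theorem toGL_inj' {n : Type*} [Fintype n] [DecidableEq n] {a b : SpecialLinearGroup n F} (h : SpecialLinearGroup.toGL a = SpecialLinearGroup.toGL b) : a = b := by
  apply Subtype.ext
  exact congrArg (fun x : GL n F => x.1) h

/-- the isomorphism -/
noncomputable def EK (h2 : (2 : F) ≠ 0) (k : ℕ) : Cfsg.Omega F (Cfsg.quadFormOdd (k + 1) F) ≃* KO h2 k :=
  MulEquiv.ofBijective (MonoidHom.mk' (toK h2 k) (by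
    intro a b
    apply Subtype.ext
    apply toGL_inj'
    apply (Ph h2 k).injective
    rw [Ph_toK]
    show _ = Ph h2 k (SpecialLinearGroup.toGL ((toK h2 k a).1 * (toK h2 k b).1))
    rw [map_mul, map_mul, Ph_toK, Ph_toK]; rfl)) (by
    constructor
    · intro a b h
      have h1 : toK h2 k a = toK h2 k b := h
      apply Subtype.ext
      apply Subtype.ext
      rw [← Ph_toK h2 k a, h1, Ph_toK]
    · intro s
      obtain ⟨x, hx⟩ := mem_Om.1 (mem_KO.1 s.2)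
      refine ⟨x, ?_⟩
      apply Subtype.ext
      apply toGL_inj'
      apply (Ph h2 k).injective
      show Ph h2 k (SpecialLinearGroup.toGL (toK h2 k x).1) = _
      rw [Ph_toK, hx])

theorem Ph_EK (h2 : (2 : F) ≠ 0) (k : ℕ) (s : Cfsg.Omega F (Cfsg.quadFormOdd (k + 1) F)) :
    Ph h2 k (SpecialLinearGroup.toGL (EK h2 k s).1) = s.1.1 := Ph_toK h2 k s

set_option maxHeartbeats 1000000 in
/-- all automorphisms are standard -/
theorem std_top [Finite F] (h2 : (2 : F) ≠ 0) {k : ℕ} (hk : 2 ≤ k) : (OS (k + 1) F).stdG = ⊤ := by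
  rw [eq_top_iff]
  intro β _
  let Φ := EK h2 k
  have hmc : (Subgroup.center (Cfsg.Omega F (Cfsg.quadFormOdd (k + 1) F))).map (Φ : _ →* _) = Subgroup.center (KO h2 k) := by
    ext y
    constructor
    · rintro ⟨x, hx, rfl⟩
      rw [Subgroup.mem_center_iff]
      intro z
      obtain ⟨w, rfl⟩ := Φ.surjective z
      show Φ w * Φ x = Φ x * Φ w
      rw [← map_mul, ← map_mul, Subgroup.mem_center_iff.1 hx w]
    · intro hy
      obtain ⟨x, rfl⟩ := Φ.surjective y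
      refine ⟨x, ?_, rfl⟩
      show x ∈ Subgroup.center _
      rw [Subgroup.mem_center_iff]
      intro w
      apply Φ.injective
      rw [map_mul, map_mul]
      exact Subgroup.mem_center_iff.1 hy (Φ w)
  let Ψ : Cfsg.POmega F (Cfsg.quadFormOdd (k + 1) F) ≃* (KO h2 k ⧸ Subgroup.center (KO h2 k)) := QuotientGroup.congr _ _ Φ hmc
  let α : MulAut (KO h2 k ⧸ Subgroup.center (KO h2 k)) := (Ψ.symm.trans β).trans Ψ
  obtain ⟨g, hg, σ, hα⟩ := main_K h2 hk α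
  obtain ⟨μ, hμ⟩ := sim_of_GJ h2 k hg
  obtain ⟨h, b, hS, hb, hgh⟩ := sim_split h2 hμ
  refine ⟨⟨h, hS⟩, ot (k + 1) σ, ?_⟩
  apply ext_mk
  intro s
  apply Ψ.injective
  have h1 : Ψ (β (QuotientGroup.mk' _ s)) = α (Ψ (QuotientGroup.mk' _ s)) := by
    show _ = Ψ (β (Ψ.symm (Ψ _)))
    rw [MulEquiv.symm_apply_apply]
  have h3 : Ψ (β (QuotientGroup.mk' _ s)) = QuotientGroup.mk' _ ((res (KO h2 k) (AutPSL.cg g) (KO_cg h2 k g hg) * res (KO h2 k) (AutPSL.fl σ) (KO_fl h2 k σ)) (Φ s)) := by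
    rw [h1, hα]; rfl
  refine h3.trans ?_
  show _ = QuotientGroup.mk' _ (Φ ((OS (k + 1) F).cj ⟨h, hS⟩ ((OS (k + 1) F).fa (ot (k + 1) σ) s)))
  congr 1
  apply Subtype.ext
  apply toGL_inj'
  apply (Ph h2 k).injective
  rw [Ph_EK]
  have h4 := (OS (k + 1) F).e_cj ⟨h, hS⟩ ((OS (k + 1) F).fa (ot (k + 1) σ) s)
  rw [Sys.e_fa] at h4
  refine Eq.trans ?_ h4.symm
  have h5 : SpecialLinearGroup.toGL ((res (KO h2 k) (AutPSL.cg g) (KO_cg h2 k g hg) * res (KO h2 k) (AutPSL.fl σ) (KO_fl h2 k σ)) (Φ s)).1 =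
      g * mg σ (SpecialLinearGroup.toGL (Φ s).1) * g⁻¹ := by
    apply Units.ext; rfl
  rw [h5, map_mul, map_mul, map_inv, Ph_mg]
  have h6 : Ph h2 k (SpecialLinearGroup.toGL (Φ s).1) = s.1.1 := Ph_EK h2 k s
  rw [h6]
  show Ph h2 k g * mg σ s.1.1 * (Ph h2 k g)⁻¹ = h * mg σ s.1.1 * h⁻¹
  have h7 : Ph h2 k g = (Ph h2 k g * h⁻¹) * h := by group
  have h8 : (Ph h2 k g * h⁻¹).1 = b • (1 : Matrix (OIx (k + 1)) (OIx (k + 1)) F) := by
    rw [Units.val_mul, hgh, Matrix.smul_mul, ← Units.val_mul, mul_inv_cancel, Units.val_one]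
  rw [h7]
  calc (Ph h2 k g * h⁻¹) * h * mg σ s.1.1 * ((Ph h2 k g * h⁻¹) * h)⁻¹
      = (Ph h2 k g * h⁻¹) * (h * mg σ s.1.1 * h⁻¹) * (Ph h2 k g * h⁻¹)⁻¹ := by group
    _ = _ := by rw [Sys.sc_comm h8, mul_inv_cancel_right]

theorem gamma_top [Finite F] (h2 : (2 : F) ≠ 0) {k : ℕ} (hk : 2 ≤ k) : Cfsg.gammaPOmega F (Cfsg.quadFormOdd (k + 1) F) = ⊤ := by
  rw [eq_top_iff]
  intro β _
  have h : β ∈ (OS (k + 1) F).stdG := by rw [std_top h2 hk]; trivial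
  obtain ⟨g, σ, rfl⟩ := h
  refine Subgroup.subset_closure ⟨g.1, σ.1, ⟨1, ?_⟩, ?_⟩
  · intro v
    have h1 := mem_iso.1 (mem_spec.1 g.2).1
    rw [h1, Units.val_one, one_mul]
    exact σ.2 v
  · exact (induced_iff σ.2 g _).2 rfl

/-- the inner-diagonal automorphisms -/
theorem innDiag_iff (h2 : (2 : F) ≠ 0) {k : ℕ} (β : MulAut (Cfsg.POmega F (Cfsg.quadFormOdd (k + 1) F))) :
    Cfsg.IsInnerDiagonalAutPOmegaOdd (k + 1) β ↔ β ∈ (OS (k + 1) F).delta.range := by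
  constructor
  · rintro ⟨g, ⟨c, hc⟩, hg⟩
    obtain ⟨h, b, hS, hb, hgh⟩ := sim_split h2 hc
    rw [induced_smul hgh] at hg
    refine ⟨⟨h, hS⟩, ?_⟩
    exact ((induced_iff' (h1 := spec_le _) (h2 := spec_ok _) (h3 := spec_mg _) ⟨h, hS⟩ β).1 hg).symm
  · rintro ⟨g, rfl⟩
    exact ⟨g.1, spec_le _ g.2, (induced_iff' (h1 := spec_le _) (h2 := spec_ok _) (h3 := spec_mg _) g _).2 rfl⟩

theorem inndiag_eq (h2 : (2 : F) ≠ 0) {k : ℕ} : Cfsg.inndiagPOmegaOdd (k + 1) F = (OS (k + 1) F).delta.range := by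
  apply le_antisymm
  · refine (Subgroup.closure_le _).2 ?_
    intro β hβ
    exact (innDiag_iff h2 β).1 hβ
  · intro β hβ
    exact Subgroup.subset_closure ((innDiag_iff h2 β).2 hβ)

end odd

end Cfsg.Agent.H8.Ort
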