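import Mathlib
import Cfsg.Agent.H8.Ort5
import Cfsg.Agent.Lib.Orth12

set_option autoImplicit false
set_option linter.all false

/-! The kernel of the action of semisimilarities on `PΩ`. -/

namespace Cfsg.Agent.H8.Ort

open scoped commutatorElement
open Matrix Cfsg.Agent.H8.GrStd Cfsg.Agent.H8.AutPSL Cfsg.Agent.Lib Cfsg.Agent.H8.MSys Cfsg.Agent.Lib.Orth

/-- automorphisms of perfect groups -/
theorem perfect_lift {S : Type*} [Group S] (hS : commutator S = ⊤) (α : MulAut S) (h : ∀ s, s⁻¹ * α s ∈ Subgroup.center S) : α = 1 := by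
  have h1 : ⁅(⊤ : Subgroup S), ⊤⁆ ≤ MonoidHom.eqLocus (α : S →* S) (MonoidHom.id S) := by
    rw [Subgroup.commutator_le]
    intro a _ b _
    show α ⁅a, b⁆ = ⁅a, b⁆
    rw [map_commutatorElement]
    have ha := Subgroup.mem_center_iff.1 (h a)
    have hb := Subgroup.mem_center_iff.1 (h b)
    have ea : α a = a * (a⁻¹ * α a) := by group
    have eb : α b = b * (b⁻¹ * α b) := by group
    rw [commutatorElement_def, commutatorElement_def, ea, eb]
    generalize a⁻¹ * α a = x at ha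
    generalize b⁻¹ * α b = y at hb
    calc a * x * (b * y) * (a * x)⁻¹ * (b * y)⁻¹ = a * (x * (b * y)) * x⁻¹ * a⁻¹ * y⁻¹ * b⁻¹ := by group
      _ = a * ((b * y) * x) * x⁻¹ * a⁻¹ * y⁻¹ * b⁻¹ := by rw [← ha (b * y)]
      _ = a * b * (y * a⁻¹) * y⁻¹ * b⁻¹ := by group
      _ = a * b * (a⁻¹ * y) * y⁻¹ * b⁻¹ := by rw [← hb a⁻¹]
      _ = _ := by group
  apply MulEquiv.ext
  intro s
  have h2 : s ∈ ⁅(⊤ : Subgroup S), (⊤ : Subgroup S)⁆ := by
    rw [← commutator_def, hS]; trivial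
  exact h1 h2

open QuadraticMap Module

section abs

variable {F : Type*} [Field F] [Finite F] {V : Type*} [AddCommGroup V] [Module F V] [FiniteDimensional F V] {Q : QuadraticForm F V}

/-- semilinear maps commuting with the Siegel transformations -/
structure CS (Q : QuadraticForm F V) (σ : F ≃+* F) (T : V → V) : Prop where
  add : ∀ x y, T (x + y) = T x + T y
  smul : ∀ (a : F) x, T (a • x) = σ a • T x
  inj : ∀ x, T x = 0 → x = 0
  comm : ∀ (w z : V) (hw : Q w = 0) (hwz : polar Q w z = 0) (x : V), (sg Q w z hw hwz).1 (T x) = T ((sg Q w z hw hwz).1 x)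

variable {σ : F ≃+* F} {T : V → V} (hT : CS Q σ T)

include hT

theorem CS.neg (x : V) : T (-x) = - T x := by
  have h := hT.smul (-1) x
  rw [map_neg, map_one, neg_one_smul, neg_one_smul] at h
  exact h

theorem CS.fix (hQ : ND Q) (hn : 4 ≤ finrank F V) {w : V} (hw : Q w = 0) : ∃ c : F, T w = c • w := by
  by_cases hw0 : w = 0
  · refine ⟨0, ?_⟩
    have h := hT.smul 0 w
    rw [map_zero, zero_smul, zero_smul] at h
    rw [hw0, zero_smul]; exact h
  have key : ∀ z : V, polar Q w z = 0 → z ∉ Submodule.span F {w} → T w ∈ Submodule.span F {w, z} := by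
    intro z hz hzw
    obtain ⟨x, hx, hx1⟩ := exists_perp_eq_one hQ hzw
    have hxw : polar Q x w = 0 := by
      rw [polar_comm]; exact mem_perp.1 hx w (Submodule.mem_span_singleton_self w)
    have hxz : polar Q x z = 1 := by rw [polar_comm]; exact hx1
    have h1 := hT.comm w z hw hz x
    rw [sg_apply, sg_apply, hxw, hxz] at h1
    simp only [zero_smul, add_zero, mul_zero, sub_zero, one_smul] at h1
    have h2 : T (x - w) = T x - T w := by
      rw [sub_eq_add_neg, hT.add, hT.neg, ← sub_eq_add_neg]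
    rw [h2] at h1
    rw [Submodule.mem_span_pair]
    refine ⟨polar Q (T x) z + Q z * polar Q (T x) w, -polar Q (T x) w, ?_⟩
    have h3 : T w = T x - (T x + polar Q (T x) w • z - polar Q (T x) z • w - (Q z * polar Q (T x) w) • w) := by
      rw [h1]; abel
    rw [h3]; module
  by_contra hcon
  push Not at hcon
  have hTw : T w ∉ Submodule.span F {w} := by
    intro h
    obtain ⟨c, hc⟩ := Submodule.mem_span_singleton.1 h
    exact hcon c hc.symm
  have h1 : ¬ perp Q (Submodule.span F {w}) ≤ Submodule.span F {w, T w} := by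
    intro h
    have h2 := Submodule.finrank_mono h
    rw [finrank_perp hQ, finrank_span_singleton hw0] at h2
    have h3 : finrank F (Submodule.span F {w, T w}) ≤ 2 := by
      have := finrank_range_le_card (R := F) ![w, T w]
      rw [show (Set.range ![w, T w]) = {w, T w} by
        simp [Matrix.range_cons, Matrix.range_empty]; exact Set.pair_comm _ _, Fintype.card_fin] at this
      exact this
    omega
  obtain ⟨z, hz1, hz2⟩ := SetLike.not_le_iff_exists.1 h1
  have hz1' : polar Q w z = 0 := mem_perp.1 hz1 w (Submodule.mem_span_singleton_self w)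
  have h4 := key z hz1' (fun h => hz2 (Submodule.span_mono (by simp) h))
  obtain ⟨a, b, hab⟩ := Submodule.mem_span_pair.1 h4
  by_cases hb : b = 0
  · rw [hb, zero_smul, add_zero] at hab
    exact hcon a hab.symm
  · apply hz2
    rw [Submodule.mem_span_pair]
    refine ⟨-(b⁻¹ * a), b⁻¹, ?_⟩
    rw [← hab, smul_add, smul_smul, smul_smul, inv_mul_cancel₀ hb]; module

theorem CS.pair (hQ : ND Q) (hn : 4 ≤ finrank F V) {u v : V} (hu : Q u = 0) (hv : Q v = 0) (huv : polar Q u v = 0) (hli : LinearIndependent F ![u, v])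
    {c d : F} (hc : T u = c • u) (hd : T v = d • v) : c = d ∧ ∀ a, σ a = a := by
  have hu0 : u ≠ 0 := hli.ne_zero 0
  have hc0 : c ≠ 0 := by
    rintro rfl
    rw [zero_smul] at hc
    exact hu0 (hT.inj u hc)
  have key : ∀ a : F, σ a * c = a * d := by
    intro a
    have h0 : Q (a • u + v) = 0 := by
      rw [map_add', Orth.map_smul', hu, hv, polar_smul_left, huv]; simp
    obtain ⟨e, he⟩ := hT.fix hQ hn h0
    rw [hT.add, hT.smul, hc, hd] at he
    have h1 : (σ a * c - e * a) • u + (d - e) • v = 0 := by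
      have h2 : (σ a • c • u + d • v) - e • (a • u + v) = 0 := by rw [he, sub_self]
      rw [← h2]; module
    obtain ⟨h3, h4⟩ := LinearIndependent.pair_iff.1 hli _ _ h1
    linear_combination h3 + a * (- h4)
  have h1 := key 1
  rw [map_one, one_mul, one_mul] at h1
  refine ⟨h1, fun a => ?_⟩
  have h2 := key a
  rw [← h1] at h2
  exact mul_right_cancel₀ hc0 h2

theorem CS.main (hQ : ND Q) (hn : 5 ≤ finrank F V) : (∀ a, σ a = a) ∧ ∃ c : F, ∀ x, T x = c • x := by
  obtain ⟨e, f, hef⟩ := exists_hyp_pair hQ (by omega)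
  obtain ⟨ce, hce⟩ := hT.fix hQ (by omega) hef.he
  -- an isotropic vector orthogonal to a hyperbolic pair
  have hex : ∀ {e f : V}, Hyp Q e f → ∃ w, Q w = 0 ∧ polar Q w e = 0 ∧ polar Q w f = 0 ∧ w ≠ 0 := by
    intro e f h
    obtain ⟨w, hw0, hw⟩ := exists_singular (h.nd_perp hQ) (by have := h.finrank_perp; omega)
    refine ⟨w.1, hw, (mem_hperp.1 w.2).1, (mem_hperp.1 w.2).2, ?_⟩
    intro h0
    exact hw0 (Subtype.ext h0)
  have hli : ∀ {e f w : V}, Hyp Q e f → polar Q w f = 0 → w ≠ 0 → LinearIndependent F ![e, w] := by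
    intro e f w h hwf hw0
    rw [LinearIndependent.pair_iff]
    intro a b hab
    have h1 : polar Q (a • e + b • w) f = 0 := by rw [hab]; simp
    rw [polar_add_left, polar_smul_left, polar_smul_left, h.hef, hwf] at h1
    have ha : a = 0 := by simpa using h1
    refine ⟨ha, ?_⟩
    rw [ha, zero_smul, zero_add] at hab
    exact (smul_eq_zero.1 hab).resolve_right hw0
  have hσ : ∀ a, σ a = a := by
    obtain ⟨w, hw, hwe, hwf, hw0⟩ := hex hef
    obtain ⟨cw, hcw⟩ := hT.fix hQ (by omega) hw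
    exact (hT.pair hQ (by omega) hef.he hw (by rw [polar_comm]; exact hwe) (hli hef hwf hw0) hce hcw).2
  refine ⟨hσ, ce, ?_⟩
  have hsm : ∀ (a : F) x, T (a • x) = a • T x := by
    intro a x; rw [hT.smul, hσ]
  have hyp : ∀ {f : V}, Hyp Q e f → T f = ce • f := by
    intro f hf
    obtain ⟨w, hw, hwe, hwf, hw0⟩ := hex hf
    obtain ⟨cw, hcw⟩ := hT.fix hQ (by omega) hw
    obtain ⟨cf, hcf⟩ := hT.fix hQ (by omega) hf.hf
    have h1 := (hT.pair hQ (by omega) hf.he hw (by rw [polar_comm]; exact hwe) (hli hf hwf hw0) hce hcw).1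
    have h2 := (hT.pair hQ (by omega) hf.hf hw (by rw [polar_comm]; exact hwf) (hli hf.symm hwe hw0) hcf hcw).1
    rw [hcf, h2, h1]
  have iso : ∀ v : V, Q v = 0 → T v = ce • v := by
    intro v hv
    by_cases hv0 : v = 0
    · have h := hT.smul 0 v
      rw [map_zero, zero_smul, zero_smul] at h
      rw [hv0, h, smul_zero]
    by_cases hev : polar Q e v = 0
    · by_cases hl : LinearIndependent F ![e, v]
      · obtain ⟨cv, hcv⟩ := hT.fix hQ (by omega) hv
        rw [hcv, (hT.pair hQ (by omega) hef.he hv hev hl hce hcv).1]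
      · rw [LinearIndependent.pair_iff] at hl
        push Not at hl
        obtain ⟨a, b, hab, hne⟩ := hl
        have hb : b ≠ 0 := by
          rintro rfl
          rw [zero_smul, add_zero] at hab
          have ha : a = 0 := (smul_eq_zero.1 hab).resolve_right hef.e_ne
          exact hne ha rfl
        have h1 : v = (-(b⁻¹ * a)) • e := by
          have h2 : b⁻¹ • (a • e + b • v) = 0 := by rw [hab, smul_zero]
          rw [smul_add, smul_smul, smul_smul, inv_mul_cancel₀ hb, one_smul] at h2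
          rw [neg_smul]
          exact (neg_eq_of_add_eq_zero_right h2).symm
        rw [h1, hsm, hce]; module
    · have h1 : Hyp Q e ((polar Q e v)⁻¹ • v) := ⟨hef.he, by rw [Orth.map_smul', hv, mul_zero], by
        rw [polar_smul_right, smul_eq_mul, inv_mul_cancel₀ hev]⟩
      have h2 := hyp h1
      rw [hsm] at h2
      have h3 := congrArg (fun y => polar Q e v • y) h2
      simp only [smul_smul] at h3
      rw [mul_inv_cancel₀ hev, one_smul] at h3
      rw [h3]
      congr 1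
      field_simp
  intro x
  obtain ⟨a, b, w, hw, rfl⟩ := hef.exists_split x
  have h1 : Q ((1 : F) • e + (-Q w) • f + w) = 0 := by
    rw [hef.Q_split _ _ hw]; ring
  have h2 := iso _ h1
  rw [hT.add, hT.add, hsm, hsm, hce, hyp hef] at h2
  have h3 : T w = ce • w := by
    have : T w = ce • ((1 : F) • e + (-Q w) • f + w) - ((1 : F) • ce • e + (-Q w) • ce • f) := by rw [← h2]; abel
    rw [this]; module
  rw [hT.add, hT.add, hsm, hsm, hce, hyp hef, h3]; module

end abs

section mat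

variable {ι : Type} [Fintype ι] [DecidableEq ι] {F : Type*} [Field F] [Finite F] {Q : QuadraticForm F (ι → F)}

/-- Siegel elements in `Ω` -/
theorem exists_sg (hQ : ND Q) (hn : 5 ≤ finrank F (ι → F)) (w z : ι → F) (hw : Q w = 0) (hwz : polar Q w z = 0) :
    ∃ s : Cfsg.Omega F ⇑Q, ∀ x, s.1.1.1 *ᵥ x = (sg Q w z hw hwz).1 x := by
  have h1 := sg_mem_commutator hQ (Or.inr (by omega)) hw hwz
  refine ⟨⟨(isoO Q).symm (sg Q w z hw hwz), (mem_Omega_iff _).2 (by rw [MulEquiv.apply_symm_apply]; exact h1)⟩, fun x => ?_⟩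
  rw [← isoO_apply]
  show ((isoO Q) ((isoO Q).symm (sg Q w z hw hwz))).1 x = _
  rw [MulEquiv.apply_symm_apply]

theorem omega_perfect (hQ : ND Q) (hn : 6 ≤ finrank F (ι → F)) : commutator (Cfsg.Omega F ⇑Q) = ⊤ := by
  have h1 : commutator ↥(O Q) = SG Q := commutator_eq_SG hQ (Or.inr (by omega)) (by omega)
  have h2 : commutator ↥(commutator ↥(O Q)) = ⊤ := by
    rw [h1]; exact SG_perfect hQ hn
  rw [eq_top_iff]
  intro s _
  rw [mem_commutator_equiv (isoOmega Q), h2]
  trivial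

variable {Γ : Subgroup (GL ι F)} {h1 : Γ ≤ Cfsg.Geo.quadSimilarityGroup ⇑Q} {h2 : Om F ⇑Q ≤ Γ}
  {h3 : ∀ σ ∈ fixQ ⇑Q, ∀ g ∈ Γ, mg σ g ∈ Γ}

theorem hkerG (hQ : ND Q) (hn : 6 ≤ finrank F (ι → F)) (g : (OSG ⇑Q Γ h1 h2 h3).Γ) (σ : (OSG ⇑Q Γ h1 h2 h3).A)
    (h : (OSG ⇑Q Γ h1 h2 h3).delta g * (OSG ⇑Q Γ h1 h2 h3).psi σ = 1) : σ = 1 ∧ (OSG ⇑Q Γ h1 h2 h3).IsSc g := by
  have ha : (OSG ⇑Q Γ h1 h2 h3).cj g * (OSG ⇑Q Γ h1 h2 h3).fa σ = 1 := by
    apply perfect_lift (omega_perfect hQ hn)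
    intro s
    have h4 : Sys.pr _ ((OSG ⇑Q Γ h1 h2 h3).cj g ((OSG ⇑Q Γ h1 h2 h3).fa σ s)) = Sys.pr _ s := congrArg (fun α => α (Sys.pr _ s)) h
    exact QuotientGroup.eq.1 h4.symm
  have hb : ∀ s, g.1 * mg σ.1 ((OSG ⇑Q Γ h1 h2 h3).e s) * g.1⁻¹ = (OSG ⇑Q Γ h1 h2 h3).e s := by
    intro s
    have h4 : (OSG ⇑Q Γ h1 h2 h3).cj g ((OSG ⇑Q Γ h1 h2 h3).fa σ s) = s := congrArg (fun α : MulAut _ => α s) ha
    have h5 := (OSG ⇑Q Γ h1 h2 h3).e_cj g ((OSG ⇑Q Γ h1 h2 h3).fa σ s)
    rw [h4, (OSG ⇑Q Γ h1 h2 h3).e_fa] at h5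
    exact h5.symm
  let T : (ι → F) → (ι → F) := fun v => g.1.1 *ᵥ (fun i => σ.1 (v i))
  have hT : CS Q σ.1 T := by
    refine ⟨?_, ?_, ?_, ?_⟩
    · intro x y
      show g.1.1 *ᵥ (fun i => σ.1 (x i + y i)) = _
      have : (fun i => σ.1 (x i + y i)) = (fun i => σ.1 (x i)) + (fun i => σ.1 (y i)) := by funext i; exact map_add _ _ _
      rw [this, Matrix.mulVec_add]
    · intro a x
      show g.1.1 *ᵥ (fun i => σ.1 (a * x i)) = _
      have : (fun i => σ.1 (a * x i)) = σ.1 a • (fun i => σ.1 (x i)) := by funext i; exact map_mul _ _ _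
      rw [this, Matrix.mulVec_smul]
    · intro x hx
      have h4 : (g.1⁻¹).1 *ᵥ (g.1.1 *ᵥ (fun i => σ.1 (x i))) = 0 := by
        have : g.1.1 *ᵥ (fun i => σ.1 (x i)) = 0 := hx
        rw [this, Matrix.mulVec_zero]
      rw [Matrix.mulVec_mulVec, ← Units.val_mul, inv_mul_cancel, Units.val_one, Matrix.one_mulVec] at h4
      funext i
      exact (map_eq_zero_iff σ.1 σ.1.injective).1 (congrFun h4 i)
    · intro w z hw hwz x
      obtain ⟨s, hs⟩ := exists_sg hQ (by omega) w z hw hwz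
      rw [← hs, ← hs]
      show s.1.1.1 *ᵥ (g.1.1 *ᵥ (fun i => σ.1 (x i))) = g.1.1 *ᵥ (fun i => σ.1 ((s.1.1.1 *ᵥ x) i))
      have h4 : s.1.1 * g.1 = g.1 * mg σ.1 s.1.1 := by
        have h5 := hb s
        have h6 : g.1 * mg σ.1 s.1.1 * g.1⁻¹ = s.1.1 := h5
        rw [mul_inv_eq_iff_eq_mul] at h6
        exact h6.symm
      have h5 : s.1.1.1 * g.1.1 = g.1.1 * (s.1.1.1.map σ.1) := congrArg Units.val h4
      rw [Matrix.mulVec_mulVec, h5, ← Matrix.mulVec_mulVec, mulVec_map']
      congr 1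
      funext i
      congr 1
      have : (fun j => σ.1.symm (σ.1 (x j))) = x := by funext j; exact σ.1.symm_apply_apply _
      rw [this]
  obtain ⟨hσ, c, hc⟩ := hT.main hQ (by omega)
  refine ⟨Subtype.ext (RingEquiv.ext hσ), c, ?_⟩
  ext i j
  have h4 := congrFun (hc (Pi.single j 1)) i
  have h5 : (fun l => σ.1 ((Pi.single j (1 : F) : ι → F) l)) = Pi.single j 1 := by
    funext l; exact hσ _
  have h6 : (g.1.1 *ᵥ (fun l => σ.1 ((Pi.single j (1 : F) : ι → F) l))) i = (c • (Pi.single j (1 : F) : ι → F)) i := h4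
  rw [h5, Matrix.mulVec_single_one] at h6
  rw [Matrix.smul_apply, Matrix.one_apply]
  have h7 : g.1.1 i j = c * (Pi.single j (1 : F) : ι → F) i := h6
  rw [h7, Pi.single_apply, smul_eq_mul]

end mat

end Cfsg.Agent.H8.Ort
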