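import Mathlib
import Cfsg.Agent.H8.Ort6
import Cfsg.Agent.H8.MSys2

set_option autoImplicit false
set_option linter.all false

/-! Odd dimensional orthogonal groups: index of `Ω` in `SO`, order of the automorphism group. -/

namespace Cfsg.Agent.H8.Ort

open scoped commutatorElement
open Matrix Cfsg.Agent.H8.GrStd Cfsg.Agent.H8.AutPSL Cfsg.Agent.Lib Cfsg.Agent.H8.MSys Cfsg.Agent.Lib.Orth
open QuadraticMap Module

section gen

variable {ι : Type} [Fintype ι] [DecidableEq ι] {F : Type*} [Field F] [Finite F]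

theorem hkerG' {q : (ι → F) → F} {Γ : Subgroup (GL ι F)} {h1 : Γ ≤ Cfsg.Geo.quadSimilarityGroup q} {h2 : Om F q ≤ Γ}
    {h3 : ∀ σ ∈ fixQ q, ∀ g ∈ Γ, mg σ g ∈ Γ} (Q : QuadraticForm F (ι → F)) (hq : ⇑Q = q)
    (hQ : ND Q) (hn : 6 ≤ finrank F (ι → F)) (g : (OSG q Γ h1 h2 h3).Γ) (σ : (OSG q Γ h1 h2 h3).A)
    (h : (OSG q Γ h1 h2 h3).delta g * (OSG q Γ h1 h2 h3).psi σ = 1) : σ = 1 ∧ (OSG q Γ h1 h2 h3).IsSc g := by
  subst hq
  exact hkerG hQ hn g σ h

/-- the spinor characters on matrices -/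
noncomputable def sn (Q : QuadraticForm F (ι → F)) (ε : F) : ↥(Cfsg.isometryGroup F ⇑Q) →* ℤˣ × ℤˣ :=
  (spin2 Q ε).comp (isoO Q).toMonoidHom

theorem sn_ker {Q : QuadraticForm F (ι → F)} (hQ : ND Q) (h2 : (2 : F) ≠ 0) {ε : F} (hε : ¬ IsSquare ε) (g : ↥(Cfsg.isometryGroup F ⇑Q)) :
    sn Q ε g = 1 ↔ g.1 ∈ Om F ⇑Q := by
  have h1 : sn Q ε g = 1 ↔ isoO Q g ∈ (spin2 Q ε).ker := Iff.rfl
  rw [h1, ker_spin2 hQ h2 hε, ← mem_Omega_iff, mem_Om]
  constructor
  · intro h; exact ⟨⟨g, h⟩, rfl⟩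
  · rintro ⟨s, hs⟩
    have : g = s.1 := Subtype.ext hs.symm
    rw [this]; exact s.2

/-- the index of `Ω` in `SO` -/
theorem relindex_SO {Q : QuadraticForm F (ι → F)} (hQ : ND Q) (h2 : (2 : F) ≠ 0) (hn : 2 ≤ finrank F (ι → F)) :
    (Om F ⇑Q).relIndex (Cfsg.specialIsometryGL F ⇑Q) = 2 := by
  have h4 : (Cfsg.Omega F ⇑Q).index = 4 := by
    rw [index_Omega]; exact index_commutator_odd hQ h2 hn
  have h5 : (Cfsg.specialIsometryGroup F ⇑Q).index = 2 := by
    have h6 : (Cfsg.specialIsometryGroup F ⇑Q) = (SO Q).comap (isoO Q : _ →* _) := by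
      ext g; exact mem_specialIsometryGroup_iff g
    rw [h6, Subgroup.index_comap_of_surjective _ (isoO Q).surjective]
    exact index_SO h2 hQ (by omega)
  have h7 : Cfsg.Omega F ⇑Q ≤ Cfsg.specialIsometryGroup F ⇑Q := by
    intro g hg
    rw [mem_specialIsometryGroup_iff]
    exact commutator_le_SO h2 hQ ((mem_Omega_iff g).1 hg)
  have h8 := Subgroup.relIndex_mul_index h7
  rw [h4, h5] at h8
  have h9 : (Om F ⇑Q).relIndex (Cfsg.specialIsometryGL F ⇑Q) = (Cfsg.Omega F ⇑Q).relIndex (Cfsg.specialIsometryGroup F ⇑Q) := by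
    have e1 : Om F ⇑Q = (Cfsg.Omega F ⇑Q).map (Cfsg.isometryGroup F ⇑Q).subtype := by
      unfold Om; rw [← Subgroup.map_subtype_commutator]
    have e2 : Cfsg.specialIsometryGL F ⇑Q = (Cfsg.specialIsometryGroup F ⇑Q).map (Cfsg.isometryGroup F ⇑Q).subtype := by
      ext g
      constructor
      · intro hg
        exact ⟨⟨g, hg.1⟩, hg.2, rfl⟩
      · rintro ⟨x, hx, rfl⟩
        exact ⟨x.2, hx⟩
    rw [e1, e2]
    exact Subgroup.relIndex_map_map_of_injective _ _ (Subgroup.subtype_injective _)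
  rw [h9]
  omega

end gen

section odd

variable {F : Type*} [Field F] [Finite F]

theorem hkerO (h2 : (2 : F) ≠ 0) {m : ℕ} (hm : 3 ≤ m) (g : (OS m F).Γ) (σ : (OS m F).A) (h : (OS m F).delta g * (OS m F).psi σ = 1) :
    σ = 1 ∧ (OS m F).IsSc g := by
  refine hkerG' (qOdd m F) coe_qOdd (nd_odd h2) ?_ g σ h
  rw [finrank_OIx]; omega

omit [Finite F] in
/-- no scalars in `SO` -/
theorem sc_one {m : ℕ} {g h : GL (OIx m) F} (hg : g ∈ Cfsg.specialIsometryGL F (Cfsg.quadFormOdd m F)) (hh : h ∈ Cfsg.specialIsometryGL F (Cfsg.quadFormOdd m F))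
    {c : F} (hc : h.1 = c • g.1) : c = 1 ∧ g = h := by
  obtain ⟨g1, g2⟩ := mem_spec.1 hg
  obtain ⟨h1, h2⟩ := mem_spec.1 hh
  have hq : ∀ (a : F) w, Cfsg.quadFormOdd m F (a • w) = a ^ 2 * Cfsg.quadFormOdd m F w := by
    intro a w
    unfold Cfsg.quadFormOdd
    simp only [Pi.smul_apply, smul_eq_mul, mul_add, Finset.mul_sum]
    congr 1
    · ring
    · exact Finset.sum_congr rfl fun i _ => by ring
  have h3 := mem_iso.1 h1 (Pi.single (Sum.inl ()) 1)
  rw [hc, Matrix.smul_mulVec, hq, mem_iso.1 g1] at h3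
  have h4 : Cfsg.quadFormOdd m F (Pi.single (Sum.inl ()) 1) = 1 := by
    unfold Cfsg.quadFormOdd
    simp
  rw [h4, mul_one] at h3
  have h5 := h2
  rw [hc, Matrix.det_smul, g2, mul_one] at h5
  have hcard : Fintype.card (OIx m) = 2 * m + 1 := by simp; ring
  rw [hcard, pow_succ, pow_mul, h3, one_pow, one_mul] at h5
  refine ⟨h5, ?_⟩
  apply Units.ext
  rw [hc, h5, one_smul]

theorem delta_inj (h2 : (2 : F) ≠ 0) {m : ℕ} (hm : 3 ≤ m) : Function.Injective (OS m F).delta := by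
  intro g h hgh
  rw [(OS m F).delta_eq_iff (hkerO h2 hm)] at hgh
  obtain ⟨c, hc⟩ := hgh
  exact Subtype.ext (sc_one g.2 h.2 hc).2

theorem delta_mem_inn (h2 : (2 : F) ≠ 0) {m : ℕ} (hm : 3 ≤ m) (g : (OS m F).Γ) :
    (OS m F).delta g ∈ Cfsg.Inn (Cfsg.POmega F (Cfsg.quadFormOdd m F)) ↔ g.1 ∈ Om F (Cfsg.quadFormOdd m F) := by
  constructor
  · rintro ⟨x, hx⟩
    obtain ⟨s, rfl⟩ := QuotientGroup.mk'_surjective _ x
    have h1 : (OS m F).delta ((OS m F).toΓ s) = (OS m F).delta g := ((OS m F).delta_toΓ s).trans hx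
    have h3 := delta_inj h2 hm h1
    rw [← h3]
    exact mem_Om.2 ⟨s, rfl⟩
  · intro h
    obtain ⟨s, hs⟩ := mem_Om.1 h
    have h1 : g = (OS m F).toΓ s := Subtype.ext hs.symm
    rw [h1, (OS m F).delta_toΓ]
    exact ⟨_, rfl⟩

theorem relindex_odd (h2 : (2 : F) ≠ 0) {m : ℕ} (hm : 3 ≤ m) :
    (Om F (Cfsg.quadFormOdd m F)).relIndex (Cfsg.specialIsometryGL F (Cfsg.quadFormOdd m F)) = 2 := by
  have h := relindex_SO (Q := qOdd m F) (nd_odd h2) h2 (by rw [finrank_OIx]; omega)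
  rwa [coe_qOdd] at h

theorem relindex_inn (h2 : (2 : F) ≠ 0) {m : ℕ} (hm : 3 ≤ m) :
    (Cfsg.Inn (Cfsg.POmega F (Cfsg.quadFormOdd m F))).relIndex (OS m F).delta.range = 2 := by
  rw [← Subgroup.index_comap, ← relindex_odd h2 hm]
  have : (Cfsg.Inn (Cfsg.POmega F (Cfsg.quadFormOdd m F))).comap (OS m F).delta = (Om F (Cfsg.quadFormOdd m F)).subgroupOf (OS m F).Γ := by
    ext g
    exact delta_mem_inn h2 hm g
  rw [this]; rfl

theorem card_delta (h2 : (2 : F) ≠ 0) {m : ℕ} (hm : 3 ≤ m) :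
    Nat.card (OS m F).delta.range = 2 * Nat.card (Cfsg.POmega F (Cfsg.quadFormOdd m F)) := by
  have h3 := ((Cfsg.Inn (Cfsg.POmega F (Cfsg.quadFormOdd m F))).subgroupOf (OS m F).delta.range).card_mul_index
  rw [Nat.card_congr (Subgroup.subgroupOfEquivOfLe (OS m F).inn_le).toEquiv] at h3
  have h4 := relindex_inn (F := F) h2 hm
  have h5 : ((Cfsg.Inn (Cfsg.POmega F (Cfsg.quadFormOdd m F))).subgroupOf (OS m F).delta.range).index = 2 := h4
  rw [h5, (OS m F).card_inn (hkerO h2 hm)] at h3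
  rw [← h3]; ring

omit [Finite F] in
theorem A_top (m : ℕ) : (OS m F).A = ⊤ := by
  rw [eq_top_iff]
  intro σ _
  exact fix_odd m σ

theorem card_A [Fintype F] {p f : ℕ} [Fact p.Prime] (hf : 1 ≤ f) (hF : Fintype.card F = p ^ f) (m : ℕ) : Nat.card (OS m F).A = f := by
  rw [A_top, Nat.card_congr (Subgroup.topEquiv (G := (F ≃+* F))).toEquiv, FinGal.card_gal F p hF hf]

theorem std_top' (h2 : (2 : F) ≠ 0) {m : ℕ} (hm : 3 ≤ m) : (OS m F).stdG = ⊤ := by
  obtain ⟨k, rfl⟩ : ∃ k, m = k + 1 := ⟨m - 1, by omega⟩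
  exact std_top h2 (by omega)

theorem card_aut [Fintype F] {p f : ℕ} [Fact p.Prime] (hf : 1 ≤ f) (hF : Fintype.card F = p ^ f) (h2 : (2 : F) ≠ 0) {m : ℕ} (hm : 3 ≤ m) :
    Nat.card (MulAut (Cfsg.POmega F (Cfsg.quadFormOdd m F))) = 2 * f * Nat.card (Cfsg.POmega F (Cfsg.quadFormOdd m F)) := by
  have h1 := (OS m F).card_stdG (hkerO h2 hm)
  rw [std_top' h2 hm, card_delta h2 hm, card_A hf hF] at h1
  rw [← Nat.card_congr (Subgroup.topEquiv (G := MulAut (Cfsg.POmega F (Cfsg.quadFormOdd m F)))).toEquiv]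
  refine h1.trans ?_
  ring

end odd

end Cfsg.Agent.H8.Ort

namespace Cfsg.Agent.H8.MSys

open Matrix Cfsg.Agent.H8.GrStd Cfsg.Agent.H8.AutPSL Cfsg.Agent.Lib

namespace Sys

variable {ι : Type*} [Fintype ι] [DecidableEq ι] {F : Type*} [Field F] {S : Type*} [Group S] (P : Sys ι F S)

/-- the outer automorphism group is a direct product -/
theorem out_prod (htop : P.stdG = ⊤) (hker : ∀ (g : P.Γ) (σ : P.A), P.delta g * P.psi σ = 1 → σ = 1 ∧ P.IsSc g)
    (hidx : (Cfsg.Inn (S ⧸ Subgroup.center S)).relIndex P.delta.range = 2) :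
    Nonempty (Cfsg.Out (S ⧸ Subgroup.center S) ≃* Multiplicative (ZMod 2) × P.A) := by
  let π : MulAut (S ⧸ Subgroup.center S) →* Cfsg.Out (S ⧸ Subgroup.center S) := QuotientGroup.mk' _
  let N := P.delta.range.map π
  have hπ : Function.Surjective π := QuotientGroup.mk'_surjective _
  haveI hn : N.Normal := (P.delta_normal htop).map π hπ
  have hcard : Nat.card N = 2 := by
    have h1 : (π.comp P.delta.range.subtype).range = N := by
      rw [MonoidHom.range_comp, Subgroup.range_subtype]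
    have h2 := Subgroup.index_ker (π.comp P.delta.range.subtype)
    rw [h1] at h2
    rw [← h2]
    have h3 : (π.comp P.delta.range.subtype).ker = (Cfsg.Inn (S ⧸ Subgroup.center S)).subgroupOf P.delta.range := by
      ext x
      exact QuotientGroup.eq_one_iff x.1
    rw [h3]; exact hidx
  have hcent : ∀ (n : N) (x : Cfsg.Out (S ⧸ Subgroup.center S)), x * n.1 = n.1 * x := by
    obtain ⟨n0, hn0⟩ := Nat.card_eq_two_iff.1 hcard
    obtain ⟨y, hne, huniv⟩ := hn0
    have hall : ∀ z : N, z = 1 ∨ ∀ w : N, w ≠ 1 → w = z := by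
      intro z
      by_cases hz : z = 1
      · exact Or.inl hz
      · right
        intro w hw
        have h1 : (1 : N) ∈ ({n0, y} : Set N) := by rw [huniv]; trivial
        have h2 : z ∈ ({n0, y} : Set N) := by rw [huniv]; trivial
        have h3 : w ∈ ({n0, y} : Set N) := by rw [huniv]; trivial
        rcases h1 with h1 | h1 <;> rcases h2 with h2 | h2 <;> rcases h3 with h3 | h3 <;>
          first
            | (rw [h2, h3]; done)
            | (exfalso; exact hz (h2.trans h1.symm))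
            | (exfalso; exact hw (h3.trans h1.symm))
    intro n x
    rcases hall n with rfl | h
    · show x * 1 = 1 * x
      rw [mul_one, one_mul]
    · by_cases hn1 : n = 1
      · subst hn1
        show x * 1 = 1 * x
        rw [mul_one, one_mul]
      · have h1 := h ⟨x * n.1 * x⁻¹, hn.conj_mem _ n.2 x⟩ (by
          intro h0
          apply hn1
          have h2 : x * n.1 * x⁻¹ = 1 := congrArg Subtype.val h0
          have h3 : n.1 = 1 := by
            calc n.1 = x⁻¹ * (x * n.1 * x⁻¹) * x := by group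
              _ = 1 := by rw [h2]; group
          exact Subtype.ext h3)
        have h2 : x * n.1 * x⁻¹ = n.1 := congrArg Subtype.val h1
        rw [mul_inv_eq_iff_eq_mul] at h2
        exact h2
  let Θ : N × P.A →* Cfsg.Out (S ⧸ Subgroup.center S) := MonoidHom.mk' (fun x => x.1.1 * π (P.psi x.2)) (by
    rintro ⟨n, σ⟩ ⟨n', σ'⟩
    show n.1 * n'.1 * π (P.psi (σ * σ')) = n.1 * π (P.psi σ) * (n'.1 * π (P.psi σ'))
    rw [map_mul, map_mul]
    calc n.1 * n'.1 * (π (P.psi σ) * π (P.psi σ')) = n.1 * (n'.1 * π (P.psi σ)) * π (P.psi σ') := by group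
      _ = _ := by rw [← hcent n']; group)
  have hΘ : Function.Bijective Θ := by
    constructor
    · rw [injective_iff_map_eq_one]
      rintro ⟨⟨_, ⟨_, ⟨g, rfl⟩, rfl⟩⟩, σ⟩ h
      have h1 : π (P.delta g) * π (P.psi σ) = 1 := h
      rw [← map_mul] at h1
      have h2 : P.delta g * P.psi σ ∈ Cfsg.Inn (S ⧸ Subgroup.center S) := (QuotientGroup.eq_one_iff _).1 h1
      obtain ⟨k, hk⟩ := P.inn_le h2
      have h3 : P.delta (k⁻¹ * g) * P.psi σ = 1 := by
        rw [map_mul, map_inv, hk]; group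
      have h4 := (hker _ _ h3).1
      subst h4
      have h5 : π (P.delta g) = 1 := by
        rw [map_mul, map_one P.psi, map_one, mul_one] at h1
        exact h1
      exact Prod.ext (Subtype.ext h5) rfl
    · intro x
      obtain ⟨α, rfl⟩ := hπ x
      obtain ⟨g, σ, rfl⟩ := P.mem_stdG.1 (by rw [htop]; trivial : α ∈ P.stdG)
      exact ⟨(⟨π (P.delta g), ⟨_, ⟨g, rfl⟩, rfl⟩⟩, σ), (map_mul π _ _).symm⟩
  haveI : Fact (Nat.Prime 2) := ⟨Nat.prime_two⟩
  haveI : IsCyclic N := isCyclic_of_prime_card hcard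
  have e : N ≃* Multiplicative (ZMod 2) :=
    mulEquivOfCyclicCardEq (by rw [hcard, Nat.card_eq_fintype_card, Fintype.card_multiplicative, ZMod.card])
  exact ⟨(MulEquiv.ofBijective Θ hΘ).symm.trans (MulEquiv.prodCongr e (MulEquiv.refl _))⟩

end Sys

end Cfsg.Agent.H8.MSys
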