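import Mathlib
import Cfsg.Prelude.Def_LieTypeDatum
import Cfsg.Agent.H8.MSys
import Cfsg.Agent.Lib.Herm16

set_option autoImplicit false
set_option linter.all false

/-! The automorphisms of `PSU_n(q)` induced by unitary matrices and field automorphisms. -/

namespace Cfsg.Agent.H8.Uni

open Matrix Cfsg.Agent.H8.GrStd Cfsg.Agent.H8.AutPSL Cfsg.Agent.Lib Cfsg.Agent.H8.MSys Cfsg.Agent.Lib.Herm

variable {n q : ℕ} {F : Type*} [Field F]

theorem mem_SU' {s : SpecialLinearGroup (Fin n) F} : s ∈ Cfsg.SU n F q ↔ SpecialLinearGroup.toGL s ∈ Cfsg.GU n F q := Iff.rfl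

theorem mulVec_map (σ : F ≃+* F) (M : Matrix (Fin n) (Fin n) F) (v : Fin n → F) :
    (M.map σ) *ᵥ v = fun i => σ ((M *ᵥ (fun j => σ.symm (v j))) i) := by
  funext i
  simp only [Matrix.mulVec, dotProduct, map_sum, map_mul, Matrix.map_apply, RingEquiv.apply_symm_apply]

theorem herm_map (σ : F ≃+* F) (u v : Fin n → F) :
    Cfsg.hermForm n F q (fun i => σ (u i)) (fun i => σ (v i)) = σ (Cfsg.hermForm n F q u v) := by
  simp only [Cfsg.hermForm, map_sum, map_mul, map_pow]

theorem mg_GU (σ : F ≃+* F) {g : GL (Fin n) F} (hg : g ∈ Cfsg.GU n F q) : mg σ g ∈ Cfsg.GU n F q := by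
  intro u v
  show Cfsg.hermForm n F q ((g.1.map σ) *ᵥ u) ((g.1.map σ) *ᵥ v) = _
  rw [mulVec_map, mulVec_map, herm_map]
  have h1 : Cfsg.hermForm n F q (g.1 *ᵥ (fun j => σ.symm (u j))) (g.1 *ᵥ (fun j => σ.symm (v j))) = _ := hg _ _
  rw [h1, herm_map (σ := σ.symm), RingEquiv.apply_symm_apply]

/-- the unitary system -/
def US (n : ℕ) (F : Type*) [Field F] (q : ℕ) : Sys (Fin n) F (Cfsg.SU n F q) where
  e := SpecialLinearGroup.toGL.comp (Cfsg.SU n F q).subtype
  inj := by
    intro s t h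
    apply Subtype.ext
    apply Subtype.ext
    exact congrArg (fun x : GL (Fin n) F => x.1) h
  Γ := Cfsg.GU n F q
  A := ⊤
  mem s := s.2
  conj g hg s := by
    refine ⟨⟨AutPSL.cg g s.1, ?_⟩, ?_⟩
    · rw [mem_SU']
      have h : SpecialLinearGroup.toGL (AutPSL.cg g s.1) = g * SpecialLinearGroup.toGL s.1 * g⁻¹ := by
        apply Units.ext; rfl
      rw [h]
      exact mul_mem (mul_mem hg s.2) (inv_mem hg)
    · apply Units.ext; rfl
  gal σ _ s := by
    refine ⟨⟨AutPSL.fl σ s.1, ?_⟩, ?_⟩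
    · rw [mem_SU']
      have h : SpecialLinearGroup.toGL (AutPSL.fl σ s.1) = mg σ (SpecialLinearGroup.toGL s.1) := by
        apply Units.ext; rfl
      rw [h]
      exact mg_GU σ s.2
    · apply Units.ext; rfl
  galΓ σ _ g hg := mg_GU σ hg

/-- field automorphisms -/
def gt (σ : F ≃+* F) : (US n F q).A := ⟨σ, trivial⟩

theorem US_e (s : Cfsg.SU n F q) : ((US n F q).e s).1 = s.1.1 := rfl

theorem isField_iff (σ : F ≃+* F) (β : MulAut (Cfsg.PSU n F q)) : Cfsg.IsFieldAutPSUOf σ β ↔ β = (US n F q).psi (gt σ) := by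
  constructor
  · intro h
    apply ext_mk
    intro s
    refine h s ((US n F q).fa (gt σ) s) ?_
    exact congrArg (fun x : GL (Fin n) F => x.1) ((US n F q).e_fa (gt σ) s)
  · rintro rfl s s' h
    show Sys.pr (Cfsg.SU n F q) ((US n F q).fa (gt σ) s) = Sys.pr _ s'
    congr 1
    apply (US n F q).inj
    rw [Sys.e_fa]
    apply Units.ext
    exact h.symm

theorem isInnDiag_iff (β : MulAut (Cfsg.PSU n F q)) : Cfsg.IsInnerDiagonalAutPSU β ↔ β ∈ (US n F q).delta.range := by
  constructor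
  · rintro ⟨g, hg, h⟩
    refine ⟨⟨g, hg⟩, ?_⟩
    symm
    apply ext_mk
    intro s
    refine h s ((US n F q).cj ⟨g, hg⟩ s) ?_
    exact congrArg (fun x : GL (Fin n) F => x.1) ((US n F q).e_cj ⟨g, hg⟩ s)
  · rintro ⟨g, rfl⟩
    refine ⟨g.1, g.2, ?_⟩
    intro s s' h
    show Sys.pr (Cfsg.SU n F q) ((US n F q).cj g s) = Sys.pr _ s'
    congr 1
    apply (US n F q).inj
    rw [Sys.e_cj]
    apply Units.ext
    exact h.symm

theorem inndiag_eq : Cfsg.inndiagPSU n F q = (US n F q).delta.range := by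
  apply le_antisymm
  · refine (Subgroup.closure_le _).2 ?_
    intro β hβ
    exact (isInnDiag_iff β).1 hβ
  · intro β hβ
    exact Subgroup.subset_closure ((isInnDiag_iff β).2 hβ)

theorem induced (g : (US n F q).Γ) (σ : F ≃+* F) :
    Cfsg.IsInducedBySemilinearPSU g.1 σ ((US n F q).delta g * (US n F q).psi (gt σ)) := by
  intro s s' h
  show Sys.pr (Cfsg.SU n F q) ((US n F q).cj g ((US n F q).fa (gt σ) s)) = Sys.pr _ s'
  congr 1
  apply (US n F q).inj
  rw [Sys.e_cj, Sys.e_fa]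
  apply Units.ext
  exact h.symm

/-! ### the kernel -/

section ker

variable {τ : F ≃+* F}

/-- unitary transvections -/
theorem tv_det (a : F) (v w : Fin n → F) (h : w ⬝ᵥ v = 0) : (1 + Matrix.of (fun i j => a * v i * w j) : Matrix (Fin n) (Fin n) F).det = 1 := by
  have : (Matrix.of (fun i j => a * v i * w j) : Matrix (Fin n) (Fin n) F) = Matrix.replicateCol Unit (a • v) * Matrix.replicateRow Unit w := by
    ext i j
    simp [Matrix.mul_apply]
  rw [this, Matrix.det_one_add_replicateCol_mul_replicateRow, dotProduct_smul, h, smul_zero, add_zero]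

theorem exists_tv [Finite F] (hτ2 : ∀ a, τ (τ a) = a) (hq : ∀ a, τ a = a ^ q) {a : F} (ha : τ a = - a) {v : Fin n → F} (hv : ∑ i, v i * τ (v i) = 0) :
    ∃ s : Cfsg.SU n F q, s.1.1 = 1 + Matrix.of (fun i j => a * v i * τ (v j)) := by
  have hd : (fun i => τ (v i)) ⬝ᵥ v = 0 := by
    rw [← hv]
    exact Finset.sum_congr rfl fun i _ => mul_comm _ _
  refine ⟨⟨(⟨1 + Matrix.of (fun i j => a * v i * τ (v j)), tv_det a v _ hd⟩ : SpecialLinearGroup (Fin n) F), (su_iff hτ2 hq _).2 ?_⟩, rfl⟩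
  show (1 + Matrix.of (fun i j => a * v i * τ (v j)) : Matrix (Fin n) (Fin n) F).transpose * (1 + Matrix.of (fun i j => a * v i * τ (v j)) : Matrix (Fin n) (Fin n) F).map τ = 1
  have h1 : (1 + Matrix.of (fun i j => a * v i * τ (v j)) : Matrix (Fin n) (Fin n) F).transpose = 1 + Matrix.of (fun i j => a * τ (v i) * v j) := by
    rw [Matrix.transpose_add, Matrix.transpose_one]
    congr 1
    ext i j
    show a * v j * τ (v i) = a * τ (v i) * v j
    ring
  have h2 : (1 + Matrix.of (fun i j => a * v i * τ (v j)) : Matrix (Fin n) (Fin n) F).map τ = 1 - Matrix.of (fun i j => a * τ (v i) * v j) := by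
    ext i j
    show τ ((1 : Matrix (Fin n) (Fin n) F) i j + a * v i * τ (v j)) = (1 : Matrix (Fin n) (Fin n) F) i j - a * τ (v i) * v j
    rw [map_add, map_mul, map_mul, ha, hτ2]
    have : τ ((1 : Matrix (Fin n) (Fin n) F) i j) = (1 : Matrix (Fin n) (Fin n) F) i j := by
      rw [Matrix.one_apply]; split_ifs <;> simp
    rw [this]; ring
  have h3 : (Matrix.of (fun i j => a * τ (v i) * v j) : Matrix (Fin n) (Fin n) F) * Matrix.of (fun i j => a * τ (v i) * v j) = 0 := by
    ext i j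
    rw [Matrix.mul_apply]
    show ∑ k, a * τ (v i) * v k * (a * τ (v k) * v j) = 0
    have : ∀ k, a * τ (v i) * v k * (a * τ (v k) * v j) = (v k * τ (v k)) * (a * τ (v i) * a * v j) := fun k => by ring
    rw [Finset.sum_congr rfl fun k _ => this k, ← Finset.sum_mul, hv, zero_mul]
  rw [h1, h2, Matrix.add_mul, Matrix.mul_sub, Matrix.mul_sub, h3]
  simp

theorem st_mul_self {g : GL (Fin n) F} (hτ2 : ∀ a, τ (τ a) = a) (hq : ∀ a, τ a = a ^ q) (hg : g ∈ Cfsg.GU n F q) :
    (g⁻¹ : GL (Fin n) F).1 = st τ g.1 := by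
  have h1 := (gu_iff_st hτ2 hq g).1 hg
  have h2 : (st τ g.1) * (g.1 * (g⁻¹ : GL (Fin n) F).1) = (g⁻¹ : GL (Fin n) F).1 := by
    rw [← Matrix.mul_assoc, h1, Matrix.one_mul]
  have h3 : g.1 * (g⁻¹ : GL (Fin n) F).1 = 1 := by rw [← Units.val_mul, mul_inv_cancel, Units.val_one]
  rw [h3, Matrix.mul_one] at h2
  exact h2.symm

/-- two vectors have a common orthogonal vector -/
theorem exists_perp2 (hn : 3 ≤ n) (v w : Fin n → F) : ∃ x : Fin n → F, x ≠ 0 ∧ v ⬝ᵥ x = 0 ∧ w ⬝ᵥ x = 0 := by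
  let f : (Fin n → F) →ₗ[F] (Fin 2 → F) := (Matrix.of ![v, w]).mulVecLin
  have h1 : f.ker ≠ ⊥ := by
    apply LinearMap.ker_ne_bot_of_finrank_lt
    simp; omega
  obtain ⟨x, hx, hx0⟩ := (Submodule.ne_bot_iff _).1 h1
  have hx' : (Matrix.of ![v, w]) *ᵥ x = 0 := hx
  exact ⟨x, hx0, congrFun hx' 0, congrFun hx' 1⟩

/-- the isotropic lines are fixed -/
theorem fix_line [Fintype F] (hτ : orderOf τ = 2) (hq : ∀ a, τ a = a ^ q) (hn : 3 ≤ n) (g : (US n F q).Γ) (σ : (US n F q).A)
    (h : (US n F q).delta g * (US n F q).psi σ = 1) {v : Fin n → F} (hv : ∑ i, v i * τ (v i) = 0) :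
    ∃ c : F, g.1.1 *ᵥ (fun i => σ.1 (v i)) = c • v := by
  obtain ⟨hτ2, hτ1, -⟩ := sigma_facts hτ
  by_cases hv0 : v = 0
  · subst hv0
    refine ⟨0, ?_⟩
    have : (fun i => σ.1 ((0 : Fin n → F) i)) = 0 := by funext i; exact map_zero _
    rw [this, Matrix.mulVec_zero, smul_zero]
  obtain ⟨a, ha0, ha⟩ := exists_skew hτ2 hτ1
  obtain ⟨s, hs⟩ := exists_tv (q := q) hτ2 hq ha hv
  have h1 : Sys.pr _ ((US n F q).cj g ((US n F q).fa σ s)) = Sys.pr _ s := congrArg (fun α => α (Sys.pr _ s)) h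
  have h2 : s⁻¹ * ((US n F q).cj g ((US n F q).fa σ s)) ∈ Subgroup.center _ := QuotientGroup.eq.1 h1.symm
  obtain ⟨l, hl⟩ := (mem_center_SU hτ hτ2 hq (by omega) _).1 h2
  set w : Fin n → F := g.1.1 *ᵥ (fun i => σ.1 (v i)) with hw
  -- the matrix of the image
  have h3 : ((US n F q).e ((US n F q).cj g ((US n F q).fa σ s))).1 = 1 + Matrix.of (fun i j => σ.1 a * w i * τ (w j)) := by
    rw [Sys.e_cj, Sys.e_fa]
    show g.1.1 * (s.1.1.map σ.1) * (g.1⁻¹).1 = _
    rw [hs]
    have e1 : (1 + Matrix.of (fun i j => a * v i * τ (v j)) : Matrix (Fin n) (Fin n) F).map σ.1 =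
        1 + Matrix.replicateCol Unit (σ.1 a • (fun i => σ.1 (v i))) * Matrix.replicateRow Unit (fun j => τ (σ.1 (v j))) := by
      ext i j
      have : σ.1 ((1 : Matrix (Fin n) (Fin n) F) i j) = (1 : Matrix (Fin n) (Fin n) F) i j := by
        rw [Matrix.one_apply]; split_ifs <;> simp
      simp [Matrix.mul_apply, this, comm_gal σ.1 τ, mul_assoc]
    rw [e1, Matrix.mul_add, Matrix.add_mul, Matrix.mul_one]
    congr 1
    · rw [← Units.val_mul, mul_inv_cancel, Units.val_one]
    · rw [st_mul_self hτ2 hq g.2, Matrix.mul_assoc, Matrix.mul_assoc, ← Matrix.mul_assoc g.1.1]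
      ext i j
      have e2 : (g.1.1 * Matrix.replicateCol Unit (σ.1 a • (fun i => σ.1 (v i)))) i () = σ.1 a * w i := by
        rw [hw, Matrix.mul_apply]
        show ∑ k, g.1.1 i k * (σ.1 a * σ.1 (v k)) = σ.1 a * ∑ k, g.1.1 i k * σ.1 (v k)
        rw [Finset.mul_sum]
        exact Finset.sum_congr rfl fun k _ => by ring
      have e3 : (Matrix.replicateRow Unit (fun j => τ (σ.1 (v j))) * st τ g.1.1) () j = τ (w j) := by
        rw [hw, Matrix.mul_apply]
        show ∑ k, τ (σ.1 (v k)) * τ (g.1.1 j k) = τ (∑ k, g.1.1 j k * σ.1 (v k))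
        rw [map_sum]
        exact Finset.sum_congr rfl fun k _ => by rw [map_mul, mul_comm]
      rw [Matrix.mul_apply, Fintype.sum_unique]
      show (g.1.1 * Matrix.replicateCol Unit (σ.1 a • (fun i => σ.1 (v i)))) i () * (Matrix.replicateRow Unit (fun j => τ (σ.1 (v j))) * st τ g.1.1) () j = _
      rw [e2, e3]; rfl
  have h4 : ∀ x, (1 + Matrix.of (fun i j => σ.1 a * w i * τ (w j)) : Matrix (Fin n) (Fin n) F) *ᵥ x = l • (s.1.1 *ᵥ x) := by
    intro x
    have h5 := hl x
    have h6 : ((US n F q).cj g ((US n F q).fa σ s)) = s * (s⁻¹ * ((US n F q).cj g ((US n F q).fa σ s))) := by group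
    have h7 : ((US n F q).e ((US n F q).cj g ((US n F q).fa σ s))).1 = s.1.1 * ((s⁻¹ * ((US n F q).cj g ((US n F q).fa σ s))).1).1 := by
      conv_lhs => rw [h6]
      rfl
    rw [← h3, h7, ← Matrix.mulVec_mulVec, h5, Matrix.mulVec_smul]
  have hcol : ∀ (b : F) (u t x : Fin n → F), (1 + Matrix.of (fun i j => b * u i * t j) : Matrix (Fin n) (Fin n) F) *ᵥ x = x + (b * (t ⬝ᵥ x)) • u := by
    intro b u t x
    rw [Matrix.add_mulVec, Matrix.one_mulVec]
    congr 1
    funext i
    show ∑ j, b * u i * t j * x j = b * (∑ j, t j * x j) * u i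
    rw [Finset.mul_sum, Finset.sum_mul]
    exact Finset.sum_congr rfl fun j _ => by ring
  have h8 : ∀ x, x + (σ.1 a * ((fun j => τ (w j)) ⬝ᵥ x)) • w = l • (x + (a * ((fun j => τ (v j)) ⬝ᵥ x)) • v) := by
    intro x
    rw [← hcol, ← hcol, ← hs]; exact h4 x
  obtain ⟨x, hx0, hx1, hx2⟩ := exists_perp2 hn (fun j => τ (w j)) (fun j => τ (v j))
  have hl1 : l = 1 := by
    have := h8 x
    rw [hx1, hx2, mul_zero, mul_zero, zero_smul, zero_smul, add_zero] at this
    obtain ⟨i, hi⟩ := Function.ne_iff.1 hx0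
    have h9 := congrFun this i
    have h10 : x i = l * x i := h9
    have hi' : x i ≠ 0 := hi
    exact mul_right_cancel₀ hi' (by rw [one_mul]; exact h10.symm)
  subst hl1
  have h11 : ∀ x, (σ.1 a * ((fun j => τ (w j)) ⬝ᵥ x)) • w = (a * ((fun j => τ (v j)) ⬝ᵥ x)) • v := by
    intro x
    have := h8 x
    rw [one_smul] at this
    exact add_left_cancel this
  have hw0 : w ≠ 0 := by
    intro h0
    apply hv0
    have h12 : (g.1⁻¹).1 *ᵥ w = (fun i => σ.1 (v i)) := by
      rw [hw, Matrix.mulVec_mulVec, ← Units.val_mul, inv_mul_cancel, Units.val_one, Matrix.one_mulVec]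
    rw [h0, Matrix.mulVec_zero] at h12
    funext i
    have := (congrFun h12 i).symm
    exact (map_eq_zero_iff σ.1 σ.1.injective).1 this
  obtain ⟨i, hi⟩ := Function.ne_iff.1 hw0
  have hi' : w i ≠ 0 := hi
  refine ⟨(σ.1 a * τ (w i))⁻¹ * (a * τ (v i)), ?_⟩
  have h13 := h11 (Pi.single i 1)
  rw [dotProduct_single_one, dotProduct_single_one] at h13
  rw [mul_smul, ← h13, smul_smul, inv_mul_cancel₀, one_smul]
  apply mul_ne_zero
  · exact (map_ne_zero_iff σ.1 σ.1.injective).2 ha0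
  · exact (map_ne_zero_iff τ τ.injective).2 hi'

/-- the kernel of the semilinear action -/
theorem hker [Fintype F] (hτ : orderOf τ = 2) (hq : ∀ a, τ a = a ^ q) (hn : 3 ≤ n) (g : (US n F q).Γ) (σ : (US n F q).A)
    (h : (US n F q).delta g * (US n F q).psi σ = 1) : σ = 1 ∧ (US n F q).IsSc g := by
  obtain ⟨hτ2, hτ1, hτ3⟩ := sigma_facts hτ
  obtain ⟨y0, hy00, hy0⟩ := hτ3 (-1) (neg_ne_zero.2 one_ne_zero) (by rw [map_neg, map_one])
  obtain ⟨t, ht⟩ := hτ1
  have ht0 : t ≠ 0 := by rintro rfl; exact ht (map_zero _)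
  have hτt0 : τ t ≠ 0 := (map_ne_zero_iff τ τ.injective).2 ht0
  -- a vector with two non-zero coordinates
  have key2 : ∀ (i j : Fin n), i ≠ j → ∀ y : F, y * τ y = -1 → ∃ c : F, ∀ k, g.1.1 k i + σ.1 y * g.1.1 k j = c * ((if k = i then 1 else 0) + (if k = j then y else 0)) := by
    intro i j hij y hy
    obtain ⟨c, hc⟩ := fix_line hτ hq hn g σ h (v := Pi.single i 1 + Pi.single j y) (by
      rw [Finset.sum_eq_add i j hij]
      · simp [hij, hij.symm, hy]
      · rintro k - ⟨hki, hkj⟩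
        simp [hki, hkj]
      · simp
      · simp)
    refine ⟨c, fun k => ?_⟩
    have := congrFun hc k
    have e1 : (fun l => σ.1 ((Pi.single i (1 : F) + Pi.single j y : Fin n → F) l)) = Pi.single i 1 + Pi.single j (σ.1 y) := by
      funext l
      show σ.1 ((Pi.single i (1 : F) : Fin n → F) l + (Pi.single j y : Fin n → F) l) = (Pi.single i (1 : F) : Fin n → F) l + (Pi.single j (σ.1 y) : Fin n → F) l
      rw [map_add, Pi.single_apply, Pi.single_apply, Pi.single_apply]
      split_ifs <;> simp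
    rw [e1, Matrix.mulVec_add, Matrix.mulVec_single, Matrix.mulVec_single] at this
    simp only [Pi.add_apply, Pi.smul_apply, Matrix.col_apply, MulOpposite.op_one, one_smul, Pi.single_apply, smul_eq_mul] at this
    have e2 : (MulOpposite.op (σ.1 y) • g.1.1.col j) k = σ.1 y * g.1.1 k j := mul_comm _ _
    rw [← e2]
    exact this
  -- g is diagonal
  have hdiag : ∀ i k : Fin n, k ≠ i → g.1.1 k i = 0 := by
    intro i k hki
    obtain ⟨j, hji, hjk⟩ : ∃ j : Fin n, j ≠ i ∧ j ≠ k := by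
      have : ∃ j : Fin n, j ∉ ({i, k} : Finset (Fin n)) := by
        by_contra hcon
        push Not at hcon
        have h1 : (Finset.univ : Finset (Fin n)) ⊆ {i, k} := fun j _ => hcon j
        have h2 := Finset.card_le_card h1
        rw [Finset.card_univ, Fintype.card_fin] at h2
        have h3 := Finset.card_le_two (a := i) (b := k)
        omega
      obtain ⟨j, hj⟩ := this
      rw [Finset.mem_insert, Finset.mem_singleton, not_or] at hj
      exact ⟨j, hj.1, hj.2⟩
    obtain ⟨c, hc⟩ := key2 i j hji.symm y0 hy0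
    obtain ⟨c', hc'⟩ := key2 i j hji.symm (t * (τ t)⁻¹ * y0) (by
      rw [map_mul, map_mul, map_inv₀, hτ2]
      calc t * (τ t)⁻¹ * y0 * (τ t * t⁻¹ * τ y0) = (t * t⁻¹) * (τ t * (τ t)⁻¹) * (y0 * τ y0) := by ring
        _ = -1 := by rw [mul_inv_cancel₀ ht0, mul_inv_cancel₀ hτt0, hy0]; ring)
    have h1 := hc k
    have h2 := hc' k
    rw [if_neg hki, if_neg (Ne.symm hjk), add_zero, mul_zero] at h1 h2
    have h3 : (σ.1 y0 - σ.1 (t * (τ t)⁻¹ * y0)) * g.1.1 k j = 0 := by linear_combination h1 - h2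
    have h4 : σ.1 y0 - σ.1 (t * (τ t)⁻¹ * y0) ≠ 0 := by
      rw [← map_sub]
      apply (map_ne_zero_iff σ.1 σ.1.injective).2
      intro h5
      apply ht
      have h6 : y0 * (1 - t * (τ t)⁻¹) = 0 := by linear_combination h5
      rcases mul_eq_zero.1 h6 with h7 | h7
      · exact absurd h7 hy00
      · field_simp at h7
        linear_combination h7
    rcases mul_eq_zero.1 h3 with h5 | h5
    · exact absurd h5 h4
    · rw [h5, mul_zero, add_zero] at h1; exact h1
  -- all relations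
  have hnz : ∀ i : Fin n, g.1.1 i i ≠ 0 := by
    intro i h0
    have h1 : ((g.1⁻¹).1 * g.1.1) i i = 1 := by rw [← Units.val_mul, inv_mul_cancel, Units.val_one, Matrix.one_apply_eq]
    rw [Matrix.mul_apply, Finset.sum_eq_single i] at h1
    · rw [h0, mul_zero] at h1; exact zero_ne_one h1
    · intro k _ hk
      rw [hdiag i k hk, mul_zero]
    · simp
  have key3 : ∀ (i j : Fin n), i ≠ j → ∀ y : F, g.1.1 j j * σ.1 y = g.1.1 i i * y := by
    intro i j hij y
    obtain ⟨k, hki, hkj⟩ : ∃ k : Fin n, k ≠ i ∧ k ≠ j := by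
      have : ∃ k : Fin n, k ∉ ({i, j} : Finset (Fin n)) := by
        by_contra hcon
        push Not at hcon
        have h1 : (Finset.univ : Finset (Fin n)) ⊆ {i, j} := fun k _ => hcon k
        have h2 := Finset.card_le_card h1
        rw [Finset.card_univ, Fintype.card_fin] at h2
        have h3 := Finset.card_le_two (a := i) (b := j)
        omega
      obtain ⟨k, hk⟩ := this
      rw [Finset.mem_insert, Finset.mem_singleton, not_or] at hk
      exact ⟨k, hk.1, hk.2⟩
    obtain ⟨z, hz⟩ : ∃ z : F, z * τ z = -1 - y * τ y := by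
      by_cases h0 : -1 - y * τ y = 0
      · exact ⟨0, by rw [h0, zero_mul]⟩
      · obtain ⟨z, -, hz⟩ := hτ3 _ h0 (by rw [map_sub, map_neg, map_one, map_mul, hτ2, mul_comm])
        exact ⟨z, hz⟩
    obtain ⟨c, hc⟩ := fix_line hτ hq hn g σ h (v := fun l => if l = i then 1 else if l = j then y else if l = k then z else 0) (by
      have : ∀ l : Fin n, (if l = i then (1 : F) else if l = j then y else if l = k then z else 0) * τ (if l = i then 1 else if l = j then y else if l = k then z else 0) =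
          (if l = i then 1 else 0) + (if l = j then y * τ y else 0) + (if l = k then z * τ z else 0) := by
        intro l
        by_cases h1 : l = i
        · subst h1; simp [hij, Ne.symm hki]
        · by_cases h2 : l = j
          · subst h2; simp [h1, Ne.symm hkj]
          · by_cases h3 : l = k
            · subst h3; simp [h1, h2]
            · simp [h1, h2, h3]
      rw [Finset.sum_congr rfl fun l _ => this l, Finset.sum_add_distrib, Finset.sum_add_distrib]
      simp [hz])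
    have h1 := congrFun hc i
    have h2 := congrFun hc j
    have hd : ∀ (v : Fin n → F) (l : Fin n), (g.1.1 *ᵥ v) l = g.1.1 l l * v l := by
      intro v l
      show ∑ m, g.1.1 l m * v m = _
      rw [Finset.sum_eq_single l]
      · intro m _ hm
        rw [hdiag m l (Ne.symm hm), zero_mul]
      · simp
    rw [hd] at h1 h2
    simp only [Pi.smul_apply, smul_eq_mul, if_pos, hij.symm, if_neg, if_true, if_false, map_one, mul_one] at h1 h2
    rw [h2, ← h1]
  have hσ : σ = 1 := by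
    apply Subtype.ext
    apply RingEquiv.ext
    intro y
    have hi : (⟨0, by omega⟩ : Fin n) ≠ ⟨1, by omega⟩ := by
      intro h0
      have := congrArg Fin.val h0
      simp at this
    have h1 := key3 _ _ hi y
    have h2 := key3 _ _ hi 1
    rw [map_one, mul_one, mul_one] at h2
    rw [h2] at h1
    exact mul_left_cancel₀ (hnz _) h1
  refine ⟨hσ, g.1.1 ⟨0, by omega⟩ ⟨0, by omega⟩, ?_⟩
  ext i j
  rw [Matrix.smul_apply, smul_eq_mul, Matrix.one_apply]
  split_ifs with hij
  · subst hij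
    rw [mul_one]
    by_cases hi : (⟨0, by omega⟩ : Fin n) = i
    · rw [← hi]
    · have := key3 _ _ hi 1
      rw [map_one, mul_one, mul_one] at this
      exact this
  · rw [mul_zero]; exact hdiag j i hij

end ker

end Cfsg.Agent.H8.Uni
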