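import Mathlib
import Cfsg.Agent.H8.Uni1
import Cfsg.Agent.H8.GrOddU5
import Cfsg.Agent.H8.GrEven4

set_option autoImplicit false
set_option linter.all false

/-! Automorphisms of `PSU_n(q)`: all are standard. -/

namespace Cfsg.Agent.H8.Uni

open Matrix Cfsg.Agent.H8.GrStd Cfsg.Agent.H8.AutPSL Cfsg.Agent.Lib Cfsg.Agent.H8.MSys Cfsg.Agent.Lib.Herm Cfsg.Agent.H8.Theta

variable {n q : ℕ} {F : Type*} [Field F] {τ : F ≃+* F}

theorem su_iff' (hτ2 : ∀ a, τ (τ a) = a) (hq : ∀ a, τ a = a ^ q) (s : SpecialLinearGroup (Fin n) F) :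
    s ∈ Cfsg.SU n F q ↔ s.1 * st τ s.1 = 1 := by
  rw [su_iff hτ2 hq]
  constructor
  · intro h
    apply mul_eq_one_comm.1
    have := congrArg Matrix.transpose h
    rw [Matrix.transpose_mul, Matrix.transpose_transpose, Matrix.transpose_one] at this
    exact this
  · intro h
    have h2 := mul_eq_one_comm.1 h
    have := congrArg Matrix.transpose h2
    rw [Matrix.transpose_mul, Matrix.transpose_one] at this
    exact this

theorem gu_iff' (hτ2 : ∀ a, τ (τ a) = a) (hq : ∀ a, τ a = a ^ q) (s : GL (Fin n) F) :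
    s ∈ Cfsg.GU n F q ↔ s.1 * st τ s.1 = 1 := by
  rw [gu_iff_st hτ2 hq]
  exact mul_eq_one_comm

theorem st_mg [Finite F] (σ : F ≃+* F) (g : Matrix (Fin n) (Fin n) F) : st τ (g.map σ) = (st τ g).map σ := by
  ext i j
  show τ (σ (g j i)) = σ (τ (g j i))
  exact (comm_gal σ τ _).symm

variable {N : ℕ} {ε : Fin (N + 1) → Fˣ}

/-- the change of form -/
theorem mem_trans [Finite F] (hτ : orderOf τ = 2) (hq : ∀ a, τ a = a ^ q) {c : F} (hc : c ≠ 0) {k : GL (Fin (N + 1)) F}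
    (hk : k.1 * st τ k.1 = c • (Jm ε).1) (s : SpecialLinearGroup (Fin (N + 1)) F) :
    AutPSL.cg k⁻¹ s ∈ Cfsg.SU (N + 1) F q ↔ s ∈ Gr τ ε := by
  obtain ⟨hτ2, -, -⟩ := sigma_facts hτ
  rw [su_iff' hτ2 hq, mem_Gr_iff]
  have h1 : (AutPSL.cg k⁻¹ s).1 = (k⁻¹).1 * s.1 * k.1 := by rw [cg_coe, inv_inv]
  have hkk : k.1 * (k⁻¹).1 = 1 := by rw [← Units.val_mul, mul_inv_cancel, Units.val_one]
  have hkk' : (k⁻¹).1 * k.1 = 1 := by rw [← Units.val_mul, inv_mul_cancel, Units.val_one]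
  have hst : st τ (k⁻¹).1 * st τ k.1 = 1 := by rw [← st_mul, hkk, st_one]
  have hst' : st τ k.1 * st τ (k⁻¹).1 = 1 := by rw [← st_mul, hkk', st_one]
  have h2 : (AutPSL.cg k⁻¹ s).1 * st τ (AutPSL.cg k⁻¹ s).1 = (k⁻¹).1 * (c • (s.1 * (Jm ε).1 * st τ s.1)) * st τ (k⁻¹).1 := by
    rw [h1, st_mul, st_mul]
    calc (k⁻¹).1 * s.1 * k.1 * (st τ k.1 * (st τ s.1 * st τ (k⁻¹).1)) = (k⁻¹).1 * (s.1 * (k.1 * st τ k.1) * st τ s.1) * st τ (k⁻¹).1 := by
          simp only [Matrix.mul_assoc]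
      _ = _ := by rw [hk]; simp only [Matrix.mul_smul, Matrix.smul_mul]
  rw [h2]
  show _ ↔ s.1 * (Jm ε).1 * st τ s.1 = (Jm ε).1
  constructor
  · intro h
    have h3 : c • (s.1 * (Jm ε).1 * st τ s.1) = k.1 * st τ k.1 := by
      calc c • (s.1 * (Jm ε).1 * st τ s.1) = (k.1 * (k⁻¹).1) * (c • (s.1 * (Jm ε).1 * st τ s.1)) * (st τ (k⁻¹).1 * st τ k.1) := by
            rw [hkk, hst, Matrix.one_mul, Matrix.mul_one]
        _ = k.1 * ((k⁻¹).1 * (c • (s.1 * (Jm ε).1 * st τ s.1)) * st τ (k⁻¹).1) * st τ k.1 := by simp only [Matrix.mul_assoc]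
        _ = _ := by rw [h, Matrix.mul_one]
    rw [hk] at h3
    exact smul_right_injective _ hc h3
  · intro h
    rw [h, ← hk]
    calc (k⁻¹).1 * (k.1 * st τ k.1) * st τ (k⁻¹).1 = ((k⁻¹).1 * k.1) * (st τ k.1 * st τ (k⁻¹).1) := by simp only [Matrix.mul_assoc]
      _ = 1 := by rw [hkk', hst', Matrix.one_mul]

/-- the isomorphism -/
noncomputable def Phi [Finite F] (hτ : orderOf τ = 2) (hq : ∀ a, τ a = a ^ q) {c : F} (hc : c ≠ 0) {k : GL (Fin (N + 1)) F}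
    (hk : k.1 * st τ k.1 = c • (Jm ε).1) : Gr τ ε ≃* Cfsg.SU (N + 1) F q where
  toFun s := ⟨AutPSL.cg k⁻¹ s.1, (mem_trans hτ hq hc hk s.1).2 s.2⟩
  invFun t := ⟨(AutPSL.cg k⁻¹)⁻¹ t.1, (mem_trans hτ hq hc hk _).1 (by rw [MulAut.apply_inv_self]; exact t.2)⟩
  left_inv s := Subtype.ext (MulAut.inv_apply_self _ _ _)
  right_inv t := Subtype.ext (MulAut.apply_inv_self _ _ _)
  map_mul' s t := Subtype.ext (map_mul _ _ _)

theorem st_smul' (c : F) (M : Matrix (Fin n) (Fin n) F) : st τ (c • M) = τ c • st τ M := by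
  ext i j
  show τ (c * M j i) = τ c * τ (M j i)
  rw [map_mul]

/-- the element of `GU` -/
theorem exists_GU [Finite F] (hτ : orderOf τ = 2) (hq : ∀ a, τ a = a ^ q) (hε : ∀ (σ : F ≃+* F) a, σ (ε a) = ε a) {c : F} (hc : c ≠ 0) {k : GL (Fin (N + 1)) F}
    (hk : k.1 * st τ k.1 = c • (Jm ε).1) {g : GL (Fin (N + 1)) F} (hg : g ∈ GJ τ (Jm ε).1) (σ : F ≃+* F) :
    ∃ (z h : GL (Fin (N + 1)) F) (b : F), z.1 = b • (1 : Matrix (Fin (N + 1)) (Fin (N + 1)) F) ∧ h = z * (k⁻¹ * g * mg σ k) ∧ h ∈ Cfsg.GU (N + 1) F q := by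
  obtain ⟨hτ2, -, hτ3⟩ := sigma_facts hτ
  obtain ⟨μ, hμ⟩ := hg
  have hμ' : g.1 * (Jm ε).1 * st τ g.1 = (μ : F) • (Jm ε).1 := hμ
  have hJσ : (Jm ε).1.map σ = (Jm ε).1 := by
    ext i j
    show σ (Jf _ i j) = Jf _ i j
    rw [Jf_apply]
    split_ifs
    · exact hε σ i
    · exact map_zero _
  have hkσ : (k.1.map σ) * st τ (k.1.map σ) = σ c • (Jm ε).1 := by
    rw [st_mg, ← map_mulM, hk]
    conv_rhs => rw [← hJσ]
    ext i j
    show σ (c * _) = σ c * σ _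
    rw [map_mul]
  have hkk : k.1 * (k⁻¹).1 = 1 := by rw [← Units.val_mul, mul_inv_cancel, Units.val_one]
  have hkk' : (k⁻¹).1 * k.1 = 1 := by rw [← Units.val_mul, inv_mul_cancel, Units.val_one]
  have hst' : st τ k.1 * st τ (k⁻¹).1 = 1 := by rw [← st_mul, hkk', st_one]
  set h0 : GL (Fin (N + 1)) F := k⁻¹ * g * mg σ k with hh0
  have h1 : h0.1 * st τ h0.1 = (σ c * (μ : F) * c⁻¹) • (1 : Matrix (Fin (N + 1)) (Fin (N + 1)) F) := by
    have e1 : h0.1 = (k⁻¹).1 * g.1 * k.1.map σ := rfl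
    rw [e1, st_mul, st_mul]
    calc (k⁻¹).1 * g.1 * k.1.map σ * (st τ (k.1.map σ) * (st τ g.1 * st τ (k⁻¹).1))
        = (k⁻¹).1 * (g.1 * (k.1.map σ * st τ (k.1.map σ)) * st τ g.1) * st τ (k⁻¹).1 := by simp only [Matrix.mul_assoc]
      _ = (σ c * (μ : F)) • ((k⁻¹).1 * (Jm ε).1 * st τ (k⁻¹).1) := by
          rw [hkσ]
          simp only [Matrix.mul_smul, Matrix.smul_mul]
          rw [hμ']
          simp only [Matrix.mul_smul, Matrix.smul_mul, smul_smul]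
      _ = (σ c * (μ : F) * c⁻¹) • ((k⁻¹).1 * (c • (Jm ε).1) * st τ (k⁻¹).1) := by
          simp only [Matrix.mul_smul, Matrix.smul_mul, smul_smul]
          rw [inv_mul_cancel_right₀ hc]
      _ = _ := by
          rw [← hk]
          have : (k⁻¹).1 * (k.1 * st τ k.1) * st τ (k⁻¹).1 = 1 := by
            calc (k⁻¹).1 * (k.1 * st τ k.1) * st τ (k⁻¹).1 = ((k⁻¹).1 * k.1) * (st τ k.1 * st τ (k⁻¹).1) := by simp only [Matrix.mul_assoc]
              _ = 1 := by rw [hkk', hst', Matrix.one_mul]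
          rw [this]
  set ν : F := σ c * (μ : F) * c⁻¹ with hν
  have hν0 : ν ≠ 0 := by
    rw [hν]
    exact mul_ne_zero (mul_ne_zero ((map_ne_zero_iff σ σ.injective).2 hc) μ.ne_zero) (inv_ne_zero hc)
  have hντ : τ ν = ν := by
    have h2 := congrArg (st τ) h1
    rw [st_mul, st_st hτ2, h1, st_smul', st_one] at h2
    have h3 := congrFun (congrFun h2 0) 0
    rw [Matrix.smul_apply, Matrix.smul_apply, Matrix.one_apply_eq, smul_eq_mul, smul_eq_mul, mul_one, mul_one] at h3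
    exact h3.symm
  obtain ⟨b, hb0, hb⟩ := hτ3 ν⁻¹ (inv_ne_zero hν0) (by rw [map_inv₀, hντ])
  let z : GL (Fin (N + 1)) F := GeneralLinearGroup.scalar (Fin (N + 1)) (Units.mk0 b hb0)
  have hz : z.1 = b • (1 : Matrix (Fin (N + 1)) (Fin (N + 1)) F) := by
    show Matrix.scalar (Fin (N + 1)) b = _
    rw [Matrix.smul_one_eq_diagonal]; rfl
  refine ⟨z, z * h0, b, hz, rfl, ?_⟩
  rw [gu_iff' hτ2 hq]
  have e2 : (z * h0).1 = b • h0.1 := by rw [Units.val_mul, hz, Matrix.smul_mul, Matrix.one_mul]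
  rw [e2, st_smul', Matrix.smul_mul, Matrix.mul_smul, h1, smul_smul, smul_smul, hb, inv_mul_cancel₀ hν0, one_smul]

theorem map_center {A B : Type*} [Group A] [Group B] (Φ : A ≃* B) : (Subgroup.center A).map (Φ : A →* B) = Subgroup.center B := by
  ext y
  constructor
  · rintro ⟨x, hx, rfl⟩
    rw [Subgroup.mem_center_iff]
    intro z
    obtain ⟨w, rfl⟩ := Φ.surjective z
    show Φ w * Φ x = Φ x * Φ w
    rw [← map_mul, ← map_mul, Subgroup.mem_center_iff.1 hx w]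
  · intro hy
    obtain ⟨x, rfl⟩ := Φ.surjective y
    refine ⟨x, ?_, rfl⟩
    show x ∈ Subgroup.center A
    rw [Subgroup.mem_center_iff]
    intro w
    apply Φ.injective
    rw [map_mul, map_mul]
    exact Subgroup.mem_center_iff.1 hy (Φ w)

theorem std_top [Finite F] (hτ : orderOf τ = 2) (hq : ∀ a, τ a = a ^ q) (hε : ∀ (σ : F ≃+* F) a, σ (ε a) = ε a) {c : F} (hc : c ≠ 0)
    (hH : st τ (c • (Jm ε).1) = c • (Jm ε).1)
    (main : ∀ α : MulAut (Gr τ ε ⧸ Subgroup.center (Gr τ ε)), ∃ (g : GL (Fin (N + 1)) F) (hg : g ∈ GJ τ (Jm ε).1) (σ : F ≃+* F),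
      α = indG (res (Gr τ ε) (AutPSL.cg g) (cg_mem hg) * res (Gr τ ε) (AutPSL.fl σ) (fl_mem hε σ))) :
    (US (N + 1) F q).stdG = ⊤ := by
  rw [eq_top_iff]
  intro β _
  let H : GL (Fin (N + 1)) F := GeneralLinearGroup.scalar (Fin (N + 1)) (Units.mk0 c hc) * Jm ε
  have hHc : H.1 = c • (Jm ε).1 := by
    show Matrix.scalar (Fin (N + 1)) c * (Jm ε).1 = _
    rw [Matrix.scalar_apply, ← Matrix.smul_one_eq_diagonal, Matrix.smul_mul, Matrix.one_mul]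
  obtain ⟨k, hk⟩ := exists_factor_herm hτ H (by rw [hHc]; exact hH)
  have hk' : k.1 * st τ k.1 = c • (Jm ε).1 := by rw [← hHc]; exact hk
  let Φ := Phi (ε := ε) hτ hq hc hk'
  let Ψ : (Gr τ ε ⧸ Subgroup.center (Gr τ ε)) ≃* Cfsg.PSU (N + 1) F q := QuotientGroup.congr _ _ Φ (map_center Φ)
  let α : MulAut (Gr τ ε ⧸ Subgroup.center (Gr τ ε)) := (Ψ.trans β).trans Ψ.symm
  obtain ⟨g, hg, σ, hα⟩ := main α
  obtain ⟨z, h, b, hz, hh, hGU⟩ := exists_GU (q := q) hτ hq hε hc hk' hg σ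
  refine ⟨⟨h, hGU⟩, gt σ, ?_⟩
  apply ext_mk
  intro s
  have h1 : β (Ψ (QuotientGroup.mk' _ (Φ.symm s))) = Ψ (α (QuotientGroup.mk' _ (Φ.symm s))) := by
    show _ = Ψ (Ψ.symm _)
    rw [MulEquiv.apply_symm_apply]; rfl
  have h2 : Ψ (QuotientGroup.mk' _ (Φ.symm s)) = QuotientGroup.mk' _ s := by
    show QuotientGroup.mk' _ (Φ (Φ.symm s)) = _
    rw [MulEquiv.apply_symm_apply]
  rw [h2] at h1
  rw [h1, hα]
  show Sys.pr _ (Φ _) = Sys.pr _ ((US (N + 1) F q).cj ⟨h, hGU⟩ ((US (N + 1) F q).fa (gt σ) s))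
  congr 1
  apply (US (N + 1) F q).inj
  rw [Sys.e_cj, Sys.e_fa]
  set x := Φ.symm s with hx
  have hs : (US (N + 1) F q).e s = k⁻¹ * SpecialLinearGroup.toGL x.1 * k := by
    have : s = Φ x := by rw [hx, MulEquiv.apply_symm_apply]
    rw [this]
    apply Units.ext
    show (AutPSL.cg k⁻¹ x.1).1 = _
    rw [cg_coe, inv_inv]; rfl
  rw [hs]
  have hL : (US (N + 1) F q).e (Φ ((res (Gr τ ε) (AutPSL.cg g) (cg_mem hg) * res (Gr τ ε) (AutPSL.fl σ) (fl_mem hε σ)) x)) =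
      k⁻¹ * (g * mg σ (SpecialLinearGroup.toGL x.1) * g⁻¹) * k := by
    apply Units.ext
    show (AutPSL.cg k⁻¹ (AutPSL.cg g (AutPSL.fl σ x.1))).1 = _
    rw [cg_coe, inv_inv]; rfl
  refine hL.trans ?_
  show _ = h * mg σ (k⁻¹ * SpecialLinearGroup.toGL x.1 * k) * h⁻¹
  rw [hh, map_mul, map_mul, map_inv]
  have hzc : ∀ y : GL (Fin (N + 1)) F, z * y * z⁻¹ = y := by
    intro y; rw [Sys.sc_comm hz, mul_inv_cancel_right]
  have e3 : z * (k⁻¹ * g * mg σ k) * ((mg σ k)⁻¹ * mg σ (SpecialLinearGroup.toGL x.1) * mg σ k) * (z * (k⁻¹ * g * mg σ k))⁻¹ =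
      z * (k⁻¹ * (g * mg σ (SpecialLinearGroup.toGL x.1) * g⁻¹) * k) * z⁻¹ := by group
  rw [e3, hzc]

/-- every automorphism of `PSU_n(q)` is standard -/
theorem aut_std [Finite F] (hτ : orderOf τ = 2) (hq : ∀ a, τ a = a ^ q) (hn : 3 ≤ n) (h4 : n = 3 → 4 < Nat.card F) :
    (US n F q).stdG = ⊤ := by
  obtain ⟨hτ2, hne, -⟩ := sigma_facts hτ
  rcases Nat.even_or_odd' n with ⟨k, rfl | rfl⟩
  · -- even dimension
    obtain ⟨k, rfl⟩ : ∃ k', k = k' + 1 := ⟨k - 1, by omega⟩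
    obtain ⟨θ, hθ0, hθ⟩ := exists_skew hτ2 hne
    refine std_top (N := 2 * k + 1) (ε := GrEven.ea k F) hτ hq (fun σ a => GrEven.ea_fix σ a) hθ0 ?_ ?_
    · ext i j
      show τ (θ * Jf _ j i) = θ * Jf _ i j
      rw [map_mul, hθ, Jf_apply, Jf_apply]
      by_cases h1 : i = Fin.rev j
      · subst h1
        rw [if_pos rfl, if_pos (Fin.rev_rev j).symm, GrEven.ea_fix]
        by_cases h2 : (j : ℕ) ≤ k
        · rw [GrEven.ea_lo h2, GrEven.ea_hi (by rw [GrEven.rev_val]; omega)]; simp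
        · rw [GrEven.ea_hi (by omega), GrEven.ea_lo (by rw [GrEven.rev_val]; omega)]; simp
      · rw [if_neg h1, if_neg (fun h => h1 (by rw [h, Fin.rev_rev])), map_zero, mul_zero, mul_zero]
    · intro α
      obtain ⟨g, hg, σ, h⟩ : ∃ (g : GL (Fin (2 * k + 1 + 1)) F) (hg : g ∈ GJ τ (Jm (GrEven.ea k F)).1) (σ : F ≃+* F), α = GrEven.iq k τ hτ2 (GrEven.cgK τ g hg * GrEven.flK τ σ) := by
        by_cases hk : 2 ≤ k
        · exact GrEven.main3 τ hτ2 hk α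
        · obtain rfl : k = 1 := by omega
          exact GrEven.main4 τ hτ2 (Or.inl hne) α
      exact ⟨g, hg, σ, h⟩
  · -- odd dimension
    obtain ⟨k, rfl⟩ : ∃ k', k = k' + 1 := ⟨k - 1, by omega⟩
    refine std_top (N := 2 * k + 2) (ε := GrCen.e1 (2 * k + 2) F) hτ hq (fun σ a => GrOdd.e1_fix σ a) one_ne_zero ?_ ?_
    · ext i j
      show τ (1 * Jf _ j i) = 1 * Jf _ i j
      rw [one_mul, one_mul, Jf_apply, Jf_apply]
      by_cases h1 : i = Fin.rev j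
      · subst h1
        rw [if_pos rfl, if_pos (Fin.rev_rev j).symm, GrOdd.e1_fix]
      · rw [if_neg h1, if_neg (fun h => h1 (by rw [h, Fin.rev_rev])), map_zero]
    · intro α
      exact GrOdd.main_odd (k := k) τ hτ2 hne (by
        by_cases hk : 0 < k
        · exact Or.inl hk
        · exact Or.inr (h4 (by omega))) α

end Cfsg.Agent.H8.Uni
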