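import Mathlib
import Cfsg.Agent.H8.Uni2

set_option autoImplicit false
set_option linter.all false

/-! Automorphisms of `PSU_n(q)`: counting. -/

namespace Cfsg.Agent.H8.Uni

open Matrix Cfsg.Agent.H8.GrStd Cfsg.Agent.H8.AutPSL Cfsg.Agent.Lib Cfsg.Agent.H8.MSys Cfsg.Agent.Lib.Herm Cfsg.Agent.H8.Theta

variable {n q : ℕ} {F : Type*} [Field F]

theorem aut_std' [Fintype F] (hF : Fintype.card F = q ^ 2) (hn : 3 ≤ n) (hs : ¬ (n = 3 ∧ q = 2)) : (US n F q).stdG = ⊤ := by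
  obtain ⟨τ, hτ, hq⟩ := exists_sigma hF
  refine aut_std hτ hq hn ?_
  intro h3
  rw [Nat.card_eq_fintype_card, hF]
  have h1 : 1 < q := by
    by_contra h
    have h2 : q ^ 2 ≤ 1 := Nat.pow_le_one_iff (by norm_num) |>.mpr (by omega)
    have := Fintype.one_lt_card (α := F)
    omega
  have h2 : 3 ≤ q := by
    by_contra h
    exact hs ⟨h3, by omega⟩
  nlinarith

theorem hker' [Fintype F] (hF : Fintype.card F = q ^ 2) (hn : 3 ≤ n) (g : (US n F q).Γ) (σ : (US n F q).A)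
    (h : (US n F q).delta g * (US n F q).psi σ = 1) : σ = 1 ∧ (US n F q).IsSc g := by
  obtain ⟨τ, hτ, hq⟩ := exists_sigma hF
  exact hker hτ hq hn g σ h

theorem det_smul' (c : F) (M : Matrix (Fin n) (Fin n) F) : (c • M).det = c ^ n * M.det := by
  rw [Matrix.det_smul, Fintype.card_fin]

/-- inner elements -/
theorem hD [Fintype F] {τ : F ≃+* F} (hF : Fintype.card F = q ^ 2) (hτ : orderOf τ = 2) (hq : ∀ a, τ a = a ^ q) (hτ2 : ∀ a, τ (τ a) = a) (hn : 3 ≤ n)
    (g : (US n F q).Γ) : (US n F q).delta g ∈ Cfsg.Inn (Cfsg.PSU n F q) ↔ detGU hτ2 hq n g ∈ (powMonoidHom n : NU τ →* NU τ).range := by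
  constructor
  · rintro ⟨x, hx⟩
    obtain ⟨s, rfl⟩ := QuotientGroup.mk'_surjective _ x
    have h1 : (US n F q).delta ((US n F q).toΓ s) = (US n F q).delta g := ((US n F q).delta_toΓ s).trans hx
    rw [(US n F q).delta_eq_iff (hker' hF hn)] at h1
    obtain ⟨c, hc⟩ := h1
    -- c has norm one
    have hg := (gu_iff' hτ2 hq g.1).1 g.2
    have hs := (gu_iff' hτ2 hq ((US n F q).toΓ s).1).1 ((US n F q).toΓ s).2
    rw [hc, st_smul', Matrix.smul_mul, Matrix.mul_smul, hs, smul_smul] at hg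
    have h2 := congrFun (congrFun hg ⟨0, by omega⟩) ⟨0, by omega⟩
    rw [Matrix.smul_apply, Matrix.one_apply_eq, smul_eq_mul, mul_one] at h2
    have hc0 : c ≠ 0 := by rintro rfl; rw [zero_mul] at h2; exact zero_ne_one h2
    refine ⟨⟨Units.mk0 c hc0, h2⟩, ?_⟩
    apply Subtype.ext
    apply Units.ext
    show c ^ n = g.1.1.det
    rw [hc, det_smul']
    have : ((US n F q).toΓ s).1.1.det = 1 := s.1.2
    rw [this, mul_one]
  · rintro ⟨b, hb⟩
    have hb' : (b.1 : F) ^ n = g.1.1.det := congrArg (fun x : NU τ => ((x : Fˣ) : F)) hb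
    let z : GL (Fin n) F := GeneralLinearGroup.scalar (Fin n) b⁻¹.1
    have hz : z.1 = (b⁻¹.1 : F) • (1 : Matrix (Fin n) (Fin n) F) := by
      show Matrix.scalar (Fin n) ((b⁻¹.1 : Fˣ) : F) = _
      rw [Matrix.smul_one_eq_diagonal]; rfl
    have hzm : z ∈ Cfsg.GU n F q := by
      rw [gu_iff' hτ2 hq, hz, st_smul', Matrix.smul_mul, Matrix.mul_smul, st_one, Matrix.mul_one, smul_smul]
      have := (b⁻¹).2
      rw [show (((b⁻¹).1 : Fˣ) : F) * τ (((b⁻¹).1 : Fˣ) : F) = 1 from (b⁻¹).2, one_smul]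
    obtain ⟨s, hs⟩ := exists_suIncl hτ2 hq (⟨z, hzm⟩ * g) (by
      show (z.1 * g.1.1).det = 1
      rw [hz, Matrix.smul_mul, Matrix.one_mul, det_smul', ← hb', ← mul_pow]
      have : (((b⁻¹).1 : Fˣ) : F) * ((b.1 : Fˣ) : F) = 1 := by
        have h3 : b⁻¹.1 * b.1 = 1 := by
          have := congrArg Subtype.val (inv_mul_cancel b)
          exact this
        rw [← Units.val_mul, h3, Units.val_one]
      rw [this, one_pow])
    have h1 : (US n F q).toΓ s = ⟨z, hzm⟩ * g := hs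
    have h2 : (US n F q).delta g = (US n F q).delta ((US n F q).toΓ s) := by
      rw [h1, map_mul, (US n F q).delta_of_sc (g := ⟨z, hzm⟩) ⟨_, hz⟩, one_mul]
    rw [h2, (US n F q).delta_toΓ]
    exact ⟨_, rfl⟩

theorem nu_cyclic [Finite F] (τ : F ≃+* F) : IsCyclic (NU τ) := inferInstance

theorem index_pow [Fintype F] {τ : F ≃+* F} (hF : Fintype.card F = q ^ 2) (hτ : orderOf τ = 2) (hq : ∀ a, τ a = a ^ q) :
    (powMonoidHom n : NU τ →* NU τ).range.index = Nat.gcd n (q + 1) := by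
  rw [IsCyclic.index_powMonoidHom_range, card_NU hF hτ hq, Nat.gcd_comm]

theorem card_delta [Fintype F] (hF : Fintype.card F = q ^ 2) (hn : 3 ≤ n) :
    Nat.card (US n F q).delta.range = Nat.gcd n (q + 1) * Nat.card (Cfsg.PSU n F q) := by
  obtain ⟨τ, hτ, hq⟩ := exists_sigma hF
  obtain ⟨hτ2, -, -⟩ := sigma_facts hτ
  rw [(US n F q).card_delta (hker' hF hn) (detGU hτ2 hq n) (detGU_surj hτ hτ2 hq (by omega)) _ (hD hF hτ hq hτ2 hn), index_pow hF hτ hq]

theorem card_A [Fintype F] {p f : ℕ} [Fact p.Prime] (hf : 1 ≤ f) (hq : q = p ^ f) (hF : Fintype.card F = q ^ 2) :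
    Nat.card (US n F q).A = 2 * f := by
  have h1 : Nat.card (US n F q).A = Nat.card (F ≃+* F) := Nat.card_congr (Subgroup.topEquiv (G := (F ≃+* F))).toEquiv
  rw [h1, FinGal.card_gal F p (f := 2 * f) (by rw [hF, hq, ← pow_mul, mul_comm]) (by omega)]

end Cfsg.Agent.H8.Uni
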