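import Mathlib
import Cfsg.Agent.H8.Uni3
import Cfsg.Agent.Lib.AutPSL15

set_option autoImplicit false
set_option linter.all false

/-! Field automorphisms of odd prime order of `PSU_n(q)`. -/

namespace Cfsg.Agent.H8.Uni

open Matrix Cfsg.Agent.H8.GrStd Cfsg.Agent.H8.AutPSL Cfsg.Agent.Lib Cfsg.Agent.H8.MSys Cfsg.Agent.Lib.Herm Cfsg.Agent.H8.Theta

variable {n q : ℕ} {F : Type*} [Field F] {F₀ : Type*} [Field F₀]

/-- compatibility of the two involutions -/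
theorem compat [Fintype F₀] {q₀ r : ℕ} (hF₀ : Fintype.card F₀ = q₀ ^ 2) (hr : Odd r) (hqq : q = q₀ ^ r) {τ : F ≃+* F} {τ₀ : F₀ ≃+* F₀}
    (hq : ∀ a, τ a = a ^ q) (hq₀ : ∀ a, τ₀ a = a ^ q₀) (ι : F₀ →+* F) (y : F₀) : τ (ι y) = ι (τ₀ y) := by
  rw [hq, ← map_pow, hq₀, hqq]
  congr 1
  obtain ⟨s, rfl⟩ := hr
  rw [pow_succ, pow_mul, pow_mul, ← hF₀, FiniteField.pow_card_pow]

theorem st_map (ι : F₀ →+* F) {τ : F ≃+* F} {τ₀ : F₀ ≃+* F₀} (hc : ∀ y, τ (ι y) = ι (τ₀ y)) (M : Matrix (Fin n) (Fin n) F₀) :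
    st τ (M.map ι) = (st τ₀ M).map ι := by
  ext i j
  exact hc _

theorem map_mulR (ι : F₀ →+* F) (A B : Matrix (Fin n) (Fin n) F₀) : (A * B).map ι = A.map ι * B.map ι := Matrix.map_mul

theorem map_inj (ι : F₀ →+* F) {A B : Matrix (Fin n) (Fin n) F₀} (h : A.map ι = B.map ι) : A = B := by
  ext i j
  apply ι.injective
  exact congrFun (congrFun h i) j

theorem NS_NN (g : (US n F q).Γ) (σ : (US n F q).A) (k : ℕ) : ((US n F q).NS σ g k).1 = Cfsg.Agent.Lib.AutPSL.NN σ.1 g.1 k := by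
  induction k with
  | zero => rfl
  | succ k ih =>
    rw [Sys.NS_succ, AutPSL.NN_succ]
    show g.1 * mg σ.1 ((US n F q).NS σ g k).1 = _
    rw [ih]
    rfl

/-- descending invertible matrices -/
theorem exists_desc {σ : F ≃+* F} (ι : F₀ →+* F) (hι : ∀ x, σ x = x ↔ ∃ y, ι y = x) (g : GL (Fin n) F) (hg : g.1.map σ = g.1) :
    ∃ g0 : GL (Fin n) F₀, g0.1.map ι = g.1 := by
  have h1 : ∀ i j, ∃ y, ι y = g.1 i j := fun i j => (hι _).1 (congrFun (congrFun hg i) j)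
  choose M hM using h1
  have hMmap : (Matrix.of M).map ι = g.1 := by
    ext i j; exact hM i j
  have hdet : (Matrix.of M).det ≠ 0 := by
    intro h0
    have h2 := congrArg Matrix.det hMmap
    rw [← RingHom.mapMatrix_apply, ← RingHom.map_det, h0, map_zero] at h2
    have h3 : g.1.det ≠ 0 := by
      have := g.isUnit.map Matrix.detMonoidHom
      exact this.ne_zero
    exact h3 h2.symm
  exact ⟨Matrix.GeneralLinearGroup.mkOfDetNeZero (Matrix.of M) hdet, hMmap⟩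

/-- Lang's theorem for the unitary group -/
theorem lang_GU [Finite F] [Finite F₀] {τ : F ≃+* F} {τ₀ : F₀ ≃+* F₀} (hτ : orderOf τ = 2) (hτ₀ : orderOf τ₀ = 2) (hq : ∀ a, τ a = a ^ q)
    (ι : F₀ →+* F) (hc : ∀ y, τ (ι y) = ι (τ₀ y)) (σ : (US n F q).A) (hι : ∀ x, σ.1 x = x ↔ ∃ y, ι y = x) {r : ℕ} (hr : orderOf σ.1 = r) (hr0 : 0 < r)
    (g : (US n F q).Γ) (h : (US n F q).NS σ g r = 1) : ∃ k : (US n F q).Γ, g * (US n F q).fG σ k = k := by
  obtain ⟨hτ2, -, -⟩ := sigma_facts hτ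
  obtain ⟨hτ₀2, -, -⟩ := sigma_facts hτ₀
  obtain ⟨k, hk⟩ := AutPSL.hilbert90_GL σ.1 hr hr0 g.1 (by rw [← NS_NN, h]; rfl)
  have hk' : g.1.1 * k.1.map σ.1 = k.1 := congrArg (fun x : GL (Fin n) F => x.1) hk
  have hg := (gu_iff_st hτ2 hq g.1).1 g.2
  -- the Gram matrix
  let K : GL (Fin n) F := ⟨st τ k.1, st τ (k⁻¹).1, by
    rw [← st_mul, ← Units.val_mul, inv_mul_cancel, Units.val_one, st_one], by
    rw [← st_mul, ← Units.val_mul, mul_inv_cancel, Units.val_one, st_one]⟩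
  have hHσ : (K * k).1.map σ.1 = (K * k).1 := by
    show (st τ k.1 * k.1).map σ.1 = st τ k.1 * k.1
    rw [map_mulM, ← st_mg]
    conv_rhs => rw [← hk']
    rw [st_mul]
    calc st τ (k.1.map σ.1) * k.1.map σ.1 = st τ (k.1.map σ.1) * (st τ g.1.1 * g.1.1) * k.1.map σ.1 := by rw [hg, Matrix.mul_one]
      _ = _ := by simp only [Matrix.mul_assoc]
  obtain ⟨H, hH⟩ := exists_desc ι hι (K * k) hHσ
  have hHst : st τ₀ H.1 = H.1 := by
    apply map_inj ι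
    rw [← st_map ι hc, hH]
    show st τ (st τ k.1 * k.1) = st τ k.1 * k.1
    rw [st_mul, st_st hτ2]
  obtain ⟨k0, hk0⟩ := exists_factor_herm hτ₀ H hHst
  have hk0' : k0.1 * st τ₀ k0.1 = H.1 := hk0
  -- the correction
  let k1 : GL (Fin n) F₀ := ⟨st τ₀ k0.1, st τ₀ (k0⁻¹).1, by
    rw [← st_mul, ← Units.val_mul, inv_mul_cancel, Units.val_one, st_one], by
    rw [← st_mul, ← Units.val_mul, mul_inv_cancel, Units.val_one, st_one]⟩
  let m1 : GL (Fin n) F := GeneralLinearGroup.map ι k1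
  have hm1 : m1.1 = (st τ₀ k0.1).map ι := rfl
  have hm1' : (m1⁻¹).1 = (st τ₀ (k0⁻¹).1).map ι := by
    have : m1⁻¹ = GeneralLinearGroup.map ι k1⁻¹ := (map_inv _ _).symm
    rw [this]; rfl
  have hkk : (k * m1⁻¹) ∈ Cfsg.GU n F q := by
    rw [gu_iff_st hτ2 hq]
    have e1 : (k * m1⁻¹).1 = k.1 * (m1⁻¹).1 := rfl
    have e2 : st τ (m1⁻¹).1 = ((k0⁻¹).1).map ι := by
      rw [hm1', st_map ι hc, st_st hτ₀2]
    rw [e1, st_mul, e2]
    calc (k0⁻¹).1.map ι * st τ k.1 * (k.1 * (m1⁻¹).1) = (k0⁻¹).1.map ι * (st τ k.1 * k.1) * (m1⁻¹).1 := by simp only [Matrix.mul_assoc]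
      _ = (k0⁻¹).1.map ι * (H.1.map ι) * (m1⁻¹).1 := by rw [hH]; rfl
      _ = (k0⁻¹).1.map ι * (k0.1.map ι * m1.1) * (m1⁻¹).1 := by rw [← hk0', map_mulR, hm1]
      _ = ((k0⁻¹).1.map ι * k0.1.map ι) * (m1.1 * (m1⁻¹).1) := by simp only [Matrix.mul_assoc]
      _ = 1 := by
        rw [← map_mulR, ← Units.val_mul, inv_mul_cancel, ← Units.val_mul, mul_inv_cancel, Units.val_one, Units.val_one, Matrix.mul_one]
        exact Matrix.map_one ι (map_zero _) (map_one _)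
  refine ⟨⟨k * m1⁻¹, hkk⟩, ?_⟩
  apply Subtype.ext
  show g.1 * mg σ.1 (k * m1⁻¹) = k * m1⁻¹
  rw [map_mul, ← mul_assoc]
  have hk'' : g.1 * mg σ.1 k = k := Units.ext hk'
  rw [hk'']
  congr 1
  apply Units.ext
  show (m1⁻¹).1.map σ.1 = (m1⁻¹).1
  rw [hm1']
  ext i j
  exact (hι _).2 ⟨_, rfl⟩

theorem nm_map (σ : F ≃+* F) (b : F) (k : ℕ) : FinGal.nm σ (σ b) k = σ (FinGal.nm σ b k) := by
  induction k with
  | zero => exact (map_one σ).symm
  | succ k ih => rw [FinGal.nm_succ, FinGal.nm_succ, ih, map_mul]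

/-- norms of norm one elements -/
theorem nu_norm [Finite F] {τ : F ≃+* F} {τ₀ : F₀ ≃+* F₀} (hτ : orderOf τ = 2) (hτ₀ : orderOf τ₀ = 2)
    (ι : F₀ →+* F) (hc : ∀ y, τ (ι y) = ι (τ₀ y)) (σ : F ≃+* F) (hι : ∀ x, σ x = x ↔ ∃ y, ι y = x) {r : ℕ} (hr : orderOf σ = r) (hr0 : 0 < r)
    [Finite F₀] {c : F} (hcτ : c * τ c = 1) (hcσ : σ c = c) : ∃ b : F, b * τ b = 1 ∧ FinGal.nm σ b r = c := by
  obtain ⟨hτ2, -, hτ3⟩ := sigma_facts hτ
  obtain ⟨hτ₀2, hτ₀1, -⟩ := sigma_facts hτ₀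
  have hc0 : c ≠ 0 := by rintro rfl; rw [zero_mul] at hcτ; exact zero_ne_one hcτ
  obtain ⟨b0, hb00, hb0⟩ := FinGal.nm_surj σ hr hr0 hc0 hcσ
  have hτb0 : FinGal.nm σ (τ b0) r = τ c := by
    rw [← hb0]
    clear hb0 hr
    induction r with
    | zero => exact (map_one τ).symm
    | succ k ih =>
      by_cases hk : 0 < k
      · rw [FinGal.nm_succ, FinGal.nm_succ, ih hk, map_mul, comm_gal σ τ]
      · obtain rfl : k = 0 := by omega
        rw [FinGal.nm_succ, FinGal.nm_succ, FinGal.nm_zero, FinGal.nm_zero, map_one, map_mul, map_one]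
  have hy : FinGal.nm σ (b0 * τ b0) r = 1 := by rw [FinGal.nm_mul, hb0, hτb0, hcτ]
  obtain ⟨z, hz0, hz⟩ := FinGal.hilbert90 σ hr hr0 hy
  -- a fixed solution
  obtain ⟨w, hw0, hwτ, hw⟩ : ∃ w : F, w ≠ 0 ∧ τ w = w ∧ b0 * τ b0 * σ w = w := by
    obtain ⟨a, ha⟩ : ∃ a : F₀, ι a * z + τ (ι a * z) ≠ 0 := by
      by_contra hcon
      push Not at hcon
      obtain ⟨a, ha⟩ := hτ₀1
      apply ha
      have h1 := hcon 1
      rw [map_one, one_mul] at h1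
      have h2 := hcon a
      rw [map_mul, hc] at h2
      have h3 : (ι a - ι (τ₀ a)) * z = 0 := by linear_combination h2 - ι (τ₀ a) * h1
      rcases mul_eq_zero.1 h3 with h4 | h4
      · exact ι.injective (sub_eq_zero.1 h4).symm
      · exact absurd h4 hz0
    refine ⟨_, ha, ?_, ?_⟩
    · rw [map_add, hτ2, add_comm]
    · rw [map_add, map_mul, (hι (ι a)).2 ⟨a, rfl⟩, comm_gal σ τ, map_mul σ, (hι (ι a)).2 ⟨a, rfl⟩]
      have h1 : σ z * (b0 * τ b0) = z := by rw [mul_comm]; exact hz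
      have h2 : τ (σ z) * (b0 * τ b0) = τ z := by
        have := congrArg τ h1
        rw [map_mul, map_mul, hτ2] at this
        rw [← this]; ring
      rw [map_mul, map_mul]
      linear_combination ι a * h1 + τ (ι a) * h2
  obtain ⟨z', hz'0, hz'⟩ := hτ3 w hw0 hwτ
  refine ⟨b0 * (σ z' * z'⁻¹), ?_, ?_⟩
  · rw [map_mul, map_mul, map_inv₀, ← comm_gal σ τ]
    have hz'τ : τ z' ≠ 0 := (map_ne_zero_iff τ τ.injective).2 hz'0
    have h1 : b0 * τ b0 * (σ z' * σ (τ z')) = z' * τ z' := by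
      rw [← map_mul, hz', hw]
    field_simp
    linear_combination h1
  · rw [FinGal.nm_mul, FinGal.nm_mul, nm_map, FinGal.nm_fixed σ hr hz'0, ← FinGal.nm_mul, mul_inv_cancel₀ hz'0, FinGal.nm_one, mul_one, hb0]

end Cfsg.Agent.H8.Uni
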