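import Mathlib
import Cfsg.Agent.H8.Ort7
import Cfsg.Agent.H8.Uni4
import Cfsg.Agent.Lib.Orth17

set_option autoImplicit false
set_option linter.all false

/-! Lang's theorem for the odd dimensional special orthogonal groups. -/

namespace Cfsg.Agent.H8.Ort

open scoped commutatorElement
open Matrix Cfsg.Agent.H8.GrStd Cfsg.Agent.H8.AutPSL Cfsg.Agent.Lib Cfsg.Agent.H8.MSys Cfsg.Agent.Lib.Orth
  Cfsg.Agent.H8.Theta Cfsg.Agent.H8.GrCen Cfsg.Agent.H8.GrOdd
open QuadraticMap Module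

section sym

variable {F : Type*} [Field F]

/-- the quadratic form of a matrix -/
noncomputable def qf {n : ℕ} (H : Matrix (Fin n) (Fin n) F) : QuadraticForm F (Fin n → F) :=
  LinearMap.BilinMap.toQuadraticMap (Matrix.toBilin' H)

theorem qf_apply {n : ℕ} (H : Matrix (Fin n) (Fin n) F) (x : Fin n → F) : qf H x = x ⬝ᵥ (H *ᵥ x) := by
  show Matrix.toBilin' H x x = _
  rw [Matrix.toBilin'_apply', dotProduct_comm, ← dotProduct_comm]

theorem polar_qf {n : ℕ} {H : Matrix (Fin n) (Fin n) F} (hH : H.transpose = H) (x y : Fin n → F) : polar (qf H) x y = 2 * (x ⬝ᵥ (H *ᵥ y)) := by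
  have hs : y ⬝ᵥ (H *ᵥ x) = x ⬝ᵥ (H *ᵥ y) := by
    rw [dotProduct_comm y, Matrix.dotProduct_mulVec x, ← Matrix.mulVec_transpose, hH]
  rw [polar, qf_apply, qf_apply, qf_apply, Matrix.mulVec_add, dotProduct_add, add_dotProduct, add_dotProduct, hs]
  ring

theorem nd_qf (h2 : (2 : F) ≠ 0) {n : ℕ} {H : Matrix (Fin n) (Fin n) F} (hH : H.transpose = H) (hd : H.det ≠ 0) : ND (qf H) := by
  apply nd_of_forall
  intro x hx
  have h1 : H *ᵥ x = 0 := by
    funext i
    have h3 := hx (Pi.single i 1)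
    rw [polar_comm, polar_qf hH] at h3
    have h4 := (mul_eq_zero.1 h3).resolve_left h2
    rw [single_one_dotProduct] at h4
    exact h4
  have h3 : H⁻¹ *ᵥ (H *ᵥ x) = x := by
    rw [Matrix.mulVec_mulVec, Matrix.nonsing_inv_mul _ (isUnit_iff_ne_zero.2 hd), Matrix.one_mulVec]
  rw [← h3, h1, Matrix.mulVec_zero]

theorem gram_qf {n : ℕ} {H : Matrix (Fin n) (Fin n) F} (hH : H.transpose = H) : gram (qf H) (Pi.basisFun F (Fin n)) = (2 : F) • H := by
  ext i j
  show polar (qf H) (Pi.basisFun F (Fin n) i) (Pi.basisFun F (Fin n) j) = 2 * H i j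
  rw [polar_qf hH, Pi.basisFun_apply, Pi.basisFun_apply, single_one_dotProduct, Matrix.mulVec_single_one]
  rfl

/-- equivalence of symmetric matrices over finite fields -/
theorem sym_equiv [Finite F] (h2 : (2 : F) ≠ 0) {n : ℕ} {H H' : Matrix (Fin n) (Fin n) F} (hH : H.transpose = H) (hH' : H'.transpose = H')
    (hd : H.det ≠ 0) (hd' : H'.det ≠ 0) {d : F} (hdd : H.det = d ^ 2 * H'.det) : ∃ m : GL (Fin n) F, m.1.transpose * H * m.1 = H' := by
  obtain ⟨g, hg⟩ := isometric_of_disc h2 (nd_qf h2 hH' hd') (nd_qf h2 hH hd) rfl (Pi.basisFun F (Fin n)) (Pi.basisFun F (Fin n)) (by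
    rw [gram_qf hH, gram_qf hH', Matrix.det_smul, Matrix.det_smul, hdd]
    exact ⟨2 ^ Fintype.card (Fin n) * d * H'.det, by ring⟩)
  let M := LinearMap.toMatrix' (g : (Fin n → F) →ₗ[F] (Fin n → F))
  have hM : ∀ x, M *ᵥ x = g x := by
    intro x
    show (LinearMap.toMatrix' (g : (Fin n → F) →ₗ[F] (Fin n → F))) *ᵥ x = _
    rw [LinearMap.toMatrix'_mulVec]; rfl
  have h3 : M.transpose * H * M - H' = 0 := by
    apply sym_zero h2
    · rw [Matrix.transpose_sub, Matrix.transpose_mul, Matrix.transpose_mul, Matrix.transpose_transpose, hH, hH', Matrix.mul_assoc]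
    · intro x
      have h4 := hg x
      rw [qf_apply, qf_apply, ← hM] at h4
      rw [Matrix.sub_mulVec, dotProduct_sub, ← h4, ← Matrix.mulVec_mulVec, ← Matrix.mulVec_mulVec, Matrix.dotProduct_mulVec x M.transpose,
        Matrix.vecMul_transpose, sub_self]
  have h5 : M.transpose * H * M = H' := sub_eq_zero.1 h3
  have h6 : M.det ≠ 0 := by
    intro h0
    apply hd'
    rw [← h5, Matrix.det_mul, h0, mul_zero]
  exact ⟨Matrix.GeneralLinearGroup.mkOfDetNeZero M h6, h5⟩

end sym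

section J

variable {F : Type*} [Field F] {F₀ : Type*} [Field F₀]

/-- the form matrix -/
abbrev Jx (k : ℕ) (F : Type*) [Field F] : Matrix (Fin (2 * k + 2 + 1)) (Fin (2 * k + 2 + 1)) F := (Jm (e1 (2 * k + 2) F)).1

theorem Jx_map (k : ℕ) (ι : F₀ →+* F) : (Jx k F₀).map ι = Jx k F := by
  ext i j
  show ι (Jf (fun a => ((e1 (2 * k + 2) F₀ a : F₀ˣ) : F₀)) i j) = Jf (fun a => ((e1 (2 * k + 2) F a : Fˣ) : F)) i j
  rw [Jf_apply, Jf_apply]
  split_ifs
  · show ι ((1 : F₀ˣ) : F₀) = ((1 : Fˣ) : F)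
    rw [Units.val_one, Units.val_one, map_one]
  · exact map_zero ι

theorem Jx_det (k : ℕ) : (Jx k F).det ≠ 0 := by
  intro h0
  have h5 := congrArg Matrix.det (J_sq (F := F) k)
  rw [Matrix.det_mul] at h5
  rw [show ((Jm (e1 (2 * k + 2) F)).1).det = 0 from h0, zero_mul, Matrix.det_one] at h5
  exact zero_ne_one h5

/-- the two forms of the isometry condition -/
theorem J_comm (k : ℕ) (g : GL (Fin (2 * k + 2 + 1)) F) (c : F) : g.1 * Jx k F * g.1.transpose = c • Jx k F ↔ g.1.transpose * Jx k F * g.1 = c • Jx k F := by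
  have hJJ : Jx k F * Jx k F = 1 := J_sq k
  set J := Jx k F
  constructor
  · intro h
    have e1 : g.1 * (J * g.1.transpose * J) = c • (1 : Matrix _ _ F) := by
      calc g.1 * (J * g.1.transpose * J) = (g.1 * J * g.1.transpose) * J := by simp only [Matrix.mul_assoc]
        _ = _ := by rw [h, Matrix.smul_mul, hJJ]
    have e2 : J * g.1.transpose * J = c • (g⁻¹).1 := by
      have : J * g.1.transpose * J = (g⁻¹).1 * (g.1 * (J * g.1.transpose * J)) := by
        rw [← Matrix.mul_assoc (g⁻¹).1, ← Units.val_mul, inv_mul_cancel, Units.val_one, Matrix.one_mul]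
      rw [this, e1, Matrix.mul_smul, Matrix.mul_one]
    calc g.1.transpose * J * g.1 = J * (J * g.1.transpose * J) * g.1 := by
          rw [Matrix.mul_assoc J g.1.transpose, ← Matrix.mul_assoc J J, hJJ, Matrix.one_mul]
      _ = _ := by rw [e2, Matrix.mul_smul, Matrix.smul_mul, Matrix.mul_assoc, ← Units.val_mul, inv_mul_cancel, Units.val_one, Matrix.mul_one]
  · intro h
    have e1 : (J * g.1.transpose * J) * g.1 = c • (1 : Matrix _ _ F) := by
      calc (J * g.1.transpose * J) * g.1 = J * (g.1.transpose * J * g.1) := by simp only [Matrix.mul_assoc]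
        _ = _ := by rw [h, Matrix.mul_smul, hJJ]
    have e2 : J * g.1.transpose * J = c • (g⁻¹).1 := by
      have : J * g.1.transpose * J = (J * g.1.transpose * J) * g.1 * (g⁻¹).1 := by
        rw [Matrix.mul_assoc (J * g.1.transpose * J), ← Units.val_mul, mul_inv_cancel, Units.val_one, Matrix.mul_one]
      rw [this, e1, Matrix.smul_mul, Matrix.one_mul]
    calc g.1 * J * g.1.transpose = g.1 * (J * g.1.transpose * J) * J := by
          rw [Matrix.mul_assoc g.1 (J * g.1.transpose * J), Matrix.mul_assoc (J * g.1.transpose), hJJ, Matrix.mul_one, Matrix.mul_assoc]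
      _ = _ := by rw [e2, Matrix.mul_smul, ← Units.val_mul, mul_inv_cancel, Units.val_one, Matrix.smul_mul, Matrix.one_mul]

/-- special isometries in coordinates -/
theorem spec_iff (h2 : (2 : F) ≠ 0) (k : ℕ) (g : GL (Fin (2 * k + 2 + 1)) F) :
    Ph h2 k g ∈ Cfsg.specialIsometryGL F (Cfsg.quadFormOdd (k + 1) F) ↔ g.1.transpose * Jx k F * g.1 = Jx k F ∧ g.1.det = 1 := by
  rw [mem_spec, mem_iso, det_Ph]
  apply and_congr_left
  intro _
  have h := sim_iff h2 k g 1
  simp only [one_mul] at h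
  rw [h, J_comm, one_smul]

/-- Lang's theorem in coordinates -/
theorem lang_J [Finite F₀] (h20 : (2 : F₀) ≠ 0) (k : ℕ) (ι : F₀ →+* F) (σ : F ≃+* F) (hι : ∀ x, σ x = x ↔ ∃ y, ι y = x) {r : ℕ} (hr : orderOf σ = r) (hr0 : 0 < r)
    (g : GL (Fin (2 * k + 2 + 1)) F) (hg : g.1.transpose * Jx k F * g.1 = Jx k F) (hdet : g.1.det = 1) (hN : Cfsg.Agent.Lib.AutPSL.NN σ g r = 1) :
    ∃ x : GL (Fin (2 * k + 2 + 1)) F, x.1.transpose * Jx k F * x.1 = Jx k F ∧ x.1.det = 1 ∧ g * mg σ x = x := by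
  obtain ⟨x, hx⟩ := Cfsg.Agent.Lib.AutPSL.hilbert90_GL σ hr hr0 g hN
  have hx' : g.1 * x.1.map σ = x.1 := congrArg (fun x : GL (Fin (2 * k + 2 + 1)) F => x.1) hx
  have hJσ : (Jx k F).map σ = Jx k F := Jx_map k (σ : F →+* F)
  -- the Gram matrix
  have hHσ : (x.1.transpose * Jx k F * x.1).map σ = x.1.transpose * Jx k F * x.1 := by
    rw [map_mulM, map_mulM, hJσ]
    conv_rhs => rw [← hx']
    rw [Matrix.transpose_mul]
    have e : (x.1.transpose).map σ = (x.1.map σ).transpose := by ext i j; rfl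
    rw [e]
    calc (x.1.map σ).transpose * Jx k F * x.1.map σ = (x.1.map σ).transpose * (g.1.transpose * Jx k F * g.1) * x.1.map σ := by rw [hg]
      _ = _ := by simp only [Matrix.mul_assoc]
  have hent : ∀ i j, ∃ y, ι y = (x.1.transpose * Jx k F * x.1) i j := fun i j => (hι _).1 (congrFun (congrFun hHσ i) j)
  choose M hM using hent
  have hMmap : (Matrix.of M).map ι = x.1.transpose * Jx k F * x.1 := by
    ext i j; exact hM i j
  -- the determinant
  have hdx : σ x.1.det = x.1.det := by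
    have h1 := congrArg Matrix.det hx'
    rw [Matrix.det_mul, hdet, one_mul] at h1
    have h3 : (x.1.map σ).det = σ x.1.det := (RingHom.map_det (σ : F →+* F) x.1).symm
    exact h3.symm.trans h1
  obtain ⟨d, hd⟩ := (hι _).1 hdx
  have hdx0 : x.1.det ≠ 0 := (x.isUnit.map Matrix.detMonoidHom).ne_zero
  have hd0 : d ≠ 0 := by rintro rfl; rw [map_zero] at hd; exact hdx0 hd.symm
  have hMdet : (Matrix.of M).det = d ^ 2 * (Jx k F₀).det := by
    apply ι.injective
    rw [RingHom.map_det, map_mul, map_pow, hd, RingHom.map_det]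
    have e1 : ι.mapMatrix (Matrix.of M) = x.1.transpose * Jx k F * x.1 := hMmap
    have e2 : ι.mapMatrix (Jx k F₀) = Jx k F := Jx_map k ι
    rw [e1, e2, Matrix.det_mul, Matrix.det_mul, Matrix.det_transpose]; ring
  have hMsym : (Matrix.of M).transpose = Matrix.of M := by
    ext i j
    apply ι.injective
    show ι (M j i) = ι (M i j)
    rw [hM, hM]
    have : (x.1.transpose * Jx k F * x.1).transpose = x.1.transpose * Jx k F * x.1 := by
      rw [Matrix.transpose_mul, Matrix.transpose_mul, Matrix.transpose_transpose, J_tr, Matrix.mul_assoc]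
    exact congrFun (congrFun this i) j
  obtain ⟨m, hm⟩ := sym_equiv h20 hMsym (J_tr k) (by rw [hMdet]; exact mul_ne_zero (pow_ne_zero _ hd0) (Jx_det k)) (Jx_det k) hMdet
  let m' : GL (Fin (2 * k + 2 + 1)) F := GeneralLinearGroup.map ι m
  have hm' : m'.1 = m.1.map ι := rfl
  have hm'σ : mg σ m' = m' := by
    apply Units.ext
    ext i j
    exact (hι _).2 ⟨_, rfl⟩
  -- the corrected element
  have h1 : (x * m').1.transpose * Jx k F * (x * m').1 = Jx k F := by
    rw [Units.val_mul, Matrix.transpose_mul]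
    calc m'.1.transpose * x.1.transpose * Jx k F * (x.1 * m'.1) = m'.1.transpose * (x.1.transpose * Jx k F * x.1) * m'.1 := by simp only [Matrix.mul_assoc]
      _ = (m.1.transpose * Matrix.of M * m.1).map ι := by
          rw [← hMmap, hm']
          rw [Matrix.map_mul, Matrix.map_mul]; rfl
      _ = _ := by rw [hm]; exact Jx_map k ι
  have h3 : (x * m').1.det = 1 ∨ (x * m').1.det = -1 := by
    have h4 := congrArg Matrix.det h1
    rw [Matrix.det_mul, Matrix.det_mul, Matrix.det_transpose] at h4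
    have h5 : (x * m').1.det ^ 2 = 1 := by
      apply mul_right_cancel₀ (Jx_det (F := F) k)
      linear_combination h4
    exact mul_self_eq_one_iff.1 (by rw [← _root_.sq]; exact h5)
  have h4 : g * mg σ (x * m') = x * m' := by
    rw [map_mul, hm'σ, ← mul_assoc]
    congr 1
  rcases h3 with h3 | h3
  · exact ⟨x * m', h1, h3, h4⟩
  · refine ⟨-(x * m'), ?_, ?_, ?_⟩
    · rw [Units.val_neg, Matrix.transpose_neg, Matrix.neg_mul, Matrix.neg_mul, Matrix.mul_neg, neg_neg, h1]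
    · rw [Units.val_neg, Matrix.det_neg, h3, Fintype.card_fin]
      have : (-1 : F) ^ (2 * k + 2 + 1) = -1 := Odd.neg_one_pow ⟨k + 1, by ring⟩
      rw [this, neg_mul_neg, one_mul]
    · have e := congrArg Units.val h4
      have e1 : g.1 * ((x * m').1.map σ) = (x * m').1 := e
      apply Units.ext
      show g.1 * ((-(x * m')).1.map σ) = -(x * m').1
      have e2 : ((-(x * m')).1.map σ) = -((x * m').1.map σ) := by
        ext i j; exact map_neg σ _
      rw [e2, Matrix.mul_neg, e1]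

end J

section OS

variable {F : Type*} [Field F] {F₀ : Type*} [Field F₀]

theorem NS_Ph (h2 : (2 : F) ≠ 0) {k : ℕ} (σ : (OS (k + 1) F).A) (g : (OS (k + 1) F).Γ) (g' : GL (Fin (2 * k + 2 + 1)) F) (hg : Ph h2 k g' = g.1) (j : ℕ) :
    ((OS (k + 1) F).NS σ g j).1 = Ph h2 k (Cfsg.Agent.Lib.AutPSL.NN σ.1 g' j) := by
  induction j with
  | zero => exact (map_one (Ph h2 k)).symm
  | succ j ih =>
    rw [Sys.NS_succ, Cfsg.Agent.Lib.AutPSL.NN_succ, map_mul, hg]
    show g.1 * mg σ.1 ((OS (k + 1) F).NS σ g j).1 = _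
    rw [ih, ← Ph_mg]; rfl

/-- Lang's theorem for `SO` -/
theorem lang_O [Finite F₀] (h2 : (2 : F) ≠ 0) (h20 : (2 : F₀) ≠ 0) {k : ℕ} (ι : F₀ →+* F) (σ : (OS (k + 1) F).A) (hι : ∀ x, σ.1 x = x ↔ ∃ y, ι y = x)
    {r : ℕ} (hr : orderOf σ.1 = r) (hr0 : 0 < r) (g : (OS (k + 1) F).Γ) (h : (OS (k + 1) F).NS σ g r = 1) :
    ∃ x : (OS (k + 1) F).Γ, g * (OS (k + 1) F).fG σ x = x := by
  obtain ⟨g', hg'⟩ := (Ph h2 k).surjective g.1
  have hg := g.2
  rw [← hg'] at hg
  obtain ⟨h3, h4⟩ := (spec_iff h2 k g').1 hg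
  have hN : Cfsg.Agent.Lib.AutPSL.NN σ.1 g' r = 1 := by
    apply (Ph h2 k).injective
    rw [← NS_Ph h2 σ g g' hg' r, h, map_one]; rfl
  obtain ⟨x, hx1, hx2, hx3⟩ := lang_J h20 k ι σ.1 hι hr hr0 g' h3 h4 hN
  refine ⟨⟨Ph h2 k x, (spec_iff h2 k x).2 ⟨hx1, hx2⟩⟩, ?_⟩
  apply Subtype.ext
  show g.1 * mg σ.1 (Ph h2 k x) = Ph h2 k x
  rw [← hg', ← Ph_mg, ← map_mul, hx3]

/-- the coset of a field automorphism -/
theorem coset_fieldO [Finite F] (h2 : (2 : F) ≠ 0) {k : ℕ} (hk : 2 ≤ k) (σ : (OS (k + 1) F).A) {r : ℕ} (hr : orderOf σ.1 = r) (hr0 : 0 < r)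
    (g : (OS (k + 1) F).Γ) (h : ((OS (k + 1) F).delta g * (OS (k + 1) F).psi σ) ^ r = 1) :
    ∃ x : (OS (k + 1) F).Γ, (OS (k + 1) F).delta g * (OS (k + 1) F).psi σ = (OS (k + 1) F).delta x * (OS (k + 1) F).psi σ * ((OS (k + 1) F).delta x)⁻¹ := by
  have hι : ∀ x, σ.1 x = x ↔ ∃ y : FinGal.fixF σ.1, (FinGal.fixF σ.1).subtype y = x := by
    intro x
    constructor
    · intro hx; exact ⟨⟨x, hx⟩, rfl⟩
    · rintro ⟨y, rfl⟩; exact y.2
  have h20 : (2 : FinGal.fixF σ.1) ≠ 0 := by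
    intro h0
    apply h2
    have := congrArg (FinGal.fixF σ.1).subtype h0
    rwa [map_ofNat, map_zero] at this
  refine (OS (k + 1) F).coset_field (hkerO h2 (by omega)) σ hr ?_ ?_ g h
  · intro z c hz hcσ
    have h1 := sc_one (m := k + 1) (g := 1) (h := z.1) (one_mem _) z.2 (c := c) (by rw [hz]; rfl)
    refine ⟨1, 1, ?_, ?_⟩
    · show (1 : Matrix _ _ F) = _
      rw [one_smul]
    · rw [h1.1, FinGal.nm_one, one_mul]
  · intro g h
    exact lang_O h2 h20 (FinGal.fixF σ.1).subtype σ hι hr hr0 g h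

end OS

end Cfsg.Agent.H8.Ort
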