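import Mathlib
import Cfsg.Agent.H8.Ort8

set_option autoImplicit false
set_option linter.all false

/-! Subfield subgroups of orthogonal groups. -/

namespace Cfsg.Agent.H8.Ort

open scoped commutatorElement
open Matrix Cfsg.Agent.H8.GrStd Cfsg.Agent.H8.AutPSL Cfsg.Agent.Lib Cfsg.Agent.H8.MSys Cfsg.Agent.Lib.Orth
  Cfsg.Agent.H8.Theta Cfsg.Agent.H8.GrCen Cfsg.Agent.H8.GrOdd
open QuadraticMap Module

section squares

variable {F : Type*} [Field F] {F₀ : Type*} [Field F₀]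

theorem sq_even [Finite F] [Finite F₀] (h2 : (2 : F) ≠ 0) (ι : F₀ →+* F) (h : Nat.card F = Nat.card F₀ ^ 2) (a : F₀) : IsSquare (ι a) := by
  letI := Fintype.ofFinite F
  letI := Fintype.ofFinite F₀
  rw [Nat.card_eq_fintype_card, Nat.card_eq_fintype_card] at h
  by_cases ha : a = 0
  · rw [ha, map_zero]; exact IsSquare.zero
  have ha' : ι a ≠ 0 := (map_ne_zero_iff ι ι.injective).2 ha
  rw [FiniteField.isSquare_iff (ringChar_ne_two h2) ha', h]
  have h3 : Odd (Fintype.card F) := odd_card_of_two_ne_zero h2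
  rw [h] at h3
  have h4 : Odd (Fintype.card F₀) := (Nat.odd_pow_iff (by norm_num)).1 h3
  obtain ⟨s, hs⟩ := h4
  have h5 : Fintype.card F₀ ^ 2 / 2 = (Fintype.card F₀ - 1) * (s + 1) := by
    rw [hs]
    have : (2 * s + 1) ^ 2 = 2 * ((2 * s + 1 - 1) * (s + 1)) + 1 := by
      rw [Nat.add_sub_cancel]; ring
    omega
  rw [h5, pow_mul, ← map_pow, FiniteField.pow_card_sub_one_eq_one a ha, map_one, one_pow]

theorem sq_odd (ι : F₀ →+* F) (σ : F ≃+* F) (hι : ∀ x, σ x = x ↔ ∃ y, ι y = x) {r : ℕ} (hr : orderOf σ = r) (hodd : Odd r) {a : F₀} (ha : IsSquare (ι a)) : IsSquare a := by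
  obtain ⟨b, hb⟩ := ha
  by_cases ha0 : a = 0
  · rw [ha0]; exact IsSquare.zero
  have hb0 : b ≠ 0 := by
    rintro rfl
    rw [mul_zero] at hb
    exact ha0 ((map_eq_zero_iff ι ι.injective).1 hb)
  obtain ⟨c, hc⟩ := (hι _).1 (FinGal.nm_fixed σ hr hb0)
  have h1 : FinGal.nm σ (ι a) r = ι c * ι c := by rw [hb, FinGal.nm_mul, hc]
  have h2 : ∀ k, FinGal.nm σ (ι a) k = ι (a ^ k) := by
    intro k
    induction k with
    | zero => rw [FinGal.nm_zero, pow_zero, map_one]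
    | succ k ih => rw [FinGal.nm_succ, ih, (hι _).2 ⟨_, rfl⟩, ← map_mul, pow_succ']
  rw [h2, ← map_mul] at h1
  have h3 := ι.injective h1
  obtain ⟨s, rfl⟩ := hodd
  refine ⟨c / a ^ s, ?_⟩
  field_simp
  rw [pow_succ, pow_mul] at h3
  linear_combination h3

end squares

section rp

variable {κ : Type} [Fintype κ] [DecidableEq κ] {F : Type*} [Field F] {F₀ : Type*} [Field F₀]
variable {Q : QuadraticForm F (κ → F)} {Q₀ : QuadraticForm F₀ (κ → F₀)} (ι : F₀ →+* F) (hQQ : ∀ v, Q (fun i => ι (v i)) = ι (Q₀ v))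

include hQQ

theorem polar_map' (x y : κ → F₀) : polar Q (fun i => ι (x i)) (fun i => ι (y i)) = ι (polar Q₀ x y) := by
  have h1 : (fun i => ι (x i)) + (fun i => ι (y i)) = fun i => ι ((x + y) i) := by
    funext i; exact (map_add ι _ _).symm
  rw [polar, polar, h1, hQQ, hQQ, hQQ, map_sub, map_sub]

theorem map_rf (v : κ → F₀) : GeneralLinearGroup.map ι ((isoO Q₀).symm (rf Q₀ v)).1 = ((isoO Q).symm (rf Q (fun i => ι (v i)))).1 := by
  have e1 : ∀ x, ((isoO Q₀).symm (rf Q₀ v)).1.1 *ᵥ x = (rf Q₀ v).1 x := by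
    intro x
    rw [← isoO_apply, MulEquiv.apply_symm_apply]
  have e2 : ∀ x, ((isoO Q).symm (rf Q (fun i => ι (v i)))).1.1 *ᵥ x = (rf Q (fun i => ι (v i))).1 x := by
    intro x
    rw [← isoO_apply, MulEquiv.apply_symm_apply]
  apply Units.ext
  ext i j
  have h1 := congrFun (e1 (Pi.single j 1)) i
  have h2 := congrFun (e2 (Pi.single j 1)) i
  rw [Matrix.mulVec_single_one] at h1 h2
  show ι (((isoO Q₀).symm (rf Q₀ v)).1.1 i j) = ((isoO Q).symm (rf Q (fun i => ι (v i)))).1.1 i j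
  have h1' : ((isoO Q₀).symm (rf Q₀ v)).1.1 i j = (refl Q₀ v (Pi.single j 1)) i := h1
  have h2' : ((isoO Q).symm (rf Q (fun i => ι (v i)))).1.1 i j = (refl Q (fun i => ι (v i)) (Pi.single j 1)) i := h2
  have hs : (Pi.single j (1 : F) : κ → F) = fun l => ι ((Pi.single j (1 : F₀) : κ → F₀) l) := by
    funext l
    rw [Pi.single_apply, Pi.single_apply]
    split_ifs <;> simp
  rw [h1', h2', refl_apply, refl_apply, hs, polar_map' ι hQQ, hQQ]
  show ι ((Pi.single j (1 : F₀) : κ → F₀) i - ((Q₀ v)⁻¹ * polar Q₀ (Pi.single j 1) v) * v i) = ι ((Pi.single j (1 : F₀) : κ → F₀) i) - ((ι (Q₀ v))⁻¹ * ι (polar Q₀ (Pi.single j 1) v)) * ι (v i)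
  rw [map_sub, map_mul, map_mul, map_inv₀]

theorem map_rp (vs : List (κ → F₀)) : GeneralLinearGroup.map ι ((isoO Q₀).symm (rp Q₀ vs)).1 = ((isoO Q).symm (rp Q (vs.map (fun v i => ι (v i))))).1 := by
  induction vs with
  | nil =>
    show GeneralLinearGroup.map ι ((isoO Q₀).symm 1).1 = ((isoO Q).symm 1).1
    rw [map_one, map_one]
    exact map_one _
  | cons v vs ih =>
    have e1 : rp Q₀ (v :: vs) = rf Q₀ v * rp Q₀ vs := by simp [rp]
    have e2 : rp Q ((v :: vs).map (fun v i => ι (v i))) = rf Q (fun i => ι (v i)) * rp Q (vs.map (fun v i => ι (v i))) := by simp [rp]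
    rw [e1, e2, map_mul, map_mul]
    show GeneralLinearGroup.map ι (((isoO Q₀).symm (rf Q₀ v)).1 * ((isoO Q₀).symm (rp Q₀ vs)).1) = ((isoO Q).symm (rf Q (fun i => ι (v i)))).1 * ((isoO Q).symm (rp Q (vs.map (fun v i => ι (v i))))).1
    rw [map_mul, ih, map_rf ι hQQ]

/-- the spinor norm and field extension -/
theorem spin_desc [Finite F] [Finite F₀] (hQ : ND Q) (hQ₀ : ND Q₀) (h2 : (2 : F) ≠ 0) (h20 : (2 : F₀) ≠ 0) (g : GL κ F₀) (hg : g ∈ Cfsg.isometryGroup F₀ ⇑Q₀) :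
    ∃ (n : ℕ) (a : F₀), a ≠ 0 ∧ (g.1.det = 1 → Even n) ∧ (g ∈ Om F₀ ⇑Q₀ ↔ Even n ∧ IsSquare a) ∧ (GeneralLinearGroup.map ι g ∈ Om F ⇑Q ↔ Even n ∧ IsSquare (ι a)) := by
  obtain ⟨vs, hvs, hg'⟩ := exists_rp (R_eq_O_odd hQ₀ h20) (isoO Q₀ ⟨g, hg⟩)
  have hvs' : ∀ v ∈ vs.map (fun v i => ι (v i)), Q v ≠ 0 := by
    intro v hv
    obtain ⟨w, hw, rfl⟩ := List.mem_map.1 hv
    rw [hQQ]
    exact (map_ne_zero_iff ι ι.injective).2 (hvs w hw)
  have hprod : ((vs.map (fun v i => ι (v i))).map (fun v => Q v)).prod = ι (vs.map (fun v => Q₀ v)).prod := by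
    rw [List.map_map, map_list_prod, List.map_map]
    congr 1
    apply List.map_congr_left
    intro v _
    exact hQQ v
  refine ⟨vs.length, (vs.map (fun v => Q₀ v)).prod, ?_, ?_, ?_, ?_⟩
  · apply List.prod_ne_zero
    intro h0
    obtain ⟨v, hv, hv0⟩ := List.mem_map.1 h0
    exact hvs v hv hv0
  · intro hd
    rw [← rp_mem_SO_iff h20 vs hvs, mem_SO, ← hg', det_isoO]
    exact hd
  · rw [← rp_mem_commutator_iff' hQ₀ h20 vs hvs, ← hg', ← mem_Omega_iff, mem_Om]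
    constructor
    · rintro ⟨s, hs⟩
      have : (⟨g, hg⟩ : Cfsg.isometryGroup F₀ ⇑Q₀) = s.1 := Subtype.ext hs.symm
      rw [this]; exact s.2
    · intro h; exact ⟨⟨_, h⟩, rfl⟩
  · have h1 : (⟨g, hg⟩ : Cfsg.isometryGroup F₀ ⇑Q₀) = (isoO Q₀).symm (rp Q₀ vs) := by rw [← hg', MulEquiv.symm_apply_apply]
    have h3 : GeneralLinearGroup.map ι g = ((isoO Q).symm (rp Q (vs.map (fun v i => ι (v i))))).1 := by
      rw [← map_rp ι hQQ, ← h1]
    rw [h3, ← hprod, ← List.length_map (as := vs) (f := fun v i => ι (v i)), ← rp_mem_commutator_iff' hQ h2 _ hvs', mem_Om]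
    constructor
    · rintro ⟨s, hs⟩
      have h4 : (isoO Q).symm (rp Q (vs.map (fun v i => ι (v i)))) = s.1 := Subtype.ext hs.symm
      have h5 := (mem_Omega_iff s.1).1 s.2
      rw [← h4, MulEquiv.apply_symm_apply] at h5
      exact h5
    · intro h
      exact ⟨⟨_, (mem_Omega_iff _).2 (by rw [MulEquiv.apply_symm_apply]; exact h)⟩, rfl⟩

end rp

section OS

variable {F : Type*} [Field F] {F₀ : Type*} [Field F₀]

theorem Ph_map (h2 : (2 : F) ≠ 0) (h20 : (2 : F₀) ≠ 0) (k : ℕ) (ι : F₀ →+* F) (g : GL (Fin (2 * k + 2 + 1)) F₀) :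
    Ph h2 k (GeneralLinearGroup.map ι g) = GeneralLinearGroup.map ι (Ph h20 k g) := by
  have hd : ∀ i : OIx (k + 1), ι (dv (k + 1) F₀ i) = dv (k + 1) F i := by
    rintro (⟨⟩ | i | i)
    · exact map_one ι
    · exact map_one ι
    · exact map_ofNat ι 2
  apply Units.ext
  ext i j
  rw [Ph_apply]
  show _ = ι ((Ph h20 k g).1 i j)
  rw [Ph_apply, map_mul, map_mul, map_inv₀, hd, hd]; rfl

theorem map_spec (h2 : (2 : F) ≠ 0) (h20 : (2 : F₀) ≠ 0) (k : ℕ) (ι : F₀ →+* F) (g : GL (OIx (k + 1)) F₀) :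
    GeneralLinearGroup.map ι g ∈ Cfsg.specialIsometryGL F (Cfsg.quadFormOdd (k + 1) F) ↔ g ∈ Cfsg.specialIsometryGL F₀ (Cfsg.quadFormOdd (k + 1) F₀) := by
  obtain ⟨g', rfl⟩ := (Ph h20 k).surjective g
  rw [← Ph_map h2 h20, spec_iff, spec_iff]
  have e1 : (GeneralLinearGroup.map ι g').1 = g'.1.map ι := rfl
  rw [e1]
  have e2 : (g'.1.map ι).transpose * Jx k F * g'.1.map ι = (g'.1.transpose * Jx k F₀ * g'.1).map ι := by
    rw [Matrix.map_mul, Matrix.map_mul, Jx_map]; rfl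
  have e3 : (g'.1.map ι).det = ι g'.1.det := (RingHom.map_det ι g'.1).symm
  rw [e2, e3]
  constructor
  · rintro ⟨h1, h3⟩
    refine ⟨?_, ι.injective (by rw [h3, map_one])⟩
    ext i j
    apply ι.injective
    have h4 := congrFun (congrFun h1 i) j
    rw [← Jx_map k ι] at h4
    exact h4
  · rintro ⟨h1, h3⟩
    exact ⟨by rw [h1, Jx_map], by rw [h3, map_one]⟩

/-- base change -/
def mapG (h2 : (2 : F) ≠ 0) (h20 : (2 : F₀) ≠ 0) (k : ℕ) (ι : F₀ →+* F) : (OS (k + 1) F₀).Γ →* (OS (k + 1) F).Γ where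
  toFun g := ⟨GeneralLinearGroup.map ι g.1, (map_spec h2 h20 k ι g.1).2 g.2⟩
  map_one' := Subtype.ext (map_one _)
  map_mul' a b := Subtype.ext (map_mul _ _ _)

theorem mapG_inj (h2 : (2 : F) ≠ 0) (h20 : (2 : F₀) ≠ 0) (k : ℕ) (ι : F₀ →+* F) : Function.Injective (mapG h2 h20 k ι) := by
  intro a b h
  have h1 : GeneralLinearGroup.map ι a.1 = GeneralLinearGroup.map ι b.1 := congrArg Subtype.val h
  apply Subtype.ext
  apply Units.ext
  ext i j
  apply ι.injective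
  exact congrArg (fun x : GL (OIx (k + 1)) F => x.1 i j) h1

/-- descent -/
theorem exists_descO (h2 : (2 : F) ≠ 0) (h20 : (2 : F₀) ≠ 0) (k : ℕ) (ι : F₀ →+* F) (σ : F ≃+* F) (hι : ∀ x, σ x = x ↔ ∃ y, ι y = x)
    (g : (OS (k + 1) F).Γ) (hg : mg σ g.1 = g.1) : ∃ g0, mapG h2 h20 k ι g0 = g := by
  have h1 : ∀ i j, ∃ y, ι y = g.1.1 i j := fun i j => (hι _).1 (congrArg (fun x : GL (OIx (k + 1)) F => x.1 i j) hg)
  choose M hM using h1
  have hMmap : (Matrix.of M).map ι = g.1.1 := by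
    ext i j; exact hM i j
  have hdet : (Matrix.of M).det ≠ 0 := by
    intro h0
    have h2 := congrArg Matrix.det hMmap
    rw [← RingHom.mapMatrix_apply, ← RingHom.map_det, h0, map_zero] at h2
    have h3 : g.1.1.det ≠ 0 := (g.1.isUnit.map Matrix.detMonoidHom).ne_zero
    exact h3 h2.symm
  let g0 : GL (OIx (k + 1)) F₀ := Matrix.GeneralLinearGroup.mkOfDetNeZero (Matrix.of M) hdet
  have hg0 : GeneralLinearGroup.map ι g0 = g.1 := Units.ext hMmap
  refine ⟨⟨g0, (map_spec h2 h20 k ι g0).1 ?_⟩, Subtype.ext hg0⟩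
  rw [hg0]; exact g.2

theorem mg_mapG (h2 : (2 : F) ≠ 0) (h20 : (2 : F₀) ≠ 0) (k : ℕ) (ι : F₀ →+* F) (σ : F ≃+* F) (hι : ∀ x, σ x = x ↔ ∃ y, ι y = x) (g : (OS (k + 1) F₀).Γ) :
    mg σ (mapG h2 h20 k ι g).1 = (mapG h2 h20 k ι g).1 := by
  apply Units.ext
  ext i j
  exact (hι _).2 ⟨_, rfl⟩

theorem mem_cent [Finite F] (h2 : (2 : F) ≠ 0) {k : ℕ} (hk : 2 ≤ k) (σ : (OS (k + 1) F).A) (g : (OS (k + 1) F).Γ) :
    (OS (k + 1) F).delta g ∈ Subgroup.centralizer {(OS (k + 1) F).psi σ} ↔ mg σ.1 g.1 = g.1 := by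
  rw [(OS (k + 1) F).mem_centralizer_iff (hkerO h2 (by omega)) σ g]
  constructor
  · rintro ⟨c, hc⟩
    exact (sc_one (m := k + 1) g.2 ((OS (k + 1) F).fG σ g).2 hc).2.symm
  · intro h
    refine ⟨1, ?_⟩
    rw [one_smul]
    exact congrArg (fun x : GL (OIx (k + 1)) F => x.1) h

end OS

section abs

theorem cent_abs {A G G₀ : Type*} [Group A] [Group G] [Group G₀] (D : G →* A) (hD : Function.Injective D) (x : A) (j : G₀ →* G) (hj : Function.Injective j)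
    (h : ∀ g, D g ∈ Subgroup.centralizer {x} ↔ ∃ g0, j g0 = g) : Nonempty (↥(D.range ⊓ Subgroup.centralizer {x}) ≃* G₀) := by
  let f : G₀ →* ↥(D.range ⊓ Subgroup.centralizer {x}) := (D.comp j).codRestrict _ (fun g => ⟨⟨_, rfl⟩, (h _).2 ⟨g, rfl⟩⟩)
  have hf : Function.Bijective f := by
    constructor
    · intro a b hab
      have h1 : D (j a) = D (j b) := congrArg Subtype.val hab
      exact hj (hD h1)
    · rintro ⟨_, ⟨g, rfl⟩, hg⟩
      obtain ⟨g0, rfl⟩ := (h g).1 hg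
      exact ⟨g0, Subtype.ext rfl⟩
  exact ⟨(MulEquiv.ofBijective f hf).symm⟩

theorem split_one {A G : Type*} [Group A] [Group G] (D : G →* A) (K : Subgroup A) [hN : K.Normal] (hK : K ≤ D.range) (hidx : K.relIndex D.range = 2) (x : A)
    (g : G) (hg : D g ∈ Subgroup.centralizer {x}) (hg' : D g ∉ K) : Cfsg.splitClassCount D.range K x = 1 := by
  rw [Cfsg.Agent.Lib.AutPSL.split_count _ _ hK]
  have h6 : K ≤ K ⊔ (D.range ⊓ Subgroup.centralizer {x}) := le_sup_left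
  have h7 : K ⊔ (D.range ⊓ Subgroup.centralizer {x}) ≤ D.range := sup_le hK inf_le_left
  have h8 := Subgroup.relIndex_mul_relIndex _ _ _ h6 h7
  rw [hidx] at h8
  have h9 : K.relIndex (K ⊔ (D.range ⊓ Subgroup.centralizer {x})) ≠ 1 := by
    intro h10
    have h11 := Subgroup.relIndex_eq_one.1 h10
    exact hg' (h11 (Subgroup.mem_sup_right ⟨⟨_, rfl⟩, hg⟩))
  have h10 : (K ⊔ (D.range ⊓ Subgroup.centralizer {x})).relIndex D.range ∣ 2 := ⟨_, by rw [← h8, mul_comm]⟩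
  rcases (Nat.dvd_prime Nat.prime_two).1 h10 with h11 | h11
  · exact h11
  · rw [h11] at h8
    exfalso
    apply h9
    omega

theorem split_two {A G : Type*} [Group A] [Group G] (D : G →* A) (K : Subgroup A) [hN : K.Normal] (hK : K ≤ D.range) (hidx : K.relIndex D.range = 2) (x : A)
    (h : ∀ g, D g ∈ Subgroup.centralizer {x} → D g ∈ K) : Cfsg.splitClassCount D.range K x = 2 := by
  rw [Cfsg.Agent.Lib.AutPSL.split_count _ _ hK, ← hidx]
  congr 1
  apply le_antisymm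
  · apply sup_le le_rfl
    rintro _ ⟨⟨g, rfl⟩, hg⟩
    exact h g hg
  · exact le_sup_left

end abs

end Cfsg.Agent.H8.Ort
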