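import Mathlib
import Cfsg.Agent.H8.Ort9

set_option autoImplicit false
set_option linter.all false

/-! Field automorphisms of `PΩ_{2m+1}(q)`: centralizers and classes. -/

namespace Cfsg.Agent.H8.Ort

open scoped commutatorElement
open Matrix Cfsg.Agent.H8.GrStd Cfsg.Agent.H8.AutPSL Cfsg.Agent.Lib Cfsg.Agent.H8.MSys Cfsg.Agent.Lib.Orth
  Cfsg.Agent.H8.Theta Cfsg.Agent.H8.GrCen Cfsg.Agent.H8.GrOdd
open QuadraticMap Module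

section OS2

variable {F : Type*} [Field F] {F₀ : Type*} [Field F₀]

theorem mem_cent' [Finite F] (h2 : (2 : F) ≠ 0) (h20 : (2 : F₀) ≠ 0) {k : ℕ} (hk : 2 ≤ k) (ι : F₀ →+* F) (σ : (OS (k + 1) F).A)
    (hι : ∀ x, σ.1 x = x ↔ ∃ y, ι y = x) (g : (OS (k + 1) F).Γ) :
    (OS (k + 1) F).delta g ∈ Subgroup.centralizer {(OS (k + 1) F).psi σ} ↔ ∃ g0, mapG h2 h20 k ι g0 = g := by
  rw [mem_cent h2 hk]
  constructor
  · intro h
    exact exists_descO h2 h20 k ι σ.1 hι g h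
  · rintro ⟨g0, rfl⟩
    exact mg_mapG h2 h20 k ι σ.1 hι g0

theorem cent_equiv1 [Finite F] [Finite F₀] (h2 : (2 : F) ≠ 0) (h20 : (2 : F₀) ≠ 0) {k : ℕ} (hk : 2 ≤ k) (ι : F₀ →+* F) (σ : (OS (k + 1) F).A)
    (hι : ∀ x, σ.1 x = x ↔ ∃ y, ι y = x) :
    Nonempty (↥((OS (k + 1) F).delta.range ⊓ Subgroup.centralizer {(OS (k + 1) F).psi σ}) ≃* ↥(OS (k + 1) F₀).Γ) := by
  have hm : 3 ≤ k + 1 := by omega
  have h1 := delta_inj (F := F) h2 hm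
  have h3 := mem_cent' h2 h20 hk ι σ hι
  have h4 := mapG_inj h2 h20 k ι
  have h5 := cent_abs (OS (k + 1) F).delta h1 ((OS (k + 1) F).psi σ) (mapG h2 h20 k ι) h4 h3
  exact h5

theorem range_equiv [Finite F] (h2 : (2 : F) ≠ 0) {k : ℕ} (hk : 2 ≤ k) : Nonempty ((OS (k + 1) F).Γ ≃* ↥((OS (k+1) F).delta.range)) := by
  have hm : 3 ≤ k + 1 := by omega
  exact ⟨(MonoidHom.ofInjective (delta_inj (F := F) h2 hm))⟩

theorem trans_abs {A B C : Type*} [Mul A] [Mul B] [Mul C] (h1 : Nonempty (A ≃* B)) (h2 : Nonempty (B ≃* C)) : Nonempty (A ≃* C) := by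
  obtain ⟨e⟩ := h1
  obtain ⟨e'⟩ := h2
  exact ⟨e.trans e'⟩

theorem hdesc [Finite F] [Finite F₀] (h2 : (2 : F) ≠ 0) (h20 : (2 : F₀) ≠ 0) {k : ℕ} (ι : F₀ →+* F) (g : (OS (k + 1) F₀).Γ) :
    ∃ (n : ℕ) (a : F₀), Even n ∧ (g.1 ∈ Om F₀ (Cfsg.quadFormOdd (k + 1) F₀) ↔ Even n ∧ IsSquare a) ∧
      ((mapG h2 h20 k ι g).1 ∈ Om F (Cfsg.quadFormOdd (k + 1) F) ↔ Even n ∧ IsSquare (ι a)) := by
  have hQQ : ∀ v, (qOdd (k + 1) F) (fun i => ι (v i)) = ι ((qOdd (k + 1) F₀) v) := by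
    intro v
    rw [qOdd_apply, qOdd_apply]
    unfold Cfsg.quadFormOdd
    rw [map_add, map_pow, map_sum]
    simp only [map_mul]
  obtain ⟨n, a, h0, h1, h3, h4⟩ := spin_desc (Q := qOdd (k + 1) F) (Q₀ := qOdd (k + 1) F₀) ι hQQ (nd_odd h2) (nd_odd h20) h2 h20 g.1 (by
      rw [coe_qOdd]; exact (mem_spec.1 g.2).1)
  rw [coe_qOdd] at h3 h4
  exact ⟨n, a, h1 (mem_spec.1 g.2).2, h3, h4⟩

theorem exists_out1 [Finite F₀] (h20 : (2 : F₀) ≠ 0) {k : ℕ} (hk : 2 ≤ k) :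
    ∃ g : (OS (k + 1) F₀).Γ, g.1 ∉ Om F₀ (Cfsg.quadFormOdd (k + 1) F₀) := by
  by_contra hcon
  push Not at hcon
  have hm : 3 ≤ k + 1 := by omega
  have h3 := relindex_odd (F := F₀) h20 hm
  have h4 : Cfsg.specialIsometryGL F₀ (Cfsg.quadFormOdd (k + 1) F₀) ≤ Om F₀ (Cfsg.quadFormOdd (k + 1) F₀) := fun g hg => hcon ⟨g, hg⟩
  rw [Subgroup.relIndex_eq_one.2 h4] at h3
  omega

theorem exists_out2 [Finite F] [Finite F₀] (h2 : (2 : F) ≠ 0) (h20 : (2 : F₀) ≠ 0) {k : ℕ} (hk : 2 ≤ k) (ι : F₀ →+* F) (σ : (OS (k + 1) F).A)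
    (hι : ∀ x, σ.1 x = x ↔ ∃ y, ι y = x) {r : ℕ} (hr : orderOf σ.1 = r) (hodd : Odd r) :
    ∃ g : (OS (k + 1) F₀).Γ, (mapG h2 h20 k ι g).1 ∉ Om F (Cfsg.quadFormOdd (k + 1) F) := by
  obtain ⟨g, hg⟩ := exists_out1 (F₀ := F₀) h20 hk
  obtain ⟨n, a, h0, h3, h4⟩ := hdesc h2 h20 ι g
  refine ⟨g, ?_⟩
  rw [h4]
  rintro ⟨h6, h7⟩
  exact hg (h3.2 ⟨h6, sq_odd ι σ.1 hι hr hodd h7⟩)

theorem exists_out3 [Finite F] [Finite F₀] (h2 : (2 : F) ≠ 0) (h20 : (2 : F₀) ≠ 0) {k : ℕ} (hk : 2 ≤ k) (ι : F₀ →+* F) (σ : (OS (k + 1) F).A)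
    (hι : ∀ x, σ.1 x = x ↔ ∃ y, ι y = x) {r : ℕ} (hr : orderOf σ.1 = r) (hodd : Odd r) :
    ∃ g : (OS (k + 1) F).Γ, (OS (k + 1) F).delta g ∈ Subgroup.centralizer {(OS (k + 1) F).psi σ} ∧
      (OS (k + 1) F).delta g ∉ Cfsg.Inn (Cfsg.POmega F (Cfsg.quadFormOdd (k + 1) F)) := by
  have hm : 3 ≤ k + 1 := by omega
  have hx := exists_out2 h2 h20 hk ι σ hι hr hodd
  cases hx with
  | intro g hg =>
  have h7 := (mem_cent' h2 h20 hk ι σ hι (mapG h2 h20 k ι g)).2 ⟨g, rfl⟩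
  have h8 := delta_mem_inn h2 hm (mapG h2 h20 k ι g)
  refine Exists.intro (mapG h2 h20 k ι g) (And.intro h7 ?_)
  rw [h8]
  exact hg

/-- the number of classes, odd order -/
theorem split_O1 [Finite F] [Finite F₀] (h2 : (2 : F) ≠ 0) (h20 : (2 : F₀) ≠ 0) {k : ℕ} (hk : 2 ≤ k) (ι : F₀ →+* F) (σ : (OS (k + 1) F).A)
    (hι : ∀ x, σ.1 x = x ↔ ∃ y, ι y = x) {r : ℕ} (hr : orderOf σ.1 = r) (hodd : Odd r) :
    Cfsg.splitClassCount (OS (k + 1) F).delta.range (Cfsg.Inn (Cfsg.POmega F (Cfsg.quadFormOdd (k + 1) F))) ((OS (k + 1) F).psi σ) = 1 := by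
  obtain ⟨g, h7, h9⟩ := exists_out3 h2 h20 hk ι σ hι hr hodd
  have hm : 3 ≤ k + 1 := by omega
  have h6 := relindex_inn (F := F) h2 hm
  exact split_one (OS (k + 1) F).delta _ (OS (k + 1) F).inn_le h6 _ g h7 h9

/-- the number of classes, order two -/
theorem split_O2 [Finite F] [Finite F₀] (h2 : (2 : F) ≠ 0) (h20 : (2 : F₀) ≠ 0) {k : ℕ} (hk : 2 ≤ k) (ι : F₀ →+* F) (σ : (OS (k + 1) F).A)
    (hι : ∀ x, σ.1 x = x ↔ ∃ y, ι y = x) (hcard : Nat.card F = Nat.card F₀ ^ 2) :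
    Cfsg.splitClassCount (OS (k + 1) F).delta.range (Cfsg.Inn (Cfsg.POmega F (Cfsg.quadFormOdd (k + 1) F))) ((OS (k + 1) F).psi σ) = 2 := by
  have hm : 3 ≤ k + 1 := by omega
  have h6 := relindex_inn (F := F) h2 hm
  have h7 : ∀ g, (OS (k + 1) F).delta g ∈ Subgroup.centralizer {(OS (k + 1) F).psi σ} →
      (OS (k + 1) F).delta g ∈ Cfsg.Inn (Cfsg.POmega F (Cfsg.quadFormOdd (k + 1) F)) := by
    intro g hg
    obtain ⟨g0, hg0⟩ := (mem_cent' h2 h20 hk ι σ hι g).1 hg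
    obtain ⟨n, a, h0, h3, h4⟩ := hdesc h2 h20 ι g0
    have h8 := delta_mem_inn h2 hm g
    rw [h8, ← hg0, h4]
    exact ⟨h0, sq_even h2 ι hcard a⟩
  exact split_two (OS (k + 1) F).delta _ (OS (k + 1) F).inn_le h6 _ h7

/-- transport to a conjugate -/
theorem conj_cent {A : Type*} [Group A] (H : Subgroup A) [H.Normal] (x α y : A) (hy : α * x * α⁻¹ = y) :
    Nonempty (↥(H ⊓ Subgroup.centralizer {x}) ≃* ↥(H ⊓ Subgroup.centralizer {y})) := by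
  subst hy
  exact Cfsg.Agent.Lib.AutPSL.centralizer_conj_equiv H x α

theorem conj_split {A : Type*} [Group A] (H K : Subgroup A) [H.Normal] [K.Normal] (hK : K ≤ H) (x α y : A) (hy : α * x * α⁻¹ = y) :
    Cfsg.splitClassCount H K x = Cfsg.splitClassCount H K y := by
  subst hy
  exact (Cfsg.Agent.Lib.AutPSL.split_count_conj _ _ hK x α).symm

theorem delta_normal [Finite F] (h2 : (2 : F) ≠ 0) {k : ℕ} (hk : 2 ≤ k) : (OS (k + 1) F).delta.range.Normal := by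
  have hm : 3 ≤ k + 1 := by omega
  exact (OS (k + 1) F).delta_normal (std_top' (F := F) h2 hm)

theorem cent_x [Finite F] (h2 : (2 : F) ≠ 0) {k : ℕ} (hk : 2 ≤ k) (σ : (OS (k + 1) F).A) (x α : MulAut (Cfsg.POmega F (Cfsg.quadFormOdd (k + 1) F))) (hx : α * x * α⁻¹ = (OS (k + 1) F).psi σ) :
    Nonempty (↥((OS (k + 1) F).delta.range ⊓ Subgroup.centralizer {x}) ≃* ↥((OS (k + 1) F).delta.range ⊓ Subgroup.centralizer {(OS (k + 1) F).psi σ})) := by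
  haveI := delta_normal (F := F) h2 hk
  exact conj_cent _ x α _ hx

theorem split_x [Finite F] (h2 : (2 : F) ≠ 0) {k : ℕ} (hk : 2 ≤ k) (σ : (OS (k + 1) F).A) (x α : MulAut (Cfsg.POmega F (Cfsg.quadFormOdd (k + 1) F))) (hx : α * x * α⁻¹ = (OS (k + 1) F).psi σ) :
    Cfsg.splitClassCount (OS (k + 1) F).delta.range (Cfsg.Inn (Cfsg.POmega F (Cfsg.quadFormOdd (k + 1) F))) x
      = Cfsg.splitClassCount (OS (k + 1) F).delta.range (Cfsg.Inn (Cfsg.POmega F (Cfsg.quadFormOdd (k + 1) F))) ((OS (k + 1) F).psi σ) := by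
  haveI := delta_normal (F := F) h2 hk
  exact conj_split _ _ (OS (k + 1) F).inn_le x α _ hx

theorem final1 [Finite F] [Finite F₀] (h2 : (2 : F) ≠ 0) (h20 : (2 : F₀) ≠ 0) {k : ℕ} (hk : 2 ≤ k) (ι : F₀ →+* F) (σ : (OS (k + 1) F).A)
    (hι : ∀ x, σ.1 x = x ↔ ∃ y, ι y = x) (x α : MulAut (Cfsg.POmega F (Cfsg.quadFormOdd (k + 1) F))) (hx : α * x * α⁻¹ = (OS (k + 1) F).psi σ) :
    Nonempty (↥((OS (k + 1) F).delta.range ⊓ Subgroup.centralizer {x}) ≃* ↥(OS (k + 1) F₀).delta.range) :=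
  trans_abs (trans_abs (cent_x h2 hk σ x α hx) (cent_equiv1 h2 h20 hk ι σ hι)) (range_equiv h20 hk)

theorem final2 [Finite F] [Finite F₀] (h2 : (2 : F) ≠ 0) (h20 : (2 : F₀) ≠ 0) {k : ℕ} (hk : 2 ≤ k) (ι : F₀ →+* F) (σ : (OS (k + 1) F).A)
    (hι : ∀ x, σ.1 x = x ↔ ∃ y, ι y = x) (x α : MulAut (Cfsg.POmega F (Cfsg.quadFormOdd (k + 1) F))) (hx : α * x * α⁻¹ = (OS (k + 1) F).psi σ)
    {r : ℕ} (hr : orderOf σ.1 = r) (hodd : Odd r) :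
    Cfsg.splitClassCount (OS (k + 1) F).delta.range (Cfsg.Inn (Cfsg.POmega F (Cfsg.quadFormOdd (k + 1) F))) x = 1 :=
  (split_x h2 hk σ x α hx).trans (split_O1 h2 h20 hk ι σ hι hr hodd)

theorem final3 [Finite F] [Finite F₀] (h2 : (2 : F) ≠ 0) (h20 : (2 : F₀) ≠ 0) {k : ℕ} (hk : 2 ≤ k) (ι : F₀ →+* F) (σ : (OS (k + 1) F).A)
    (hι : ∀ x, σ.1 x = x ↔ ∃ y, ι y = x) (x α : MulAut (Cfsg.POmega F (Cfsg.quadFormOdd (k + 1) F))) (hx : α * x * α⁻¹ = (OS (k + 1) F).psi σ)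
    (hcard : Nat.card F = Nat.card F₀ ^ 2) :
    Cfsg.splitClassCount (OS (k + 1) F).delta.range (Cfsg.Inn (Cfsg.POmega F (Cfsg.quadFormOdd (k + 1) F))) x = 2 :=
  (split_x h2 hk σ x α hx).trans (split_O2 h2 h20 hk ι σ hι hcard)

end OS2

end Cfsg.Agent.H8.Ort
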