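import Mathlib

set_option autoImplicit false
set_option linter.all false

/-! The exceptional duality of `Sp_4` in characteristic two, by minors. -/

namespace Cfsg.Agent.H8.Sp4G

open Matrix

variable {F : Type*} [Field F]

/-- two by two minors -/
def mi (g : Matrix (Fin 4) (Fin 4) F) (r s c d : Fin 4) : F := g r c * g s d - g r d * g s c

/-- the index pairs -/
def P1 : Fin 4 → Fin 4 := ![0, 0, 1, 2]
def P2 : Fin 4 → Fin 4 := ![1, 2, 3, 3]

/-- the matrix of minors -/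
def Gm (g : Matrix (Fin 4) (Fin 4) F) : Matrix (Fin 4) (Fin 4) F := Matrix.of fun a b => mi g (P1 a) (P2 a) (P1 b) (P2 b)

theorem Gm_apply (g : Matrix (Fin 4) (Fin 4) F) (a b : Fin 4) : Gm g a b = mi g (P1 a) (P2 a) (P1 b) (P2 b) := rfl

/-- the row relation -/
def Rr (g : Matrix (Fin 4) (Fin 4) F) : Prop := ∀ r s, mi g r s 0 3 + mi g r s 1 2 = if s = Fin.rev r then 1 else 0
def Rc (g : Matrix (Fin 4) (Fin 4) F) : Prop := ∀ c d, mi g 0 3 c d + mi g 1 2 c d = if d = Fin.rev c then 1 else 0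

theorem mi_mul (g h : Matrix (Fin 4) (Fin 4) F) (r s c d : Fin 4) :
    mi (g * h) r s c d = mi g r s 0 1 * mi h 0 1 c d + mi g r s 0 2 * mi h 0 2 c d + mi g r s 0 3 * mi h 0 3 c d
      + mi g r s 1 2 * mi h 1 2 c d + mi g r s 1 3 * mi h 1 3 c d + mi g r s 2 3 * mi h 2 3 c d := by
  simp only [mi, Matrix.mul_apply, Fin.sum_univ_four]
  ring

theorem P_ne : ∀ a : Fin 4, P2 a ≠ Fin.rev (P1 a) := by decide

theorem Gm_mul (h2 : (2 : F) = 0) {g h : Matrix (Fin 4) (Fin 4) F} (hg : Rr g) (hh : Rc h) : Gm (g * h) = Gm g * Gm h := by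
  ext a b
  have h1 := hg (P1 a) (P2 a)
  rw [if_neg (P_ne a)] at h1
  have h3 := hh (P1 b) (P2 b)
  rw [if_neg (P_ne b)] at h3
  rw [Gm_apply, mi_mul, Matrix.mul_apply, Fin.sum_univ_four]
  simp only [Gm_apply]
  show _ = mi g (P1 a) (P2 a) 0 1 * mi h 0 1 (P1 b) (P2 b) + mi g (P1 a) (P2 a) 0 2 * mi h 0 2 (P1 b) (P2 b)
    + mi g (P1 a) (P2 a) 1 3 * mi h 1 3 (P1 b) (P2 b) + mi g (P1 a) (P2 a) 2 3 * mi h 2 3 (P1 b) (P2 b)
  linear_combination mi g (P1 a) (P2 a) 0 3 * h3 + mi h 1 2 (P1 b) (P2 b) * h1 - mi g (P1 a) (P2 a) 0 3 * mi h 1 2 (P1 b) (P2 b) * h2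

theorem Gm_one : Gm (1 : Matrix (Fin 4) (Fin 4) F) = 1 := by
  ext a b
  fin_cases a <;> fin_cases b <;> simp [Gm_apply, mi, P1, P2, Matrix.one_apply]

theorem pair_id (g : Matrix (Fin 4) (Fin 4) F) (r s u v : Fin 4) :
    (mi g r u 0 3 + mi g r u 1 2) * (mi g s v 0 3 + mi g s v 1 2) - (mi g r v 0 3 + mi g r v 1 2) * (mi g s u 0 3 + mi g s u 1 2) =
    - (mi g r s 0 1 * mi g u v 2 3) + mi g r s 0 2 * mi g u v 1 3 + mi g r s 0 3 * mi g u v 0 3 + mi g r s 1 2 * mi g u v 1 2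
      + mi g r s 1 3 * mi g u v 0 2 - mi g r s 2 3 * mi g u v 0 1 := by
  simp only [mi]
  ring

theorem Gm_rel (h2 : (2 : F) = 0) {g : Matrix (Fin 4) (Fin 4) F} (hg : Rr g) (a b : Fin 4) :
    Gm g a 0 * Gm g b 3 + Gm g a 1 * Gm g b 2 + Gm g a 2 * Gm g b 1 + Gm g a 3 * Gm g b 0 = if b = Fin.rev a then 1 else 0 := by
  have h1 := hg (P1 a) (P2 a)
  rw [if_neg (P_ne a)] at h1
  have h3 := hg (P1 b) (P2 b)
  rw [if_neg (P_ne b)] at h3
  have h4 := pair_id g (P1 a) (P2 a) (P1 b) (P2 b)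
  rw [hg, hg, hg, hg] at h4
  have h5 : ((if P1 b = Fin.rev (P1 a) then (1 : F) else 0) * (if P2 b = Fin.rev (P2 a) then 1 else 0)
      - (if P2 b = Fin.rev (P1 a) then 1 else 0) * (if P1 b = Fin.rev (P2 a) then 1 else 0)) = if b = Fin.rev a then 1 else 0 := by
    have hm : (-1 : F) = 1 := by linear_combination - h2
    fin_cases a <;> fin_cases b <;> simp [P1, P2, Fin.rev, hm]
  rw [h5] at h4
  simp only [Gm_apply]
  show mi g (P1 a) (P2 a) 0 1 * mi g (P1 b) (P2 b) 2 3 + mi g (P1 a) (P2 a) 0 2 * mi g (P1 b) (P2 b) 1 3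
    + mi g (P1 a) (P2 a) 1 3 * mi g (P1 b) (P2 b) 0 2 + mi g (P1 a) (P2 a) 2 3 * mi g (P1 b) (P2 b) 0 1 = _
  rw [h4]
  linear_combination (mi g (P1 a) (P2 a) 0 1 * mi g (P1 b) (P2 b) 2 3 + mi g (P1 a) (P2 a) 2 3 * mi g (P1 b) (P2 b) 0 1 + mi g (P1 a) (P2 a) 0 3 * mi g (P1 b) (P2 b) 1 2) * h2
    - mi g (P1 a) (P2 a) 0 3 * h3 - mi g (P1 b) (P2 b) 1 2 * h1

theorem mi_r (h2 : (2 : F) = 0) (g : Matrix (Fin 4) (Fin 4) F) (r s c d : Fin 4) : mi g s r c d = mi g r s c d := by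
  simp only [mi]
  linear_combination (g s c * g r d - g s d * g r c) * h2
theorem mi_c (h2 : (2 : F) = 0) (g : Matrix (Fin 4) (Fin 4) F) (r s c d : Fin 4) : mi g r s d c = mi g r s c d := by
  simp only [mi]
  linear_combination (g r d * g s c - g r c * g s d) * h2
theorem mi_rc (g : Matrix (Fin 4) (Fin 4) F) (r s c d : Fin 4) : mi g s r d c = mi g r s c d := by
  simp only [mi]
  ring

/-- the companion index -/
def xx : Fin 4 → Fin 4 := ![1, 0, 0, 1]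

theorem Gm_P (h2 : (2 : F) = 0) (g : Matrix (Fin 4) (Fin 4) F) (a b : Fin 4) :
    Gm g (P1 a) (P1 b) = mi g a (xx a) b (xx b) ∧ Gm g (P1 a) (P2 b) = mi g a (xx a) b (Fin.rev (xx b)) ∧
    Gm g (P2 a) (P1 b) = mi g a (Fin.rev (xx a)) b (xx b) ∧ Gm g (P2 a) (P2 b) = mi g a (Fin.rev (xx a)) b (Fin.rev (xx b)) := by
  fin_cases a <;> fin_cases b <;> refine ⟨?_, ?_, ?_, ?_⟩ <;>
    first | rfl | exact mi_r h2 g _ _ _ _ | exact mi_c h2 g _ _ _ _ | exact mi_rc g _ _ _ _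

theorem det3_id (g : Matrix (Fin 4) (Fin 4) F) (a x y b z w : Fin 4) :
    mi g a x b z * mi g a y b w - mi g a x b w * mi g a y b z =
      g a b * (g a b * mi g x y z w - g x b * mi g a y z w + g y b * mi g a x z w) := by
  simp only [mi]
  ring

theorem det3_zero (g : Matrix (Fin 4) (Fin 4) F) (a x y b w : Fin 4) :
    g a b * mi g x y b w - g x b * mi g a y b w + g y b * mi g a x b w = 0 := by
  simp only [mi]
  ring

/-- the two kinds of column pairs -/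
theorem cols (h2 : (2 : F) = 0) {g : Matrix (Fin 4) (Fin 4) F} (hg : Rr g) (r s b : Fin 4) :
    mi g r s (xx b) (Fin.rev (xx b)) + mi g r s b (Fin.rev b) = if s = Fin.rev r then 1 else 0 := by
  rw [← hg r s]
  have e03 : mi g r s 3 0 = mi g r s 0 3 := mi_c h2 g _ _ _ _
  have e12 : mi g r s 2 1 = mi g r s 1 2 := mi_c h2 g _ _ _ _
  fin_cases b
  · show mi g r s 1 2 + mi g r s 0 3 = _; ring
  · show mi g r s 0 3 + mi g r s 1 2 = _; ring
  · show mi g r s 0 3 + mi g r s 2 1 = _; rw [e12]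
  · show mi g r s 1 2 + mi g r s 3 0 = _; rw [e03]; ring

theorem xx_ne : ∀ a : Fin 4, Fin.rev (xx a) ≠ Fin.rev a := by decide
theorem xx_ne' : ∀ a : Fin 4, xx a ≠ Fin.rev a := by decide

theorem Gm_Gm (h2 : (2 : F) = 0) {g : Matrix (Fin 4) (Fin 4) F} (hg : Rr g) (a b : Fin 4) : Gm (Gm g) a b = g a b ^ 2 := by
  rw [Gm_apply]
  obtain ⟨e1, e2, e3, e4⟩ := Gm_P h2 g a b
  show Gm g (P1 a) (P1 b) * Gm g (P2 a) (P2 b) - Gm g (P1 a) (P2 b) * Gm g (P2 a) (P1 b) = _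
  rw [e1, e2, e3, e4, det3_id]
  have h0 := det3_zero g a (xx a) (Fin.rev (xx a)) b (Fin.rev b)
  have c1 := cols h2 hg (xx a) (Fin.rev (xx a)) b
  have c2 := cols h2 hg a (Fin.rev (xx a)) b
  have c3 := cols h2 hg a (xx a) b
  rw [if_pos rfl] at c1
  rw [if_neg (xx_ne a)] at c2
  rw [if_neg (xx_ne' a)] at c3
  linear_combination g a b * (g a b * c1 - g (xx a) b * c2 + g (Fin.rev (xx a)) b * c3 - h0)

end Cfsg.Agent.H8.Sp4G
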