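import Mathlib
import Cfsg.Agent.H8.GrEven4
import Cfsg.Agent.Lib.AutSp1

set_option autoImplicit false
set_option linter.all false

/-! Transfer to the symplectic groups of the Prelude. -/

namespace Cfsg.Agent.H8.SpTrans

open scoped commutatorElement
open Matrix Pointwise Cfsg.Agent.H8.AutBN Cfsg.Agent.H8.SLPat Cfsg.Agent.H8.Theta Cfsg.Agent.H8.GrPi
  Cfsg.Agent.H8.GrStd Cfsg.Agent.H8.GrEven Cfsg.Agent.Lib.AutSp Cfsg.Agent.Lib.AutPSL

variable (k : ℕ)

/-- the index bijection -/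
def ei : Fin (k + 1) ⊕ Fin (k + 1) ≃ Fin (2 * k + 1 + 1) where
  toFun x := Sum.elim (fun i : Fin (k + 1) => (⟨i, by omega⟩ : Fin (2 * k + 1 + 1)))
    (fun i : Fin (k + 1) => (⟨2 * k + 1 - i, by omega⟩ : Fin (2 * k + 1 + 1))) x
  invFun z := if h : (z : ℕ) ≤ k then Sum.inl ⟨z, by omega⟩ else Sum.inr ⟨2 * k + 1 - z, by omega⟩
  left_inv x := by
    rcases x with i | i
    · have hi : (i : ℕ) ≤ k := by omega
      simp [hi]
    · have hi : ¬ (2 * k + 1 - (i : ℕ) ≤ k) := by omega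
      have h2 : 2 * k + 1 - (2 * k + 1 - (i : ℕ)) = i := by omega
      simp [hi, h2]
  right_inv z := by
    by_cases h : (z : ℕ) ≤ k
    · simp [h]
    · ext
      simp [h]
      omega

variable {F : Type*} [Field F]

/-- reindexing -/
abbrev R : Matrix (Fin (k + 1) ⊕ Fin (k + 1)) (Fin (k + 1) ⊕ Fin (k + 1)) F ≃ₐ[F] Matrix (Fin (2 * k + 1 + 1)) (Fin (2 * k + 1 + 1)) F :=
  Matrix.reindexAlgEquiv F F (ei k)

variable {k}

theorem R_apply (A : Matrix (Fin (k + 1) ⊕ Fin (k + 1)) (Fin (k + 1) ⊕ Fin (k + 1)) F) (a b : Fin (2 * k + 1 + 1)) :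
    R k A a b = A ((ei k).symm a) ((ei k).symm b) := rfl

theorem R_transpose (A : Matrix (Fin (k + 1) ⊕ Fin (k + 1)) (Fin (k + 1) ⊕ Fin (k + 1)) F) : R k A.transpose = (R k A).transpose := rfl

theorem R_map (σ : F ≃+* F) (A : Matrix (Fin (k + 1) ⊕ Fin (k + 1)) (Fin (k + 1) ⊕ Fin (k + 1)) F) : R k (A.map σ) = (R k A).map σ := rfl

theorem det_R (A : Matrix (Fin (k + 1) ⊕ Fin (k + 1)) (Fin (k + 1) ⊕ Fin (k + 1)) F) : (R k A).det = A.det := by
  exact Matrix.det_reindex_self (ei k) A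

theorem R_J : R k (Matrix.J (Fin (k + 1)) F) = (Jm (ea k F)).1 := by
  ext a b
  obtain ⟨x, rfl⟩ := (ei k).surjective a
  obtain ⟨y, rfl⟩ := (ei k).surjective b
  rw [R_apply, Equiv.symm_apply_apply, Equiv.symm_apply_apply, Jm_coe, Jf_apply]
  rcases x with i | i <;> rcases y with j | j
  · rw [if_neg]
    · rfl
    · intro h; have := congrArg Fin.val h; rw [rev_val] at this
      have e1 : ((ei k (Sum.inl i) : Fin (2 * k + 1 + 1)) : ℕ) = i := rfl
      have e2 : ((ei k (Sum.inl j) : Fin (2 * k + 1 + 1)) : ℕ) = j := rfl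
      omega
  · have e1 : ((ei k (Sum.inl i) : Fin (2 * k + 1 + 1)) : ℕ) = i := rfl
    have e2 : ((ei k (Sum.inr j) : Fin (2 * k + 1 + 1)) : ℕ) = 2 * k + 1 - j := rfl
    have h1 : Matrix.J (Fin (k + 1)) F (Sum.inl i) (Sum.inr j) = if i = j then -1 else 0 := by
      show (-1 : Matrix (Fin (k + 1)) (Fin (k + 1)) F) i j = _
      rw [Matrix.neg_apply, Matrix.one_apply]; split_ifs <;> simp
    rw [h1, ea_lo (by rw [e1]; omega)]
    by_cases hij : i = j
    · subst hij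
      rw [if_pos rfl, if_pos]
      · simp
      · ext; rw [rev_val, e1, e2]
    · rw [if_neg hij, if_neg]
      intro h; apply hij; have := congrArg Fin.val h; rw [rev_val, e1, e2] at this
      ext; omega
  · have e1 : ((ei k (Sum.inr i) : Fin (2 * k + 1 + 1)) : ℕ) = 2 * k + 1 - i := rfl
    have e2 : ((ei k (Sum.inl j) : Fin (2 * k + 1 + 1)) : ℕ) = j := rfl
    have h1 : Matrix.J (Fin (k + 1)) F (Sum.inr i) (Sum.inl j) = if i = j then 1 else 0 := by
      show (1 : Matrix (Fin (k + 1)) (Fin (k + 1)) F) i j = _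
      rw [Matrix.one_apply]
    rw [h1, ea_hi (by rw [e1]; omega)]
    by_cases hij : i = j
    · subst hij
      rw [if_pos rfl, if_pos]
      · simp
      · ext; rw [rev_val, e1, e2]; omega
    · rw [if_neg hij, if_neg]
      intro h; apply hij; have := congrArg Fin.val h; rw [rev_val, e1, e2] at this
      ext; omega
  · rw [if_neg]
    · rfl
    · intro h; have := congrArg Fin.val h; rw [rev_val] at this
      have e1 : ((ei k (Sum.inr i) : Fin (2 * k + 1 + 1)) : ℕ) = 2 * k + 1 - i := rfl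
      have e2 : ((ei k (Sum.inr j) : Fin (2 * k + 1 + 1)) : ℕ) = 2 * k + 1 - j := rfl
      omega

/-- the trivial duality twist -/
abbrev id1 (F : Type*) [Field F] : F ≃+* F := RingEquiv.refl F

theorem map_id1 {ι : Type*} (A : Matrix ι ι F) : A.map (id1 F) = A := by ext i j; rfl

theorem mem_iff (A : Matrix (Fin (k + 1) ⊕ Fin (k + 1)) (Fin (k + 1) ⊕ Fin (k + 1)) F) :
    A ∈ Matrix.symplecticGroup (Fin (k + 1)) F ↔ R k A * (Jm (ea k F)).1 * (R k A).transpose = (Jm (ea k F)).1 := by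
  rw [SymplecticGroup.mem_iff, ← R_J, ← R_transpose, ← map_mul, ← map_mul]
  exact (R k).injective.eq_iff.symm

/-- the isomorphism -/
noncomputable def Φ : Matrix.symplecticGroup (Fin (k + 1)) F ≃* Gr (id1 F) (ea k F) where
  toFun A := ⟨(⟨R k A.1, by rw [det_R]; exact SymplecticGroup.det_eq_one A.2⟩ : SpecialLinearGroup (Fin (2 * k + 1 + 1)) F),
    (mem_Gr_iff _ _ _).2 (by rw [map_id1]; exact (mem_iff A.1).1 A.2)⟩
  invFun s := ⟨(R k).symm s.1.1, by
    rw [mem_iff, AlgEquiv.apply_symm_apply]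
    have := (mem_Gr_iff _ _ _).1 s.2
    rwa [map_id1] at this⟩
  left_inv A := by
    apply Subtype.ext
    exact (R k).symm_apply_apply A.1
  right_inv s := by
    apply Subtype.ext
    apply Subtype.ext
    exact (R k).apply_symm_apply s.1.1
  map_mul' A B := by
    apply Subtype.ext
    apply Subtype.ext
    exact map_mul (R k) A.1 B.1

theorem Φ_coe (A : Matrix.symplecticGroup (Fin (k + 1)) F) : (Φ A).1.1 = R k A.1 := rfl

/-- the induced isomorphism of the quotients -/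
noncomputable def Ψ : Cfsg.PSp (k + 1) F ≃* (Gr (id1 F) (ea k F) ⧸ Subgroup.center (Gr (id1 F) (ea k F))) :=
  QuotientGroup.congr _ _ (Φ (k := k) (F := F)) (by
    ext x
    rw [Subgroup.mem_map]
    constructor
    · rintro ⟨y, hy, rfl⟩
      rw [Subgroup.mem_center_iff] at hy ⊢
      intro g
      obtain ⟨g, rfl⟩ := (Φ (k := k) (F := F)).surjective g
      show Φ g * Φ y = Φ y * Φ g
      rw [← map_mul, hy, map_mul]
    · intro hx
      refine ⟨Φ.symm x, ?_, by simp⟩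
      show Φ.symm x ∈ Subgroup.center _
      rw [Subgroup.mem_center_iff] at hx ⊢
      intro g
      apply Φ.injective
      rw [map_mul, map_mul, MulEquiv.apply_symm_apply, hx])

theorem Ψ_mk (A : Matrix.symplecticGroup (Fin (k + 1)) F) : Ψ (QuotientGroup.mk A) = QuotientGroup.mk' _ (Φ A) := rfl

/-- reindexing of `GL` -/
noncomputable def RG : GL (Fin (k + 1) ⊕ Fin (k + 1)) F ≃* GL (Fin (2 * k + 1 + 1)) F := Units.mapEquiv (R k).toMulEquiv

theorem RG_coe (g : GL (Fin (k + 1) ⊕ Fin (k + 1)) F) : (RG g).1 = R k g.1 := rfl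

/-- similitudes -/
theorem mem_GSp_of {g : GL (Fin (2 * k + 1 + 1)) F} (hg : g ∈ GJ (id1 F) (Jm (ea k F)).1) : RG.symm g ∈ Cfsg.GSp (k + 1) F := by
  obtain ⟨μ, hμ⟩ := hg
  rw [map_id1] at hμ
  obtain ⟨h, rfl⟩ := (RG (k := k) (F := F)).surjective g
  rw [MulEquiv.symm_apply_apply]
  rw [RG_coe, ← R_J, ← R_transpose, ← map_mul, ← map_mul, ← map_smul] at hμ
  have h1 := (R k).injective hμ
  have hJJ : Matrix.J (Fin (k + 1)) F * Matrix.J (Fin (k + 1)) F = -1 := Matrix.J_squared _ _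
  have h4 : h.1.transpose * Matrix.J (Fin (k + 1)) F * h.1 = (μ : F) • Matrix.J (Fin (k + 1)) F := by
    have hi : h.1 * h⁻¹.1 = 1 := by rw [← Units.val_mul, mul_inv_cancel, Units.val_one]
    have hi' : h⁻¹.1 * h.1 = 1 := by rw [← Units.val_mul, inv_mul_cancel, Units.val_one]
    have e1 : Matrix.J (Fin (k + 1)) F * h.1.transpose = (μ : F) • (h⁻¹.1 * Matrix.J (Fin (k + 1)) F) := by
      calc Matrix.J (Fin (k + 1)) F * h.1.transpose = (h⁻¹.1 * h.1) * Matrix.J (Fin (k + 1)) F * h.1.transpose := by rw [hi', one_mul]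
        _ = h⁻¹.1 * (h.1 * Matrix.J (Fin (k + 1)) F * h.1.transpose) := by simp only [mul_assoc]
        _ = _ := by rw [h1, mul_smul_comm]
    have e2 : h.1.transpose = -((μ : F) • (Matrix.J (Fin (k + 1)) F * h⁻¹.1 * Matrix.J (Fin (k + 1)) F)) := by
      calc h.1.transpose = -(Matrix.J (Fin (k + 1)) F * Matrix.J (Fin (k + 1)) F) * h.1.transpose := by rw [hJJ, neg_neg, one_mul]
        _ = -(Matrix.J (Fin (k + 1)) F * (Matrix.J (Fin (k + 1)) F * h.1.transpose)) := by rw [neg_mul, mul_assoc]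
        _ = _ := by rw [e1, mul_smul_comm, mul_assoc]
    rw [e2, neg_mul, neg_mul, smul_mul_assoc, smul_mul_assoc]
    rw [mul_assoc (Matrix.J (Fin (k + 1)) F * h⁻¹.1), hJJ, mul_neg, mul_one, neg_mul, mul_assoc, hi', mul_one, smul_neg, neg_neg]
  refine ⟨μ, fun u v => ?_⟩
  show (h.1 *ᵥ u) ⬝ᵥ (Matrix.J (Fin (k + 1)) F *ᵥ (h.1 *ᵥ v)) = (μ : F) * (u ⬝ᵥ (Matrix.J (Fin (k + 1)) F *ᵥ v))
  rw [Matrix.mulVec_mulVec, Matrix.dotProduct_mulVec, Matrix.vecMul_mulVec, ← Matrix.dotProduct_mulVec]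
  rw [← mul_assoc, h4, Matrix.smul_mulVec, dotProduct_smul, smul_eq_mul]

variable [Finite F]

theorem hid1 (t : F) : id1 F (id1 F t) = t := rfl

/-- every automorphism is standard -/
theorem aut_std (hk : 1 ≤ k) (h2 : k = 1 → (2 : F) ≠ 0) (α : MulAut (Cfsg.PSp (k + 1) F)) :
    ∃ (g : Cfsg.GSp (k + 1) F) (σ : F ≃+* F), α = delta g * psi σ := by
  have key : ∀ α' : MulAut (QG (IP k (id1 F) hid1)), ∃ (g : GL (Fin (2 * k + 1 + 1)) F) (hg : g ∈ GJ (id1 F) (Jm (ea k F)).1) (σ : F ≃+* F),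
      α' = iq k (id1 F) hid1 (cgK (id1 F) g hg * flK (id1 F) σ) := by
    intro α'
    rcases Nat.lt_or_ge k 2 with h | h
    · have : k = 1 := by omega
      subst this
      exact main4 (id1 F) hid1 (Or.inr (h2 rfl)) α'
    · exact main3 (id1 F) hid1 h α'
  obtain ⟨g, hg, σ, e⟩ := key ((Ψ (k := k) (F := F)).symm.trans (α.trans Ψ))
  refine ⟨⟨RG.symm g, mem_GSp_of hg⟩, σ, ?_⟩
  ext x
  obtain ⟨A, rfl⟩ := QuotientGroup.mk_surjective x
  apply (Ψ (k := k) (F := F)).injective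
  have e1 : Ψ (α (QuotientGroup.mk A)) = iq k (id1 F) hid1 (cgK (id1 F) g hg * flK (id1 F) σ) (Ψ (QuotientGroup.mk A)) := by
    rw [← e]
    show _ = Ψ (α (Ψ.symm (Ψ (QuotientGroup.mk A))))
    rw [MulEquiv.symm_apply_apply]
  rw [e1]
  show q k (id1 F) hid1 ((cgK (id1 F) g hg) (flK (id1 F) σ (Φ A))) = Ψ (QuotientGroup.mk (cjS _ (faS σ A)))
  show q k (id1 F) hid1 ((cgK (id1 F) g hg) (flK (id1 F) σ (Φ A))) = q k (id1 F) hid1 (Φ (cjS _ (faS σ A)))
  congr 1
  apply Subtype.ext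
  apply Subtype.ext
  show g.1 * ((R k A.1).map σ) * g⁻¹.1 = R k ((RG.symm g).1 * (A.1.map σ) * ((RG.symm g)⁻¹).1)
  obtain ⟨h, rfl⟩ := (RG (k := k) (F := F)).surjective g
  rw [MulEquiv.symm_apply_apply, map_mul, map_mul, R_map, ← map_inv]
  rfl

end Cfsg.Agent.H8.SpTrans
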