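import Mathlib
import Cfsg.Agent.H8.Sp4G
import Cfsg.Agent.H8.GrEven4
import Cfsg.Agent.H8.SpTrans

set_option autoImplicit false
set_option linter.all false

/-! The exceptional automorphism of `Sp_4(2^f)`. -/

namespace Cfsg.Agent.H8.Sp4G

open scoped commutatorElement
open Matrix Pointwise Cfsg.Agent.H8.AutBN Cfsg.Agent.H8.SLPat Cfsg.Agent.H8.SLTri Cfsg.Agent.H8.SLData
  Cfsg.Agent.H8.Theta Cfsg.Agent.H8.GrComb Cfsg.Agent.H8.GrData Cfsg.Agent.H8.GrShort Cfsg.Agent.H8.GrPi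
  Cfsg.Agent.H8.GrStd Cfsg.Agent.H8.GrEven Cfsg.Agent.H8.SpTrans

variable {F : Type*} [Field F]

theorem ea2 (h2 : (2 : F) = 0) (z : Fin (2 * 1 + 1 + 1)) : ((ea 1 F z : Fˣ) : F) = 1 := by
  have hm : (-1 : F) = 1 := by linear_combination - h2
  unfold ea
  split_ifs
  · rw [Units.val_neg, Units.val_one, hm]
  · rfl

theorem mem4 (h2 : (2 : F) = 0) (s : SpecialLinearGroup (Fin (2 * 1 + 1 + 1)) F) : s ∈ Gr (id1 F) (ea 1 F) ↔
    ∀ r t : Fin 4, s.1 r 0 * s.1 t 3 + s.1 r 1 * s.1 t 2 + s.1 r 2 * s.1 t 1 + s.1 r 3 * s.1 t 0 = if t = Fin.rev r then 1 else 0 := by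
  rw [mem_Gr_iff, map_id1]
  have hJ : ∀ r t : Fin 4, (Jm (ea 1 F)).1 r t = if t = Fin.rev r then 1 else 0 := by
    intro r t
    rw [Jm_coe, Jf_apply]
    have := ea2 h2 r
    split_ifs
    · exact this
    · rfl
  have hprod : ∀ r t : Fin 4, (s.1 * (Jm (ea 1 F)).1 * s.1.transpose) r t =
      s.1 r 0 * s.1 t 3 + s.1 r 1 * s.1 t 2 + s.1 r 2 * s.1 t 1 + s.1 r 3 * s.1 t 0 := by
    intro r t
    have e1 : ∀ c : Fin 4, (s.1 * (Jm (ea 1 F)).1) r c = s.1 r (Fin.rev c) := by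
      intro c
      rw [Matrix.mul_apply, Finset.sum_eq_single (Fin.rev c : Fin 4)]
      · rw [hJ, if_pos (Fin.rev_rev c).symm, mul_one]
      · intro b _ hb
        rw [hJ, if_neg, mul_zero]
        intro h; apply hb; rw [h]; exact (Fin.rev_rev _).symm
      · intro h; exact absurd (Finset.mem_univ _) h
    rw [Matrix.mul_apply]
    have e2 : ∑ j : Fin (2 * 1 + 1 + 1), (s.1 * (Jm (ea 1 F)).1) r j * s.1.transpose j t = ∑ j : Fin 4, s.1 r (Fin.rev j) * s.1 t j := by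
      apply Finset.sum_congr rfl
      intro j _
      rw [e1 j]; rfl
    rw [e2, Fin.sum_univ_four]
    show s.1 r 3 * s.1 t 0 + s.1 r 2 * s.1 t 1 + s.1 r 1 * s.1 t 2 + s.1 r 0 * s.1 t 3 = _
    ring
  constructor
  · intro h r t
    rw [← hprod, h]
    exact hJ r t
  · intro h
    ext r t
    exact (hprod r t).trans ((h r t).trans (hJ r t).symm)

theorem rr_of (h2 : (2 : F) = 0) {s : SpecialLinearGroup (Fin (2 * 1 + 1 + 1)) F} (hs : s ∈ Gr (id1 F) (ea 1 F)) : Rr s.1 := by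
  intro r t
  have := (mem4 h2 s).1 hs r t
  rw [← this]
  simp only [mi]
  linear_combination (- s.1 r 3 * s.1 t 0 - s.1 r 2 * s.1 t 1) * h2

/-- transpose -/
def trS (s : SpecialLinearGroup (Fin (2 * 1 + 1 + 1)) F) : SpecialLinearGroup (Fin (2 * 1 + 1 + 1)) F :=
  ⟨s.1.transpose, by rw [Matrix.det_transpose]; exact s.2⟩

/-- membership by transposition -/
theorem tr_mem (h2 : (2 : F) = 0) {s : SpecialLinearGroup (Fin (2 * 1 + 1 + 1)) F} (hs : s ∈ Gr (id1 F) (ea 1 F)) :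
    trS s ∈ Gr (id1 F) (ea 1 F) := by
  rw [mem_Gr_iff, map_id1] at hs ⊢
  show s.1.transpose * (Jm (ea 1 F)).1 * s.1.transpose.transpose = _
  rw [Matrix.transpose_transpose]
  -- J² = ±1
  have hJJ : (Jm (ea 1 F)).1 * (Jm (ea 1 F)).1 = 1 := by
    have hJ : ∀ r t : Fin 4, (Jm (ea 1 F)).1 r t = if t = Fin.rev r then 1 else 0 := by
      intro r t
      rw [Jm_coe, Jf_apply]
      have := ea2 h2 r
      split_ifs
      · exact this
      · rfl
    ext r t
    rw [Matrix.mul_apply, Finset.sum_eq_single (Fin.rev r : Fin 4)]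
    · rw [hJ, hJ, if_pos rfl, one_mul, Fin.rev_rev, Matrix.one_apply]
      by_cases h : r = t
      · rw [if_pos h.symm, if_pos h]
      · rw [if_neg (Ne.symm h), if_neg h]
    · intro b _ hb
      rw [hJ, if_neg hb, zero_mul]
    · intro h; exact absurd (Finset.mem_univ _) h
  generalize (Jm (ea 1 F)).1 = J at *
  have h1 : s.1 * (J * s.1.transpose * J) = 1 := by
    rw [← mul_assoc, ← mul_assoc, hs, hJJ]
  have h3 : (J * s.1.transpose * J) * s.1 = 1 := mul_eq_one_comm.1 h1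
  calc s.1.transpose * J * s.1 = (J * J) * (s.1.transpose * J * s.1) := by rw [hJJ, one_mul]
    _ = J * ((J * s.1.transpose * J) * s.1) := by simp only [mul_assoc]
    _ = J := by rw [h3]; exact Matrix.mul_one J

theorem rc_of (h2 : (2 : F) = 0) {s : SpecialLinearGroup (Fin (2 * 1 + 1 + 1)) F} (hs : s ∈ Gr (id1 F) (ea 1 F)) : Rc s.1 := by
  intro c d
  have := rr_of h2 (tr_mem h2 hs) c d
  rw [← this]
  simp only [mi]
  show _ = s.1 0 c * s.1 3 d - s.1 3 c * s.1 0 d + (s.1 1 c * s.1 2 d - s.1 2 c * s.1 1 d)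
  ring

theorem det_Gm (h2 : (2 : F) = 0) {s : SpecialLinearGroup (Fin (2 * 1 + 1 + 1)) F} (hs : s ∈ Gr (id1 F) (ea 1 F)) :
    (Gm s.1).det = 1 := by
  have h1 : (Gm s.1) * (Matrix.of fun r t : Fin 4 => if t = Fin.rev r then (1 : F) else 0) * (Gm s.1).transpose =
      Matrix.of fun r t : Fin 4 => if t = Fin.rev r then (1 : F) else 0 := by
    ext r t
    have := Gm_rel h2 (rr_of h2 hs) r t
    rw [Matrix.of_apply, ← this]
    simp only [Matrix.mul_apply, Fin.sum_univ_four, Matrix.of_apply, Matrix.transpose_apply]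
    simp [Fin.rev]
    ring
  have hdet : (Matrix.of fun r t : Fin 4 => if t = Fin.rev r then (1 : F) else 0).det ≠ 0 := by
    have hJJ : (Matrix.of fun r t : Fin 4 => if t = Fin.rev r then (1 : F) else 0) * (Matrix.of fun r t : Fin 4 => if t = Fin.rev r then (1 : F) else 0) = 1 := by
      ext r t
      simp only [Matrix.mul_apply, Fin.sum_univ_four, Matrix.of_apply]
      fin_cases r <;> fin_cases t <;> simp [Fin.rev]
    intro h0
    have := congrArg Matrix.det hJJ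
    rw [Matrix.det_mul, h0, zero_mul, Matrix.det_one] at this
    exact zero_ne_one this
  have h3 := congrArg Matrix.det h1
  rw [Matrix.det_mul, Matrix.det_mul, Matrix.det_transpose] at h3
  have h4 : (Gm s.1).det * (Gm s.1).det = 1 := by
    apply mul_right_cancel₀ hdet
    rw [one_mul]
    linear_combination h3
  have h5 : ((Gm s.1).det - 1) ^ 2 = 0 := by linear_combination h4 + (1 - (Gm s.1).det) * h2
  have h6 := pow_eq_zero_iff (two_ne_zero) |>.1 h5
  exact sub_eq_zero.1 h6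

/-- the exceptional endomorphism -/
noncomputable def gamH (h2 : (2 : F) = 0) : Gr (id1 F) (ea 1 F) →* Gr (id1 F) (ea 1 F) where
  toFun s := ⟨(⟨Gm s.1.1, det_Gm h2 s.2⟩ : SpecialLinearGroup (Fin (2 * 1 + 1 + 1)) F), (mem4 h2 _).2 (fun r t => Gm_rel h2 (rr_of h2 s.2) r t)⟩
  map_one' := by
    apply Subtype.ext; apply Subtype.ext
    exact Gm_one
  map_mul' s t := by
    apply Subtype.ext; apply Subtype.ext
    exact Gm_mul h2 (rr_of h2 s.2) (rc_of h2 t.2)

theorem gamH_coe (h2 : (2 : F) = 0) (s : Gr (id1 F) (ea 1 F)) : (gamH h2 s).1.1 = Gm s.1.1 := rfl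

theorem gamH_gamH (h2 : (2 : F) = 0) (s : Gr (id1 F) (ea 1 F)) (a b : Fin 4) : (gamH h2 (gamH h2 s)).1.1 a b = s.1.1 a b ^ 2 :=
  Gm_Gm h2 (rr_of h2 s.2) a b

theorem gamH_inj (h2 : (2 : F) = 0) : Function.Injective (gamH (F := F) h2) := by
  intro s t h
  apply Subtype.ext; apply Subtype.ext
  ext a b
  have h1 := gamH_gamH h2 s a b
  have h3 := gamH_gamH h2 t a b
  rw [h] at h1
  have h4 : s.1.1 a b ^ 2 = t.1.1 a b ^ 2 := h1.symm.trans h3
  have h5 : (s.1.1 a b - t.1.1 a b) ^ 2 = 0 := by linear_combination h4 + (t.1.1 a b * t.1.1 a b - s.1.1 a b * t.1.1 a b) * h2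
  exact sub_eq_zero.1 (pow_eq_zero_iff (two_ne_zero) |>.1 h5)

/-- the exceptional automorphism -/
noncomputable def gam [Finite F] (h2 : (2 : F) = 0) : MulAut (Gr (id1 F) (ea 1 F)) :=
  MulEquiv.ofBijective (gamH h2) (Finite.injective_iff_bijective.1 (gamH_inj h2))

end Cfsg.Agent.H8.Sp4G
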