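import Mathlib
import Cfsg.Agent.H8.Sp4H

set_option autoImplicit false
set_option linter.all false

/-! The exceptional automorphism of `Sp_4(2^f)`: action on root elements. -/

namespace Cfsg.Agent.H8.Sp4G

open scoped commutatorElement
open Matrix Pointwise Cfsg.Agent.H8.AutBN Cfsg.Agent.H8.SLPat Cfsg.Agent.H8.SLTri Cfsg.Agent.H8.SLData
  Cfsg.Agent.H8.Theta Cfsg.Agent.H8.GrComb Cfsg.Agent.H8.GrData Cfsg.Agent.H8.GrShort Cfsg.Agent.H8.GrPi
  Cfsg.Agent.H8.GrStd Cfsg.Agent.H8.GrEven Cfsg.Agent.H8.SpTrans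

variable {F : Type*} [Field F]

/-- explicit root matrices -/
def Mx (t : F) : Matrix (Fin 4) (Fin 4) F := !![1, t, 0, 0; 0, 1, 0, 0; 0, 0, 1, t; 0, 0, 0, 1]
def My (t : F) : Matrix (Fin 4) (Fin 4) F := !![1, 0, 0, 0; t, 1, 0, 0; 0, 0, 1, 0; 0, 0, t, 1]
def Nx (t : F) : Matrix (Fin 4) (Fin 4) F := !![1, 0, 0, 0; 0, 1, t, 0; 0, 0, 1, 0; 0, 0, 0, 1]
def Ny (t : F) : Matrix (Fin 4) (Fin 4) F := !![1, 0, 0, 0; 0, 1, 0, 0; 0, t, 1, 0; 0, 0, 0, 1]

theorem Gm_Mx (t : F) : Gm (Mx t) = Nx (t ^ 2) := by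
  ext r c
  fin_cases r <;> fin_cases c <;> simp [Gm_apply, mi, P1, P2, Mx, Nx, pow_two]
theorem Gm_My (t : F) : Gm (My t) = Ny (t ^ 2) := by
  ext r c
  fin_cases r <;> fin_cases c <;> simp [Gm_apply, mi, P1, P2, My, Ny, pow_two]
theorem Gm_Nx (t : F) : Gm (Nx t) = Mx t := by
  ext r c
  fin_cases r <;> fin_cases c <;> simp [Gm_apply, mi, P1, P2, Mx, Nx]
theorem Gm_Ny (t : F) : Gm (Ny t) = My t := by
  ext r c
  fin_cases r <;> fin_cases c <;> simp [Gm_apply, mi, P1, P2, My, Ny]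

theorem h01 : ((0 : Fin (1 + 1)) : ℕ) < 1 := by decide

theorem neg2 (h2 : (2 : F) = 0) (t : F) : -t = t := by linear_combination - t * h2

variable [Finite F]

theorem xs_coe (h2 : (2 : F) = 0) (t : F) (r c : Fin 4) : (xs (id1 F) hid1 h01 t : Gr (id1 F) (ea 1 F)).1.1 r c = Mx t r c := by
  have e := RT_apply (gp (0 : Fin (1 + 1)) h01) (id1 F) t r c
  have hm : -(id1 F) t = t := neg2 h2 t
  rw [hm] at e
  refine Eq.trans e ?_
  fin_cases r <;> fin_cases c <;> simp [Mx, pa, pb, Fin.rev, Fin.ext_iff]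

theorem ys_coe (h2 : (2 : F) = 0) (t : F) (r c : Fin 4) : (ys (id1 F) hid1 h01 t : Gr (id1 F) (ea 1 F)).1.1 r c = My t r c := by
  have e := RT_apply (gp (0 : Fin (1 + 1)) h01).symm (id1 F) t r c
  have hm : -(id1 F) t = t := neg2 h2 t
  rw [hm] at e
  refine Eq.trans e ?_
  fin_cases r <;> fin_cases c <;> simp [My, pa, pb, Fin.rev, Fin.ext_iff]

/-- the fixed field is everything -/
def toL (t : F) : L (id1 F) := ⟨t, rfl⟩

theorem xl_coe (t : L (id1 F)) (r c : Fin 4) : (xl (k := 1) (id1 F) t : Gr (id1 F) (ea 1 F)).1.1 r c = Nx t.1 r c := by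
  refine Eq.trans (transvection_apply (pab (il 1)) t.1 r c) ?_
  fin_cases r <;> fin_cases c <;> simp [Nx, pa, pb, il, Fin.ext_iff]

theorem yl_coe (t : L (id1 F)) (r c : Fin 4) : (yl (k := 1) (id1 F) t : Gr (id1 F) (ea 1 F)).1.1 r c = Ny t.1 r c := by
  refine Eq.trans (transvection_apply (pab (il 1)).symm t.1 r c) ?_
  fin_cases r <;> fin_cases c <;> simp [Ny, pa, pb, il, Fin.ext_iff]

theorem Gr_ext {s t : Gr (id1 F) (ea 1 F)} (h : ∀ r c : Fin 4, s.1.1 r c = t.1.1 r c) : s = t := by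
  apply Subtype.ext; apply Subtype.ext
  ext r c
  exact h r c

theorem gam_xs (h2 : (2 : F) = 0) (t : F) : gam h2 (xs (id1 F) hid1 h01 t) = xl (k := 1) (id1 F) (toL (t ^ 2)) := by
  apply Gr_ext
  intro r c
  rw [xl_coe]
  show Gm _ r c = _
  have e : ((xs (id1 F) hid1 h01 t : Gr (id1 F) (ea 1 F)).1.1 : Matrix (Fin 4) (Fin 4) F) = Mx t := by
    ext a b; exact xs_coe h2 t a b
  rw [e, Gm_Mx]; rfl

theorem gam_ys (h2 : (2 : F) = 0) (t : F) : gam h2 (ys (id1 F) hid1 h01 t) = yl (k := 1) (id1 F) (toL (t ^ 2)) := by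
  apply Gr_ext
  intro r c
  rw [yl_coe]
  show Gm _ r c = _
  have e : ((ys (id1 F) hid1 h01 t : Gr (id1 F) (ea 1 F)).1.1 : Matrix (Fin 4) (Fin 4) F) = My t := by
    ext a b; exact ys_coe h2 t a b
  rw [e, Gm_My]; rfl

theorem gam_xl (h2 : (2 : F) = 0) (t : L (id1 F)) : gam h2 (xl (k := 1) (id1 F) t) = xs (id1 F) hid1 h01 t.1 := by
  apply Gr_ext
  intro r c
  rw [xs_coe h2]
  show Gm _ r c = _
  have e : ((xl (k := 1) (id1 F) t : Gr (id1 F) (ea 1 F)).1.1 : Matrix (Fin 4) (Fin 4) F) = Nx t.1 := by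
    ext a b; exact xl_coe t a b
  rw [e, Gm_Nx]

theorem gam_yl (h2 : (2 : F) = 0) (t : L (id1 F)) : gam h2 (yl (k := 1) (id1 F) t) = ys (id1 F) hid1 h01 t.1 := by
  apply Gr_ext
  intro r c
  rw [ys_coe h2]
  show Gm _ r c = _
  have e : ((yl (k := 1) (id1 F) t : Gr (id1 F) (ea 1 F)).1.1 : Matrix (Fin 4) (Fin 4) F) = Ny t.1 := by
    ext a b; exact yl_coe t a b
  rw [e, Gm_Ny]

theorem exists_sqrt (h2 : (2 : F) = 0) (t : F) : ∃ s : F, s ^ 2 = t := by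
  obtain ⟨p, hp⟩ := CharP.exists F
  have hp2 : p = 2 := by
    have h1 : p ∣ 2 := (CharP.cast_eq_zero_iff F p 2).1 (by exact_mod_cast h2)
    have h3 : p.Prime := CharP.char_is_prime F p
    exact (Nat.prime_dvd_prime_iff_eq h3 Nat.prime_two).1 h1
  subst hp2
  exact (bijective_frobenius F 2).2 t

/-- the exceptional automorphism swaps the root groups -/
theorem gam_X (h2 : (2 : F) = 0) (p : ℕ) [Fact p.Prime] [CharP F p] (i : Fin (1 + 1)) :
    iq 1 (id1 F) hid1 (gam h2) • (qd (IP 1 (id1 F) hid1) p).X i = (qd (IP 1 (id1 F) hid1) p).X (Equiv.swap 0 1 i) := by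
  have h0 : ∀ i : Fin (1 + 1), (i : ℕ) < 1 → i = 0 := by intro i hi; ext; show (i : ℕ) = 0; omega
  apply le_antisymm
  · rintro _ ⟨u, hu, rfl⟩
    obtain ⟨x, hx, rfl⟩ := (mem_qX _ p i u).1 hu
    rw [mem_qX]
    rcases il_or i with hi | rfl
    · obtain ⟨t, rfl⟩ := form_short (id1 F) hid1 hi hx
      have := h0 i hi
      subst this
      refine ⟨xl (k := 1) (id1 F) (toL (t ^ 2)), xl_pu (id1 F) hid1 _, ?_⟩
      show q 1 (id1 F) hid1 (gam h2 (xs (id1 F) hid1 h01 t)) = _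
      rw [gam_xs]; rfl
    · obtain ⟨t, rfl⟩ := form_long (id1 F) hid1 hx
      refine ⟨xs (id1 F) hid1 h01 t.1, xs_pu (id1 F) hid1 h01 _, ?_⟩
      show q 1 (id1 F) hid1 (gam h2 (xl (k := 1) (id1 F) t)) = _
      rw [gam_xl]; rfl
  · intro u hu
    obtain ⟨x, hx, rfl⟩ := (mem_qX _ p _ u).1 hu
    rcases il_or i with hi | rfl
    · have := h0 i hi
      subst this
      obtain ⟨t, rfl⟩ := form_long (id1 F) hid1 (k := 1) hx
      obtain ⟨s, hs⟩ := exists_sqrt h2 t.1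
      refine ⟨q 1 (id1 F) hid1 (xs (id1 F) hid1 h01 s), (mem_qX _ p 0 _).2 ⟨_, xs_pu (id1 F) hid1 h01 s, rfl⟩, ?_⟩
      show q 1 (id1 F) hid1 (gam h2 (xs (id1 F) hid1 h01 s)) = _
      rw [gam_xs]
      have : toL (s ^ 2) = t := Subtype.ext hs
      rw [this]; rfl
    · obtain ⟨t, rfl⟩ := form_short (id1 F) hid1 (k := 1) h01 hx
      refine ⟨q 1 (id1 F) hid1 (xl (k := 1) (id1 F) (toL t)), (mem_qX _ p _ _).2 ⟨_, xl_pu (id1 F) hid1 _, rfl⟩, ?_⟩
      show q 1 (id1 F) hid1 (gam h2 (xl (k := 1) (id1 F) (toL t))) = _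
      rw [gam_xl]; rfl

theorem gam_Y (h2 : (2 : F) = 0) (p : ℕ) [Fact p.Prime] [CharP F p] (i : Fin (1 + 1)) :
    iq 1 (id1 F) hid1 (gam h2) • (qd (IP 1 (id1 F) hid1) p).Y i = (qd (IP 1 (id1 F) hid1) p).Y (Equiv.swap 0 1 i) := by
  have h0 : ∀ i : Fin (1 + 1), (i : ℕ) < 1 → i = 0 := by intro i hi; ext; show (i : ℕ) = 0; omega
  apply le_antisymm
  · rintro _ ⟨u, hu, rfl⟩
    obtain ⟨x, hx, rfl⟩ := (mem_qY _ p i u).1 hu
    rw [mem_qY]
    rcases il_or i with hi | rfl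
    · obtain ⟨t, rfl⟩ := form_short' (id1 F) hid1 hi hx
      have := h0 i hi
      subst this
      refine ⟨yl (k := 1) (id1 F) (toL (t ^ 2)), yl_pu (id1 F) hid1 _, ?_⟩
      show q 1 (id1 F) hid1 (gam h2 (ys (id1 F) hid1 h01 t)) = _
      rw [gam_ys]; rfl
    · obtain ⟨t, rfl⟩ := form_long' (id1 F) hid1 hx
      refine ⟨ys (id1 F) hid1 h01 t.1, ys_pu (id1 F) hid1 h01 _, ?_⟩
      show q 1 (id1 F) hid1 (gam h2 (yl (k := 1) (id1 F) t)) = _
      rw [gam_yl]; rfl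
  · intro u hu
    obtain ⟨x, hx, rfl⟩ := (mem_qY _ p _ u).1 hu
    rcases il_or i with hi | rfl
    · have := h0 i hi
      subst this
      obtain ⟨t, rfl⟩ := form_long' (id1 F) hid1 (k := 1) hx
      obtain ⟨s, hs⟩ := exists_sqrt h2 t.1
      refine ⟨q 1 (id1 F) hid1 (ys (id1 F) hid1 h01 s), (mem_qY _ p 0 _).2 ⟨_, ys_pu (id1 F) hid1 h01 s, rfl⟩, ?_⟩
      show q 1 (id1 F) hid1 (gam h2 (ys (id1 F) hid1 h01 s)) = _
      rw [gam_ys]
      have : toL (s ^ 2) = t := Subtype.ext hs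
      rw [this]; rfl
    · obtain ⟨t, rfl⟩ := form_short' (id1 F) hid1 (k := 1) h01 hx
      refine ⟨q 1 (id1 F) hid1 (yl (k := 1) (id1 F) (toL t)), (mem_qY _ p _ _).2 ⟨_, yl_pu (id1 F) hid1 _, rfl⟩, ?_⟩
      show q 1 (id1 F) hid1 (gam h2 (yl (k := 1) (id1 F) (toL t))) = _
      rw [gam_yl]; rfl

/-- all automorphisms of `PSp_4(2^f)`, in the standard form -/
theorem main5 (h2 : (2 : F) = 0) (α : MulAut (QG (IP 1 (id1 F) hid1))) :
    ∃ (g : GL (Fin (2 * 1 + 1 + 1)) F) (hg : g ∈ GJ (id1 F) (Jm (ea 1 F)).1) (σ : F ≃+* F),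
      α = iq 1 (id1 F) hid1 (cgK (id1 F) g hg * flK (id1 F) σ) ∨
      iq 1 (id1 F) hid1 (gam h2) * α = iq 1 (id1 F) hid1 (cgK (id1 F) g hg * flK (id1 F) σ) := by
  obtain ⟨p, hp⟩ := CharP.exists F
  haveI : Fact p.Prime := ⟨CharP.char_is_prime F p⟩
  obtain ⟨g, π, hX, hY, _⟩ := norm (IP 1 (id1 F) hid1) p α
  have h01' : ∀ i : Fin 2, i = 0 ∨ i = 1 := by decide
  have hπ : π = 1 ∨ π = Equiv.swap 0 1 := by
    rcases h01' (π 0) with h | h
    · left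
      have h1 : π 1 = 1 := by
        rcases h01' (π 1) with h' | h'
        · exact absurd (π.injective (h.trans h'.symm)) (by decide)
        · exact h'
      ext i
      rcases h01' i with rfl | rfl
      · rw [h]; rfl
      · rw [h1]; rfl
    · right
      have h1 : π 1 = 0 := by
        rcases h01' (π 1) with h' | h'
        · exact h'
        · exact absurd (π.injective (h.trans h'.symm)) (by decide)
      ext i
      rcases h01' i with rfl | rfl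
      · rw [h, Equiv.swap_apply_left]
      · rw [h1, Equiv.swap_apply_right]
  rcases hπ with rfl | rfl
  · obtain ⟨d, hd, σ, e⟩ := main2 (id1 F) hid1 (by omega) α p g hX hY
    exact ⟨d, hd, σ, Or.inl e⟩
  · have e1 : c (Q (IP 1 (id1 F) hid1) (gam h2 g)) * (iq 1 (id1 F) hid1 (gam h2) * α) = iq 1 (id1 F) hid1 (gam h2) * (c (Q (IP 1 (id1 F) hid1) g) * α) := by
      ext x
      show Q (IP 1 (id1 F) hid1) (gam h2 g) * (iq 1 (id1 F) hid1 (gam h2) (α x)) * (Q (IP 1 (id1 F) hid1) (gam h2 g))⁻¹ =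
        iq 1 (id1 F) hid1 (gam h2) (Q (IP 1 (id1 F) hid1) g * α x * (Q (IP 1 (id1 F) hid1) g)⁻¹)
      rw [map_mul, map_mul, map_inv]
      rfl
    obtain ⟨d, hd, σ, e⟩ := main2 (id1 F) hid1 (by omega) (iq 1 (id1 F) hid1 (gam h2) * α) p (gam h2 g)
      (by intro i; rw [e1, mul_smul, hX, gam_X h2, Equiv.swap_apply_self])
      (by intro i; rw [e1, mul_smul, hY, gam_Y h2, Equiv.swap_apply_self])
    exact ⟨d, hd, σ, Or.inr e⟩

end Cfsg.Agent.H8.Sp4G
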