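import Mathlib
import Cfsg.Agent.Lib.AutSp1
import Cfsg.Agent.Lib.Alt
import Cfsg.Agent.H8.SimAbs

set_option autoImplicit false
set_option linter.all false

/-! Similitudes and field automorphisms on `PSp`: kernel, inner-diagonal group, Hilbert 90. -/

namespace Cfsg.Agent.H8.SpAut

open Matrix Cfsg.Agent.Lib.Symp Cfsg.Agent.Lib.AutPSL Cfsg.Agent.Lib.AutSp Cfsg.Agent.Lib

variable {m : ℕ} {F : Type*} [Field F]

local notation "VV" => (Fin m ⊕ Fin m → F)
local notation "MM" => Matrix (Fin m ⊕ Fin m) (Fin m ⊕ Fin m) F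
local notation "SP" => Matrix.symplecticGroup (Fin m) F
local notation "PSP" => Cfsg.PSp m F
local notation "BB" => Cfsg.sympForm m F
local notation "GG" => (Cfsg.GSp m F)

/-- the matrix of a similitude -/
abbrev gm (g : GG) : MM := ((g : GL (Fin m ⊕ Fin m) F) : MM)

theorem act_mk_tr (g : GG) (σ : F ≃+* F) {c : F} (hc : c ≠ 0)
    (h : ∀ u v, BB (gm g *ᵥ u) (gm g *ᵥ v) = c * BB u v) (u : VV) (a : F) :
    (AutSp.delta g * AutSp.psi σ : MulAut PSP) (AutSp.mk (tr u a)) = AutSp.mk (tr (gm g *ᵥ (fun i => σ (u i))) (c⁻¹ * σ a)) := by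
  show AutSp.mk (cjS g (faS σ (tr u a))) = _
  rw [faS_tr, cjS_tr g hc h]

theorem gm_ne_zero (g : GG) {x : VV} (hx : x ≠ 0) : gm g *ᵥ x ≠ 0 := by
  intro h
  apply hx
  rw [← gl_inv_mulVec (g : GL (Fin m ⊕ Fin m) F) x]
  show _ *ᵥ (gm g *ᵥ x) = 0
  rw [h, Matrix.mulVec_zero]

theorem kernel_par (g : GG) (σ : F ≃+* F) (h : (AutSp.delta g * AutSp.psi σ : MulAut PSP) = 1) (u : VV) (hu : u ≠ 0) :
    ∃ a : F, gm g *ᵥ (fun i => σ (u i)) = a • u := by
  obtain ⟨c, hc⟩ := AutSp.mem_GSp.mp g.2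
  have h1 := act_mk_tr g σ c.ne_zero hc u 1
  rw [h] at h1
  have h2 := mk_tr_inj h1
  refine exists_smul_of_tr_eq ?_ (gm_ne_zero g ?_) h2.symm
  · rw [map_one, mul_one]; exact inv_ne_zero c.ne_zero
  · intro h0
    apply hu
    funext i
    have := congrFun h0 i
    simpa using this

theorem kernel_gen (hm : 1 ≤ m) (K : Subfield F) (g : GG) (σ : F ≃+* F)
    (hk : ∀ u : VV, (∀ i, u i ∈ K) → u ≠ 0 → ∃ a : F, gm g *ᵥ (fun i => σ (u i)) = a • u) :
    (∀ t ∈ K, σ t = t) ∧ ∃ c : F, gm g = c • 1 := by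
  have hs : ∀ i : Fin m ⊕ Fin m, (fun j => σ ((Pi.single i (1 : F) : VV) j)) = (Pi.single i 1 : VV) := by
    intro i; funext j
    by_cases hij : j = i
    · subst hij; simp
    · simp [Pi.single_eq_of_ne hij]
  have hsK : ∀ (i : Fin m ⊕ Fin m) (t : F), t ∈ K → ∀ j, (Pi.single i t : VV) j ∈ K := by
    intro i t ht j
    by_cases hij : j = i
    · subst hij; rw [Pi.single_eq_same]; exact ht
    · rw [Pi.single_eq_of_ne hij]; exact K.zero_mem
  have hne : ∀ i : Fin m ⊕ Fin m, (Pi.single i (1 : F) : VV) ≠ 0 := fun i => by simp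
  have hcol : ∀ i, ∃ a : F, gm g *ᵥ Pi.single i 1 = a • (Pi.single i 1 : VV) := by
    intro i
    have := hk _ (hsK i 1 K.one_mem) (hne i)
    rwa [hs] at this
  choose a ha using hcol
  have hab : ∀ i j, a i = a j := by
    intro i j
    by_cases hij : i = j
    · rw [hij]
    have hsum : (Pi.single i (1 : F) + Pi.single j (1 : F) : VV) ≠ 0 := by
      intro h0
      have := congrFun h0 i
      simp [Pi.single_apply, hij] at this
    obtain ⟨b, hb⟩ := hk _ (fun k => by rw [Pi.add_apply]; exact K.add_mem (hsK i 1 K.one_mem k) (hsK j 1 K.one_mem k)) hsum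
    have e0 : (fun k => σ ((Pi.single i (1 : F) + Pi.single j (1 : F) : VV) k)) = (Pi.single i 1 + Pi.single j 1 : VV) := by
      funext k
      have h1 : σ ((Pi.single i (1 : F) : VV) k) = (Pi.single i 1 : VV) k := congrFun (hs i) k
      have h2 : σ ((Pi.single j (1 : F) : VV) k) = (Pi.single j 1 : VV) k := congrFun (hs j) k
      rw [Pi.add_apply, map_add, h1, h2]
    rw [e0, Matrix.mulVec_add, ha, ha] at hb
    have e1 := congrFun hb i
    have e2 := congrFun hb j
    simp [Pi.single_apply, hij, Ne.symm hij] at e1 e2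
    rw [e1, e2]
  have i0 : Fin m := ⟨0, hm⟩
  have hg : gm g = a (Sum.inl i0) • (1 : MM) := by
    apply Symp.ext_mulVec
    intro x
    have hx : x = ∑ i, x i • (Pi.single i (1 : F) : VV) := by
      ext j
      simp [Finset.sum_apply, Pi.single_apply]
    conv_lhs => rw [hx]
    rw [Matrix.mulVec_sum, Matrix.smul_mulVec, Matrix.one_mulVec]
    simp only [Matrix.mulVec_smul, ha]
    ext j
    simp [Finset.sum_apply, Pi.single_apply, hab j (Sum.inl i0), mul_comm]
  refine ⟨?_, _, hg⟩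
  intro t ht
  have hne2 : a (Sum.inl i0) ≠ 0 := by
    intro h0
    have := gm_ne_zero g (hne (Sum.inl i0))
    rw [ha, h0, zero_smul] at this
    exact this rfl
  have hij : (Sum.inl i0 : Fin m ⊕ Fin m) ≠ Sum.inr i0 := Sum.inl_ne_inr
  have hsum : (Pi.single (Sum.inl i0) (1 : F) + Pi.single (Sum.inr i0) t : VV) ≠ 0 := by
    intro h0
    have := congrFun h0 (Sum.inl i0)
    simp [Pi.single_apply] at this
  obtain ⟨b, hb⟩ := hk _ (fun k => by rw [Pi.add_apply]; exact K.add_mem (hsK _ 1 K.one_mem k) (hsK _ t ht k)) hsum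
  rw [hg, Matrix.smul_mulVec, Matrix.one_mulVec] at hb
  have e1 := congrFun hb (Sum.inl i0)
  have e2 := congrFun hb (Sum.inr i0)
  simp [Pi.single_apply] at e1 e2
  rw [← e1] at e2
  exact mul_left_cancel₀ hne2 e2

theorem kernel (hm : 1 ≤ m) (g : GG) (σ : F ≃+* F) (h : (AutSp.delta g * AutSp.psi σ : MulAut PSP) = 1) :
    σ = 1 ∧ ∃ c : F, gm g = c • 1 := by
  obtain ⟨h1, h2⟩ := kernel_gen hm ⊤ g σ (fun u _ hu => kernel_par g σ h u hu)
  refine ⟨?_, h2⟩
  ext t
  exact h1 t trivial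

theorem delta_eq_one_of_scalar (g : GG) {c : F} (h : gm g = c • 1) : (AutSp.delta g : MulAut PSP) = 1 := by
  have : cjS g = 1 := by
    ext1 s
    apply Subtype.ext
    rw [cjS_coe]
    show gm g * (s : MM) * _ = _
    have h1 : gm g * (s : MM) = (s : MM) * gm g := by rw [h, smul_mul_assoc, mul_smul_comm, one_mul, mul_one]
    rw [h1, mul_assoc]
    show (s : MM) * (((g : GL (Fin m ⊕ Fin m) F) : MM) * (((g : GL (Fin m ⊕ Fin m) F)⁻¹ : GL (Fin m ⊕ Fin m) F) : MM)) = _
    rw [← Units.val_mul, mul_inv_cancel, Units.val_one, mul_one]; rfl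
  rw [AutSp.delta_apply, this, map_one]

theorem delta_eq_one_iff (hm : 1 ≤ m) (g : GG) : (AutSp.delta g : MulAut PSP) = 1 ↔ ∃ c : F, gm g = c • 1 := by
  constructor
  · intro h
    exact (kernel hm g 1 (by rw [map_one, mul_one, h])).2
  · rintro ⟨c, h⟩
    exact delta_eq_one_of_scalar g h

theorem psi_inj (hm : 1 ≤ m) : Function.Injective (AutSp.psi : (F ≃+* F) →* MulAut PSP) := by
  rw [injective_iff_map_eq_one]
  intro σ h
  exact (kernel hm 1 σ (by rw [map_one, one_mul, h])).1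

theorem scalar_ne_zero (hm : 1 ≤ m) {g : GG} {c : F} (h : gm g = c • 1) : c ≠ 0 := by
  rintro rfl
  have i0 : Fin m := ⟨0, hm⟩
  have := gm_ne_zero g (x := Pi.single (Sum.inl i0) 1) (by simp)
  rw [h, zero_smul, Matrix.zero_mulVec] at this
  exact this rfl

theorem delta_eq_iff (hm : 1 ≤ m) (g h : GG) : (AutSp.delta g : MulAut PSP) = AutSp.delta h ↔ ∃ c : F, gm h = c • gm g := by
  rw [eq_comm, ← mul_inv_eq_one, ← map_inv, ← map_mul, delta_eq_one_iff hm]
  constructor
  · rintro ⟨c, hc⟩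
    refine ⟨c, ?_⟩
    have : h = (h * g⁻¹) * g := by group
    have e : gm h = gm (h * g⁻¹) * gm g := by conv_lhs => rw [this]
                                              rfl
    rw [e, hc, Matrix.smul_mul, Matrix.one_mul]
  · rintro ⟨c, hc⟩
    refine ⟨c, ?_⟩
    have e : gm (h * g⁻¹) = gm h * gm g⁻¹ := rfl
    rw [e, hc, Matrix.smul_mul]
    congr 1
    show ((g : GL (Fin m ⊕ Fin m) F) : MM) * (((g : GL (Fin m ⊕ Fin m) F)⁻¹ : GL (Fin m ⊕ Fin m) F) : MM) = 1
    rw [← Units.val_mul, mul_inv_cancel, Units.val_one]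

theorem isInnerDiagonal_iff (β : MulAut PSP) : Cfsg.IsInnerDiagonalAutPSp β ↔ ∃ g : GG, AutSp.delta g = β := by
  constructor
  · rintro ⟨g, hg, h⟩
    refine ⟨⟨g, hg⟩, ?_⟩
    symm
    rw [AutSp.delta_apply, eq_desc_iff]
    intro s
    apply h
    rfl
  · rintro ⟨g, rfl⟩
    refine ⟨g, g.2, ?_⟩
    intro s s' h
    show QuotientGroup.mk (cjS g s) = QuotientGroup.mk s'
    congr 1
    apply Subtype.ext
    rw [h, cjS_coe]; rfl

theorem inndiag_eq : Cfsg.inndiagPSp m F = (AutSp.delta (m := m) (F := F)).range := by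
  show Subgroup.closure {β : MulAut PSP | Cfsg.IsInnerDiagonalAutPSp β} = _
  have : {β : MulAut PSP | Cfsg.IsInnerDiagonalAutPSp β} = ((AutSp.delta (m := m) (F := F)).range : Set _) := by
    ext β
    rw [Set.mem_setOf_eq, isInnerDiagonal_iff]
    exact Iff.rfl
  rw [this, Subgroup.closure_eq]

theorem isStdField_iff (σ : F ≃+* F) (β : MulAut PSP) : Cfsg.IsStdFieldAutPSp σ β ↔ β = AutSp.psi σ := by
  rw [AutSp.psi_apply, eq_desc_iff]
  constructor
  · intro h s
    apply h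
    rfl
  · intro h s s' hs
    rw [h]
    congr 1
    apply Subtype.ext
    rw [hs]; rfl

/-- symplectic matrices as similitudes -/
def toG : SP →* GG where
  toFun s := ⟨⟨(s : MM), ((s⁻¹ : SP) : MM), by
      have := congrArg Subtype.val (mul_inv_cancel s); exact this, by
      have := congrArg Subtype.val (inv_mul_cancel s); exact this⟩, ⟨1, fun u v => by
      rw [Units.val_one, one_mul]; exact preserves s u v⟩⟩
  map_one' := by apply Subtype.ext; apply Units.ext; rfl
  map_mul' a b := by apply Subtype.ext; apply Units.ext; rfl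

theorem gm_toG (s : SP) : gm (toG s) = (s : MM) := rfl

theorem delta_toG (s : SP) : (AutSp.delta (toG s) : MulAut PSP) = MulAut.conj (AutSp.mk s) := by
  rw [AutSp.delta_apply, eq_comm, eq_desc_iff]
  intro t
  show AutSp.mk s * AutSp.mk t * (AutSp.mk s)⁻¹ = _
  rfl

theorem inn_le : Cfsg.Inn PSP ≤ (AutSp.delta (m := m) (F := F)).range := by
  rintro _ ⟨x, rfl⟩
  obtain ⟨s, rfl⟩ := mk_surj x
  exact ⟨toG s, delta_toG s⟩

/-- the multiplier of a similitude -/
noncomputable def mult (g : GG) : Fˣ := Classical.choose (AutSp.mem_GSp.mp g.2)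

theorem mult_spec (g : GG) (u v : VV) : BB (gm g *ᵥ u) (gm g *ᵥ v) = (mult g : F) * BB u v :=
  Classical.choose_spec (AutSp.mem_GSp.mp g.2) u v

theorem mult_unique (hm : 1 ≤ m) {g : GG} {c : F} (h : ∀ u v, BB (gm g *ᵥ u) (gm g *ᵥ v) = c * BB u v) : (mult g : F) = c := by
  have h1 := h (e ⟨0, hm⟩) (f ⟨0, hm⟩)
  rw [mult_spec, form_e_f, mul_one, mul_one] at h1
  exact h1

/-- the multiplier homomorphism -/
noncomputable def multH (hm : 1 ≤ m) : GG →* Fˣ where
  toFun g := mult g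
  map_one' := by
    apply Units.ext
    apply mult_unique hm
    intro u v
    show BB ((1 : MM) *ᵥ u) ((1 : MM) *ᵥ v) = _
    rw [Matrix.one_mulVec, Matrix.one_mulVec, Units.val_one, one_mul]
  map_mul' g h := by
    apply Units.ext
    apply mult_unique hm
    intro u v
    show BB ((gm g * gm h) *ᵥ u) ((gm g * gm h) *ᵥ v) = _
    rw [← Matrix.mulVec_mulVec, ← Matrix.mulVec_mulVec, mult_spec, mult_spec, Units.val_mul, mul_assoc]

/-- scalar similitudes -/
def scG (c : F) (hc : c ≠ 0) : GG := ⟨⟨c • 1, c⁻¹ • 1, by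
    rw [smul_mul_smul_comm, mul_one, mul_inv_cancel₀ hc, one_smul], by
    rw [smul_mul_smul_comm, mul_one, inv_mul_cancel₀ hc, one_smul]⟩, ⟨Units.mk0 (c ^ 2) (pow_ne_zero 2 hc), fun u v => by
    show BB ((c • (1 : MM)) *ᵥ u) ((c • (1 : MM)) *ᵥ v) = c ^ 2 * BB u v
    rw [Matrix.smul_mulVec, Matrix.smul_mulVec, Matrix.one_mulVec, Matrix.one_mulVec, sympForm_smul_left, sympForm_smul_right]
    ring⟩⟩

theorem gm_scG (c : F) (hc : c ≠ 0) : gm (m := m) (scG c hc) = c • 1 := rfl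

theorem mult_scG (hm : 1 ≤ m) (c : F) (hc : c ≠ 0) : (mult (m := m) (scG c hc) : F) = c ^ 2 := by
  apply mult_unique hm
  intro u v
  rw [gm_scG, Matrix.smul_mulVec, Matrix.smul_mulVec, Matrix.one_mulVec, Matrix.one_mulVec, sympForm_smul_left, sympForm_smul_right]
  ring

theorem delta_scG (c : F) (hc : c ≠ 0) : (AutSp.delta (scG c hc) : MulAut PSP) = 1 := delta_eq_one_of_scalar _ (gm_scG c hc)

theorem exists_toG {g : GG} (h : (mult g : F) = 1) : ∃ s : SP, toG s = g := by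
  have hg : gm g ∈ SP := by
    rw [mem_iff_preserves]
    intro u v
    rw [mult_spec, h, one_mul]
  refine ⟨⟨gm g, hg⟩, ?_⟩
  apply Subtype.ext
  apply Units.ext
  rfl

theorem delta_mem_inn_iff (hm : 1 ≤ m) (g : GG) : (AutSp.delta g : MulAut PSP) ∈ Cfsg.Inn PSP ↔ multH hm g ∈ (powMonoidHom 2 : Fˣ →* Fˣ).range := by
  constructor
  · rintro ⟨x, hx⟩
    obtain ⟨s, rfl⟩ := mk_surj x
    have h1 : (AutSp.delta (toG s) : MulAut PSP) = AutSp.delta g := by rw [delta_toG]; exact hx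
    obtain ⟨c, hc⟩ := (delta_eq_iff hm _ _).1 h1
    rw [gm_toG] at hc
    have h2 : (mult g : F) = c ^ 2 := by
      apply mult_unique hm
      intro u v
      rw [hc, Matrix.smul_mulVec, Matrix.smul_mulVec, sympForm_smul_left, sympForm_smul_right, preserves]
      ring
    have hc0 : c ≠ 0 := by
      rintro rfl
      exact (mult g).ne_zero (by rw [h2]; simp)
    exact ⟨Units.mk0 c hc0, Units.ext h2.symm⟩
  · rintro ⟨c, hc⟩
    have hc' : (mult g : F) = (c : F) ^ 2 := (congrArg Units.val hc).symm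
    obtain ⟨s, hs⟩ := exists_toG (g := scG (c : F)⁻¹ (inv_ne_zero c.ne_zero) * g) (by
      have : mult (scG (c : F)⁻¹ (inv_ne_zero c.ne_zero) * g) = mult (scG (c : F)⁻¹ (inv_ne_zero c.ne_zero)) * mult g := (multH hm).map_mul _ _
      rw [this, Units.val_mul, mult_scG hm, hc']
      have := c.ne_zero
      field_simp)
    have h1 : (AutSp.delta g : MulAut PSP) = AutSp.delta (toG s) := by
      rw [hs, map_mul, delta_scG, one_mul]
    rw [h1, delta_toG]
    exact ⟨AutSp.mk s, rfl⟩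

/-- a similitude with given multiplier -/
noncomputable def dgm (c : F) (hc : c ≠ 0) : GG := ⟨⟨Matrix.fromBlocks (c • 1) 0 0 1, Matrix.fromBlocks (c⁻¹ • 1) 0 0 1, by
    rw [Matrix.fromBlocks_multiply]; simp [smul_smul, mul_inv_cancel₀ hc, inv_mul_cancel₀ hc, Matrix.fromBlocks_one], by
    rw [Matrix.fromBlocks_multiply]; simp [smul_smul, mul_inv_cancel₀ hc, inv_mul_cancel₀ hc, Matrix.fromBlocks_one]⟩, ⟨Units.mk0 c hc, fun u v => by
    show BB ((Matrix.fromBlocks (c • 1) 0 0 1 : MM) *ᵥ u) ((Matrix.fromBlocks (c • 1) 0 0 1 : MM) *ᵥ v) = c * BB u v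
    rw [sympForm_eq, sympForm_eq, Finset.mul_sum]
    apply Finset.sum_congr rfl
    intro i _
    rw [Matrix.fromBlocks_mulVec, Matrix.fromBlocks_mulVec]
    simp [Matrix.smul_mulVec]
    ring⟩⟩

theorem gm_dgm (c : F) (hc : c ≠ 0) : gm (m := m) (dgm c hc) = Matrix.fromBlocks (c • 1) 0 0 1 := rfl

theorem mult_dgm (hm : 1 ≤ m) (c : F) (hc : c ≠ 0) : (mult (m := m) (dgm c hc) : F) = c := by
  apply mult_unique hm
  intro u v
  rw [gm_dgm, sympForm_eq, sympForm_eq, Finset.mul_sum]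
  apply Finset.sum_congr rfl
  intro i _
  rw [Matrix.fromBlocks_mulVec, Matrix.fromBlocks_mulVec]
  simp [Matrix.smul_mulVec]
  ring

theorem multH_surj (hm : 1 ≤ m) : Function.Surjective (multH (F := F) hm) := by
  intro c
  exact ⟨dgm (c : F) c.ne_zero, Units.ext (mult_dgm hm (c : F) c.ne_zero)⟩

theorem mem_ker_multH (hm : 1 ≤ m) (g : GG) : g ∈ (multH (F := F) hm).ker ↔ ∃ s : SP, toG s = g := by
  rw [MonoidHom.mem_ker]
  constructor
  · intro h
    exact exists_toG (congrArg Units.val h)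
  · rintro ⟨s, rfl⟩
    apply Units.ext
    apply mult_unique hm
    intro u v
    rw [gm_toG, preserves, Units.val_one, one_mul]

end Cfsg.Agent.H8.SpAut
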