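import Mathlib
import Cfsg.Agent.H8.SpAut
import Cfsg.Agent.H8.SpTrans

set_option autoImplicit false
set_option linter.all false

/-! Hilbert 90 for symplectic similitudes. -/

namespace Cfsg.Agent.H8.SpAut

open Matrix Cfsg.Agent.Lib.Symp Cfsg.Agent.Lib.AutPSL Cfsg.Agent.Lib.AutSp Cfsg.Agent.Lib

variable {m : ℕ} {F : Type*} [Field F]

local notation "VV" => (Fin m ⊕ Fin m → F)
local notation "MM" => Matrix (Fin m ⊕ Fin m) (Fin m ⊕ Fin m) F
local notation "SP" => Matrix.symplecticGroup (Fin m) F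
local notation "PSP" => Cfsg.PSp m F
local notation "BB" => Cfsg.sympForm m F
local notation "GG" => (Cfsg.GSp m F)

theorem isSquare_of_two [Finite F] (h2 : (2 : F) = 0) (c : Fˣ) : ∃ b : Fˣ, b ^ 2 = c := by
  obtain ⟨p, hp⟩ := CharP.exists F
  have hp2 : p = 2 := by
    have h1 : p ∣ 2 := (CharP.cast_eq_zero_iff F p 2).1 (by exact_mod_cast h2)
    have h3 : p.Prime := CharP.char_is_prime F p
    exact (Nat.prime_dvd_prime_iff_eq h3 Nat.prime_two).1 h1
  subst hp2
  obtain ⟨b, hb⟩ := (bijective_frobenius F 2).2 (c : F)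
  have hb' : b ^ 2 = (c : F) := hb
  have hb0 : b ≠ 0 := by
    rintro rfl
    exact c.ne_zero (by rw [← hb']; simp)
  exact ⟨Units.mk0 b hb0, Units.ext hb'⟩

theorem delta_normal (hm : 2 ≤ m) [Finite F] : ((AutSp.delta (m := m) (F := F)).range).Normal := by
  by_cases h2 : (2 : F) = 0
  · have : (AutSp.delta (m := m) (F := F)).range = Cfsg.Inn PSP := by
      apply le_antisymm
      · rintro _ ⟨g, rfl⟩
        rw [delta_mem_inn_iff (by omega : 1 ≤ m)]
        obtain ⟨b, hb⟩ := isSquare_of_two h2 (multH (by omega : 1 ≤ m) g)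
        exact ⟨b, hb⟩
      · exact inn_le
    rw [this]
    infer_instance
  · constructor
    rintro _ ⟨g, rfl⟩ α
    obtain ⟨k, rfl⟩ : ∃ k, m = k + 1 := ⟨m - 1, by omega⟩
    obtain ⟨g', σ, rfl⟩ := Cfsg.Agent.H8.SpTrans.aut_std (F := F) (show 1 ≤ k by omega) (fun _ => h2) α
    refine ⟨g' * AutSp.faG σ g * g'⁻¹, ?_⟩
    rw [map_mul, map_mul, map_inv]
    calc _ = AutSp.delta g' * (AutSp.delta (AutSp.faG σ g) * AutSp.psi σ) * (AutSp.psi σ)⁻¹ * (AutSp.delta g')⁻¹ := by group
      _ = AutSp.delta g' * (AutSp.psi σ * AutSp.delta g) * (AutSp.psi σ)⁻¹ * (AutSp.delta g')⁻¹ := by rw [AutSp.psi_delta]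
      _ = _ := by group

/-- norms -/
def NS (σ : F ≃+* F) (g : GG) : ℕ → GG
  | 0 => 1
  | k + 1 => g * AutSp.faG σ (NS σ g k)

theorem NS_succ (σ : F ≃+* F) (g : GG) (k : ℕ) : NS σ g (k + 1) = g * AutSp.faG σ (NS σ g k) := rfl

theorem gm_mul (g h : GG) : gm (g * h) = gm g * gm h := rfl
theorem gm_one : gm (1 : GG) = 1 := rfl
theorem gm_faG (σ : F ≃+* F) (g : GG) : gm (AutSp.faG σ g) = (gm g).map σ := rfl

theorem pow_eq (σ : F ≃+* F) (g : GG) (k : ℕ) :
    (AutSp.delta g * AutSp.psi σ : MulAut PSP) ^ k = AutSp.delta (NS σ g k) * AutSp.psi (σ ^ k) := by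
  induction k with
  | zero => rw [pow_zero, pow_zero, map_one, mul_one]; exact (map_one AutSp.delta).symm
  | succ k ih =>
    rw [pow_succ', ih, NS_succ, map_mul, pow_succ' σ, map_mul]
    calc _ = AutSp.delta g * (AutSp.psi σ * AutSp.delta (NS σ g k)) * AutSp.psi (σ ^ k) := by group
      _ = _ := by rw [AutSp.psi_delta]; group

theorem NS_comm (σ : F ≃+* F) (g : GG) (k : ℕ) : NS σ g (k + 1) = NS σ g k * AutSp.faG (σ ^ k) g := by
  induction k with
  | zero =>
    rw [NS_succ]
    show g * AutSp.faG σ 1 = 1 * AutSp.faG 1 g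
    rw [map_one, one_mul, mul_one]
    apply Subtype.ext; apply Units.ext
    show gm g = (gm g).map (1 : F ≃+* F)
    ext i j; rfl
  | succ k ih =>
    rw [NS_succ, ih, map_mul, ← mul_assoc, ← NS_succ]
    congr 1
    apply Subtype.ext; apply Units.ext
    show ((gm g).map (σ ^ k)).map σ = (gm g).map (σ ^ (k + 1))
    rw [pow_succ']
    ext i j; rfl

theorem NS_smul (σ : F ≃+* F) (b : F) (hb : b ≠ 0) (g : GG) (k : ℕ) :
    gm (NS σ (scG b hb * g) k) = FinGal.nm σ b k • gm (NS σ g k) := by
  induction k with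
  | zero => show (1 : MM) = (1 : F) • 1; rw [one_smul]
  | succ k ih =>
    rw [NS_succ, NS_succ, gm_mul, gm_faG, ih, gm_mul, gm_mul, gm_scG, gm_faG, FinGal.nm_succ]
    have : (FinGal.nm σ b k • gm (NS σ g k)).map σ = σ (FinGal.nm σ b k) • (gm (NS σ g k)).map σ := by
      ext i j
      show σ (FinGal.nm σ b k * gm (NS σ g k) i j) = σ (FinGal.nm σ b k) * σ (gm (NS σ g k) i j)
      rw [map_mul]
    rw [this, smul_mul_assoc, one_mul, smul_mul_assoc, mul_smul_comm, smul_smul]

theorem mult_faG (hm : 1 ≤ m) (σ : F ≃+* F) (g : GG) : (mult (AutSp.faG σ g) : F) = σ (mult g) := by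
  apply mult_unique hm
  intro u v
  rw [gm_faG, map_mulVec_sigma', map_mulVec_sigma', form_sigma, mult_spec, map_mul, ← form_sigma]
  congr 2 <;> (funext i; exact RingEquiv.apply_symm_apply σ _)

theorem mult_NS (hm : 1 ≤ m) (σ : F ≃+* F) (g : GG) (k : ℕ) : (mult (NS σ g k) : F) = FinGal.nm σ (mult g) k := by
  induction k with
  | zero =>
    show (multH hm (1 : GG) : F) = 1
    rw [map_one]; rfl
  | succ k ih =>
    have : (mult (NS σ g (k + 1)) : F) = (multH hm (g * AutSp.faG σ (NS σ g k)) : F) := rfl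
    rw [this, map_mul, Units.val_mul, FinGal.nm_succ]
    show (mult g : F) * (mult (AutSp.faG σ (NS σ g k)) : F) = _
    rw [mult_faG hm, ih]

theorem form_sum_left {ι : Type*} (s : Finset ι) (c : ι → F) (w : ι → VV) (v : VV) :
    BB (∑ i ∈ s, c i • w i) v = ∑ i ∈ s, c i * BB (w i) v := by
  have := map_sum ((sympBilin m F).flip v) (fun i => c i • w i) s
  simp only [map_smul, smul_eq_mul] at this
  exact this

theorem form_sum_right {ι : Type*} (s : Finset ι) (c : ι → F) (w : ι → VV) (v : VV) :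
    BB v (∑ i ∈ s, c i • w i) = ∑ i ∈ s, c i * BB v (w i) := by
  have := map_sum (sympBilin m F v) (fun i => c i • w i) s
  simp only [map_smul, smul_eq_mul] at this
  exact this

/-- a basis with the right Gram matrix gives a similitude -/
theorem exists_gg (hm : 1 ≤ m) {ν : F} (hν : ν ≠ 0) (w : Fin m ⊕ Fin m → VV)
    (h1 : ∀ i j : Fin m, BB (w (Sum.inl i)) (w (Sum.inr j)) = if i = j then ν else 0)
    (h2 : ∀ i j : Fin m, BB (w (Sum.inl i)) (w (Sum.inl j)) = 0)
    (h3 : ∀ i j : Fin m, BB (w (Sum.inr i)) (w (Sum.inr j)) = 0) :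
    ∃ k : GG, (∀ i, gm k *ᵥ (Pi.single (Sum.inr i) 1) = w (Sum.inl i)) ∧ (∀ i, gm k *ᵥ (Pi.single (Sum.inl i) 1) = w (Sum.inr i)) := by
  let M : MM := Matrix.of fun a x => w x.swap a
  have hM : ∀ x, M *ᵥ (Pi.single x 1) = w x.swap := by
    intro x
    rw [Matrix.mulVec_single_one]
    rfl
  have hMv : ∀ u : VV, M *ᵥ u = ∑ x, u x • w x.swap := by
    intro u
    have hx : u = ∑ i, u i • (Pi.single i (1 : F) : VV) := by
      ext j
      simp [Finset.sum_apply, Pi.single_apply]
    conv_lhs => rw [hx]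
    rw [Matrix.mulVec_sum]
    simp only [Matrix.mulVec_smul, hM]
  have hB : ∀ u v : VV, BB (M *ᵥ u) (M *ᵥ v) = ν * BB u v := by
    intro u v
    have hu : u = ∑ i, u i • (Pi.single i (1 : F) : VV) := by
      ext j
      simp [Finset.sum_apply, Pi.single_apply]
    have hv : v = ∑ i, v i • (Pi.single i (1 : F) : VV) := by
      ext j
      simp [Finset.sum_apply, Pi.single_apply]
    have hxy : ∀ x y : Fin m ⊕ Fin m, BB (w x.swap) (w y.swap) = ν * BB (Pi.single x 1) (Pi.single y 1) := by
      intro x y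
      rcases x with i | i <;> rcases y with j | j
      · show BB (w (Sum.inr i)) (w (Sum.inr j)) = _
        rw [h3]
        have : BB (Pi.single (Sum.inl i) 1) (Pi.single (Sum.inl j) 1) = 0 := by
          rw [sympForm_eq]
          apply Finset.sum_eq_zero; intro x _; simp
        rw [this, mul_zero]
      · show BB (w (Sum.inr i)) (w (Sum.inl j)) = _
        rw [sympForm_swap, h1]
        have : BB (Pi.single (Sum.inl i) 1) (Pi.single (Sum.inr j) 1) = - (if i = j then 1 else 0) := by
          rw [sympForm_eq, Finset.sum_eq_single i]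
          · by_cases hij : i = j
            · subst hij; simp
            · simp [hij, Pi.single_apply]
          · intro x _ hx; simp [Pi.single_apply, hx]
          · intro h; exact absurd (Finset.mem_univ _) h
        rw [this]
        by_cases hij : i = j
        · subst hij; simp
        · rw [if_neg hij, if_neg (Ne.symm hij)]; simp
      · show BB (w (Sum.inl i)) (w (Sum.inr j)) = _
        rw [h1]
        have : BB (Pi.single (Sum.inr i) 1) (Pi.single (Sum.inl j) 1) = (if i = j then 1 else 0) := by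
          rw [sympForm_eq, Finset.sum_eq_single i]
          · by_cases hij : i = j
            · subst hij; simp
            · simp [hij, Pi.single_apply]
          · intro x _ hx; simp [Pi.single_apply, hx]
          · intro h; exact absurd (Finset.mem_univ _) h
        rw [this]
        by_cases hij : i = j
        · subst hij; simp
        · rw [if_neg hij, if_neg hij]; simp
      · show BB (w (Sum.inl i)) (w (Sum.inl j)) = _
        rw [h2]
        have : BB (Pi.single (Sum.inr i) 1) (Pi.single (Sum.inr j) 1) = 0 := by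
          rw [sympForm_eq]
          apply Finset.sum_eq_zero; intro x _; simp
        rw [this, mul_zero]
    rw [hMv, hMv, form_sum_left]
    conv_rhs => rw [hu, hv, form_sum_left, Finset.mul_sum]
    apply Finset.sum_congr rfl
    intro x _
    rw [form_sum_right, form_sum_right, Finset.mul_sum, Finset.mul_sum, Finset.mul_sum]
    apply Finset.sum_congr rfl
    intro y _
    rw [hxy]; ring
  have hinj : Function.Injective M.mulVec := by
    intro u v huv
    have h0 : M *ᵥ (u - v) = 0 := by
      rw [Matrix.mulVec_sub]; exact sub_eq_zero.2 huv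
    have : u - v = 0 := by
      apply eq_zero_of_forall_sympForm
      intro x
      have := hB x (u - v)
      rw [h0, sympForm_zero_right] at this
      exact (mul_eq_zero.1 this.symm).resolve_left hν
    exact sub_eq_zero.1 this
  have hunit : IsUnit M := Matrix.mulVec_injective_iff_isUnit.1 hinj
  obtain ⟨M', hM'⟩ := hunit
  refine ⟨⟨M', Units.mk0 ν hν, fun u v => ?_⟩, ?_, ?_⟩
  · rw [hM']; exact hB u v
  · intro i; show (M' : MM) *ᵥ _ = _; rw [hM', hM]; rfl
  · intro i; show (M' : MM) *ᵥ _ = _; rw [hM', hM]; rfl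

end Cfsg.Agent.H8.SpAut
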