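import Mathlib
import Cfsg.Agent.H8.SpAut2

set_option autoImplicit false
set_option linter.all false

/-! Hilbert 90 for symplectic similitudes; centralizers of field automorphisms. -/

namespace Cfsg.Agent.H8.SpAut

open Matrix Cfsg.Agent.Lib.Symp Cfsg.Agent.Lib.AutPSL Cfsg.Agent.Lib.AutSp Cfsg.Agent.Lib

variable {m : ℕ} {F : Type*} [Field F]

local notation "VV" => (Fin m ⊕ Fin m → F)
local notation "MM" => Matrix (Fin m ⊕ Fin m) (Fin m ⊕ Fin m) F
local notation "SP" => Matrix.symplecticGroup (Fin m) F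
local notation "PSP" => Cfsg.PSp m F
local notation "BB" => Cfsg.sympForm m F
local notation "GG" => (Cfsg.GSp m F)

theorem hilbert90_GSp (hm : 1 ≤ m) (σ : F ≃+* F) {r : ℕ} (hr : orderOf σ = r) (hr0 : 0 < r) (g : GG)
    (h : NS σ g r = 1) : ∃ k : GG, g * AutSp.faG σ k = k := by
  let T : VV → VV := fun v => gm g *ᵥ (fun i => σ (v i))
  have hT : ∀ k v, T^[k] v = gm (NS σ g k) *ᵥ (fun i => (σ ^ k) (v i)) := by
    intro k v
    induction k with
    | zero => show v = (1 : MM) *ᵥ _; rw [Matrix.one_mulVec]; rfl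
    | succ k ih =>
      rw [Function.iterate_succ_apply', ih, NS_succ, gm_mul, ← Matrix.mulVec_mulVec, gm_faG]
      show gm g *ᵥ _ = _
      congr 1
      rw [map_mulVec_sigma']
      funext i
      congr 2
      congr 1
      funext j
      rw [pow_succ']
      exact (RingEquiv.symm_apply_apply σ _).symm
  have hTr : ∀ v, T^[r] v = v := by
    intro v
    rw [hT, h, ← hr, pow_orderOf_eq_one, gm_one, Matrix.one_mulVec]; rfl
  have hTa : ∀ v w, T (v + w) = T v + T w := by
    intro v w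
    show gm g *ᵥ _ = gm g *ᵥ _ + gm g *ᵥ _
    rw [← Matrix.mulVec_add]
    congr 1
    funext i
    exact map_add σ _ _
  have hTs : ∀ (a : F) v, T (a • v) = σ a • T v := by
    intro a v
    show gm g *ᵥ _ = σ a • (gm g *ᵥ _)
    rw [← Matrix.mulVec_smul]
    congr 1
    funext i
    exact map_mul σ _ _
  obtain ⟨b, hb, hbT⟩ := FinGal.exists_fixed_basis σ hr hr0 T hTa hTs hTr
  have hfr : Module.finrank F VV = m + m := by simp
  -- the multiplier
  have hμ : FinGal.nm σ (mult g : F) r = 1 := by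
    rw [← mult_NS hm, h]
    show ((multH hm (1 : GG) : Fˣ) : F) = 1
    rw [map_one]; rfl
  obtain ⟨ν, hν, hνμ⟩ := FinGal.hilbert90 σ hr hr0 hμ
  have hfix : ∀ x y : VV, T x = x → T y = y → σ (ν⁻¹ * BB x y) = ν⁻¹ * BB x y := by
    intro x y hx hy
    have h1 : BB x y = (mult g : F) * σ (BB x y) := by
      conv_lhs => rw [← hx, ← hy]
      show BB (gm g *ᵥ _) (gm g *ᵥ _) = _
      rw [mult_spec, form_sigma]
    have h2 : σ (BB x y) = (mult g : F)⁻¹ * BB x y := by
      rw [eq_inv_mul_iff_mul_eq₀ (mult g).ne_zero]; exact h1.symm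
    have h3 : σ ν = (mult g : F)⁻¹ * ν := by
      rw [eq_inv_mul_iff_mul_eq₀ (mult g).ne_zero]; exact hνμ
    rw [map_mul, map_inv₀, h2, h3, mul_inv, inv_inv]
    have := (mult g).ne_zero
    field_simp
  set K := FinGal.fixF σ with hK
  have hmemK : ∀ x, x ∈ K ↔ σ x = x := fun x => Iff.rfl
  let Φ : (Fin (Module.finrank F VV) → K) → VV := fun w => ∑ i, ((w i : K) : F) • b i
  have hΦa : ∀ w w', Φ (w + w') = Φ w + Φ w' := by
    intro w w'
    show ∑ i, _ = ∑ i, _ + ∑ i, _
    rw [← Finset.sum_add_distrib]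
    apply Finset.sum_congr rfl
    intro i _
    rw [← add_smul]; rfl
  have hΦs : ∀ (a : K) w, Φ (a • w) = (a : F) • Φ w := by
    intro a w
    show ∑ i, _ = (a : F) • ∑ i, _
    rw [Finset.smul_sum]
    apply Finset.sum_congr rfl
    intro i _
    rw [smul_smul]; rfl
  have hTsum : ∀ (s : Finset (Fin (Module.finrank F VV))) (w : Fin (Module.finrank F VV) → K), T (∑ i ∈ s, ((w i : K) : F) • b i) = ∑ i ∈ s, ((w i : K) : F) • b i := by
    intro s w
    induction s using Finset.induction_on with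
    | empty =>
      rw [Finset.sum_empty]
      have := hTs 0 0
      rw [zero_smul, map_zero, zero_smul] at this
      exact this
    | insert a s has ih =>
      rw [Finset.sum_insert has, hTa, ih, hTs, hbT]
      congr 2
      exact (w a).2
  have hΦT : ∀ w, T (Φ w) = Φ w := fun w => hTsum _ w
  have hΦ0 : ∀ w, Φ w = 0 → w = 0 := by
    intro w hw
    have := (Fintype.linearIndependent_iff.1 hb) (fun i => ((w i : K) : F)) hw
    funext i
    exact Subtype.ext (this i)
  let B' : LinearMap.BilinForm K (Fin (Module.finrank F VV) → K) := LinearMap.mk₂ K (fun w w' => (⟨ν⁻¹ * BB (Φ w) (Φ w'), hfix _ _ (hΦT w) (hΦT w')⟩ : K))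
    (fun w w' z => by apply Subtype.ext; show ν⁻¹ * _ = ν⁻¹ * _ + ν⁻¹ * _; rw [hΦa, sympForm_add_left]; ring)
    (fun a w z => by apply Subtype.ext; show ν⁻¹ * _ = (a : F) * (ν⁻¹ * _); rw [hΦs, sympForm_smul_left]; ring)
    (fun w z z' => by apply Subtype.ext; show ν⁻¹ * _ = ν⁻¹ * _ + ν⁻¹ * _; rw [hΦa, sympForm_add_right]; ring)
    (fun a w z => by apply Subtype.ext; show ν⁻¹ * _ = (a : F) * (ν⁻¹ * _); rw [hΦs, sympForm_smul_right]; ring)
  have hB' : ∀ w w', ((B' w w' : K) : F) = ν⁻¹ * BB (Φ w) (Φ w') := fun _ _ => rfl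
  have hA : B'.IsAlt := by
    intro w
    apply Subtype.ext
    rw [hB', sympForm_self, mul_zero]; rfl
  have hspan : Submodule.span F (Set.range b) = ⊤ := by
    exact LinearIndependent.span_eq_top_of_card_eq_finrank' hb (Fintype.card_fin _)
  have hnd1 : ∀ w, (∀ w', B' w w' = 0) → w = 0 := by
    intro w hw
    apply hΦ0
    have h1 : ∀ i, BB (Φ w) (b i) = 0 := by
      intro i
      have h2 := congrArg Subtype.val (hw (Pi.single i 1))
      have h3 : Φ (Pi.single i 1) = b i := by
        show ∑ j, _ = _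
        rw [Finset.sum_eq_single i]
        · simp
        · intro j _ hj; simp [Pi.single_eq_of_ne hj]
        · intro h; exact absurd (Finset.mem_univ _) h
      rw [hB', h3] at h2
      exact (mul_eq_zero.1 h2).resolve_left (inv_ne_zero hν)
    apply eq_zero_of_forall_sympForm
    intro x
    have hx : x ∈ Submodule.span F (Set.range b) := by rw [hspan]; trivial
    rw [sympForm_swap, neg_eq_zero]
    induction hx using Submodule.span_induction with
    | mem y hy => obtain ⟨i, rfl⟩ := hy; exact h1 i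
    | zero => exact sympForm_zero_right _
    | add y z _ _ hy hz => rw [sympForm_add_right, hy, hz, add_zero]
    | smul a y _ hy => rw [sympForm_smul_right, hy, mul_zero]
  have hND : B'.Nondegenerate := by
    refine ⟨fun w hw => hnd1 w hw, fun w hw => hnd1 w fun w' => ?_⟩
    rw [Cfsg.Agent.Lib.Alt.alt_swap hA, hw w', neg_zero]
  obtain ⟨m', bb, e1, e2, e3⟩ := Cfsg.Agent.Lib.Alt.exists_basis_of_nondegenerate B' hA hND
  have hmm : m = m' := by
    have h1 := Module.finrank_eq_card_basis bb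
    rw [Module.finrank_fin_fun, hfr] at h1
    simp at h1
    omega
  subst hmm
  obtain ⟨k, hk1, hk2⟩ := exists_gg hm hν (fun x => Φ (bb x))
    (by
      intro i j
      have := congrArg Subtype.val (e1 i j)
      rw [hB'] at this
      have h2 : BB (Φ (bb (Sum.inl i))) (Φ (bb (Sum.inr j))) = ν * (((if i = j then (1 : K) else 0) : K) : F) := by
        rw [← this, ← mul_assoc, mul_inv_cancel₀ hν, one_mul]
      rw [h2]
      split_ifs
      · exact mul_one ν
      · exact mul_zero ν)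
    (by
      intro i j
      have := congrArg Subtype.val (e2 i j)
      rw [hB'] at this
      exact (mul_eq_zero.1 this).resolve_left (inv_ne_zero hν))
    (by
      intro i j
      have := congrArg Subtype.val (e3 i j)
      rw [hB'] at this
      exact (mul_eq_zero.1 this).resolve_left (inv_ne_zero hν))
  refine ⟨k, ?_⟩
  apply Subtype.ext
  apply Units.ext
  show gm g * (gm k).map σ = gm k
  have hcol : ∀ x : Fin m ⊕ Fin m, T (gm k *ᵥ Pi.single x 1) = gm k *ᵥ Pi.single x 1 := by
    rintro (i | i)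
    · rw [hk2]; exact hΦT _
    · rw [hk1]; exact hΦT _
  ext a x
  have h1 := congrFun (hcol x) a
  rw [Matrix.mulVec_single_one] at h1
  exact h1

theorem NS_scalar_fixed (hm : 1 ≤ m) (σ : F ≃+* F) {r : ℕ} (hr : orderOf σ = r) {g : GG} {c : F}
    (h : gm (NS σ g r) = c • 1) : σ c = c := by
  have h1 : gm (NS σ g (r + 1)) = gm g * (c • (1 : MM)).map σ := by
    rw [NS_succ, gm_mul, gm_faG, h]
  have h2 : gm (NS σ g (r + 1)) = c • gm g := by
    rw [NS_comm, gm_mul, h, gm_faG, ← hr, pow_orderOf_eq_one, smul_mul_assoc, one_mul]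
    rfl
  have h3 : (c • (1 : MM)).map σ = σ c • (1 : MM) := by
    ext i j
    show σ (c * (1 : MM) i j) = σ c * (1 : MM) i j
    rw [map_mul]
    by_cases hij : i = j
    · subst hij; rw [Matrix.one_apply_eq, map_one]
    · rw [Matrix.one_apply_ne hij, map_zero]
  rw [h2, h3, mul_smul_comm, mul_one] at h1
  -- find a nonzero entry
  have i0 : Fin m := ⟨0, hm⟩
  have hne : gm g ≠ 0 := by
    intro h0
    have := gm_ne_zero g (x := Pi.single (Sum.inl i0) 1) (by simp)
    rw [h0, Matrix.zero_mulVec] at this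
    exact this rfl
  obtain ⟨a, b, hab⟩ : ∃ a b, gm g a b ≠ 0 := by
    by_contra hcon
    push Not at hcon
    apply hne
    ext a b
    exact hcon a b
  have h4 := congrFun (congrFun h1 a) b
  exact (mul_right_cancel₀ hab h4).symm

/-- Lang's theorem for the coset of a field automorphism -/
theorem coset_field [Finite F] (hm : 1 ≤ m) (σ : F ≃+* F) {r : ℕ} (hr : orderOf σ = r) (hr0 : 0 < r)
    (g : GG) (h : (AutSp.delta g * AutSp.psi σ : MulAut PSP) ^ r = 1) :
    ∃ k : GG, (AutSp.delta g * AutSp.psi σ : MulAut PSP) = AutSp.delta k * AutSp.psi σ * (AutSp.delta k)⁻¹ := by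
  have h1 : (AutSp.delta (NS σ g r) : MulAut PSP) = 1 := by
    rw [pow_eq, ← hr, pow_orderOf_eq_one, map_one, mul_one, hr] at h
    exact h
  obtain ⟨c, hc⟩ := (delta_eq_one_iff hm _).1 h1
  have hc0 := scalar_ne_zero hm hc
  have hcσ := NS_scalar_fixed hm σ hr hc
  obtain ⟨b, hb, hbc⟩ := FinGal.nm_surj σ hr hr0 (inv_ne_zero hc0) (by rw [map_inv₀, hcσ])
  have h2 : NS σ (scG b hb * g) r = 1 := by
    apply Subtype.ext
    apply Units.ext
    show gm (NS σ (scG b hb * g) r) = 1
    rw [NS_smul, hbc, hc, smul_smul, inv_mul_cancel₀ hc0, one_smul]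
  obtain ⟨k, hk⟩ := hilbert90_GSp hm σ hr hr0 _ h2
  refine ⟨k, ?_⟩
  have h3 : (AutSp.delta k : MulAut PSP) = AutSp.delta g * AutSp.delta (AutSp.faG σ k) := by
    conv_lhs => rw [← hk]
    rw [map_mul, map_mul, delta_scG, one_mul]
  have h4 := AutSp.psi_delta σ k
  calc (AutSp.delta g * AutSp.psi σ : MulAut PSP) = AutSp.delta g * (AutSp.delta (AutSp.faG σ k) * AutSp.psi σ) * (AutSp.psi σ)⁻¹ * (AutSp.delta (AutSp.faG σ k))⁻¹ * AutSp.psi σ := by group
    _ = AutSp.delta g * (AutSp.psi σ * AutSp.delta k) * (AutSp.psi σ)⁻¹ * (AutSp.delta (AutSp.faG σ k))⁻¹ * AutSp.psi σ := by rw [h4]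
    _ = (AutSp.delta g * AutSp.psi σ * AutSp.delta k) * ((AutSp.delta (AutSp.faG σ k)) * AutSp.psi σ)⁻¹ * AutSp.psi σ := by group
    _ = (AutSp.delta g * AutSp.psi σ * AutSp.delta k) * (AutSp.psi σ * AutSp.delta k)⁻¹ * AutSp.psi σ := by rw [h4]
    _ = AutSp.delta g * AutSp.psi σ := by group
    _ = (AutSp.delta g * AutSp.delta (AutSp.faG σ k)) * (AutSp.delta (AutSp.faG σ k))⁻¹ * AutSp.psi σ := by group
    _ = AutSp.delta k * (AutSp.delta (AutSp.faG σ k))⁻¹ * AutSp.psi σ := by rw [← h3]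
    _ = AutSp.delta k * ((AutSp.delta (AutSp.faG σ k))⁻¹ * (AutSp.psi σ * AutSp.delta k)) * (AutSp.delta k)⁻¹ := by group
    _ = AutSp.delta k * ((AutSp.delta (AutSp.faG σ k))⁻¹ * (AutSp.delta (AutSp.faG σ k) * AutSp.psi σ)) * (AutSp.delta k)⁻¹ := by rw [h4]
    _ = _ := by group

end Cfsg.Agent.H8.SpAut
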