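import Mathlib
import Cfsg.Agent.H8.SpAut3
import Cfsg.Agent.Lib.AutPSL15

set_option autoImplicit false
set_option linter.all false

/-! Centralizers of field automorphisms of `PSp`; class splitting. -/

namespace Cfsg.Agent.H8.SpAut

open Matrix Cfsg.Agent.Lib.Symp Cfsg.Agent.Lib.AutPSL Cfsg.Agent.Lib.AutSp Cfsg.Agent.Lib

variable {m : ℕ} {F : Type*} [Field F]

local notation "VV" => (Fin m ⊕ Fin m → F)
local notation "MM" => Matrix (Fin m ⊕ Fin m) (Fin m ⊕ Fin m) F
local notation "SP" => Matrix.symplecticGroup (Fin m) F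
local notation "PSP" => Cfsg.PSp m F
local notation "BB" => Cfsg.sympForm m F
local notation "GG" => (Cfsg.GSp m F)

theorem mem_centralizer_iff' (hm : 1 ≤ m) (σ : F ≃+* F) (g : GG) :
    (AutSp.delta g : MulAut PSP) ∈ Subgroup.centralizer {(AutSp.psi σ : MulAut PSP)} ↔
      ∃ c : F, (gm g).map σ = c • gm g := by
  rw [Subgroup.mem_centralizer_singleton_iff, AutSp.psi_delta, mul_left_inj, delta_eq_iff hm]
  rfl

theorem exists_entry (hm : 1 ≤ m) (g : GG) : ∃ i j, gm g i j ≠ 0 := by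
  by_contra hcon
  push Not at hcon
  have i0 : Fin m := ⟨0, hm⟩
  have := gm_ne_zero g (x := Pi.single (Sum.inl i0) 1) (by simp)
  have h0 : gm g = 0 := by ext a b; exact hcon a b
  rw [h0, Matrix.zero_mulVec] at this
  exact this rfl

theorem exists_fixed_scaling' (hm : 1 ≤ m) {σ : F ≃+* F} {r : ℕ} (hr : orderOf σ = r) (hr0 : 0 < r)
    {g : GG} {c : F} (hg : (gm g).map σ = c • gm g) :
    ∃ (b : F), b ≠ 0 ∧ (b • gm g).map σ = b • gm g := by
  have hent : ∀ i j, σ (gm g i j) = c * gm g i j := fun i j => congrFun (congrFun hg i) j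
  have hk : ∀ k i j, (σ ^ k) (gm g i j) = FinGal.nm σ c k * gm g i j := by
    intro k
    induction k with
    | zero => intro i j; simp [FinGal.nm]
    | succ k ih =>
      intro i j
      rw [pow_succ']
      show σ ((σ ^ k) _) = _
      rw [ih, map_mul, hent, FinGal.nm_succ]
      ring
  obtain ⟨i, j, hij⟩ := exists_entry hm g
  have h1 : FinGal.nm σ c r = 1 := by
    have := hk r i j
    rw [← hr, pow_orderOf_eq_one] at this
    have h2 : gm g i j = FinGal.nm σ c (orderOf σ) * gm g i j := this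
    rw [hr] at h2
    exact (mul_eq_right₀ hij).mp h2.symm
  obtain ⟨x, hx, hxc⟩ := FinGal.hilbert90 σ hr hr0 h1
  refine ⟨x, hx, ?_⟩
  ext i j
  show σ (x * gm g i j) = x * gm g i j
  rw [map_mul, hent]
  linear_combination gm g i j * hxc

variable {F₀ : Type*} [Field F₀]

theorem form_map (ι : F₀ →+* F) (u v : Fin m ⊕ Fin m → F₀) :
    BB (fun i => ι (u i)) (fun i => ι (v i)) = ι (Cfsg.sympForm m F₀ u v) := by
  rw [sympForm_eq, sympForm_eq, map_sum]
  simp only [map_sub, map_mul]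

theorem map_mulVec_iota (ι : F₀ →+* F) (A : Matrix (Fin m ⊕ Fin m) (Fin m ⊕ Fin m) F₀) (x : Fin m ⊕ Fin m → F₀) :
    (A.map ι) *ᵥ (fun i => ι (x i)) = fun i => ι ((A *ᵥ x) i) := by
  funext i
  simp only [Matrix.mulVec, dotProduct, map_sum, map_mul, Matrix.map_apply]

theorem iota_sim {ι : F₀ →+* F} {A : Matrix (Fin m ⊕ Fin m) (Fin m ⊕ Fin m) F₀} {c : F}
    (h : ∀ u v : Fin m ⊕ Fin m → F₀, ι (Cfsg.sympForm m F₀ (A *ᵥ u) (A *ᵥ v)) = c * ι (Cfsg.sympForm m F₀ u v)) (u v : VV) :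
    BB ((A.map ι) *ᵥ u) ((A.map ι) *ᵥ v) = c * BB u v := by
  have hs : ∀ x : Fin m ⊕ Fin m, (fun j => ι ((Pi.single x (1 : F₀) : Fin m ⊕ Fin m → F₀) j)) = (Pi.single x 1 : VV) := by
    intro x; funext j
    by_cases hij : j = x
    · subst hij; simp
    · simp [Pi.single_eq_of_ne hij]
  have hu : ∀ u : VV, u = ∑ i, u i • (Pi.single i (1 : F) : VV) := by
    intro u
    ext j
    simp [Finset.sum_apply, Pi.single_apply]
  have hb : ∀ x y, BB ((A.map ι) *ᵥ Pi.single x 1) ((A.map ι) *ᵥ Pi.single y 1) = c * BB (Pi.single x 1) (Pi.single y 1) := by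
    intro x y
    rw [← hs x, ← hs y, map_mulVec_iota, map_mulVec_iota, form_map, h, form_map]
  rw [hu u, hu v, Matrix.mulVec_sum, Matrix.mulVec_sum]
  simp only [Matrix.mulVec_smul]
  rw [form_sum_left, form_sum_left, Finset.mul_sum]
  apply Finset.sum_congr rfl
  intro x _
  rw [form_sum_right, form_sum_right, Finset.mul_sum, Finset.mul_sum, Finset.mul_sum]
  apply Finset.sum_congr rfl
  intro y _
  rw [hb]; ring

/-- base change of similitudes -/
noncomputable def mapG (ι : F₀ →+* F) : Cfsg.GSp m F₀ →* GG where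
  toFun g := ⟨Matrix.GeneralLinearGroup.map ι (g : GL (Fin m ⊕ Fin m) F₀), Units.map (ι : F₀ →* F) (mult g), by
    apply iota_sim
    intro u v
    have := mult_spec g u v
    rw [this, map_mul]; rfl⟩
  map_one' := by apply Subtype.ext; exact map_one _
  map_mul' a b := by apply Subtype.ext; exact map_mul _ _ _

theorem gm_mapG (ι : F₀ →+* F) (g : Cfsg.GSp m F₀) : gm (mapG ι g : GG) = (gm g).map ι := rfl

theorem mult_mapG (hm : 1 ≤ m) (ι : F₀ →+* F) (g : Cfsg.GSp m F₀) : (mult (mapG ι g : GG) : F) = ι (mult g) := by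
  apply mult_unique hm
  rw [gm_mapG]
  apply iota_sim
  intro u v
  have := mult_spec g u v
  rw [this, map_mul]

theorem exists_descend' (hm : 1 ≤ m) {σ : F ≃+* F} (ι : F₀ →+* F) (hι : ∀ x, σ x = x → ∃ y, ι y = x)
    {r : ℕ} (hr : orderOf σ = r) (hr0 : 0 < r) {g : GG} {c : F} (hg : (gm g).map σ = c • gm g) :
    ∃ (b : F) (g0 : Cfsg.GSp m F₀), b ≠ 0 ∧ gm g = b • gm (mapG ι g0 : GG) := by
  obtain ⟨b, hb, hfix⟩ := exists_fixed_scaling' hm hr hr0 hg
  have h1 : ∀ i j, ∃ y, ι y = b * gm g i j := fun i j => hι _ (congrFun (congrFun hfix i) j)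
  choose M hM using h1
  have hMmap : (Matrix.of M).map ι = b • gm g := by
    ext i j; exact hM i j
  have hg' : gm (scG b hb * g) = b • gm g := by rw [gm_mul, gm_scG, smul_mul_assoc, one_mul]
  have hsim : ∀ u v : Fin m ⊕ Fin m → F₀, ι (Cfsg.sympForm m F₀ (Matrix.of M *ᵥ u) (Matrix.of M *ᵥ v)) =
      (mult (scG b hb * g) : F) * ι (Cfsg.sympForm m F₀ u v) := by
    intro u v
    rw [← form_map (F := F) ι, ← form_map (F := F) ι, ← map_mulVec_iota, ← map_mulVec_iota, hMmap, ← hg', mult_spec]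
  -- the multiplier lies in the subfield
  obtain ⟨c0, hc0⟩ : ∃ c0, ι c0 = (mult (scG b hb * g) : F) := by
    refine ⟨Cfsg.sympForm m F₀ (Matrix.of M *ᵥ e ⟨0, hm⟩) (Matrix.of M *ᵥ f ⟨0, hm⟩), ?_⟩
    rw [hsim, form_e_f, map_one, mul_one]
  have hc00 : c0 ≠ 0 := by
    rintro rfl
    rw [map_zero] at hc0
    exact (mult (scG b hb * g)).ne_zero hc0.symm
  have hsim0 : ∀ u v : Fin m ⊕ Fin m → F₀, Cfsg.sympForm m F₀ (Matrix.of M *ᵥ u) (Matrix.of M *ᵥ v) = c0 * Cfsg.sympForm m F₀ u v := by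
    intro u v
    apply ι.injective
    rw [hsim, map_mul, hc0]
  have hdet : (Matrix.of M).det ≠ 0 := by
    intro h0
    have h2 := congrArg Matrix.det hMmap
    rw [← RingHom.mapMatrix_apply, ← RingHom.map_det, h0, map_zero, Matrix.det_smul] at h2
    have h3 : (gm g).det ≠ 0 := by
      have := (g : GL (Fin m ⊕ Fin m) F).isUnit.map Matrix.detMonoidHom
      exact this.ne_zero
    exact (mul_ne_zero (pow_ne_zero _ hb) h3) h2.symm
  refine ⟨b⁻¹, ⟨Matrix.GeneralLinearGroup.mkOfDetNeZero (Matrix.of M) hdet, Units.mk0 c0 hc00, hsim0⟩, inv_ne_zero hb, ?_⟩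
  show _ = b⁻¹ • ((Matrix.of M).map ι)
  rw [hMmap, smul_smul, inv_mul_cancel₀ hb, one_smul]

theorem field_centralizer_equiv' (hm : 1 ≤ m) {σ : F ≃+* F} (ι : F₀ →+* F)
    (hι : ∀ x, σ x = x ↔ ∃ y, ι y = x) {r : ℕ} (hr : orderOf σ = r) (hr0 : 0 < r) :
    Nonempty (↥((AutSp.delta (m := m) (F := F)).range ⊓ Subgroup.centralizer {AutSp.psi σ}) ≃* Cfsg.PGSp m F₀) := by
  have hmem : ∀ g0 : Cfsg.GSp m F₀, (AutSp.delta (mapG ι g0) : MulAut PSP) ∈
      ((AutSp.delta (m := m) (F := F)).range ⊓ Subgroup.centralizer {AutSp.psi σ}) := by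
    intro g0
    refine ⟨⟨_, rfl⟩, ?_⟩
    refine (mem_centralizer_iff' hm σ _).mpr ⟨1, ?_⟩
    rw [one_smul]
    ext i j
    exact (hι _).mpr ⟨_, rfl⟩
  let f : Cfsg.GSp m F₀ →* ↥((AutSp.delta (m := m) (F := F)).range ⊓ Subgroup.centralizer {AutSp.psi σ}) :=
    (AutSp.delta.comp (mapG ι)).codRestrict _ hmem
  apply AutPSL.projQuot_equiv (Cfsg.GSp m F₀) f
  · rintro ⟨_, ⟨g, rfl⟩, hg⟩
    obtain ⟨c, hc⟩ := (mem_centralizer_iff' hm σ g).mp hg
    obtain ⟨b, g0, hb, h1⟩ := exists_descend' hm ι (fun x hx => (hι x).mp hx) hr hr0 hc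
    refine ⟨g0, Subtype.ext ?_⟩
    show AutSp.delta (mapG ι g0) = AutSp.delta g
    exact (delta_eq_iff hm _ _).mpr ⟨b, h1⟩
  · intro g
    have e : f g = 1 ↔ AutSp.delta (mapG ι g : GG) = 1 := by
      constructor
      · intro h; exact congrArg Subtype.val h
      · intro h; exact Subtype.ext h
    rw [e, delta_eq_one_iff hm, Cfsg.Geo.mem_scalars_iff]
    constructor
    · rintro ⟨c, hc⟩
      have hc0 := scalar_ne_zero hm hc
      rw [gm_mapG] at hc
      have hent : ∀ i j, ι (gm g i j) = c * (1 : MM) i j := fun i j => congrFun (congrFun hc i) j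
      set z : Fin m ⊕ Fin m := Sum.inl ⟨0, hm⟩
      have hcz : ι (gm g z z) = c := by
        rw [hent, Matrix.one_apply_eq, mul_one]
      have hne : gm g z z ≠ 0 := by
        intro h0
        rw [h0, map_zero] at hcz
        exact hc0 hcz.symm
      refine ⟨Units.mk0 _ hne, ?_⟩
      ext i j
      apply ι.injective
      show ι (gm g i j) = ι (gm g z z * (1 : Matrix (Fin m ⊕ Fin m) (Fin m ⊕ Fin m) F₀) i j)
      rw [hent, map_mul, hcz]
      by_cases hij : i = j
      · subst hij; simp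
      · simp [hij]
    · rintro ⟨u, hu⟩
      refine ⟨ι u, ?_⟩
      rw [gm_mapG]
      show ((g : GL (Fin m ⊕ Fin m) F₀) : Matrix (Fin m ⊕ Fin m) (Fin m ⊕ Fin m) F₀).map ι = _
      rw [hu]
      ext i j
      by_cases hij : i = j
      · subst hij; simp
      · simp [hij]

/-- class splitting -/
theorem split_PSp [Fintype F] [Fintype F₀] (hm : 1 ≤ m) {σ : F ≃+* F} (ι : F₀ →+* F)
    (hι : ∀ x, σ x = x ↔ ∃ y, ι y = x) {r : ℕ} (hr : orderOf σ = r) (hr0 : 0 < r) :
    Cfsg.splitClassCount (AutSp.delta (m := m) (F := F)).range (Cfsg.Inn PSP) (AutSp.psi σ) =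
      Nat.gcd (Nat.gcd 2 (Fintype.card F - 1)) ((Fintype.card F - 1) / (Fintype.card F₀ - 1)) := by
  rw [SimAbs.split_abs AutSp.delta (Cfsg.Inn PSP) inn_le (multH hm) (multH_surj hm) _ (delta_mem_inn_iff hm)]
  have hmap : (powMonoidHom 2 : Fˣ →* Fˣ).range ⊔ ((Subgroup.centralizer {(AutSp.psi σ : MulAut PSP)}).comap AutSp.delta).map (multH hm) =
      (powMonoidHom 2 : Fˣ →* Fˣ).range ⊔ (Units.map (ι : F₀ →* F)).range := by
    apply le_antisymm
    · apply sup_le le_sup_left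
      rintro _ ⟨g, hg, rfl⟩
      obtain ⟨c, hc⟩ := (mem_centralizer_iff' hm σ g).mp hg
      obtain ⟨b, g0, hb, h1⟩ := exists_descend' hm ι (fun x hx => (hι x).mp hx) hr hr0 hc
      have : multH hm g = (Units.mk0 b hb) ^ 2 * Units.map (ι : F₀ →* F) (mult g0) := by
        apply Units.ext
        show (mult g : F) = b ^ 2 * ι (mult g0)
        rw [← mult_mapG hm]
        apply mult_unique hm
        intro u v
        rw [h1, Matrix.smul_mulVec, Matrix.smul_mulVec, sympForm_smul_left, sympForm_smul_right, mult_spec]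
        ring
      rw [this]
      exact Subgroup.mul_mem _ (Subgroup.mem_sup_left ⟨_, rfl⟩) (Subgroup.mem_sup_right ⟨_, rfl⟩)
    · apply sup_le le_sup_left
      rintro _ ⟨u, rfl⟩
      apply Subgroup.mem_sup_right
      refine ⟨mapG ι (dgm (u : F₀) u.ne_zero), ?_, ?_⟩
      · refine (mem_centralizer_iff' hm σ _).mpr ⟨1, ?_⟩
        rw [one_smul]
        ext i j
        exact (hι _).mpr ⟨_, rfl⟩
      · apply Units.ext
        show (mult (mapG ι (dgm (u : F₀) u.ne_zero)) : F) = ι u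
        rw [mult_mapG hm, mult_dgm hm]
  have hidx : (Units.map (ι : F₀ →* F)).range.index = (Fintype.card F - 1) / (Fintype.card F₀ - 1) := by
    have h1 := (Units.map (ι : F₀ →* F)).range.card_mul_index
    have h2 : Nat.card (Units.map (ι : F₀ →* F)).range = Fintype.card F₀ - 1 := by
      have hinj : Function.Injective (Units.map (ι : F₀ →* F)) := Units.map_injective ι.injective
      rw [← Nat.card_congr (MonoidHom.ofInjective hinj).toEquiv, GLSL.card_units_field]
    rw [h2, GLSL.card_units_field] at h1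
    have h3 : 0 < Fintype.card F₀ - 1 := by
      have := Fintype.one_lt_card (α := F₀)
      omega
    rw [← h1, Nat.mul_div_cancel_left _ h3]
  rw [hmap, cyclic_index_sup, IsCyclic.index_powMonoidHom_range, hidx, GLSL.card_units_field, Nat.gcd_comm (Fintype.card F - 1) 2]

end Cfsg.Agent.H8.SpAut
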