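import Mathlib
import Cfsg.Agent.H8.SpAut4
import Cfsg.Agent.H8.Sp4I

set_option autoImplicit false
set_option linter.all false

/-! Orders of the automorphism groups of `PSp`. -/

namespace Cfsg.Agent.H8.SpAut

open Matrix Cfsg.Agent.Lib.Symp Cfsg.Agent.Lib.AutPSL Cfsg.Agent.Lib.AutSp Cfsg.Agent.Lib

variable {m : ℕ} {F : Type*} [Field F]

local notation "VV" => (Fin m ⊕ Fin m → F)
local notation "MM" => Matrix (Fin m ⊕ Fin m) (Fin m ⊕ Fin m) F
local notation "SP" => Matrix.symplecticGroup (Fin m) F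
local notation "PSP" => Cfsg.PSp m F
local notation "BB" => Cfsg.sympForm m F
local notation "GG" => (Cfsg.GSp m F)

/-- the standard automorphisms -/
def stdG (m : ℕ) (F : Type*) [Field F] : Subgroup (MulAut (Cfsg.PSp m F)) where
  carrier := {α | ∃ (g : Cfsg.GSp m F) (σ : F ≃+* F), α = AutSp.delta g * AutSp.psi σ}
  one_mem' := ⟨1, 1, by rw [map_one, map_one, one_mul]⟩
  mul_mem' := by
    rintro _ _ ⟨g, σ, rfl⟩ ⟨h, τ, rfl⟩
    refine ⟨g * AutSp.faG σ h, σ * τ, ?_⟩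
    rw [map_mul, map_mul]
    calc _ = AutSp.delta g * (AutSp.psi σ * AutSp.delta h) * AutSp.psi τ := by group
      _ = _ := by rw [AutSp.psi_delta]; group
  inv_mem' := by
    rintro _ ⟨g, σ, rfl⟩
    refine ⟨AutSp.faG σ⁻¹ g⁻¹, σ⁻¹, ?_⟩
    rw [← AutSp.psi_delta, map_inv, map_inv, _root_.mul_inv_rev]

theorem mem_stdG {α : MulAut PSP} : α ∈ stdG m F ↔ ∃ (g : Cfsg.GSp m F) (σ : F ≃+* F), α = AutSp.delta g * AutSp.psi σ := Iff.rfl

theorem card_stdG (hm : 1 ≤ m) : Nat.card (stdG m F) = Nat.card (AutSp.delta (m := m) (F := F)).range * Nat.card (F ≃+* F) := by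
  rw [← Nat.card_prod]
  symm
  apply Nat.card_congr
  refine Equiv.ofBijective (fun x : (AutSp.delta (m := m) (F := F)).range × (F ≃+* F) =>
    (⟨x.1.1 * AutSp.psi x.2, by obtain ⟨g, hg⟩ := x.1.2; exact ⟨g, x.2, by rw [hg]⟩⟩ : stdG m F)) ⟨?_, ?_⟩
  · rintro ⟨⟨_, ⟨g, rfl⟩⟩, σ⟩ ⟨⟨_, ⟨h, rfl⟩⟩, τ⟩ hgh
    have h1 : (AutSp.delta g * AutSp.psi σ : MulAut PSP) = AutSp.delta h * AutSp.psi τ := congrArg Subtype.val hgh
    have h2 : (AutSp.delta (h⁻¹ * g) * AutSp.psi (σ * τ⁻¹) : MulAut PSP) = 1 := by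
      rw [map_mul, map_mul, map_inv, map_inv]
      calc _ = (AutSp.delta h)⁻¹ * (AutSp.delta g * AutSp.psi σ) * (AutSp.psi τ)⁻¹ := by group
        _ = _ := by rw [h1]; group
    have h3 := (kernel hm _ _ h2).1
    rw [mul_inv_eq_one] at h3
    subst h3
    have h4 := mul_right_cancel h1
    exact Prod.ext (Subtype.ext h4) rfl
  · rintro ⟨_, ⟨g, σ, rfl⟩⟩
    exact ⟨(⟨_, ⟨g, rfl⟩⟩, σ), rfl⟩

theorem conj_inj (hm : 1 ≤ m) : Function.Injective (MulAut.conj : PSP →* MulAut PSP) := by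
  rw [injective_iff_map_eq_one]
  intro x hx
  obtain ⟨s, rfl⟩ := mk_surj x
  rw [← delta_toG] at hx
  obtain ⟨c, hc⟩ := (delta_eq_one_iff hm _).1 hx
  rw [gm_toG] at hc
  have : s ∈ Subgroup.center SP := by
    rw [Subgroup.mem_center_iff]
    intro t
    apply Subtype.ext
    show (t : MM) * (s : MM) = (s : MM) * (t : MM)
    rw [hc, smul_mul_assoc, mul_smul_comm, one_mul, mul_one]
  exact (QuotientGroup.eq_one_iff s).2 this

theorem card_inn (hm : 1 ≤ m) : Nat.card (Cfsg.Inn PSP) = Nat.card PSP :=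
  (Nat.card_congr (MonoidHom.ofInjective (conj_inj hm)).toEquiv).symm

theorem card_delta [Fintype F] (hm : 1 ≤ m) :
    Nat.card (AutSp.delta (m := m) (F := F)).range = Nat.gcd 2 (Fintype.card F - 1) * Nat.card PSP := by
  have h1 : (Cfsg.Inn PSP).relIndex (AutSp.delta (m := m) (F := F)).range = Nat.gcd 2 (Fintype.card F - 1) := by
    rw [← Subgroup.index_comap]
    have h2 : (Cfsg.Inn PSP).comap (AutSp.delta (m := m) (F := F)) = ((powMonoidHom 2 : Fˣ →* Fˣ).range).comap (multH hm) := by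
      ext g
      exact delta_mem_inn_iff hm g
    rw [h2, Subgroup.index_comap_of_surjective _ (multH_surj hm), IsCyclic.index_powMonoidHom_range, GLSL.card_units_field, Nat.gcd_comm]
  rw [← h1, ← card_inn hm, mul_comm]
  have h3 := ((Cfsg.Inn PSP).subgroupOf (AutSp.delta (m := m) (F := F)).range).card_mul_index
  rw [Nat.card_congr (Subgroup.subgroupOfEquivOfLe (inn_le (m := m) (F := F))).toEquiv] at h3
  exact h3.symm

/-- the standard automorphisms are everything outside `Sp_4(2^f)` -/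
theorem stdG_top [Finite F] (hm : 2 ≤ m) (h : m = 2 → (2 : F) ≠ 0) : stdG m F = ⊤ := by
  rw [eq_top_iff]
  intro α _
  obtain ⟨k, rfl⟩ : ∃ k, m = k + 1 := ⟨m - 1, by omega⟩
  obtain ⟨g, σ, hα⟩ := Cfsg.Agent.H8.SpTrans.aut_std (F := F) (show 1 ≤ k by omega) (fun hk => h (by omega)) α
  exact ⟨g, σ, hα⟩

section char2

open Cfsg.Agent.H8.SpTrans Cfsg.Agent.H8.GrEven Cfsg.Agent.H8.GrPi Cfsg.Agent.H8.Sp4G Cfsg.Agent.H8.GrStd Cfsg.Agent.H8.Theta Cfsg.Agent.H8.GrShort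

variable [Finite F]

/-- the exceptional automorphism of `PSp_4(2^f)` -/
noncomputable def Gam (h2 : (2 : F) = 0) : MulAut (Cfsg.PSp 2 F) :=
  (Ψ (k := 1) (F := F)).trans ((iq 1 (id1 F) hid1 (gam h2)).trans (Ψ (k := 1) (F := F)).symm)

theorem Gam_apply (h2 : (2 : F) = 0) (x : Cfsg.PSp 2 F) : Ψ (k := 1) (Gam h2 x) = iq 1 (id1 F) hid1 (gam h2) (Ψ (k := 1) x) := by
  exact (Ψ (k := 1) (F := F)).apply_symm_apply _

/-- transport of standard automorphisms -/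
theorem std_of (α : MulAut (Cfsg.PSp 2 F)) (g : GL (Fin (2 * 1 + 1 + 1)) F) (hg : g ∈ GJ (id1 F) (Jm (ea 1 F)).1) (σ : F ≃+* F)
    (e : ∀ x, Ψ (k := 1) (α x) = iq 1 (id1 F) hid1 (cgK (id1 F) g hg * flK (id1 F) σ) (Ψ (k := 1) x)) : α ∈ stdG 2 F := by
  refine ⟨⟨RG.symm g, mem_GSp_of (k := 1) hg⟩, σ, ?_⟩
  ext x
  obtain ⟨A, rfl⟩ := QuotientGroup.mk_surjective x
  apply (Ψ (k := 1) (F := F)).injective
  rw [e]
  show q 1 (id1 F) hid1 ((cgK (id1 F) g hg) (flK (id1 F) σ (Φ A))) = q 1 (id1 F) hid1 (Φ (k := 1) (cjS _ (faS σ A)))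
  congr 1
  apply Subtype.ext
  apply Subtype.ext
  show g.1 * ((R 1 A.1).map σ) * g⁻¹.1 = R 1 ((RG.symm g).1 * (A.1.map σ) * ((RG.symm g)⁻¹).1)
  obtain ⟨h, rfl⟩ := (RG (k := 1) (F := F)).surjective g
  rw [MulEquiv.symm_apply_apply, map_mul, map_mul, R_map, ← map_inv]
  rfl

theorem std_or (h2 : (2 : F) = 0) (α : MulAut (Cfsg.PSp 2 F)) : α ∈ stdG 2 F ∨ Gam h2 * α ∈ stdG 2 F := by
  obtain ⟨g, hg, σ, e⟩ := main5 h2 ((Ψ (k := 1) (F := F)).symm.trans (α.trans (Ψ (k := 1))))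
  rcases e with e | e
  · left
    apply std_of α g hg σ
    intro x
    rw [← e]
    show _ = Ψ (k := 1) (α ((Ψ (k := 1) (F := F)).symm (Ψ (k := 1) x)))
    rw [MulEquiv.symm_apply_apply]
  · right
    apply std_of _ g hg σ
    intro x
    rw [← e]
    show Ψ (k := 1) (Gam h2 (α x)) = iq 1 (id1 F) hid1 (gam h2) (Ψ (k := 1) (α ((Ψ (k := 1) (F := F)).symm (Ψ (k := 1) x))))
    rw [MulEquiv.symm_apply_apply, Gam_apply]

end char2

end Cfsg.Agent.H8.SpAut
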