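import Mathlib
import Cfsg.Agent.H8.SpAut5

set_option autoImplicit false
set_option linter.all false

/-! The automorphism group of `PSp_4(2^f)`. -/

namespace Cfsg.Agent.H8.SpAut

open Matrix Cfsg.Agent.Lib.Symp Cfsg.Agent.Lib.AutPSL Cfsg.Agent.Lib.AutSp Cfsg.Agent.Lib
open Cfsg.Agent.H8.SpTrans Cfsg.Agent.H8.GrEven Cfsg.Agent.H8.GrPi Cfsg.Agent.H8.Sp4G Cfsg.Agent.H8.GrStd Cfsg.Agent.H8.Theta Cfsg.Agent.H8.GrShort

variable {F : Type*} [Field F] [Finite F]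

/-- the square of the exceptional automorphism -/
theorem Gam_sq (h2 : (2 : F) = 0) (σ : F ≃+* F) (hσ : ∀ x, σ x = x ^ 2) : Gam h2 * Gam h2 = (AutSp.psi σ : MulAut (Cfsg.PSp 2 F)) := by
  ext x
  obtain ⟨A, rfl⟩ := QuotientGroup.mk_surjective x
  apply (Ψ (k := 1) (F := F)).injective
  rw [MulAut.mul_apply, Gam_apply, Gam_apply]
  show q 1 (id1 F) hid1 (gam h2 (gam h2 (Φ (k := 1) A))) = q 1 (id1 F) hid1 (Φ (k := 1) (faS σ A))
  congr 1
  apply Gr_ext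
  intro r c
  have e1 := gamH_gamH h2 (Φ (k := 1) A) r c
  refine Eq.trans e1 ?_
  show (R 1 A.1 r c) ^ 2 = R 1 (A.1.map σ) r c
  rw [R_map]
  exact (hσ _).symm

omit [Finite F] in
theorem tr_sub_one (w : Fin 2 ⊕ Fin 2 → F) (c : F) (x y : Fin 2 ⊕ Fin 2) :
    (tr w c).1 x y - (1 : Matrix (Fin 2 ⊕ Fin 2) (Fin 2 ⊕ Fin 2) F) x y = c * (w x * (Matrix.J (Fin 2) F *ᵥ w) y) := by
  have e : (tr w c).1 = 1 + c • Matrix.vecMulVec w (Matrix.J (Fin 2) F *ᵥ w) := rfl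
  rw [e, Matrix.add_apply, Matrix.smul_apply, Matrix.vecMulVec_apply, smul_eq_mul]
  ring

omit [Finite F] in
theorem tr_rank (w : Fin 2 ⊕ Fin 2 → F) (c : F) (x y z t : Fin 2 ⊕ Fin 2) (h1 : x ≠ y) (h2 : z ≠ t) (h3 : x ≠ t) (h4 : z ≠ y) :
    (tr w c).1 x y * (tr w c).1 z t = (tr w c).1 x t * (tr w c).1 z y := by
  have e : ∀ a b : Fin 2 ⊕ Fin 2, a ≠ b → (tr w c).1 a b = c * (w a * (Matrix.J (Fin 2) F *ᵥ w) b) := by
    intro a b hab
    have := tr_sub_one w c a b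
    rwa [Matrix.one_apply_ne hab, sub_zero] at this
  rw [e x y h1, e z t h2, e x t h3, e z y h4]
  ring

/-- the test vector -/
def u0 (F : Type*) [Field F] : Fin 2 ⊕ Fin 2 → F := Pi.single (Sum.inl 1) 1

theorem Gam_tr_ne (h2 : (2 : F) = 0) {s : MulAut (Cfsg.PSp 2 F)} (hs : s ∈ stdG 2 F) :
    Gam h2 (AutSp.mk (tr (u0 F) 1)) ≠ s (AutSp.mk (tr (u0 F) 1)) := by
  obtain ⟨g, σ, rfl⟩ := hs
  intro hg
  obtain ⟨c, hc⟩ := AutSp.mem_GSp.mp g.2
  -- the long root element is a transvection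
  let u : Fin 2 ⊕ Fin 2 → F := Pi.single (Sum.inl 1) 1
  have hA : (Φ (k := 1) (tr u 1) : Gr (id1 F) (ea 1 F)) = xl (k := 1) (id1 F) 1 := by
    apply Gr_ext
    intro r c
    rw [xl_coe]
    show R 1 (tr u 1).1 r c = Nx 1 r c
    rw [SpTrans.R_apply, tr_coe, Cfsg.sympTransvection, Matrix.add_apply, Matrix.smul_apply, Matrix.vecMulVec_apply]
    have hJ : ∀ y : Fin 2 ⊕ Fin 2, (Matrix.J (Fin 2) F *ᵥ u) y = if y = Sum.inr 1 then 1 else 0 := by
      intro y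
      have hu : u = Pi.single (Sum.inl 1) 1 := rfl
      rw [hu, Matrix.mulVec_single_one]
      rcases y with j | j
      · simp [Matrix.J]
      · simp [Matrix.J, Matrix.one_apply]
    rw [hJ]
    fin_cases r <;> fin_cases c <;> simp [Nx, ei, u, Matrix.one_apply, Pi.single_apply, Fin.ext_iff]
  obtain ⟨B, hB⟩ := (Φ (k := 1) (F := F)).surjective (xs (id1 F) hid1 h01 1)
  have h3 : Gam h2 (AutSp.mk (tr u 1)) = AutSp.mk B := by
    apply (Ψ (k := 1) (F := F)).injective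
    rw [Gam_apply]
    show q 1 (id1 F) hid1 (gam h2 (Φ (k := 1) (tr u 1))) = q 1 (id1 F) hid1 (Φ (k := 1) B)
    rw [hA, gam_xl, hB]; rfl
  have hg' : Gam h2 (AutSp.mk (tr u 1)) = (AutSp.delta g * AutSp.psi σ : MulAut (Cfsg.PSp 2 F)) (AutSp.mk (tr u 1)) := hg
  rw [hg', act_mk_tr g σ c.ne_zero hc] at h3
  obtain ⟨r, hr, hrB⟩ := (AutSp.mk_eq_iff _ _).1 h3
  have hr1 : r = 1 := by
    have : (r - 1) ^ 2 = 0 := by linear_combination hr + (1 - r) * h2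
    exact sub_eq_zero.1 (pow_eq_zero_iff two_ne_zero |>.1 this)
  have hBt : B = tr (gm g *ᵥ fun i => σ (u i)) ((c : F)⁻¹ * σ 1) := by
    apply ext_sp
    intro x
    rw [hrB, hr1, one_smul]
  have hent : ∀ r c : Fin 4, B.1 ((ei 1).symm r) ((ei 1).symm c) = Mx 1 r c := by
    intro r c
    rw [← xs_coe h2, ← hB]; rfl
  rw [hBt] at hent
  have := tr_rank (gm g *ᵥ fun i => σ (u i)) ((c : F)⁻¹ * σ 1) ((ei 1).symm (0 : Fin 4)) ((ei 1).symm (1 : Fin 4)) ((ei 1).symm (2 : Fin 4)) ((ei 1).symm (3 : Fin 4))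
    (fun h => absurd ((ei 1).symm.injective h) (by decide)) (fun h => absurd ((ei 1).symm.injective h) (by decide))
    (fun h => absurd ((ei 1).symm.injective h) (by decide)) (fun h => absurd ((ei 1).symm.injective h) (by decide))
  rw [hent, hent, hent, hent] at this
  simp [Mx] at this

theorem Gam_not_std (h2 : (2 : F) = 0) : Gam h2 ∉ stdG 2 F := fun h => Gam_tr_ne h2 h rfl

theorem index_std (h2 : (2 : F) = 0) : (stdG 2 F).index = 2 := by
  rw [Subgroup.index_eq_two_iff']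
  refine ⟨Gam h2, fun b => ?_⟩
  by_cases hb : b ∈ stdG 2 F
  · right
    refine ⟨hb, fun h => ?_⟩
    apply Gam_not_std h2
    have := mul_mem h (inv_mem hb)
    rwa [mul_inv_cancel_right] at this
  · left
    exact ⟨(std_or h2 b).resolve_left hb, hb⟩

omit [Finite F] in
/-- the Frobenius automorphism -/
theorem exists_frob [Fintype F] {f : ℕ} (hf : 1 ≤ f) (hF : Fintype.card F = 2 ^ f) :
    ∃ σ : F ≃+* F, (∀ x, σ x = x ^ 2) ∧ ∀ τ : F ≃+* F, τ ∈ Subgroup.zpowers σ := by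
  haveI : Fact (Nat.Prime 2) := ⟨Nat.prime_two⟩
  haveI : CharP F 2 := charP_of_card_eq_prime_pow hF
  let σ : F ≃+* F := frobeniusEquiv F 2
  have hσ : ∀ x, σ x = x ^ 2 := fun x => frobeniusEquiv_apply F 2 x
  refine ⟨σ, hσ, ?_⟩
  have hfix : Nat.card (FinGal.fixF σ) = 2 := by
    have : (FinGal.fixF σ : Set F) = {0, 1} := by
      ext x
      show σ x = x ↔ _
      rw [hσ]
      constructor
      · intro h
        have : x * (x - 1) = 0 := by linear_combination h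
        rcases mul_eq_zero.1 this with h | h
        · left; exact h
        · right; exact sub_eq_zero.1 h
      · rintro (rfl | rfl) <;> simp
    have e : Nat.card (FinGal.fixF σ) = Nat.card ({0, 1} : Set F) := by
      rw [← this]; rfl
    rw [e, Nat.card_coe_set_eq, Set.ncard_pair zero_ne_one]
  have h1 := FinGal.card_fixF σ
  rw [hfix, Nat.card_eq_fintype_card, hF] at h1
  have h3 : f = orderOf σ := Nat.pow_right_injective le_rfl h1
  haveI : Finite (F ≃+* F) := Finite.of_injective (fun σ : F ≃+* F => (σ : F → F)) DFunLike.coe_injective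
  have h4 : Subgroup.zpowers σ = ⊤ := by
    apply Subgroup.eq_top_of_card_eq
    rw [Nat.card_zpowers, ← h3, FinGal.card_gal F 2 hF hf]
  intro τ
  rw [h4]; trivial

theorem out_cyclic (h2 : (2 : F) = 0) (σ : F ≃+* F) (hσ : ∀ x, σ x = x ^ 2) (hgen : ∀ τ : F ≃+* F, τ ∈ Subgroup.zpowers σ)
    (x : Cfsg.Out (Cfsg.PSp 2 F)) : x ∈ Subgroup.zpowers (QuotientGroup.mk (Gam h2) : Cfsg.Out (Cfsg.PSp 2 F)) := by
  obtain ⟨α, rfl⟩ := QuotientGroup.mk_surjective x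
  have hdel : ∀ g : Cfsg.GSp 2 F, (QuotientGroup.mk (AutSp.delta g) : Cfsg.Out (Cfsg.PSp 2 F)) = 1 := by
    intro g
    rw [QuotientGroup.eq_one_iff, delta_mem_inn_iff (by omega : 1 ≤ 2)]
    obtain ⟨b, hb⟩ := isSquare_of_two h2 (multH (by omega : 1 ≤ 2) g)
    exact ⟨b, hb⟩
  have hpsi : ∀ τ : F ≃+* F, (QuotientGroup.mk (AutSp.psi τ) : Cfsg.Out (Cfsg.PSp 2 F)) ∈ Subgroup.zpowers (QuotientGroup.mk (Gam h2) : Cfsg.Out (Cfsg.PSp 2 F)) := by
    intro τ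
    obtain ⟨n, rfl⟩ := hgen τ
    have e : (QuotientGroup.mk (AutSp.psi σ) : Cfsg.Out (Cfsg.PSp 2 F)) = (QuotientGroup.mk (Gam h2)) ^ 2 := by
      rw [← Gam_sq h2 σ hσ, pow_two]; rfl
    show (QuotientGroup.mk (AutSp.psi (σ ^ n)) : Cfsg.Out (Cfsg.PSp 2 F)) ∈ _
    rw [map_zpow]
    have e2 : (QuotientGroup.mk ((AutSp.psi σ : MulAut (Cfsg.PSp 2 F)) ^ n) : Cfsg.Out (Cfsg.PSp 2 F)) = (QuotientGroup.mk (AutSp.psi σ)) ^ n := rfl
    rw [e2, e]
    exact zpow_mem (pow_mem (Subgroup.mem_zpowers _) _) _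
  have hstd : ∀ β ∈ stdG 2 F, (QuotientGroup.mk β : Cfsg.Out (Cfsg.PSp 2 F)) ∈ Subgroup.zpowers (QuotientGroup.mk (Gam h2) : Cfsg.Out (Cfsg.PSp 2 F)) := by
    rintro _ ⟨g, τ, rfl⟩
    have e : (QuotientGroup.mk (AutSp.delta g * AutSp.psi τ) : Cfsg.Out (Cfsg.PSp 2 F)) = QuotientGroup.mk (AutSp.delta g) * QuotientGroup.mk (AutSp.psi τ) := rfl
    rw [e, hdel, one_mul]
    exact hpsi τ
  rcases std_or h2 α with h | h
  · exact hstd α h
  · have h5 := hstd _ h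
    have e : (QuotientGroup.mk (Gam h2 * α) : Cfsg.Out (Cfsg.PSp 2 F)) = QuotientGroup.mk (Gam h2) * QuotientGroup.mk α := rfl
    rw [e] at h5
    exact (Subgroup.mul_mem_cancel_left _ (Subgroup.mem_zpowers _)).1 h5

end Cfsg.Agent.H8.SpAut
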