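import Mathlib
import Cfsg.Agent.H8.SpAut6
import Cfsg.Agent.H8.CoreAbs

set_option autoImplicit false
set_option linter.all false

/-! Cores of centralizers of field automorphisms of `PSp`. -/

namespace Cfsg.Agent.H8.SpAut

open Matrix Cfsg.Agent.Lib.Symp Cfsg.Agent.Lib.AutPSL Cfsg.Agent.Lib.AutSp Cfsg.Agent.Lib

variable {m : ℕ} {F : Type*} [Field F]

local notation "VV" => (Fin m ⊕ Fin m → F)
local notation "MM" => Matrix (Fin m ⊕ Fin m) (Fin m ⊕ Fin m) F
local notation "SP" => Matrix.symplecticGroup (Fin m) F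
local notation "PSP" => Cfsg.PSp m F
local notation "BB" => Cfsg.sympForm m F
local notation "GG" => (Cfsg.GSp m F)

/-- the symplectic group over a subfield in the automorphism group -/
noncomputable def Js (m : ℕ) {F : Type*} [Field F] (K : Subfield F) : Matrix.symplecticGroup (Fin m) K →* MulAut (Cfsg.PSp m F) :=
  (AutSp.delta.comp (mapG K.subtype)).comp toG

theorem Js_apply (K : Subfield F) (s : Matrix.symplecticGroup (Fin m) K) : Js m K s = AutSp.delta (mapG K.subtype (toG s)) := rfl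

theorem mapS_mem (K : Subfield F) (s : Matrix.symplecticGroup (Fin m) K) : (s.1.map K.subtype) ∈ SP := by
  rw [mem_iff_preserves]
  intro u v
  have := iota_sim (F := F) (ι := K.subtype) (A := s.1) (c := 1) (fun u v => by rw [preserves, one_mul]) u v
  rwa [one_mul] at this

theorem Js_eq (K : Subfield F) (s : Matrix.symplecticGroup (Fin m) K) : Js m K s = MulAut.conj (AutSp.mk (⟨s.1.map K.subtype, mapS_mem K s⟩ : SP)) := by
  rw [← delta_toG, Js_apply]
  congr 1
  apply Subtype.ext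
  apply Units.ext
  rfl

theorem Js_le_inn (K : Subfield F) : (Js m K).range ≤ Cfsg.Inn PSP := by
  rintro _ ⟨s, rfl⟩
  rw [Js_eq]
  exact ⟨_, rfl⟩

theorem Js_comm (hm : 1 ≤ m) (σ : F ≃+* F) : (Js m (FinGal.fixF σ)).range ≤ Subgroup.centralizer {AutSp.psi σ} := by
  rintro _ ⟨s, rfl⟩
  rw [Js_apply, mem_centralizer_iff' hm]
  refine ⟨1, ?_⟩
  rw [one_smul]
  ext i j
  show σ ((s.1 i j : FinGal.fixF σ) : F) = _
  exact (s.1 i j).2

theorem Js_norm (hm : 1 ≤ m) {σ : F ≃+* F} {r : ℕ} (hr : orderOf σ = r) (hr0 : 0 < r) (c : MulAut PSP) (hc : c ∈ Cfsg.Inn PSP)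
    (hcx : c * AutSp.psi σ = AutSp.psi σ * c) (l : MulAut PSP) (hl : l ∈ (Js m (FinGal.fixF σ)).range) :
    c * l * c⁻¹ ∈ (Js m (FinGal.fixF σ)).range := by
  obtain ⟨g, rfl⟩ := inn_le hc
  obtain ⟨s, rfl⟩ := hl
  have h1 : (AutSp.delta g : MulAut PSP) ∈ Subgroup.centralizer {(AutSp.psi σ : MulAut PSP)} := by
    rw [Subgroup.mem_centralizer_singleton_iff]; exact hcx
  obtain ⟨d, hd⟩ := (mem_centralizer_iff' hm σ g).1 h1
  obtain ⟨b, g0, hb, h2⟩ := exists_descend' hm (FinGal.fixF σ).subtype (fun x hx => ⟨⟨x, hx⟩, rfl⟩) hr hr0 hd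
  have h3 : (AutSp.delta g : MulAut PSP) = AutSp.delta (mapG (FinGal.fixF σ).subtype g0) := by
    symm
    rw [delta_eq_iff hm]; exact ⟨b, h2⟩
  obtain ⟨s', hs'⟩ := exists_toG (g := g0 * toG s * g0⁻¹) (by
    have : mult (g0 * toG s * g0⁻¹) = multH hm (g0 * toG s * g0⁻¹) := rfl
    rw [this, map_mul, map_mul, map_inv, mul_comm, ← mul_assoc, inv_mul_cancel, one_mul]
    have h4 := (mem_ker_multH hm (toG s)).2 ⟨s, rfl⟩
    rw [MonoidHom.mem_ker] at h4
    rw [h4]; rfl)
  refine ⟨s', ?_⟩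
  rw [h3, Js_apply, Js_apply, hs', map_mul, map_mul, map_mul, map_mul, map_inv, map_inv]

/-- the fixed points of an element centralizing the subfield group -/
theorem fix_of_comm (hm : 1 ≤ m) (K : Subfield F) (β : MulAut PSP) (h : ∀ l ∈ (Js m K).range, β * l = l * β) (u : VV) (hu : ∀ i, u i ∈ K) (a : F) (ha : a ∈ K) :
    β (AutSp.mk (tr u a)) = AutSp.mk (tr u a) := by
  let s : Matrix.symplecticGroup (Fin m) K := tr (fun i => (⟨u i, hu i⟩ : K)) (⟨a, ha⟩ : K)
  have hs : (⟨s.1.map K.subtype, mapS_mem K s⟩ : SP) = tr u a := by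
    apply ext_sp
    intro x
    -- compare matrices
    have : s.1.map K.subtype = (tr u a).1 := by
      ext i j
      show K.subtype (s.1 i j) = _
      have e1 : s.1 i j = (1 : Matrix (Fin m ⊕ Fin m) (Fin m ⊕ Fin m) K) i j + (⟨a, ha⟩ : K) * ((⟨u i, hu i⟩ : K) * (Matrix.J (Fin m) K *ᵥ (fun i => (⟨u i, hu i⟩ : K))) j) := rfl
      have e2 : (tr u a).1 i j = (1 : MM) i j + a * (u i * (Matrix.J (Fin m) F *ᵥ u) j) := rfl
      rw [e1, e2, map_add, map_mul, map_mul]
      have e3 : K.subtype ((1 : Matrix (Fin m ⊕ Fin m) (Fin m ⊕ Fin m) K) i j) = (1 : MM) i j := by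
        rw [Matrix.one_apply, Matrix.one_apply]; split_ifs <;> simp
      have e4 : K.subtype ((Matrix.J (Fin m) K *ᵥ (fun i => (⟨u i, hu i⟩ : K))) j) = (Matrix.J (Fin m) F *ᵥ u) j := by
        have hJ : ∀ j i, K.subtype (Matrix.J (Fin m) K j i) = Matrix.J (Fin m) F j i := by
          intro j i
          rcases j with j | j <;> rcases i with i | i
          · show K.subtype 0 = 0; simp
          · show K.subtype ((-1 : Matrix (Fin m) (Fin m) K) j i) = (-1 : Matrix (Fin m) (Fin m) F) j i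
            rw [Matrix.neg_apply, Matrix.neg_apply, map_neg, Matrix.one_apply, Matrix.one_apply]; split_ifs <;> simp
          · show K.subtype ((1 : Matrix (Fin m) (Fin m) K) j i) = (1 : Matrix (Fin m) (Fin m) F) j i
            rw [Matrix.one_apply, Matrix.one_apply]; split_ifs <;> simp
          · show K.subtype 0 = 0; simp
        simp only [Matrix.mulVec, dotProduct, map_sum, map_mul, hJ]
        rfl
      rw [e3, e4]; rfl
    show (s.1.map K.subtype) *ᵥ x = _
    rw [this]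
  have h1 := h _ ⟨s, rfl⟩
  rw [Js_eq, hs] at h1
  have h2 : MulAut.conj (β (AutSp.mk (tr u a))) = MulAut.conj (AutSp.mk (tr u a)) := by
    have e : β * MulAut.conj (AutSp.mk (tr u a)) * β⁻¹ = MulAut.conj (β (AutSp.mk (tr u a))) := by
      ext y
      show β (AutSp.mk (tr u a) * β⁻¹ y * (AutSp.mk (tr u a))⁻¹) = β (AutSp.mk (tr u a)) * y * (β (AutSp.mk (tr u a)))⁻¹
      rw [map_mul, map_mul, map_inv, MulAut.apply_inv_self]
    rw [← e, h1, mul_inv_cancel_right]
  exact conj_inj hm h2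

/-- elements of the Galois group fixing the fixed field of `σ` -/
theorem mem_zpowers_of_fix [Finite F] (σ τ : F ≃+* F) (h : ∀ t ∈ FinGal.fixF σ, τ t = t) : τ ∈ Subgroup.zpowers σ := by
  haveI : Finite (F ≃+* F) := Finite.of_injective (fun σ : F ≃+* F => (σ : F → F)) DFunLike.coe_injective
  letI : MulSemiringAction (F ≃+* F) F := RingAut.applyMulSemiringAction
  have hfix : ∀ x : FixedPoints.subfield (Subgroup.zpowers σ) F, x.1 ∈ FinGal.fixF σ := by
    intro x
    exact x.2 ⟨σ, Subgroup.mem_zpowers σ⟩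
  let τ' : F →ₐ[FixedPoints.subfield (Subgroup.zpowers σ) F] F :=
    { (τ : F →+* F) with
      commutes' := fun x => h _ (hfix x) }
  obtain ⟨g, hg⟩ := (FixedPoints.toAlgHom_bijective (Subgroup.zpowers σ) F).2 τ'
  have : (g : F ≃+* F) = τ := by
    ext x
    have := congrArg (fun f : F →ₐ[FixedPoints.subfield (Subgroup.zpowers σ) F] F => f x) hg
    exact this
  rw [← this]
  exact g.2

theorem centralizer_Js [Finite F] (hm : 2 ≤ m) (σ : F ≃+* F) (β : MulAut PSP)
    (h : ∀ l ∈ (Js m (FinGal.fixF σ)).range, β * l = l * β) : β ∈ Subgroup.zpowers (AutSp.psi σ : MulAut PSP) := by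
  have hm1 : 1 ≤ m := by omega
  have hβ : β ∈ stdG m F := by
    by_cases h2 : m = 2 ∧ (2 : F) = 0
    · obtain ⟨rfl, h2⟩ := h2
      rcases std_or h2 β with h3 | h3
      · exact h3
      · exfalso
        apply Gam_tr_ne h2 h3
        rw [MulAut.mul_apply, fix_of_comm hm1 _ β h (u0 F) ?_ 1 (Subfield.one_mem _)]
        intro i
        by_cases hi : i = Sum.inl 1
        · subst hi; rw [u0, Pi.single_eq_same]; exact Subfield.one_mem _
        · rw [u0, Pi.single_eq_of_ne hi]; exact Subfield.zero_mem _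
    · rw [stdG_top hm (fun h3 h4 => h2 ⟨h3, h4⟩)]; trivial
  obtain ⟨g, τ, rfl⟩ := hβ
  obtain ⟨h1, h2⟩ := kernel_gen hm1 (FinGal.fixF σ) g τ (by
    intro u hu hu0
    obtain ⟨c, hc⟩ := AutSp.mem_GSp.mp g.2
    have h3 := fix_of_comm hm1 _ _ h u hu 1 (Subfield.one_mem _)
    rw [act_mk_tr g τ c.ne_zero hc] at h3
    have h4 := mk_tr_inj h3
    refine exists_smul_of_tr_eq ?_ (gm_ne_zero g ?_) h4
    · rw [map_one, mul_one]; exact inv_ne_zero c.ne_zero
    · intro h0
      apply hu0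
      funext i
      have := congrFun h0 i
      simpa using this)
  obtain ⟨c, hc⟩ := h2
  rw [delta_eq_one_of_scalar g hc, one_mul]
  obtain ⟨n, hn⟩ := mem_zpowers_of_fix σ τ h1
  refine ⟨n, ?_⟩
  show (AutSp.psi σ : MulAut PSP) ^ n = AutSp.psi τ
  rw [← map_zpow]
  exact congrArg _ hn

end Cfsg.Agent.H8.SpAut
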