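import Mathlib
import Cfsg.Agent.H8.Ort10
import Cfsg.Agent.H8.SpCore

set_option autoImplicit false
set_option linter.all false

/-! Centralizers of subfield orthogonal groups. -/

namespace Cfsg.Agent.H8.Ort

open scoped commutatorElement
open Matrix Cfsg.Agent.H8.GrStd Cfsg.Agent.H8.AutPSL Cfsg.Agent.Lib Cfsg.Agent.H8.MSys Cfsg.Agent.Lib.Orth
  Cfsg.Agent.H8.Theta Cfsg.Agent.H8.GrCen Cfsg.Agent.H8.GrOdd
open QuadraticMap Module

section abs

variable {F : Type*} [Field F] {V : Type*} [AddCommGroup V] [Module F V] {Q : QuadraticForm F V}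
variable {F₀ : Type*} [Field F₀] [Finite F₀] {V₀ : Type*} [AddCommGroup V₀] [Module F₀ V₀] [FiniteDimensional F₀ V₀] {Q₀ : QuadraticForm F₀ V₀}

/-- base change data and semilinear maps commuting with the Siegel transformations -/
structure CR (Q₀ : QuadraticForm F₀ V₀) (Q : QuadraticForm F V) (ι : F₀ →+* F) (j : V₀ → V) (σ : F ≃+* F) (T : V₀ → V) : Prop where
  jadd : ∀ x y, j (x + y) = j x + j y
  jsmul : ∀ (a : F₀) x, j (a • x) = ι a • j x
  jQ : ∀ x, Q (j x) = ι (Q₀ x)
  add : ∀ x y, T (x + y) = T x + T y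
  smul : ∀ (a : F₀) x, T (a • x) = σ (ι a) • T x
  inj : ∀ x, T x = 0 → x = 0
  comm : ∀ (w z : V₀) (hw : Q₀ w = 0) (hwz : polar Q₀ w z = 0) (hw' : Q (j w) = 0) (hwz' : polar Q (j w) (j z) = 0) (x : V₀),
    (sg Q (j w) (j z) hw' hwz').1 (T x) = T ((sg Q₀ w z hw hwz).1 x)

variable {ι : F₀ →+* F} {j : V₀ → V} {σ : F ≃+* F} {T : V₀ → V} (hT : CR Q₀ Q ι j σ T)

include hT

omit [Finite F₀] [FiniteDimensional F₀ V₀] in
theorem CR.jpol (x y : V₀) : polar Q (j x) (j y) = ι (polar Q₀ x y) := by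
  rw [polar, polar, ← hT.jadd, hT.jQ, hT.jQ, hT.jQ, map_sub, map_sub]

omit [Finite F₀] [FiniteDimensional F₀ V₀] in
theorem CR.neg (x : V₀) : T (-x) = - T x := by
  have h := hT.smul (-1) x
  rw [map_neg, map_neg, map_one, map_one, neg_one_smul, neg_one_smul] at h
  exact h

omit [Finite F₀] in
theorem CR.fix (hQ : ND Q₀) (hn : 4 ≤ finrank F₀ V₀) {w : V₀} (hw : Q₀ w = 0) : ∃ c : F, T w = c • j w := by
  by_cases hw0 : w = 0
  · refine ⟨0, ?_⟩
    have h := hT.smul 0 w
    rw [map_zero, map_zero, zero_smul, zero_smul] at h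
    rw [zero_smul, hw0]; exact h
  have key : ∀ z : V₀, polar Q₀ w z = 0 → z ∉ Submodule.span F₀ {w} → ∃ a b : F, T w = a • j w + b • j z := by
    intro z hz hzw
    obtain ⟨x, hx, hx1⟩ := exists_perp_eq_one hQ hzw
    have hxw : polar Q₀ x w = 0 := by
      rw [polar_comm]; exact mem_perp.1 hx w (Submodule.mem_span_singleton_self w)
    have hxz : polar Q₀ x z = 1 := by rw [polar_comm]; exact hx1
    have h1 := hT.comm w z hw hz (by rw [hT.jQ, hw, map_zero]) (by rw [hT.jpol, hz, map_zero]) x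
    rw [sg_apply, sg_apply, hxw, hxz] at h1
    simp only [zero_smul, add_zero, mul_zero, sub_zero, one_smul] at h1
    have h2 : T (x - w) = T x - T w := by
      rw [sub_eq_add_neg, hT.add, hT.neg, ← sub_eq_add_neg]
    rw [h2] at h1
    refine ⟨polar Q (T x) (j z) + Q (j z) * polar Q (T x) (j w), -polar Q (T x) (j w), ?_⟩
    have h3 : T w = T x - (T x + polar Q (T x) (j w) • j z - polar Q (T x) (j z) • j w - (Q (j z) * polar Q (T x) (j w)) • j w) := by
      rw [h1]; abel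
    rw [h3]; module
  have hdim : ∀ (s : Fin 2 → V₀), ∃ z, polar Q₀ w z = 0 ∧ z ∉ Submodule.span F₀ (Set.range s) := by
    intro s
    have h1 : ¬ perp Q₀ (Submodule.span F₀ {w}) ≤ Submodule.span F₀ (Set.range s) := by
      intro h
      have h2 := Submodule.finrank_mono h
      rw [finrank_perp hQ, finrank_span_singleton hw0] at h2
      have h3 := finrank_range_le_card (R := F₀) s
      rw [Fintype.card_fin] at h3
      have h4 : finrank F₀ (Submodule.span F₀ (Set.range s)) = (Set.range s).finrank F₀ := rfl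
      omega
    obtain ⟨z, hz1, hz2⟩ := SetLike.not_le_iff_exists.1 h1
    exact ⟨z, mem_perp.1 hz1 w (Submodule.mem_span_singleton_self w), hz2⟩
  obtain ⟨z2, hz2, hz2'⟩ := hdim ![w, w]
  obtain ⟨z1, hz1, hz1'⟩ := hdim ![w, z2]
  have e1 : Set.range ![w, w] = {w} := by simp [Matrix.range_cons, Matrix.range_empty]
  rw [e1] at hz2'
  have hz1w : z1 ∉ Submodule.span F₀ {w} := by
    intro h
    apply hz1'
    refine Submodule.span_mono ?_ h
    rintro _ rfl
    exact ⟨0, rfl⟩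
  obtain ⟨a, b, hab⟩ := key z1 hz1 hz1w
  obtain ⟨a', b', hab'⟩ := key z2 hz2 hz2'
  obtain ⟨x, hx, hx1⟩ := exists_perp_eq_one hQ hz1'
  have hxw : polar Q₀ w x = 0 := mem_perp.1 hx w (Submodule.subset_span ⟨0, rfl⟩)
  have hxz : polar Q₀ z2 x = 0 := mem_perp.1 hx z2 (Submodule.subset_span ⟨1, rfl⟩)
  have h1 : polar Q (T w) (j x) = b := by
    rw [hab, polar_add_left, polar_smul_left, polar_smul_left, hT.jpol, hT.jpol, hxw, hx1]; simp
  have h2 : polar Q (T w) (j x) = 0 := by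
    rw [hab', polar_add_left, polar_smul_left, polar_smul_left, hT.jpol, hT.jpol, hxw, hxz]; simp
  rw [h1] at h2
  refine ⟨a, ?_⟩
  rw [hab, h2, zero_smul, add_zero]

omit [Finite F₀] in
theorem CR.pair (hQ : ND Q₀) (hn : 4 ≤ finrank F₀ V₀) {u v : V₀} (hu : Q₀ u = 0) (hv : Q₀ v = 0) (huv : polar Q₀ u v = 0) (hli : LinearIndependent F₀ ![u, v])
    {c d : F} (hc : T u = c • j u) (hd : T v = d • j v) : c = d ∧ ∀ a, σ (ι a) = ι a := by
  have hu0 : u ≠ 0 := hli.ne_zero 0
  have hc0 : c ≠ 0 := by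
    rintro rfl
    rw [zero_smul] at hc
    exact hu0 (hT.inj u hc)
  have hpair := LinearIndependent.pair_iff.1 hli
  have hu' : u ∉ Submodule.span F₀ {v} := by
    intro h
    obtain ⟨a, ha⟩ := Submodule.mem_span_singleton.1 h
    have := hpair 1 (-a) (by rw [← ha]; module)
    exact one_ne_zero this.1
  have hv' : v ∉ Submodule.span F₀ {u} := by
    intro h
    obtain ⟨a, ha⟩ := Submodule.mem_span_singleton.1 h
    have := hpair (-a) 1 (by rw [← ha]; module)
    exact one_ne_zero this.2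
  obtain ⟨x, hx, hx1⟩ := exists_perp_eq_one hQ hu'
  obtain ⟨y, hy, hy1⟩ := exists_perp_eq_one hQ hv'
  have hvx : polar Q₀ v x = 0 := mem_perp.1 hx v (Submodule.mem_span_singleton_self v)
  have huy : polar Q₀ u y = 0 := mem_perp.1 hy u (Submodule.mem_span_singleton_self u)
  have key : ∀ a : F₀, σ (ι a) * c = ι a * d := by
    intro a
    have h0 : Q₀ (a • u + v) = 0 := by
      rw [map_add', Orth.map_smul', hu, hv, polar_smul_left, huv]; simp
    obtain ⟨e, he⟩ := hT.fix hQ hn h0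
    rw [hT.add, hT.smul, hc, hd, hT.jadd, hT.jsmul] at he
    have h1 := congrArg (fun z => polar Q z (j x)) he
    have h2 := congrArg (fun z => polar Q z (j y)) he
    simp only [polar_add_left, polar_smul_left, hT.jpol, hx1, hvx, hy1, huy, map_one, map_zero, smul_eq_mul, mul_one, mul_zero, add_zero, zero_add, smul_zero] at h1 h2
    rw [h1, ← h2]; ring
  have h1 := key 1
  rw [map_one, map_one, one_mul, one_mul] at h1
  refine ⟨h1, fun a => ?_⟩
  have h2 := key a
  rw [← h1] at h2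
  exact mul_right_cancel₀ hc0 h2

theorem CR.main (hQ : ND Q₀) (hn : 5 ≤ finrank F₀ V₀) : (∀ a, σ (ι a) = ι a) ∧ ∃ c : F, ∀ x, T x = c • j x := by
  obtain ⟨e, f, hef⟩ := exists_hyp_pair hQ (by omega)
  obtain ⟨ce, hce⟩ := hT.fix hQ (by omega) hef.he
  have hex : ∀ {e f : V₀}, Hyp Q₀ e f → ∃ w, Q₀ w = 0 ∧ polar Q₀ w e = 0 ∧ polar Q₀ w f = 0 ∧ w ≠ 0 := by
    intro e f h
    obtain ⟨w, hw0, hw⟩ := exists_singular (h.nd_perp hQ) (by have := h.finrank_perp; omega)
    refine ⟨w.1, hw, (mem_hperp.1 w.2).1, (mem_hperp.1 w.2).2, ?_⟩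
    intro h0
    exact hw0 (Subtype.ext h0)
  have hli : ∀ {e f w : V₀}, Hyp Q₀ e f → polar Q₀ w f = 0 → w ≠ 0 → LinearIndependent F₀ ![e, w] := by
    intro e f w h hwf hw0
    rw [LinearIndependent.pair_iff]
    intro a b hab
    have h1 : polar Q₀ (a • e + b • w) f = 0 := by rw [hab]; simp
    rw [polar_add_left, polar_smul_left, polar_smul_left, h.hef, hwf] at h1
    have ha : a = 0 := by simpa using h1
    refine ⟨ha, ?_⟩
    rw [ha, zero_smul, zero_add] at hab
    exact (smul_eq_zero.1 hab).resolve_right hw0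
  have hσ : ∀ a, σ (ι a) = ι a := by
    obtain ⟨w, hw, hwe, hwf, hw0⟩ := hex hef
    obtain ⟨cw, hcw⟩ := hT.fix hQ (by omega) hw
    exact (hT.pair hQ (by omega) hef.he hw (by rw [polar_comm]; exact hwe) (hli hef hwf hw0) hce hcw).2
  refine ⟨hσ, ce, ?_⟩
  have hsm : ∀ (a : F₀) x, T (a • x) = ι a • T x := by
    intro a x; rw [hT.smul, hσ]
  have hyp : ∀ {f : V₀}, Hyp Q₀ e f → T f = ce • j f := by
    intro f hf
    obtain ⟨w, hw, hwe, hwf, hw0⟩ := hex hf
    obtain ⟨cw, hcw⟩ := hT.fix hQ (by omega) hw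
    obtain ⟨cf, hcf⟩ := hT.fix hQ (by omega) hf.hf
    have h1 := (hT.pair hQ (by omega) hf.he hw (by rw [polar_comm]; exact hwe) (hli hf hwf hw0) hce hcw).1
    have h2 := (hT.pair hQ (by omega) hf.hf hw (by rw [polar_comm]; exact hwf) (hli hf.symm hwe hw0) hcf hcw).1
    rw [hcf, h2, h1]
  have iso : ∀ v : V₀, Q₀ v = 0 → T v = ce • j v := by
    intro v hv
    by_cases hv0 : v = 0
    · have h := hT.smul 0 v
      have h' := hT.jsmul 0 v
      rw [map_zero, map_zero, zero_smul, zero_smul] at h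
      rw [map_zero, zero_smul, zero_smul] at h'
      rw [hv0, h, h', smul_zero]
    by_cases hev : polar Q₀ e v = 0
    · by_cases hl : LinearIndependent F₀ ![e, v]
      · obtain ⟨cv, hcv⟩ := hT.fix hQ (by omega) hv
        rw [hcv, (hT.pair hQ (by omega) hef.he hv hev hl hce hcv).1]
      · rw [LinearIndependent.pair_iff] at hl
        push Not at hl
        obtain ⟨a, b, hab, hne⟩ := hl
        have hb : b ≠ 0 := by
          rintro rfl
          rw [zero_smul, add_zero] at hab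
          have ha : a = 0 := (smul_eq_zero.1 hab).resolve_right hef.e_ne
          exact hne ha rfl
        have h1 : v = (-(b⁻¹ * a)) • e := by
          have h2 : b⁻¹ • (a • e + b • v) = 0 := by rw [hab, smul_zero]
          rw [smul_add, smul_smul, smul_smul, inv_mul_cancel₀ hb, one_smul] at h2
          rw [neg_smul]
          exact (neg_eq_of_add_eq_zero_right h2).symm
        rw [h1, hsm, hce, hT.jsmul]; module
    · have h1 : Hyp Q₀ e ((polar Q₀ e v)⁻¹ • v) := ⟨hef.he, by rw [Orth.map_smul', hv, mul_zero], by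
        rw [polar_smul_right, smul_eq_mul, inv_mul_cancel₀ hev]⟩
      have h2 := hyp h1
      rw [hsm, hT.jsmul] at h2
      have hev' : ι (polar Q₀ e v)⁻¹ ≠ 0 := (map_ne_zero_iff ι ι.injective).2 (inv_ne_zero hev)
      have h3 : ι (polar Q₀ e v)⁻¹ • T v = ι (polar Q₀ e v)⁻¹ • (ce • j v) := by
        rw [h2, smul_comm]
      exact smul_right_injective _ hev' h3
  intro x
  obtain ⟨a, b, w, hw, rfl⟩ := hef.exists_split x
  have h1 : Q₀ ((1 : F₀) • e + (-Q₀ w) • f + w) = 0 := by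
    rw [hef.Q_split _ _ hw]; ring
  have h2 := iso _ h1
  have h3 : T w = ce • j w := by
    rw [hT.add, hT.add, hsm, hsm, hce, hyp hef, hT.jadd, hT.jadd, hT.jsmul, hT.jsmul] at h2
    have : T w = ce • (ι 1 • j e + ι (-Q₀ w) • j f + j w) - (ι 1 • ce • j e + ι (-Q₀ w) • ce • j f) := by rw [← h2]; abel
    rw [this]; module
  rw [hT.add, hT.add, hsm, hsm, hce, hyp hef, h3, hT.jadd, hT.jadd, hT.jsmul, hT.jsmul]; module

end abs

end Cfsg.Agent.H8.Ort
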