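import Mathlib
import Cfsg.Agent.H8.Ort11

set_option autoImplicit false
set_option linter.all false

/-! Subfield subgroups of orthogonal groups inside the automorphism group. -/

namespace Cfsg.Agent.H8.Ort

open scoped commutatorElement
open Matrix Cfsg.Agent.H8.GrStd Cfsg.Agent.H8.AutPSL Cfsg.Agent.Lib Cfsg.Agent.H8.MSys Cfsg.Agent.Lib.Orth
  Cfsg.Agent.H8.Theta Cfsg.Agent.H8.GrCen Cfsg.Agent.H8.GrOdd
open QuadraticMap Module

section abs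

/-- fixed points and centralizers -/
theorem card_fix_abs {G : Type*} [Group G] (hinj : Function.Injective (MulAut.conj : G →* MulAut G)) (x : MulAut G) :
    Nat.card ↥(MonoidHom.eqLocus x.toMonoidHom (MonoidHom.id G)) = Nat.card ↥(Cfsg.Inn G ⊓ Subgroup.centralizer {x}) := by
  have key : ∀ k : G, x k = k ↔ MulAut.conj k ∈ Subgroup.centralizer {x} := by
    intro k
    rw [Subgroup.mem_centralizer_singleton_iff]
    have e : x * MulAut.conj k * x⁻¹ = MulAut.conj (x k) := by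
      ext y
      show x (k * x⁻¹ y * k⁻¹) = x k * y * (x k)⁻¹
      rw [map_mul, map_mul, map_inv, MulAut.apply_inv_self]
    constructor
    · intro h
      rw [h] at e
      rw [eq_comm, ← mul_inv_eq_iff_eq_mul]; exact e
    · intro h
      rw [← h, mul_inv_cancel_right] at e
      exact (hinj e).symm
  have h1 : (MonoidHom.eqLocus x.toMonoidHom (MonoidHom.id G)).map (MulAut.conj : G →* MulAut G) = Cfsg.Inn G ⊓ Subgroup.centralizer {x} := by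
    ext y
    rw [Subgroup.mem_map, Subgroup.mem_inf]
    constructor
    · rintro ⟨k, hk, rfl⟩
      exact ⟨⟨k, rfl⟩, (key k).1 hk⟩
    · rintro ⟨⟨k, rfl⟩, h⟩
      exact ⟨k, (key k).2 h, rfl⟩
  rw [← h1]
  exact (Subgroup.card_map_of_injective hinj).symm

theorem simple_equiv {G H : Type*} [Group G] [Group H] (e : G ≃* H) (hG : IsSimpleGroup G) : IsSimpleGroup H := by
  haveI : Nontrivial H := e.symm.toEquiv.nontrivial
  exact IsSimpleGroup.isSimpleGroup_of_surjective e.toMonoidHom e.surjective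

end abs

section O

variable {F : Type*} [Field F]

/-- the centre is trivial -/
theorem center_bot [Finite F] (h2 : (2 : F) ≠ 0) {m : ℕ} (hm : 3 ≤ m) : Subgroup.center (Cfsg.Omega F (Cfsg.quadFormOdd m F)) = ⊥ := by
  rw [eq_bot_iff]
  intro z hz
  rw [Subgroup.mem_bot]
  have h1 : (OS m F).delta ((OS m F).toΓ z) = (OS m F).delta 1 := by
    rw [(OS m F).delta_toΓ, map_one]
    have h3 : Sys.pr _ z = 1 := (QuotientGroup.eq_one_iff z).2 hz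
    rw [h3, map_one]
  have h3 := delta_inj h2 hm h1
  apply (OS m F).inj
  rw [map_one]
  exact congrArg Subtype.val h3

theorem omega_simple [Finite F] (h2 : (2 : F) ≠ 0) {m : ℕ} (hm : 3 ≤ m) : IsSimpleGroup (Cfsg.Omega F (Cfsg.quadFormOdd m F)) := by
  have h1 : IsSimpleGroup (Cfsg.POmega F ⇑(qOdd m F)) := POmega_simple (nd_odd h2) (by rw [finrank_OIx]; omega)
  rw [coe_qOdd] at h1
  have e : Cfsg.POmega F (Cfsg.quadFormOdd m F) ≃* Cfsg.Omega F (Cfsg.quadFormOdd m F) :=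
    (QuotientGroup.quotientMulEquivOfEq (center_bot h2 hm)).trans QuotientGroup.quotientBot
  exact simple_equiv e h1

theorem card_SO [Finite F] (h2 : (2 : F) ≠ 0) {m : ℕ} (hm : 3 ≤ m) :
    Nat.card ↥(Cfsg.specialIsometryGL F (Cfsg.quadFormOdd m F)) = 2 * Nat.card (Cfsg.Omega F (Cfsg.quadFormOdd m F)) := by
  have h1 := relindex_odd (F := F) h2 hm
  have h3 := ((Om F (Cfsg.quadFormOdd m F)).subgroupOf (Cfsg.specialIsometryGL F (Cfsg.quadFormOdd m F))).card_mul_index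
  have h4 : ((Om F (Cfsg.quadFormOdd m F)).subgroupOf (Cfsg.specialIsometryGL F (Cfsg.quadFormOdd m F))).index = 2 := h1
  rw [h4, Nat.card_congr (Subgroup.subgroupOfEquivOfLe (spec_ok _)).toEquiv] at h3
  have h5 : Nat.card (Om F (Cfsg.quadFormOdd m F)) = Nat.card (Cfsg.Omega F (Cfsg.quadFormOdd m F)) := by
    unfold Om
    rw [← Subgroup.map_subtype_commutator]
    exact Subgroup.card_map_of_injective (Subgroup.subtype_injective _)
  rw [h5] at h3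
  rw [← h3]; ring

theorem even_omega [Fintype F] (h2 : (2 : F) ≠ 0) {m : ℕ} (hm : 3 ≤ m) : 2 ∣ Nat.card (Cfsg.Omega F (Cfsg.quadFormOdd m F)) := by
  have h1 : (Cfsg.Omega F ⇑(qOdd m F)).index = 4 := by
    rw [index_Omega]
    exact index_commutator_odd (nd_odd h2) h2 (by rw [finrank_OIx]; omega)
  have h3 := (Cfsg.Omega F ⇑(qOdd m F)).card_mul_index
  rw [h1, card_isometry, card_O_odd h2, coe_qOdd] at h3
  have h4 : (Nat.card F ^ (2 * (0 + 1)) - 1) ∣ ∏ i ∈ Finset.range m, (Nat.card F ^ (2 * (i + 1)) - 1) :=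
    Finset.dvd_prod_of_mem _ (Finset.mem_range.2 (by omega))
  have h5 : 8 ∣ Nat.card F ^ (2 * (0 + 1)) - 1 := by
    have h6 := odd_card_of_two_ne_zero (F := F) h2
    rw [← Nat.card_eq_fintype_card] at h6
    obtain ⟨s, hs⟩ := h6
    obtain ⟨t, ht⟩ := Nat.even_mul_succ_self s
    refine ⟨t, ?_⟩
    rw [hs]
    have : (2 * s + 1) ^ (2 * (0 + 1)) = 4 * (s * (s + 1)) + 1 := by ring
    rw [this, ht]
    omega
  obtain ⟨a, ha⟩ := h5.trans h4
  rw [ha] at h3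
  refine ⟨2 * (Nat.card F ^ (m ^ 2) * a), ?_⟩
  have h7 : Nat.card (Cfsg.Omega F (Cfsg.quadFormOdd m F)) * 4 = (2 * (2 * (Nat.card F ^ (m ^ 2) * a))) * 4 := by
    rw [h3]; ring
  exact Nat.eq_of_mul_eq_mul_right (by norm_num) h7

end O

section J

variable {F : Type*} [Field F] {F₀ : Type*} [Field F₀]

/-- the subfield group in the automorphism group -/
noncomputable def JO (h2 : (2 : F) ≠ 0) (h20 : (2 : F₀) ≠ 0) (k : ℕ) (ι : F₀ →+* F) :
    Cfsg.Omega F₀ (Cfsg.quadFormOdd (k + 1) F₀) →* MulAut (Cfsg.POmega F (Cfsg.quadFormOdd (k + 1) F)) :=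
  (OS (k + 1) F).delta.comp ((mapG h2 h20 k ι).comp (OS (k + 1) F₀).toΓ)

theorem JO_apply (h2 : (2 : F) ≠ 0) (h20 : (2 : F₀) ≠ 0) (k : ℕ) (ι : F₀ →+* F) (s : Cfsg.Omega F₀ (Cfsg.quadFormOdd (k + 1) F₀)) :
    JO h2 h20 k ι s = (OS (k + 1) F).delta (mapG h2 h20 k ι ((OS (k + 1) F₀).toΓ s)) := rfl

theorem toΓ_inj (k : ℕ) : Function.Injective (OS (k + 1) F).toΓ := by
  intro a b h
  have h1 : (OS (k + 1) F).e a = (OS (k + 1) F).e b := congrArg (fun x : (OS (k + 1) F).Γ => x.1) h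
  exact (OS (k + 1) F).inj h1

theorem JO_inj [Finite F] (h2 : (2 : F) ≠ 0) (h20 : (2 : F₀) ≠ 0) {k : ℕ} (hk : 2 ≤ k) (ι : F₀ →+* F) : Function.Injective (JO h2 h20 k ι) := by
  intro a b h
  have hm : 3 ≤ k + 1 := by omega
  have h1 := delta_inj (F := F) h2 hm
  exact toΓ_inj k (mapG_inj h2 h20 k ι (h1 h))

theorem JO_inn [Finite F] [Finite F₀] (h2 : (2 : F) ≠ 0) (h20 : (2 : F₀) ≠ 0) {k : ℕ} (hk : 2 ≤ k) (ι : F₀ →+* F) (s : Cfsg.Omega F₀ (Cfsg.quadFormOdd (k + 1) F₀)) :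
    JO h2 h20 k ι s ∈ Cfsg.Inn (Cfsg.POmega F (Cfsg.quadFormOdd (k + 1) F)) := by
  have hm : 3 ≤ k + 1 := by omega
  obtain ⟨n, a, h0, h3, h4⟩ := hdesc h2 h20 ι ((OS (k + 1) F₀).toΓ s)
  have h8 := delta_mem_inn h2 hm (mapG h2 h20 k ι ((OS (k + 1) F₀).toΓ s))
  rw [JO_apply, h8, h4]
  obtain ⟨h5, b, hb⟩ := h3.1 (mem_Om.2 ⟨s, rfl⟩)
  exact ⟨h5, ι b, by rw [hb, map_mul]⟩

theorem JO_le_inn [Finite F] [Finite F₀] (h2 : (2 : F) ≠ 0) (h20 : (2 : F₀) ≠ 0) {k : ℕ} (hk : 2 ≤ k) (ι : F₀ →+* F) :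
    (JO h2 h20 k ι).range ≤ Cfsg.Inn (Cfsg.POmega F (Cfsg.quadFormOdd (k + 1) F)) := by
  rintro _ ⟨s, rfl⟩
  exact JO_inn h2 h20 hk ι s

theorem JO_comm [Finite F] (h2 : (2 : F) ≠ 0) (h20 : (2 : F₀) ≠ 0) {k : ℕ} (hk : 2 ≤ k) (ι : F₀ →+* F) (σ : (OS (k + 1) F).A)
    (hι : ∀ x, σ.1 x = x ↔ ∃ y, ι y = x) : (JO h2 h20 k ι).range ≤ Subgroup.centralizer {(OS (k + 1) F).psi σ} := by
  rintro _ ⟨s, rfl⟩
  exact (mem_cent' h2 h20 hk ι σ hι _).2 ⟨_, rfl⟩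

theorem norm_abs {A G G₀ S₀ : Type*} [Group A] [Group G] [Group G₀] [Group S₀] (D : G →* A) (j : G₀ →* G) (t : S₀ →* G₀) (x c l : A)
    (hc : c ∈ D.range) (hcx : c * x = x * c) (hmem : ∀ g, D g ∈ Subgroup.centralizer {x} → ∃ g0, j g0 = g)
    (hnorm : ∀ g0 s, ∃ s', t s' = g0 * t s * g0⁻¹) (hl : l ∈ (D.comp (j.comp t)).range) : c * l * c⁻¹ ∈ (D.comp (j.comp t)).range := by
  obtain ⟨g, rfl⟩ := hc
  obtain ⟨s, rfl⟩ := hl
  obtain ⟨g0, rfl⟩ := hmem g (by rw [Subgroup.mem_centralizer_singleton_iff]; exact hcx)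
  obtain ⟨s', hs'⟩ := hnorm g0 s
  refine ⟨s', ?_⟩
  show D (j (t s')) = D (j g0) * D (j (t s)) * (D (j g0))⁻¹
  rw [hs', map_mul, map_mul, map_inv, map_mul, map_mul, map_inv]

theorem JO_norm [Finite F] (h2 : (2 : F) ≠ 0) (h20 : (2 : F₀) ≠ 0) {k : ℕ} (hk : 2 ≤ k) (ι : F₀ →+* F) (σ : (OS (k + 1) F).A)
    (hι : ∀ x, σ.1 x = x ↔ ∃ y, ι y = x) (c : MulAut (Cfsg.POmega F (Cfsg.quadFormOdd (k + 1) F)))
    (hc : c ∈ Cfsg.Inn (Cfsg.POmega F (Cfsg.quadFormOdd (k + 1) F))) (hcx : c * (OS (k + 1) F).psi σ = (OS (k + 1) F).psi σ * c)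
    (l : MulAut (Cfsg.POmega F (Cfsg.quadFormOdd (k + 1) F))) (hl : l ∈ (JO h2 h20 k ι).range) :
    c * l * c⁻¹ ∈ (JO h2 h20 k ι).range := by
  have h1 := (OS (k + 1) F).inn_le hc
  have h3 : ∀ g, (OS (k + 1) F).delta g ∈ Subgroup.centralizer {(OS (k + 1) F).psi σ} → ∃ g0, mapG h2 h20 k ι g0 = g :=
    fun g => (mem_cent' h2 h20 hk ι σ hι g).1
  have h4 : ∀ (g0 : (OS (k + 1) F₀).Γ) s, ∃ s', (OS (k + 1) F₀).toΓ s' = g0 * (OS (k + 1) F₀).toΓ s * g0⁻¹ := by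
    intro g0 s
    exact ⟨(OS (k + 1) F₀).cj g0 s, Subtype.ext ((OS (k + 1) F₀).e_cj g0 s)⟩
  exact norm_abs (OS (k + 1) F).delta (mapG h2 h20 k ι) (OS (k + 1) F₀).toΓ ((OS (k + 1) F).psi σ) c l h1 hcx h3 h4 hl

end J

end Cfsg.Agent.H8.Ort
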