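import Mathlib
import Cfsg.Agent.H8.Ort12

set_option autoImplicit false
set_option linter.all false

/-! Centralizers of subfield orthogonal groups in the automorphism group; cores. -/

namespace Cfsg.Agent.H8.Ort

open scoped commutatorElement
open Matrix Cfsg.Agent.H8.GrStd Cfsg.Agent.H8.AutPSL Cfsg.Agent.Lib Cfsg.Agent.H8.MSys Cfsg.Agent.Lib.Orth
  Cfsg.Agent.H8.Theta Cfsg.Agent.H8.GrCen Cfsg.Agent.H8.GrOdd
open QuadraticMap Module

section mat

variable {κ : Type} [Fintype κ] [DecidableEq κ] {F : Type*} [Field F] {F₀ : Type*} [Field F₀]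
variable {Q : QuadraticForm F (κ → F)} {Q₀ : QuadraticForm F₀ (κ → F₀)} (ι : F₀ →+* F) (hQQ : ∀ v, Q (fun i => ι (v i)) = ι (Q₀ v))

include hQQ in
/-- base change of Siegel elements -/
theorem sg_base (w z : κ → F₀) (hw : Q₀ w = 0) (hwz : polar Q₀ w z = 0) (hw' : Q (fun i => ι (w i)) = 0)
    (hwz' : polar Q (fun i => ι (w i)) (fun i => ι (z i)) = 0) (s : Cfsg.Omega F₀ ⇑Q₀) (hs : ∀ x, s.1.1.1 *ᵥ x = (sg Q₀ w z hw hwz).1 x) (y : κ → F) :
    (s.1.1.1.map ι) *ᵥ y = (sg Q (fun i => ι (w i)) (fun i => ι (z i)) hw' hwz').1 y := by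
  have h1 : Matrix.mulVecLin (s.1.1.1.map ι) = ((sg Q (fun i => ι (w i)) (fun i => ι (z i)) hw' hwz').1 : (κ → F) →ₗ[F] (κ → F)) := by
    apply LinearMap.pi_ext'
    intro i
    apply LinearMap.ext_ring
    show (s.1.1.1.map ι) *ᵥ (Pi.single i (1 : F)) = (sg Q (fun i => ι (w i)) (fun i => ι (z i)) hw' hwz').1 (Pi.single i (1 : F))
    have h3 := hs (Pi.single i 1)
    rw [sg_apply] at h3
    have he : (Pi.single i (1 : F) : κ → F) = fun l => ι ((Pi.single i (1 : F₀) : κ → F₀) l) := by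
      funext l
      rw [Pi.single_apply, Pi.single_apply]
      split_ifs <;> simp
    rw [Matrix.mulVec_single_one, he, sg_apply, polar_map' ι hQQ, polar_map' ι hQQ, hQQ]
    rw [Matrix.mulVec_single_one] at h3
    funext l
    have h4 := congrFun h3 l
    show ι (s.1.1.1 l i) = _
    have h5 : s.1.1.1 l i = (Pi.single i (1 : F₀) : κ → F₀) l + polar Q₀ (Pi.single i 1) w * z l - polar Q₀ (Pi.single i 1) z * w l - (Q₀ z * polar Q₀ (Pi.single i 1) w) * w l := h4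
    rw [h5, map_sub, map_sub, map_add, map_mul, map_mul, map_mul, map_mul]
    rfl
  exact congrArg (fun f : (κ → F) →ₗ[F] (κ → F) => f y) h1

include hQQ in
/-- semilinear maps centralizing the subfield group -/
theorem cent_mat [Finite F₀] (hQ₀ : ND Q₀) (hn : 5 ≤ finrank F₀ (κ → F₀)) (g : GL κ F) (τ : F ≃+* F)
    (h : ∀ s : Cfsg.Omega F₀ ⇑Q₀, g * mg τ (GeneralLinearGroup.map ι s.1.1) = GeneralLinearGroup.map ι s.1.1 * g) :
    (∀ a, τ (ι a) = ι a) ∧ ∃ c : F, g.1 = c • (1 : Matrix κ κ F) := by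
  let T : (κ → F₀) → (κ → F) := fun v => g.1 *ᵥ (fun i => τ (ι (v i)))
  have hT : CR Q₀ Q ι (fun v i => ι (v i)) τ T := by
    refine ⟨?_, ?_, hQQ, ?_, ?_, ?_, ?_⟩
    · intro x y; funext i; exact map_add ι _ _
    · intro a x; funext i; exact map_mul ι _ _
    · intro x y
      show g.1 *ᵥ (fun i => τ (ι (x i + y i))) = _
      have : (fun i => τ (ι (x i + y i))) = (fun i => τ (ι (x i))) + (fun i => τ (ι (y i))) := by
        funext i
        show τ (ι (x i + y i)) = τ (ι (x i)) + τ (ι (y i))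
        rw [map_add, map_add]
      rw [this, Matrix.mulVec_add]
    · intro a x
      show g.1 *ᵥ (fun i => τ (ι (a * x i))) = _
      have : (fun i => τ (ι (a * x i))) = τ (ι a) • (fun i => τ (ι (x i))) := by
        funext i
        show τ (ι (a * x i)) = τ (ι a) * τ (ι (x i))
        rw [map_mul, map_mul]
      rw [this, Matrix.mulVec_smul]
    · intro x hx
      have h4 : (g⁻¹).1 *ᵥ (g.1 *ᵥ (fun i => τ (ι (x i)))) = 0 := by
        have : g.1 *ᵥ (fun i => τ (ι (x i))) = 0 := hx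
        rw [this, Matrix.mulVec_zero]
      rw [Matrix.mulVec_mulVec, ← Units.val_mul, inv_mul_cancel, Units.val_one, Matrix.one_mulVec] at h4
      funext i
      have h5 : τ (ι (x i)) = 0 := congrFun h4 i
      exact (map_eq_zero_iff ι ι.injective).1 ((map_eq_zero_iff τ τ.injective).1 h5)
    · intro w z hw hwz hw' hwz' x
      obtain ⟨s, hs⟩ := exists_sg hQ₀ hn w z hw hwz
      rw [← hs, ← sg_base ι hQQ w z hw hwz hw' hwz' s hs]
      show (s.1.1.1.map ι) *ᵥ (g.1 *ᵥ (fun i => τ (ι (x i)))) = g.1 *ᵥ (fun i => τ (ι ((s.1.1.1 *ᵥ x) i)))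
      have h4 : (s.1.1.1.map ι) * g.1 = g.1 * ((s.1.1.1.map ι).map τ) := (congrArg Units.val (h s)).symm
      rw [Matrix.mulVec_mulVec, h4, ← Matrix.mulVec_mulVec, mulVec_map']
      congr 1
      funext i
      congr 1
      have h5 : (fun l => τ.symm (τ (ι (x l)))) = fun l => ι (x l) := by funext l; exact τ.symm_apply_apply _
      rw [h5]
      show ∑ l, ι (s.1.1.1 i l) * ι (x l) = ι (∑ l, s.1.1.1 i l * x l)
      rw [map_sum]
      exact Finset.sum_congr rfl fun l _ => (map_mul ι _ _).symm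
  obtain ⟨hσ, c, hc⟩ := hT.main hQ₀ hn
  refine ⟨hσ, c, ?_⟩
  ext i l
  have h4 := congrFun (hc (Pi.single l 1)) i
  have h5 : (fun m => τ (ι ((Pi.single l (1 : F₀) : κ → F₀) m))) = (Pi.single l (1 : F) : κ → F) := by
    funext m
    rw [hσ, Pi.single_apply, Pi.single_apply]
    split_ifs <;> simp
  have h6 : (g.1 *ᵥ (fun m => τ (ι ((Pi.single l (1 : F₀) : κ → F₀) m)))) i = c * ι ((Pi.single l (1 : F₀) : κ → F₀) i) := h4
  rw [h5, Matrix.mulVec_single_one] at h6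
  rw [Matrix.smul_apply, Matrix.one_apply]
  have h7 : g.1 i l = c * ι ((Pi.single l (1 : F₀) : κ → F₀) i) := h6
  rw [h7, Pi.single_apply, smul_eq_mul]
  split_ifs <;> simp

end mat

section J

variable {F : Type*} [Field F] {F₀ : Type*} [Field F₀]

theorem qOdd_map (k : ℕ) (ι : F₀ →+* F) : ∀ v, (qOdd (k + 1) F) (fun i => ι (v i)) = ι ((qOdd (k + 1) F₀) v) := by
  intro v
  rw [qOdd_apply, qOdd_apply]
  unfold Cfsg.quadFormOdd
  rw [map_add, map_pow, map_sum]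
  simp only [map_mul]

theorem cent_mat' [Finite F₀] {κ : Type} [Fintype κ] [DecidableEq κ] (Q : QuadraticForm F (κ → F)) (Q₀ : QuadraticForm F₀ (κ → F₀)) (ι : F₀ →+* F) (hQQ : ∀ v, Q (fun i => ι (v i)) = ι (Q₀ v))
    {q₀ : (κ → F₀) → F₀} (hq : ⇑Q₀ = q₀) (hQ₀ : ND Q₀) (hn : 5 ≤ finrank F₀ (κ → F₀)) (g : GL κ F) (τ : F ≃+* F)
    (h : ∀ s : Cfsg.Omega F₀ q₀, g * mg τ (GeneralLinearGroup.map ι s.1.1) = GeneralLinearGroup.map ι s.1.1 * g) :
    (∀ a, τ (ι a) = ι a) ∧ ∃ c : F, g.1 = c • (1 : Matrix κ κ F) := by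
  subst hq
  exact cent_mat ι hQQ hQ₀ hn g τ h

theorem cent_step [Finite F] [Finite F₀] (h2 : (2 : F) ≠ 0) (h20 : (2 : F₀) ≠ 0) {k : ℕ} (hk : 2 ≤ k) (ι : F₀ →+* F) (g : (OS (k + 1) F).Γ) (τ : (OS (k + 1) F).A)
    (h : ∀ x : (OS (k + 1) F₀).Γ, x.1 ∈ Om F₀ (Cfsg.quadFormOdd (k + 1) F₀) → g * (OS (k + 1) F).fG τ (mapG h2 h20 k ι x) = mapG h2 h20 k ι x * g) :
    (∀ a, τ.1 (ι a) = ι a) ∧ g = 1 := by
  have h1 := cent_mat' (qOdd (k + 1) F) (qOdd (k + 1) F₀) ι (qOdd_map k ι) coe_qOdd (nd_odd h20) (by rw [finrank_OIx]; omega) g.1 τ.1 (by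
    intro s
    exact congrArg Subtype.val (h ((OS (k + 1) F₀).toΓ s) (mem_Om.2 ⟨s, rfl⟩)))
  refine ⟨h1.1, ?_⟩
  obtain ⟨c, hc⟩ := h1.2
  have h3 := sc_one (m := k + 1) (g := 1) (h := g.1) (one_mem _) g.2 (c := c) (by rw [hc]; rfl)
  exact Subtype.ext h3.2.symm

theorem comm_abs {A G B : Type*} [Group A] [Group G] [Group B] (D : G →* A) (hD : Function.Injective D) (P : B →* A) (f : B → G → G)
    (hf : ∀ b g, P b * D g = D (f b g) * P b) (g x : G) (b : B) (h : (D g * P b) * D x = D x * (D g * P b)) : g * f b x = x * g := by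
  apply hD
  rw [map_mul, map_mul]
  apply mul_right_cancel (b := P b)
  calc D g * D (f b x) * P b = D g * (P b * D x) := by rw [hf]; group
    _ = (D g * P b) * D x := by group
    _ = D x * (D g * P b) := h
    _ = _ := by group

theorem JO_cent1 [Finite F] [Finite F₀] (h2 : (2 : F) ≠ 0) (h20 : (2 : F₀) ≠ 0) {k : ℕ} (hk : 2 ≤ k) (ι : F₀ →+* F) (g : (OS (k + 1) F).Γ) (τ : (OS (k + 1) F).A)
    (h : ∀ s, ((OS (k + 1) F).delta g * (OS (k + 1) F).psi τ) * (OS (k + 1) F).delta (mapG h2 h20 k ι ((OS (k + 1) F₀).toΓ s)) =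
      (OS (k + 1) F).delta (mapG h2 h20 k ι ((OS (k + 1) F₀).toΓ s)) * ((OS (k + 1) F).delta g * (OS (k + 1) F).psi τ)) :
    (∀ a, τ.1 (ι a) = ι a) ∧ g = 1 := by
  have hm : 3 ≤ k + 1 := by omega
  have h1 := delta_inj (F := F) h2 hm
  apply cent_step h2 h20 hk ι g τ
  intro x hx
  obtain ⟨s, hs⟩ := mem_Om.1 hx
  have hxs : (OS (k + 1) F₀).toΓ s = x := Subtype.ext hs
  have h4 := comm_abs (OS (k + 1) F).delta h1 (OS (k + 1) F).psi (fun b g => (OS (k + 1) F).fG b g) (fun b g => (OS (k + 1) F).psi_delta b g) g _ τ (h s)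
  rw [hxs] at h4
  exact h4

theorem zpow_abs {A B : Type*} [Group A] [Group B] (P : B →* A) (σ τ : B) (h : τ ∈ Subgroup.zpowers σ) : P τ ∈ Subgroup.zpowers (P σ) := by
  obtain ⟨n, rfl⟩ := h
  exact ⟨n, (map_zpow P σ n).symm⟩

theorem zpow_abs' {A B G : Type*} [Group A] [Group B] [Group G] (D : G →* A) (P : B →* A) (σ τ : B) (g : G) (hg : g = 1) (h : τ ∈ Subgroup.zpowers σ) :
    D g * P τ ∈ Subgroup.zpowers (P σ) := by
  subst hg
  rw [map_one, one_mul]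
  exact zpow_abs P σ τ h

theorem psi_zpow [Finite F] (k : ℕ) (ι : F₀ →+* F) (σ τ : (OS (k + 1) F).A)
    (hι : ∀ x, σ.1 x = x ↔ ∃ y, ι y = x) (h : ∀ a, τ.1 (ι a) = ι a) : τ ∈ Subgroup.zpowers σ := by
  have h7 : τ.1 ∈ Subgroup.zpowers σ.1 := by
    apply Cfsg.Agent.H8.SpAut.mem_zpowers_of_fix
    intro t ht
    obtain ⟨y, rfl⟩ := (hι t).1 ht
    exact h y
  obtain ⟨n, hn⟩ := h7
  exact ⟨n, Subtype.ext hn⟩

theorem JO_cent [Finite F] [Finite F₀] (h2 : (2 : F) ≠ 0) (h20 : (2 : F₀) ≠ 0) {k : ℕ} (hk : 2 ≤ k) (ι : F₀ →+* F) (σ : (OS (k + 1) F).A)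
    (hι : ∀ x, σ.1 x = x ↔ ∃ y, ι y = x) (β : MulAut (Cfsg.POmega F (Cfsg.quadFormOdd (k + 1) F)))
    (h : ∀ l ∈ (JO h2 h20 k ι).range, β * l = l * β) : β ∈ Subgroup.zpowers ((OS (k + 1) F).psi σ) := by
  have hβ : β ∈ (OS (k + 1) F).stdG := by rw [std_top h2 hk]; trivial
  obtain ⟨g, τ, hgτ⟩ := (OS (k + 1) F).mem_stdG.1 hβ
  subst hgτ
  have h5 := JO_cent1 h2 h20 hk ι g τ (fun s => h _ ⟨s, rfl⟩)
  exact zpow_abs' (OS (k + 1) F).delta (OS (k + 1) F).psi σ τ g h5.2 (psi_zpow k ι σ τ hι h5.1)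

end J

end Cfsg.Agent.H8.Ort
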