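import Mathlib
import Cfsg.Agent.H8.Ort13
import Cfsg.Agent.H8.CoreAbs

set_option autoImplicit false
set_option linter.all false

/-! Cores of centralizers of field automorphisms of `PΩ_{2m+1}(q)`. -/

namespace Cfsg.Agent.H8.Ort

open scoped commutatorElement
open Matrix Cfsg.Agent.H8.GrStd Cfsg.Agent.H8.AutPSL Cfsg.Agent.Lib Cfsg.Agent.H8.MSys Cfsg.Agent.Lib.Orth
  Cfsg.Agent.H8.Theta Cfsg.Agent.H8.GrCen Cfsg.Agent.H8.GrOdd Cfsg.Agent.H8.CoreAbs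
open QuadraticMap Module

section abs

theorem simple_abs {S A : Type*} [Group S] [Group A] (f : S →* A) (hf : Function.Injective f) (hS : IsSimpleGroup S) {p : ℕ} (hp : p.Prime)
    (hd : p ∣ Nat.card S) (N : Subgroup f.range) (hN : N.Normal) (hc : (Nat.card N).Coprime p) : N = ⊥ := by
  have e := MonoidHom.ofInjective hf
  haveI := simple_equiv e hS
  rcases hN.eq_bot_or_eq_top with h | h
  · exact h
  · exfalso
    rw [h, Subgroup.card_top, ← Nat.card_congr e.toEquiv] at hc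
    have := Nat.Coprime.symm hc
    exact (Nat.Prime.coprime_iff_not_dvd hp).1 this hd

/-- the abstract core criterion -/
theorem core_abs {S G A₁ : Type*} [Group S] [Group A₁] [Finite A₁] (f : S →* A₁) (hf : Function.Injective f) (hS : IsSimpleGroup S)
    (A I : Subgroup A₁) [hI : I.Normal] (hIA : I ≤ A) (x : A₁) {p : ℕ} [Fact p.Prime] (hxp : orderOf x = p) (hfI : f.range ≤ I)
    (hfx : f.range ≤ Subgroup.centralizer {x}) (hnorm : ∀ c ∈ I, c * x = x * c → ∀ l ∈ f.range, c * l * c⁻¹ ∈ f.range)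
    (hC : ∀ g : A₁, (∀ l ∈ f.range, g * l = l * g) → g ∈ Subgroup.zpowers x)
    (hdvd : p ∣ Nat.card ↥(I ⊓ Subgroup.centralizer {x}) → p ∣ Nat.card S) :
    Cfsg.pPrimeCore p ↥(A ⊓ Subgroup.centralizer {x}) ≠ ⊥ ↔ Nat.Coprime p (Nat.card ↥(I ⊓ Subgroup.centralizer {x})) := by
  have hp : p.Prime := Fact.out
  constructor
  · intro h
    rw [Nat.Prime.coprime_iff_not_dvd hp]
    intro hd
    apply h
    exact core_bot A I f.range x p hxp hIA hfI hfx hnorm hC (fun N hN hc => simple_abs f hf hS hp (hdvd hd) N hN hc)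
  · intro h
    refine core_ne A I x p hIA ?_ h.symm
    intro h0
    have h1 : f.range ≤ I ⊓ Subgroup.centralizer {x} := le_inf hfI hfx
    rw [h0, le_bot_iff] at h1
    haveI := hS.toNontrivial
    obtain ⟨s, hs⟩ := exists_ne (1 : S)
    apply hs
    apply hf
    rw [map_one]
    have : f s ∈ f.range := ⟨s, rfl⟩
    rw [h1, Subgroup.mem_bot] at this
    exact this

end abs

section J

variable {F : Type*} [Field F] {F₀ : Type*} [Field F₀]

theorem dvd_abs {A₁ B Γ : Type*} [Group A₁] [Finite A₁] [Group Γ] [Group B] (I D C : Subgroup A₁) (h : I ≤ D) (e : Nonempty (↥(D ⊓ C) ≃* B)) (n : ℕ)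
    (hn : Nat.card B = n) : Nat.card ↥(I ⊓ C) ∣ n := by
  cases e with
  | intro e =>
    rw [← hn, ← Nat.card_congr e.toEquiv]
    exact Subgroup.card_dvd_of_le (inf_le_inf_right _ h)

theorem card_gam [Finite F₀] (h20 : (2 : F₀) ≠ 0) {k : ℕ} (hm : 3 ≤ k + 1) :
    Nat.card (OS (k + 1) F₀).Γ = 2 * Nat.card (Cfsg.Omega F₀ (Cfsg.quadFormOdd (k + 1) F₀)) :=
  card_SO h20 hm

theorem card_cent_dvd [Finite F] [Finite F₀] (h2 : (2 : F) ≠ 0) (h20 : (2 : F₀) ≠ 0) {k : ℕ} (hk : 2 ≤ k) (ι : F₀ →+* F) (σ : (OS (k + 1) F).A)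
    (hι : ∀ x, σ.1 x = x ↔ ∃ y, ι y = x) :
    Nat.card ↥(Cfsg.Inn (Cfsg.POmega F (Cfsg.quadFormOdd (k + 1) F)) ⊓ Subgroup.centralizer {(OS (k + 1) F).psi σ}) ∣
      2 * Nat.card (Cfsg.Omega F₀ (Cfsg.quadFormOdd (k + 1) F₀)) := by
  have hm : 3 ≤ k + 1 := by omega
  have h5 := cent_equiv1 h2 h20 hk ι σ hι
  have h6 := card_gam h20 hm
  have h1 : Cfsg.Inn (Cfsg.POmega F (Cfsg.quadFormOdd (k + 1) F)) ≤ (OS (k + 1) F).delta.range := MSys.Sys.inn_le _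
  exact dvd_abs (Γ := (OS (k + 1) F).Γ) _ _ _ h1 h5 _ h6

theorem std_case [Finite F] [Fintype F₀] (h2 : (2 : F) ≠ 0) (h20 : (2 : F₀) ≠ 0) {k : ℕ} (hk : 2 ≤ k) (ι : F₀ →+* F) (σ : (OS (k + 1) F).A)
    (hι : ∀ x, σ.1 x = x ↔ ∃ y, ι y = x) (A : Subgroup (MulAut (Cfsg.POmega F (Cfsg.quadFormOdd (k + 1) F))))
    (hinn : Cfsg.Inn (Cfsg.POmega F (Cfsg.quadFormOdd (k + 1) F)) ≤ A) {p : ℕ} [Fact p.Prime] (hxp : orderOf ((OS (k + 1) F).psi σ) = p) :
    Cfsg.pPrimeCore p ↥(A ⊓ Subgroup.centralizer {(OS (k + 1) F).psi σ}) ≠ ⊥ ↔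
      Nat.Coprime p (Nat.card ↥(Cfsg.Inn (Cfsg.POmega F (Cfsg.quadFormOdd (k + 1) F)) ⊓ Subgroup.centralizer {(OS (k + 1) F).psi σ})) := by
  have hm : 3 ≤ k + 1 := by omega
  have hp : p.Prime := Fact.out
  have h1 := JO_inj h2 h20 hk ι
  have h3 := JO_le_inn h2 h20 hk ι
  have h4 := JO_comm h2 h20 hk ι σ hι
  have h5 := JO_norm h2 h20 hk ι σ hι
  have h6 := JO_cent h2 h20 hk ι σ hι
  have h7 := card_cent_dvd h2 h20 hk ι σ hι
  have h8 := omega_simple (F := F₀) h20 hm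
  have h9 := even_omega (F := F₀) h20 hm
  refine core_abs (G := F) (JO h2 h20 k ι) h1 h8 A (Cfsg.Inn (Cfsg.POmega F (Cfsg.quadFormOdd (k + 1) F))) hinn ((OS (k + 1) F).psi σ) hxp h3 h4 h5 h6 ?_
  intro h10
  rcases hp.dvd_mul.1 (h10.trans h7) with h11 | h11
  · rw [(Nat.prime_dvd_prime_iff_eq hp Nat.prime_two).1 h11]
    exact h9
  · exact h11

end J

section gen

theorem exists_field {ι : Type*} [Fintype ι] [DecidableEq ι] {F : Type*} [Field F] {S : Type*} [Group S] (P : Sys ι F S) (hstd : P.stdG = ⊤)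
    (hker : ∀ (g : P.Γ) (σ : P.A), P.delta g * P.psi σ = 1 → σ = 1 ∧ P.IsSc g) {p : ℕ} (hp : p.Prime) (x : MulAut (S ⧸ Subgroup.center S))
    (hord : orderOf x = p) (hnot : x ∉ P.delta.range)
    (hcoset : ∀ σ : P.A, orderOf σ.1 = p → ∀ g : P.Γ, (P.delta g * P.psi σ) ^ p = 1 →
      ∃ y : P.Γ, P.delta g * P.psi σ = P.delta y * P.psi σ * (P.delta y)⁻¹) :
    ∃ (α : MulAut (S ⧸ Subgroup.center S)) (σ : P.A), orderOf σ.1 = p ∧ α * x * α⁻¹ = P.psi σ := by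
  have hx : x ∈ P.stdG := by rw [hstd]; trivial
  obtain ⟨g, σ, rfl⟩ := hx
  have hσ1 : σ ≠ 1 := by
    rintro rfl
    apply hnot
    rw [map_one, mul_one]
    exact ⟨g, rfl⟩
  have hpow : (P.delta g * P.psi σ) ^ p = 1 := by
    rw [← hord]; exact pow_orderOf_eq_one _
  have hσp : orderOf σ.1 = p := by
    rw [Subgroup.orderOf_coe]
    haveI : Fact p.Prime := ⟨hp⟩
    apply orderOf_eq_prime _ hσ1
    have h7 := hpow
    rw [P.pow_eq] at h7
    exact (hker _ _ h7).1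
  obtain ⟨k, hk⟩ := hcoset σ hσp g hpow
  refine ⟨(P.delta k)⁻¹, σ, hσp, ?_⟩
  rw [hk]; group

theorem fin_abs {K : Type*} [Group K] [Finite (MulAut K)] (A : Subgroup (MulAut K)) (hinj : Function.Injective (MulAut.conj : K →* MulAut K))
    (hIA : Cfsg.Inn K ≤ A) (x α y : MulAut K) (hy : α * x * α⁻¹ = y) (p : ℕ) (P : Prop) (hP : P)
    (hstd : ∀ A' : Subgroup (MulAut K), Cfsg.Inn K ≤ A' → (Cfsg.pPrimeCore p ↥(A' ⊓ Subgroup.centralizer {y}) ≠ ⊥ ↔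
      Nat.Coprime p (Nat.card ↥(Cfsg.Inn K ⊓ Subgroup.centralizer {y})))) :
    Cfsg.pPrimeCore p ↥(A ⊓ Subgroup.centralizer {x}) ≠ ⊥ ↔ (P ∧ Nat.Coprime p (Nat.card ↥(MonoidHom.eqLocus x.toMonoidHom (MonoidHom.id K)))) := by
  subst hy
  have h1 := Cfsg.Agent.H8.CoreAbs.core_conj A x α p
  have h2 := hstd (A.map (MulAut.conj α).toMonoidHom) (by
    intro y hy
    refine ⟨α⁻¹ * y * α, hIA ?_, ?_⟩
    · have := (Cfsg.innNormal K).conj_mem y hy α⁻¹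
      rwa [inv_inv] at this
    · show α * (α⁻¹ * y * α) * α⁻¹ = y
      group)
  have h3 : Nat.card ↥(Cfsg.Inn K ⊓ Subgroup.centralizer {α * x * α⁻¹}) =
      Nat.card ↥(Cfsg.Inn K ⊓ Subgroup.centralizer {x}) := by
    obtain ⟨e⟩ := Cfsg.Agent.Lib.AutPSL.centralizer_conj_equiv (Cfsg.Inn K) x α
    exact (Nat.card_congr e.toEquiv).symm
  rw [card_fix_abs hinj, ← h3, ← h2]
  constructor
  · intro h; exact ⟨hP, fun h0 => h (h1.2 h0)⟩
  · rintro ⟨-, h⟩; exact fun h0 => h (h1.1 h0)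

end gen

end Cfsg.Agent.H8.Ort
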