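import Mathlib

set_option autoImplicit false
set_option linter.all false

/-! Products of two conjugates in `PSL_3(q)`: normal forms. -/

namespace Cfsg.Agent.H8.PslCC

open Matrix

section
variable {F : Type*} [Field F]

local notation "M3" => Matrix (Fin 3) (Fin 3) F

/-- non-scalar matrices have a first column `(1,1,0)` in a suitable basis -/
theorem step1 {A : M3} (hA : ∀ c : F, A ≠ c • 1) :
    ∃ P A1 : M3, P.det ≠ 0 ∧ A * P = P * A1 ∧ A1 0 0 = 1 ∧ A1 1 0 = 1 ∧ A1 2 0 = 0 := by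
  obtain ⟨v, hv⟩ : ∃ v : Fin 3 → F, LinearIndependent F ![v, A *ᵥ v] := by
    by_contra hcon
    push Not at hcon
    obtain ⟨c, hc⟩ := (Matrix.toLin' A).exists_eq_smul_id_of_forall_notLinearIndependent (fun v => hcon v)
    apply hA c
    apply Matrix.toLin'.injective
    rw [hc, map_smul, Matrix.toLin'_one]
    rfl
  have hv2 : LinearIndependent F ![v, A *ᵥ v - v] := by
    rw [LinearIndependent.pair_iff] at hv ⊢
    intro s t h
    have h1 := hv (s - t) t (by rw [← h]; module)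
    exact ⟨by rw [← sub_add_cancel s t, h1.1, h1.2, add_zero], h1.2⟩
  obtain ⟨x, hx⟩ := exists_linearIndependent_snoc_of_lt_finrank hv2 (by rw [Module.finrank_fin_fun]; norm_num)
  have hx' : LinearIndependent F (![v, A *ᵥ v - v, x] : Fin 3 → (Fin 3 → F)) := by
    have e : (Fin.snoc ![v, A *ᵥ v - v] x : Fin 3 → (Fin 3 → F)) = ![v, A *ᵥ v - v, x] := by
      funext i; fin_cases i <;> rfl
    rw [← e]; exact hx
  set P : M3 := (Matrix.of ![v, A *ᵥ v - v, x]).transpose with hP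
  have hdet : P.det ≠ 0 := by
    rw [hP, Matrix.det_transpose]
    have h1 : IsUnit (Matrix.of ![v, A *ᵥ v - v, x] : M3) := Matrix.linearIndependent_rows_iff_isUnit.1 hx'
    exact ((Matrix.isUnit_iff_isUnit_det _).1 h1).ne_zero
  have hu : IsUnit P.det := isUnit_iff_ne_zero.2 hdet
  have hPi : P * P⁻¹ = 1 := Matrix.mul_nonsing_inv _ hu
  have hPi' : P⁻¹ * P = 1 := Matrix.nonsing_inv_mul _ hu
  have h0 : P *ᵥ Pi.single 0 1 = v := by
    rw [Matrix.mulVec_single_one]; rfl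
  have h1 : P *ᵥ Pi.single 1 1 = A *ᵥ v - v := by
    rw [Matrix.mulVec_single_one]; rfl
  have hcol : (P⁻¹ * A * P) *ᵥ Pi.single 0 1 = Pi.single 0 1 + Pi.single 1 1 := by
    rw [← Matrix.mulVec_mulVec, h0, ← Matrix.mulVec_mulVec]
    have h2 : A *ᵥ v = P *ᵥ (Pi.single 0 1 + Pi.single 1 1) := by
      rw [Matrix.mulVec_add, h0, h1]; abel
    rw [h2, Matrix.mulVec_mulVec, hPi', Matrix.one_mulVec]
  have hc : ∀ i, (P⁻¹ * A * P) i 0 = (Pi.single 0 1 + Pi.single 1 1 : Fin 3 → F) i := by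
    intro i
    rw [← hcol, Matrix.mulVec_single_one]; rfl
  refine ⟨P, P⁻¹ * A * P, hdet, ?_, ?_, ?_, ?_⟩
  · rw [← mul_assoc, ← mul_assoc, hPi, one_mul]
  · rw [hc]; simp
  · rw [hc]; simp
  · rw [hc]; simp

theorem adj_of {A1 : M3} (h0 : A1 0 0 = 1) (h1 : A1 1 0 = 1) (h2 : A1 2 0 = 0) {u1 u2 w1 w2 y : F} (hδ : u1 * w2 - w1 * u2 ≠ 0)
    (e1 : (A1 1 1 - A1 0 1) * u1 + (A1 1 2 - A1 0 2) * u2 = u1 + y * w1)
    (e2 : A1 2 1 * u1 + A1 2 2 * u2 = u2 + y * w2) :
    ∃ P B : M3, P.det ≠ 0 ∧ A1 * P = P * B ∧ B 0 0 = 1 ∧ B 1 1 - B 0 1 * B 1 0 = 1 := by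
  obtain ⟨d, hd⟩ : ∃ d : F, d * (u1 * w2 - w1 * u2) = 1 := ⟨_, inv_mul_cancel₀ hδ⟩
  let P : M3 := !![1, 0, 0; 0, u1, w1; 0, u2, w2]
  let P' : M3 := !![1, 0, 0; 0, w2 * d, -w1 * d; 0, -u2 * d, u1 * d]
  have hPP : P * P' = 1 := by
    ext i j
    fin_cases i <;> fin_cases j <;> simp [P, P', Matrix.mul_apply, Fin.sum_univ_three] <;> first | linear_combination hd | ring
  refine ⟨P, P' * A1 * P, ?_, ?_, ?_, ?_⟩
  · have : P.det = u1 * w2 - w1 * u2 := by simp [P, Matrix.det_fin_three]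
    rw [this]; exact hδ
  · rw [← mul_assoc, ← mul_assoc, hPP, one_mul]
  · simp only [Matrix.mul_apply, Fin.sum_univ_three]
    simp [P, P', h0, h1, h2]
  · simp only [Matrix.mul_apply, Fin.sum_univ_three]
    simp [P, P', h0, h1, h2]
    linear_combination (w2 * d) * e1 - (w1 * d) * e2 + hd

theorem step2 {A1 : M3} (hdet : A1.det = 1) (h0 : A1 0 0 = 1) (h1 : A1 1 0 = 1) (h2 : A1 2 0 = 0) :
    ∃ P B : M3, P.det ≠ 0 ∧ A1 * P = P * B ∧ B 0 0 = 1 ∧ B 1 1 - B 0 1 * B 1 0 = 1 := by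
  rw [Matrix.det_fin_three, h0, h1, h2] at hdet
  by_cases c1 : A1 2 1 = 0
  · by_cases c2 : A1 1 2 - A1 0 2 = 0
    · by_cases c3 : A1 1 1 - A1 0 1 = A1 2 2
      · have hsq : (A1 2 2 - 1) * (A1 2 2 + 1) = 0 := by
          rw [← c3]
          have h3 : A1 1 2 = A1 0 2 := by linear_combination c2
          rw [c1, h3, ← c3] at hdet
          linear_combination hdet
        rcases mul_eq_zero.1 hsq with h | h
        · refine adj_of h0 h1 h2 (u1 := 1) (u2 := 0) (w1 := 0) (w2 := 1) (y := 0) (by norm_num) ?_ ?_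
          · rw [c3]; linear_combination h
          · rw [c1]; ring
        · -- `S = -1`: shear
          let P0 : M3 := !![1, 0, 1; 0, 1, 0; 0, 0, 1]
          let P0' : M3 := !![1, 0, -1; 0, 1, 0; 0, 0, 1]
          have hP0 : P0 * P0' = 1 := by
            ext i j
            fin_cases i <;> fin_cases j <;> simp [P0, P0', Matrix.mul_apply, Fin.sum_univ_three]
          have k22 : A1 2 2 = -1 := by linear_combination h
          have k11 : A1 1 1 = A1 0 1 - 1 := by linear_combination c3 + k22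
          have k12 : A1 1 2 = A1 0 2 := by linear_combination c2
          set A2 := P0' * A1 * P0 with hA2
          have hA2' : A1 * P0 = P0 * A2 := by rw [hA2, ← mul_assoc, ← mul_assoc, hP0, one_mul]
          obtain ⟨P, B, hP, hB, b0, b1⟩ := adj_of (A1 := A2) (u1 := 0) (u2 := 1) (w1 := -1) (w2 := -2) (y := 1)
            (by simp only [hA2, Matrix.mul_apply, Fin.sum_univ_three]; simp [P0, P0', h0, h1, h2])
            (by simp only [hA2, Matrix.mul_apply, Fin.sum_univ_three]; simp [P0, P0', h0, h1, h2])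
            (by simp only [hA2, Matrix.mul_apply, Fin.sum_univ_three]; simp [P0, P0', h0, h1, h2])
            (by norm_num)
            (by
              simp only [hA2, Matrix.mul_apply, Fin.sum_univ_three]
              simp [P0, P0', h0, h1, h2, k22, k11, k12, c1]
              try ring)
            (by
              simp only [hA2, Matrix.mul_apply, Fin.sum_univ_three]
              simp [P0, P0', h0, h1, h2, k22, k11, k12, c1]
              try ring)
          refine ⟨P0 * P, B, ?_, ?_, b0, b1⟩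
          · rw [Matrix.det_mul]
            refine mul_ne_zero ?_ hP
            simp [P0, Matrix.det_fin_three]
          · rw [← mul_assoc, hA2', mul_assoc, hB, mul_assoc]
      · refine adj_of h0 h1 h2 (u1 := 1) (u2 := 1) (w1 := A1 1 1 - A1 0 1 - 1) (w2 := A1 2 2 - 1) (y := 1) ?_ ?_ ?_
        · intro h; apply c3; linear_combination -h
        · rw [c2]; ring
        · rw [c1]; ring
    · refine adj_of h0 h1 h2 (u1 := 0) (u2 := 1) (w1 := A1 1 2 - A1 0 2) (w2 := A1 2 2 - 1) (y := 1) ?_ ?_ ?_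
      · intro h; apply c2; linear_combination -h
      · ring
      · ring
  · refine adj_of h0 h1 h2 (u1 := 1) (u2 := 0) (w1 := A1 1 1 - A1 0 1 - 1) (w2 := A1 2 1) (y := 1) ?_ ?_ ?_
    · intro h; apply c1; linear_combination h
    · ring
    · ring

/-- conjugacy from eigenvectors -/
theorem conjD {a : F} {X D : SpecialLinearGroup (Fin 3) F} {c : Fin 3 → F} (hD : D.1 = Matrix.diagonal c) {P : M3} (hP : P.det ≠ 0)
    (h : X.1 * P = P * D.1) : ∃ u : SpecialLinearGroup (Fin 3) F, X = u * D * u⁻¹ := by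
  set E : M3 := Matrix.diagonal ![P.det⁻¹, 1, 1] with hE
  have hEd : E.det = P.det⁻¹ := by
    rw [hE, Matrix.det_diagonal, Fin.prod_univ_three]; simp
  let U : SpecialLinearGroup (Fin 3) F := ⟨P * E, by rw [Matrix.det_mul, hEd, mul_inv_cancel₀ hP]⟩
  refine ⟨U, ?_⟩
  apply eq_mul_inv_of_mul_eq
  apply Subtype.ext
  show X.1 * (P * E) = P * E * D.1
  have h1 : D.1 * E = E * D.1 := by
    rw [hD, hE, Matrix.diagonal_mul_diagonal, Matrix.diagonal_mul_diagonal]
    congr 1; funext i; exact mul_comm _ _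
  rw [← mul_assoc, h, mul_assoc, h1, ← mul_assoc]

/-- the diagonal element -/
def dd (a : F) (ha : a ≠ 0) : SpecialLinearGroup (Fin 3) F := ⟨Matrix.diagonal ![1, a, a⁻¹], by
  rw [Matrix.det_diagonal, Fin.prod_univ_three]
  show 1 * a * a⁻¹ = 1
  rw [one_mul, mul_inv_cancel₀ ha]⟩

theorem lower_conj {a : F} (ha : a ≠ 0) (h1 : a ≠ 1) (h2 : a ^ 2 ≠ 1) (X : SpecialLinearGroup (Fin 3) F) {x y z : F}
    (hX : X.1 = !![1, 0, 0; x, a, 0; y, z, a⁻¹]) : ∃ u : SpecialLinearGroup (Fin 3) F, X = u * dd a ha * u⁻¹ := by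
  have g1 : (1 - a) ≠ 0 := sub_ne_zero.2 (Ne.symm h1)
  have g2 : (1 - a⁻¹) ≠ 0 := by
    intro h; apply h1
    have : a⁻¹ = 1 := by linear_combination -h
    exact inv_eq_one.1 this
  have g3 : (a - a⁻¹) ≠ 0 := by
    intro h; apply h2
    have : a = a⁻¹ := by linear_combination h
    rw [pow_two]; nth_rewrite 2 [this]; exact mul_inv_cancel₀ ha
  refine conjD (a := a) (D := dd a ha) (c := ![1, a, a⁻¹]) rfl
    (P := !![1, 0, 0; x / (1 - a), 1, 0; (y + z * (x / (1 - a))) / (1 - a⁻¹), z / (a - a⁻¹), 1]) ?_ ?_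
  · simp [Matrix.det_fin_three]
  · rw [hX]
    show _ = _ * Matrix.diagonal ![1, a, a⁻¹]
    ext i j
    fin_cases i <;> fin_cases j <;> simp [Matrix.mul_apply, Fin.sum_univ_three, Matrix.diagonal_apply]
    · field_simp; ring
    · field_simp; ring
    · field_simp; ring

theorem upper_conj {a : F} (ha : a ≠ 0) (h1 : a ≠ 1) (h2 : a ^ 2 ≠ 1) (X : SpecialLinearGroup (Fin 3) F) {x y z : F}
    (hX : X.1 = !![1, x, y; 0, a⁻¹, z; 0, 0, a]) : ∃ u : SpecialLinearGroup (Fin 3) F, X = u * dd a ha * u⁻¹ := by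
  have g1 : (1 - a) ≠ 0 := sub_ne_zero.2 (Ne.symm h1)
  have g2 : (a⁻¹ - 1) ≠ 0 := by
    intro h; apply h1
    have : a⁻¹ = 1 := by linear_combination h
    exact inv_eq_one.1 this
  have g3 : (a - a⁻¹) ≠ 0 := by
    intro h; apply h2
    have : a = a⁻¹ := by linear_combination h
    rw [pow_two]; nth_rewrite 2 [this]; exact mul_inv_cancel₀ ha
  have g4 : a - 1 ≠ 0 := sub_ne_zero.2 h1
  refine conjD (a := a) (D := dd a ha) (c := ![1, a, a⁻¹]) rfl
    (P := !![1, (x * (z / (a - a⁻¹)) + y) / (a - 1), x / (a⁻¹ - 1); 0, z / (a - a⁻¹), 1; 0, 1, 0]) ?_ ?_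
  · simp [Matrix.det_fin_three]
  · rw [hX]
    show _ = _ * Matrix.diagonal ![1, a, a⁻¹]
    ext i j
    fin_cases i <;> fin_cases j <;> simp [Matrix.mul_apply, Fin.sum_univ_three, Matrix.diagonal_apply]
    · field_simp; ring
    · field_simp; ring
    · field_simp; ring

end

end Cfsg.Agent.H8.PslCC
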