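import Mathlib
import Cfsg.Agent.H8.PslCC1

set_option autoImplicit false
set_option linter.all false

/-! Products of two conjugates in `PSL_3(q)`: main theorem. -/

namespace Cfsg.Agent.H8.PslCC

open Matrix

section
variable {F : Type*} [Field F]

local notation "M3" => Matrix (Fin 3) (Fin 3) F
local notation "SL3" => SpecialLinearGroup (Fin 3) F

/-- conjugation by an invertible matrix, realized in `SL_3` -/
theorem conj_back {P A B : M3} (hP : P.det ≠ 0) (h : A * P = P * B) {D X Y : SL3} (hXY : X.1 * Y.1 = B) {c : Fin 3 → F} (hD : D.1 = Matrix.diagonal c)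
    (hX : ∃ u : SL3, X = u * D * u⁻¹) (hY : ∃ u : SL3, Y = u * D * u⁻¹) :
    ∃ u v : SL3, A = ((u * D * u⁻¹) * (v * D * v⁻¹)).1 := by
  have hu : IsUnit P.det := isUnit_iff_ne_zero.2 hP
  have hPi : P * P⁻¹ = 1 := Matrix.mul_nonsing_inv _ hu
  have hPi' : P⁻¹ * P = 1 := Matrix.nonsing_inv_mul _ hu
  have hdP : P.det * P⁻¹.det = 1 := by rw [← Matrix.det_mul, hPi, Matrix.det_one]
  have key : ∀ X : SL3, (∃ u : SL3, X = u * D * u⁻¹) → ∃ u : SL3, P * X.1 * P⁻¹ = (u * D * u⁻¹).1 := by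
    rintro X ⟨u, hu⟩
    let X' : SL3 := ⟨P * X.1 * P⁻¹, by rw [Matrix.det_mul, Matrix.det_mul, X.2, mul_one, hdP]⟩
    obtain ⟨w, hw⟩ := conjD (a := (1 : F)) (X := X') (D := D) hD (P := P * u.1) (by rw [Matrix.det_mul, u.2, mul_one]; exact hP) (by
      show P * X.1 * P⁻¹ * (P * u.1) = P * u.1 * D.1
      have h1 : X.1 * u.1 = u.1 * D.1 := by
        have h2 : X * u = u * D := by rw [hu]; group
        exact congrArg Subtype.val h2
      calc P * X.1 * P⁻¹ * (P * u.1) = P * X.1 * (P⁻¹ * P) * u.1 := by simp only [mul_assoc]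
        _ = P * (X.1 * u.1) := by rw [hPi', mul_one, mul_assoc]
        _ = P * u.1 * D.1 := by rw [h1, mul_assoc])
    exact ⟨w, congrArg Subtype.val hw⟩
  obtain ⟨u, hu'⟩ := key X hX
  obtain ⟨v, hv'⟩ := key Y hY
  refine ⟨u, v, ?_⟩
  show A = (u * D * u⁻¹).1 * (v * D * v⁻¹).1
  rw [← hu', ← hv']
  calc A = A * (P * P⁻¹) := by rw [hPi, mul_one]
    _ = P * (X.1 * Y.1) * P⁻¹ := by rw [hXY, ← mul_assoc, h]
    _ = P * X.1 * (P⁻¹ * P) * (Y.1 * P⁻¹) := by rw [hPi', mul_one]; simp only [mul_assoc]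
    _ = P * X.1 * P⁻¹ * (P * Y.1 * P⁻¹) := by simp only [mul_assoc]

theorem det_of_conj {P A B : M3} (hP : P.det ≠ 0) (h : A * P = P * B) (hA : A.det = 1) : B.det = 1 := by
  have h1 := congrArg Matrix.det h
  rw [Matrix.det_mul, Matrix.det_mul, hA, one_mul] at h1
  have h2 : P.det * B.det = P.det * 1 := by rw [mul_one]; exact h1.symm
  exact mul_left_cancel₀ hP h2

/-- products of two conjugates of a regular diagonal element -/
theorem gen4 {a : F} (ha : a ≠ 0) (h1 : a ≠ 1) (h2 : a ^ 2 ≠ 1) (A : SL3) (hA : ∀ c : F, A.1 ≠ c • 1) :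
    ∃ u v : SL3, A = (u * dd a ha * u⁻¹) * (v * dd a ha * v⁻¹) := by
  obtain ⟨P, A1, hP, hA1, k0, k1, k2⟩ := step1 hA
  obtain ⟨Q, B, hQ, hB, b0, b1⟩ := step2 (det_of_conj hP hA1 A.2) k0 k1 k2
  have hPQ : A.1 * (P * Q) = P * Q * B := by rw [← mul_assoc, hA1, mul_assoc, hB, mul_assoc]
  have hPQd : (P * Q).det ≠ 0 := by rw [Matrix.det_mul]; exact mul_ne_zero hP hQ
  have hBd : B.det = 1 := det_of_conj hPQd hPQ A.2
  -- LU decomposition
  let X : SL3 := ⟨!![1, 0, 0; B 1 0, a, 0; B 2 0, a * (B 2 1 - B 2 0 * B 0 1), a⁻¹], by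
    simp [Matrix.det_fin_three, mul_inv_cancel₀ ha]⟩
  let Y : SL3 := ⟨!![1, B 0 1, B 0 2; 0, a⁻¹, a⁻¹ * (B 1 2 - B 1 0 * B 0 2); 0, 0, a], by
    simp [Matrix.det_fin_three, inv_mul_cancel₀ ha]⟩
  have hXY : X.1 * Y.1 = B := by
    have hd := hBd
    rw [Matrix.det_fin_three, b0] at hd
    have haa : a * a⁻¹ = 1 := mul_inv_cancel₀ ha
    show !![1, 0, 0; B 1 0, a, 0; B 2 0, a * (B 2 1 - B 2 0 * B 0 1), a⁻¹] * !![1, B 0 1, B 0 2; 0, a⁻¹, a⁻¹ * (B 1 2 - B 1 0 * B 0 2); 0, 0, a] = B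
    ext i j
    fin_cases i <;> fin_cases j <;> simp [Matrix.mul_apply, Fin.sum_univ_three]
    · exact b0.symm
    · linear_combination haa - b1
    · linear_combination (B 1 2 - B 1 0 * B 0 2) * haa
    · linear_combination (B 2 1 - B 2 0 * B 0 1) * haa
    · linear_combination (B 2 2 - B 2 0 * B 0 2) * b1 + ((B 2 1 - B 2 0 * B 0 1) * (B 1 2 - B 1 0 * B 0 2) + 1) * haa - hd
  obtain ⟨u, v, huv⟩ := conj_back hPQd hPQ hXY (D := dd a ha) (c := ![1, a, a⁻¹]) rfl (lower_conj ha h1 h2 X rfl) (upper_conj ha h1 h2 Y rfl)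
  exact ⟨u, v, Subtype.ext huv⟩

end

end Cfsg.Agent.H8.PslCC
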