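import Mathlib
import Cfsg.Agent.H8.PslCC3

set_option autoImplicit false
set_option linter.all false

/-! Products of two conjugates in `PSL_3(q)`: the case `q = 3` and the final statement. -/

namespace Cfsg.Agent.H8.PslCC

open Matrix

section
variable {F : Type*} [Field F]

local notation "M3" => Matrix (Fin 3) (Fin 3) F
local notation "SL3" => SpecialLinearGroup (Fin 3) F

/-- the matrix of a code -/
def MM (F : Type*) [Field F] (c : ℕ) : Matrix (Fin 3) (Fin 3) F := Matrix.of fun i j => ((dg c (3 * i.1 + j.1) : ℕ) : F)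

theorem MM_mul (a b : ℕ) (i j : Fin 3) : (MM F a * MM F b) i j = ((prd a b i.1 j.1 : ℕ) : F) := by
  rw [Matrix.mul_apply, Fin.sum_univ_three]
  unfold MM prd
  simp only [Matrix.of_apply, Nat.cast_add, Nat.cast_mul]
  have e0 : 3 * ((0 : Fin 3) : ℕ) + (j : ℕ) = j := Nat.zero_add _
  rw [e0]
  rfl

theorem cast_of_mod [CharP F 3] {a b : ℕ} (h : a % 3 = b % 3) : (a : F) = (b : F) :=
  (CharP.natCast_eq_natCast F 3).2 h

theorem cast_of_mod' [CharP F 3] {a b : ℕ} (h : a % 3 = b) : (a : F) = (b : F) := by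
  apply cast_of_mod
  rw [← h, Nat.mod_mod]

theorem eqm_mul [CharP F 3] {a b c e : ℕ} (h : eqm a b c e = true) : MM F a * MM F b = MM F c * MM F e := by
  ext i j
  rw [MM_mul, MM_mul]
  apply cast_of_mod
  unfold eqm at h
  rw [List.all_eq_true] at h
  have h1 := h i.1 (List.mem_range.2 i.2)
  rw [List.all_eq_true] at h1
  have h2 := h1 j.1 (List.mem_range.2 j.2)
  exact beq_iff_eq.1 h2

theorem MM_det [CharP F 3] {c : ℕ} (h : dt c % 3 = 1) : (MM F c).det = 1 := by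
  have h3 : (3 : F) = 0 := by
    have := CharP.cast_eq_zero F 3
    exact_mod_cast this
  have h1 : ((dt c : ℕ) : F) = ((1 : ℕ) : F) := cast_of_mod' h
  rw [Nat.cast_one] at h1
  rw [← h1, Matrix.det_fin_three]
  unfold dt MM
  simp only [Matrix.of_apply, Nat.cast_add, Nat.cast_mul]
  show ((dg c 0 : ℕ) : F) * (dg c 4 : ℕ) * (dg c 8 : ℕ) - (dg c 0 : ℕ) * (dg c 5 : ℕ) * (dg c 7 : ℕ) - (dg c 1 : ℕ) * (dg c 3 : ℕ) * (dg c 8 : ℕ)
    + (dg c 1 : ℕ) * (dg c 5 : ℕ) * (dg c 6 : ℕ) + (dg c 2 : ℕ) * (dg c 3 : ℕ) * (dg c 7 : ℕ) - (dg c 2 : ℕ) * (dg c 4 : ℕ) * (dg c 6 : ℕ) = _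
  generalize ((dg c 0 : ℕ) : F) = a0
  generalize ((dg c 1 : ℕ) : F) = a1
  generalize ((dg c 2 : ℕ) : F) = a2
  generalize ((dg c 3 : ℕ) : F) = a3
  generalize ((dg c 4 : ℕ) : F) = a4
  generalize ((dg c 5 : ℕ) : F) = a5
  generalize ((dg c 6 : ℕ) : F) = a6
  generalize ((dg c 7 : ℕ) : F) = a7
  generalize ((dg c 8 : ℕ) : F) = a8
  have h2 : ((2 : ℕ) : F) = 2 := by norm_num
  rw [h2]
  linear_combination (-(a0 * a5 * a7) - a1 * a3 * a8 - a1 * a5 * a6 - a2 * a4 * a6) * h3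

/-- the element of order four -/
def x0 (F : Type*) [Field F] : SpecialLinearGroup (Fin 3) F := ⟨!![0, 0, 1; 0, 1, 0; -1, 0, 0], by simp [Matrix.det_fin_three]⟩

theorem x0_MM [CharP F 3] : MM F 1548 = (x0 F).1 := by
  have h3 : (3 : F) = 0 := by
    have := CharP.cast_eq_zero F 3
    exact_mod_cast this
  show _ = !![0, 0, 1; 0, 1, 0; -1, 0, 0]
  unfold MM
  ext i j
  fin_cases i <;> fin_cases j <;> simp [dg] <;> linear_combination h3

theorem gen3 [Fintype F] (hF : Fintype.card F = 3) (A : SL3) (hA : ∀ c : F, A.1 ≠ c • 1) :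
    ∃ u v : SL3, A = (u * x0 F * u⁻¹) * (v * x0 F * v⁻¹) := by
  haveI : CharP F 3 := by
    obtain ⟨p, hp⟩ := CharP.exists F
    haveI := hp
    have hpp : p.Prime := CharP.char_is_prime F p
    obtain ⟨n, -, hn⟩ := FiniteField.card F p
    rw [hF] at hn
    have h1 : p ∣ 3 := by rw [hn]; exact dvd_pow_self p n.2.ne'
    have h2 : p = 3 := (Nat.prime_dvd_prime_iff_eq hpp Nat.prime_three).1 h1
    rwa [h2] at hp
  have h3 : (3 : F) = 0 := by
    have := CharP.cast_eq_zero F 3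
    exact_mod_cast this
  have hsurj : ∀ x : F, ∃ n < 3, ((n : ℕ) : F) = x := by
    have hinj : Function.Injective (fun n : Fin 3 => ((n.1 : ℕ) : F)) := by
      intro a b hab
      have h1 := (CharP.natCast_eq_natCast F 3).1 hab
      exact Fin.ext (by
        have h2 : a.1 % 3 = b.1 % 3 := h1
        rwa [Nat.mod_eq_of_lt a.2, Nat.mod_eq_of_lt b.2] at h2)
    have hbij := (Fintype.bijective_iff_injective_and_card (fun n : Fin 3 => ((n.1 : ℕ) : F))).2 ⟨hinj, by rw [Fintype.card_fin, hF]⟩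
    intro x
    obtain ⟨n, hn⟩ := hbij.2 x
    exact ⟨n.1, n.2, hn⟩
  obtain ⟨P, A1, hP, hA1, k0, k1, k2⟩ := step1 hA
  have hdet : A1.det = 1 := det_of_conj hP hA1 A.2
  obtain ⟨r1, hr1, hr1'⟩ := hsurj (A1 0 1)
  obtain ⟨r2, hr2, hr2'⟩ := hsurj (A1 0 2)
  obtain ⟨m11, hm11, hm11'⟩ := hsurj (A1 1 1)
  obtain ⟨m12, hm12, hm12'⟩ := hsurj (A1 1 2)
  obtain ⟨m21, hm21, hm21'⟩ := hsurj (A1 2 1)
  obtain ⟨m22, hm22, hm22'⟩ := hsurj (A1 2 2)
  have hck := all_chk r1 hr1 r2 hr2 m11 hm11 m12 hm12 m21 hm21 m22 hm22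
  unfold chk at hck
  have hdm : (m11 * m22 + 2 * m12 * m21 + 2 * r1 * m22 + r2 * m21) % 3 = 1 := by
    have h1 : ((m11 * m22 + 2 * m12 * m21 + 2 * r1 * m22 + r2 * m21 : ℕ) : F) = ((1 : ℕ) : F) := by
      push_cast
      rw [hr1', hr2', hm11', hm12', hm21', hm22', ← hdet, Matrix.det_fin_three, k0, k1, k2]
      linear_combination (A1 1 2 * A1 2 1 + A1 0 1 * A1 2 2) * h3
    have h2 := (CharP.natCast_eq_natCast F 3).1 h1
    exact h2
  rw [hdm] at hck
  rw [show (!((1 : ℕ) == 1)) = false from rfl, Bool.false_or] at hck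
  set cu := ent BU (r1 + 3 * r2 + 9 * m11 + 27 * m12 + 81 * m21 + 243 * m22)
  set cv := ent BV (r1 + 3 * r2 + 9 * m11 + 27 * m12 + 81 * m21 + 243 * m22)
  set cX := ent BX (r1 + 3 * r2 + 9 * m11 + 27 * m12 + 81 * m21 + 243 * m22)
  set cY := ent BY (r1 + 3 * r2 + 9 * m11 + 27 * m12 + 81 * m21 + 243 * m22)
  unfold ck0 at hck
  simp only [Bool.and_eq_true, beq_iff_eq] at hck
  obtain ⟨c1, c2, c3, c4, d00, d01, d02, d10, d11, d12, d20, d21, d22⟩ := hck
  have e1 := eqm_mul (F := F) c1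
  have e2 := eqm_mul (F := F) c2
  rw [x0_MM] at e1 e2
  let u : SL3 := ⟨MM F cu, MM_det c3⟩
  let v : SL3 := ⟨MM F cv, MM_det c4⟩
  have hprod : MM F cX * MM F cY = A1 := by
    ext i j
    rw [MM_mul]
    fin_cases i <;> fin_cases j
    · show ((prd cX cY 0 0 : ℕ) : F) = A1 0 0
      rw [k0, cast_of_mod' d00, Nat.cast_one]
    · show ((prd cX cY 0 1 : ℕ) : F) = A1 0 1
      rw [cast_of_mod' d01, hr1']
    · show ((prd cX cY 0 2 : ℕ) : F) = A1 0 2
      rw [cast_of_mod' d02, hr2']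
    · show ((prd cX cY 1 0 : ℕ) : F) = A1 1 0
      rw [k1, cast_of_mod' d10, Nat.cast_one]
    · show ((prd cX cY 1 1 : ℕ) : F) = A1 1 1
      rw [cast_of_mod' d11, hm11']
    · show ((prd cX cY 1 2 : ℕ) : F) = A1 1 2
      rw [cast_of_mod' d12, hm12']
    · show ((prd cX cY 2 0 : ℕ) : F) = A1 2 0
      rw [k2, cast_of_mod' d20, Nat.cast_zero]
    · show ((prd cX cY 2 1 : ℕ) : F) = A1 2 1
      rw [cast_of_mod' d21, hm21']
    · show ((prd cX cY 2 2 : ℕ) : F) = A1 2 2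
      rw [cast_of_mod' d22, hm22']
  have f1 : MM F cX = (u * x0 F * u⁻¹).1 := by
    have h1 : (u * u⁻¹).1 = 1 := by rw [mul_inv_cancel]; rfl
    calc MM F cX = MM F cX * (u * u⁻¹).1 := by rw [h1, mul_one]
      _ = (MM F cX * MM F cu) * (u⁻¹).1 := by rw [mul_assoc]; rfl
      _ = (MM F cu * (x0 F).1) * (u⁻¹).1 := by rw [e1]
      _ = (u * x0 F * u⁻¹).1 := rfl
  have f2 : MM F cY = (v * x0 F * v⁻¹).1 := by
    have h1 : (v * v⁻¹).1 = 1 := by rw [mul_inv_cancel]; rfl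
    calc MM F cY = MM F cY * (v * v⁻¹).1 := by rw [h1, mul_one]
      _ = (MM F cY * MM F cv) * (v⁻¹).1 := by rw [mul_assoc]; rfl
      _ = (MM F cv * (x0 F).1) * (v⁻¹).1 := by rw [e2]
      _ = (v * x0 F * v⁻¹).1 := rfl
  -- conjugating back
  have hP2 : P.det ^ 2 = 1 := by
    have := FiniteField.pow_card_sub_one_eq_one P.det hP
    rwa [hF] at this
  let p : SL3 := ⟨P.det • P, by
    rw [Matrix.det_smul, Fintype.card_fin]
    linear_combination (P.det ^ 2 + 1) * hP2⟩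
  have hp : A.1 * p.1 = p.1 * A1 := by
    show A.1 * (P.det • P) = (P.det • P) * A1
    rw [mul_smul_comm, smul_mul_assoc, hA1]
  refine ⟨p * u, p * v, ?_⟩
  have hfin : A * p = p * ((u * x0 F * u⁻¹) * (v * x0 F * v⁻¹)) := by
    apply Subtype.ext
    show A.1 * p.1 = p.1 * ((u * x0 F * u⁻¹).1 * (v * x0 F * v⁻¹).1)
    rw [hp, ← f1, ← f2, hprod]
  have hfin2 : A = p * ((u * x0 F * u⁻¹) * (v * x0 F * v⁻¹)) * p⁻¹ := eq_mul_inv_of_mul_eq hfin
  rw [hfin2]; group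

theorem final [Fintype F] (p : ℕ) [Fact p.Prime] [CharP F p] (h3 : 3 ≤ Fintype.card F) :
    ∃ x : Matrix.ProjectiveSpecialLinearGroup (Fin 3) F, ¬ p ∣ orderOf x ∧ ∀ g : Matrix.ProjectiveSpecialLinearGroup (Fin 3) F, g ≠ 1 →
      ∃ u v : Matrix.ProjectiveSpecialLinearGroup (Fin 3) F, g = (u * x * u⁻¹) * (v * x * v⁻¹) := by
  -- reduction to `SL_3`
  have red : ∀ D : SL3, ¬ p ∣ orderOf D → (∀ A : SL3, (∀ c : F, A.1 ≠ c • 1) → ∃ u v : SL3, A = (u * D * u⁻¹) * (v * D * v⁻¹)) →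
      ∃ x : Matrix.ProjectiveSpecialLinearGroup (Fin 3) F, ¬ p ∣ orderOf x ∧ ∀ g : Matrix.ProjectiveSpecialLinearGroup (Fin 3) F, g ≠ 1 →
      ∃ u v : Matrix.ProjectiveSpecialLinearGroup (Fin 3) F, g = (u * x * u⁻¹) * (v * x * v⁻¹) := by
    intro D hD h
    let π : SL3 →* Matrix.ProjectiveSpecialLinearGroup (Fin 3) F := QuotientGroup.mk' (Subgroup.center SL3)
    refine ⟨π D, fun hp => hD (hp.trans (orderOf_map_dvd π D)), fun g hg => ?_⟩
    obtain ⟨A, rfl⟩ := QuotientGroup.mk'_surjective (Subgroup.center SL3) g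
    obtain ⟨u, v, huv⟩ := h A (by
      intro c hc
      apply hg
      apply (QuotientGroup.eq_one_iff A).2
      rw [Subgroup.mem_center_iff]
      intro B
      apply Subtype.ext
      show B.1 * A.1 = A.1 * B.1
      rw [hc, mul_smul_comm, smul_mul_assoc, mul_one, one_mul])
    refine ⟨π u, π v, ?_⟩
    show π A = _
    rw [huv]
    simp only [map_mul, map_inv]
  have hcard : ¬ p ∣ Fintype.card F - 1 := by
    intro h
    obtain ⟨n, hp, hn⟩ := FiniteField.card F p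
    have h1 : p ∣ Fintype.card F := by rw [hn]; exact dvd_pow_self p n.2.ne'
    have h2 : p ∣ Fintype.card F - (Fintype.card F - 1) := Nat.dvd_sub h1 h
    rw [show Fintype.card F - (Fintype.card F - 1) = 1 by omega] at h2
    exact hp.one_lt.ne' (Nat.dvd_one.1 h2)
  rcases Nat.lt_or_ge 3 (Fintype.card F) with h | h
  · -- `q ≥ 4`
    obtain ⟨γ, hγ⟩ := IsCyclic.exists_generator (α := Fˣ)
    have hγo : orderOf γ = Fintype.card F - 1 := by
      rw [orderOf_eq_card_of_forall_mem_zpowers hγ, Nat.card_units, Nat.card_eq_fintype_card]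
    have ha2 : (γ : F) ^ 2 ≠ 1 := by
      intro h2
      have h4 : γ ^ 2 = 1 := by
        apply Units.ext
        rw [Units.val_pow_eq_pow_val, h2, Units.val_one]
      have h5 := Nat.le_of_dvd (by norm_num) (orderOf_dvd_of_pow_eq_one h4)
      omega
    have ha1 : (γ : F) ≠ 1 := by
      intro h2; apply ha2; rw [h2, one_pow]
    refine red (dd (γ : F) γ.ne_zero) ?_ (fun A hA => gen4 γ.ne_zero ha1 ha2 A hA)
    intro hp
    apply hcard
    refine hp.trans (orderOf_dvd_of_pow_eq_one ?_)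
    apply Subtype.ext
    show (Matrix.diagonal ![1, (γ : F), (γ : F)⁻¹]) ^ (Fintype.card F - 1) = 1
    rw [Matrix.diagonal_pow, ← Matrix.diagonal_one]
    congr 1
    funext i
    have hg : (γ : F) ^ (Fintype.card F - 1) = 1 := FiniteField.pow_card_sub_one_eq_one _ γ.ne_zero
    fin_cases i
    · exact one_pow _
    · exact hg
    · show ((γ : F)⁻¹) ^ (Fintype.card F - 1) = 1
      rw [inv_pow, hg, inv_one]
  · -- `q = 3`
    have hF : Fintype.card F = 3 := le_antisymm h h3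
    refine red (x0 F) ?_ (fun A hA => gen3 hF A hA)
    intro hp
    have hp3 : p = 3 := by
      obtain ⟨n, hpp, hn⟩ := FiniteField.card F p
      rw [hF] at hn
      exact (Nat.prime_dvd_prime_iff_eq hpp Nat.prime_three).1 (by rw [hn]; exact dvd_pow_self p n.2.ne')
    rw [hp3] at hp
    have h4 : orderOf (x0 F) ∣ 4 := by
      apply orderOf_dvd_of_pow_eq_one
      have h5 : (x0 F) * (x0 F) * ((x0 F) * (x0 F)) = 1 := by
        apply Subtype.ext
        show !![0, 0, 1; 0, 1, 0; -1, 0, 0] * !![0, 0, 1; 0, 1, 0; -1, 0, 0] * (!![0, 0, 1; 0, 1, 0; -1, 0, 0] * !![0, 0, 1; 0, 1, 0; -1, 0, 0]) = (1 : Matrix (Fin 3) (Fin 3) F)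
        ext i j
        fin_cases i <;> fin_cases j <;> simp [Matrix.mul_apply, Fin.sum_univ_three]
      have h6 : x0 F ^ 4 = x0 F * x0 F * (x0 F * x0 F) := by
        rw [pow_succ, pow_succ, pow_succ, pow_one]; simp only [mul_assoc]
      rw [h6, h5]
    have := hp.trans h4
    omega

end

end Cfsg.Agent.H8.PslCC
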