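import Mathlib

set_option autoImplicit false

/-! `SL₂` over a field of characteristic two. -/

namespace Cfsg.Agent.H8.SL2Char2

open Matrix

variable {F : Type*} [Field F]

theorem cayley (g : SpecialLinearGroup (Fin 2) F) : g.1 * g.1 = (g.1 0 0 + g.1 1 1) • g.1 - 1 := by
  have hdet := g.2
  rw [Matrix.det_fin_two] at hdet
  ext i j
  fin_cases i <;> fin_cases j <;> simp [Matrix.mul_apply, Fin.sum_univ_succ] <;>
    first | linear_combination -hdet | ring1

/-- In characteristic two an element of `SL₂` with a nonzero fixed vector squares to one. -/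
theorem sq_eq_one_of_fixed [CharP F 2] (g : SpecialLinearGroup (Fin 2) F) {v : Fin 2 → F} (hv : v ≠ 0)
    (h : g.1 *ᵥ v = v) : g ^ 2 = 1 := by
  have hdet := g.2
  rw [Matrix.det_fin_two] at hdet
  have e0 := congrFun h 0
  have e1 := congrFun h 1
  simp [Matrix.mulVec, dotProduct, Fin.sum_univ_two] at e0 e1
  have htr : g.1 0 0 + g.1 1 1 = 0 := by
    have h2 : (2 : F) = 0 := CharTwo.two_eq_zero
    -- (a-1) v0 + b v1 = 0, c v0 + (d-1) v1 = 0
    have k0 : (g.1 0 0 + g.1 1 1) * v 0 = 0 := by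
      linear_combination (-(g.1 1 1 - 1)) * e0 + g.1 0 1 * e1 + (v 0) * hdet + v 0 * h2 - v 0 * h2 + h2 * v 0
    have k1 : (g.1 0 0 + g.1 1 1) * v 1 = 0 := by
      linear_combination (-(g.1 0 0 - 1)) * e1 + g.1 1 0 * e0 + (v 1) * hdet + h2 * v 1
    by_contra hne
    apply hv
    funext i
    fin_cases i
    · exact (mul_eq_zero.1 k0).resolve_left hne
    · exact (mul_eq_zero.1 k1).resolve_left hne
  have hc := cayley g
  rw [htr, zero_smul, zero_sub] at hc
  apply Subtype.ext
  rw [sq]
  show g.1 * g.1 = 1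
  rw [hc]
  ext i j
  have h2 : (-1 : F) = 1 := CharTwo.neg_eq 1
  fin_cases i <;> fin_cases j <;> simp [h2]

theorem center_eq_bot [CharP F 2] : Subgroup.center (SpecialLinearGroup (Fin 2) F) = ⊥ := by
  rw [eq_bot_iff]
  intro g hg
  rw [Matrix.SpecialLinearGroup.mem_center_iff] at hg
  obtain ⟨r, hr, hrg⟩ := hg
  rw [Subgroup.mem_bot]
  have hr1 : r = 1 := by
    rw [Fintype.card_fin] at hr
    have : (r + 1) ^ 2 = 0 := by rw [CharTwo.add_sq, hr]; simp [CharTwo.add_self_eq_zero]
    have := pow_eq_zero_iff (two_ne_zero) |>.1 this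
    grind
  apply Subtype.ext
  rw [← hrg, hr1]
  simp

/-- `SL₂(F) ≃ PSL₂(F)` in characteristic two. -/
theorem equivPSL [CharP F 2] :
    Nonempty (SpecialLinearGroup (Fin 2) F ≃* Matrix.ProjectiveSpecialLinearGroup (Fin 2) F) := by
  refine ⟨MulEquiv.ofBijective (QuotientGroup.mk' (Subgroup.center (SpecialLinearGroup (Fin 2) F))) ⟨?_, ?_⟩⟩
  · rw [← MonoidHom.ker_eq_bot_iff, QuotientGroup.ker_mk']
    exact center_eq_bot
  · exact QuotientGroup.mk'_surjective _

/-- The natural action as multiplicative automorphisms. -/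
def rep : SpecialLinearGroup (Fin 2) F →* MulAut (Multiplicative (Fin 2 → F)) where
  toFun g := AddEquiv.toMultiplicative {
    toFun := fun v => g.1 *ᵥ v
    invFun := fun v => (g⁻¹).1 *ᵥ v
    left_inv := fun v => by
      show (g⁻¹).1 *ᵥ (g.1 *ᵥ v) = v
      rw [Matrix.mulVec_mulVec]
      have : (g⁻¹).1 * g.1 = 1 := by
        have := congrArg (fun x : SpecialLinearGroup (Fin 2) F => x.1) (inv_mul_cancel g)
        exact this
      rw [this, Matrix.one_mulVec]
    right_inv := fun v => by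
      show g.1 *ᵥ ((g⁻¹).1 *ᵥ v) = v
      rw [Matrix.mulVec_mulVec]
      have : g.1 * (g⁻¹).1 = 1 := by
        have := congrArg (fun x : SpecialLinearGroup (Fin 2) F => x.1) (mul_inv_cancel g)
        exact this
      rw [this, Matrix.one_mulVec]
    map_add' := fun v w => Matrix.mulVec_add _ _ _ }
  map_one' := by
    refine MulEquiv.ext fun v => ?_
    show Multiplicative.ofAdd ((1 : SpecialLinearGroup (Fin 2) F).1 *ᵥ (Multiplicative.toAdd v)) = v
    have : (1 : SpecialLinearGroup (Fin 2) F).1 = 1 := rfl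
    rw [this, Matrix.one_mulVec]; rfl
  map_mul' g h := by
    refine MulEquiv.ext fun v => ?_
    show Multiplicative.ofAdd ((g * h).1 *ᵥ (Multiplicative.toAdd v)) =
      Multiplicative.ofAdd (g.1 *ᵥ (h.1 *ᵥ (Multiplicative.toAdd v)))
    rw [Matrix.mulVec_mulVec]; rfl

theorem exp_two [CharP F 2] (v : Multiplicative (Fin 2 → F)) : v ^ 2 = 1 := by
  show Multiplicative.ofAdd (2 • Multiplicative.toAdd v) = 1
  have : 2 • Multiplicative.toAdd v = 0 := by
    funext i
    show 2 • (Multiplicative.toAdd v) i = 0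
    rw [two_nsmul]; exact CharTwo.add_self_eq_zero _
  rw [this]; rfl

theorem rep_fixed [CharP F 2] (g : SpecialLinearGroup (Fin 2) F) (s : ℕ) (hs : s.Prime) (hs2 : s ≠ 2)
    (hg : orderOf g = s) (v : Multiplicative (Fin 2 → F)) (hv : rep g v = v) : v = 1 := by
  by_contra hne
  have h1 : g.1 *ᵥ (Multiplicative.toAdd v) = Multiplicative.toAdd v := congrArg Multiplicative.toAdd hv
  have h2 := sq_eq_one_of_fixed g (v := Multiplicative.toAdd v) (fun h => hne (congrArg Multiplicative.ofAdd h)) h1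
  have h3 := orderOf_dvd_of_pow_eq_one h2
  rw [hg] at h3
  exact hs2 ((Nat.prime_dvd_prime_iff_eq hs Nat.prime_two).1 h3)

theorem two_dvd_card [CharP F 2] [Finite F] : 2 ∣ Nat.card (SpecialLinearGroup (Fin 2) F) := by
  let g : SpecialLinearGroup (Fin 2) F := ⟨!![1, 1; 0, 1], by simp [Matrix.det_fin_two]⟩
  have h : orderOf g = 2 := by
    apply orderOf_eq_prime
    · apply Subtype.ext
      rw [sq]
      show !![1, 1; 0, 1] * !![1, 1; 0, 1] = (1 : Matrix (Fin 2) (Fin 2) F)
      ext i j
      fin_cases i <;> fin_cases j <;> simp [Matrix.mul_apply, Fin.sum_univ_succ, CharTwo.add_self_eq_zero]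
    · intro h
      have := congrFun (congrFun (congrArg Subtype.val h) 0) 1
      simp [g] at this
  have h2 := orderOf_dvd_natCard g
  rwa [h] at h2

end Cfsg.Agent.H8.SL2Char2
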