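import Mathlib
import Cfsg.Agent.H8.SpCore

set_option autoImplicit false
set_option linter.all false

/-! Cores of centralizers of field automorphisms of `PSp`, conclusion. -/

namespace Cfsg.Agent.H8.SpAut

open Matrix Cfsg.Agent.Lib.Symp Cfsg.Agent.Lib.AutPSL Cfsg.Agent.Lib.AutSp Cfsg.Agent.Lib
open scoped LinearAlgebra.Projectivization

variable {m : ℕ} {F : Type*} [Field F]

local notation "VV" => (Fin m ⊕ Fin m → F)
local notation "MM" => Matrix (Fin m ⊕ Fin m) (Fin m ⊕ Fin m) F
local notation "SP" => Matrix.symplecticGroup (Fin m) F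
local notation "PSP" => Cfsg.PSp m F
local notation "BB" => Cfsg.sympForm m F
local notation "GG" => (Cfsg.GSp m F)

theorem ker_Js (hm : 1 ≤ m) (K : Subfield F) (s : Matrix.symplecticGroup (Fin m) K) : Js m K s = 1 ↔ s ∈ Subgroup.center (Matrix.symplecticGroup (Fin m) K) := by
  rw [Js_apply, delta_eq_one_iff hm, Subgroup.mem_center_iff]
  constructor
  · rintro ⟨c, hc⟩ t
    have hent : ∀ i j, ((s.1 i j : K) : F) = c * (1 : MM) i j := fun i j => congrFun (congrFun hc i) j
    apply Subtype.ext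
    show t.1 * s.1 = s.1 * t.1
    have hoff : ∀ i j, i ≠ j → s.1 i j = 0 := by
      intro i j hij
      apply Subtype.ext
      rw [hent, Matrix.one_apply_ne hij, mul_zero]; rfl
    have hdiag : ∀ i j, s.1 i i = s.1 j j := by
      intro i j
      apply Subtype.ext
      rw [hent, hent, Matrix.one_apply_eq, Matrix.one_apply_eq]
    have hs : s.1 = s.1 (Sum.inl ⟨0, hm⟩) (Sum.inl ⟨0, hm⟩) • 1 := by
      ext1 i j
      rw [Matrix.smul_apply, smul_eq_mul]
      by_cases hij : i = j
      · subst hij; rw [Matrix.one_apply_eq, mul_one]; exact hdiag _ _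
      · rw [Matrix.one_apply_ne hij, mul_zero]; exact hoff _ _ hij
    rw [hs, smul_mul_assoc, mul_smul_comm, one_mul, mul_one]
  · intro h
    rw [← Subgroup.mem_center_iff, Symp.mem_center_iff] at h
    obtain ⟨a, ha, rfl⟩ := h
    refine ⟨(a : F), ?_⟩
    ext i j
    show ((Matrix.scalar (Fin m ⊕ Fin m) a i j : K) : F) = a * (1 : MM) i j
    rw [Matrix.scalar_apply, Matrix.diagonal_apply, Matrix.one_apply]
    split_ifs <;> simp

/-- the projective group is the image -/
noncomputable def JsEquiv (hm : 1 ≤ m) (K : Subfield F) : Cfsg.PSp m K ≃* (Js m K).range :=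
  (QuotientGroup.quotientMulEquivOfEq (by ext s; rw [MonoidHom.mem_ker, ker_Js hm])).trans (QuotientGroup.quotientKerEquivRange (Js m K))

theorem card_centralizer_dvd [Finite F] (hm : 1 ≤ m) {σ : F ≃+* F} {r : ℕ} (hr : orderOf σ = r) (hr0 : 0 < r) :
    Nat.card ↥(Cfsg.Inn PSP ⊓ Subgroup.centralizer {(AutSp.psi σ : MulAut PSP)}) ∣
      Nat.gcd 2 (Nat.card (FinGal.fixF σ) - 1) * Nat.card (Cfsg.PSp m (FinGal.fixF σ)) := by
  haveI : Fintype (FinGal.fixF σ) := Fintype.ofFinite _
  have h1 : Nat.card ↥(Cfsg.Inn PSP ⊓ Subgroup.centralizer {(AutSp.psi σ : MulAut PSP)}) ∣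
      Nat.card ↥((AutSp.delta (m := m) (F := F)).range ⊓ Subgroup.centralizer {(AutSp.psi σ : MulAut PSP)}) :=
    Subgroup.card_dvd_of_le (inf_le_inf_right _ inn_le)
  obtain ⟨e1⟩ := field_centralizer_equiv' hm (FinGal.fixF σ).subtype (σ := σ) (fun x => ⟨fun h => ⟨⟨x, h⟩, rfl⟩, by rintro ⟨y, rfl⟩; exact y.2⟩) hr hr0
  obtain ⟨e2⟩ := AutPSL.projQuot_equiv (Cfsg.GSp m (FinGal.fixF σ)) (AutSp.delta (m := m) (F := FinGal.fixF σ)).rangeRestrict
    (MonoidHom.rangeRestrict_surjective _) (by
      intro g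
      have e : (AutSp.delta (m := m) (F := FinGal.fixF σ)).rangeRestrict g = 1 ↔ AutSp.delta g = 1 := by
        constructor
        · intro h; exact congrArg Subtype.val h
        · intro h; exact Subtype.ext h
      rw [e, delta_eq_one_iff hm, Cfsg.Geo.mem_scalars_iff]
      constructor
      · rintro ⟨c, hc⟩
        exact ⟨Units.mk0 c (scalar_ne_zero hm hc), hc⟩
      · rintro ⟨c, hc⟩; exact ⟨c, hc⟩)
  have h2 : Nat.card ↥((AutSp.delta (m := m) (F := F)).range ⊓ Subgroup.centralizer {(AutSp.psi σ : MulAut PSP)}) =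
      Nat.gcd 2 (Nat.card (FinGal.fixF σ) - 1) * Nat.card (Cfsg.PSp m (FinGal.fixF σ)) := by
    rw [Nat.card_congr (e1.trans e2.symm).toEquiv, card_delta hm, ← Nat.card_eq_fintype_card (α := FinGal.fixF σ)]
  rw [← h2]; exact h1

theorem even_card_PSp {K : Type*} [Field K] [Fintype K] (hm : 1 ≤ m) (hodd : Odd (Fintype.card K)) : 2 ∣ Nat.card (Cfsg.PSp m K) := by
  have h1 := Subgroup.card_mul_index (Subgroup.center (Matrix.symplecticGroup (Fin m) K))
  have h2 : (Subgroup.center (Matrix.symplecticGroup (Fin m) K)).index = Nat.card (Cfsg.PSp m K) := rfl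
  rw [h2, card_center hm, card_sq_eq_one, card_symplecticGroup] at h1
  have h3 : Nat.gcd 2 (Fintype.card K - 1) = 2 := by
    apply Nat.gcd_eq_left
    obtain ⟨a, ha⟩ := hodd
    omega
  rw [h3] at h1
  have h4 : 4 ∣ ∏ i ∈ Finset.range m, (Fintype.card K ^ (2 * (i + 1)) - 1) := by
    have h5 : (Fintype.card K ^ (2 * (0 + 1)) - 1) ∣ ∏ i ∈ Finset.range m, (Fintype.card K ^ (2 * (i + 1)) - 1) :=
      Finset.dvd_prod_of_mem _ (Finset.mem_range.2 hm)
    apply dvd_trans _ h5
    obtain ⟨a, ha⟩ := hodd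
    rw [ha]
    have : (2 * a + 1) ^ (2 * (0 + 1)) - 1 = 4 * (a ^ 2 + a) := by
      have : (2 * a + 1) ^ (2 * (0 + 1)) = 4 * (a ^ 2 + a) + 1 := by ring
      omega
    rw [this]; exact dvd_mul_right _ _
  have h6 : 4 ∣ 2 * Nat.card (Cfsg.PSp m K) := by
    rw [h1]; exact dvd_mul_of_dvd_right h4 _
  omega

theorem p_dvd [Finite F] (hm : 1 ≤ m) {σ : F ≃+* F} {p : ℕ} [hp : Fact p.Prime] {r : ℕ} (hr : orderOf σ = r) (hr0 : 0 < r)
    (h : p ∣ Nat.card ↥(Cfsg.Inn PSP ⊓ Subgroup.centralizer {(AutSp.psi σ : MulAut PSP)})) :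
    p ∣ Nat.card (Cfsg.PSp m (FinGal.fixF σ)) := by
  haveI : Fintype (FinGal.fixF σ) := Fintype.ofFinite _
  have h1 := h.trans (card_centralizer_dvd hm hr hr0)
  rcases (Nat.Prime.dvd_mul hp.out).1 h1 with h2 | h2
  · have h3 : p = 2 := (Nat.prime_dvd_prime_iff_eq hp.out Nat.prime_two).1 (h2.trans (Nat.gcd_dvd_left _ _))
    subst h3
    have h4 := h2.trans (Nat.gcd_dvd_right _ _)
    apply even_card_PSp hm
    rw [Nat.card_eq_fintype_card] at h4
    have : 1 < Fintype.card (FinGal.fixF σ) := Fintype.one_lt_card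
    rw [← Nat.not_even_iff_odd]
    intro h5
    obtain ⟨a, ha⟩ := h5
    omega
  · exact h2

/-- transitivity of normal subgroups -/
theorem normal_dvd {K : Type*} [Field K] [Fintype K] (hm : 1 ≤ m) (N : Subgroup (Matrix.symplecticGroup (Fin m) K)) [N.Normal] :
    N ≤ Subgroup.center _ ∨ Nat.card (ℙ K (Fin m ⊕ Fin m → K)) ∣ Nat.card N := by
  have := isPreprimitive (F := K) hm
  by_cases h : MulAction.fixedPoints N (ℙ K (Fin m ⊕ Fin m → K)) = Set.univ
  · left
    intro g hg
    rw [Symp.mem_center_iff]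
    obtain ⟨a, ha⟩ := exists_scalar (g : Matrix (Fin m ⊕ Fin m) (Fin m ⊕ Fin m) K) (by
      intro v hv
      have h1 : Projectivization.mk K v hv ∈
        MulAction.fixedPoints N (ℙ K (Fin m ⊕ Fin m → K)) := by rw [h]; trivial
      have h2 : g • Projectivization.mk K v hv = Projectivization.mk K v hv := h1 ⟨g, hg⟩
      rw [Projectivization.smul_mk, Projectivization.mk_eq_mk_iff'] at h2
      obtain ⟨a, ha⟩ := h2
      exact ⟨a, ha.symm⟩)
    have h2 : a ^ 2 = 1 := by
      have h3 := preserves g (e ⟨0, hm⟩) (f ⟨0, hm⟩)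
      rw [ha] at h3
      simp only [Matrix.scalar_apply, ← Matrix.smul_one_eq_diagonal, Matrix.smul_mulVec,
        Matrix.one_mulVec, sympForm_smul_left, sympForm_smul_right, form_e_f] at h3
      linear_combination h3
    exact ⟨a, h2, Subtype.ext ha⟩
  · right
    have htr : MulAction.IsPretransitive N (ℙ K (Fin m ⊕ Fin m → K)) := MulAction.IsQuasiPreprimitive.isPretransitive_of_normal h
    obtain ⟨x⟩ : Nonempty (ℙ K (Fin m ⊕ Fin m → K)) := by
      refine ⟨Projectivization.mk K (Pi.single (Sum.inl ⟨0, hm⟩) 1) ?_⟩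
      simp
    rw [← MulAction.index_stabilizer_of_transitive N x]
    exact Subgroup.index_dvd_card _

theorem Js_normal_bot [Finite F] (hm : 2 ≤ m) {σ : F ≃+* F} {p : ℕ} [hp : Fact p.Prime] {r : ℕ} (hr : orderOf σ = r) (hr0 : 0 < r)
    (h2 : (2 : F) = 0 → p ≠ 2)
    (h : p ∣ Nat.card ↥(Cfsg.Inn PSP ⊓ Subgroup.centralizer {(AutSp.psi σ : MulAut PSP)}))
    (N : Subgroup (Js m (FinGal.fixF σ)).range) (hN : N.Normal) (hc : (Nat.card N).Coprime p) : N = ⊥ := by
  haveI : Fintype (FinGal.fixF σ) := Fintype.ofFinite _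
  have hm1 : 1 ≤ m := by omega
  have hpd := p_dvd hm1 hr hr0 h
  have hcardL : Nat.card (Js m (FinGal.fixF σ)).range = Nat.card (Cfsg.PSp m (FinGal.fixF σ)) := Nat.card_congr (JsEquiv hm1 _).symm.toEquiv
  set N' : Subgroup (Matrix.symplecticGroup (Fin m) (FinGal.fixF σ)) := N.comap (Js m (FinGal.fixF σ)).rangeRestrict with hN'
  haveI : N'.Normal := by rw [hN']; exact hN.comap _
  have hcen : N' ≤ Subgroup.center _ → N = ⊥ := by
    intro h3
    rw [eq_bot_iff]
    intro y hy
    obtain ⟨s, rfl⟩ := (Js m (FinGal.fixF σ)).rangeRestrict_surjective y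
    have h4 : s ∈ N' := hy
    have h5 := (ker_Js hm1 _ s).2 (h3 h4)
    rw [Subgroup.mem_bot]
    exact Subtype.ext h5
  have htop : N' = ⊤ → False := by
    intro h3
    have h4 : N = ⊤ := by
      rw [eq_top_iff]
      intro y _
      obtain ⟨s, rfl⟩ := (Js m (FinGal.fixF σ)).rangeRestrict_surjective y
      have h4 : s ∈ N' := by rw [h3]; trivial
      exact h4
    rw [h4, Subgroup.card_top, hcardL] at hc
    exact (Nat.Prime.coprime_iff_not_dvd hp.out).1 hc.symm hpd
  by_cases hbig : 3 ≤ m ∨ (m = 2 ∧ 3 ≤ Fintype.card (FinGal.fixF σ))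
  · have hperf := perfect_finite (F := FinGal.fixF σ) m (by rcases hbig with h | h; exact Or.inl h; exact Or.inr (Or.inl h))
    rcases normal_le_center_or_eq_top hm1 hperf N' with h3 | h3
    · exact hcen h3
    · exact absurd (htop h3) id
  · have hm2 : m = 2 := by omega
    subst hm2
    have hq : Fintype.card (FinGal.fixF σ) = 2 := by
      have : 1 < Fintype.card (FinGal.fixF σ) := Fintype.one_lt_card
      omega
    have h20 : (2 : F) = 0 := by
      have h3 : ((Fintype.card (FinGal.fixF σ) : ℕ) : FinGal.fixF σ) = 0 := Nat.cast_card_eq_zero _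
      have h4 := congrArg (FinGal.fixF σ).subtype h3
      rw [map_natCast, map_zero, hq] at h4
      exact_mod_cast h4
    have hp2 := h2 h20
    rcases normal_dvd hm1 N' with h3 | h3
    · exact hcen h3
    · exfalso
      have hP : Nat.card (ℙ (FinGal.fixF σ) (Fin 2 ⊕ Fin 2 → FinGal.fixF σ)) = 15 := by
        rw [Projectivization.card_of_finrank (n := 4) _ _ (by simp), Nat.card_eq_fintype_card, hq]; rfl
      have hcard := Subgroup.card_mul_index (Subgroup.center (Matrix.symplecticGroup (Fin 2) (FinGal.fixF σ)))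
      have h5 : (Subgroup.center (Matrix.symplecticGroup (Fin 2) (FinGal.fixF σ))).index = Nat.card (Cfsg.PSp 2 (FinGal.fixF σ)) := rfl
      rw [h5, card_center hm1, card_sq_eq_one, card_symplecticGroup, hq] at hcard
      have h6 : Nat.card (Cfsg.PSp 2 (FinGal.fixF σ)) = 720 := by
        rw [Finset.prod_range_succ, Finset.prod_range_succ, Finset.prod_range_zero] at hcard
        norm_num at hcard
        exact hcard
      rw [h6] at hpd
      have hp35 : p ∣ 15 := by
        have e : (720 : ℕ) = 2 ^ 4 * 45 := by norm_num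
        rw [e] at hpd
        rcases (Nat.Prime.dvd_mul hp.out).1 hpd with h7 | h7
        · exact absurd ((Nat.prime_dvd_prime_iff_eq hp.out Nat.prime_two).1 (hp.out.dvd_of_dvd_pow h7)) hp2
        · have e2 : (45 : ℕ) = 3 * 15 := by norm_num
          rw [e2] at h7
          rcases (Nat.Prime.dvd_mul hp.out).1 h7 with h8 | h8
          · exact h8.trans (by norm_num)
          · exact h8
      rw [hP] at h3
      have h7 : p ∣ Nat.card N' := hp35.trans h3
      -- the centre is trivial
      have h8 : Nat.card N' = Nat.card N := by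
        have hinj : Function.Injective (Js 2 (FinGal.fixF σ)).rangeRestrict := by
          rw [injective_iff_map_eq_one]
          intro s hs
          have h9 := (ker_Js hm1 _ s).1 (congrArg Subtype.val hs)
          have h10 : Nat.card (Subgroup.center (Matrix.symplecticGroup (Fin 2) (FinGal.fixF σ))) = 1 := by
            rw [card_center hm1, card_sq_eq_one, hq]; rfl
          have h11 := Subgroup.eq_bot_of_card_eq _ h10
          rw [h11, Subgroup.mem_bot] at h9
          exact h9
        have h12 : N'.map (Js 2 (FinGal.fixF σ)).rangeRestrict = N :=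
          Subgroup.map_comap_eq_self_of_surjective (MonoidHom.rangeRestrict_surjective _) N
        rw [← h12]
        exact (Subgroup.card_map_of_injective hinj).symm
      rw [h8] at h7
      exact (Nat.Prime.coprime_iff_not_dvd hp.out).1 hc.symm h7

/-- fixed points and inner automorphisms -/
theorem card_fix (hm : 1 ≤ m) (x : MulAut PSP) :
    Nat.card ↥(MonoidHom.eqLocus x.toMonoidHom (MonoidHom.id PSP)) = Nat.card ↥(Cfsg.Inn PSP ⊓ Subgroup.centralizer {x}) := by
  have key : ∀ k : PSP, x k = k ↔ MulAut.conj k ∈ Subgroup.centralizer {x} := by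
    intro k
    rw [Subgroup.mem_centralizer_singleton_iff]
    have e : x * MulAut.conj k * x⁻¹ = MulAut.conj (x k) := by
      ext y
      show x (k * x⁻¹ y * k⁻¹) = x k * y * (x k)⁻¹
      rw [map_mul, map_mul, map_inv, MulAut.apply_inv_self]
    constructor
    · intro h
      rw [h] at e
      rw [eq_comm, ← mul_inv_eq_iff_eq_mul]; exact e
    · intro h
      rw [← h, mul_inv_cancel_right] at e
      exact (conj_inj hm e).symm
  have h1 : (MonoidHom.eqLocus x.toMonoidHom (MonoidHom.id PSP)).map (MulAut.conj : PSP →* MulAut PSP) = Cfsg.Inn PSP ⊓ Subgroup.centralizer {x} := by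
    ext y
    rw [Subgroup.mem_map, Subgroup.mem_inf]
    constructor
    · rintro ⟨k, hk, rfl⟩
      exact ⟨⟨k, rfl⟩, (key k).1 hk⟩
    · rintro ⟨⟨k, rfl⟩, h⟩
      exact ⟨k, (key k).2 h, rfl⟩
  rw [← h1]
  exact (Subgroup.card_map_of_injective (conj_inj hm)).symm

end Cfsg.Agent.H8.SpAut
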