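import Mathlib
import Cfsg.Agent.H8.GlTwo

set_option autoImplicit false
set_option linter.all false

/-! Spectra of direct powers. -/

namespace Cfsg.Agent.H8.SpecAbs

open Polynomial

section Abs
variable {G : Type*} [Group G] [Finite G]

theorem mem3 {N : ℕ} (x y z : G) (hN : N ∣ Nat.lcm (orderOf x) (Nat.lcm (orderOf y) (orderOf z))) :
    ∃ g : G × G × G, orderOf g = N := by
  obtain ⟨f, hf⟩ := GlTwo.exists_order (K := 3) (L := G) ![orderOf x, orderOf y, orderOf z] (by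
    intro i; fin_cases i <;> exact (orderOf_pos _).ne') ![x, y, z] (by
    intro i; fin_cases i <;> rfl) (N := N) (by
    refine hN.trans (Nat.lcm_dvd ?_ (Nat.lcm_dvd ?_ ?_))
    · exact Finset.dvd_lcm (f := ![orderOf x, orderOf y, orderOf z]) (Finset.mem_univ (0 : Fin 3))
    · exact Finset.dvd_lcm (f := ![orderOf x, orderOf y, orderOf z]) (Finset.mem_univ (1 : Fin 3))
    · exact Finset.dvd_lcm (f := ![orderOf x, orderOf y, orderOf z]) (Finset.mem_univ (2 : Fin 3)))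
  let φ : (Fin 3 → G) →* G × G × G :=
    { toFun := fun f => (f 0, f 1, f 2)
      map_one' := rfl
      map_mul' := fun a b => rfl }
  have hφ : Function.Injective φ := by
    intro a b h
    have h0 : a 0 = b 0 := congrArg Prod.fst h
    have h1 : a 1 = b 1 := congrArg (fun x : G × G × G => x.2.1) h
    have h2 : a 2 = b 2 := congrArg (fun x : G × G × G => x.2.2) h
    funext i; fin_cases i
    · exact h0
    · exact h1
    · exact h2
  exact ⟨φ f, by rw [orderOf_injective φ hφ, hf]⟩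

theorem mem2 {N : ℕ} (x y : G) (hN : N ∣ Nat.lcm (orderOf x) (orderOf y)) :
    ∃ g : G × G, orderOf g = N := by
  obtain ⟨f, hf⟩ := GlTwo.exists_order (K := 2) (L := G) ![orderOf x, orderOf y] (by
    intro i; fin_cases i <;> exact (orderOf_pos _).ne') ![x, y] (by
    intro i; fin_cases i <;> rfl) (N := N) (by
    refine hN.trans (Nat.lcm_dvd ?_ ?_)
    · exact Finset.dvd_lcm (f := ![orderOf x, orderOf y]) (Finset.mem_univ (0 : Fin 2))
    · exact Finset.dvd_lcm (f := ![orderOf x, orderOf y]) (Finset.mem_univ (1 : Fin 2)))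
  let φ : (Fin 2 → G) →* G × G :=
    { toFun := fun f => (f 0, f 1)
      map_one' := rfl
      map_mul' := fun a b => rfl }
  have hφ : Function.Injective φ := by
    intro a b h
    have h0 : a 0 = b 0 := congrArg Prod.fst h
    have h1 : a 1 = b 1 := congrArg Prod.snd h
    funext i; fin_cases i
    · exact h0
    · exact h1
  exact ⟨φ f, by rw [orderOf_injective φ hφ, hf]⟩

variable {p r M m : ℕ}

theorem ord_R (hr : r.Prime) (b : Multiplicative (Fin m → ZMod r)) : orderOf b = 1 ∨ orderOf b = r := by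
  have h1 : b ^ r = 1 := by
    apply Multiplicative.toAdd.injective
    rw [toAdd_pow, toAdd_one]
    funext i
    show r • (Multiplicative.toAdd b i) = 0
    rw [nsmul_eq_mul, ZMod.natCast_self, zero_mul]
  exact (Nat.dvd_prime hr).1 (orderOf_dvd_of_pow_eq_one h1)

theorem three (hr : r.Prime)
    (h1 : ∀ x : G, ¬ r ∣ orderOf x → (∃ y : G, r * orderOf x ∣ orderOf y) ∨ (∃ e, orderOf x ∣ Nat.lcm (p ^ e) M ∧ ∃ z : G, orderOf z = p ^ e))
    (h2 : ∃ c : G, M ∣ orderOf c) (h3 : ∃ w : G, r ∣ orderOf w) :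
    Set.range (orderOf : G × G × G × Multiplicative (Fin m → ZMod r) → ℕ) = Set.range (orderOf : G × G × G → ℕ) := by
  ext N
  constructor
  · rintro ⟨⟨x, y, z, b⟩, hN⟩
    have hN' : N = Nat.lcm (orderOf x) (Nat.lcm (orderOf y) (Nat.lcm (orderOf z) (orderOf b))) := by
      rw [← hN, Prod.orderOf, Prod.orderOf, Prod.orderOf]
    rcases ord_R hr b with hb | hb
    · rw [hb, Nat.lcm_one_right] at hN'
      exact mem3 x y z hN'.dvd
    rw [hb] at hN'
    -- enough
    have key : ∀ A B C : ℕ, orderOf x ∣ Nat.lcm A (Nat.lcm B C) → orderOf y ∣ Nat.lcm A (Nat.lcm B C) → orderOf z ∣ Nat.lcm A (Nat.lcm B C) →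
        r ∣ Nat.lcm A (Nat.lcm B C) → N ∣ Nat.lcm A (Nat.lcm B C) := by
      intro A B C a1 a2 a3 a4
      rw [hN']
      exact Nat.lcm_dvd a1 (Nat.lcm_dvd a2 (Nat.lcm_dvd a3 a4))
    have dA : ∀ A B C : ℕ, A ∣ Nat.lcm A (Nat.lcm B C) := fun A B C => Nat.dvd_lcm_left _ _
    have dB : ∀ A B C : ℕ, B ∣ Nat.lcm A (Nat.lcm B C) := fun A B C => (Nat.dvd_lcm_left _ _).trans (Nat.dvd_lcm_right _ _)
    have dC : ∀ A B C : ℕ, C ∣ Nat.lcm A (Nat.lcm B C) := fun A B C => (Nat.dvd_lcm_right _ _).trans (Nat.dvd_lcm_right _ _)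
    by_cases hx : r ∣ orderOf x
    · exact mem3 x y z (key _ _ _ (dA _ _ _) (dB _ _ _) (dC _ _ _) (hx.trans (dA _ _ _)))
    by_cases hy : r ∣ orderOf y
    · exact mem3 x y z (key _ _ _ (dA _ _ _) (dB _ _ _) (dC _ _ _) (hy.trans (dB _ _ _)))
    by_cases hz : r ∣ orderOf z
    · exact mem3 x y z (key _ _ _ (dA _ _ _) (dB _ _ _) (dC _ _ _) (hz.trans (dC _ _ _)))
    rcases h1 x hx with ⟨x', hx'⟩ | ⟨e1, he1, z1, hz1⟩
    · exact mem3 x' y z (key _ _ _ (((Dvd.intro_left _ rfl).trans hx').trans (dA _ _ _)) (dB _ _ _) (dC _ _ _)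
        (((Dvd.intro _ rfl).trans hx').trans (dA _ _ _)))
    rcases h1 y hy with ⟨x', hx'⟩ | ⟨e2, he2, z2, hz2⟩
    · exact mem3 x x' z (key _ _ _ (dA _ _ _) (((Dvd.intro_left _ rfl).trans hx').trans (dB _ _ _)) (dC _ _ _)
        (((Dvd.intro _ rfl).trans hx').trans (dB _ _ _)))
    rcases h1 z hz with ⟨x', hx'⟩ | ⟨e3, he3, z3, hz3⟩
    · exact mem3 x y x' (key _ _ _ (dA _ _ _) (dB _ _ _) (((Dvd.intro_left _ rfl).trans hx').trans (dC _ _ _))
        (((Dvd.intro _ rfl).trans hx').trans (dC _ _ _)))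
    obtain ⟨c, hc⟩ := h2
    obtain ⟨w, hw⟩ := h3
    -- maximal p-power
    obtain ⟨e, u, hu, l1, l2, l3⟩ : ∃ (e : ℕ) (u : G), orderOf u = p ^ e ∧ e1 ≤ e ∧ e2 ≤ e ∧ e3 ≤ e := by
      rcases le_total e1 e2 with h12 | h12
      · rcases le_total e2 e3 with h23 | h23
        · exact ⟨e3, z3, hz3, h12.trans h23, h23, le_rfl⟩
        · exact ⟨e2, z2, hz2, h12, le_rfl, h23⟩
      · rcases le_total e1 e3 with h13 | h13
        · exact ⟨e3, z3, hz3, h13, h12.trans h13, le_rfl⟩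
        · exact ⟨e1, z1, hz1, le_rfl, h12, h13⟩
    have hle : ∀ {e' a : ℕ}, e' ≤ e → a ∣ Nat.lcm (p ^ e') M → a ∣ Nat.lcm (orderOf c) (Nat.lcm (orderOf u) (orderOf w)) := by
      intro e' a he' ha
      refine ha.trans (Nat.lcm_dvd ?_ (hc.trans (dA _ _ _)))
      exact (pow_dvd_pow p he').trans (by rw [← hu]; exact dB _ _ _)
    exact mem3 c u w (key _ _ _ (hle l1 he1) (hle l2 he2) (hle l3 he3) (hw.trans (dC _ _ _)))
  · rintro ⟨⟨x, y, z⟩, hN⟩
    refine ⟨(x, y, z, 1), ?_⟩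
    rw [← hN, Prod.orderOf, Prod.orderOf, Prod.orderOf, Prod.orderOf, Prod.orderOf, orderOf_one, Nat.lcm_one_right]

theorem two (hr : r.Prime)
    (h1 : ∀ x : G, ¬ r ∣ orderOf x → (∃ y : G, r * orderOf x ∣ orderOf y) ∨ (∃ e, orderOf x ∣ Nat.lcm (p ^ e) M ∧ ∃ z : G, orderOf z = p ^ e))
    (h2 : ∃ c : G, M ∣ orderOf c) (h3 : ∀ e, (∃ z : G, orderOf z = p ^ e) → ∃ w : G, r * p ^ e ∣ orderOf w) :
    Set.range (orderOf : G × G × Multiplicative (Fin m → ZMod r) → ℕ) = Set.range (orderOf : G × G → ℕ) := by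
  ext N
  constructor
  · rintro ⟨⟨x, y, b⟩, hN⟩
    have hN' : N = Nat.lcm (orderOf x) (Nat.lcm (orderOf y) (orderOf b)) := by
      rw [← hN, Prod.orderOf, Prod.orderOf]
    rcases ord_R hr b with hb | hb
    · rw [hb, Nat.lcm_one_right] at hN'
      exact mem2 x y hN'.dvd
    rw [hb] at hN'
    -- enough
    have key : ∀ A B : ℕ, orderOf x ∣ Nat.lcm A B → orderOf y ∣ Nat.lcm A B →
        r ∣ Nat.lcm A B → N ∣ Nat.lcm A B := by
      intro A B a1 a2 a4
      rw [hN']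
      exact Nat.lcm_dvd a1 (Nat.lcm_dvd a2 a4)
    have dA : ∀ A B : ℕ, A ∣ Nat.lcm A B := fun A B => Nat.dvd_lcm_left _ _
    have dB : ∀ A B : ℕ, B ∣ Nat.lcm A B := fun A B => Nat.dvd_lcm_right _ _
    by_cases hx : r ∣ orderOf x
    · exact mem2 x y (key _ _ (dA _ _) (dB _ _) (hx.trans (dA _ _)))
    by_cases hy : r ∣ orderOf y
    · exact mem2 x y (key _ _ (dA _ _) (dB _ _) (hy.trans (dB _ _)))
    rcases h1 x hx with ⟨x', hx'⟩ | ⟨e1, he1, z1, hz1⟩
    · exact mem2 x' y (key _ _ (((Dvd.intro_left _ rfl).trans hx').trans (dA _ _)) (dB _ _)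
        (((Dvd.intro _ rfl).trans hx').trans (dA _ _)))
    rcases h1 y hy with ⟨x', hx'⟩ | ⟨e2, he2, z2, hz2⟩
    · exact mem2 x x' (key _ _ (dA _ _) (((Dvd.intro_left _ rfl).trans hx').trans (dB _ _))
        (((Dvd.intro _ rfl).trans hx').trans (dB _ _)))
    obtain ⟨c, hc⟩ := h2
    -- maximal p-power
    obtain ⟨e, u, hu, l1, l2⟩ : ∃ (e : ℕ) (u : G), orderOf u = p ^ e ∧ e1 ≤ e ∧ e2 ≤ e := by
      rcases le_total e1 e2 with h12 | h12
      · exact ⟨e2, z2, hz2, h12, le_rfl⟩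
      · exact ⟨e1, z1, hz1, le_rfl, h12⟩
    obtain ⟨w, hw⟩ := h3 e ⟨u, hu⟩
    have hle : ∀ {e' a : ℕ}, e' ≤ e → a ∣ Nat.lcm (p ^ e') M → a ∣ Nat.lcm (orderOf c) (orderOf w) := by
      intro e' a he' ha
      refine ha.trans (Nat.lcm_dvd ?_ (hc.trans (dA _ _)))
      exact ((pow_dvd_pow p he').trans (Dvd.intro_left _ rfl)).trans (hw.trans (dB _ _))
    exact mem2 c w (key _ _ (hle l1 he1) (hle l2 he2) (((Dvd.intro _ rfl).trans hw).trans (dB _ _)))
  · rintro ⟨⟨x, y⟩, hN⟩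
    refine ⟨(x, y, 1), ?_⟩
    rw [← hN, Prod.orderOf, Prod.orderOf, Prod.orderOf, orderOf_one, Nat.lcm_one_right]

end Abs

/-! ### idempotents -/

section Idem
variable {F : Type*} [Field F] {n : ℕ}

local notation "Mat" => Matrix (Fin n) (Fin n) F

theorem idem_pow {π : Mat} (hπ : π * π = π) (a : F) (k : ℕ) : (1 + (a - 1) • π) ^ k = 1 + (a ^ k - 1) • π := by
  induction k with
  | zero => simp
  | succ k ih =>
    rw [pow_succ, ih, add_mul, mul_add, mul_add, one_mul, mul_one, one_mul, smul_mul_smul_comm, hπ, pow_succ]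
    module

/-- dichotomy for a matrix: a nontrivial idempotent in the algebra it generates, or a prime power minimal polynomial -/
theorem dichotomy (s : Mat) {f : F[X]} (hf : Irreducible f) (hfs : f ∣ minpoly F s) :
    (∃ k, minpoly F s ∣ f ^ k) ∨ ∃ P : F[X], aeval s P * aeval s P = aeval s P ∧ aeval s P ≠ 0 ∧ aeval s P ≠ 1 := by
  have h0 : minpoly F s ≠ 0 := minpoly.ne_zero (Matrix.isIntegral s)
  obtain ⟨g, hg, hgf⟩ := (FiniteMultiplicity.of_not_isUnit hf.not_isUnit h0).exists_eq_pow_mul_and_not_dvd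
  set k := multiplicity f (minpoly F s) with hk
  have hk0 : k ≠ 0 := by
    intro h
    rw [h, pow_zero, one_mul] at hg
    rw [hg] at hfs
    exact hgf hfs
  by_cases hgu : IsUnit g
  · left
    refine ⟨k, ?_⟩
    rw [hg]
    exact (hgu.mul_right_dvd).2 dvd_rfl
  · right
    have hco : IsCoprime (f ^ k) g := (IsCoprime.pow_left ((hf.coprime_iff_not_dvd).2 hgf))
    obtain ⟨a, b, hab⟩ := hco
    have hμ : aeval s (f ^ k * g) = 0 := by rw [← hg]; exact minpoly.aeval F s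
    refine ⟨a * f ^ k, ?_, ?_, ?_⟩
    · rw [← map_mul]
      have : a * f ^ k * (a * f ^ k) = a * f ^ k - a * b * (f ^ k * g) := by linear_combination (a * f ^ k) * hab
      rw [this, map_sub, map_mul _ (a * b), hμ, mul_zero, sub_zero]
    · intro h
      have h1 : g ∣ a * f ^ k := (Dvd.intro_left _ hg.symm).trans (minpoly.dvd F s h)
      apply hgu
      rw [isUnit_iff_dvd_one, ← hab]
      exact dvd_add h1 (Dvd.intro_left _ rfl)
    · intro h
      have h1 : aeval s (b * g) = 0 := by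
        have : b * g = 1 - a * f ^ k := by linear_combination hab
        rw [this, map_sub, h, map_one, sub_self]
      have h2 : f ^ k ∣ b * g := (Dvd.intro _ hg.symm).trans (minpoly.dvd F s h1)
      have h3 : f ^ k ∣ 1 := by rw [← hab]; exact dvd_add (Dvd.intro_left _ rfl) h2
      exact hf.not_isUnit (isUnit_of_dvd_one ((dvd_pow_self f hk0).trans h3))

end Idem

end Cfsg.Agent.H8.SpecAbs
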