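import Mathlib
import Cfsg.Agent.H8.SpecAbs
import Cfsg.Agent.Lib.AutPSL2

set_option autoImplicit false
set_option linter.all false

/-! Spectra of direct powers of `PSL_n(q)`. -/

namespace Cfsg.Agent.H8.SpecSL

open Polynomial
open Cfsg.Agent.H8.SpecAbs
open Cfsg.Agent.Lib.AutPSL (mk mk_mul mk_inv mk_one mk_surj mk_eq_iff)

/-- the geometric sum -/
def gs (q n : ℕ) : ℕ := ∑ i ∈ Finset.range n, q ^ i

theorem gs_pred {q : ℕ} (hq : 1 ≤ q) (n : ℕ) : gs q n * (q - 1) + 1 = q ^ n := by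
  have h := geom_sum_mul_add (q - 1) n
  rw [Nat.sub_add_cancel hq] at h
  exact h

theorem gs_mul {q : ℕ} (hq : 2 ≤ q) (d k : ℕ) : gs q (d * k) = gs q d * gs (q ^ d) k := by
  have h1 := gs_pred (q := q) (by omega) (d * k)
  have h2 := gs_pred (q := q) (by omega) d
  have h3 := gs_pred (q := q ^ d) (Nat.one_le_pow _ _ (by omega)) k
  have h4 : q ^ d - 1 = gs q d * (q - 1) := by omega
  rw [h4, ← pow_mul, ← h1] at h3
  have h5 : gs (q ^ d) k * (gs q d * (q - 1)) = gs q (d * k) * (q - 1) := Nat.add_right_cancel h3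
  have h6 : (q - 1) ≠ 0 := by omega
  apply Nat.eq_of_mul_eq_mul_right (Nat.pos_of_ne_zero h6)
  rw [← h5]; ring

section Semi
variable {F : Type*} [Field F] [Fintype F] {n : ℕ}

local notation "Mat" => Matrix (Fin n) (Fin n) F
local notation "SL" => Matrix.SpecialLinearGroup (Fin n) F
local notation "PSL" => Matrix.ProjectiveSpecialLinearGroup (Fin n) F

theorem expand_card_pow (f : F[X]) (J : ℕ) : expand F (Fintype.card F ^ J) f = f ^ (Fintype.card F ^ J) := by
  induction J with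
  | zero => simp
  | succ J ih => rw [pow_succ', ← expand_expand, ih, map_pow, FiniteField.expand_card, ← pow_mul]

/-- raising to a large power of `q` kills the nilpotent part -/
theorem frob_kill {s : Mat} {f : F[X]} {k J : ℕ} (h : aeval s (f ^ k) = 0) (hk : k ≤ Fintype.card F ^ J) :
    aeval (s ^ (Fintype.card F ^ J)) f = 0 := by
  rw [← expand_aeval, expand_card_pow]
  have := Nat.sub_add_cancel hk
  rw [← this, pow_add, map_mul, h, mul_zero]

/-- fixed elements -/
theorem fixed_mem {K : Type*} [Field K] [Finite K] [Algebra F K] {β : K} (h : β ^ Fintype.card F = β) : ∃ c : F, algebraMap F K c = β := by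
  haveI : Algebra.IsAlgebraic F K := inferInstance
  rw [← Set.mem_range, IsGalois.mem_range_algebraMap_iff_fixed]
  intro σ
  obtain ⟨i, hi⟩ := (FiniteField.bijective_frobeniusAlgEquivOfAlgebraic_pow F K).2 σ
  rw [← hi]
  dsimp only
  rw [AlgEquiv.coe_pow, FiniteField.coe_frobeniusAlgEquivOfAlgebraic_iterate]
  have : ∀ j : ℕ, β ^ (Fintype.card F ^ j) = β := by
    intro j
    induction j with
    | zero => simp
    | succ j ih => rw [pow_succ, pow_mul, ih, h]
  exact this _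

open Classical in
/-- a matrix with an irreducible annihilator: scalar structure -/
theorem semi {t : Mat} {f : F[X]} (hf : Irreducible f) (hft : aeval t f = 0) (hdet : t.det = 1) :
    t ^ gs (Fintype.card F) n = 1 ∧ ∀ M : ℕ, t ^ (M * (Fintype.card F - 1)) = 1 → ∃ c : F, t ^ M = c • 1 := by
  by_cases hn : n = 0
  · subst hn
    exact ⟨Subsingleton.elim _ _, fun M _ => ⟨1, Subsingleton.elim _ _⟩⟩
  haveI : Nonempty (Fin n) := ⟨⟨0, Nat.pos_of_ne_zero hn⟩⟩
  haveI : Fact (Irreducible f) := ⟨hf⟩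
  haveI : Module.Finite F (AdjoinRoot f) := (AdjoinRoot.powerBasis hf.ne_zero).finite
  haveI : Finite (AdjoinRoot f) := Module.finite_of_finite F
  have hT : aeval (Matrix.toLin' t) f = 0 := by
    have h1 : Matrix.toLin' t = Matrix.toLinAlgEquiv' t := rfl
    rw [h1, aeval_algHom_apply, hft, map_zero]
  let φ : AdjoinRoot f →ₐ[F] Module.End F (Fin n → F) := Ideal.Quotient.liftₐ (Ideal.span {f}) (aeval (Matrix.toLin' t)) (by
    intro a ha
    obtain ⟨b, rfl⟩ := Ideal.mem_span_singleton.1 ha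
    rw [map_mul, hT, zero_mul])
  set α : AdjoinRoot f := AdjoinRoot.root f with hα
  have hφα : φ α = Matrix.toLin' t := by
    show aeval (Matrix.toLin' t) X = _
    rw [aeval_X]
  have hφi : Function.Injective φ := φ.toRingHom.injective
  have htp : ∀ j : ℕ, φ (α ^ j) = Matrix.toLin' (t ^ j) := by
    intro j
    rw [map_pow, hφα]
    exact (map_pow (Matrix.toLinAlgEquiv' (R := F) (n := Fin n)) t j).symm
  letI : Module (AdjoinRoot f) (Fin n → F) := Module.compHom (Fin n → F) (φ : AdjoinRoot f →+* Module.End F (Fin n → F))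
  have hsm : ∀ (a : AdjoinRoot f) (v : Fin n → F), a • v = φ a v := fun _ _ => rfl
  haveI : IsScalarTower F (AdjoinRoot f) (Fin n → F) := ⟨fun c a v => by rw [hsm, hsm, map_smul]; rfl⟩
  haveI : Module.Finite (AdjoinRoot f) (Fin n → F) := Module.Finite.of_restrictScalars_finite F _ _
  let L : (Fin n → F) →ₗ[AdjoinRoot f] (Fin n → F) := α • LinearMap.id
  have hL : L.restrictScalars F = Matrix.toLin' t := LinearMap.ext fun v => by
    show α • v = _
    rw [hsm, hφα]
  have hN : Algebra.norm F L.det = 1 := by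
    rw [← LinearMap.det_restrictScalars, hL, LinearMap.det_toLin', hdet]
  have hLd : L.det = α ^ Module.finrank (AdjoinRoot f) (Fin n → F) := by
    show LinearMap.det (α • LinearMap.id) = _
    rw [LinearMap.det_smul, LinearMap.det_id, mul_one]
  rw [hLd, map_pow] at hN
  set k := Module.finrank (AdjoinRoot f) (Fin n → F) with hk
  set d := Module.finrank F (AdjoinRoot f) with hd
  have hdk : d * k = n := by
    rw [hd, hk, Module.finrank_mul_finrank, Module.finrank_fin_fun]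
  set N := Algebra.norm F α with hNd
  have h1 : algebraMap F (AdjoinRoot f) N = α ^ gs (Fintype.card F) d := by
    rw [hNd, FiniteField.algebraMap_norm_eq_pow_sum, Nat.card_eq_fintype_card]
    rfl
  have hq2 : 2 ≤ Fintype.card F := Fintype.one_lt_card
  have h2 : α ^ gs (Fintype.card F) n = 1 := by
    rw [← hdk, gs_mul hq2, pow_mul, ← h1, ← map_pow]
    have h3 : N ^ gs (Fintype.card F ^ d) k = N ^ k := by
      unfold gs
      rw [← Finset.prod_pow_eq_pow_sum]
      rw [Finset.prod_congr rfl (fun i _ => show N ^ (Fintype.card F ^ d) ^ i = N by rw [← pow_mul, FiniteField.pow_card_pow])]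
      rw [Finset.prod_const, Finset.card_range]
    rw [h3, hN, map_one]
  have hback : ∀ {j : ℕ} {c : F}, α ^ j = algebraMap F _ c → t ^ j = c • 1 := by
    intro j c h
    apply Matrix.toLin'.injective
    rw [← htp, h, AlgHom.commutes, map_smul, Matrix.toLin'_one]
    rfl
  refine ⟨?_, fun M hM => ?_⟩
  · have := hback (c := 1) (by rw [h2, map_one])
    rwa [one_smul] at this
  · have h4 : α ^ (M * (Fintype.card F - 1)) = 1 := by
      apply hφi
      rw [htp, hM, Matrix.toLin'_one, map_one]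
      rfl
    have h5 : (α ^ M) ^ Fintype.card F = α ^ M := by
      conv_lhs => rw [← Nat.sub_add_cancel (show 1 ≤ Fintype.card F by omega)]
      rw [pow_add, ← pow_mul, h4, one_mul, pow_one]
    obtain ⟨c, hc⟩ := fixed_mem h5
    exact ⟨c, hback hc.symm⟩

/-- the `r`-element commuting with `s` -/
theorem exists_h {s : SL} {π : Mat} (hπ : π * π = π) (h0 : π ≠ 0) (h1 : π ≠ 1) (hc : π * s.1 = s.1 * π) {r : ℕ} (hr : r.Prime)
    {ζ : F} (hζ : ζ ^ r = 1) (hζ1 : ζ ≠ 1) (hrn : ¬ r ∣ n) : ∃ h : SL, h * s = s * h ∧ mk h ^ r = 1 ∧ mk h ≠ 1 := by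
  have hco : Nat.Coprime n r := ((Nat.Prime.coprime_iff_not_dvd hr).2 hrn).symm
  obtain ⟨k, hk⟩ : ∃ k : ℕ, r ∣ k * n + 1 := by
    obtain ⟨u, -, hu⟩ := Nat.exists_mul_mod_eq_one_of_coprime hco hr.one_lt
    refine ⟨u * (r - 1), ?_⟩
    have h2 : n * u ≡ 1 [MOD r] := by rw [Nat.ModEq, hu, Nat.mod_eq_of_lt hr.one_lt]
    have h3 : u * (r - 1) * n + 1 ≡ 1 * (r - 1) + 1 [MOD r] := by
      have e : u * (r - 1) * n + 1 = n * u * (r - 1) + 1 := by ring
      rw [e]
      exact (h2.mul_right _).add_right 1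
    rw [one_mul, Nat.sub_add_cancel hr.one_lt.le] at h3
    exact (Nat.modEq_zero_iff_dvd.1 (h3.trans (by rw [Nat.ModEq, Nat.mod_self, Nat.zero_mod])))
  set h' : Mat := 1 + (ζ - 1) • π with hh'
  have hr' : h' ^ r = 1 := by rw [hh', idem_pow hπ, hζ, sub_self, zero_smul, add_zero]
  set δ := h'.det with hδ
  have hδr : δ ^ r = 1 := by rw [hδ, ← Matrix.det_pow, hr', Matrix.det_one]
  have hδ0 : δ ≠ 0 := by
    intro h
    rw [h, zero_pow hr.ne_zero] at hδr
    exact zero_ne_one hδr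
  have hd : (δ ^ k • h').det = 1 := by
    rw [Matrix.det_smul, Fintype.card_fin, ← hδ, ← pow_mul, ← pow_succ]
    obtain ⟨c, hc⟩ := hk
    rw [hc, pow_mul, hδr, one_pow]
  let H : SL := ⟨δ ^ k • h', hd⟩
  have hHv : H.1 = δ ^ k • h' := rfl
  refine ⟨H, ?_, ?_, ?_⟩
  · apply Subtype.ext
    show (δ ^ k • h') * s.1 = s.1 * (δ ^ k • h')
    rw [hh', smul_mul_assoc, mul_smul_comm, add_mul, mul_add, one_mul, mul_one, smul_mul_assoc, mul_smul_comm, hc]
  · have : H ^ r = 1 := by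
      apply Subtype.ext
      show (δ ^ k • h') ^ r = 1
      rw [_root_.smul_pow, hr', ← pow_mul, mul_comm, pow_mul, hδr, one_pow, one_smul]
    have h5 : mk H ^ r = mk (H ^ r) := (map_pow (QuotientGroup.mk' _) _ _).symm
    rw [h5, this, mk_one]
  · intro h
    rw [← mk_one] at h
    obtain ⟨ρ, hρ⟩ := (mk_eq_iff _ _).1 h.symm
    have h2 : δ ^ k • h' = ρ • (1 : Mat) := hρ
    have h3 : π = ((ρ * (δ ^ k)⁻¹ - 1) * (ζ - 1)⁻¹) • (1 : Mat) := by
      have hζ' : ζ - 1 ≠ 0 := sub_ne_zero.2 hζ1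
      have hδk : δ ^ k ≠ 0 := pow_ne_zero _ hδ0
      have h4 : h' = (ρ * (δ ^ k)⁻¹) • (1 : Mat) := by
        rw [mul_comm, ← smul_smul, ← h2, smul_smul, inv_mul_cancel₀ hδk, one_smul]
      have h5 : (ζ - 1) • π = (ρ * (δ ^ k)⁻¹ - 1) • (1 : Mat) := by
        rw [sub_smul (ρ * (δ ^ k)⁻¹), ← h4, one_smul, hh', add_sub_cancel_left]
      rw [mul_comm, ← smul_smul, ← h5, smul_smul, inv_mul_cancel₀ hζ', one_smul]
    set c := (ρ * (δ ^ k)⁻¹ - 1) * (ζ - 1)⁻¹ with hcd
    have h6 : (c * c) • (1 : Mat) = c • 1 := by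
      have h7 := hπ
      rw [h3, smul_mul_smul_comm, one_mul] at h7
      exact h7
    have hn : n ≠ 0 := by rintro rfl; exact hrn (dvd_zero _)
    have h8 : c * c = c := by
      have := congrFun (congrFun h6 ⟨0, Nat.pos_of_ne_zero hn⟩) ⟨0, Nat.pos_of_ne_zero hn⟩
      simpa using this
    rcases mul_eq_zero.1 (by linear_combination h8 : c * (c - 1) = 0) with h9 | h9
    · apply h0; rw [h3, h9, zero_smul]
    · apply h1
      rw [h3, show c = 1 by linear_combination h9, one_smul]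

theorem mk_pow (s : SL) (k : ℕ) : mk s ^ k = mk (s ^ k) := (map_pow (QuotientGroup.mk' _) _ _).symm

theorem exists_zeta {r : ℕ} (hr : r.Prime) (hrq : r ∣ Fintype.card F - 1) : ∃ ζ : F, ζ ^ r = 1 ∧ ζ ≠ 1 := by
  haveI : Fact r.Prime := ⟨hr⟩
  obtain ⟨u, hu⟩ := exists_prime_orderOf_dvd_card' (G := Fˣ) r (by
    rw [Nat.card_units, Nat.card_eq_fintype_card]; exact hrq)
  refine ⟨u, ?_, ?_⟩
  · have := pow_orderOf_eq_one u
    rw [hu] at this
    have h2 := congrArg Units.val this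
    rwa [Units.val_pow_eq_pow_val] at h2
  · intro h
    have h1 : u = 1 := Units.ext h
    rw [h1, orderOf_one] at hu
    exact hr.one_lt.ne hu

theorem h_order {s h : SL} (hc : h * s = s * h) {r : ℕ} (hr : r.Prime) (h1 : mk h ^ r = 1) (h2 : mk h ≠ 1) (hs : ¬ r ∣ orderOf (mk s)) :
    orderOf (mk (h * s)) = r * orderOf (mk s) := by
  haveI : Fact r.Prime := ⟨hr⟩
  have h3 : orderOf (mk h) = r := orderOf_eq_prime h1 h2
  have h4 : Commute (mk h) (mk s) := by
    show mk h * mk s = mk s * mk h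
    rw [← mk_mul, ← mk_mul, hc]
  rw [mk_mul, h4.orderOf_mul_eq_mul_orderOf_of_coprime, h3]
  rw [h3]
  exact (Nat.Prime.coprime_iff_not_dvd hr).2 hs

/-- the order of the Singer type torus -/
def M0 (q n : ℕ) : ℕ := gs q n / Nat.gcd n (q - 1)

theorem gs_mod {q : ℕ} (h : 1 ≤ q) (n : ℕ) : gs q n ≡ n [MOD (q - 1)] := by
  unfold gs
  induction n with
  | zero => rfl
  | succ n ih =>
    rw [Finset.sum_range_succ]
    refine ih.add ?_
    have h1 : q ≡ 1 [MOD (q - 1)] := ((Nat.modEq_iff_dvd' h).2 dvd_rfl).symm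
    have := h1.pow n
    rwa [one_pow] at this

theorem gcd_dvd_gs {q : ℕ} (h : 1 ≤ q) (n : ℕ) : Nat.gcd n (q - 1) ∣ gs q n := by
  have h1 := gs_mod h n
  have h2 : gs q n ≡ n [MOD Nat.gcd n (q - 1)] := h1.of_dvd (Nat.gcd_dvd_right _ _)
  exact (h2.dvd_iff dvd_rfl).2 (Nat.gcd_dvd_left _ _)

theorem M0_mul {q : ℕ} (h : 1 ≤ q) (n : ℕ) : M0 q n * Nat.gcd n (q - 1) = gs q n := Nat.div_mul_cancel (gcd_dvd_gs h n)

theorem card_pow {p a : ℕ} (hF : Fintype.card F = p ^ a) (hp : p.Prime) : CharP F p := by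
  obtain ⟨p', hp'⟩ := CharP.exists F
  obtain ⟨f, hpp, hf⟩ := FiniteField.card F p'
  have h1 : p' ∣ p ^ a := by rw [← hF, hf]; exact dvd_pow_self _ f.pos.ne'
  have h2 : p' = p := (Nat.prime_dvd_prime_iff_eq hpp hp).1 (hpp.dvd_of_dvd_pow h1)
  rw [← h2]; exact hp'

theorem main {p a : ℕ} (hF : Fintype.card F = p ^ a) (hp : p.Prime) (ha : 1 ≤ a) {r : ℕ} (hr : r.Prime)
    (hrq : r ∣ Fintype.card F - 1) (hrn : ¬ r ∣ n) (x : PSL) (hx : ¬ r ∣ orderOf x) :
    (∃ y : PSL, r * orderOf x ∣ orderOf y) ∨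
      (∃ e, orderOf x ∣ Nat.lcm (p ^ e) (M0 (Fintype.card F) n) ∧ ∃ z : PSL, orderOf z = p ^ e) := by
  have hn : n ≠ 0 := by rintro rfl; exact hrn (dvd_zero _)
  haveI : Nonempty (Fin n) := ⟨⟨0, Nat.pos_of_ne_zero hn⟩⟩
  obtain ⟨s, rfl⟩ := mk_surj x
  obtain ⟨f, hf, hfs⟩ := WfDvdMonoid.exists_irreducible_factor (minpoly.not_isUnit F s.1) (minpoly.ne_zero (Matrix.isIntegral s.1))
  rcases dichotomy s.1 hf hfs with ⟨k, hk⟩ | ⟨P, h1, h2, h3⟩
  swap
  · left
    obtain ⟨ζ, hζ, hζ1⟩ := exists_zeta (F := F) hr hrq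
    obtain ⟨h, hh1, hh2, hh3⟩ := exists_h (s := s) h1 h2 h3 (by
      have e1 : aeval s.1 (P * X) = aeval s.1 P * s.1 := by rw [map_mul, aeval_X]
      have e2 : aeval s.1 (X * P) = s.1 * aeval s.1 P := by rw [map_mul, aeval_X]
      rw [← e1, ← e2, mul_comm]) hr hζ hζ1 hrn
    exact ⟨mk (h * s), (h_order hh1 hr hh2 hh3 hx).symm.dvd⟩
  · right
    have hk' : aeval s.1 (f ^ k) = 0 := by
      obtain ⟨g, hg⟩ := hk
      rw [hg, map_mul, minpoly.aeval, zero_mul]
    obtain ⟨e, m, hpm, hm⟩ := Nat.exists_eq_pow_mul_and_not_dvd (n := orderOf (mk s)) (orderOf_pos _).ne' p hp.ne_one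
    set q := Fintype.card F with hq
    have hq2 : 2 ≤ q := Fintype.one_lt_card
    have hkJ : k ≤ q ^ k := (Nat.lt_pow_self hq2).le
    refine ⟨e, ?_, mk s ^ m, ?_⟩
    · have ht := frob_kill hk' hkJ
      have htd : (s.1 ^ (q ^ k)).det = 1 := by rw [Matrix.det_pow, s.2, one_pow]
      obtain ⟨e1, e2⟩ := semi hf ht htd
      obtain ⟨c, hc⟩ := e2 (M0 q n) (by
        obtain ⟨b, hb⟩ := Nat.gcd_dvd_right n (q - 1)
        have : M0 q n * (q - 1) = gs q n * b := by
          rw [← M0_mul (by omega : 1 ≤ q) n]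
          nth_rewrite 1 [hb]; ring
        rw [this, pow_mul, e1, one_pow])
      have h4 : mk s ^ (q ^ k * M0 q n) = 1 := by
        rw [mk_pow, ← mk_one]
        symm
        exact (mk_eq_iff _ _).2 ⟨c, by
          show s.1 ^ (q ^ k * M0 q n) = c • (1 : Mat)
          rw [pow_mul]; exact hc⟩
      have h5 := orderOf_dvd_of_pow_eq_one h4
      rw [hm] at h5 ⊢
      have h6 : Nat.Coprime m (q ^ k) := by
        rw [hF, ← pow_mul]
        exact (Nat.Coprime.pow_right _ ((Nat.Prime.coprime_iff_not_dvd hp).2 hpm).symm)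
      have h7 : m ∣ M0 q n := h6.dvd_of_dvd_mul_left ((Dvd.intro_left _ rfl).trans h5)
      have h8 : Nat.Coprime (p ^ e) m := Nat.Coprime.pow_left _ ((Nat.Prime.coprime_iff_not_dvd hp).2 hpm)
      exact h8.mul_dvd_of_dvd_of_dvd (Nat.dvd_lcm_left _ _) (h7.trans (Nat.dvd_lcm_right _ _))
    · have hm0 : m ≠ 0 := by rintro rfl; exact hpm (dvd_zero _)
      rw [orderOf_pow_of_dvd hm0 (by rw [hm]; exact Dvd.intro_left _ rfl), hm, Nat.mul_div_cancel _ (Nat.pos_of_ne_zero hm0)]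

theorem singer {p a : ℕ} (hF : Fintype.card F = p ^ a) (hp : p.Prime) (hn : n ≠ 0) : ∃ c : PSL, M0 (Fintype.card F) n ∣ orderOf c := by
  haveI : Fact p.Prime := ⟨hp⟩
  haveI : CharP F p := card_pow hF hp
  haveI : NeZero n := ⟨hn⟩
  let K := FiniteField.Extension F p n
  set q := Fintype.card F with hq
  have hq2 : 2 ≤ q := Fintype.one_lt_card
  have hK : Nat.card K = q ^ n := by rw [FiniteField.natCard_extension, Nat.card_eq_fintype_card]
  have hfr : Module.finrank F K = n := FiniteField.finrank_extension F p n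
  haveI : Finite K := inferInstance
  obtain ⟨γ, hγ⟩ := IsCyclic.exists_generator (α := Kˣ)
  have hγo : orderOf γ = q ^ n - 1 := by
    rw [orderOf_eq_card_of_forall_mem_zpowers hγ, Nat.card_units, hK]
  have hgp := gs_pred (show 1 ≤ q by omega) n
  have hγ1 : ∀ j, (γ : K) ^ j = 1 ↔ gs q n * (q - 1) ∣ j := by
    intro j
    have h1 : gs q n * (q - 1) = orderOf γ := by rw [hγo]; omega
    rw [h1, orderOf_dvd_iff_pow_eq_one, Units.ext_iff, Units.val_pow_eq_pow_val, Units.val_one]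
  let b := Module.finBasisOfFinrankEq F K hfr
  let Φ := Algebra.leftMulMatrix b
  have hΦ : Function.Injective Φ := Algebra.leftMulMatrix_injective b
  set c0 : K := (γ : K) ^ (q - 1) with hc0
  have hdet : (Φ c0).det = 1 := by
    have h1 : (Φ c0).det = Algebra.norm F c0 := (Algebra.norm_eq_matrix_det b c0).symm
    rw [h1]
    apply (algebraMap F K).injective
    rw [FiniteField.algebraMap_norm_eq_pow_sum, hfr, Nat.card_eq_fintype_card, map_one, hc0, ← pow_mul, hγ1]
    exact ⟨1, by rw [mul_one]; exact mul_comm _ _⟩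
  let c : SL := ⟨Φ c0, hdet⟩
  refine ⟨mk c, ?_⟩
  set j := orderOf (mk c) with hj
  have h1 : mk (c ^ j) = mk 1 := by rw [← mk_pow, hj, pow_orderOf_eq_one, mk_one]
  obtain ⟨ρ, hρ⟩ := (mk_eq_iff _ _).1 h1.symm
  have h2 : Φ (c0 ^ j) = Φ (algebraMap F K ρ) := by
    rw [AlgHom.commutes, map_pow, Algebra.algebraMap_eq_smul_one]
    exact hρ
  have h3 : c0 ^ j = algebraMap F K ρ := hΦ h2
  have h4 : ρ ^ n = 1 := by
    have h5 : (c ^ j).1.det = 1 := (c ^ j).2
    have h6 : (c ^ j).1 = ρ • (1 : Mat) := hρ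
    rw [h6, Matrix.det_smul, Matrix.det_one, Fintype.card_fin, mul_one] at h5
    exact h5
  have h5 : ρ ^ (q - 1) = 1 := by
    apply FiniteField.pow_card_sub_one_eq_one
    rintro rfl
    rw [zero_pow hn] at h4
    exact zero_ne_one h4
  have h6 : ρ ^ Nat.gcd n (q - 1) = 1 := by
    rw [← orderOf_dvd_iff_pow_eq_one]
    exact Nat.dvd_gcd (orderOf_dvd_of_pow_eq_one h4) (orderOf_dvd_of_pow_eq_one h5)
  have h7 : (γ : K) ^ ((q - 1) * j * Nat.gcd n (q - 1)) = 1 := by
    rw [pow_mul, pow_mul, ← hc0, h3, ← map_pow, h6, map_one]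
  rw [hγ1] at h7
  have h8 : (q - 1) * gs q n ∣ (q - 1) * (j * Nat.gcd n (q - 1)) := by
    rw [mul_comm (q - 1) (gs q n), ← mul_assoc]; exact h7
  have h9 := Nat.dvd_of_mul_dvd_mul_left (by omega) h8
  rw [← M0_mul (show 1 ≤ q by omega) n] at h9
  exact Nat.dvd_of_mul_dvd_mul_right (Nat.gcd_pos_of_pos_left _ (Nat.pos_of_ne_zero hn)) h9

/-- the projection to the last coordinate -/
def pr (n : ℕ) : Module.End F (Fin n → F) where
  toFun v i := if i.1 + 1 = n then v i else 0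
  map_add' v w := by
    funext i
    show (if i.1 + 1 = n then (v + w) i else 0) = (if i.1 + 1 = n then v i else 0) + (if i.1 + 1 = n then w i else 0)
    split_ifs <;> simp
  map_smul' c v := by
    funext i
    show (if i.1 + 1 = n then (c • v) i else 0) = c • (if i.1 + 1 = n then v i else 0)
    split_ifs <;> simp

/-- the shift on the first coordinates -/
def sh (n : ℕ) : Module.End F (Fin n → F) where
  toFun v i := if h : i.1 + 2 < n then v ⟨i.1 + 1, by omega⟩ else 0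
  map_add' v w := by
    funext i
    show (if h : i.1 + 2 < n then (v + w) ⟨i.1 + 1, by omega⟩ else 0) = (if h : i.1 + 2 < n then v ⟨i.1 + 1, by omega⟩ else 0) + (if h : i.1 + 2 < n then w ⟨i.1 + 1, by omega⟩ else 0)
    split_ifs <;> simp
  map_smul' c v := by
    funext i
    show (if h : i.1 + 2 < n then (c • v) ⟨i.1 + 1, by omega⟩ else 0) = c • (if h : i.1 + 2 < n then v ⟨i.1 + 1, by omega⟩ else 0)
    split_ifs <;> simp

theorem sh_apply (v : Fin n → F) (i : Fin n) : sh n v i = if h : i.1 + 2 < n then v ⟨i.1 + 1, by omega⟩ else 0 := rfl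
theorem pr_apply (v : Fin n → F) (i : Fin n) : pr n v i = if i.1 + 1 = n then v i else 0 := rfl

theorem sh_pow (k : ℕ) (v : Fin n → F) (i : Fin n) (h : i.1 + k + 1 < n) : ((sh n : Module.End F (Fin n → F)) ^ k) v i = v ⟨i.1 + k, by omega⟩ := by
  induction k generalizing v with
  | zero => rfl
  | succ k ih =>
    rw [pow_succ, Module.End.mul_apply, ih _ (by omega), sh_apply, dif_pos (by show i.1 + k + 2 < n; omega)]
    rfl

theorem sh_pow_zero (k : ℕ) (v : Fin n → F) (i : Fin n) (hk : 1 ≤ k) (h : ¬ i.1 + k + 1 < n) : ((sh n : Module.End F (Fin n → F)) ^ k) v i = 0 := by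
  obtain ⟨k, rfl⟩ : ∃ j, k = j + 1 := ⟨k - 1, by omega⟩
  clear hk
  induction k generalizing v with
  | zero =>
    rw [zero_add, pow_one, sh_apply, dif_neg (by omega)]
  | succ k ih =>
    rw [pow_succ, Module.End.mul_apply]
    by_cases h1 : i.1 + (k + 1) + 1 < n
    · rw [sh_pow _ _ _ h1, sh_apply, dif_neg (by show ¬ i.1 + (k + 1) + 2 < n; omega)]
    · exact ih _ h1

theorem w_of {s : SL} (hn : 2 ≤ n) {r : ℕ} (hr : r.Prime) (hrq : r ∣ Fintype.card F - 1) (hrn : ¬ r ∣ n)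
    (hs : LinearMap.toMatrixAlgEquiv' (pr n : Module.End F (Fin n → F)) * s.1 = s.1 * LinearMap.toMatrixAlgEquiv' (pr n : Module.End F (Fin n → F)))
    (ho : ¬ r ∣ orderOf (mk s)) : ∃ w : PSL, orderOf w = r * orderOf (mk s) := by
  obtain ⟨ζ, hζ, hζ1⟩ := exists_zeta (F := F) hr hrq
  obtain ⟨h, hh1, hh2, hh3⟩ := exists_h (s := s) (π := LinearMap.toMatrixAlgEquiv' (pr n : Module.End F (Fin n → F))) (by
    rw [← map_mul]
    congr 1
    apply LinearMap.ext; intro v; funext i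
    rw [Module.End.mul_apply, pr_apply, pr_apply]
    split_ifs <;> rfl) (by
    intro h
    have h1 : (pr n : Module.End F (Fin n → F)) = 0 := by
      apply LinearMap.toMatrixAlgEquiv'.injective
      rw [h, map_zero]
    have h2 := congrFun (congrArg (fun φ : Module.End F (Fin n → F) => φ (fun _ => 1)) h1) ⟨n - 1, by omega⟩
    rw [pr_apply, if_pos (by show n - 1 + 1 = n; omega)] at h2
    exact one_ne_zero h2) (by
    intro h
    have h1 : (pr n : Module.End F (Fin n → F)) = 1 := by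
      apply LinearMap.toMatrixAlgEquiv'.injective
      rw [h, map_one]
    have h2 := congrFun (congrArg (fun φ : Module.End F (Fin n → F) => φ (fun _ => 1)) h1) ⟨0, by omega⟩
    rw [pr_apply, if_neg (by show ¬ 0 + 1 = n; omega)] at h2
    exact zero_ne_one h2) hs hr hζ hζ1 hrn
  exact ⟨mk (h * s), h_order hh1 hr hh2 hh3 ho⟩

theorem exists_w (hn : 2 ≤ n) {r : ℕ} (hr : r.Prime) (hrq : r ∣ Fintype.card F - 1) (hrn : ¬ r ∣ n) : ∃ w : PSL, r ∣ orderOf w := by
  obtain ⟨w, hw⟩ := w_of (s := (1 : SL)) hn hr hrq hrn (by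
    show _ * (1 : Mat) = (1 : Mat) * _
    rw [mul_one, one_mul]) (by
    rw [mk_one, orderOf_one, Nat.dvd_one]; exact hr.ne_one)
  exact ⟨w, by rw [hw]; exact Dvd.intro _ rfl⟩

theorem unip_w {p a : ℕ} (hF : Fintype.card F = p ^ a) (hp : p.Prime) (ha : 1 ≤ a) {r : ℕ} (hr : r.Prime) (hn : 2 ≤ n)
    (hrq : r ∣ Fintype.card F - 1) (hrn : ¬ r ∣ n) (hnp : ¬ ∃ j, n - 1 = p ^ j) (e : ℕ) (he : ∃ z : PSL, orderOf z = p ^ e) :
    ∃ w : PSL, r * p ^ e ∣ orderOf w := by
  haveI : Fact p.Prime := ⟨hp⟩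
  haveI : CharP F p := card_pow hF hp
  haveI : Nonempty (Fin n) := ⟨⟨0, by omega⟩⟩
  rcases Nat.eq_zero_or_pos e with h0 | hpos
  · rw [h0, pow_zero, mul_one]; exact exists_w hn hr hrq hrn
  obtain ⟨j, rfl⟩ : ∃ j, e = j + 1 := ⟨e - 1, by omega⟩
  -- `p ^ j < n`
  have hjn : p ^ j < n := by
    by_contra hcon
    push Not at hcon
    obtain ⟨z, hz⟩ := he
    obtain ⟨s, rfl⟩ := mk_surj z
    have h1 : mk (s ^ p ^ (j + 1)) = mk 1 := by rw [← mk_pow, ← hz, pow_orderOf_eq_one, mk_one]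
    obtain ⟨ρ, hρ⟩ := (mk_eq_iff _ _).1 h1.symm
    obtain ⟨ρ', hρ'⟩ : ∃ ρ' : F, ρ' ^ p ^ (j + 1) = ρ :=
      ((Finite.injective_iff_surjective.1 (iterateFrobenius F p (j + 1)).injective) ρ)
    have hcomm : Commute s.1 (ρ' • (1 : Mat)) := (Commute.one_right s.1).smul_right ρ'
    have h2 : (s.1 - ρ' • (1 : Mat)) ^ p ^ (j + 1) = 0 := by
      rw [sub_pow_char_pow_of_commute _ _ hcomm, _root_.smul_pow, hρ', one_pow]
      exact sub_eq_zero.2 hρ
    have h3 : (s.1 - ρ' • (1 : Mat)) ^ n = 0 := by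
      have h3' : IsNilpotent (s.1 - ρ' • (1 : Mat)) := ⟨_, h2⟩
      have h3'' := (Matrix.isNilpotent_charpoly_sub_pow_of_isNilpotent h3').eq_zero
      rw [sub_eq_zero, Fintype.card_fin] at h3''
      have := Matrix.aeval_self_charpoly (s.1 - ρ' • (1 : Mat))
      rwa [h3'', map_pow, aeval_X] at this
    have h4 : (s.1 - ρ' • (1 : Mat)) ^ p ^ j = 0 := by
      rw [← Nat.sub_add_cancel hcon, pow_add, h3, mul_zero]
    rw [sub_pow_char_pow_of_commute _ _ hcomm, _root_.smul_pow, one_pow] at h4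
    have h5 : mk s ^ p ^ j = 1 := by
      rw [mk_pow, ← mk_one]
      symm
      exact (mk_eq_iff _ _).2 ⟨ρ' ^ p ^ j, sub_eq_zero.1 h4⟩
    have h6 := orderOf_dvd_of_pow_eq_one h5
    rw [hz] at h6
    have := (Nat.pow_dvd_pow_iff_le_right hp.one_lt).1 h6
    omega
  have hjn1 : p ^ j + 1 < n := by
    rcases Nat.lt_or_ge (p ^ j + 1) n with h | h
    · exact h
    · exact absurd ⟨j, by omega⟩ hnp
  let B : Mat := LinearMap.toMatrixAlgEquiv' (sh n : Module.End F (Fin n → F))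
  have hBk : ∀ k, B ^ k = LinearMap.toMatrixAlgEquiv' ((sh n : Module.End F (Fin n → F)) ^ k) := fun k => (map_pow _ _ _).symm
  have hpow : ∀ j : ℕ, (1 + B) ^ p ^ j = 1 + B ^ p ^ j := by
    intro j
    have := add_pow_char_pow_of_commute (p := p) j (Commute.one_left B)
    rwa [one_pow] at this
  have hBn : B ^ p ^ n = 0 := by
    rw [hBk]
    have h2 : (sh n : Module.End F (Fin n → F)) ^ p ^ n = 0 := by
      apply LinearMap.ext
      intro v
      funext i
      have h3 : n < p ^ n := Nat.lt_pow_self hp.one_lt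
      exact sh_pow_zero _ _ _ (by omega) (by omega)
    rw [h2, map_zero]
  have hBj : B ^ p ^ j ≠ 0 := by
    rw [hBk]
    intro h
    have h2 : (sh n : Module.End F (Fin n → F)) ^ p ^ j = 0 := by
      apply LinearMap.toMatrixAlgEquiv'.injective
      rw [h, map_zero]
    have h4 := sh_pow (F := F) (n := n) (p ^ j) (fun _ => 1) ⟨0, by omega⟩ (by show 0 + p ^ j + 1 < n; omega)
    rw [h2] at h4
    exact zero_ne_one h4
  have hun : (1 + B) ^ p ^ n = 1 := by rw [hpow, hBn, add_zero]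
  have hdet : (1 + B).det = 1 := by
    have h1 : (1 + B).det ^ p ^ n = 1 := by rw [← Matrix.det_pow, hun, Matrix.det_one]
    have h2 : iterateFrobenius F p n (1 + B).det = iterateFrobenius F p n 1 := by
      rw [iterateFrobenius_def, iterateFrobenius_def, h1, one_pow]
    exact (iterateFrobenius F p n).injective h2
  let s : SL := ⟨1 + B, hdet⟩
  have hsv : s.1 = 1 + B := rfl
  have hs1 : mk s ^ p ^ n = 1 := by
    rw [mk_pow]
    have : s ^ p ^ n = 1 := Subtype.ext hun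
    rw [this, mk_one]
  obtain ⟨E, -, hE⟩ := (Nat.dvd_prime_pow hp).1 (orderOf_dvd_of_pow_eq_one hs1)
  have hrp : r ≠ p := by
    rintro rfl
    rw [hF] at hrq
    have h1 : r ∣ r ^ a := dvd_pow_self r (by omega)
    have h2 : r ∣ 1 := by
      have := Nat.dvd_sub h1 hrq
      rwa [Nat.sub_sub_self (Nat.one_le_pow _ _ hr.pos)] at this
    exact hr.ne_one (Nat.dvd_one.1 h2)
  have hjE : j < E := by
    by_contra hcon
    have h1 : mk (s ^ p ^ j) = mk 1 := by
      rw [← mk_pow, mk_one, ← orderOf_dvd_iff_pow_eq_one, hE]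
      exact pow_dvd_pow p (by omega)
    obtain ⟨ρ, hρ⟩ := (mk_eq_iff _ _).1 h1.symm
    have h2 : (1 + B) ^ p ^ j = ρ • (1 : Mat) := hρ
    rw [hpow] at h2
    have h3 : B ^ p ^ j = (ρ - 1) • (1 : Mat) := by
      rw [sub_smul, one_smul, ← h2]; abel
    have h4 : (ρ - 1) = 0 := by
      by_contra hne
      have h5 : ((ρ - 1) • (1 : Mat)) ^ p ^ n = 0 := by
        rw [← h3, ← pow_mul, mul_comm, pow_mul, hBn, zero_pow (pow_ne_zero _ hp.ne_zero)]
      rw [_root_.smul_pow, one_pow] at h5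
      have h6 := congrFun (congrFun h5 ⟨0, by omega⟩) ⟨0, by omega⟩
      rw [Matrix.smul_apply, Matrix.one_apply_eq, Matrix.zero_apply, smul_eq_mul, mul_one] at h6
      exact pow_ne_zero _ hne h6
    rw [h4, zero_smul] at h3
    exact hBj h3
  obtain ⟨w, hw⟩ := w_of (s := s) hn hr hrq hrn (by
    rw [hsv, mul_add, add_mul, mul_one, one_mul]
    congr 1
    show LinearMap.toMatrixAlgEquiv' _ * LinearMap.toMatrixAlgEquiv' _ = LinearMap.toMatrixAlgEquiv' _ * LinearMap.toMatrixAlgEquiv' _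
    rw [← map_mul, ← map_mul]
    congr 1
    apply LinearMap.ext; intro v; funext i
    rw [Module.End.mul_apply, Module.End.mul_apply, pr_apply, sh_apply, sh_apply]
    by_cases h1 : i.1 + 1 = n
    · rw [if_pos h1, dif_neg (by omega), dif_neg (by omega)]
    · rw [if_neg h1]
      by_cases h2 : i.1 + 2 < n
      · rw [dif_pos h2, pr_apply, if_neg (by show ¬ i.1 + 1 + 1 = n; omega)]
      · rw [dif_neg h2]) (by
    rw [hE]
    intro h
    exact hrp ((Nat.prime_dvd_prime_iff_eq hr hp).1 (hr.dvd_of_dvd_pow h)))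
  refine ⟨w, ?_⟩
  rw [hw, hE]
  exact Nat.mul_dvd_mul_left r (pow_dvd_pow p hjE)

end Semi

end Cfsg.Agent.H8.SpecSL
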