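import Mathlib
import Cfsg.Agent.H8.SpecSL
import Cfsg.Agent.Lib.Herm16
import Cfsg.Agent.Lib.Herm18
import Cfsg.Agent.Lib.AutPSL15

set_option autoImplicit false
set_option linter.all false

/-! Spectra of direct powers of `PSU_n(q)`. -/

namespace Cfsg.Agent.H8.SpecSU

open Polynomial
open Cfsg.Agent.H8.SpecAbs Cfsg.Agent.H8.SpecSL Cfsg.Agent.Lib.Herm

/-- integer geometric sum -/
def gz (x : ℤ) (n : ℕ) : ℤ := ∑ i ∈ Finset.range n, x ^ i

theorem gz_mul_pred (x : ℤ) (n : ℕ) : gz x n * (x - 1) = x ^ n - 1 := geom_sum_mul x n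

theorem gz_mul {x : ℤ} (hx : x ≠ 1) (d k : ℕ) : gz x (d * k) = gz x d * gz (x ^ d) k := by
  have h1 := gz_mul_pred x (d * k)
  have h2 := gz_mul_pred x d
  have h3 := gz_mul_pred (x ^ d) k
  have h4 : x - 1 ≠ 0 := sub_ne_zero.2 hx
  apply mul_right_cancel₀ h4
  rw [h1, pow_mul, ← h3, ← h2]; ring

theorem gz_mod {x m : ℤ} (h : m ∣ x - 1) (n : ℕ) : m ∣ gz x n - n := by
  unfold gz
  induction n with
  | zero => simp
  | succ n ih =>
    rw [Finset.sum_range_succ]
    have h1 : m ∣ x ^ n - 1 := by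
      have := sub_dvd_pow_sub_pow x 1 n
      rw [one_pow] at this
      exact h.trans this
    have e : ∑ i ∈ Finset.range n, x ^ i + x ^ n - ((n + 1 : ℕ) : ℤ) = (∑ i ∈ Finset.range n, x ^ i - n) + (x ^ n - 1) := by
      push_cast; ring
    rw [e]
    exact dvd_add ih h1

/-- the order of the Singer type torus in `SU_n` -/
def Gn (q n : ℕ) : ℕ := (gz (-(q : ℤ)) n).natAbs

theorem Gn_mul (q n : ℕ) : ((Gn q n : ℕ) : ℤ) * (q + 1) = |(-(q : ℤ)) ^ n - 1| := by
  have h1 := gz_mul_pred (-(q : ℤ)) n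
  rw [← h1, abs_mul, Gn, Int.natCast_natAbs]
  congr 1
  rw [abs_of_neg (by have : (0 : ℤ) ≤ q := Int.natCast_nonneg q; linarith)]
  ring

theorem Gn_odd {q n : ℕ} (hn : Odd n) : Gn q n * (q + 1) = q ^ n + 1 := by
  have h := Gn_mul q n
  rw [hn.neg_pow, abs_of_neg (by have : (0 : ℤ) ≤ q ^ n := by positivity
                                 linarith)] at h
  have : ((Gn q n * (q + 1) : ℕ) : ℤ) = ((q ^ n + 1 : ℕ) : ℤ) := by
    push_cast; rw [h]; ring
  exact_mod_cast this

theorem Gn_even {q n : ℕ} (hq : 1 ≤ q) (hn : Even n) : Gn q n * (q + 1) + 1 = q ^ n := by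
  have h := Gn_mul q n
  rw [hn.neg_pow, abs_of_nonneg (by
    have : (1 : ℤ) ≤ (q : ℤ) ^ n := one_le_pow₀ (by exact_mod_cast hq)
    linarith)] at h
  have : ((Gn q n * (q + 1) + 1 : ℕ) : ℤ) = ((q ^ n : ℕ) : ℤ) := by
    push_cast; rw [h]; ring
  exact_mod_cast this

theorem gcd_dvd_Gn (q n : ℕ) : Nat.gcd n (q + 1) ∣ Gn q n := by
  have h1 : ((q : ℤ) + 1) ∣ gz (-(q : ℤ)) n - n := gz_mod ⟨-1, by ring⟩ n
  have h2 : ((Nat.gcd n (q + 1) : ℕ) : ℤ) ∣ (q : ℤ) + 1 := by
    have : ((Nat.gcd n (q + 1) : ℕ) : ℤ) ∣ ((q + 1 : ℕ) : ℤ) := Int.natCast_dvd_natCast.2 (Nat.gcd_dvd_right _ _)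
    push_cast at this; exact this
  have h3 : ((Nat.gcd n (q + 1) : ℕ) : ℤ) ∣ (n : ℤ) := Int.natCast_dvd_natCast.2 (Nat.gcd_dvd_left _ _)
  have h4 : ((Nat.gcd n (q + 1) : ℕ) : ℤ) ∣ gz (-(q : ℤ)) n := by
    have := dvd_add (h2.trans h1) h3
    rwa [sub_add_cancel] at this
  exact Int.natCast_dvd.1 h4

/-- the order of the Singer type torus in `PSU_n` -/
def MU (q n : ℕ) : ℕ := Gn q n / Nat.gcd n (q + 1)

theorem MU_mul (q n : ℕ) : MU q n * Nat.gcd n (q + 1) = Gn q n := Nat.div_mul_cancel (gcd_dvd_Gn q n)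

/-- refined dichotomy -/
theorem dichotomy' {F : Type*} [Field F] {n : ℕ} (s : Matrix (Fin n) (Fin n) F) {f : F[X]} (hf : Irreducible f) (hfs : f ∣ minpoly F s) :
    (∃ k, minpoly F s ∣ f ^ k) ∨ ∃ (P : F[X]) (k : ℕ), aeval s P * aeval s P = aeval s P ∧ aeval s P ≠ 0 ∧ aeval s P ≠ 1 ∧
      aeval s (f ^ k) * aeval s P = 0 := by
  have h0 : minpoly F s ≠ 0 := minpoly.ne_zero (Matrix.isIntegral s)
  obtain ⟨g, hg, hgf⟩ := (FiniteMultiplicity.of_not_isUnit hf.not_isUnit h0).exists_eq_pow_mul_and_not_dvd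
  set k := multiplicity f (minpoly F s) with hk
  have hk0 : k ≠ 0 := by
    intro h
    rw [h, pow_zero, one_mul] at hg
    rw [hg] at hfs
    exact hgf hfs
  by_cases hgu : IsUnit g
  · left
    refine ⟨k, ?_⟩
    rw [hg]
    exact (hgu.mul_right_dvd).2 dvd_rfl
  · right
    have hco : IsCoprime (f ^ k) g := (IsCoprime.pow_left ((hf.coprime_iff_not_dvd).2 hgf))
    obtain ⟨a, b, hab⟩ := hco
    have hμ : aeval s (f ^ k * g) = 0 := by rw [← hg]; exact minpoly.aeval F s
    refine ⟨b * g, k, ?_, ?_, ?_, ?_⟩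
    · rw [← map_mul]
      have : b * g * (b * g) = b * g - a * b * (f ^ k * g) := by linear_combination (b * g) * hab
      rw [this, map_sub, map_mul _ (a * b), hμ, mul_zero, sub_zero]
    · intro h
      have h1 : f ^ k ∣ b * g := (Dvd.intro _ hg.symm).trans (minpoly.dvd F s h)
      have h3 : f ^ k ∣ 1 := by rw [← hab]; exact dvd_add (Dvd.intro_left _ rfl) h1
      exact hf.not_isUnit (isUnit_of_dvd_one ((dvd_pow_self f hk0).trans h3))
    · intro h
      have h1 : aeval s (a * f ^ k) = 0 := by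
        have : a * f ^ k = 1 - b * g := by linear_combination hab
        rw [this, map_sub, h, map_one, sub_self]
      have h2 : g ∣ a * f ^ k := (Dvd.intro_left _ hg.symm).trans (minpoly.dvd F s h1)
      apply hgu
      rw [isUnit_iff_dvd_one, ← hab]
      exact dvd_add h2 (Dvd.intro_left _ rfl)
    · rw [← map_mul]
      have : f ^ k * (b * g) = b * (f ^ k * g) := by ring
      rw [this, map_mul, hμ, mul_zero]

theorem idem_mul {F : Type*} [Field F] {n : ℕ} {π : Matrix (Fin n) (Fin n) F} (hπ : π * π = π) (a b : F) :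
    (1 + (a - 1) • π) * (1 + (b - 1) • π) = 1 + (a * b - 1) • π := by
  rw [add_mul, mul_add, mul_add, one_mul, mul_one, one_mul, smul_mul_smul_comm, hπ]
  module

section Uni
variable {F : Type*} [Field F] {n : ℕ} {σ : F ≃+* F} {q : ℕ}

local notation "Mat" => Matrix (Fin n) (Fin n) F

theorem su_iff_st (hσ2 : ∀ a, σ (σ a) = a) (hq : ∀ a, σ a = a ^ q) (g : Matrix.SpecialLinearGroup (Fin n) F) :
    g ∈ Cfsg.SU n F q ↔ st σ g.1 * g.1 = 1 := by
  rw [su_iff hσ2 hq]
  constructor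
  · intro h
    have := congrArg Matrix.transpose h
    rw [Matrix.transpose_mul, Matrix.transpose_transpose, Matrix.transpose_one] at this
    exact this
  · intro h
    have := congrArg Matrix.transpose h
    rw [Matrix.transpose_mul, Matrix.transpose_one] at this
    unfold st at this
    rw [Matrix.transpose_transpose] at this
    exact this

theorem pmk_one_iff [Fintype F] (hσ : orderOf σ = 2) (hσ2 : ∀ a, σ (σ a) = a) (hq : ∀ a, σ a = a ^ q) (hn : 2 ≤ n) (s : Cfsg.SU n F q) :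
    ((s : Cfsg.SU n F q) : Cfsg.PSU n F q) = 1 ↔ ∃ ρ : F, s.1.1 = ρ • (1 : Mat) := by
  rw [QuotientGroup.eq_one_iff, mem_center_SU hσ hσ2 hq hn]
  constructor
  · rintro ⟨l, hl⟩
    have h1 := mulVec_scalar hl
    rw [Matrix.scalar_apply, ← Matrix.smul_one_eq_diagonal] at h1
    exact ⟨l, h1⟩
  · rintro ⟨ρ, hρ⟩
    refine ⟨ρ, fun x => ?_⟩
    have : ((s : Matrix.SpecialLinearGroup (Fin n) F) : Matrix (Fin n) (Fin n) F) = ρ • (1 : Mat) := hρ
    rw [this, Matrix.smul_mulVec, Matrix.one_mulVec]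

theorem pmk_pow (s : Cfsg.SU n F q) (k : ℕ) : (s : Cfsg.PSU n F q) ^ k = ((s ^ k : Cfsg.SU n F q) : Cfsg.PSU n F q) := rfl

theorem exists_hU [Fintype F] (hσ : orderOf σ = 2) (hσ2 : ∀ a, σ (σ a) = a) (hq : ∀ a, σ a = a ^ q) (hn2 : 2 ≤ n)
    {s : Cfsg.SU n F q} {π : Mat} (hπ : π * π = π) (hst : st σ π = π) (h0 : π ≠ 0) (h1 : π ≠ 1) (hc : π * s.1.1 = s.1.1 * π)
    {r : ℕ} (hr : r.Prime) (hrq : r ∣ q + 1) {ζ : F} (hζ : ζ ^ r = 1) (hζ1 : ζ ≠ 1) (hrn : ¬ r ∣ n) :
    ∃ h : Cfsg.SU n F q, h * s = s * h ∧ (h : Cfsg.PSU n F q) ^ r = 1 ∧ (h : Cfsg.PSU n F q) ≠ 1 := by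
  have hco : Nat.Coprime n r := ((Nat.Prime.coprime_iff_not_dvd hr).2 hrn).symm
  obtain ⟨k, hk⟩ : ∃ k : ℕ, r ∣ k * n + 1 := by
    obtain ⟨u, -, hu⟩ := Nat.exists_mul_mod_eq_one_of_coprime hco hr.one_lt
    refine ⟨u * (r - 1), ?_⟩
    have h2 : n * u ≡ 1 [MOD r] := by rw [Nat.ModEq, hu, Nat.mod_eq_of_lt hr.one_lt]
    have h3 : u * (r - 1) * n + 1 ≡ 1 * (r - 1) + 1 [MOD r] := by
      have e : u * (r - 1) * n + 1 = n * u * (r - 1) + 1 := by ring
      rw [e]
      exact (h2.mul_right _).add_right 1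
    rw [one_mul, Nat.sub_add_cancel hr.one_lt.le] at h3
    exact (Nat.modEq_zero_iff_dvd.1 (h3.trans (by rw [Nat.ModEq, Nat.mod_self, Nat.zero_mod])))
  have hσr : ∀ a : F, a ^ r = 1 → σ a * a = 1 := by
    intro a ha
    obtain ⟨c, hc⟩ := hrq
    rw [hq, ← pow_succ, hc, pow_mul, ha, one_pow]
  set h' : Mat := 1 + (ζ - 1) • π with hh'
  have hr' : h' ^ r = 1 := by rw [hh', idem_pow hπ, hζ, sub_self, zero_smul, add_zero]
  set δ := h'.det with hδ
  have hδr : δ ^ r = 1 := by rw [hδ, ← Matrix.det_pow, hr', Matrix.det_one]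
  have hδ0 : δ ≠ 0 := by
    intro h
    rw [h, zero_pow hr.ne_zero] at hδr
    exact zero_ne_one hδr
  have hd : (δ ^ k • h').det = 1 := by
    rw [Matrix.det_smul, Fintype.card_fin, ← hδ, ← pow_mul, ← pow_succ]
    obtain ⟨c, hc⟩ := hk
    rw [hc, pow_mul, hδr, one_pow]
  have hst' : st σ h' * h' = 1 := by
    have : st σ h' = 1 + (σ ζ - 1) • π := by
      rw [hh', st_add, st_one, st_smul, hst, map_sub, map_one]
    rw [this, hh', idem_mul hπ, hσr ζ hζ, sub_self, zero_smul, add_zero]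
  have hst2 : st σ (δ ^ k • h') * (δ ^ k • h') = 1 := by
    rw [st_smul, smul_mul_smul_comm, hst', hσr (δ ^ k) (by rw [← pow_mul, mul_comm, pow_mul, hδr, one_pow]), one_smul]
  let H0 : Matrix.SpecialLinearGroup (Fin n) F := ⟨δ ^ k • h', hd⟩
  have hH0 : H0 ∈ Cfsg.SU n F q := (su_iff_st hσ2 hq H0).2 hst2
  let H : Cfsg.SU n F q := ⟨H0, hH0⟩
  have hHv : H.1.1 = δ ^ k • h' := rfl
  refine ⟨H, ?_, ?_, ?_⟩
  · apply Subtype.ext
    apply Subtype.ext
    show (δ ^ k • h') * s.1.1 = s.1.1 * (δ ^ k • h')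
    rw [hh', smul_mul_assoc, mul_smul_comm, add_mul, mul_add, one_mul, mul_one, smul_mul_assoc, mul_smul_comm, hc]
  · have : H ^ r = 1 := by
      apply Subtype.ext
      apply Subtype.ext
      show (δ ^ k • h') ^ r = 1
      rw [_root_.smul_pow, hr', ← pow_mul, mul_comm, pow_mul, hδr, one_pow, one_smul]
    rw [pmk_pow, this]; rfl
  · intro h
    obtain ⟨ρ, hρ⟩ := (pmk_one_iff hσ hσ2 hq hn2 H).1 h
    have h2 : δ ^ k • h' = ρ • (1 : Mat) := hρ
    have h3 : π = ((ρ * (δ ^ k)⁻¹ - 1) * (ζ - 1)⁻¹) • (1 : Mat) := by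
      have hζ' : ζ - 1 ≠ 0 := sub_ne_zero.2 hζ1
      have hδk : δ ^ k ≠ 0 := pow_ne_zero _ hδ0
      have h4 : h' = (ρ * (δ ^ k)⁻¹) • (1 : Mat) := by
        rw [mul_comm, ← smul_smul, ← h2, smul_smul, inv_mul_cancel₀ hδk, one_smul]
      have h5 : (ζ - 1) • π = (ρ * (δ ^ k)⁻¹ - 1) • (1 : Mat) := by
        rw [sub_smul (ρ * (δ ^ k)⁻¹), ← h4, one_smul, hh', add_sub_cancel_left]
      rw [mul_comm, ← smul_smul, ← h5, smul_smul, inv_mul_cancel₀ hζ', one_smul]
    set c := (ρ * (δ ^ k)⁻¹ - 1) * (ζ - 1)⁻¹ with hcd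
    have h6 : (c * c) • (1 : Mat) = c • 1 := by
      have h7 := hπ
      rw [h3, smul_mul_smul_comm, one_mul] at h7
      exact h7
    have hn : n ≠ 0 := by rintro rfl; exact hrn (dvd_zero _)
    have h8 : c * c = c := by
      have := congrFun (congrFun h6 ⟨0, Nat.pos_of_ne_zero hn⟩) ⟨0, Nat.pos_of_ne_zero hn⟩
      simpa using this
    rcases mul_eq_zero.1 (by linear_combination h8 : c * (c - 1) = 0) with h9 | h9
    · apply h0; rw [h3, h9, zero_smul]
    · apply h1
      rw [h3, show c = 1 by linear_combination h9, one_smul]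

theorem comm_aeval {A s : Mat} (h : A * s = s * A) (P : F[X]) : A * aeval s P = aeval s P * A :=
  commute_adjoin h _ (aeval_mem_adjoin_singleton F s)

/-- unitary trichotomy -/
theorem trichotomy (hσ2 : ∀ a, σ (σ a) = a) {s : Mat} (hs : st σ s * s = 1) {f : F[X]} (hf : Irreducible f) (hfs : f ∣ minpoly F s) :
    (∃ k, aeval s (f ^ k) = 0) ∨ (∃ π : Mat, π * π = π ∧ st σ π = π ∧ π ≠ 0 ∧ π ≠ 1 ∧ π * s = s * π) ∨
      ∃ (e : Mat) (k : ℕ), e * e = e ∧ e * s = s * e ∧ st σ e = 1 - e ∧ aeval s (f ^ k) * e = 0 := by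
  rcases dichotomy' s hf hfs with ⟨k, g, hg⟩ | ⟨P, k, h1, h2, h3, h4⟩
  · left
    exact ⟨k, by rw [hg, map_mul, minpoly.aeval, zero_mul]⟩
  right
  have hs' : s * st σ s = 1 := mul_eq_one_comm.mp hs
  set e := aeval s P with he
  have hes : e * s = s * e := (comm_aeval rfl P).symm
  have hste : st σ e = aeval (st σ s) (P.map (σ : F →+* F)) := by
    rw [aeval_st hσ2, Polynomial.map_map]
    have : ((σ : F →+* F).comp (σ : F →+* F)) = RingHom.id F := RingHom.ext fun a => hσ2 a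
    rw [this, Polynomial.map_id]
  have hsts : s * st σ e = st σ e * s := by
    rw [hste]; exact comm_aeval (by rw [hs, hs']) _
  have hee : st σ e * e = e * st σ e := comm_aeval (A := st σ e) (s := s) hsts.symm P
  have hst2 : st σ e * st σ e = st σ e := by rw [← st_mul, h1]
  have hstst : st σ (st σ e) = e := st_st hσ2 e
  by_cases ha : e * st σ e = 0
  · -- orthogonal
    by_cases hb : e + st σ e = 1
    · right
      exact ⟨e, k, h1, hes, by rw [← hb]; abel, h4⟩
    · left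
      refine ⟨e + st σ e, ?_, ?_, ?_, hb, ?_⟩
      · rw [add_mul, mul_add, mul_add, h1, hst2, ha, hee, ha, add_zero, zero_add]
      · rw [st_add, hstst, add_comm]
      · intro h0
        apply h2
        have : e * (e + st σ e) = e := by rw [mul_add, h1, ha, add_zero]
        rw [← this, h0, mul_zero]
      · rw [add_mul, mul_add, hes, hsts]
  · left
    refine ⟨e * st σ e, ?_, ?_, ha, ?_, ?_⟩
    · rw [mul_assoc, ← mul_assoc (st σ e) e, hee, mul_assoc e (st σ e) (st σ e), hst2, ← mul_assoc, h1]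
    · rw [st_mul, hstst]
    · intro h0
      apply h3
      have : e * (e * st σ e) = e * st σ e := by rw [← mul_assoc, h1]
      rw [h0, mul_one] at this
      exact this
    · rw [mul_assoc, ← hsts, ← mul_assoc, hes, mul_assoc]

end Uni

section SemiE
variable {F : Type*} [Field F] [Fintype F] {V : Type*} [AddCommGroup V] [Module F V] [Module.Finite F V]

open Classical in
theorem semiE [Nontrivial V] {T : Module.End F V} {f : F[X]} (hf : Irreducible f) (hT : aeval T f = 0) :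
    T ^ gs (Fintype.card F) (Module.finrank F V) = (LinearMap.det T) • (1 : Module.End F V) ∧
      (∀ M : ℕ, T ^ (M * (Fintype.card F - 1)) = 1 → ∃ c : F, T ^ M = c • 1) ∧ f.natDegree ∣ Module.finrank F V := by
  haveI : Fact (Irreducible f) := ⟨hf⟩
  haveI : Module.Finite F (AdjoinRoot f) := (AdjoinRoot.powerBasis hf.ne_zero).finite
  haveI : Finite (AdjoinRoot f) := Module.finite_of_finite F
  let φ : AdjoinRoot f →ₐ[F] Module.End F V := Ideal.Quotient.liftₐ (Ideal.span {f}) (aeval T) (by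
    intro a ha
    obtain ⟨b, rfl⟩ := Ideal.mem_span_singleton.1 ha
    rw [map_mul, hT, zero_mul])
  set α : AdjoinRoot f := AdjoinRoot.root f with hα
  have hφα : φ α = T := by
    show aeval T X = _
    rw [aeval_X]
  have hφi : Function.Injective φ := φ.toRingHom.injective
  have htp : ∀ j : ℕ, φ (α ^ j) = T ^ j := by
    intro j
    rw [map_pow, hφα]
  letI : Module (AdjoinRoot f) V := Module.compHom V (φ : AdjoinRoot f →+* Module.End F V)
  have hsm : ∀ (a : AdjoinRoot f) (v : V), a • v = φ a v := fun _ _ => rfl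
  haveI : IsScalarTower F (AdjoinRoot f) V := ⟨fun c a v => by rw [hsm, hsm, map_smul]; rfl⟩
  haveI : Module.Finite (AdjoinRoot f) V := Module.Finite.of_restrictScalars_finite F _ _
  let L : V →ₗ[AdjoinRoot f] V := α • LinearMap.id
  have hL : L.restrictScalars F = T := LinearMap.ext fun v => by
    show α • v = _
    rw [hsm, hφα]
  have hN : Algebra.norm F L.det = LinearMap.det T := by
    rw [← LinearMap.det_restrictScalars, hL]
  have hLd : L.det = α ^ Module.finrank (AdjoinRoot f) V := by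
    show LinearMap.det (α • LinearMap.id) = _
    rw [LinearMap.det_smul, LinearMap.det_id, mul_one]
  rw [hLd, map_pow] at hN
  set k := Module.finrank (AdjoinRoot f) V with hk
  set d := Module.finrank F (AdjoinRoot f) with hd
  have hdk : d * k = Module.finrank F V := by
    rw [hd, hk, Module.finrank_mul_finrank]
  set N := Algebra.norm F α with hNd
  have h1 : algebraMap F (AdjoinRoot f) N = α ^ gs (Fintype.card F) d := by
    rw [hNd, FiniteField.algebraMap_norm_eq_pow_sum, Nat.card_eq_fintype_card]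
    rfl
  have hq2 : 2 ≤ Fintype.card F := Fintype.one_lt_card
  have h2 : α ^ gs (Fintype.card F) (Module.finrank F V) = algebraMap F _ (LinearMap.det T) := by
    rw [← hdk, gs_mul hq2, pow_mul, ← h1, ← map_pow]
    have h3 : N ^ gs (Fintype.card F ^ d) k = N ^ k := by
      unfold gs
      rw [← Finset.prod_pow_eq_pow_sum]
      rw [Finset.prod_congr rfl (fun i _ => show N ^ (Fintype.card F ^ d) ^ i = N by rw [← pow_mul, FiniteField.pow_card_pow])]
      rw [Finset.prod_const, Finset.card_range]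
    rw [h3, hN]
  have hback : ∀ {j : ℕ} {c : F}, α ^ j = algebraMap F _ c → T ^ j = c • 1 := by
    intro j c h
    rw [← htp, h, AlgHom.commutes]
    rfl
  refine ⟨hback h2, fun M hM => ?_, by
    have : d = f.natDegree := by
      rw [hd, (AdjoinRoot.powerBasis hf.ne_zero).finrank, AdjoinRoot.powerBasis_dim]
    rw [← this, ← hdk]; exact Dvd.intro _ rfl⟩
  have h4 : α ^ (M * (Fintype.card F - 1)) = 1 := by
    apply hφi
    rw [htp, hM, map_one]
  have h5 : (α ^ M) ^ Fintype.card F = α ^ M := by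
    conv_lhs => rw [← Nat.sub_add_cancel (show 1 ≤ Fintype.card F by omega)]
    rw [pow_add, ← pow_mul, h4, one_mul, pow_one]
  obtain ⟨c, hc⟩ := fixed_mem h5
  exact ⟨c, hback hc.symm⟩

end SemiE

theorem gz_gs (q n : ℕ) : ((gs q n : ℕ) : ℤ) = gz (q : ℤ) n := by
  unfold gs gz; push_cast; rfl

theorem natAbs_pow {A : Type*} [Group A] {u : A} {z : ℤ} (h : u ^ z = 1) : u ^ z.natAbs = 1 := by
  rw [← orderOf_dvd_iff_pow_eq_one]
  exact Int.natCast_dvd.1 (orderOf_dvd_iff_zpow_eq_one.2 h)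

theorem arith {A : Type*} [CommGroup A] (u : A) {q d k : ℕ} (hq : 2 ≤ q) (hd : Odd d) (h1 : u ^ (q ^ d + 1) = 1)
    (h3 : u ^ gs (q ^ 2) (d * k) = 1) : u ^ Gn q (d * k) = 1 := by
  set x : ℤ := -(q : ℤ) with hx
  have hq' : (2 : ℤ) ≤ q := by exact_mod_cast hq
  set β := u ^ gz x d with hβ
  have hxd : x ^ d = -((q : ℤ) ^ d) := by rw [hx, hd.neg_pow]
  have hβ1 : ((orderOf β : ℕ) : ℤ) ∣ (q : ℤ) + 1 := by
    rw [orderOf_dvd_iff_zpow_eq_one, hβ, ← zpow_mul]
    have : gz x d * ((q : ℤ) + 1) = ((q ^ d + 1 : ℕ) : ℤ) := by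
      have := gz_mul_pred x d
      push_cast
      rw [hxd] at this
      have e : x - 1 = -((q : ℤ) + 1) := by rw [hx]; ring
      rw [e] at this
      linarith
    rw [this, zpow_natCast, h1]
  have hx1 : (q : ℤ) + 1 ∣ x - 1 := ⟨-1, by rw [hx]; ring⟩
  have hxj : ∀ j : ℕ, (q : ℤ) + 1 ∣ x ^ j - 1 := fun j => by
    have := sub_dvd_pow_sub_pow x 1 j
    rw [one_pow] at this
    exact hx1.trans this
  have hsq : gz (x ^ 2) d = gz x d * gz (q : ℤ) d := by
    have e1 := gz_mul_pred (x ^ 2) d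
    have e2 := gz_mul_pred x d
    have e3 := gz_mul_pred (q : ℤ) d
    have e4 : (x ^ 2) ^ d = (q : ℤ) ^ d * (q : ℤ) ^ d := by rw [hx]; ring
    have e5 : (x - 1) * ((q : ℤ) - 1) ≠ 0 := by
      apply mul_ne_zero
      · rw [hx]; intro h; linarith
      · intro h; linarith
    apply mul_right_cancel₀ e5
    have e6 : x ^ 2 - 1 = -((x - 1) * ((q : ℤ) - 1)) := by rw [hx]; ring
    rw [e6, e4] at e1
    rw [hxd] at e2
    calc gz (x ^ 2) d * ((x - 1) * ((q : ℤ) - 1)) = -((q : ℤ) ^ d * (q : ℤ) ^ d - 1) := by rw [← e1]; ring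
      _ = (-(q : ℤ) ^ d - 1) * ((q : ℤ) ^ d - 1) := by ring
      _ = (gz x d * (x - 1)) * (gz (q : ℤ) d * ((q : ℤ) - 1)) := by rw [e2, e3]
      _ = _ := by ring
  have hqd : (q : ℤ) + 1 ∣ gz (q : ℤ) d - 1 := by
    obtain ⟨e, rfl⟩ := hd
    have e1 : gz (q : ℤ) (2 * e + 1) - 1 = q * gz (q : ℤ) (2 * e) := by
      unfold gz
      rw [Finset.sum_range_succ', pow_zero, add_sub_cancel_right, Finset.mul_sum]
      exact Finset.sum_congr rfl fun i _ => by ring
    rw [e1, gz_mul (show (q : ℤ) ≠ 1 by omega) 2 e]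
    have e2 : gz (q : ℤ) 2 = (q : ℤ) + 1 := by
      unfold gz
      rw [Finset.sum_range_succ, Finset.sum_range_one]; ring
    rw [e2]
    exact ⟨q * gz ((q : ℤ) ^ 2) e, by ring⟩
  have hxne : x ≠ 1 := by rw [hx]; omega
  have hx2ne : x ^ 2 ≠ 1 := by
    intro h
    rw [hx, neg_sq] at h
    nlinarith
  have h3' : u ^ gz (x ^ 2) (d * k) = 1 := by
    have e1 : x ^ 2 = ((q ^ 2 : ℕ) : ℤ) := by rw [hx]; push_cast; ring
    rw [e1, ← gz_gs, zpow_natCast, h3]
  rw [gz_mul hx2ne, hsq] at h3'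
  set G := gz ((x ^ 2) ^ d) k with hG
  have h4 : β ^ (gz (q : ℤ) d * G) = 1 := by
    rw [hβ, ← zpow_mul, ← h3']
    congr 1; ring
  have h5 := orderOf_dvd_iff_zpow_eq_one.2 h4
  have h6 : (q : ℤ) + 1 ∣ G - k := by
    rw [hG, ← pow_mul]
    exact gz_mod (hxj _) k
  have h7 : ((orderOf β : ℕ) : ℤ) ∣ (k : ℤ) := by
    have e1 : (k : ℤ) = gz (q : ℤ) d * G - (gz (q : ℤ) d - 1) * G - (G - k) := by ring
    rw [e1]
    exact dvd_sub (dvd_sub h5 ((hβ1.trans hqd).mul_right _)) (hβ1.trans h6)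
  apply natAbs_pow
  rw [gz_mul hxne, zpow_mul, ← hβ, ← orderOf_dvd_iff_zpow_eq_one]
  have e2 : gz (x ^ d) k = (gz (x ^ d) k - k) + k := by ring
  rw [e2]
  exact dvd_add (hβ1.trans (gz_mod (hxj d) k)) h7

section CaseA
variable {F : Type*} [Field F] [Fintype F] {n : ℕ} {σ : F ≃+* F} {q : ℕ}

local notation "Mat" => Matrix (Fin n) (Fin n) F

open Classical in
/-- the self-dual irreducible case -/
theorem caseA (hF : Fintype.card F = q ^ 2) (hσ : orderOf σ = 2) (hσ2 : ∀ a, σ (σ a) = a) (hq : ∀ a, σ a = a ^ q) (hn : n ≠ 0)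
    {t : Mat} (hst : st σ t * t = 1) (hdet : t.det = 1) {f : F[X]} (hf : Irreducible f) (hft : aeval t f = 0) :
    t ^ Gn q n = 1 := by
  haveI : Nonempty (Fin n) := ⟨⟨0, Nat.pos_of_ne_zero hn⟩⟩
  haveI : Fact (Irreducible f) := ⟨hf⟩
  haveI : Module.Finite F (AdjoinRoot f) := (AdjoinRoot.powerBasis hf.ne_zero).finite
  haveI : Finite (AdjoinRoot f) := Module.finite_of_finite F
  letI : Fintype (AdjoinRoot f) := Fintype.ofFinite _
  let φ : AdjoinRoot f →ₐ[F] Mat := Ideal.Quotient.liftₐ (Ideal.span {f}) (aeval t) (by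
    intro a ha
    obtain ⟨b, rfl⟩ := Ideal.mem_span_singleton.1 ha
    rw [map_mul, hft, zero_mul])
  set α : AdjoinRoot f := AdjoinRoot.root f with hα
  have hφα : φ α = t := by
    show aeval t X = _
    rw [aeval_X]
  have hφi : Function.Injective φ := φ.toRingHom.injective
  have hα0 : α ≠ 0 := by
    intro h
    rw [h, map_zero] at hφα
    rw [← hφα, mul_zero] at hst
    exact zero_ne_one hst
  have hφi' : φ α⁻¹ = st σ t := by
    have h1 : φ α⁻¹ * t = 1 := by rw [← hφα, ← map_mul, inv_mul_cancel₀ hα0, map_one]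
    have h2 : t * st σ t = 1 := mul_eq_one_comm.mp hst
    calc φ α⁻¹ = φ α⁻¹ * (t * st σ t) := by rw [h2, mul_one]
      _ = st σ t := by rw [← mul_assoc, h1, one_mul]
  have hev : aeval α⁻¹ (f.map (σ : F →+* F)) = 0 := by
    apply hφi
    rw [map_zero, ← aeval_algHom_apply, hφi', aeval_st hσ2, Polynomial.map_map]
    have : ((σ : F →+* F).comp (σ : F →+* F)) = RingHom.id F := RingHom.ext fun a => hσ2 a
    rw [this, Polynomial.map_id, hft, st_zero]
  let τ : AdjoinRoot f →+* AdjoinRoot f := AdjoinRoot.lift ((algebraMap F (AdjoinRoot f)).comp (σ : F →+* F)) α⁻¹ (by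
    rw [← Polynomial.eval₂_map]
    exact hev)
  have hτα : τ α = α⁻¹ := AdjoinRoot.lift_root _
  have hτc : ∀ c : F, τ (algebraMap F _ c) = algebraMap F _ (σ c) := fun c => AdjoinRoot.lift_of _
  have hττ : ∀ x, τ (τ x) = x := by
    intro x
    have : τ.comp τ = RingHom.id _ := AdjoinRoot.ringHom_ext (RingHom.ext fun c => by
      show τ (τ (algebraMap F _ c)) = algebraMap F _ c
      rw [hτc, hτc, hσ2]) (by
      show τ (τ α) = α
      rw [hτα, map_inv₀, hτα, inv_inv])
    exact congrArg (fun g : AdjoinRoot f →+* AdjoinRoot f => g x) this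
  let τe : AdjoinRoot f ≃+* AdjoinRoot f := { τ with
    invFun := τ
    left_inv := hττ
    right_inv := hττ }
  have hτe : ∀ x, τe x = τ x := fun _ => rfl
  obtain ⟨-, ⟨a0, ha0⟩, -⟩ := sigma_facts hσ
  have hτ2 : orderOf τe = 2 := by
    apply orderOf_eq_prime
    · rw [pow_two]
      exact RingEquiv.ext hττ
    · intro h
      have h1 : τe (algebraMap F _ a0) = algebraMap F _ a0 := by rw [h]; rfl
      rw [hτe, hτc] at h1
      exact ha0 ((algebraMap F (AdjoinRoot f)).injective h1)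
  set d := f.natDegree with hd
  have hfr : Module.finrank F (AdjoinRoot f) = d := by
    rw [(AdjoinRoot.powerBasis hf.ne_zero).finrank, AdjoinRoot.powerBasis_dim]
  have hK := Cfsg.Agent.Lib.FinGal.card_fixF τe
  have hKd : Nat.card (AdjoinRoot f) = (q ^ d) ^ 2 := by
    rw [Module.natCard_eq_pow_finrank (K := F), hfr, Nat.card_eq_fintype_card, hF]; ring
  have hfix : Nat.card (Cfsg.Agent.Lib.FinGal.fixF τe) = q ^ d := by
    rw [hKd, hτ2] at hK
    exact (Nat.pow_left_injective (n := 2) (by norm_num) hK).symm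
  have hpow : ∀ x, τ x = x ^ q ^ d := fun x => by
    rw [← hτe, Cfsg.Agent.Lib.AutPSL.sigma_eq_pow hτ2, hfix]
  have hdodd : Odd d := by
    rw [← Nat.not_even_iff_odd]
    rintro ⟨e, he⟩
    apply ha0
    apply (algebraMap F (AdjoinRoot f)).injective
    rw [← hτc, hpow, he, ← two_mul, pow_mul, ← hF, ← map_pow, FiniteField.pow_card_pow]
  have hq2 : 2 ≤ q := one_lt_q hF
  have hT : aeval (Matrix.toLin' t) f = 0 := by
    have h1 : Matrix.toLin' t = Matrix.toLinAlgEquiv' t := rfl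
    rw [h1, aeval_algHom_apply, hft, map_zero]
  obtain ⟨e1, -, e3⟩ := semiE hf hT
  rw [Module.finrank_fin_fun] at e1 e3
  obtain ⟨k, hk⟩ := e3
  rw [LinearMap.det_toLin', hdet, one_smul, hF] at e1
  have e1' : t ^ gs (q ^ 2) n = 1 := by
    apply Matrix.toLin'.injective
    rw [Matrix.toLin'_one]
    have := (map_pow (Matrix.toLinAlgEquiv' (R := F) (n := Fin n)) t (gs (q ^ 2) n))
    exact this.trans e1
  have hαp : α ^ gs (q ^ 2) n = 1 := by
    apply hφi
    rw [map_pow, hφα, e1', map_one]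
  let u := Units.mk0 α hα0
  have hu1 : u ^ (q ^ d + 1) = 1 := by
    apply Units.ext
    show α ^ (q ^ d + 1) = 1
    rw [pow_succ, ← hpow, hτα, inv_mul_cancel₀ hα0]
  have hu2 : u ^ gs (q ^ 2) (d * k) = 1 := by
    apply Units.ext
    show α ^ gs (q ^ 2) (d * k) = 1
    rw [← hk]; exact hαp
  have hu3 := arith u hq2 hdodd hu1 hu2
  have hu4 : α ^ Gn q n = 1 := by
    rw [hk]; exact congrArg Units.val hu3
  rw [← hφα, ← map_pow, hu4, map_one]

theorem Gn_gs {q m : ℕ} (hq : 2 ≤ q) : gs (q ^ 2) m * (q - 1) = Gn q (2 * m) := by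
  have h1 := Gn_even (q := q) (n := 2 * m) (by omega) (even_two_mul m)
  have h2 := gs_pred (q := q ^ 2) (Nat.one_le_pow _ _ (by omega)) m
  rw [← pow_mul, ← h1] at h2
  have h3 : q ^ 2 - 1 = (q - 1) * (q + 1) := by
    have := Nat.sq_sub_sq q 1
    rw [one_pow] at this
    rw [this, mul_comm]
  rw [h3, ← mul_assoc] at h2
  exact Nat.eq_of_mul_eq_mul_right (by omega) (Nat.add_right_cancel h2)

open Classical in
/-- the case of two dual irreducible factors -/
theorem caseB (hF : Fintype.card F = q ^ 2) (hσ : orderOf σ = 2) (hσ2 : ∀ a, σ (σ a) = a) (hq : ∀ a, σ a = a ^ q) (hn : n ≠ 0)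
    {t e : Mat} (hst : st σ t * t = 1) (hdet : t.det = 1) (hee : e * e = e) (het : e * t = t * e) (hse : st σ e = 1 - e)
    {f : F[X]} (hf : Irreducible f) (hft : aeval t f * e = 0) :
    t ^ Gn q n = 1 ∧ ∀ M g, M * g = Gn q n → g ∣ q + 1 → ∃ c : F, t ^ M = c • 1 := by
  have hq2 : 2 ≤ q := one_lt_q hF
  haveI : Nonempty (Fin n) := ⟨⟨0, Nat.pos_of_ne_zero hn⟩⟩
  set W : Submodule F (Fin n → F) := LinearMap.range (Matrix.toLin' e) with hWd
  have hW : ∀ x, x ∈ W ↔ e.mulVec x = x := by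
    intro x
    constructor
    · rintro ⟨y, rfl⟩
      rw [Matrix.toLin'_apply, Matrix.mulVec_mulVec, hee]
    · intro h
      exact ⟨x, by rw [Matrix.toLin'_apply, h]⟩
  have hTW : ∀ x ∈ W, Matrix.toLin' t x ∈ W := by
    intro x hx
    rw [hW] at hx ⊢
    rw [Matrix.toLin'_apply, Matrix.mulVec_mulVec, het, ← Matrix.mulVec_mulVec, hx]
  let T1 : Module.End F W := (Matrix.toLin' t).restrict hTW
  have hT1 : ∀ x : W, ((T1 x : W) : Fin n → F) = t.mulVec x := fun x => rfl
  have hT1k : ∀ (k : ℕ) (x : W), (((T1 ^ k) x : W) : Fin n → F) = (t ^ k).mulVec x := by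
    intro k
    induction k with
    | zero => intro x; rw [pow_zero, pow_zero, Matrix.one_mulVec]; rfl
    | succ k ih => intro x; rw [pow_succ, pow_succ, Module.End.mul_apply, ih, hT1, Matrix.mulVec_mulVec]
  have hT1P : ∀ (P : F[X]) (x : W), (((aeval T1 P) x : W) : Fin n → F) = (aeval t P).mulVec x := by
    intro P x
    induction P using Polynomial.induction_on' with
    | add a b ha hb => rw [map_add, map_add, LinearMap.add_apply, Submodule.coe_add, ha, hb, Matrix.add_mulVec]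
    | monomial k a =>
      rw [aeval_monomial, aeval_monomial, Module.End.mul_apply, ← Matrix.mulVec_mulVec, ← hT1k]
      rw [Module.algebraMap_end_apply, Submodule.coe_smul, Algebra.algebraMap_eq_smul_one, Matrix.smul_mulVec, Matrix.one_mulVec]
  have hT1f : aeval T1 f = 0 := by
    apply LinearMap.ext
    intro x
    apply Subtype.ext
    rw [hT1P]
    have hx := (hW x.1).1 x.2
    rw [← hx, Matrix.mulVec_mulVec, hft, Matrix.zero_mulVec]
    rfl
  -- transfer
  have tr : ∀ {k : ℕ} {c : F}, T1 ^ k = c • 1 → t ^ k * e = c • e := by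
    intro k c h
    apply Matrix.toLin'.injective
    apply LinearMap.ext
    intro v
    have h1 := congrArg (fun g : Module.End F W => ((g ⟨e.mulVec v, (hW _).2 (by rw [Matrix.mulVec_mulVec, hee])⟩ : W) : Fin n → F)) h
    have h2 : (t ^ k).mulVec (e.mulVec v) = c • e.mulVec v := by
      rw [← hT1k k ⟨e.mulVec v, (hW _).2 (by rw [Matrix.mulVec_mulVec, hee])⟩]
      exact h1
    rw [Matrix.toLin'_apply, Matrix.toLin'_apply, ← Matrix.mulVec_mulVec, h2, Matrix.smul_mulVec]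
  have hst' : t * st σ t = 1 := mul_eq_one_comm.mp hst
  have hstk : ∀ k, (st σ t) ^ k * t ^ k = 1 := by
    intro k
    rw [← (Commute.mul_pow (show Commute (st σ t) t by show st σ t * t = t * st σ t; rw [hst, hst'])), hst, one_pow]
  -- dual part
  have du : ∀ {k : ℕ} {c : F}, t ^ k * e = c • e → (1 - e) = σ c • ((1 - e) * t ^ k) := by
    intro k c h
    have h1 := congrArg (st σ) h
    rw [st_mul, st_pow, st_smul, hse] at h1
    calc (1 - e) = (1 - e) * ((st σ t) ^ k * t ^ k) := by rw [hstk, mul_one]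
      _ = ((1 - e) * (st σ t) ^ k) * t ^ k := by rw [mul_assoc]
      _ = σ c • ((1 - e) * t ^ k) := by rw [h1, smul_mul_assoc]
  -- dimension
  have hrk : e.rank = (1 - e).rank := by rw [← hse, rank_st]
  have hnm : n = 2 * Module.finrank F W := by
    have h1 : LinearMap.ker (Matrix.toLin' e) = LinearMap.range (Matrix.toLin' (1 - e)) := by
      ext x
      rw [LinearMap.mem_ker, Matrix.toLin'_apply]
      constructor
      · intro h
        refine ⟨x, ?_⟩
        rw [Matrix.toLin'_apply, Matrix.sub_mulVec, Matrix.one_mulVec, h, sub_zero]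
      · rintro ⟨y, rfl⟩
        rw [Matrix.toLin'_apply, Matrix.mulVec_mulVec, mul_sub, mul_one, hee, sub_self, Matrix.zero_mulVec]
    have h2 := LinearMap.finrank_range_add_finrank_ker (Matrix.toLin' e)
    rw [h1, Module.finrank_fin_fun] at h2
    have h3 : Module.finrank F (LinearMap.range (Matrix.toLin' (1 - e))) = Module.finrank F W := by
      have e1 : (1 - e).rank = Module.finrank F (LinearMap.range (Matrix.toLin' (1 - e))) := rfl
      have e2 : e.rank = Module.finrank F W := rfl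
      rw [← e1, ← e2, hrk]
    have h4 : Module.finrank F W + Module.finrank F (LinearMap.range (Matrix.toLin' (1 - e))) = n := h2
    rw [h3] at h4
    omega
  set m := Module.finrank F W with hm
  have hm0 : 0 < m := by omega
  haveI : Nontrivial W := Module.finrank_pos_iff.1 hm0
  obtain ⟨s1, s2, -⟩ := semiE hf hT1f
  rw [← hm, hF] at s1
  set δ := LinearMap.det T1 with hδ
  -- determinant
  have hδd : (t * e + (1 - e)).det = δ := by
    have he : W ≤ W.comap (Matrix.toLin' (t * e + (1 - e))) := by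
      intro x hx
      rw [Submodule.mem_comap]
      have hx' := (hW x).1 hx
      have : Matrix.toLin' (t * e + (1 - e)) x = Matrix.toLin' t x := by
        rw [Matrix.toLin'_apply, Matrix.toLin'_apply, Matrix.add_mulVec, ← Matrix.mulVec_mulVec, Matrix.sub_mulVec, Matrix.one_mulVec, hx', sub_self, add_zero]
      rw [this]; exact hTW x hx
    have h1 := LinearMap.det_eq_det_mul_det W (Matrix.toLin' (t * e + (1 - e))) he
    have h2 : (Matrix.toLin' (t * e + (1 - e))).restrict he = T1 := by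
      apply LinearMap.ext
      intro x
      apply Subtype.ext
      have hx' := (hW x).1 x.2
      show (Matrix.toLin' (t * e + (1 - e))) x.1 = t.mulVec x.1
      rw [Matrix.toLin'_apply, Matrix.add_mulVec, ← Matrix.mulVec_mulVec, Matrix.sub_mulVec, Matrix.one_mulVec, hx', sub_self, add_zero]
    have h3 : W.mapQ W (Matrix.toLin' (t * e + (1 - e))) he = LinearMap.id := by
      apply Submodule.linearMap_qext
      apply LinearMap.ext
      intro v
      rw [LinearMap.comp_apply, Submodule.mkQ_apply, Submodule.mapQ_apply, LinearMap.comp_apply, Submodule.mkQ_apply, LinearMap.id_apply, Submodule.Quotient.eq]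
      rw [hW, Matrix.toLin'_apply, Matrix.add_mulVec, ← Matrix.mulVec_mulVec, Matrix.sub_mulVec, Matrix.one_mulVec]
      have e1 : t.mulVec (e.mulVec v) + (v - e.mulVec v) - v = t.mulVec (e.mulVec v) - e.mulVec v := by abel
      rw [e1, Matrix.mulVec_sub, Matrix.mulVec_mulVec, Matrix.mulVec_mulVec, Matrix.mulVec_mulVec, het, mul_assoc t e e, hee, ← Matrix.mulVec_mulVec]
    rw [h2, h3, LinearMap.det_id, mul_one, LinearMap.det_toLin'] at h1
    exact h1
  have hes : e * st σ t = st σ t * e := by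
    calc e * st σ t = (st σ t * t) * (e * st σ t) := by rw [hst, one_mul]
      _ = st σ t * (t * e) * st σ t := by simp only [mul_assoc]
      _ = st σ t * e * (t * st σ t) := by rw [← het]; simp only [mul_assoc]
      _ = _ := by rw [hst', mul_one]
  have h1e : e * (1 - e) = 0 := by rw [mul_sub, mul_one, hee, sub_self]
  have h1e' : (1 - e) * e = 0 := by rw [sub_mul, one_mul, hee, sub_self]
  have h1ee : (1 - e) * (1 - e) = 1 - e := by rw [mul_sub, mul_one, h1e', sub_zero]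
  have p1 : (t * e + (1 - e)) * (e + (1 - e) * t) = t := by
    calc (t * e + (1 - e)) * (e + (1 - e) * t) = t * (e * e) + t * (e * (1 - e)) * t + (1 - e) * e + (1 - e) * (1 - e) * t := by
          rw [add_mul, mul_add, mul_add]; simp only [mul_assoc, add_assoc]
      _ = t * e + (1 - e) * t := by rw [hee, h1e, h1e', h1ee, mul_zero, zero_mul, add_zero, add_zero]
      _ = t := by rw [sub_mul, one_mul, het]; abel
  have p2 : st σ (t * e + (1 - e)) * (e + (1 - e) * t) = 1 := by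
    have e1 : st σ (t * e + (1 - e)) = (1 - e) * st σ t + e := by
      rw [st_add, st_mul, st_sub, st_one, hse]; abel
    rw [e1]
    calc ((1 - e) * st σ t + e) * (e + (1 - e) * t)
        = (1 - e) * (st σ t * e) + (1 - e) * (st σ t * (1 - e)) * t + e * e + e * (1 - e) * t := by
          rw [add_mul, mul_add, mul_add]; simp only [mul_assoc, add_assoc]
      _ = (1 - e) * (e * st σ t) + (1 - e) * ((1 - e) * st σ t) * t + e * e + e * (1 - e) * t := by
          have : st σ t * (1 - e) = (1 - e) * st σ t := by rw [mul_sub, sub_mul, mul_one, one_mul, hes]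
          rw [← hes, this]
      _ = (1 - e) * (1 - e) * (st σ t * t) + e := by
          rw [← mul_assoc, h1e', zero_mul, zero_add, hee, h1e, zero_mul, add_zero]; simp only [mul_assoc]
      _ = 1 := by rw [h1ee, hst, mul_one]; abel
  have hδσ : σ δ = δ := by
    have d1 := congrArg Matrix.det p1
    have d2 := congrArg Matrix.det p2
    rw [Matrix.det_mul, hδd, hdet] at d1
    have d3 : (st σ (t * e + (1 - e))).det = σ (t * e + (1 - e)).det := by
      unfold st
      rw [Matrix.det_transpose]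
      exact (RingHom.map_det (σ : F →+* F) _).symm
    rw [Matrix.det_mul, d3, hδd, Matrix.det_one] at d2
    have d4 : (e + (1 - e) * t).det ≠ 0 := right_ne_zero_of_mul_eq_one d1
    exact mul_right_cancel₀ d4 (by rw [d1, d2])
  have hδ0 : δ ≠ 0 := by
    intro h0
    have d1 := congrArg Matrix.det p1
    rw [Matrix.det_mul, hδd, hdet, h0, zero_mul] at d1
    exact zero_ne_one d1
  have hδ1 : δ ^ (q - 1) = 1 := by
    rw [hq] at hδσ
    have : δ ^ (q - 1) * δ = 1 * δ := by rw [← pow_succ, Nat.sub_add_cancel (by omega), hδσ, one_mul]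
    exact mul_right_cancel₀ hδ0 this
  have hT1G : T1 ^ Gn q n = 1 := by
    have hG : Gn q n = gs (q ^ 2) m * (q - 1) := (congrArg (Gn q) hnm).trans (Gn_gs hq2).symm
    rw [hG, pow_mul, s1, _root_.smul_pow, hδ1, one_pow, one_smul]
  have fin : ∀ {k : ℕ} {c : F}, T1 ^ k = c • 1 → σ c * c = 1 → t ^ k = c • 1 := by
    intro k c h hc
    have h1 := tr h
    have h2 := du h1
    have h3 : (1 - e) * t ^ k = c • (1 - e) := by
      conv_rhs => rw [h2]
      rw [smul_smul, mul_comm, hc, one_smul]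
    have h4 : e * t ^ k = t ^ k * e := (Commute.pow_right (show Commute e t from het) k)
    calc t ^ k = e * t ^ k + (1 - e) * t ^ k := by rw [sub_mul, one_mul]; abel
      _ = c • e + c • (1 - e) := by rw [h4, h1, h3]
      _ = c • 1 := by rw [← smul_add]; congr 1; abel
  refine ⟨?_, fun M g hMg hg => ?_⟩
  · have := fin (c := 1) (by rw [hT1G, one_smul]) (by rw [map_one, one_mul])
    rwa [one_smul] at this
  · obtain ⟨b, hb⟩ := hg
    obtain ⟨c, hc⟩ := s2 M (by
      have : M * (Fintype.card F - 1) = Gn q n * (b * (q - 1)) := by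
        rw [hF, ← hMg]
        have h3 : q ^ 2 - 1 = (q + 1) * (q - 1) := by
          have := Nat.sq_sub_sq q 1
          rwa [one_pow] at this
        rw [h3, hb]; ring
      rw [this, pow_mul, hT1G, one_pow])
    refine ⟨c, fin hc ?_⟩
    have h1 : c ^ g = 1 := by
      have h2 : T1 ^ (M * g) = (c ^ g) • 1 := by rw [pow_mul, hc, _root_.smul_pow, one_pow]
      rw [hMg, hT1G] at h2
      obtain ⟨w, hw⟩ := exists_ne (0 : W)
      have h3 := congrArg (fun g : Module.End F W => g w) h2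
      have h4 : w = (c ^ g) • w := h3
      by_contra hne
      have h5 : (c ^ g - 1) • w = 0 := (_root_.sub_smul (c ^ g) 1 w).trans (by rw [one_smul, ← h4, sub_self])
      rcases smul_eq_zero.1 h5 with h6 | h6
      · exact hne (sub_eq_zero.1 h6)
      · exact hw h6
    rw [hq, ← pow_succ, hb, pow_mul, h1, one_pow]

end CaseA

theorem pp_split {G : Type*} [Group G] [Finite G] {x : G} {p N M : ℕ} (hp : p.Prime) (h : x ^ (p ^ N * M) = 1) :
    ∃ e, orderOf x ∣ Nat.lcm (p ^ e) M ∧ ∃ z : G, orderOf z = p ^ e := by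
  obtain ⟨e, m, hpm, hm⟩ := Nat.exists_eq_pow_mul_and_not_dvd (n := orderOf x) (orderOf_pos _).ne' p hp.ne_one
  refine ⟨e, ?_, x ^ m, ?_⟩
  · have h5 := orderOf_dvd_of_pow_eq_one h
    rw [hm] at h5 ⊢
    have h6 : Nat.Coprime m (p ^ N) := Nat.Coprime.pow_right _ ((Nat.Prime.coprime_iff_not_dvd hp).2 hpm).symm
    have h7 : m ∣ M := h6.dvd_of_dvd_mul_left ((Dvd.intro_left _ rfl).trans h5)
    have h8 : Nat.Coprime (p ^ e) m := Nat.Coprime.pow_left _ ((Nat.Prime.coprime_iff_not_dvd hp).2 hpm)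
    exact h8.mul_dvd_of_dvd_of_dvd (Nat.dvd_lcm_left _ _) (h7.trans (Nat.dvd_lcm_right _ _))
  · have hm0 : m ≠ 0 := by rintro rfl; exact hpm (dvd_zero _)
    rw [orderOf_pow_of_dvd hm0 (by rw [hm]; exact Dvd.intro_left _ rfl), hm, Nat.mul_div_cancel _ (Nat.pos_of_ne_zero hm0)]

section MainU
variable {F : Type*} [Field F] [Fintype F] {n : ℕ} {σ : F ≃+* F} {q : ℕ}

local notation "Mat" => Matrix (Fin n) (Fin n) F

theorem hU_order {s h : Cfsg.SU n F q} (hc : h * s = s * h) {r : ℕ} (hr : r.Prime) (h1 : (h : Cfsg.PSU n F q) ^ r = 1)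
    (h2 : (h : Cfsg.PSU n F q) ≠ 1) (hs : ¬ r ∣ orderOf (s : Cfsg.PSU n F q)) :
    orderOf ((h * s : Cfsg.SU n F q) : Cfsg.PSU n F q) = r * orderOf (s : Cfsg.PSU n F q) := by
  haveI : Fact r.Prime := ⟨hr⟩
  have h3 : orderOf (h : Cfsg.PSU n F q) = r := orderOf_eq_prime h1 h2
  have h4 : Commute (h : Cfsg.PSU n F q) (s : Cfsg.PSU n F q) := by
    show (h : Cfsg.PSU n F q) * (s : Cfsg.PSU n F q) = (s : Cfsg.PSU n F q) * (h : Cfsg.PSU n F q)
    rw [← QuotientGroup.mk_mul, ← QuotientGroup.mk_mul, hc]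
  rw [QuotientGroup.mk_mul, h4.orderOf_mul_eq_mul_orderOf_of_coprime, h3]
  rw [h3]
  exact (Nat.Prime.coprime_iff_not_dvd hr).2 hs

theorem st_mul_pow (hσ2 : ∀ a, σ (σ a) = a) {s : Mat} (hs : st σ s * s = 1) (k : ℕ) : st σ (s ^ k) * s ^ k = 1 := by
  rw [st_pow, ← (Commute.mul_pow (show Commute (st σ s) s by show st σ s * s = s * st σ s; rw [hs, mul_eq_one_comm.mp hs])), hs, one_pow]

theorem sq_sub (q : ℕ) : q ^ 2 - 1 = (q + 1) * (q - 1) := by
  have := Nat.sq_sub_sq q 1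
  rwa [one_pow] at this

theorem mainU {p a : ℕ} (hqp : q = p ^ a) (hp : p.Prime) (hF : Fintype.card F = q ^ 2) (hσ : orderOf σ = 2) (hσ2 : ∀ a, σ (σ a) = a)
    (hq : ∀ a, σ a = a ^ q) (hn2 : 2 ≤ n) {r : ℕ} (hr : r.Prime) (hrq : r ∣ q + 1) (hrn : ¬ r ∣ n) (x : Cfsg.PSU n F q) (hx : ¬ r ∣ orderOf x) :
    (∃ y : Cfsg.PSU n F q, r * orderOf x ∣ orderOf y) ∨
      (∃ e, orderOf x ∣ Nat.lcm (p ^ e) (MU q n) ∧ ∃ z : Cfsg.PSU n F q, orderOf z = p ^ e) := by
  have hn : n ≠ 0 := by omega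
  have hq2 : 2 ≤ q := one_lt_q hF
  haveI : Nonempty (Fin n) := ⟨⟨0, Nat.pos_of_ne_zero hn⟩⟩
  obtain ⟨s, rfl⟩ := QuotientGroup.mk_surjective x
  have hss : st σ s.1.1 * s.1.1 = 1 := (su_iff_st hσ2 hq s.1).1 s.2
  obtain ⟨f, hf, hfs⟩ := WfDvdMonoid.exists_irreducible_factor (minpoly.not_isUnit F s.1.1) (minpoly.ne_zero (Matrix.isIntegral s.1.1))
  have hQ : 1 < Fintype.card F := Fintype.one_lt_card
  -- reduction
  have red : ∀ k : ℕ, (∃ c : F, (s.1.1 ^ (Fintype.card F ^ k)) ^ MU q n = c • (1 : Mat)) →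
      ∃ e, orderOf (s : Cfsg.PSU n F q) ∣ Nat.lcm (p ^ e) (MU q n) ∧ ∃ z : Cfsg.PSU n F q, orderOf z = p ^ e := by
    rintro k ⟨c, hc⟩
    refine pp_split (N := a * 2 * k) hp ?_
    rw [pmk_pow]
    refine (pmk_one_iff hσ hσ2 hq hn2 _).2 ⟨c, ?_⟩
    show s.1.1 ^ (p ^ (a * 2 * k) * MU q n) = c • (1 : Mat)
    have hpq : p ^ (a * 2 * k) = Fintype.card F ^ k := by rw [hF, hqp, ← pow_mul, ← pow_mul, mul_assoc]
    rw [hpq, pow_mul]; exact hc
  have hMU : ∃ b, MU q n * (Fintype.card F - 1) = Gn q n * b := by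
    obtain ⟨b, hb⟩ := Nat.gcd_dvd_right n (q + 1)
    refine ⟨b * (q - 1), ?_⟩
    rw [hF, sq_sub, ← MU_mul]
    nth_rewrite 1 [hb]; ring
  rcases trichotomy hσ2 hss hf hfs with ⟨k, hk⟩ | ⟨π, h1, h2, h3, h4, h5⟩ | ⟨e, k, h1, h2, h3, h4⟩
  · right
    have hkJ : k ≤ Fintype.card F ^ k := (Nat.lt_pow_self hQ).le
    have ht := frob_kill hk hkJ
    have htd : (s.1.1 ^ (Fintype.card F ^ k)).det = 1 := by rw [Matrix.det_pow, s.1.2, one_pow]
    have e1 := caseA hF hσ hσ2 hq hn (st_mul_pow hσ2 hss _) htd hf ht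
    obtain ⟨-, e2⟩ := semi hf ht htd
    apply red k
    apply e2
    obtain ⟨b, hb⟩ := hMU
    rw [hb, pow_mul, e1, one_pow]
  · left
    obtain ⟨ζ, hζ, hζ1⟩ := exists_zeta (F := F) hr (by rw [hF, sq_sub]; exact hrq.mul_right _)
    obtain ⟨h, hh1, hh2, hh3⟩ := exists_hU hσ hσ2 hq hn2 (s := s) h1 h2 h3 h4 h5 hr hrq hζ hζ1 hrn
    exact ⟨((h * s : Cfsg.SU n F q) : Cfsg.PSU n F q), (hU_order hh1 hr hh2 hh3 hx).symm.dvd⟩
  · right
    have hkJ : k ≤ Fintype.card F ^ k := (Nat.lt_pow_self hQ).le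
    have ht : aeval (s.1.1 ^ (Fintype.card F ^ k)) f * e = 0 := by
      rw [← expand_aeval, expand_card_pow]
      have := Nat.sub_add_cancel hkJ
      rw [← this, pow_add, map_mul, mul_assoc, h4, mul_zero]
    have htd : (s.1.1 ^ (Fintype.card F ^ k)).det = 1 := by rw [Matrix.det_pow, s.1.2, one_pow]
    obtain ⟨e1, e2⟩ := caseB hF hσ hσ2 hq hn (st_mul_pow hσ2 hss _) htd h1 (Commute.pow_right (show Commute e s.1.1 from h2) _) h3 hf ht
    exact red k (e2 _ _ (MU_mul q n) (Nat.gcd_dvd_right _ _))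

end MainU

end Cfsg.Agent.H8.SpecSU
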