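import Mathlib
import Cfsg.Agent.H8.SpecSU
import Cfsg.Agent.Lib.Symp3
import Cfsg.Agent.Lib.RCF2

set_option autoImplicit false
set_option linter.all false

/-! Spectra of direct powers of `PSp_2n(q)`. -/

namespace Cfsg.Agent.H8.SpecSP

open Polynomial
open Cfsg.Agent.H8.SpecAbs Cfsg.Agent.H8.SpecSL

section Gen
variable {F : Type*} [Field F] {A : Type*} [Ring A] [Algebra F A] [Module.Finite F A]

/-- refined dichotomy, general algebra -/
theorem dichG (s : A) {f : F[X]} (hf : Irreducible f) (hfs : f ∣ minpoly F s) :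
    (∃ k, aeval s (f ^ k) = 0) ∨ ∃ (P : F[X]) (k : ℕ), aeval s P * aeval s P = aeval s P ∧ aeval s P ≠ 0 ∧ aeval s P ≠ 1 ∧
      aeval s (f ^ k) * aeval s P = 0 := by
  have h0 : minpoly F s ≠ 0 := minpoly.ne_zero (Algebra.IsIntegral.isIntegral s)
  obtain ⟨g, hg, hgf⟩ := (FiniteMultiplicity.of_not_isUnit hf.not_isUnit h0).exists_eq_pow_mul_and_not_dvd
  set k := multiplicity f (minpoly F s) with hk
  have hk0 : k ≠ 0 := by
    intro h
    rw [h, pow_zero, one_mul] at hg
    rw [hg] at hfs
    exact hgf hfs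
  by_cases hgu : IsUnit g
  · left
    refine ⟨k, ?_⟩
    have : minpoly F s ∣ f ^ k := by
      rw [hg]
      exact (hgu.mul_right_dvd).2 dvd_rfl
    obtain ⟨c, hc⟩ := this
    rw [hc, map_mul, minpoly.aeval, zero_mul]
  · right
    have hco : IsCoprime (f ^ k) g := (IsCoprime.pow_left ((hf.coprime_iff_not_dvd).2 hgf))
    obtain ⟨a, b, hab⟩ := hco
    have hμ : aeval s (f ^ k * g) = 0 := by rw [← hg]; exact minpoly.aeval F s
    refine ⟨b * g, k, ?_, ?_, ?_, ?_⟩
    · rw [← map_mul]
      have : b * g * (b * g) = b * g - a * b * (f ^ k * g) := by linear_combination (b * g) * hab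
      rw [this, map_sub, map_mul _ (a * b), hμ, mul_zero, sub_zero]
    · intro h
      have h1 : f ^ k ∣ b * g := (Dvd.intro _ hg.symm).trans (minpoly.dvd F s h)
      have h3 : f ^ k ∣ 1 := by rw [← hab]; exact dvd_add (Dvd.intro_left _ rfl) h1
      exact hf.not_isUnit (isUnit_of_dvd_one ((dvd_pow_self f hk0).trans h3))
    · intro h
      have h1 : aeval s (a * f ^ k) = 0 := by
        have : a * f ^ k = 1 - b * g := by linear_combination hab
        rw [this, map_sub, h, map_one, sub_self]
      have h2 : g ∣ a * f ^ k := (Dvd.intro_left _ hg.symm).trans (minpoly.dvd F s h1)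
      apply hgu
      rw [isUnit_iff_dvd_one, ← hab]
      exact dvd_add h2 (Dvd.intro_left _ rfl)
    · rw [← map_mul]
      have : f ^ k * (b * g) = b * (f ^ k * g) := by ring
      rw [this, map_mul, hμ, mul_zero]

omit [Module.Finite F A] in
theorem commG {a s : A} (h : a * s = s * a) (P : F[X]) : a * aeval s P = aeval s P * a := by
  induction P using Polynomial.induction_on' with
  | add p q hp hq => rw [map_add, mul_add, add_mul, hp, hq]
  | monomial k c =>
    rw [aeval_monomial, ← mul_assoc, ← Algebra.commutes c a, mul_assoc, mul_assoc]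
    congr 1
    exact (Commute.pow_right (show Commute a s from h) k)

end Gen

section Charp
variable {F : Type*} [Field F] [Fintype F] {V : Type*} [AddCommGroup V] [Module F V] [FiniteDimensional F V]

/-- power of the irreducible factor needed -/
theorem exists_i {T : Module.End F V} {f : F[X]} (hf : Irreducible f) {k : ℕ} (h : aeval T (f ^ k) = 0) :
    ∃ i, f.natDegree * i = Module.finrank F V ∧ aeval T (f ^ i) = 0 := by
  have hne : T.charpoly ≠ 0 := (LinearMap.charpoly_monic T).ne_zero
  have h1 : T.charpoly ∣ f ^ T.charpoly.natDegree := by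
    refine GlTwo.dvd_pow_deg f _ hne fun g hg hgχ => ?_
    by_contra hgf
    have h2 : IsCoprime (f ^ k) g := ((hg.coprime_iff_not_dvd.2 hgf).symm).pow_left
    have h3 : IsCoprime T.charpoly g := Cfsg.Agent.Lib.RCF.coprime_charpoly h h2
    exact hg.not_isUnit (h3.symm.isUnit_of_dvd hgχ)
  obtain ⟨i, -, hi⟩ := (dvd_prime_pow hf.prime _).1 h1
  refine ⟨i, ?_, ?_⟩
  · have h4 := Polynomial.natDegree_eq_of_degree_eq (Polynomial.degree_eq_degree_of_associated hi)
    rw [LinearMap.charpoly_natDegree, Polynomial.natDegree_pow] at h4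
    rw [h4, mul_comm]
  · obtain ⟨c, hc⟩ := hi.dvd
    rw [hc, map_mul, LinearMap.aeval_self_charpoly, zero_mul]

end Charp

section Star
variable {F : Type*} [Field F] {n : ℕ}

local notation "SM" => Matrix (Fin n ⊕ Fin n) (Fin n ⊕ Fin n) F
local notation "JJ" => Matrix.J (Fin n) F

/-- symplectic adjoint -/
def sst (X : SM) : SM := -(JJ * X.transpose * JJ)

theorem sst_mul (X Y : SM) : sst (X * Y) = sst Y * sst X := by
  unfold sst
  rw [neg_mul_neg, Matrix.transpose_mul]
  have h := Matrix.J_squared (Fin n) F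
  calc -(JJ * (Y.transpose * X.transpose) * JJ) = JJ * Y.transpose * (-1) * X.transpose * JJ := by
        simp only [mul_neg, mul_one, neg_mul, mul_assoc]
    _ = _ := by rw [← h]; simp only [mul_assoc]

theorem sst_one : sst (1 : SM) = 1 := by
  unfold sst
  rw [Matrix.transpose_one, mul_one, Matrix.J_squared, neg_neg]

theorem sst_sst (X : SM) : sst (sst X) = X := by
  unfold sst
  rw [Matrix.transpose_neg, Matrix.transpose_mul, Matrix.transpose_mul, Matrix.transpose_transpose, Matrix.J_transpose]
  have h := Matrix.J_squared (Fin n) F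
  calc -(JJ * -(-JJ * (X * -JJ)) * JJ) = (JJ * JJ) * X * (JJ * JJ) := by
        simp only [mul_neg, neg_mul, neg_neg, mul_assoc]
    _ = X := by rw [h]; simp

theorem sst_add (X Y : SM) : sst (X + Y) = sst X + sst Y := by
  unfold sst
  rw [Matrix.transpose_add, mul_add, add_mul, neg_add]

theorem sst_smul (c : F) (X : SM) : sst (c • X) = c • sst X := by
  unfold sst
  rw [Matrix.transpose_smul, mul_smul_comm, smul_mul_assoc, smul_neg]

theorem sst_zero : sst (0 : SM) = 0 := by unfold sst; simp

theorem sst_sub (X Y : SM) : sst (X - Y) = sst X - sst Y := by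
  rw [sub_eq_add_neg, sst_add, sub_eq_add_neg]
  congr 1
  have := sst_smul (-1 : F) Y
  rwa [neg_one_smul, neg_one_smul] at this

theorem sst_pow (X : SM) (k : ℕ) : sst (X ^ k) = sst X ^ k := by
  induction k with
  | zero => rw [pow_zero, pow_zero, sst_one]
  | succ k ih => rw [pow_succ, sst_mul, ih, pow_succ']

theorem sst_aeval (X : SM) (P : F[X]) : sst (aeval X P) = aeval (sst X) P := by
  induction P using Polynomial.induction_on' with
  | add p q hp hq => rw [map_add, map_add, sst_add, hp, hq]
  | monomial k c =>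
    rw [aeval_monomial, aeval_monomial, sst_mul, sst_pow, Algebra.algebraMap_eq_smul_one, sst_smul, sst_one, smul_mul_assoc, mul_smul_comm, one_mul, mul_one]

theorem mem_iff_sst (X : SM) : X ∈ Matrix.symplecticGroup (Fin n) F ↔ sst X * X = 1 := by
  rw [SymplecticGroup.mem_iff']
  unfold sst
  have h := Matrix.J_squared (Fin n) F
  constructor
  · intro h1
    calc -(JJ * X.transpose * JJ) * X = -(JJ * (X.transpose * JJ * X)) := by rw [neg_mul]; simp only [mul_assoc]
      _ = 1 := by rw [h1, h, neg_neg]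
  · intro h1
    calc X.transpose * JJ * X = -((JJ * JJ) * (X.transpose * JJ * X)) := by rw [h]; simp
      _ = JJ * (-(JJ * X.transpose * JJ) * X) := by rw [neg_mul, mul_neg]; simp only [mul_assoc]
      _ = JJ := by rw [h1, mul_one]

theorem pmk_one_iff (hn : 1 ≤ n) (s : Matrix.symplecticGroup (Fin n) F) :
    ((s : Matrix.symplecticGroup (Fin n) F) : Cfsg.PSp n F) = 1 ↔ s.1 = 1 ∨ s.1 = -1 := by
  rw [QuotientGroup.eq_one_iff, Cfsg.Agent.Lib.Symp.mem_center_iff]
  constructor
  · rintro ⟨a, ha, rfl⟩
    have h1 : (a - 1) * (a + 1) = 0 := by linear_combination ha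
    rcases mul_eq_zero.1 h1 with h | h
    · left
      have : a = 1 := by linear_combination h
      subst this
      show Matrix.scalar _ (1 : F) = 1
      simp
    · right
      have : a = -1 := by linear_combination h
      subst this
      show Matrix.scalar _ (-1 : F) = -1
      rw [map_neg, map_one]
  · rintro (h | h)
    · refine ⟨1, one_pow 2, Subtype.ext ?_⟩
      rw [h]
      show 1 = Matrix.scalar _ (1 : F)
      simp
    · refine ⟨-1, by ring, Subtype.ext ?_⟩
      rw [h]
      show -1 = Matrix.scalar _ (-1 : F)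
      rw [map_neg, map_one]

theorem pmk_pow (s : Matrix.symplecticGroup (Fin n) F) (k : ℕ) :
    (s : Cfsg.PSp n F) ^ k = ((s ^ k : Matrix.symplecticGroup (Fin n) F) : Cfsg.PSp n F) := rfl

/-- the involution attached to a self adjoint idempotent -/
theorem exists_h (h2 : (2 : F) ≠ 0) (hn : 1 ≤ n) {s : Matrix.symplecticGroup (Fin n) F} {π : SM} (hπ : π * π = π) (hst : sst π = π)
    (h0 : π ≠ 0) (h1 : π ≠ 1) (hc : π * s.1 = s.1 * π) :
    ∃ h : Matrix.symplecticGroup (Fin n) F, h * s = s * h ∧ (h : Cfsg.PSp n F) ^ 2 = 1 ∧ (h : Cfsg.PSp n F) ≠ 1 := by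
  have e1 : (1 - (2 : F) • π) * (1 - (2 : F) • π) = 1 := by
    rw [sub_mul, mul_sub, mul_sub, one_mul, mul_one, one_mul, smul_mul_smul_comm, hπ]
    module
  have e2 : sst (1 - (2 : F) • π) = 1 - (2 : F) • π := by rw [sst_sub, sst_one, sst_smul, hst]
  let H : Matrix.symplecticGroup (Fin n) F := ⟨1 - (2 : F) • π, (mem_iff_sst _).2 (by rw [e2, e1])⟩
  refine ⟨H, ?_, ?_, ?_⟩
  · apply Subtype.ext
    show (1 - (2 : F) • π) * s.1 = s.1 * (1 - (2 : F) • π)
    rw [sub_mul, mul_sub, one_mul, mul_one, smul_mul_assoc, mul_smul_comm, hc]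
  · rw [pmk_pow, pmk_one_iff hn]
    left
    show (1 - (2 : F) • π) ^ 2 = 1
    rw [pow_two, e1]
  · intro h
    rcases (pmk_one_iff hn H).1 h with h3 | h3
    · have h4 : (1 - (2 : F) • π) = 1 := h3
      have h5 : (2 : F) • π = 0 := by rw [← sub_sub_cancel 1 ((2 : F) • π), h4, sub_self]
      exact h0 ((smul_eq_zero.1 h5).resolve_left h2)
    · have h4 : (1 - (2 : F) • π) = -1 := h3
      have h5 : (2 : F) • (π - 1) = 0 := by
        have : (2 : F) • (π - 1) = -(1 - (2 : F) • π) - 1 := by module
        rw [this, h4]; simp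
      exact h1 (sub_eq_zero.1 ((smul_eq_zero.1 h5).resolve_left h2))

/-- symplectic trichotomy -/
theorem trichotomy {s : SM} (hs : sst s * s = 1) {f : F[X]} (hf : Irreducible f) (hfs : f ∣ minpoly F s) :
    (∃ k, aeval s (f ^ k) = 0) ∨ (∃ π : SM, π * π = π ∧ sst π = π ∧ π ≠ 0 ∧ π ≠ 1 ∧ π * s = s * π) ∨
      ∃ (e : SM) (k : ℕ), e * e = e ∧ e * s = s * e ∧ sst e = 1 - e ∧ aeval s (f ^ k) * e = 0 := by
  rcases dichG s hf hfs with h | ⟨P, k, h1, h2, h3, h4⟩
  · exact Or.inl h
  right
  have hs' : s * sst s = 1 := mul_eq_one_comm.mp hs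
  set e := aeval s P with he
  have hes : e * s = s * e := (commG rfl P).symm
  have hste : sst e = aeval (sst s) P := sst_aeval s P
  have hsts : s * sst e = sst e * s := by
    rw [hste]; exact commG (by rw [hs, hs']) _
  have hee : sst e * e = e * sst e := commG (a := sst e) (s := s) hsts.symm P
  have hst2 : sst e * sst e = sst e := by rw [← sst_mul, h1]
  have hstst : sst (sst e) = e := sst_sst e
  by_cases ha : e * sst e = 0
  · -- orthogonal
    by_cases hb : e + sst e = 1
    · right
      exact ⟨e, k, h1, hes, by rw [← hb]; abel, h4⟩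
    · left
      refine ⟨e + sst e, ?_, ?_, ?_, hb, ?_⟩
      · rw [add_mul, mul_add, mul_add, h1, hst2, ha, hee, ha, add_zero, zero_add]
      · rw [sst_add, hstst, add_comm]
      · intro h0
        apply h2
        have : e * (e + sst e) = e := by rw [mul_add, h1, ha, add_zero]
        rw [← this, h0, mul_zero]
      · rw [add_mul, mul_add, hes, hsts]
  · left
    refine ⟨e * sst e, ?_, ?_, ha, ?_, ?_⟩
    · rw [mul_assoc, ← mul_assoc (sst e) e, hee, mul_assoc e (sst e) (sst e), hst2, ← mul_assoc, h1]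
    · rw [sst_mul, hstst]
    · intro h0
      apply h3
      have : e * (e * sst e) = e * sst e := by rw [← mul_assoc, h1]
      rw [h0, mul_one] at this
      exact this
    · rw [mul_assoc, ← hsts, ← mul_assoc, hes, mul_assoc]

end Star

end Cfsg.Agent.H8.SpecSP
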