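import Mathlib
import Cfsg.Agent.H8.SpecSP
import Cfsg.Agent.Lib.AutPSL15

set_option autoImplicit false
set_option linter.all false

/-! Spectra of direct powers of `PSp_2n(q)`: the exceptional elements. -/

namespace Cfsg.Agent.H8.SpecSP

open Polynomial
open Cfsg.Agent.H8.SpecAbs Cfsg.Agent.H8.SpecSL

section CaseA
variable {F : Type*} [Field F] [Fintype F] {n : ℕ}

local notation "SM" => Matrix (Fin n ⊕ Fin n) (Fin n ⊕ Fin n) F

open Classical in
/-- the self-dual irreducible case -/
theorem caseA (hn : n ≠ 0) {t : SM} (hst : sst t * t = 1) {f : F[X]} (hf : Irreducible f) (hft : aeval t f = 0) :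
    (t = 1 ∨ t = -1) ∨ ∃ d', f.natDegree = 2 * d' ∧ f ∣ X ^ (Fintype.card F ^ d' + 1) - 1 := by
  haveI : Nonempty (Fin n) := ⟨⟨0, Nat.pos_of_ne_zero hn⟩⟩
  haveI : Fact (Irreducible f) := ⟨hf⟩
  haveI : Module.Finite F (AdjoinRoot f) := (AdjoinRoot.powerBasis hf.ne_zero).finite
  haveI : Finite (AdjoinRoot f) := Module.finite_of_finite F
  letI : Fintype (AdjoinRoot f) := Fintype.ofFinite _
  let φ : AdjoinRoot f →ₐ[F] SM := Ideal.Quotient.liftₐ (Ideal.span {f}) (aeval t) (by
    intro a ha
    obtain ⟨b, rfl⟩ := Ideal.mem_span_singleton.1 ha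
    rw [map_mul, hft, zero_mul])
  set α : AdjoinRoot f := AdjoinRoot.root f with hα
  have hφα : φ α = t := by
    show aeval t X = _
    rw [aeval_X]
  have hφi : Function.Injective φ := φ.toRingHom.injective
  have hα0 : α ≠ 0 := by
    intro h
    rw [h, map_zero] at hφα
    rw [← hφα, mul_zero] at hst
    exact zero_ne_one hst
  have hφi' : φ α⁻¹ = sst t := by
    have h1 : φ α⁻¹ * t = 1 := by rw [← hφα, ← map_mul, inv_mul_cancel₀ hα0, map_one]
    have h2 : t * sst t = 1 := mul_eq_one_comm.mp hst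
    calc φ α⁻¹ = φ α⁻¹ * (t * sst t) := by rw [h2, mul_one]
      _ = sst t := by rw [← mul_assoc, h1, one_mul]
  have hev : aeval α⁻¹ f = 0 := by
    apply hφi
    rw [map_zero, ← aeval_algHom_apply, hφi', ← sst_aeval, hft, sst_zero]
  let τ : AdjoinRoot f →+* AdjoinRoot f := AdjoinRoot.lift (algebraMap F (AdjoinRoot f)) α⁻¹ hev
  have hτα : τ α = α⁻¹ := AdjoinRoot.lift_root _
  have hτc : ∀ c : F, τ (algebraMap F _ c) = algebraMap F _ c := fun c => AdjoinRoot.lift_of _
  by_cases hαα : α⁻¹ = α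
  · left
    have h1 : (α - 1) * (α + 1) = 0 := by
      have : α * α = 1 := by nth_rewrite 1 [← hαα]; exact inv_mul_cancel₀ hα0
      linear_combination this
    rcases mul_eq_zero.1 h1 with h | h
    · left
      rw [← hφα, show α = 1 by linear_combination h, map_one]
    · right
      rw [← hφα, show α = -1 by linear_combination h, map_neg, map_one]
  right
  have hττ : ∀ x, τ (τ x) = x := by
    intro x
    have : τ.comp τ = RingHom.id _ := AdjoinRoot.ringHom_ext (RingHom.ext fun c => by
      show τ (τ (algebraMap F _ c)) = algebraMap F _ c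
      rw [hτc, hτc]) (by
      show τ (τ α) = α
      rw [hτα, map_inv₀, hτα, inv_inv])
    exact congrArg (fun g : AdjoinRoot f →+* AdjoinRoot f => g x) this
  let τe : AdjoinRoot f ≃+* AdjoinRoot f := { τ with
    invFun := τ
    left_inv := hττ
    right_inv := hττ }
  let τa : AdjoinRoot f ≃ₐ[F] AdjoinRoot f := AlgEquiv.ofRingEquiv (f := τe) hτc
  have hτe : ∀ x, τe x = τ x := fun _ => rfl
  have hτ2 : orderOf τe = 2 := by
    apply orderOf_eq_prime
    · rw [pow_two]
      exact RingEquiv.ext hττ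
    · intro h
      have h1 : τe α = α := by rw [h]; rfl
      rw [hτe, hτα] at h1
      exact hαα h1
  have hτa2 : orderOf τa = 2 := by
    apply orderOf_eq_prime
    · rw [pow_two]
      exact AlgEquiv.ext hττ
    · intro h
      have h1 : τa α = α := by rw [h]; rfl
      have h2 : τa α = τ α := rfl
      rw [h2, hτα] at h1
      exact hαα h1
  set d := f.natDegree with hd
  have hfr : Module.finrank F (AdjoinRoot f) = d := by
    rw [(AdjoinRoot.powerBasis hf.ne_zero).finrank, AdjoinRoot.powerBasis_dim]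
  have hd2 : 2 ∣ d := by
    rw [← hfr, ← IsGalois.card_aut_eq_finrank F (AdjoinRoot f), ← hτa2]
    exact orderOf_dvd_natCard τa
  obtain ⟨d', hd'⟩ := hd2
  have hK := Cfsg.Agent.Lib.FinGal.card_fixF τe
  have hKd : Nat.card (AdjoinRoot f) = (Fintype.card F ^ d') ^ 2 := by
    rw [Module.natCard_eq_pow_finrank (K := F), hfr, Nat.card_eq_fintype_card, hd', ← pow_mul, mul_comm]
  have hfix : Nat.card (Cfsg.Agent.Lib.FinGal.fixF τe) = Fintype.card F ^ d' := by
    rw [hKd, hτ2] at hK
    exact (Nat.pow_left_injective (n := 2) (by norm_num) hK).symm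
  have hpow : ∀ x, τ x = x ^ Fintype.card F ^ d' := fun x => by
    rw [← hτe, Cfsg.Agent.Lib.AutPSL.sigma_eq_pow hτ2, hfix]
  refine ⟨d', hd', ?_⟩
  have h1 : α ^ (Fintype.card F ^ d' + 1) = 1 := by
    rw [pow_succ, ← hpow, hτα, inv_mul_cancel₀ hα0]
  rw [← AdjoinRoot.mk_eq_zero, map_sub, map_pow, AdjoinRoot.mk_X, map_one]
  exact sub_eq_zero.2 h1

open Classical in
/-- exceptional elements of type `+` -/
theorem caseB (hn : n ≠ 0) {s e : SM} (hst : sst s * s = 1) (hee : e * e = e) (hes : e * s = s * e) (hse : sst e = 1 - e)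
    {f : F[X]} (hf : Irreducible f) {k : ℕ} (hfs : aeval s (f ^ k) * e = 0) :
    ∃ i, f.natDegree * i = n ∧ (s ^ (Fintype.card F ^ f.natDegree - 1) - 1) ^ i = 0 := by
  haveI : Nonempty (Fin n) := ⟨⟨0, Nat.pos_of_ne_zero hn⟩⟩
  set W : Submodule F (Fin n ⊕ Fin n → F) := LinearMap.range (Matrix.toLin' e) with hWd
  have hW : ∀ x, x ∈ W ↔ e.mulVec x = x := by
    intro x
    constructor
    · rintro ⟨y, rfl⟩
      rw [Matrix.toLin'_apply, Matrix.mulVec_mulVec, hee]
    · intro h
      exact ⟨x, by rw [Matrix.toLin'_apply, h]⟩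
  have hTW : ∀ x ∈ W, Matrix.toLin' s x ∈ W := by
    intro x hx
    rw [hW] at hx ⊢
    rw [Matrix.toLin'_apply, Matrix.mulVec_mulVec, hes, ← Matrix.mulVec_mulVec, hx]
  let T1 : Module.End F W := (Matrix.toLin' s).restrict hTW
  have hT1 : ∀ x : W, ((T1 x : W) : Fin n ⊕ Fin n → F) = s.mulVec x := fun x => rfl
  have hT1k : ∀ (k : ℕ) (x : W), (((T1 ^ k) x : W) : Fin n ⊕ Fin n → F) = (s ^ k).mulVec x := by
    intro k
    induction k with
    | zero => intro x; rw [pow_zero, pow_zero, Matrix.one_mulVec]; rfl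
    | succ k ih => intro x; rw [pow_succ, pow_succ, Module.End.mul_apply, ih, hT1, Matrix.mulVec_mulVec]
  have hT1P : ∀ (P : F[X]) (x : W), (((aeval T1 P) x : W) : Fin n ⊕ Fin n → F) = (aeval s P).mulVec x := by
    intro P x
    induction P using Polynomial.induction_on' with
    | add a b ha hb => rw [map_add, map_add, LinearMap.add_apply, Submodule.coe_add, ha, hb, Matrix.add_mulVec]
    | monomial k a =>
      rw [aeval_monomial, aeval_monomial, Module.End.mul_apply, ← Matrix.mulVec_mulVec, ← hT1k]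
      rw [Module.algebraMap_end_apply, Submodule.coe_smul, Algebra.algebraMap_eq_smul_one, Matrix.smul_mulVec, Matrix.one_mulVec]
  have hT1f : aeval T1 (f ^ k) = 0 := by
    apply LinearMap.ext
    intro x
    apply Subtype.ext
    rw [hT1P]
    have hx := (hW x.1).1 x.2
    rw [← hx, Matrix.mulVec_mulVec, hfs, Matrix.zero_mulVec]
    rfl
  obtain ⟨i, hi, hi2⟩ := exists_i hf hT1f
  -- back
  have hfi : aeval s (f ^ i) * e = 0 := by
    apply Matrix.toLin'.injective
    apply LinearMap.ext
    intro v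
    rw [Matrix.toLin'_apply, ← Matrix.mulVec_mulVec, map_zero]
    have h1 := hT1P (f ^ i) ⟨e.mulVec v, (hW _).2 (by rw [Matrix.mulVec_mulVec, hee])⟩
    rw [hi2] at h1
    exact h1.symm
  -- dimension
  have hrk : (1 - e).rank = e.rank := by
    rw [← hse]
    unfold sst
    have hJ : IsUnit (Matrix.J (Fin n) F) := by
      rw [Matrix.isUnit_iff_isUnit_det]
      exact Matrix.isUnit_det_J (Fin n) F
    have h1 : -(Matrix.J (Fin n) F * e.transpose * Matrix.J (Fin n) F) = (-Matrix.J (Fin n) F) * e.transpose * Matrix.J (Fin n) F := by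
      rw [neg_mul, neg_mul]
    rw [h1, Matrix.rank_mul_eq_left_of_isUnit_det _ _ (Matrix.isUnit_det_J (Fin n) F), Matrix.rank_mul_eq_right_of_isUnit_det _ _ (by
      rw [← Matrix.isUnit_iff_isUnit_det]; exact hJ.neg), Matrix.rank_transpose]
  have hnm : n = Module.finrank F W := by
    have h1 : LinearMap.ker (Matrix.toLin' e) = LinearMap.range (Matrix.toLin' (1 - e)) := by
      ext x
      rw [LinearMap.mem_ker, Matrix.toLin'_apply]
      constructor
      · intro h
        refine ⟨x, ?_⟩
        rw [Matrix.toLin'_apply, Matrix.sub_mulVec, Matrix.one_mulVec, h, sub_zero]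
      · rintro ⟨y, rfl⟩
        rw [Matrix.toLin'_apply, Matrix.mulVec_mulVec, mul_sub, mul_one, hee, sub_self, Matrix.zero_mulVec]
    have h2 := LinearMap.finrank_range_add_finrank_ker (Matrix.toLin' e)
    rw [h1, Module.finrank_fintype_fun_eq_card, Fintype.card_sum, Fintype.card_fin] at h2
    have h3 : Module.finrank F (LinearMap.range (Matrix.toLin' (1 - e))) = Module.finrank F W := by
      have e1 : (1 - e).rank = Module.finrank F (LinearMap.range (Matrix.toLin' (1 - e))) := rfl
      have e2 : e.rank = Module.finrank F W := rfl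
      rw [← e1, ← e2, hrk]
    have h4 : Module.finrank F W + Module.finrank F (LinearMap.range (Matrix.toLin' (1 - e))) = n + n := h2
    rw [h3] at h4
    omega
  rw [← hnm] at hi
  refine ⟨i, hi, ?_⟩
  have hi0 : i ≠ 0 := by rintro rfl; rw [mul_zero] at hi; exact hn hi.symm
  have hss : s * sst s = 1 := mul_eq_one_comm.mp hst
  -- `f` is not `X`
  have he0 : e ≠ 0 := by
    intro h
    rw [h, sub_zero] at hse
    rw [sst_zero] at hse
    exact zero_ne_one hse
  have hfX : ¬ f ∣ (X : F[X]) := by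
    intro hX
    obtain ⟨c, hc⟩ := hX
    have h1 : aeval s (X ^ i : F[X]) * e = 0 := by
      rw [hc, mul_pow, mul_comm, map_mul, mul_assoc, hfi, mul_zero]
    rw [map_pow, aeval_X] at h1
    apply he0
    have h2 : (sst s) ^ i * (s ^ i * e) = e := by
      rw [← mul_assoc, ← (Commute.mul_pow (show Commute (sst s) s by show sst s * s = s * sst s; rw [hst, hss])), hst, one_pow, one_mul]
    rw [← h2, h1, mul_zero]
  set m' := Fintype.card F ^ f.natDegree - 1 with hm'
  have hfm : f ∣ (X ^ m' - 1 : F[X]) := by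
    have h2 : f ∣ (X ^ (Nat.card F) ^ f.natDegree - X : F[X]) := hf.natDegree_dvd_iff_dvd_X_pow_card_pow_sub_X.1 dvd_rfl
    rw [Nat.card_eq_fintype_card] at h2
    have h3 : (X ^ (Fintype.card F) ^ f.natDegree - X : F[X]) = X * (X ^ m' - 1) := by
      rw [mul_sub, mul_one, ← pow_succ', hm', Nat.sub_add_cancel (Nat.one_le_pow _ _ Fintype.card_pos)]
    rw [h3] at h2
    exact (hf.prime.dvd_or_dvd h2).resolve_left hfX
  have h5 : (s ^ m' - 1) ^ i * e = 0 := by
    obtain ⟨c, hc⟩ := pow_dvd_pow_of_dvd hfm i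
    have h6 : aeval s ((X ^ m' - 1 : F[X]) ^ i) = (s ^ m' - 1) ^ i := by
      rw [map_pow, map_sub, map_pow, aeval_X, map_one]
    rw [← h6, hc, mul_comm, map_mul, mul_assoc, hfi, mul_zero]
  -- dual part
  have h7 : (1 - e) * (s ^ m' - 1) ^ i = 0 := by
    have h8 := congrArg sst h5
    rw [sst_mul, sst_zero, hse, sst_pow, sst_sub, sst_pow, sst_one] at h8
    have h9 : (sst s) ^ m' * s ^ m' = 1 := by
      rw [← (Commute.mul_pow (show Commute (sst s) s by show sst s * s = s * sst s; rw [hst, hss])), hst, one_pow]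
    have hc : Commute ((sst s) ^ m' - 1) (s ^ m') := by
      apply Commute.sub_left _ (Commute.one_left _)
      exact (Commute.pow_pow (show Commute (sst s) s by show sst s * s = s * sst s; rw [hst, hss]) _ _)
    have h10 : ((sst s) ^ m' - 1) ^ i * (s ^ m') ^ i = (-(s ^ m' - 1)) ^ i := by
      rw [← hc.mul_pow, sub_mul, h9, one_mul, neg_sub]
    have h11 : (1 - e) * (-(s ^ m' - 1)) ^ i = 0 := by
      rw [← h10, ← mul_assoc]
      have : (1 - e) * ((sst s) ^ m' - 1) ^ i = 0 := h8
      rw [this, zero_mul]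
    rcases Nat.even_or_odd i with h12 | h12
    · rwa [h12.neg_pow] at h11
    · rw [h12.neg_pow, mul_neg, neg_eq_zero] at h11
      exact h11
  have hce : Commute e ((s ^ m' - 1) ^ i) := by
    apply Commute.pow_right
    apply Commute.sub_right _ (Commute.one_right _)
    exact Commute.pow_right (show Commute e s from hes) _
  calc (s ^ m' - 1) ^ i = e * (s ^ m' - 1) ^ i + (1 - e) * (s ^ m' - 1) ^ i := by
        rw [sub_mul, one_mul]; abel
    _ = 0 := by rw [h7, add_zero, hce.eq, h5]

end CaseA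

end Cfsg.Agent.H8.SpecSP
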