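import Mathlib
import Cfsg.Agent.H8.SpecSP2

set_option autoImplicit false
set_option linter.all false

/-! Spectra of direct powers of `PSp_2n(q)`: regular unipotent elements and block sums. -/

namespace Cfsg.Agent.H8.SpecSP

open Polynomial

section Blocks
variable {F : Type*} [Field F] {m : ℕ}

theorem sst_fromBlocks (A B C D : Matrix (Fin m) (Fin m) F) :
    sst (Matrix.fromBlocks A B C D) = Matrix.fromBlocks D.transpose (-B.transpose) (-C.transpose) A.transpose := by
  unfold sst Matrix.J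
  rw [Matrix.fromBlocks_transpose, Matrix.fromBlocks_multiply, Matrix.fromBlocks_multiply, Matrix.fromBlocks_neg]
  simp

/-- upper shift -/
def NN (m : ℕ) (F : Type*) [Field F] : Matrix (Fin m) (Fin m) F := Matrix.of fun i j => if i.1 + 1 = j.1 then 1 else 0

/-- corner -/
def EE (m : ℕ) (F : Type*) [Field F] : Matrix (Fin m) (Fin m) F := Matrix.of fun i j => if i.1 + 1 = m ∧ j.1 + 1 = m then 1 else 0

/-- the regular nilpotent element -/
def XX (m : ℕ) (F : Type*) [Field F] : Matrix (Fin m ⊕ Fin m) (Fin m ⊕ Fin m) F :=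
  Matrix.fromBlocks (NN m F) (EE m F) 0 (-(NN m F).transpose)

theorem sst_XX : sst (XX m F) = -XX m F := by
  unfold XX
  rw [sst_fromBlocks, Matrix.fromBlocks_neg]
  have h : (EE m F).transpose = EE m F := by
    ext i j
    simp only [EE, Matrix.transpose_apply, Matrix.of_apply]
    simp only [and_comm]
  rw [h]
  simp

/-- the Jordan chain -/
def vv (m : ℕ) (F : Type*) [Field F] (k : ℕ) : Fin m ⊕ Fin m → F :=
  Sum.elim (fun i => if i.1 + k + 1 = 2 * m then (-1) ^ (m + 1) else 0) (fun i => if i.1 = k then (-1) ^ k else 0)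

theorem XX_vv (k : ℕ) : (XX m F).mulVec (vv m F k) = vv m F (k + 1) := by
  unfold XX vv
  rw [Matrix.fromBlocks_mulVec]
  funext x
  rcases x with i | i
  · simp only [Sum.elim_inl, Function.comp_def, Pi.add_apply, Sum.elim_inr]
    have h1 : (NN m F).mulVec (fun j : Fin m => if j.1 + k + 1 = 2 * m then (-1 : F) ^ (m + 1) else 0) i =
        if i.1 + 1 < m ∧ i.1 + 1 + k + 1 = 2 * m then (-1 : F) ^ (m + 1) else 0 := by
      simp only [Matrix.mulVec, dotProduct, NN, Matrix.of_apply]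
      by_cases hi : i.1 + 1 < m
      · rw [Finset.sum_eq_single (⟨i.1 + 1, hi⟩ : Fin m)]
        · simp [hi]
        · intro j _ hj
          rw [if_neg, zero_mul]
          intro h; exact hj (Fin.ext h.symm)
        · intro h; exact absurd (Finset.mem_univ _) h
      · rw [Finset.sum_eq_zero]
        · rw [if_neg (fun h => hi h.1)]
        · intro j _
          rw [if_neg, zero_mul]
          intro h; apply hi; rw [h]; exact j.2
    have h2 : (EE m F).mulVec (fun j : Fin m => if j.1 = k then (-1 : F) ^ k else 0) i =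
        if i.1 + 1 = m ∧ k + 1 = m then (-1 : F) ^ k else 0 := by
      simp only [Matrix.mulVec, dotProduct, EE, Matrix.of_apply]
      have hm : 0 < m := lt_of_le_of_lt (Nat.zero_le _) i.2
      rw [Finset.sum_eq_single (⟨m - 1, by omega⟩ : Fin m)]
      · have e1 : m - 1 + 1 = m := by omega
        simp only [e1, and_true]
        by_cases h3 : i.1 + 1 = m
        · by_cases h4 : k + 1 = m
          · rw [if_pos h3, if_pos (by omega), if_pos ⟨h3, h4⟩, one_mul]
          · rw [if_pos h3, if_neg (by omega), if_neg (by tauto), mul_zero]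
        · rw [if_neg h3, zero_mul, if_neg (fun h => h3 h.1)]
      · intro j _ hj
        rw [if_neg, zero_mul]
        rintro ⟨-, h⟩; exact hj (Fin.ext (by show j.1 = m - 1; omega))
      · intro h; exact absurd (Finset.mem_univ _) h
    rw [h1, h2]
    have hi := i.2
    by_cases h3 : i.1 + 1 < m
    · rw [if_neg (c := i.1 + 1 = m ∧ k + 1 = m) (by omega), add_zero]
      by_cases h4 : i.1 + (k + 1) + 1 = 2 * m
      · rw [if_pos (by omega), if_pos h4]
      · rw [if_neg (by omega), if_neg h4]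
    · rw [if_neg (c := i.1 + 1 < m ∧ i.1 + 1 + k + 1 = 2 * m) (by omega), zero_add]
      by_cases h4 : i.1 + (k + 1) + 1 = 2 * m
      · rw [if_pos (by omega), if_pos h4]
        have : m + 1 = k + 2 := by omega
        rw [this, pow_add]; norm_num
      · rw [if_neg (by omega), if_neg h4]
  · simp only [Sum.elim_inl, Function.comp_def, Pi.add_apply, Sum.elim_inr]
    rw [Matrix.zero_mulVec, Pi.zero_apply, zero_add, Matrix.neg_mulVec, Pi.neg_apply]
    have h1 : (NN m F).transpose.mulVec (fun j : Fin m => if j.1 = k then (-1 : F) ^ k else 0) i =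
        if i.1 = k + 1 then (-1 : F) ^ k else 0 := by
      simp only [Matrix.mulVec, dotProduct, NN, Matrix.transpose_apply, Matrix.of_apply]
      by_cases hi : i.1 = k + 1
      · rw [Finset.sum_eq_single (⟨k, by have := i.2; omega⟩ : Fin m)]
        · simp [hi]
        · intro j _ hj
          rw [if_neg (c := j.1 = k) (fun h => hj (Fin.ext h)), mul_zero]
        · intro h; exact absurd (Finset.mem_univ _) h
      · rw [Finset.sum_eq_zero, if_neg hi]
        intro j _
        by_cases h : j.1 = k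
        · rw [if_neg (by omega), zero_mul]
        · rw [if_neg (c := j.1 = k) h, mul_zero]
    rw [h1]
    by_cases hi : i.1 = k + 1
    · rw [if_pos hi, if_pos hi, pow_succ]; ring
    · rw [if_neg hi, if_neg hi, neg_zero]

theorem XX_pow_vv (j k : ℕ) : ((XX m F) ^ j).mulVec (vv m F k) = vv m F (k + j) := by
  induction j generalizing k with
  | zero => rw [pow_zero, Matrix.one_mulVec, add_zero]
  | succ j ih => rw [pow_succ, ← Matrix.mulVec_mulVec, XX_vv, ih, show k + 1 + j = k + (j + 1) by ring]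

theorem XX_pow_ne (hm : m ≠ 0) : (XX m F) ^ (2 * m - 1) ≠ 0 := by
  intro h
  have h1 := XX_pow_vv (F := F) (m := m) (2 * m - 1) 0
  rw [h, Matrix.zero_mulVec] at h1
  have h2 := congrFun h1 (Sum.inl ⟨0, Nat.pos_of_ne_zero hm⟩)
  unfold vv at h2
  rw [Sum.elim_inl, Pi.zero_apply, if_pos (by show 0 + (0 + (2 * m - 1)) + 1 = 2 * m; omega)] at h2
  exact pow_ne_zero _ (neg_ne_zero.2 one_ne_zero) h2.symm

theorem XX_pow_zero : (XX m F) ^ (2 * m) = 0 := by
  apply Matrix.ext_of_mulVec_single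
  intro x
  rw [Matrix.zero_mulVec]
  have key : ∀ k, ((XX m F) ^ (2 * m)).mulVec (vv m F k) = 0 := by
    intro k
    rw [XX_pow_vv]
    funext y
    rcases y with i | i
    · show (if i.1 + (k + 2 * m) + 1 = 2 * m then _ else _) = _
      rw [if_neg (by omega)]; rfl
    · show (if i.1 = k + 2 * m then _ else _) = _
      have := i.2
      rw [if_neg (by omega)]; rfl
  have h1 : ∃ (k : ℕ) (c : F), (Pi.single x 1 : Fin m ⊕ Fin m → F) = c • vv m F k := by
    rcases x with i | i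
    · refine ⟨2 * m - 1 - i.1, (-1) ^ (m + 1), ?_⟩
      have hi := i.2
      funext y
      rcases y with j | j
      · rw [Pi.smul_apply]
        show _ = (-1 : F) ^ (m + 1) * (if j.1 + (2 * m - 1 - i.1) + 1 = 2 * m then (-1 : F) ^ (m + 1) else 0)
        by_cases h : j = i
        · subst h
          rw [Pi.single_eq_same, if_pos (by omega), ← mul_pow]; norm_num
        · rw [Pi.single_eq_of_ne (by intro h'; exact h (Sum.inl.inj h')), if_neg, mul_zero]
          intro h'; apply h; apply Fin.ext; omega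
      · rw [Pi.smul_apply]
        show _ = (-1 : F) ^ (m + 1) * (if j.1 = 2 * m - 1 - i.1 then (-1 : F) ^ (2 * m - 1 - i.1) else 0)
        have := j.2
        rw [Pi.single_eq_of_ne (by simp), if_neg (by omega), mul_zero]
    · refine ⟨i.1, (-1) ^ i.1, ?_⟩
      have hi := i.2
      funext y
      rcases y with j | j
      · rw [Pi.smul_apply]
        show _ = (-1 : F) ^ i.1 * (if j.1 + i.1 + 1 = 2 * m then (-1 : F) ^ (m + 1) else 0)
        have := j.2
        rw [Pi.single_eq_of_ne (by simp), if_neg (by omega), mul_zero]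
      · rw [Pi.smul_apply]
        show _ = (-1 : F) ^ i.1 * (if j.1 = i.1 then (-1 : F) ^ i.1 else 0)
        by_cases h : j = i
        · subst h
          rw [Pi.single_eq_same, if_pos rfl, ← mul_pow]; norm_num
        · rw [Pi.single_eq_of_ne (by intro h'; exact h (Sum.inr.inj h')), if_neg, mul_zero]
          intro h'; exact h (Fin.ext h')
  obtain ⟨k, c, h⟩ := h1
  rw [h, Matrix.mulVec_smul, key, smul_zero]

/-- regular unipotent elements -/
theorem exists_reg (h2 : (2 : F) ≠ 0) (hm : m ≠ 0) :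
    ∃ u : Matrix.symplecticGroup (Fin m) F, (u.1 - 1) ^ (2 * m) = 0 ∧ (u.1 - 1) ^ (2 * m - 1) ≠ 0 := by
  set X := XX m F with hX
  have hn : IsNilpotent X := ⟨2 * m, XX_pow_zero⟩
  have hu : IsUnit (1 - X) := hn.isUnit_one_sub
  set D := 1 - X with hD
  have hdet : IsUnit D.det := (Matrix.isUnit_iff_isUnit_det _).1 hu
  have h3 : D * D⁻¹ = 1 := Matrix.mul_nonsing_inv _ hdet
  have h4 : D⁻¹ * D = 1 := Matrix.nonsing_inv_mul _ hdet
  have hsD : sst D = 1 + X := by rw [hD, sst_sub, sst_one, sst_XX, sub_neg_eq_add]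
  have hsD' : sst (1 + X) = D := by rw [← hsD, sst_sst]
  have hcXD : Commute X D := (Commute.one_right X).sub_right (Commute.refl X)
  have hcX : Commute X D⁻¹ := by
    show X * D⁻¹ = D⁻¹ * X
    calc X * D⁻¹ = D⁻¹ * D * X * D⁻¹ := by rw [h4, one_mul]
      _ = D⁻¹ * (X * D) * D⁻¹ := by rw [hcXD.eq]; simp only [mul_assoc]
      _ = D⁻¹ * X * (D * D⁻¹) := by simp only [mul_assoc]
      _ = D⁻¹ * X := by rw [h3, mul_one]
  have h5 : sst ((1 + X) * D⁻¹) * ((1 + X) * D⁻¹) = 1 := by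
    rw [sst_mul, hsD']
    have h6 : D * (1 + X) = (1 + X) * D := (Commute.add_right (Commute.one_right D) hcXD.symm).eq
    calc sst D⁻¹ * D * ((1 + X) * D⁻¹) = sst D⁻¹ * (D * (1 + X)) * D⁻¹ := by simp only [mul_assoc]
      _ = sst D⁻¹ * sst D * (D * D⁻¹) := by rw [h6, hsD]; simp only [mul_assoc]
      _ = 1 := by rw [h3, mul_one, ← sst_mul, h3, sst_one]
  have h7 : (1 + X) * D⁻¹ - 1 = (2 : F) • (X * D⁻¹) := by
    calc (1 + X) * D⁻¹ - 1 = (1 + X) * D⁻¹ - D * D⁻¹ := by rw [h3]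
      _ = (1 + X - D) * D⁻¹ := (sub_mul _ _ _).symm
      _ = (2 : F) • (X * D⁻¹) := by
          rw [← smul_mul_assoc]; congr 1; rw [hD, two_smul]; abel
  refine ⟨⟨(1 + X) * D⁻¹, (mem_iff_sst _).2 h5⟩, ?_, ?_⟩
  · show ((1 + X) * D⁻¹ - 1) ^ (2 * m) = 0
    rw [h7, _root_.smul_pow, hcX.mul_pow, hX, XX_pow_zero, zero_mul, smul_zero]
  · show ((1 + X) * D⁻¹ - 1) ^ (2 * m - 1) ≠ 0
    rw [h7, _root_.smul_pow, hcX.mul_pow]
    intro h
    have h8 := (smul_eq_zero.1 h).resolve_left (pow_ne_zero _ h2)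
    apply XX_pow_ne (F := F) hm
    have h9 : X ^ (2 * m - 1) * D⁻¹ ^ (2 * m - 1) * D ^ (2 * m - 1) = 0 := by rw [h8, zero_mul]
    rwa [mul_assoc, ← (show Commute D⁻¹ D by show D⁻¹ * D = D * D⁻¹; rw [h3, h4]).mul_pow, h4, one_pow, mul_one] at h9

end Blocks

section Embed
variable {F : Type*} [Field F] {a b : ℕ}

/-- reindexing -/
def eS (a b : ℕ) : ((Fin a ⊕ Fin a) ⊕ (Fin b ⊕ Fin b)) ≃ (Fin (a + b) ⊕ Fin (a + b)) :=
  (Equiv.sumSumSumComm _ _ _ _).trans (Equiv.sumCongr finSumFinEquiv finSumFinEquiv)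

/-- reindexing of matrices -/
def RS (a b : ℕ) (F : Type*) [Field F] :
    Matrix ((Fin a ⊕ Fin a) ⊕ (Fin b ⊕ Fin b)) ((Fin a ⊕ Fin a) ⊕ (Fin b ⊕ Fin b)) F ≃ₐ[F] Matrix (Fin (a + b) ⊕ Fin (a + b)) (Fin (a + b) ⊕ Fin (a + b)) F :=
  Matrix.reindexAlgEquiv F F (eS a b)

theorem RS_apply (X : Matrix ((Fin a ⊕ Fin a) ⊕ (Fin b ⊕ Fin b)) ((Fin a ⊕ Fin a) ⊕ (Fin b ⊕ Fin b)) F) (i j : Fin (a + b) ⊕ Fin (a + b)) :
    RS a b F X i j = X ((eS a b).symm i) ((eS a b).symm j) := rfl

theorem RS_apply' (X : Matrix ((Fin a ⊕ Fin a) ⊕ (Fin b ⊕ Fin b)) ((Fin a ⊕ Fin a) ⊕ (Fin b ⊕ Fin b)) F) (i j : (Fin a ⊕ Fin a) ⊕ (Fin b ⊕ Fin b)) :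
    RS a b F X (eS a b i) (eS a b j) = X i j := by
  rw [RS_apply, Equiv.symm_apply_apply, Equiv.symm_apply_apply]

theorem RS_J : RS a b F (Matrix.fromBlocks (Matrix.J (Fin a) F) 0 0 (Matrix.J (Fin b) F)) = Matrix.J (Fin (a + b)) F := by
  ext x y
  obtain ⟨x, rfl⟩ := (eS a b).surjective x
  obtain ⟨y, rfl⟩ := (eS a b).surjective y
  rw [RS_apply']
  unfold Matrix.J eS
  rcases x with (x | x) | (x | x) <;> rcases y with (y | y) | (y | y) <;>
    simp [Matrix.one_apply, Fin.ext_iff] <;> omega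

theorem RS_transpose (X : Matrix ((Fin a ⊕ Fin a) ⊕ (Fin b ⊕ Fin b)) ((Fin a ⊕ Fin a) ⊕ (Fin b ⊕ Fin b)) F) :
    (RS a b F X).transpose = RS a b F X.transpose := rfl

theorem sst_RS (A : Matrix (Fin a ⊕ Fin a) (Fin a ⊕ Fin a) F) (B : Matrix (Fin b ⊕ Fin b) (Fin b ⊕ Fin b) F) :
    sst (RS a b F (Matrix.fromBlocks A 0 0 B)) = RS a b F (Matrix.fromBlocks (sst A) 0 0 (sst B)) := by
  unfold sst
  rw [← RS_J, RS_transpose, ← map_mul, ← map_mul, ← map_neg, Matrix.fromBlocks_transpose, Matrix.fromBlocks_multiply, Matrix.fromBlocks_multiply,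
    Matrix.fromBlocks_neg]
  simp

/-- block sum -/
def bs (s : Matrix.symplecticGroup (Fin a) F) (t : Matrix.symplecticGroup (Fin b) F) : Matrix.symplecticGroup (Fin (a + b)) F :=
  ⟨RS a b F (Matrix.fromBlocks s.1 0 0 t.1), (mem_iff_sst _).2 (by
    rw [sst_RS, ← map_mul, Matrix.fromBlocks_multiply, (mem_iff_sst _).1 s.2, (mem_iff_sst _).1 t.2]
    simp)⟩

theorem bs_pow (s : Matrix.symplecticGroup (Fin a) F) (t : Matrix.symplecticGroup (Fin b) F) (k : ℕ) : bs s t ^ k = bs (s ^ k) (t ^ k) := by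
  apply Subtype.ext
  show (RS a b F (Matrix.fromBlocks s.1 0 0 t.1)) ^ k = RS a b F (Matrix.fromBlocks (s.1 ^ k) 0 0 (t.1 ^ k))
  rw [← map_pow]
  congr 1
  induction k with
  | zero => simp
  | succ k ih => rw [pow_succ, ih, Matrix.fromBlocks_multiply, pow_succ, pow_succ]; simp

theorem bs_pmk (ha : 1 ≤ a) {s : Matrix.symplecticGroup (Fin a) F} {t : Matrix.symplecticGroup (Fin b) F} (h : ((bs s t : Matrix.symplecticGroup (Fin (a + b)) F) : Cfsg.PSp (a + b) F) = 1) :
    (s.1 = 1 ∧ t.1 = 1) ∨ (s.1 = -1 ∧ t.1 = -1) := by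
  rcases (pmk_one_iff (by omega) _).1 h with h | h
  · left
    have h1 : RS a b F (Matrix.fromBlocks s.1 0 0 t.1) = RS a b F (Matrix.fromBlocks 1 0 0 1) := by
      rw [Matrix.fromBlocks_one, map_one]; exact h
    have h2 := Matrix.fromBlocks_inj.1 ((RS a b F).injective h1)
    exact ⟨h2.1, h2.2.2.2⟩
  · right
    have h1 : RS a b F (Matrix.fromBlocks s.1 0 0 t.1) = RS a b F (Matrix.fromBlocks (-1) 0 0 (-1)) := by
      have : (Matrix.fromBlocks (-1) 0 0 (-1) : Matrix ((Fin a ⊕ Fin a) ⊕ (Fin b ⊕ Fin b)) ((Fin a ⊕ Fin a) ⊕ (Fin b ⊕ Fin b)) F) = -1 := by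
        have e : (Matrix.fromBlocks (-1) 0 0 (-1) : Matrix ((Fin a ⊕ Fin a) ⊕ (Fin b ⊕ Fin b)) ((Fin a ⊕ Fin a) ⊕ (Fin b ⊕ Fin b)) F) = -Matrix.fromBlocks 1 0 0 1 := by
          rw [Matrix.fromBlocks_neg, neg_zero, neg_zero]
        rw [e, Matrix.fromBlocks_one]
      rw [this, map_neg, map_one]; exact h
    have h2 := Matrix.fromBlocks_inj.1 ((RS a b F).injective h1)
    exact ⟨h2.1, h2.2.2.2⟩

end Embed

end Cfsg.Agent.H8.SpecSP
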