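import Mathlib
import Cfsg.Agent.H8.SpecSP3
import Cfsg.Agent.Lib.BForm8

set_option autoImplicit false
set_option linter.all false

/-! Spectra of direct powers of `PSp_2n(q)`: elements of orders `q^n - 1` and `q^n + 1`. -/

namespace Cfsg.Agent.H8.SpecSP

open Polynomial
open Cfsg.Agent.H8.SpecSL

section Singer
variable {F : Type*} [Field F] [Fintype F] {n : ℕ}

theorem singer_minus {p a : ℕ} (hF : Fintype.card F = p ^ a) (hp : p.Prime) (hn : n ≠ 0) :
    ∃ c : Matrix.symplecticGroup (Fin n) F, Fintype.card F ^ n - 1 ∣ orderOf c := by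
  haveI : Fact p.Prime := ⟨hp⟩
  haveI : CharP F p := card_pow hF hp
  haveI : NeZero n := ⟨hn⟩
  let K := FiniteField.Extension F p n
  set q := Fintype.card F with hq
  have hq2 : 2 ≤ q := Fintype.one_lt_card
  have hK : Nat.card K = q ^ n := by rw [FiniteField.natCard_extension, Nat.card_eq_fintype_card]
  have hfr : Module.finrank F K = n := FiniteField.finrank_extension F p n
  haveI : Finite K := inferInstance
  obtain ⟨γ, hγ⟩ := IsCyclic.exists_generator (α := Kˣ)
  have hγo : orderOf γ = q ^ n - 1 := by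
    rw [orderOf_eq_card_of_forall_mem_zpowers hγ, Nat.card_units, hK]
  let b := Module.finBasisOfFinrankEq F K hfr
  let Φ := Algebra.leftMulMatrix b
  have hΦ : Function.Injective Φ := Algebra.leftMulMatrix_injective b
  set M : Matrix (Fin n) (Fin n) F := Φ (γ : K) with hM
  set M' : Matrix (Fin n) (Fin n) F := Φ ((γ⁻¹ : Kˣ) : K) with hM'
  have h1 : M' * M = 1 := by
    rw [hM, hM', ← map_mul, ← Units.val_mul, inv_mul_cancel, Units.val_one, map_one]
  let c : Matrix.symplecticGroup (Fin n) F := ⟨Matrix.fromBlocks M 0 0 M'.transpose, (mem_iff_sst _).2 (by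
    rw [sst_fromBlocks, Matrix.transpose_transpose, Matrix.fromBlocks_multiply, h1, ← Matrix.transpose_mul, h1]
    simp)⟩
  refine ⟨c, ?_⟩
  set j := orderOf c with hj
  have hcj : c ^ j = 1 := pow_orderOf_eq_one c
  have hpow : ∀ k : ℕ, (Matrix.fromBlocks M 0 0 M'.transpose) ^ k = Matrix.fromBlocks (M ^ k) 0 0 (M'.transpose ^ k) := by
    intro k
    induction k with
    | zero => simp
    | succ k ih => rw [pow_succ, ih, Matrix.fromBlocks_multiply, pow_succ, pow_succ]; simp
  have h2 : Matrix.fromBlocks (M ^ j) 0 0 (M'.transpose ^ j) = (1 : Matrix (Fin n ⊕ Fin n) (Fin n ⊕ Fin n) F) := by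
    rw [← hpow]; exact congrArg Subtype.val hcj
  rw [← Matrix.fromBlocks_one] at h2
  have h3 := (Matrix.fromBlocks_inj.1 h2).1
  have h4 : Φ ((γ : K) ^ j) = Φ 1 := by rw [map_pow, map_one]; exact h3
  rw [← hγo]
  apply orderOf_dvd_of_pow_eq_one
  apply Units.ext
  rw [Units.val_pow_eq_pow_val, Units.val_one]
  exact hΦ h4

theorem singer_plus (h22 : (2 : F) ≠ 0) {p a : ℕ} (hF : Fintype.card F = p ^ a) (hp : p.Prime) (hn : n ≠ 0) :
    ∃ c : Matrix.symplecticGroup (Fin n) F, Fintype.card F ^ n + 1 ∣ orderOf c := by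
  haveI : Fact p.Prime := ⟨hp⟩
  haveI : CharP F p := card_pow hF hp
  haveI : NeZero (2 * n) := ⟨by omega⟩
  let K := FiniteField.Extension F p (2 * n)
  set q := Fintype.card F with hq
  have hq2 : 2 ≤ q := Fintype.one_lt_card
  have hK : Nat.card K = q ^ (2 * n) := by rw [FiniteField.natCard_extension, Nat.card_eq_fintype_card]
  have hfr : Module.finrank F K = 2 * n := FiniteField.finrank_extension F p (2 * n)
  haveI : Finite K := inferInstance
  haveI : FiniteDimensional F K := Module.Finite.of_finite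
  obtain ⟨γ, hγ⟩ := IsCyclic.exists_generator (α := Kˣ)
  have hqn1 : 1 < q ^ n := Nat.one_lt_pow hn (by omega)
  have hsq : q ^ (2 * n) - 1 = (q ^ n - 1) * (q ^ n + 1) := by
    have := Nat.sq_sub_sq (q ^ n) 1
    rw [one_pow, ← pow_mul, mul_comm n 2] at this
    rw [this, mul_comm]
  have hγo : orderOf γ = (q ^ n - 1) * (q ^ n + 1) := by
    rw [orderOf_eq_card_of_forall_mem_zpowers hγ, Nat.card_units, hK, hsq]
  set β : Kˣ := γ ^ (q ^ n - 1) with hβ
  have hβo : orderOf β = q ^ n + 1 := by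
    rw [hβ, orderOf_pow_of_dvd (by omega) (by rw [hγo]; exact Dvd.intro _ rfl), hγo, Nat.mul_div_cancel_left _ (by omega)]
  have hβ1 : ∀ j, (β : K) ^ j = 1 ↔ q ^ n + 1 ∣ j := by
    intro j
    rw [← hβo, orderOf_dvd_iff_pow_eq_one, ← Units.val_pow_eq_pow_val, Units.val_eq_one]
  have hβ0 : (β : K) ≠ 0 := β.ne_zero
  have hint : IsIntegral F (β : K) := Algebra.IsIntegral.isIntegral _
  set f := minpoly F (β : K) with hf
  have hfi : Irreducible f := minpoly.irreducible hint
  have hfm : f.Monic := minpoly.monic hint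
  have hf0 : aeval (β : K) f = 0 := minpoly.aeval F _
  have hd1 : f.natDegree ∣ 2 * n := by rw [← hfr]; exact minpoly.degree_dvd hint
  have hd2 : q ^ n + 1 ∣ q ^ f.natDegree - 1 := by
    have h2 : f ∣ (X ^ (Nat.card F) ^ f.natDegree - X : F[X]) := hfi.natDegree_dvd_iff_dvd_X_pow_card_pow_sub_X.1 dvd_rfl
    rw [Nat.card_eq_fintype_card, ← hq] at h2
    obtain ⟨c, hc⟩ := h2
    have h3 : aeval (β : K) (X ^ q ^ f.natDegree - X : F[X]) = 0 := by rw [hc, map_mul, hf0, zero_mul]
    rw [map_sub, map_pow, aeval_X] at h3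
    rw [← hβ1]
    have h4 : (β : K) ^ (q ^ f.natDegree - 1) * β = 1 * β := by
      rw [← pow_succ, Nat.sub_add_cancel (Nat.one_le_pow _ _ (by omega)), one_mul]
      exact sub_eq_zero.1 h3
    exact mul_right_cancel₀ hβ0 h4
  have hd : f.natDegree = 2 * n := by
    have hpos : 0 < f.natDegree := hfi.natDegree_pos
    obtain ⟨c, hc⟩ := hd1
    have hlt : n < f.natDegree := by
      by_contra hle
      push Not at hle
      have h1 : q ^ f.natDegree ≤ q ^ n := Nat.pow_le_pow_right (by omega) hle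
      have h2 : 1 < q ^ f.natDegree := Nat.one_lt_pow (by omega) (by omega)
      have h3 := Nat.le_of_dvd (by omega) hd2
      omega
    have hc1 : c = 1 := by
      rcases Nat.lt_or_ge c 2 with h | h
      · interval_cases c
        · omega
        · rfl
      · have : f.natDegree * 2 ≤ f.natDegree * c := Nat.mul_le_mul_left _ h
        omega
    rw [hc, hc1, mul_one]
  -- palindromic
  have hinv : (β : K) ^ q ^ n = (β : K)⁻¹ := by
    apply eq_inv_of_mul_eq_one_left
    rw [← pow_succ]
    exact (hβ1 _).2 dvd_rfl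
  have hroot : aeval ((β : K)⁻¹) f = 0 := by
    rw [← hinv, ← expand_aeval, hq, expand_card_pow, map_pow, hf0, zero_pow]
    exact (pow_pos (by omega) _).ne'
  have hrev : aeval (β : K) f.reverse = 0 := by
    letI : Invertible ((β : K)⁻¹) := invertibleOfNonzero (inv_ne_zero hβ0)
    have h1 := (Polynomial.eval₂_reverse_eq_zero_iff (algebraMap F K) ((β : K)⁻¹) f).2 hroot
    rwa [invOf_eq_inv, inv_inv] at h1
  have hc0 : f.coeff 0 ≠ 0 := by
    intro h
    have h1 : (X : F[X]) ∣ f := X_dvd_iff.2 h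
    obtain ⟨c, hc⟩ := h1
    rw [hc, map_mul, aeval_X] at hf0
    have h2 := (mul_eq_zero.1 hf0).resolve_left hβ0
    have h3 : f ∣ c := minpoly.dvd F _ h2
    have hc00 : c ≠ 0 := by rintro rfl; rw [mul_zero] at hc; exact hfi.ne_zero hc
    have h4 := natDegree_le_of_dvd h3 hc00
    rw [hc, natDegree_X_mul hc00] at h4
    omega
  obtain ⟨c, hc⟩ := minpoly.dvd F _ hrev
  rw [← hf] at hc
  have hrev0 : f.reverse ≠ 0 := by rw [Ne, reverse_eq_zero]; exact hfi.ne_zero
  have hcne : c ≠ 0 := by rintro rfl; rw [mul_zero] at hc; exact hrev0 hc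
  have hcd : c.natDegree = 0 := by
    have h1 := reverse_natDegree_le f
    rw [hc, natDegree_mul hfi.ne_zero hcne] at h1
    omega
  obtain ⟨c0, rfl⟩ : ∃ c0, c = C c0 := ⟨_, eq_C_of_natDegree_eq_zero hcd⟩
  have e1 : f.coeff 0 * c0 = 1 := by
    have h1 := congrArg (fun g => g.coeff 0) hc
    simp only [coeff_zero_reverse, coeff_mul_C] at h1
    rw [← h1]; exact hfm
  have e2 : f.coeff 0 = c0 := by
    have h1 := congrArg Polynomial.leadingCoeff hc
    rw [leadingCoeff_mul, hfm.leadingCoeff, one_mul, leadingCoeff_C, reverse_leadingCoeff, trailingCoeff,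
      natTrailingDegree_eq_zero.2 (Or.inr hc0)] at h1
    exact h1
  have e3 : (c0 - 1) * (c0 + 1) = 0 := by rw [e2] at e1; linear_combination e1
  have hf3 : f.reverse = f := by
    rcases mul_eq_zero.1 e3 with h | h
    · rw [hc, show c0 = 1 by linear_combination h, C_1, mul_one]
    · exfalso
      have h1 : c0 = -1 := by linear_combination h
      rw [h1] at hc
      have h2 := congrArg (eval 1) hc
      rw [eval_mul, eval_C] at h2
      have h3 : eval 1 f.reverse = eval 1 f := by
        letI : Invertible (1 : F) := invertibleOne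
        have := eval₂_reverse_mul_pow (RingHom.id F) (1 : F) f
        rw [invOf_one, one_pow, mul_one] at this
        exact this
      rw [h3] at h2
      have h4 : (2 : F) * eval 1 f = 0 := by linear_combination h2
      have h5 : f.IsRoot 1 := (mul_eq_zero.1 h4).resolve_left h22
      have h6 : f.natDegree = 1 := natDegree_eq_of_degree_eq_some (degree_eq_one_of_irreducible_of_root hfi h5)
      rw [hd] at h6
      omega
  obtain ⟨g, -, hg⟩ := Cfsg.Agent.Lib.BForm.exists_sp_charpoly (p := p) hfm hd hf3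
  refine ⟨g, ?_⟩
  set j := orderOf g with hj
  have hgj : g ^ j = 1 := pow_orderOf_eq_one g
  have h1 : aeval g.1 (X ^ j - 1 : F[X]) = 0 := by
    rw [map_sub, map_pow, aeval_X, map_one]
    exact sub_eq_zero.2 (congrArg Subtype.val hgj)
  haveI : Nonempty (Fin n) := ⟨⟨0, Nat.pos_of_ne_zero hn⟩⟩
  have h2 : minpoly F g.1 ∣ f := by rw [← hg]; exact Matrix.minpoly_dvd_charpoly _
  have h3 : f ∣ minpoly F g.1 := by
    obtain ⟨c, hc⟩ := h2
    rcases hfi.isUnit_or_isUnit hc with h | h
    · exact absurd h (minpoly.not_isUnit F _)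
    · rw [hc]; exact (h.mul_right_dvd).2 dvd_rfl
  obtain ⟨c, hc⟩ := h3.trans (minpoly.dvd F _ h1)
  rw [← hβ1]
  have h4 : aeval (β : K) (X ^ j - 1 : F[X]) = 0 := by rw [hc, map_mul, hf0, zero_mul]
  rw [map_sub, map_pow, aeval_X, map_one] at h4
  exact sub_eq_zero.1 h4

end Singer

end Cfsg.Agent.H8.SpecSP
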