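import Mathlib
import Cfsg.Agent.H8.SpecSP4

set_option autoImplicit false
set_option linter.all false

/-! Spectra of direct powers of `PSp_2n(q)`: main reduction. -/

namespace Cfsg.Agent.H8.SpecSP

open Polynomial
open Cfsg.Agent.H8.SpecSL Cfsg.Agent.H8.SpecAbs

section Ord
variable {F : Type*} [Field F] {m : ℕ} {p : ℕ} [Fact p.Prime] [CharP F p]

theorem two_ne (hp2 : p ≠ 2) : (2 : F) ≠ 0 := by
  intro h
  have h1 : ((2 : ℕ) : F) = 0 := by exact_mod_cast h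
  rw [CharP.cast_eq_zero_iff F p] at h1
  exact hp2 ((Nat.prime_dvd_prime_iff_eq Fact.out Nat.prime_two).1 h1)

theorem sub_one_pow [Nonempty (Fin m)] (u : Matrix (Fin m ⊕ Fin m) (Fin m ⊕ Fin m) F) (N : ℕ) : (u - 1) ^ (p ^ N) = u ^ (p ^ N) - 1 := by
  rw [sub_pow_char_pow_of_commute _ _ (Commute.one_right u), one_pow]

theorem neg_one_ne [Nonempty (Fin m)] (hp2 : p ≠ 2) : (-1 : Matrix (Fin m ⊕ Fin m) (Fin m ⊕ Fin m) F) ≠ 1 := by
  intro h
  obtain ⟨i⟩ := ‹Nonempty (Fin m)›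
  have h1 := congrFun (congrFun h (Sum.inl i)) (Sum.inl i)
  rw [Matrix.neg_apply, Matrix.one_apply_eq] at h1
  apply two_ne (F := F) hp2
  linear_combination -h1

theorem exists_unip (hp2 : p ≠ 2) (hm : m ≠ 0) : ∃ u : Matrix.symplecticGroup (Fin m) F,
    (∀ k, u.1 ^ k ≠ -1) ∧ ∀ j, (∀ j', j = j' + 1 → p ^ j' ≤ 2 * m - 1) → ∀ k, u.1 ^ k = 1 → p ^ j ∣ k := by
  haveI : Nonempty (Fin m) := ⟨⟨0, Nat.pos_of_ne_zero hm⟩⟩
  have hp : p.Prime := Fact.out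
  obtain ⟨u, h1, h2⟩ := exists_reg (F := F) (two_ne hp2) hm
  set N := 2 * m with hNd
  have hN : u.1 ^ p ^ N = 1 := by
    have h3 : N ≤ p ^ N := (Nat.lt_pow_self hp.one_lt).le
    have h4 : (u.1 - 1) ^ p ^ N = 0 := by rw [← Nat.sub_add_cancel h3, pow_add, h1, mul_zero]
    rw [sub_one_pow] at h4
    exact sub_eq_zero.1 h4
  refine ⟨u, ?_, ?_⟩
  · intro k hk
    have h3 : (u.1 ^ k) ^ p ^ N = 1 := by rw [← pow_mul, mul_comm, pow_mul, hN, one_pow]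
    rw [hk, ((hp.odd_of_ne_two hp2).pow).neg_one_pow] at h3
    exact neg_one_ne (F := F) hp2 h3
  · intro j hj k hk
    rcases j with _ | j
    · simp
    have h3 := hj j rfl
    have h4 : orderOf u.1 ∣ p ^ N := orderOf_dvd_of_pow_eq_one hN
    obtain ⟨e, he, he2⟩ := (Nat.dvd_prime_pow hp).1 h4
    have h5 : ¬ e ≤ j := by
      intro hle
      have h6 : u.1 ^ p ^ j = 1 := orderOf_dvd_iff_pow_eq_one.1 (by rw [he2]; exact pow_dvd_pow p hle)
      have h7 : (u.1 - 1) ^ p ^ j = 0 := by rw [sub_one_pow, h6, sub_self]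
      apply h2
      rw [← Nat.sub_add_cancel h3, pow_add, h7, mul_zero]
    exact (pow_dvd_pow p (show j + 1 ≤ e by omega)).trans (he2 ▸ orderOf_dvd_of_pow_eq_one hk)

theorem block (hp2 : p ≠ 2) {a b : ℕ} (ha : 1 ≤ a) {M : ℕ} (hM : ∃ c : Matrix.symplecticGroup (Fin b) F, M ∣ orderOf c)
    (hMp : Nat.Coprime p M) (j : ℕ) (hj : ∀ j', j = j' + 1 → p ^ j' ≤ 2 * a - 1) :
    ∃ y : Cfsg.PSp (a + b) F, p ^ j * M ∣ orderOf y := by
  obtain ⟨u, hu1, hu2⟩ := exists_unip (F := F) (m := a) hp2 (by omega)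
  obtain ⟨c, hc⟩ := hM
  refine ⟨((bs u c : Matrix.symplecticGroup (Fin (a + b)) F) : Cfsg.PSp (a + b) F), ?_⟩
  set k := orderOf ((bs u c : Matrix.symplecticGroup (Fin (a + b)) F) : Cfsg.PSp (a + b) F) with hk
  have h1 : ((bs u c : Matrix.symplecticGroup (Fin (a + b)) F) : Cfsg.PSp (a + b) F) ^ k = 1 := pow_orderOf_eq_one _
  rw [pmk_pow, bs_pow] at h1
  rcases bs_pmk ha h1 with ⟨e1, e2⟩ | ⟨e1, e2⟩
  · exact (Nat.Coprime.pow_left j hMp).mul_dvd_of_dvd_of_dvd (hu2 j hj k e1) (hc.trans (orderOf_dvd_of_pow_eq_one (Subtype.ext e2)))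
  · exact absurd e1 (hu1 k)

/-- the case of proper blocks -/
theorem redP (hp2 : p ≠ 2) {a' δ i M : ℕ} (s : Matrix.symplecticGroup (Fin (a' + δ)) F) (hx : ¬ 2 ∣ orderOf (s : Cfsg.PSp (a' + δ) F))
    (h : (s.1 ^ M - 1) ^ i = 0) (hi : 2 ≤ i) (hia : i - 1 ≤ a') (hM : ∃ c : Matrix.symplecticGroup (Fin δ) F, M ∣ orderOf c)
    (hMp : Nat.Coprime p M) (hM2 : 2 ∣ M) : ∃ y : Cfsg.PSp (a' + δ) F, 2 * orderOf (s : Cfsg.PSp (a' + δ) F) ∣ orderOf y := by
  have hp : p.Prime := Fact.out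
  haveI : Nonempty (Fin (a' + δ)) := ⟨⟨0, by omega⟩⟩
  have h1 : i ≤ p ^ Nat.clog p i := Nat.le_pow_clog hp.one_lt i
  have h2 : p ^ (Nat.clog p i).pred < i := Nat.pow_pred_clog_lt_self hp.one_lt hi
  obtain ⟨y, hy⟩ := block (F := F) hp2 (a := a') (b := δ) (by omega) hM hMp (Nat.clog p i) (by
    intro j' hj'
    rw [hj', Nat.pred_succ] at h2
    omega)
  refine ⟨y, dvd_trans ?_ hy⟩
  have h3 : (s.1 ^ M - 1) ^ p ^ Nat.clog p i = 0 := by rw [← Nat.sub_add_cancel h1, pow_add, h, mul_zero]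
  rw [sub_one_pow, ← pow_mul] at h3
  have h4 : (s : Cfsg.PSp (a' + δ) F) ^ (p ^ Nat.clog p i * M) = 1 := by
    rw [pmk_pow]
    refine (pmk_one_iff (by omega) _).2 (Or.inl ?_)
    show s.1 ^ (p ^ Nat.clog p i * M) = 1
    rw [mul_comm]; exact sub_eq_zero.1 h3
  exact ((Nat.Prime.coprime_iff_not_dvd Nat.prime_two).2 hx).mul_dvd_of_dvd_of_dvd (hM2.mul_left _) (orderOf_dvd_of_pow_eq_one h4)

end Ord

section Main
variable {F : Type*} [Field F] [Fintype F] {n : ℕ} {p a : ℕ}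

theorem q_odd (hp : p.Prime) (hp2 : p ≠ 2) (hF : Fintype.card F = p ^ a) (δ : ℕ) : Odd (Fintype.card F ^ δ) := by
  rw [hF, ← pow_mul]; exact (hp.odd_of_ne_two hp2).pow

theorem redQ (hF : Fintype.card F = p ^ a) (hp : p.Prime) (ha : 1 ≤ a) (hp2 : p ≠ 2) (hn : 1 ≤ n) (s : Matrix.symplecticGroup (Fin n) F)
    (hx : ¬ 2 ∣ orderOf (s : Cfsg.PSp n F)) {δ i M : ℕ} (hδ : δ * i = n) (hM : M = Fintype.card F ^ δ - 1 ∨ M = Fintype.card F ^ δ + 1)
    (h : (s.1 ^ M - 1) ^ i = 0) :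
    (∃ y : Cfsg.PSp n F, 2 * orderOf (s : Cfsg.PSp n F) ∣ orderOf y) ∨
      orderOf (s : Cfsg.PSp n F) ∣ (Fintype.card F ^ n - 1) / 2 ∨ orderOf (s : Cfsg.PSp n F) ∣ (Fintype.card F ^ n + 1) / 2 := by
  haveI : Fact p.Prime := ⟨hp⟩
  haveI : CharP F p := card_pow hF hp
  have hδ0 : δ ≠ 0 := by rintro rfl; rw [zero_mul] at hδ; omega
  have hi0 : i ≠ 0 := by rintro rfl; rw [mul_zero] at hδ; omega
  have hqo := q_odd (F := F) hp hp2 hF δ
  have hM2 : 2 ∣ M := by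
    obtain ⟨k, hk⟩ := hqo
    rcases hM with rfl | rfl
    · rw [hk]; exact ⟨k, by omega⟩
    · rw [hk]; exact ⟨k + 1, by omega⟩
  rcases Nat.lt_or_ge i 2 with hi | hi
  · right
    have hi1 : i = 1 := by omega
    rw [hi1, mul_one] at hδ
    rw [hi1, pow_one] at h
    subst hδ
    have h1 : orderOf (s : Cfsg.PSp δ F) ∣ M := by
      apply orderOf_dvd_of_pow_eq_one
      rw [pmk_pow]
      exact (pmk_one_iff (by omega) _).2 (Or.inl (sub_eq_zero.1 h))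
    have h2 : orderOf (s : Cfsg.PSp δ F) ∣ M / 2 := by
      rw [← Nat.div_mul_cancel hM2] at h1
      exact (((Nat.Prime.coprime_iff_not_dvd Nat.prime_two).2 hx).symm).dvd_of_dvd_mul_right h1
    rcases hM with rfl | rfl
    · exact Or.inl h2
    · exact Or.inr h2
  · left
    obtain ⟨a', rfl⟩ : ∃ a', n = a' + δ := ⟨n - δ, by
      have : δ * 1 ≤ δ * i := Nat.mul_le_mul_left _ (by omega)
      omega⟩
    have hia : i - 1 ≤ a' := by
      obtain ⟨i', rfl⟩ : ∃ i', i = i' + 1 := ⟨i - 1, by omega⟩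
      have h1 : δ * (i' + 1) = δ * i' + δ := by ring
      have h2 : a' = δ * i' := by omega
      have h3 : 1 * i' ≤ δ * i' := Nat.mul_le_mul_right _ (by omega)
      omega
    have hpq : p ∣ Fintype.card F ^ δ := by
      rw [hF, ← pow_mul]
      exact dvd_pow_self p (Nat.mul_ne_zero (by omega) hδ0)
    have hq1 : 1 < Fintype.card F ^ δ := Nat.one_lt_pow hδ0 Fintype.one_lt_card
    refine redP hp2 s hx h hi hia ?_ ?_ hM2
    · rcases hM with rfl | rfl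
      · exact singer_minus hF hp hδ0
      · exact singer_plus (two_ne hp2) hF hp hδ0
    · rw [Nat.Prime.coprime_iff_not_dvd hp]
      intro hd
      apply hp.one_lt.ne'
      rcases hM with rfl | rfl
      · have h1 : p ∣ Fintype.card F ^ δ - (Fintype.card F ^ δ - 1) := Nat.dvd_sub hpq hd
        rw [show Fintype.card F ^ δ - (Fintype.card F ^ δ - 1) = 1 by omega] at h1
        exact Nat.dvd_one.1 h1
      · have h1 : p ∣ Fintype.card F ^ δ + 1 - Fintype.card F ^ δ := Nat.dvd_sub hd hpq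
        rw [show Fintype.card F ^ δ + 1 - Fintype.card F ^ δ = 1 by omega] at h1
        exact Nat.dvd_one.1 h1

theorem mainSP (hF : Fintype.card F = p ^ a) (hp : p.Prime) (ha : 1 ≤ a) (hp2 : p ≠ 2) (hn : 1 ≤ n) (x : Cfsg.PSp n F)
    (hx : ¬ 2 ∣ orderOf x) :
    (∃ y : Cfsg.PSp n F, 2 * orderOf x ∣ orderOf y) ∨ (∃ e, orderOf x = p ^ e) ∨
      orderOf x ∣ (Fintype.card F ^ n - 1) / 2 ∨ orderOf x ∣ (Fintype.card F ^ n + 1) / 2 := by
  haveI : Fact p.Prime := ⟨hp⟩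
  haveI : CharP F p := card_pow hF hp
  haveI : Nonempty (Fin n) := ⟨⟨0, by omega⟩⟩
  obtain ⟨s, rfl⟩ := QuotientGroup.mk_surjective x
  have hss : sst s.1 * s.1 = 1 := (mem_iff_sst _).1 s.2
  obtain ⟨f, hf, hfs⟩ := WfDvdMonoid.exists_irreducible_factor (minpoly.not_isUnit F s.1) (minpoly.ne_zero (Matrix.isIntegral s.1))
  have hQ : 1 < Fintype.card F := Fintype.one_lt_card
  have fin : ∀ {δ i M : ℕ} (hδ : δ * i = n) (hM : M = Fintype.card F ^ δ - 1 ∨ M = Fintype.card F ^ δ + 1)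
      (h : (s.1 ^ M - 1) ^ i = 0), (∃ y : Cfsg.PSp n F, 2 * orderOf (s : Cfsg.PSp n F) ∣ orderOf y) ∨ (∃ e, orderOf (s : Cfsg.PSp n F) = p ^ e) ∨
      orderOf (s : Cfsg.PSp n F) ∣ (Fintype.card F ^ n - 1) / 2 ∨ orderOf (s : Cfsg.PSp n F) ∣ (Fintype.card F ^ n + 1) / 2 := by
    intro δ i M hδ hM h
    rcases redQ hF hp ha hp2 hn s hx hδ hM h with h | h
    · exact Or.inl h
    · exact Or.inr (Or.inr h)
  rcases trichotomy hss hf hfs with ⟨k, hk⟩ | ⟨π, h1, h2, h3, h4, h5⟩ | ⟨e, k, h1, h2, h3, h4⟩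
  · have hkJ : k ≤ Fintype.card F ^ k := (Nat.lt_pow_self hQ).le
    have ht : aeval (s.1 ^ (Fintype.card F ^ k)) f = 0 := by
      rw [← expand_aeval, expand_card_pow, ← Nat.sub_add_cancel hkJ, pow_add, map_mul, hk, mul_zero]
    have hst : sst (s.1 ^ (Fintype.card F ^ k)) * s.1 ^ (Fintype.card F ^ k) = 1 :=
      (mem_iff_sst _).1 (s ^ (Fintype.card F ^ k)).2
    rcases caseA (by omega) hst hf ht with h1 | ⟨d', hd', hfd⟩
    · right; left
      have h2 : (s : Cfsg.PSp n F) ^ (p ^ (a * k)) = 1 := by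
        rw [pow_mul, ← hF, pmk_pow]
        exact (pmk_one_iff hn _).2 h1
      obtain ⟨e, -, he⟩ := (Nat.dvd_prime_pow hp).1 (orderOf_dvd_of_pow_eq_one h2)
      exact ⟨e, he⟩
    · let Φ : Matrix (Fin n ⊕ Fin n) (Fin n ⊕ Fin n) F →ₐ[F] Module.End F (Fin n ⊕ Fin n → F) := (Matrix.toLinAlgEquiv' (R := F) (n := Fin n ⊕ Fin n)).toAlgHom
      have hΦ : Function.Injective Φ := (Matrix.toLinAlgEquiv' (R := F) (n := Fin n ⊕ Fin n)).injective
      obtain ⟨i, hi, hi2⟩ := exists_i (T := Φ s.1) hf (k := k) (by rw [aeval_algHom_apply, hk, map_zero])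
      rw [aeval_algHom_apply] at hi2
      have hi3 : aeval s.1 (f ^ i) = 0 := hΦ (by rw [hi2, map_zero])
      rw [Module.finrank_fintype_fun_eq_card, Fintype.card_sum, Fintype.card_fin, hd', mul_assoc] at hi
      refine fin (δ := d') (i := i) (by omega) (Or.inr rfl) ?_
      obtain ⟨c, hc⟩ := pow_dvd_pow_of_dvd hfd i
      have h6 : aeval s.1 ((X ^ (Fintype.card F ^ d' + 1) - 1 : F[X]) ^ i) = (s.1 ^ (Fintype.card F ^ d' + 1) - 1) ^ i := by
        rw [map_pow, map_sub, map_pow, aeval_X, map_one]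
      rw [← h6, hc, map_mul, hi3, zero_mul]
  · left
    obtain ⟨h, hh1, hh2, hh3⟩ := exists_h (two_ne (F := F) hp2) hn (s := s) h1 h2 h3 h4 h5
    refine ⟨((h * s : Matrix.symplecticGroup (Fin n) F) : Cfsg.PSp n F), ?_⟩
    have e1 : orderOf (h : Cfsg.PSp n F) = 2 := orderOf_eq_prime hh2 hh3
    have e2 : Commute (h : Cfsg.PSp n F) (s : Cfsg.PSp n F) := by
      show (h : Cfsg.PSp n F) * (s : Cfsg.PSp n F) = (s : Cfsg.PSp n F) * (h : Cfsg.PSp n F)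
      rw [← QuotientGroup.mk_mul, ← QuotientGroup.mk_mul, hh1]
    rw [QuotientGroup.mk_mul, e2.orderOf_mul_eq_mul_orderOf_of_coprime, e1]
    rw [e1]
    exact (Nat.Prime.coprime_iff_not_dvd Nat.prime_two).2 hx
  · obtain ⟨i, hi, hi2⟩ := caseB (by omega) hss h1 h2 h3 hf h4
    exact fin hi (Or.inl rfl) hi2

theorem unip_wP (hF : Fintype.card F = p ^ a) (hp : p.Prime) (ha : 1 ≤ a) (hp2 : p ≠ 2) (hn : 2 ≤ n)
    (hnp : ¬ ∃ j, 2 * n - 1 = p ^ j) (e : ℕ) (he : ∃ z : Cfsg.PSp n F, orderOf z = p ^ e) :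
    ∃ w : Cfsg.PSp n F, 2 * p ^ e ∣ orderOf w := by
  haveI : Fact p.Prime := ⟨hp⟩
  haveI : CharP F p := card_pow hF hp
  haveI : Nonempty (Fin n) := ⟨⟨0, by omega⟩⟩
  have hqo := q_odd (F := F) hp hp2 hF 1
  have hM2 : 2 ∣ Fintype.card F ^ 1 + 1 := by
    obtain ⟨k, hk⟩ := hqo
    rw [hk]; exact ⟨k + 1, by omega⟩
  have hMp : Nat.Coprime p (Fintype.card F ^ 1 + 1) := by
    rw [Nat.Prime.coprime_iff_not_dvd hp]
    intro hd
    apply hp.one_lt.ne'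
    have hpq : p ∣ Fintype.card F ^ 1 := by
      rw [hF, pow_one]
      exact dvd_pow_self p (by omega)
    have h1 : p ∣ Fintype.card F ^ 1 + 1 - Fintype.card F ^ 1 := Nat.dvd_sub hd hpq
    rw [show Fintype.card F ^ 1 + 1 - Fintype.card F ^ 1 = 1 by omega] at h1
    exact Nat.dvd_one.1 h1
  have hj : ∀ j', e = j' + 1 → p ^ j' ≤ 2 * (n - 1) - 1 := by
    rintro j rfl
    obtain ⟨z, hz⟩ := he
    obtain ⟨s, rfl⟩ := QuotientGroup.mk_surjective z
    have h1 : ((s ^ p ^ (j + 1) : Matrix.symplecticGroup (Fin n) F) : Cfsg.PSp n F) = 1 := by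
      rw [← pmk_pow, ← hz]; exact pow_orderOf_eq_one _
    have hodd : ∀ j, Odd (p ^ j) := fun j => (hp.odd_of_ne_two hp2).pow
    obtain ⟨S, hS, hSp⟩ : ∃ S : Matrix (Fin n ⊕ Fin n) (Fin n ⊕ Fin n) F, (S = s.1 ∨ S = -s.1) ∧ S ^ p ^ (j + 1) = 1 := by
      rcases (pmk_one_iff (by omega) _).1 h1 with h | h
      · exact ⟨s.1, Or.inl rfl, h⟩
      · refine ⟨-s.1, Or.inr rfl, ?_⟩
        have h' : s.1 ^ p ^ (j + 1) = -1 := h
        rw [(hodd (j + 1)).neg_pow, h', neg_neg]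
    have h2 : (S - 1) ^ p ^ (j + 1) = 0 := by rw [sub_one_pow, hSp, sub_self]
    have h3 : (S - 1) ^ (2 * n) = 0 := by
      have h3' : IsNilpotent (S - 1) := ⟨_, h2⟩
      have h3'' := (Matrix.isNilpotent_charpoly_sub_pow_of_isNilpotent h3').eq_zero
      rw [sub_eq_zero, Fintype.card_sum, Fintype.card_fin] at h3''
      have := Matrix.aeval_self_charpoly (S - 1)
      rw [h3'', map_pow, aeval_X] at this
      rw [two_mul]; exact this
    have h4 : p ^ j < 2 * n := by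
      by_contra hcon
      push Not at hcon
      have h5 : (S - 1) ^ p ^ j = 0 := by rw [← Nat.sub_add_cancel hcon, pow_add, h3, mul_zero]
      rw [sub_one_pow] at h5
      have h6 : (s : Cfsg.PSp n F) ^ p ^ j = 1 := by
        rw [pmk_pow]
        refine (pmk_one_iff (by omega) _).2 ?_
        rcases hS with rfl | rfl
        · exact Or.inl (sub_eq_zero.1 h5)
        · right
          have h7 := sub_eq_zero.1 h5
          rw [(hodd j).neg_pow] at h7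
          show s.1 ^ p ^ j = -1
          rw [← h7, neg_neg]
      have h7 := orderOf_dvd_of_pow_eq_one h6
      have hz' : orderOf (s : Cfsg.PSp n F) = p ^ (j + 1) := hz
      rw [hz'] at h7
      have := (Nat.pow_dvd_pow_iff_le_right hp.one_lt).1 h7
      omega
    obtain ⟨k, hk⟩ := hodd j
    have h5 : p ^ j ≠ 2 * n - 1 := fun h => hnp ⟨j, h.symm⟩
    omega
  have h := block (F := F) hp2 (a := n - 1) (b := 1) (by omega) (M := Fintype.card F ^ 1 + 1) (singer_plus (two_ne hp2) hF hp one_ne_zero) hMp e hj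
  rw [Nat.sub_add_cancel (by omega)] at h
  obtain ⟨y, hy⟩ := h
  refine ⟨y, dvd_trans ?_ hy⟩
  rw [mul_comm]
  exact mul_dvd_mul_left _ hM2

end Main

section Abs
variable {G : Type*} [Group G] [Finite G] {p A B m : ℕ}

theorem threeP
    (h1 : ∀ x : G, ¬ 2 ∣ orderOf x → (∃ y : G, 2 * orderOf x ∣ orderOf y) ∨ (∃ e, orderOf x = p ^ e) ∨ orderOf x ∣ A ∨ orderOf x ∣ B)
    (h2 : ∃ c : G, A ∣ orderOf c) (h3 : ∃ c : G, B ∣ orderOf c) (h4 : 2 ∣ Nat.lcm A B) :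
    Set.range (orderOf : G × G × G × Multiplicative (Fin m → ZMod 2) → ℕ) = Set.range (orderOf : G × G × G → ℕ) := by
  ext N
  constructor
  · rintro ⟨⟨x, y, z, b⟩, hN⟩
    have hN' : N = Nat.lcm (orderOf x) (Nat.lcm (orderOf y) (Nat.lcm (orderOf z) (orderOf b))) := by
      rw [← hN, Prod.orderOf, Prod.orderOf, Prod.orderOf]
    rcases ord_R Nat.prime_two b with hb | hb
    · rw [hb, Nat.lcm_one_right] at hN'
      exact mem3 x y z hN'.dvd
    rw [hb] at hN'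
    -- enough
    have key : ∀ A B C : ℕ, orderOf x ∣ Nat.lcm A (Nat.lcm B C) → orderOf y ∣ Nat.lcm A (Nat.lcm B C) → orderOf z ∣ Nat.lcm A (Nat.lcm B C) →
        2 ∣ Nat.lcm A (Nat.lcm B C) → N ∣ Nat.lcm A (Nat.lcm B C) := by
      intro A B C a1 a2 a3 a4
      rw [hN']
      exact Nat.lcm_dvd a1 (Nat.lcm_dvd a2 (Nat.lcm_dvd a3 a4))
    have dA : ∀ A B C : ℕ, A ∣ Nat.lcm A (Nat.lcm B C) := fun A B C => Nat.dvd_lcm_left _ _
    have dB : ∀ A B C : ℕ, B ∣ Nat.lcm A (Nat.lcm B C) := fun A B C => (Nat.dvd_lcm_left _ _).trans (Nat.dvd_lcm_right _ _)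
    have dC : ∀ A B C : ℕ, C ∣ Nat.lcm A (Nat.lcm B C) := fun A B C => (Nat.dvd_lcm_right _ _).trans (Nat.dvd_lcm_right _ _)
    by_cases hx : 2 ∣ orderOf x
    · exact mem3 x y z (key _ _ _ (dA _ _ _) (dB _ _ _) (dC _ _ _) (hx.trans (dA _ _ _)))
    by_cases hy : 2 ∣ orderOf y
    · exact mem3 x y z (key _ _ _ (dA _ _ _) (dB _ _ _) (dC _ _ _) (hy.trans (dB _ _ _)))
    by_cases hz : 2 ∣ orderOf z
    · exact mem3 x y z (key _ _ _ (dA _ _ _) (dB _ _ _) (dC _ _ _) (hz.trans (dC _ _ _)))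
    -- weaken
    have hw : ∀ x : G, ¬ 2 ∣ orderOf x → (∃ y : G, 2 * orderOf x ∣ orderOf y) ∨
        ∃ (e : ℕ) (u : G), orderOf u = p ^ e ∧ (orderOf x ∣ p ^ e ∨ orderOf x ∣ A ∨ orderOf x ∣ B) := by
      intro x hx
      rcases h1 x hx with h | ⟨e, he⟩ | h
      · exact Or.inl h
      · exact Or.inr ⟨e, x, he, Or.inl he.dvd⟩
      · exact Or.inr ⟨0, 1, by rw [pow_zero, orderOf_one], Or.inr h⟩
    rcases hw x hx with ⟨x', hx'⟩ | ⟨e1, z1, hz1, he1⟩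
    · exact mem3 x' y z (key _ _ _ (((Dvd.intro_left _ rfl).trans hx').trans (dA _ _ _)) (dB _ _ _) (dC _ _ _)
        (((Dvd.intro _ rfl).trans hx').trans (dA _ _ _)))
    rcases hw y hy with ⟨x', hx'⟩ | ⟨e2, z2, hz2, he2⟩
    · exact mem3 x x' z (key _ _ _ (dA _ _ _) (((Dvd.intro_left _ rfl).trans hx').trans (dB _ _ _)) (dC _ _ _)
        (((Dvd.intro _ rfl).trans hx').trans (dB _ _ _)))
    rcases hw z hz with ⟨x', hx'⟩ | ⟨e3, z3, hz3, he3⟩
    · exact mem3 x y x' (key _ _ _ (dA _ _ _) (dB _ _ _) (((Dvd.intro_left _ rfl).trans hx').trans (dC _ _ _))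
        (((Dvd.intro _ rfl).trans hx').trans (dC _ _ _)))
    obtain ⟨c, hc⟩ := h2
    obtain ⟨c', hc'⟩ := h3
    -- maximal p-power
    obtain ⟨e, u, hu, l1, l2, l3⟩ : ∃ (e : ℕ) (u : G), orderOf u = p ^ e ∧ e1 ≤ e ∧ e2 ≤ e ∧ e3 ≤ e := by
      rcases le_total e1 e2 with h12 | h12
      · rcases le_total e2 e3 with h23 | h23
        · exact ⟨e3, z3, hz3, h12.trans h23, h23, le_rfl⟩
        · exact ⟨e2, z2, hz2, h12, le_rfl, h23⟩
      · rcases le_total e1 e3 with h13 | h13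
        · exact ⟨e3, z3, hz3, h13, h12.trans h13, le_rfl⟩
        · exact ⟨e1, z1, hz1, le_rfl, h12, h13⟩
    have hle : ∀ {e' a : ℕ}, e' ≤ e → (a ∣ p ^ e' ∨ a ∣ A ∨ a ∣ B) → a ∣ Nat.lcm (orderOf u) (Nat.lcm (orderOf c) (orderOf c')) := by
      intro e' a he' ha
      rcases ha with ha | ha | ha
      · exact (ha.trans (pow_dvd_pow p he')).trans (by rw [← hu]; exact dA _ _ _)
      · exact (ha.trans hc).trans (dB _ _ _)
      · exact (ha.trans hc').trans (dC _ _ _)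
    exact mem3 u c c' (key _ _ _ (hle l1 he1) (hle l2 he2) (hle l3 he3)
      (h4.trans (Nat.lcm_dvd (hc.trans (dB _ _ _)) (hc'.trans (dC _ _ _)))))
  · rintro ⟨⟨x, y, z⟩, hN⟩
    refine ⟨(x, y, z, 1), ?_⟩
    rw [← hN, Prod.orderOf, Prod.orderOf, Prod.orderOf, Prod.orderOf, Prod.orderOf, orderOf_one, Nat.lcm_one_right]

theorem twoP
    (h1 : ∀ x : G, ¬ 2 ∣ orderOf x → (∃ y : G, 2 * orderOf x ∣ orderOf y) ∨ (∃ e, orderOf x = p ^ e) ∨ orderOf x ∣ A ∨ orderOf x ∣ B)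
    (h2 : ∃ c : G, A ∣ orderOf c) (h3 : ∃ c : G, B ∣ orderOf c) (h4 : 2 ∣ Nat.lcm A B)
    (h5 : ∀ e, (∃ z : G, orderOf z = p ^ e) → ∃ w : G, 2 * p ^ e ∣ orderOf w) :
    Set.range (orderOf : G × G × Multiplicative (Fin m → ZMod 2) → ℕ) = Set.range (orderOf : G × G → ℕ) := by
  ext N
  constructor
  · rintro ⟨⟨x, y, b⟩, hN⟩
    have hN' : N = Nat.lcm (orderOf x) (Nat.lcm (orderOf y) (orderOf b)) := by
      rw [← hN, Prod.orderOf, Prod.orderOf]
    rcases ord_R Nat.prime_two b with hb | hb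
    · rw [hb, Nat.lcm_one_right] at hN'
      exact mem2 x y hN'.dvd
    rw [hb] at hN'
    -- enough
    have key : ∀ A B : ℕ, orderOf x ∣ Nat.lcm A B → orderOf y ∣ Nat.lcm A B →
        2 ∣ Nat.lcm A B → N ∣ Nat.lcm A B := by
      intro A B a1 a2 a4
      rw [hN']
      exact Nat.lcm_dvd a1 (Nat.lcm_dvd a2 a4)
    have dA : ∀ A B : ℕ, A ∣ Nat.lcm A B := fun A B => Nat.dvd_lcm_left _ _
    have dB : ∀ A B : ℕ, B ∣ Nat.lcm A B := fun A B => Nat.dvd_lcm_right _ _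
    by_cases hx : 2 ∣ orderOf x
    · exact mem2 x y (key _ _ (dA _ _) (dB _ _) (hx.trans (dA _ _)))
    by_cases hy : 2 ∣ orderOf y
    · exact mem2 x y (key _ _ (dA _ _) (dB _ _) (hy.trans (dB _ _)))
    -- weaken
    have hw : ∀ x : G, ¬ 2 ∣ orderOf x → (∃ y : G, 2 * orderOf x ∣ orderOf y) ∨
        ∃ (e : ℕ) (u : G), orderOf u = p ^ e ∧ (orderOf x ∣ p ^ e ∨ orderOf x ∣ A ∨ orderOf x ∣ B) := by
      intro x hx
      rcases h1 x hx with h | ⟨e, he⟩ | h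
      · exact Or.inl h
      · exact Or.inr ⟨e, x, he, Or.inl he.dvd⟩
      · exact Or.inr ⟨0, 1, by rw [pow_zero, orderOf_one], Or.inr h⟩
    rcases hw x hx with ⟨x', hx'⟩ | ⟨e1, z1, hz1, he1⟩
    · exact mem2 x' y (key _ _ (((Dvd.intro_left _ rfl).trans hx').trans (dA _ _)) (dB _ _)
        (((Dvd.intro _ rfl).trans hx').trans (dA _ _)))
    rcases hw y hy with ⟨x', hx'⟩ | ⟨e2, z2, hz2, he2⟩
    · exact mem2 x x' (key _ _ (dA _ _) (((Dvd.intro_left _ rfl).trans hx').trans (dB _ _))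
        (((Dvd.intro _ rfl).trans hx').trans (dB _ _)))
    obtain ⟨c, hc⟩ := h2
    obtain ⟨c', hc'⟩ := h3
    -- maximal p-power
    obtain ⟨e, u, hu, l1, l2⟩ : ∃ (e : ℕ) (u : G), orderOf u = p ^ e ∧ e1 ≤ e ∧ e2 ≤ e := by
      rcases le_total e1 e2 with h12 | h12
      · exact ⟨e2, z2, hz2, h12, le_rfl⟩
      · exact ⟨e1, z1, hz1, le_rfl, h12⟩
    obtain ⟨w, hw2⟩ := h5 e ⟨u, hu⟩
    have w2 : 2 ∣ orderOf w := (Dvd.intro _ rfl).trans hw2
    have we : ∀ {e' a : ℕ}, e' ≤ e → a ∣ p ^ e' → a ∣ orderOf w := fun he' ha => (ha.trans (pow_dvd_pow p he')).trans ((Dvd.intro_left _ rfl).trans hw2)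
    have c2 : 2 ∣ Nat.lcm (orderOf c) (orderOf c') := h4.trans (Nat.lcm_dvd (hc.trans (dA _ _)) (hc'.trans (dB _ _)))
    rcases he1 with he1 | he1 | he1 <;> rcases he2 with he2 | he2 | he2
    · exact mem2 w w (key _ _ ((we l1 he1).trans (dA _ _)) ((we l2 he2).trans (dA _ _)) (w2.trans (dA _ _)))
    · exact mem2 w c (key _ _ ((we l1 he1).trans (dA _ _)) ((he2.trans hc).trans (dB _ _)) (w2.trans (dA _ _)))
    · exact mem2 w c' (key _ _ ((we l1 he1).trans (dA _ _)) ((he2.trans hc').trans (dB _ _)) (w2.trans (dA _ _)))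
    · exact mem2 w c (key _ _ ((he1.trans hc).trans (dB _ _)) ((we l2 he2).trans (dA _ _)) (w2.trans (dA _ _)))
    · exact mem2 w c (key _ _ ((he1.trans hc).trans (dB _ _)) ((he2.trans hc).trans (dB _ _)) (w2.trans (dA _ _)))
    · exact mem2 c c' (key _ _ ((he1.trans hc).trans (dA _ _)) ((he2.trans hc').trans (dB _ _)) c2)
    · exact mem2 w c' (key _ _ ((he1.trans hc').trans (dB _ _)) ((we l2 he2).trans (dA _ _)) (w2.trans (dA _ _)))
    · exact mem2 c c' (key _ _ ((he1.trans hc').trans (dB _ _)) ((he2.trans hc).trans (dA _ _)) c2)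
    · exact mem2 w c' (key _ _ ((he1.trans hc').trans (dB _ _)) ((he2.trans hc').trans (dB _ _)) (w2.trans (dA _ _)))
  · rintro ⟨⟨x, y⟩, hN⟩
    refine ⟨(x, y, 1), ?_⟩
    rw [← hN, Prod.orderOf, Prod.orderOf, Prod.orderOf, orderOf_one, Nat.lcm_one_right]

end Abs

section Halves
variable {F : Type*} [Field F] [Fintype F] {n : ℕ}

theorem half_of {M : ℕ} (hn : 1 ≤ n) (hM2 : 2 ∣ M) (h : ∃ c : Matrix.symplecticGroup (Fin n) F, M ∣ orderOf c) :
    ∃ c : Cfsg.PSp n F, M / 2 ∣ orderOf c := by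
  obtain ⟨c, hc⟩ := h
  refine ⟨(c : Cfsg.PSp n F), ?_⟩
  set k := orderOf (c : Cfsg.PSp n F) with hk
  have h1 : (c : Cfsg.PSp n F) ^ k = 1 := pow_orderOf_eq_one _
  rw [pmk_pow] at h1
  have h2 : c ^ (k * 2) = 1 := by
    apply Subtype.ext
    show c.1 ^ (k * 2) = 1
    rw [pow_mul]
    rcases (pmk_one_iff hn _).1 h1 with h | h
    · have h' : c.1 ^ k = 1 := h
      rw [h', one_pow]
    · have h' : c.1 ^ k = -1 := h
      rw [h']; simp
  have h3 := hc.trans (orderOf_dvd_of_pow_eq_one h2)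
  rw [← Nat.div_mul_cancel hM2] at h3
  exact Nat.dvd_of_mul_dvd_mul_right (by norm_num) h3

end Halves

end Cfsg.Agent.H8.SpecSP
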