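import Mathlib
import Cfsg.Agent.H8.SpecSU

set_option autoImplicit false
set_option linter.all false

/-! Singer type elements of `PSU_n(q)`. -/

namespace Cfsg.Agent.H8.SpecSU

open Polynomial
open Cfsg.Agent.H8.SpecAbs Cfsg.Agent.H8.SpecSL Cfsg.Agent.Lib.Herm

section Blocks
variable {F : Type*} [Field F] {σ : F ≃+* F} {m l : ℕ}

/-- block matrices as square matrices over `Fin` -/
def RR (m l : ℕ) (F : Type*) [Field F] : Matrix (Fin m ⊕ Fin l) (Fin m ⊕ Fin l) F ≃ₐ[F] Matrix (Fin (m + l)) (Fin (m + l)) F :=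
  Matrix.reindexAlgEquiv F F finSumFinEquiv

theorem RR_apply (X : Matrix (Fin m ⊕ Fin l) (Fin m ⊕ Fin l) F) (i j : Fin (m + l)) :
    RR m l F X i j = X (finSumFinEquiv.symm i) (finSumFinEquiv.symm j) := rfl

theorem st_RR (X : Matrix (Fin m ⊕ Fin l) (Fin m ⊕ Fin l) F) : st σ (RR m l F X) = RR m l F (X.map σ).transpose := rfl

theorem st_diag (X : Matrix (Fin m) (Fin m) F) (Y : Matrix (Fin l) (Fin l) F) :
    st σ (RR m l F (Matrix.fromBlocks X 0 0 Y)) = RR m l F (Matrix.fromBlocks (st σ X) 0 0 (st σ Y)) := by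
  rw [st_RR, Matrix.fromBlocks_map, Matrix.fromBlocks_transpose]
  congr 2
  · ext i j; simp
  · ext i j; simp

theorem det_RR (X : Matrix (Fin m ⊕ Fin l) (Fin m ⊕ Fin l) F) : (RR m l F X).det = X.det := Matrix.det_reindex_self _ _

theorem diag_mul (X X' : Matrix (Fin m) (Fin m) F) (Y Y' : Matrix (Fin l) (Fin l) F) :
    RR m l F (Matrix.fromBlocks X 0 0 Y) * RR m l F (Matrix.fromBlocks X' 0 0 Y') = RR m l F (Matrix.fromBlocks (X * X') 0 0 (Y * Y')) := by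
  rw [← map_mul, Matrix.fromBlocks_multiply]
  simp

theorem diag_pow (X : Matrix (Fin m) (Fin m) F) (Y : Matrix (Fin l) (Fin l) F) (k : ℕ) :
    RR m l F (Matrix.fromBlocks X 0 0 Y) ^ k = RR m l F (Matrix.fromBlocks (X ^ k) 0 0 (Y ^ k)) := by
  induction k with
  | zero => rw [pow_zero, pow_zero, pow_zero, Matrix.fromBlocks_one, map_one]
  | succ k ih => rw [pow_succ, ih, diag_mul, ← pow_succ, ← pow_succ]

end Blocks

section Red
variable {F : Type*} [Field F] [Fintype F] {n : ℕ} {σ : F ≃+* F} {q : ℕ}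

theorem conj_red (hσ : orderOf σ = 2) (hσ2 : ∀ a, σ (σ a) = a) (hq : ∀ a, σ a = a ^ q) (hn2 : 2 ≤ n)
    {A P : GL (Fin n) F} (h : st σ A.1 * P.1 * A.1 = P.1) (hdet : A.1.det = 1) {M : ℕ}
    (hj : ∀ (j : ℕ) (ρ : F), A.1 ^ j = ρ • (1 : Matrix (Fin n) (Fin n) F) → M ∣ j) : ∃ c : Cfsg.PSU n F q, M ∣ orderOf c := by
  obtain ⟨-, hσ4, -⟩ := sigma_facts hσ
  obtain ⟨D, hD⟩ := similar_unitary hσ hσ2 hσ4 hq h
  have hd : (D * A * D⁻¹).1.det = 1 := by
    show (D.1 * A.1 * (D⁻¹).1).det = 1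
    rw [Matrix.det_mul, Matrix.det_mul, hdet, mul_one, ← Matrix.det_mul]
    have : D.1 * (D⁻¹).1 = 1 := by rw [← Units.val_mul, mul_inv_cancel, Units.val_one]
    rw [this, Matrix.det_one]
  let S0 : Matrix.SpecialLinearGroup (Fin n) F := ⟨(D * A * D⁻¹).1, hd⟩
  have hS0 : S0 ∈ Cfsg.SU n F q := (su_iff_st hσ2 hq S0).2 ((gu_iff_st hσ2 hq _).1 hD)
  let S : Cfsg.SU n F q := ⟨S0, hS0⟩
  refine ⟨(S : Cfsg.PSU n F q), ?_⟩
  set j := orderOf (S : Cfsg.PSU n F q) with hjd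
  have h1 : ((S ^ j : Cfsg.SU n F q) : Cfsg.PSU n F q) = 1 := by
    rw [← pmk_pow, hjd, pow_orderOf_eq_one]
  obtain ⟨ρ, hρ⟩ := (pmk_one_iff hσ hσ2 hq hn2 _).1 h1
  apply hj j ρ
  have h2 : ((D * A * D⁻¹) ^ j).1 = ρ • (1 : Matrix (Fin n) (Fin n) F) := hρ
  rw [conj_pow] at h2
  have h3 : A ^ j = D⁻¹ * (D * A ^ j * D⁻¹) * D := by group
  have h4 : (A ^ j).1 = (D⁻¹).1 * (D * A ^ j * D⁻¹).1 * D.1 := by
    conv_lhs => rw [h3]
    rfl
  have h5 : (A ^ j).1 = A.1 ^ j := rfl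
  rw [h5, h2, mul_smul_comm, mul_one, smul_mul_assoc] at h4
  have : (D⁻¹).1 * D.1 = 1 := by rw [← Units.val_mul, inv_mul_cancel, Units.val_one]
  rw [h4, this]

end Red

section Sing
variable {F : Type*} [Field F] [Fintype F] {σ : F ≃+* F} {q : ℕ}

theorem scal_pow {n : ℕ} {ρ : F} {A : Matrix (Fin n) (Fin n) F} (hdet : A.det = 1) {j : ℕ} (h : A ^ j = ρ • (1 : Matrix (Fin n) (Fin n) F)) :
    ρ ^ n = 1 := by
  have := congrArg Matrix.det h
  rw [Matrix.det_pow, hdet, one_pow, Matrix.det_smul, Matrix.det_one, Fintype.card_fin, mul_one] at this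
  exact this.symm

theorem pow_gcd {ρ : F} {n q : ℕ} (h1 : ρ ^ n = 1) (h2 : ρ ^ (q + 1) = 1) : ρ ^ Nat.gcd n (q + 1) = 1 := by
  rw [← orderOf_dvd_iff_pow_eq_one]
  exact Nat.dvd_gcd (orderOf_dvd_of_pow_eq_one h1) (orderOf_dvd_of_pow_eq_one h2)

theorem MU_dvd {n q j : ℕ} (hn : n ≠ 0) (h : Gn q n ∣ j * Nat.gcd n (q + 1)) : MU q n ∣ j := by
  rw [← MU_mul q n] at h
  exact Nat.dvd_of_mul_dvd_mul_right (Nat.gcd_pos_of_pos_left _ (Nat.pos_of_ne_zero hn)) h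

theorem singer_even {p a m : ℕ} (hqp : q = p ^ a) (hp : p.Prime) (hF : Fintype.card F = q ^ 2) (hσ : orderOf σ = 2) (hσ2 : ∀ a, σ (σ a) = a)
    (hq : ∀ a, σ a = a ^ q) (hm : m ≠ 0) : ∃ c : Cfsg.PSU (m + m) F q, MU q (m + m) ∣ orderOf c := by
  haveI : Fact p.Prime := ⟨hp⟩
  haveI : CharP F p := card_pow (a := a * 2) (by rw [hF, hqp, ← pow_mul]) hp
  haveI : NeZero m := ⟨hm⟩
  let K := FiniteField.Extension F p m
  have hq2 : 2 ≤ q := one_lt_q hF
  have hK : Nat.card K = (q ^ 2) ^ m := by rw [FiniteField.natCard_extension, Nat.card_eq_fintype_card, hF]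
  have hfr : Module.finrank F K = m := FiniteField.finrank_extension F p m
  haveI : Finite K := inferInstance
  obtain ⟨γ, hγ⟩ := IsCyclic.exists_generator (α := Kˣ)
  have hγo : orderOf γ = (q ^ 2) ^ m - 1 := by
    rw [orderOf_eq_card_of_forall_mem_zpowers hγ, Nat.card_units, hK]
  have hG := Gn_even (q := q) (n := m + m) (by omega) ⟨m, rfl⟩
  have hqm : (q ^ 2) ^ m = q ^ (m + m) := by rw [← pow_mul]; congr 1; ring
  have hγ1 : ∀ j, (γ : K) ^ j = 1 ↔ Gn q (m + m) * (q + 1) ∣ j := by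
    intro j
    have h1 : Gn q (m + m) * (q + 1) = orderOf γ := by rw [hγo, hqm]; omega
    rw [h1, orderOf_dvd_iff_pow_eq_one, Units.ext_iff, Units.val_pow_eq_pow_val, Units.val_one]
  let b := Module.finBasisOfFinrankEq F K hfr
  let Φ := Algebra.leftMulMatrix b
  have hΦ : Function.Injective Φ := Algebra.leftMulMatrix_injective b
  set c0 : K := (γ : K) ^ (q + 1) with hc0
  have hc00 : c0 ≠ 0 := pow_ne_zero _ γ.ne_zero
  have hΦi : Φ c0 * Φ c0⁻¹ = 1 := by rw [← map_mul, mul_inv_cancel₀ hc00, map_one]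
  have hΦi' : Φ c0⁻¹ * Φ c0 = 1 := by rw [← map_mul, inv_mul_cancel₀ hc00, map_one]
  have hsi : st σ (Φ c0⁻¹) * st σ (Φ c0) = 1 := by rw [← st_mul, hΦi, st_one]
  have hsi' : st σ (Φ c0) * st σ (Φ c0⁻¹) = 1 := by rw [← st_mul, hΦi', st_one]
  let A : GL (Fin (m + m)) F :=
    ⟨RR m m F (Matrix.fromBlocks (Φ c0) 0 0 (st σ (Φ c0⁻¹))), RR m m F (Matrix.fromBlocks (Φ c0⁻¹) 0 0 (st σ (Φ c0))),
      by rw [diag_mul, hΦi, hsi, Matrix.fromBlocks_one, map_one], by rw [diag_mul, hΦi', hsi', Matrix.fromBlocks_one, map_one]⟩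
  have hPP : RR m m F (Matrix.fromBlocks 0 1 1 0) * RR m m F (Matrix.fromBlocks 0 1 1 0) = 1 := by
    rw [← map_mul, Matrix.fromBlocks_multiply]; simp
  let P : GL (Fin (m + m)) F := ⟨RR m m F (Matrix.fromBlocks 0 1 1 0), RR m m F (Matrix.fromBlocks 0 1 1 0), hPP, hPP⟩
  have hAv : A.1 = RR m m F (Matrix.fromBlocks (Φ c0) 0 0 (st σ (Φ c0⁻¹))) := rfl
  have hPv : P.1 = RR m m F (Matrix.fromBlocks 0 1 1 0) := rfl
  -- norm
  have hnorm : (Φ c0).det = Algebra.norm F c0 := (Algebra.norm_eq_matrix_det b c0).symm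
  set N := Algebra.norm F c0 with hN
  have hN1 : N ^ (q - 1) = 1 := by
    apply (algebraMap F K).injective
    rw [map_pow, FiniteField.algebraMap_norm_eq_pow_sum, hfr, Nat.card_eq_fintype_card, hF, map_one, hc0, ← pow_mul, ← pow_mul, hγ1]
    have h1 := Gn_gs (q := q) (m := m) hq2
    have h2 : gs (q ^ 2) m = ∑ i ∈ Finset.range m, (q ^ 2) ^ i := rfl
    rw [← h2, ← two_mul, ← h1]
    exact ⟨1, by ring⟩
  have hN0 : N ≠ 0 := by
    intro h
    rw [h, zero_pow (by omega)] at hN1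
    exact zero_ne_one hN1
  have hNσ : σ N = N := by
    rw [hq]
    calc N ^ q = N ^ (q - 1) * N := by rw [← pow_succ, Nat.sub_add_cancel (by omega)]
      _ = N := by rw [hN1, one_mul]
  have hdet : A.1.det = 1 := by
    rw [hAv, det_RR, Matrix.det_fromBlocks_zero₂₁, hnorm]
    have h1 : (st σ (Φ c0⁻¹)).det = σ (Φ c0⁻¹).det := by
      unfold st
      rw [Matrix.det_transpose]
      exact (RingHom.map_det (σ : F →+* F) _).symm
    have h2 : N * (Φ c0⁻¹).det = 1 := by rw [← hnorm, ← Matrix.det_mul, hΦi, Matrix.det_one]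
    rw [h1]
    have h3 := congrArg σ h2
    rw [map_mul, hNσ, map_one] at h3
    exact h3
  refine conj_red hσ hσ2 hq (by omega) (A := A) (P := P) ?_ hdet ?_
  · rw [hAv, hPv, st_diag, st_st hσ2, ← map_mul, ← map_mul, Matrix.fromBlocks_multiply, Matrix.fromBlocks_multiply]
    simp [hsi', hΦi']
  · intro j ρ hρ
    have h1 := scal_pow hdet hρ
    rw [hAv, diag_pow] at hρ
    have h2 : Matrix.fromBlocks ((Φ c0) ^ j) 0 0 ((st σ (Φ c0⁻¹)) ^ j) = Matrix.fromBlocks (ρ • (1 : Matrix (Fin m) (Fin m) F)) 0 0 (ρ • (1 : Matrix (Fin m) (Fin m) F)) := by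
      apply (RR m m F).injective
      rw [hρ]
      have : Matrix.fromBlocks (ρ • (1 : Matrix (Fin m) (Fin m) F)) 0 0 (ρ • (1 : Matrix (Fin m) (Fin m) F)) = ρ • (1 : Matrix (Fin m ⊕ Fin m) (Fin m ⊕ Fin m) F) := by
        rw [← Matrix.fromBlocks_one, Matrix.fromBlocks_smul]; simp
      rw [this, map_smul, map_one]
    rw [Matrix.fromBlocks_inj] at h2
    obtain ⟨h3, -, -, h4⟩ := h2
    have h5 : c0 ^ j = algebraMap F K ρ := by
      apply hΦ
      rw [map_pow, h3, AlgHom.commutes, Algebra.algebraMap_eq_smul_one]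
    have h6 : (Φ c0⁻¹) ^ j = σ ρ • (1 : Matrix (Fin m) (Fin m) F) := by
      have := congrArg (st σ) h4
      rw [← st_pow, st_st hσ2, st_smul, st_one] at this
      exact this
    have h7 : σ ρ * ρ = 1 := by
      have e1 : (Φ c0⁻¹) ^ j * (Φ c0) ^ j = 1 := by
        rw [← map_pow, ← map_pow, ← map_mul, ← mul_pow, inv_mul_cancel₀ hc00, one_pow, map_one]
      rw [h6, h3, smul_mul_smul_comm, one_mul] at e1
      have := congrFun (congrFun e1 ⟨0, Nat.pos_of_ne_zero hm⟩) ⟨0, Nat.pos_of_ne_zero hm⟩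
      simpa using this
    have h8 : ρ ^ (q + 1) = 1 := by rw [pow_succ, ← hq]; exact h7
    have h9 := pow_gcd h1 h8
    have h10 : (γ : K) ^ ((q + 1) * j * Nat.gcd (m + m) (q + 1)) = 1 := by
      rw [pow_mul, pow_mul, ← hc0, h5, ← map_pow, h9, map_one]
    rw [hγ1] at h10
    apply MU_dvd (by omega)
    have h11 : (q + 1) * Gn q (m + m) ∣ (q + 1) * (j * Nat.gcd (m + m) (q + 1)) := by
      rw [mul_comm (q + 1) (Gn q (m + m)), ← mul_assoc]; exact h10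
    exact Nat.dvd_of_mul_dvd_mul_left (by omega) h11

end Sing

end Cfsg.Agent.H8.SpecSU
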