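import Mathlib
import Cfsg.Agent.H8.SpecSU2
import Cfsg.Agent.Lib.Herm15

set_option autoImplicit false
set_option linter.all false

/-! Singer type elements of `PSU_n(q)`, `n` odd; unipotent elements. -/

namespace Cfsg.Agent.H8.SpecSU

open Polynomial
open Cfsg.Agent.H8.SpecAbs Cfsg.Agent.H8.SpecSL Cfsg.Agent.Lib.Herm

section Odd
variable {F : Type*} [Field F] [Fintype F] {σ : F ≃+* F} {q : ℕ}

theorem gs_Gn {q n : ℕ} (hq : 2 ≤ q) (hn : Odd n) : gs (q ^ 2) n = gs q n * Gn q n := by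
  have h1 := Gn_odd (q := q) hn
  have h2 := gs_pred (q := q ^ 2) (Nat.one_le_pow _ _ (by omega)) n
  have h3 := gs_pred (q := q) (by omega) n
  have h5 : 1 ≤ q ^ n := Nat.one_le_pow _ _ (by omega)
  have h4 : (q ^ 2) ^ n = (gs q n * (q - 1)) * (Gn q n * (q + 1)) + 1 := by
    have e1 : gs q n * (q - 1) = q ^ n - 1 := by omega
    rw [h1, e1, ← pow_mul, mul_comm 2 n, pow_mul]
    have := Nat.sq_sub_sq (q ^ n) 1
    rw [one_pow] at this
    have h6 : 1 ≤ (q ^ n) ^ 2 := Nat.one_le_pow _ _ (by omega)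
    rw [mul_comm, ← this]; omega
  rw [h4, sq_sub] at h2
  have h7 := Nat.add_right_cancel h2
  have h8 : 0 < (q + 1) * (q - 1) := Nat.mul_pos (by omega) (by omega)
  apply Nat.eq_of_mul_eq_mul_right h8
  rw [h7]; ring

theorem singer_odd {p a n : ℕ} (hqp : q = p ^ a) (hp : p.Prime) (hF : Fintype.card F = q ^ 2) (hσ : orderOf σ = 2) (hσ2 : ∀ a, σ (σ a) = a)
    (hq : ∀ a, σ a = a ^ q) (hn : Odd n) (hn2 : 2 ≤ n) : ∃ c : Cfsg.PSU n F q, MU q n ∣ orderOf c := by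
  haveI : Fact p.Prime := ⟨hp⟩
  haveI : CharP F p := card_pow (a := a * 2) (by rw [hF, hqp, ← pow_mul]) hp
  haveI : NeZero n := ⟨by omega⟩
  let K := FiniteField.Extension F p n
  haveI : CharP K p := charP_of_injective_algebraMap (algebraMap F K).injective p
  have hq2 : 2 ≤ q := one_lt_q hF
  have hK : Nat.card K = (q ^ 2) ^ n := by rw [FiniteField.natCard_extension, Nat.card_eq_fintype_card, hF]
  have hfr : Module.finrank F K = n := FiniteField.finrank_extension F p n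
  haveI : Finite K := inferInstance
  haveI : Module.Finite F K := inferInstance
  obtain ⟨γ, hγ⟩ := IsCyclic.exists_generator (α := Kˣ)
  have hγo : orderOf γ = (q ^ 2) ^ n - 1 := by
    rw [orderOf_eq_card_of_forall_mem_zpowers hγ, Nat.card_units, hK]
  have hG := Gn_odd (q := q) hn
  have hqn : 2 ≤ q ^ n := hq2.trans (Nat.le_self_pow (by omega) q)
  have hγ1 : ∀ j, (γ : K) ^ j = 1 ↔ (q ^ n - 1) * (Gn q n * (q + 1)) ∣ j := by
    intro j
    have h1 : (q ^ n - 1) * (Gn q n * (q + 1)) = orderOf γ := by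
      rw [hγo, hG, ← pow_mul, mul_comm 2 n, pow_mul, sq_sub, mul_comm]
    rw [h1, orderOf_dvd_iff_pow_eq_one, Units.ext_iff, Units.val_pow_eq_pow_val, Units.val_one]
  let b := Module.finBasisOfFinrankEq F K hfr
  let Φ := Algebra.leftMulMatrix b
  have hΦ : Function.Injective Φ := Algebra.leftMulMatrix_injective b
  set c0 : K := (γ : K) ^ ((q ^ n - 1) * (q + 1)) with hc0
  have hc00 : c0 ≠ 0 := pow_ne_zero _ γ.ne_zero
  have hΦi : Φ c0 * Φ c0⁻¹ = 1 := by rw [← map_mul, mul_inv_cancel₀ hc00, map_one]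
  have hΦi' : Φ c0⁻¹ * Φ c0 = 1 := by rw [← map_mul, inv_mul_cancel₀ hc00, map_one]
  let A : GL (Fin n) F := ⟨Φ c0, Φ c0⁻¹, hΦi, hΦi'⟩
  -- the semilinear map
  let τ : K →+* K := iterateFrobenius K p (a * n)
  have hτ : ∀ x, τ x = x ^ q ^ n := fun x => by
    show iterateFrobenius K p (a * n) x = _
    rw [iterateFrobenius_def, hqp, ← pow_mul]
  have hFσ : ∀ c : F, c ^ q ^ n = σ c := by
    intro c
    obtain ⟨e, he⟩ := hn
    rw [he, pow_succ, pow_mul q 2 e, ← hF, pow_mul, FiniteField.pow_card_pow, hq]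
  have hτc : ∀ c : F, τ (algebraMap F K c) = algebraMap F K (σ c) := fun c => by rw [hτ, ← map_pow, hFσ]
  have hτs : Function.Surjective τ := Finite.injective_iff_surjective.1 τ.injective
  have hτc0 : τ c0 * c0 = 1 := by
    rw [hτ, ← pow_succ, hc0, ← pow_mul, hγ1, ← hG]
    exact ⟨q + 1, by ring⟩
  have hτsm : ∀ (c : F) (x : K), τ (c • x) = σ c • τ x := fun c x => by
    rw [Algebra.smul_def, map_mul, hτc, ← Algebra.smul_def]
  let Pm : Matrix (Fin n) (Fin n) F := Matrix.of fun i j => Algebra.trace F K (τ (b i) * b j)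
  have hPm : ∀ i j, Pm i j = Algebra.trace F K (τ (b i) * b j) := fun _ _ => rfl
  have hPdet : Pm.det ≠ 0 := by
    intro h0
    obtain ⟨v, hv0, hv⟩ := Matrix.exists_mulVec_eq_zero_iff.2 h0
    set y : K := ∑ j, v j • b j with hy
    have h1 : ∀ i, Algebra.trace F K (τ (b i) * y) = 0 := by
      intro i
      have := congrFun hv i
      rw [Matrix.mulVec, dotProduct] at this
      rw [hy, Finset.mul_sum, map_sum]
      rw [Pi.zero_apply] at this
      rw [← this]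
      refine Finset.sum_congr rfl fun j _ => ?_
      rw [mul_smul_comm, map_smul, smul_eq_mul, hPm, mul_comm]
    have h2 : ∀ x, Algebra.trace F K (τ x * y) = 0 := by
      intro x
      rw [← b.sum_repr x, map_sum, Finset.sum_mul, map_sum]
      refine Finset.sum_eq_zero fun i _ => ?_
      rw [hτsm, smul_mul_assoc, map_smul, h1, smul_zero]
    have h3 : y = 0 := by
      apply (traceForm_nondegenerate F K).2
      intro z
      obtain ⟨x, rfl⟩ := hτs z
      exact h2 x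
    apply hv0
    have h4 := b.repr.map_eq_zero_iff.2 h3
    funext j
    have h5 : b.repr y j = v j := by
      rw [hy, b.repr_sum_self]
    rw [← h5, h4]; rfl
  let P : GL (Fin n) F := Matrix.GeneralLinearGroup.mkOfDetNeZero Pm hPdet
  have hcol : ∀ i, ∑ k, (Φ c0) k i • b k = c0 * b i := by
    intro i
    have : ∀ k, (Φ c0) k i = b.repr (c0 * b i) k := fun k => Algebra.leftMulMatrix_eq_repr_mul b c0 k i
    rw [Finset.sum_congr rfl fun k _ => by rw [this k]]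
    exact b.sum_repr _
  have hiso : st σ (Φ c0) * Pm * Φ c0 = Pm := by
    ext i j
    have h0 : τ (b i) * b j = τ (c0 * b i) * (c0 * b j) := by
      rw [map_mul]
      calc τ (b i) * b j = (τ c0 * c0) * (τ (b i) * b j) := by rw [hτc0, one_mul]
        _ = _ := by ring
    have h1 : Pm i j = Algebra.trace F K (τ (c0 * b i) * (c0 * b j)) := by
      rw [hPm, h0]
    have hR : Pm i j = ∑ k, ∑ l, σ (Φ c0 k i) * Pm k l * Φ c0 l j := by
      rw [h1, ← hcol i, ← hcol j, map_sum, Finset.sum_mul, map_sum]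
      refine Finset.sum_congr rfl fun k _ => ?_
      rw [Finset.mul_sum, map_sum]
      refine Finset.sum_congr rfl fun l _ => ?_
      rw [hτsm, smul_mul_assoc, mul_smul_comm, map_smul, map_smul, smul_eq_mul, smul_eq_mul, ← hPm]; ring
    rw [hR, Finset.sum_comm, Matrix.mul_apply]
    refine Finset.sum_congr rfl fun l _ => ?_
    rw [Matrix.mul_apply, Finset.sum_mul]
    rfl
  have hdet : A.1.det = 1 := by
    have h1 : (Φ c0).det = Algebra.norm F c0 := (Algebra.norm_eq_matrix_det b c0).symm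
    show (Φ c0).det = 1
    rw [h1]
    apply (algebraMap F K).injective
    rw [FiniteField.algebraMap_norm_eq_pow_sum, hfr, Nat.card_eq_fintype_card, hF, map_one, hc0, ← pow_mul, hγ1]
    have h2 : gs (q ^ 2) n = ∑ i ∈ Finset.range n, (q ^ 2) ^ i := rfl
    rw [← h2, gs_Gn hq2 hn]
    exact ⟨gs q n, by ring⟩
  refine conj_red hσ hσ2 hq hn2 (A := A) (P := P) hiso hdet ?_
  intro j ρ hρ
  have h1 := scal_pow hdet hρ
  have h3 : (Φ c0) ^ j = ρ • (1 : Matrix (Fin n) (Fin n) F) := hρ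
  have h5 : c0 ^ j = algebraMap F K ρ := by
    apply hΦ
    rw [map_pow, h3, AlgHom.commutes, Algebra.algebraMap_eq_smul_one]
  have h8 : ρ ^ (q + 1) = 1 := by
    rw [pow_succ, ← hq]
    apply (algebraMap F K).injective
    rw [map_mul, ← hτc, ← h5, map_pow, ← mul_pow, hτc0, one_pow, map_one]
  have h9 := pow_gcd h1 h8
  have h10 : (γ : K) ^ ((q ^ n - 1) * (q + 1) * j * Nat.gcd n (q + 1)) = 1 := by
    rw [pow_mul, pow_mul, ← hc0, h5, ← map_pow, h9, map_one]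
  rw [hγ1] at h10
  apply MU_dvd (by omega)
  have h11 : ((q ^ n - 1) * (q + 1)) * Gn q n ∣ ((q ^ n - 1) * (q + 1)) * (j * Nat.gcd n (q + 1)) := by
    have e1 : ((q ^ n - 1) * (q + 1)) * Gn q n = (q ^ n - 1) * (Gn q n * (q + 1)) := by ring
    rw [e1, ← mul_assoc ((q ^ n - 1) * (q + 1)) j]; exact h10
  exact Nat.dvd_of_mul_dvd_mul_left (Nat.mul_pos (by omega) (by omega)) h11

theorem singerU {p a n : ℕ} (hqp : q = p ^ a) (hp : p.Prime) (hF : Fintype.card F = q ^ 2) (hσ : orderOf σ = 2) (hσ2 : ∀ a, σ (σ a) = a)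
    (hq : ∀ a, σ a = a ^ q) (hn2 : 2 ≤ n) : ∃ c : Cfsg.PSU n F q, MU q n ∣ orderOf c := by
  rcases Nat.even_or_odd n with ⟨m, rfl⟩ | h
  · exact singer_even hqp hp hF hσ hσ2 hq (by omega)
  · exact singer_odd hqp hp hF hσ hσ2 hq h hn2

end Odd

section Unip
variable {F : Type*} [Field F] [Fintype F] {σ : F ≃+* F} {q m : ℕ}

/-- the last coordinate projection -/
def pl (m : ℕ) (F : Type*) [Field F] : Matrix (Fin (m + 1)) (Fin (m + 1)) F :=
  RR m 1 F (Matrix.fromBlocks 0 0 0 1)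

theorem w_ofU (hF : Fintype.card F = q ^ 2) (hσ : orderOf σ = 2) (hσ2 : ∀ a, σ (σ a) = a) (hq : ∀ a, σ a = a ^ q) (hm : m ≠ 0)
    {s : Cfsg.SU (m + 1) F q} {r : ℕ} (hr : r.Prime) (hrq : r ∣ q + 1) (hrn : ¬ r ∣ m + 1)
    {X : Matrix (Fin m) (Fin m) F} (hs : s.1.1 = RR m 1 F (Matrix.fromBlocks X 0 0 1))
    (ho : ¬ r ∣ orderOf (s : Cfsg.PSU (m + 1) F q)) : ∃ w : Cfsg.PSU (m + 1) F q, orderOf w = r * orderOf (s : Cfsg.PSU (m + 1) F q) := by
  obtain ⟨ζ, hζ, hζ1⟩ := exists_zeta (F := F) hr (by rw [hF, sq_sub]; exact hrq.mul_right _)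
  obtain ⟨h, hh1, hh2, hh3⟩ := exists_hU hσ hσ2 hq (by omega) (s := s) (π := pl m F) (by
    unfold pl
    rw [diag_mul, mul_zero, mul_one]) (by
    unfold pl
    rw [st_diag, st_zero, st_one]) (by
    intro h
    unfold pl at h
    rw [map_eq_zero_iff _ (RR m 1 F).injective] at h
    have := congrFun (congrFun h (Sum.inr 0)) (Sum.inr 0)
    simp at this) (by
    intro h
    unfold pl at h
    have h1 : Matrix.fromBlocks (0 : Matrix (Fin m) (Fin m) F) 0 0 (1 : Matrix (Fin 1) (Fin 1) F) = 1 := by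
      apply (RR m 1 F).injective
      rw [h, map_one]
    have := congrFun (congrFun h1 (Sum.inl ⟨0, Nat.pos_of_ne_zero hm⟩)) (Sum.inl ⟨0, Nat.pos_of_ne_zero hm⟩)
    simp at this) (by
    rw [hs]
    unfold pl
    rw [diag_mul, diag_mul, zero_mul, mul_zero, mul_one]) hr hrq hζ hζ1 hrn
  exact ⟨((h * s : Cfsg.SU (m + 1) F q) : Cfsg.PSU (m + 1) F q), hU_order hh1 hr hh2 hh3 ho⟩

theorem exists_wU (hF : Fintype.card F = q ^ 2) (hσ : orderOf σ = 2) (hσ2 : ∀ a, σ (σ a) = a) (hq : ∀ a, σ a = a ^ q) (hm : m ≠ 0)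
    {r : ℕ} (hr : r.Prime) (hrq : r ∣ q + 1) (hrn : ¬ r ∣ m + 1) : ∃ w : Cfsg.PSU (m + 1) F q, r ∣ orderOf w := by
  obtain ⟨w, hw⟩ := w_ofU hF hσ hσ2 hq hm (s := 1) (X := 1) hr hrq hrn (by
    rw [Matrix.fromBlocks_one, map_one]; rfl) (by
    rw [QuotientGroup.mk_one, orderOf_one, Nat.dvd_one]; exact hr.ne_one)
  exact ⟨w, by rw [hw]; exact Dvd.intro _ rfl⟩

/-- regular unipotent elements of `GU_m` -/
theorem exists_reg (hσ : orderOf σ = 2) (hσ2 : ∀ a, σ (σ a) = a) (hq : ∀ a, σ a = a ^ q) (hm : m ≠ 0) :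
    ∃ X : Matrix (Fin m) (Fin m) F, st σ X * X = 1 ∧ (X - 1) ^ m = 0 ∧ (X - 1) ^ (m - 1) ≠ 0 := by
  obtain ⟨g, hg1, hg2⟩ := exists_GU_type (F := F) (n := m) hσ hq (Nat.Partition.indiscrete m)
  refine ⟨(g : GL (Fin m) F).1, (gu_iff_st hσ2 hq _).1 g.2, ?_, ?_⟩
  · rw [Cfsg.Agent.Lib.RCF.isType_iff_rank] at hg2
    have := hg2 m
    rw [Nat.Partition.indiscrete_parts hm] at this
    simp at this
    exact Cfsg.Agent.Lib.RCF.rank_eq_zero'.1 this
  · rw [Cfsg.Agent.Lib.RCF.isType_iff_rank] at hg2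
    have := hg2 (m - 1)
    rw [Nat.Partition.indiscrete_parts hm] at this
    intro h0
    have h1 : (((g : GL (Fin m) F) : Matrix (Fin m) (Fin m) F) - 1) ^ (m - 1) = 0 := h0
    rw [h1, Matrix.rank_zero] at this
    simp at this
    omega

theorem unip_wU {p a : ℕ} (hqp : q = p ^ a) (hp : p.Prime) (hF : Fintype.card F = q ^ 2) (hσ : orderOf σ = 2) (hσ2 : ∀ a, σ (σ a) = a)
    (hq : ∀ a, σ a = a ^ q) (hm : 2 ≤ m) {r : ℕ} (hr : r.Prime) (hrq : r ∣ q + 1) (hrn : ¬ r ∣ m + 1)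
    (hnp : ¬ ∃ j, m = p ^ j) (e : ℕ) (he : ∃ z : Cfsg.PSU (m + 1) F q, orderOf z = p ^ e) :
    ∃ w : Cfsg.PSU (m + 1) F q, r * p ^ e ∣ orderOf w := by
  haveI : Fact p.Prime := ⟨hp⟩
  haveI : CharP F p := card_pow (a := a * 2) (by rw [hF, hqp, ← pow_mul]) hp
  have hq2 : 2 ≤ q := one_lt_q hF
  have ha : a ≠ 0 := by
    rintro rfl
    rw [pow_zero] at hqp
    omega
  rcases Nat.eq_zero_or_pos e with h0 | hpos
  · rw [h0, pow_zero, mul_one]; exact exists_wU hF hσ hσ2 hq (by omega) hr hrq hrn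
  obtain ⟨j, rfl⟩ : ∃ j, e = j + 1 := ⟨e - 1, by omega⟩
  -- `p ^ j < m + 1`
  have hjn : p ^ j < m + 1 := by
    by_contra hcon
    push Not at hcon
    obtain ⟨z, hz⟩ := he
    obtain ⟨s, rfl⟩ := QuotientGroup.mk_surjective z
    have h1 : ((s ^ p ^ (j + 1) : Cfsg.SU (m + 1) F q) : Cfsg.PSU (m + 1) F q) = 1 := by
      rw [← pmk_pow, ← hz, pow_orderOf_eq_one]
    obtain ⟨ρ, hρ⟩ := (pmk_one_iff hσ hσ2 hq (by omega) _).1 h1
    have hρ0 : s.1.1 ^ p ^ (j + 1) = ρ • (1 : Matrix (Fin (m + 1)) (Fin (m + 1)) F) := hρ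
    obtain ⟨ρ', hρ'⟩ : ∃ ρ' : F, ρ' ^ p ^ (j + 1) = ρ :=
      ((Finite.injective_iff_surjective.1 (iterateFrobenius F p (j + 1)).injective) ρ)
    have hcomm : Commute s.1.1 (ρ' • (1 : Matrix (Fin (m + 1)) (Fin (m + 1)) F)) := (Commute.one_right s.1.1).smul_right ρ'
    have h2 : (s.1.1 - ρ' • (1 : Matrix (Fin (m + 1)) (Fin (m + 1)) F)) ^ p ^ (j + 1) = 0 := by
      rw [sub_pow_char_pow_of_commute _ _ hcomm, _root_.smul_pow, hρ', one_pow]
      exact sub_eq_zero.2 hρ0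
    have h3 : (s.1.1 - ρ' • (1 : Matrix (Fin (m + 1)) (Fin (m + 1)) F)) ^ (m + 1) = 0 := by
      have h3' : IsNilpotent (s.1.1 - ρ' • (1 : Matrix (Fin (m + 1)) (Fin (m + 1)) F)) := ⟨_, h2⟩
      have h3'' := (Matrix.isNilpotent_charpoly_sub_pow_of_isNilpotent h3').eq_zero
      rw [sub_eq_zero, Fintype.card_fin] at h3''
      have := Matrix.aeval_self_charpoly (s.1.1 - ρ' • (1 : Matrix (Fin (m + 1)) (Fin (m + 1)) F))
      rwa [h3'', map_pow, aeval_X] at this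
    have h4 : (s.1.1 - ρ' • (1 : Matrix (Fin (m + 1)) (Fin (m + 1)) F)) ^ p ^ j = 0 := by
      rw [← Nat.sub_add_cancel hcon, pow_add, h3, mul_zero]
    rw [sub_pow_char_pow_of_commute _ _ hcomm, _root_.smul_pow, one_pow] at h4
    have h5 : (s : Cfsg.PSU (m + 1) F q) ^ p ^ j = 1 := by
      rw [pmk_pow]
      exact (pmk_one_iff hσ hσ2 hq (by omega) _).2 ⟨ρ' ^ p ^ j, sub_eq_zero.1 h4⟩
    have h6 := orderOf_dvd_of_pow_eq_one h5
    rw [hz] at h6
    have := (Nat.pow_dvd_pow_iff_le_right hp.one_lt).1 h6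
    omega
  have hjn1 : p ^ j < m := by
    rcases Nat.lt_or_ge (p ^ j) m with h | h
    · exact h
    · exact absurd ⟨j, by omega⟩ hnp
  obtain ⟨X, hX1, hX2, hX3⟩ := exists_reg (F := F) (m := m) hσ hσ2 hq (by omega)
  haveI : Nonempty (Fin m) := ⟨⟨0, by omega⟩⟩
  set B := X - 1 with hB
  have hXB : X = 1 + B := by rw [hB]; abel
  have hpow : ∀ j : ℕ, X ^ p ^ j = 1 + B ^ p ^ j := by
    intro j
    have := add_pow_char_pow_of_commute (p := p) j (Commute.one_left B)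
    rw [hXB]
    rwa [one_pow] at this
  have hBn : B ^ p ^ m = 0 := by
    have h1 : m ≤ p ^ m := (Nat.lt_pow_self hp.one_lt).le
    rw [← Nat.sub_add_cancel h1, pow_add, hX2, mul_zero]
  have hBj : B ^ p ^ j ≠ 0 := by
    intro h
    apply hX3
    rw [← Nat.sub_add_cancel (show p ^ j ≤ m - 1 by omega), pow_add, h, mul_zero]
  have hun : X ^ p ^ m = 1 := by rw [hpow, hBn, add_zero]
  have hdetX : X.det = 1 := by
    have h1 : X.det ^ p ^ m = 1 := by rw [← Matrix.det_pow, hun, Matrix.det_one]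
    have h2 : iterateFrobenius F p m X.det = iterateFrobenius F p m 1 := by
      rw [iterateFrobenius_def, iterateFrobenius_def, h1, one_pow]
    exact (iterateFrobenius F p m).injective h2
  have hdet : (RR m 1 F (Matrix.fromBlocks X 0 0 1)).det = 1 := by
    rw [det_RR, Matrix.det_fromBlocks_zero₂₁, hdetX, Matrix.det_one, mul_one]
  let s0 : Matrix.SpecialLinearGroup (Fin (m + 1)) F := ⟨RR m 1 F (Matrix.fromBlocks X 0 0 1), hdet⟩
  have hs0 : s0 ∈ Cfsg.SU (m + 1) F q := (su_iff_st hσ2 hq s0).2 (by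
    show st σ (RR m 1 F (Matrix.fromBlocks X 0 0 1)) * RR m 1 F (Matrix.fromBlocks X 0 0 1) = 1
    rw [st_diag, diag_mul, hX1, st_one, mul_one, Matrix.fromBlocks_one, map_one])
  let s : Cfsg.SU (m + 1) F q := ⟨s0, hs0⟩
  have hsv : s.1.1 = RR m 1 F (Matrix.fromBlocks X 0 0 1) := rfl
  have hs1 : (s : Cfsg.PSU (m + 1) F q) ^ p ^ m = 1 := by
    rw [pmk_pow]
    refine (pmk_one_iff hσ hσ2 hq (by omega) _).2 ⟨1, ?_⟩
    show (RR m 1 F (Matrix.fromBlocks X 0 0 1)) ^ p ^ m = (1 : F) • (1 : Matrix (Fin (m + 1)) (Fin (m + 1)) F)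
    rw [diag_pow, hun, one_pow, Matrix.fromBlocks_one, map_one, one_smul]
  obtain ⟨E, -, hE⟩ := (Nat.dvd_prime_pow hp).1 (orderOf_dvd_of_pow_eq_one hs1)
  have hrp : r ≠ p := by
    rintro rfl
    rw [hqp] at hrq
    have h1 : r ∣ r ^ a := dvd_pow_self r ha
    have h2 : r ∣ 1 := (Nat.dvd_add_right h1).1 hrq
    exact hr.ne_one (Nat.dvd_one.1 h2)
  have hjE : j < E := by
    by_contra hcon
    have h1 : ((s ^ p ^ j : Cfsg.SU (m + 1) F q) : Cfsg.PSU (m + 1) F q) = 1 := by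
      rw [← pmk_pow, ← orderOf_dvd_iff_pow_eq_one, hE]
      exact pow_dvd_pow p (by omega)
    obtain ⟨ρ, hρ⟩ := (pmk_one_iff hσ hσ2 hq (by omega) _).1 h1
    have h2 : (RR m 1 F (Matrix.fromBlocks X 0 0 1)) ^ p ^ j = ρ • (1 : Matrix (Fin (m + 1)) (Fin (m + 1)) F) := hρ
    rw [diag_pow, one_pow] at h2
    have h3 : Matrix.fromBlocks (X ^ p ^ j) 0 0 (1 : Matrix (Fin 1) (Fin 1) F) = ρ • 1 := by
      apply (RR m 1 F).injective
      rw [h2, map_smul, map_one]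
    rw [← Matrix.fromBlocks_one, Matrix.fromBlocks_smul, Matrix.fromBlocks_inj] at h3
    obtain ⟨h4, -, -, h5⟩ := h3
    have h6 : ρ = 1 := by
      have := congrFun (congrFun h5 0) 0
      simpa using this.symm
    rw [h6, one_smul, hpow] at h4
    apply hBj
    have := add_left_cancel (h4.trans (add_zero 1).symm)
    exact this
  obtain ⟨w, hw⟩ := w_ofU hF hσ hσ2 hq (by omega) (s := s) hr hrq hrn hsv (by
    rw [hE]
    intro h
    exact hrp ((Nat.prime_dvd_prime_iff_eq hr hp).1 (hr.dvd_of_dvd_pow h)))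
  refine ⟨w, ?_⟩
  rw [hw, hE]
  exact Nat.mul_dvd_mul_left r (pow_dvd_pow p hjE)

end Unip

end Cfsg.Agent.H8.SpecSU
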