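import Mathlib
import Cfsg.Prelude.Def_LieExceptional
import Cfsg.Agent.H8.SuzHom

set_option autoImplicit false

/-! Embeddings of Suzuki groups: every embedding is standard up to conjugation. -/

namespace Cfsg.Agent.H8.Suz

open Matrix MulAction Cfsg.Agent.H8.OddTor

namespace Dat

variable {F : Type*} [Field F] [Fintype F] {m : ℕ} (D : Dat F m)
variable {K : Type*} [Field K] [Fintype K] {k : ℕ} (E : Dat K k)

include D E in
theorem degree_dvd (η : K →+* F) : ∃ j, 2 * m + 1 = (2 * k + 1) * (2 * j + 1) := by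
  let _ := η.toAlgebra
  have hfin : FiniteDimensional K F := Module.Finite.of_finite
  have h1 : Nat.card F = Nat.card K ^ Module.finrank K F := Module.natCard_eq_pow_finrank
  rw [Nat.card_eq_fintype_card, Nat.card_eq_fintype_card, D.hF, E.hF, ← pow_mul] at h1
  have h2 := Nat.pow_right_injective (le_refl 2) h1
  have h3 : Module.finrank K F % 2 = 1 := by
    rcases Nat.even_or_odd (Module.finrank K F) with ⟨r, hr⟩ | ⟨r, hr⟩
    · exfalso
      rw [hr] at h2
      have : (2 * k + 1) * (r + r) = 2 * ((2 * k + 1) * r) := by ring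
      omega
    · omega
  refine ⟨Module.finrank K F / 2, ?_⟩
  have h4 : Module.finrank K F = 2 * (Module.finrank K F / 2) + 1 := by omega
  rw [← h4]; exact h2

theorem theta_comm (η : K →+* F) (x : K) : D.θ (η x) = η (E.θ x) := by
  obtain ⟨j, hj⟩ := D.degree_dvd E η
  have h1 : x ^ (Fintype.card K) ^ j = x := FiniteField.pow_card_pow j x
  rw [D.hm, E.hm, map_pow]
  have h2 : m + 1 = (2 * k + 1) * j + (k + 1) := by
    have : (2 * k + 1) * (2 * j + 1) = 2 * ((2 * k + 1) * j) + (2 * k + 1) := by ring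
    omega
  rw [h2, pow_add, pow_mul, pow_mul, ← E.hF, ← map_pow, h1, ]

theorem map_T (η : K →+* F) (a b : K) : Matrix.SpecialLinearGroup.map η (T E.θ a b) = T D.θ (η a) (η b) := by
  refine Matrix.SpecialLinearGroup.ext _ _ fun i j => ?_
  show η (Tm E.θ a b i j) = Tm D.θ (η a) (η b) i j
  fin_cases i <;> fin_cases j <;> simp [Tm, z, D.theta_comm E η]

theorem map_h (η : K →+* F) (u : Kˣ) : Matrix.SpecialLinearGroup.map η (h E.θ u) = h D.θ (Units.map η.toMonoidHom u) := by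
  refine Matrix.SpecialLinearGroup.ext _ _ fun i j => ?_
  show η (Cfsg.Agent.H8.Suz.hm E.θ u i j) = Cfsg.Agent.H8.Suz.hm D.θ (Units.map η.toMonoidHom u) i j
  fin_cases i <;> fin_cases j <;> simp [Cfsg.Agent.H8.Suz.hm, D.theta_comm E η]

omit [Fintype F] [Fintype K] in
theorem map_w (η : K →+* F) : Matrix.SpecialLinearGroup.map η (w K) = w F := by
  refine Matrix.SpecialLinearGroup.ext _ _ fun i j => ?_
  show η (wm K i j) = wm F i j
  fin_cases i <;> fin_cases j <;> simp [wm]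

include D E in
theorem map_mem (η : K →+* F) (x : Cfsg.Sz K k) : Matrix.SpecialLinearGroup.map η x.1 ∈ Cfsg.Sz F m := by
  have h1 : ((Cfsg.Sz F m).comap ((Matrix.SpecialLinearGroup.map η).comp (Cfsg.Sz K k).subtype)) = ⊤ := by
    apply E.generate
    · intro a b
      show Matrix.SpecialLinearGroup.map η (T E.θ a b) ∈ Cfsg.Sz F m
      rw [D.map_T E]
      exact (D.tt (η a) (η b)).2
    · intro u
      show Matrix.SpecialLinearGroup.map η (h E.θ u) ∈ Cfsg.Sz F m
      rw [D.map_h E]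
      exact (D.hh _).2
    · show Matrix.SpecialLinearGroup.map η (w K) ∈ Cfsg.Sz F m
      rw [map_w]
      exact D.ww.2
  have : x ∈ ((Cfsg.Sz F m).comap ((Matrix.SpecialLinearGroup.map η).comp (Cfsg.Sz K k).subtype)) := by rw [h1]; trivial
  exact this

/-- The standard homomorphism. -/
def std (η : K →+* F) : Cfsg.Sz K k →* Cfsg.Sz F m :=
  ((Matrix.SpecialLinearGroup.map η).comp (Cfsg.Sz K k).subtype).codRestrict (Cfsg.Sz F m) (D.map_mem E η)

theorem std_tt (η : K →+* F) (a b : K) : D.std E η (E.tt a b) = D.tt (η a) (η b) := Subtype.ext (D.map_T E η a b)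
theorem std_hh (η : K →+* F) (u : Kˣ) : D.std E η (E.hh u) = D.hh (Units.map η.toMonoidHom u) := Subtype.ext (D.map_h E η u)
theorem std_ww (η : K →+* F) : D.std E η E.ww = D.ww := Subtype.ext (map_w η)

theorem std_injective (η : K →+* F) : Function.Injective (D.std E η) := by
  intro x y h
  apply mat_inj
  ext i j
  have h1 : (D.std E η x).1.1 i j = (D.std E η y).1.1 i j := by rw [h]
  exact η.injective h1

theorem theta_mul_inj {a b : F} (h : D.θ a * a = D.θ b * b) : a = b := by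
  by_cases hb : b = 0
  · subst hb
    rw [mul_zero] at h
    rcases mul_eq_zero.1 h with h | h
    · exact (map_eq_zero D.θ).1 h
    · exact h
  · have hθb : D.θ b ≠ 0 := by simpa using hb
    have h1 : D.θ (a / b) * (a / b) = 1 := by
      rw [map_div₀, div_mul_div_comm, h, div_self (mul_ne_zero hθb hb)]
    have h2 : (a / b) ^ 2 * D.θ (a / b) = 1 := by
      have := congrArg D.θ h1
      rw [map_mul, D.hθ, map_one] at this; exact this
    have h3 : (a / b) * (D.θ (a / b) * (a / b)) = 1 := by rw [← h2]; ring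
    rw [h1, mul_one, div_eq_one_iff_eq hb] at h3
    exact h3

/-- Embeddings normalised to preserve `U`, `H` and `ww` are standard. -/
theorem eq_std_of_normalised (φ : Cfsg.Sz K k →* Cfsg.Sz F m) (hφ : Function.Injective φ)
    (hU : ∀ x ∈ E.U, φ x ∈ D.U) (hH : ∀ x ∈ E.H, φ x ∈ D.H) (hw : φ E.ww = D.ww) : ∃ η : K →+* F, φ = D.std E η := by
  have hcharK := E.char
  have hcharF := D.char
  have hβ : ∀ b, ∃ c, φ (E.tt 0 b) = D.tt 0 c := by
    intro b
    apply D.eq_tt_of_sq' (hU _ ⟨0, b, rfl⟩)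
    rw [← map_mul, E.tt_sq, mul_zero, E.tt_zero, map_one]
  choose β hβ using hβ
  have hμ : ∀ v, ∃ u, φ (E.hh v) = D.hh u := fun v => hH _ ⟨v, rfl⟩
  choose μ hμ using hμ
  have β_add : ∀ a b, β (a + b) = β a + β b := by
    intro a b
    have h1 : E.tt 0 (a + b) = E.tt 0 a * E.tt 0 b := by rw [E.tt_mul, map_zero, zero_mul, add_zero, add_zero]
    have h2 := congrArg φ h1
    rw [map_mul, hβ, hβ, hβ, D.tt_mul, map_zero, zero_mul, add_zero, add_zero] at h2
    exact (D.tt_inj h2).2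
  have β_zero : β 0 = 0 := by
    have := β_add 0 0
    rw [add_zero] at this
    exact left_eq_add.1 this
  have β_ne : ∀ a, a ≠ 0 → β a ≠ 0 := by
    intro a ha h
    apply ha
    have h1 : φ (E.tt 0 a) = φ (E.tt 0 0) := by rw [hβ, hβ, h, β_zero]
    exact (E.tt_inj (hφ h1)).2
  have β_one : β 1 = 1 := by
    apply D.eq_one_of_five (β_ne 1 one_ne_zero)
    have h1 := congrArg φ E.five
    rw [map_one, map_pow, map_mul, hw] at h1
    have h2 : φ E.t0 = D.tt 0 (β 1) := hβ 1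
    rw [h2] at h1
    exact h1
  have key : ∀ v : Kˣ, ∀ b, β (E.θ v * (v : K) ^ 2 * b) = D.θ (μ v) * (μ v : F) ^ 2 * β b := by
    intro v b
    have h1 := E.hh_conj_tt v 0 b
    rw [mul_zero] at h1
    have h2 := congrArg φ h1
    rw [map_mul, map_mul, map_inv, hβ, hβ, hμ, D.hh_conj_tt, mul_zero] at h2
    exact (D.tt_inj h2).2.symm
  have β_mul : ∀ a b, β (a * b) = β a * β b := by
    intro a b
    by_cases ha : a = 0
    · rw [ha, zero_mul, β_zero, zero_mul]
    · obtain ⟨v, hv⟩ := E.exists_theta_sq (Units.mk0 a ha)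
      rw [Units.val_mk0] at hv
      have h1 := key v b
      have h2 := key v 1
      rw [mul_one, β_one, mul_one] at h2
      rw [hv] at h1 h2
      rw [h1, h2]
  let η : K →+* F := { toFun := β, map_one' := β_one, map_mul' := β_mul, map_zero' := β_zero, map_add' := β_add }
  have hη : ∀ a, η a = β a := fun _ => rfl
  have μ_eq : ∀ v : Kˣ, (μ v) = Units.map η.toMonoidHom v := by
    intro v
    have h1 := key v 1
    rw [mul_one, β_one, mul_one, ← hη, map_mul, map_pow, ← D.theta_comm E η] at h1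
    by_contra hne
    have h2 : μ v * (Units.map η.toMonoidHom v)⁻¹ ≠ 1 := fun h => hne (mul_inv_eq_one.1 h)
    apply D.theta_sq_ne h2
    have hv : η (v : K) ≠ 0 := by simp
    have hv' : D.θ (η (v : K)) ≠ 0 := by simp
    rw [Units.val_mul, Units.val_inv_eq_inv_val, map_mul, map_inv₀, mul_pow, inv_pow]
    show D.θ (μ v) * (D.θ (η v))⁻¹ * ((μ v : F) ^ 2 * (η v ^ 2)⁻¹) = 1
    rw [mul_mul_mul_comm, ← h1, ← mul_inv, mul_inv_cancel₀]
    exact mul_ne_zero hv' (pow_ne_zero 2 hv)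
  have hα : ∀ a, ∃ g, φ (E.tt a 0) = D.tt (η a) g := by
    intro a
    obtain ⟨c, g, hc⟩ := hU (E.tt a 0) ⟨a, 0, rfl⟩
    refine ⟨g, ?_⟩
    rw [hc]
    congr 1
    apply D.theta_mul_inj
    have h1 := congrArg φ (E.tt_sq (a := a) (b := 0))
    rw [map_mul, hc, D.tt_sq, hβ] at h1
    have h2 := (D.tt_inj h1).2
    rw [h2, ← hη, map_mul, D.theta_comm E η]
  choose γ hγ using hα
  have γ_add : ∀ a b, γ (a + b) = γ a + γ b := by
    intro a b
    have h1 : E.tt a 0 * E.tt b 0 = E.tt (a + b) 0 * E.tt 0 (E.θ a * b) := by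
      rw [E.tt_mul, E.tt_mul]
      simp
    have h2 := congrArg φ h1
    rw [map_mul, map_mul, hγ, hγ, hγ, hβ, D.tt_mul, D.tt_mul] at h2
    have h3 := (D.tt_inj h2).2
    rw [← hη, map_mul, D.theta_comm E η, mul_zero, add_zero] at h3
    exact (add_right_cancel h3).symm
  have γ_theta : ∀ v : Kˣ, γ (E.θ v) = D.θ (η v) * (η v) ^ 2 * γ 1 := by
    intro v
    have h1 := E.hh_conj_tt v 1 0
    rw [mul_zero, mul_one] at h1
    have h2 := congrArg φ h1
    rw [map_mul, map_mul, map_inv, hγ, hγ, hμ, D.hh_conj_tt, μ_eq] at h2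
    exact (D.tt_inj h2).2.symm
  have γ_form : ∀ x : K, γ x = D.θ (η x) * η x * γ 1 := by
    intro x
    by_cases hx : x = 0
    · have h0 : γ 0 = 0 := by
        have := γ_add 0 0
        rw [add_zero] at this
        exact left_eq_add.1 this
      rw [hx, h0, map_zero, map_zero, zero_mul, zero_mul]
    · obtain ⟨v, hv⟩ := E.theta_surj x
      have hv0 : v ≠ 0 := by rintro rfl; rw [map_zero] at hv; exact hx hv.symm
      have h1 := γ_theta (Units.mk0 v hv0)
      rw [Units.val_mk0, hv] at h1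
      rw [h1]
      have h2 : D.θ (η x) = η v ^ 2 := by rw [← hv, ← D.theta_comm E η, D.hθ]
      have h3 : D.θ (η v) = η x := by rw [D.theta_comm E η, hv]
      rw [h2, h3]; ring
  have γ_one : γ 1 = 0 := by
    obtain ⟨c, hc0, hc1⟩ := E.exists_ne01
    have h1 := γ_add c 1
    rw [γ_form (c + 1), γ_form c, map_add, map_one, map_add, map_one] at h1
    have h2 : (η c + D.θ (η c)) * γ 1 = 0 := by grind
    rcases mul_eq_zero.1 h2 with h3 | h3
    · exfalso
      rw [D.theta_comm E η, ← map_add] at h3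
      exact E.add_theta_ne hc0 hc1 ((map_eq_zero η).1 h3)
    · exact h3
  refine ⟨η, ?_⟩
  have h1 : (MonoidHom.eqLocus φ (D.std E η)) = ⊤ := by
    apply E.generate
    · intro a b
      show φ (E.tt a b) = D.std E η (E.tt a b)
      have h2 : E.tt a b = E.tt a 0 * E.tt 0 b := by rw [E.tt_mul]; simp
      rw [D.std_tt, h2, map_mul, hγ, hβ, γ_form, γ_one, mul_zero, D.tt_mul]
      simp [hη]
    · intro u
      show φ (E.hh u) = D.std E η (E.hh u)
      rw [D.std_hh, hμ, μ_eq]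
    · show φ E.ww = D.std E η E.ww
      rw [D.std_ww, hw]
  ext1 x
  have : x ∈ (MonoidHom.eqLocus φ (D.std E η)) := by rw [h1]; trivial
  exact this

/-- Every embedding of Suzuki groups is standard up to conjugation. -/
theorem hom_eq (φ : Cfsg.Sz K k →* Cfsg.Sz F m) (hφ : Function.Injective φ) :
    ∃ (g : Cfsg.Sz F m) (η : K →+* F), ∀ x, φ x = g * D.std E η x * g⁻¹ := by
  have hcharK := E.char
  have hcharF := D.char
  -- it suffices to do it after conjugation
  have step : ∀ (ψ : Cfsg.Sz K k →* Cfsg.Sz F m) (a : Cfsg.Sz F m), (∀ x, ψ x = a * φ x * a⁻¹) →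
      (∃ η : K →+* F, ψ = D.std E η) → ∃ (g : Cfsg.Sz F m) (η : K →+* F), ∀ x, φ x = g * D.std E η x * g⁻¹ := by
    rintro ψ a hψ ⟨η, rfl⟩
    refine ⟨a⁻¹, η, fun x => ?_⟩
    rw [hψ]; group
  -- first conjugation
  obtain ⟨g0, hg0⟩ := D.conj_t0' (x := φ E.t0) (by rw [← map_mul, E.t0_sq, map_one])
    (fun h => E.t0_ne (hφ (by rw [h, map_one])))
  set φ1 : Cfsg.Sz K k →* Cfsg.Sz F m := (MulAut.conj g0).toMonoidHom.comp φ with hφ1
  have hφ1' : ∀ x, φ1 x = g0 * φ x * g0⁻¹ := fun _ => rfl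
  have inj1 : Function.Injective φ1 := (MulAut.conj g0).injective.comp hφ
  have t1 : φ1 E.t0 = D.t0 := hg0
  have U1 : ∀ x ∈ E.U, φ1 x ∈ D.U := by
    intro x hx
    apply D.centralizer_U D.t0_mem D.t0_ne
    rw [← t1, ← map_mul, ← map_mul, E.t0_comm hx]
  obtain ⟨v0, hv0⟩ := E.exists_unit
  have hhv0 : E.hh v0 ≠ 1 := fun h => hv0 (E.hh_inj (h.trans E.hh_one.symm))
  set y := φ1 (E.hh v0) with hy
  have hy1 : y ≠ 1 := fun h => hhv0 (inj1 (by rw [map_one]; exact h))
  have hyinf : y • D.inf = D.inf := by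
    have h1 : E.hh v0 * E.t0 * (E.hh v0)⁻¹ ∈ E.U := by
      show E.hh v0 * E.tt 0 1 * (E.hh v0)⁻¹ ∈ E.U
      rw [E.hh_conj_tt]; exact ⟨_, _, rfl⟩
    have h2 := U1 _ h1
    rw [map_mul, map_mul, map_inv, t1] at h2
    have hne : y * D.t0 * y⁻¹ ≠ 1 := by
      intro h'
      rw [mul_inv_eq_one] at h'
      exact D.t0_ne (mul_left_cancel (a := y) (by rw [h', mul_one]))
    have h3 := D.Fx_U (g := 1) hne (by rw [inv_one, one_mul, mul_one]; exact h2)
    rw [one_smul] at h3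
    have h4 : y • D.inf ∈ Fx (y * D.t0 * y⁻¹) := by
      show (y * D.t0 * y⁻¹) • (y • D.inf) = y • D.inf
      have : D.t0 • D.inf = D.inf := D.tt_inf 0 1
      rw [mul_smul, inv_smul_smul, mul_smul, this]
    rw [h3] at h4; exact h4
  have hodd : ¬ 2 ∣ orderOf y := by
    intro h2
    have h1 : orderOf y = orderOf (E.hh v0) := orderOf_injective φ1 inj1 _
    have h3 : orderOf (E.hh v0) ∣ Nat.card E.H := by
      have : orderOf (⟨E.hh v0, v0, rfl⟩ : E.H) = orderOf (E.hh v0) := by rw [← Subgroup.orderOf_coe]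
      rw [← this]; exact orderOf_dvd_natCard _
    rw [E.card_H] at h3
    exact E.odd_q1 (h2.trans (h1 ▸ h3))
  obtain ⟨p, hpi, hp⟩ : ∃ p, p ≠ D.inf ∧ y • p = p := by
    rcases (D.fixed_iff hy1).1 ⟨_, hyinf⟩ with h | ⟨g, hg⟩
    · exact absurd (D.orderOf_U hy1 h) hodd
    · have hFx := D.Fx_H hy1 hg
      have m1 : y • (g • D.inf) = g • D.inf := by
        have : g • D.inf ∈ Fx y := by rw [hFx]; exact Or.inl rfl
        exact this
      have m2 : y • (g • D.pt 0 0) = g • D.pt 0 0 := by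
        have : g • D.pt 0 0 ∈ Fx y := by rw [hFx]; exact Or.inr rfl
        exact this
      by_cases hg1 : g • D.inf = D.inf
      · refine ⟨g • D.pt 0 0, ?_, m2⟩
        intro h
        exact D.pt_ne_inf 0 0 (smul_left_cancel g (h.trans hg1.symm))
      · exact ⟨g • D.inf, hg1, m1⟩
  obtain ⟨a, b, hab⟩ := D.trans_pt p hpi
  -- second conjugation
  set s := (D.tt a b)⁻¹ with hs
  have hsU : s ∈ D.U := D.U.inv_mem ⟨a, b, rfl⟩
  set φ2 : Cfsg.Sz K k →* Cfsg.Sz F m := (MulAut.conj s).toMonoidHom.comp φ1 with hφ2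
  have hφ2' : ∀ x, φ2 x = s * φ1 x * s⁻¹ := fun _ => rfl
  have inj2 : Function.Injective φ2 := (MulAut.conj s).injective.comp inj1
  have U2 : ∀ x ∈ E.U, φ2 x ∈ D.U := by
    intro x hx
    rw [hφ2']
    exact D.U.mul_mem (D.U.mul_mem hsU (U1 x hx)) (D.U.inv_mem hsU)
  have hsinf : s • D.inf = D.inf := by rw [hs, inv_smul_eq_iff, D.tt_inf]
  have hsinf' : s⁻¹ • D.inf = D.inf := by rw [inv_smul_eq_iff, hsinf]
  obtain ⟨u0, hu0⟩ : ∃ u, φ2 (E.hh v0) = D.hh u := by
    apply D.exists_hh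
    · rw [hφ2', mul_smul, mul_smul, hsinf', ← hy, hyinf, hsinf]
    · rw [hφ2', mul_smul, mul_smul, ← hy]
      have h1 : s⁻¹ • D.pt 0 0 = p := by rw [hs, inv_inv, hab]
      rw [h1, hp, ← h1, smul_inv_smul]
  have hu01 : u0 ≠ 1 := by
    rintro rfl
    rw [D.hh_one] at hu0
    exact hhv0 (inj2 (by rw [hu0, map_one]))
  have H2 : ∀ x ∈ E.H, φ2 x ∈ D.H := by
    rintro _ ⟨v, rfl⟩
    apply D.centralizer_H hu01
    rw [← hu0, ← map_mul, ← map_mul, E.hh_mul, E.hh_mul, mul_comm]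
  -- the image of `ww`
  have hwinv : φ2 E.ww * D.hh u0 * (φ2 E.ww)⁻¹ = D.hh u0⁻¹ := by
    have h1 : E.ww * E.hh v0 * (E.ww)⁻¹ = (E.hh v0)⁻¹ := by rw [E.ww_inv, E.ww_conj_hh, E.hh_inv]
    have h2 := congrArg φ2 h1
    rw [map_mul, map_mul, map_inv, map_inv, hu0, D.hh_inv] at h2
    exact h2
  have hu02 : u0⁻¹ ≠ u0 := by
    intro h
    apply hu01
    have h1 : u0 * u0 = 1 := by
      calc u0 * u0 = u0 * u0⁻¹ := by rw [h]
        _ = 1 := mul_inv_cancel _
    have h2 : (u0 : F) ^ 2 = 1 := by rw [pow_two, ← Units.val_mul, h1, Units.val_one]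
    exact Units.ext (D.sq_eq_one h2)
  obtain ⟨c, hc⟩ : ∃ c, φ2 E.ww = D.ww * D.hh c := by
    rcases D.H_TI hu01 (g := φ2 E.ww) (by rw [hwinv]; exact ⟨_, rfl⟩) with h | h
    · exfalso
      obtain ⟨c, hc⟩ := h
      rw [hc] at hwinv
      have h1 : D.hh c * D.hh u0 * (D.hh c)⁻¹ = D.hh u0 := by
        rw [D.hh_mul, mul_comm c u0, ← D.hh_mul]; group
      rw [h1] at hwinv
      exact hu02 (D.hh_inj hwinv).symm
    · obtain ⟨c, hc⟩ := h
      refine ⟨c, ?_⟩
      rw [← hc, ← mul_assoc, D.ww_mul_ww, one_mul]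
  obtain ⟨d, hd⟩ := D.exists_sqrt c
  set φ3 : Cfsg.Sz K k →* Cfsg.Sz F m := (MulAut.conj (D.hh d)).toMonoidHom.comp φ2 with hφ3
  have hφ3' : ∀ x, φ3 x = D.hh d * φ2 x * (D.hh d)⁻¹ := fun _ => rfl
  have inj3 : Function.Injective φ3 := (MulAut.conj (D.hh d)).injective.comp inj2
  have U3 : ∀ x ∈ E.U, φ3 x ∈ D.U := by
    intro x hx
    rw [hφ3']
    obtain ⟨a', b', hab'⟩ := U2 x hx
    rw [hab', D.hh_conj_tt]; exact ⟨_, _, rfl⟩
  have H3 : ∀ x ∈ E.H, φ3 x ∈ D.H := by
    intro x hx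
    rw [hφ3']
    exact D.H.mul_mem (D.H.mul_mem ⟨d, rfl⟩ (H2 x hx)) (D.H.inv_mem ⟨d, rfl⟩)
  have w3 : φ3 E.ww = D.ww := by
    have h1 : D.hh d * D.ww = D.ww * D.hh d⁻¹ := by rw [D.ww_mul_hh, inv_inv]
    rw [hφ3', hc, ← mul_assoc, h1, D.hh_inv, mul_assoc, mul_assoc, D.hh_mul, D.hh_mul]
    have h2 : d⁻¹ * (c * d⁻¹) = 1 := by rw [← hd]; simp
    rw [h2, D.hh_one, mul_one]
  obtain ⟨η, hη⟩ := D.eq_std_of_normalised E φ3 inj3 U3 H3 w3
  apply step φ3 (D.hh d * s * g0)
  · intro x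
    rw [hφ3', hφ2', hφ1']; group
  · exact ⟨η, hη⟩

end Dat

end Cfsg.Agent.H8.Suz
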