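import Mathlib
import Cfsg.Agent.H8.L3Fus
import Cfsg.Agent.Lib.Herm16

set_option autoImplicit false
set_option linter.all false

/-! The 2-fusion system of `U_3(q)`, `q` odd. -/

namespace Cfsg.Agent.H8.U3

open Matrix
open Cfsg.Agent.H8.L3 Cfsg.Agent.Lib.Herm

variable {F : Type*} [Field F]

local notation "M2" => Matrix (Fin 2) (Fin 2) F
local notation "M3" => Matrix (Fin 3) (Fin 3) F
local notation "G2" => GL (Fin 2) F
local notation "S3" => Matrix.SpecialLinearGroup (Fin 3) F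

theorem cent_mat (h2 : (2 : F) ≠ 0) (s : S3) (r : F) (hr' : (DZ F : M3) * s.1 = r • (s.1 * DZ F)) : ∃ h : G2, emb h = s := by
  have e : ∀ i j, ((DZ F : M3) * s.1) i j = r * (s.1 * DZ F : M3) i j := fun i j => by rw [hr']; rfl
  have e00 := e 0 0
  have e01 := e 0 1
  have e02 := e 0 2
  have e10 := e 1 0
  have e11 := e 1 1
  have e12 := e 1 2
  have e20 := e 2 0
  have e21 := e 2 1
  have e22 := e 2 2
  simp [Matrix.mul_apply, Fin.sum_univ_three, E3, DZ] at e00 e01 e02 e10 e11 e12 e20 e21 e22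
  have hdet := s.2
  rw [Matrix.det_fin_three] at hdet
  have hr3 : r ^ 3 = 1 := by
    have h4 := congrArg Matrix.det hr'
    have h5 : (DZ F : M3).det = 1 := by rw [DZ, E3_det, Matrix.det_neg, Matrix.det_one, Fintype.card_fin]; ring
    rw [Matrix.det_smul, Matrix.det_mul, Matrix.det_mul, s.2, Fintype.card_fin, h5] at h4
    rw [mul_one, mul_one] at h4
    exact h4.symm
  have hr1 : r = 1 := by
    by_contra hne
    have hne' : r - 1 ≠ 0 := sub_ne_zero.2 hne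
    have z00 : s.1 0 0 = 0 := (mul_eq_zero.1 (by linear_combination (-1 : F) * e00 : (r - 1) * s.1 0 0 = 0)).resolve_left hne'
    have z01 : s.1 0 1 = 0 := (mul_eq_zero.1 (by linear_combination (-1 : F) * e01 : (r - 1) * s.1 0 1 = 0)).resolve_left hne'
    have z10 : s.1 1 0 = 0 := (mul_eq_zero.1 (by linear_combination (-1 : F) * e10 : (r - 1) * s.1 1 0 = 0)).resolve_left hne'
    have z11 : s.1 1 1 = 0 := (mul_eq_zero.1 (by linear_combination (-1 : F) * e11 : (r - 1) * s.1 1 1 = 0)).resolve_left hne'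
    have z22 : s.1 2 2 = 0 := (mul_eq_zero.1 (by linear_combination (-1 : F) * e22 : (r - 1) * s.1 2 2 = 0)).resolve_left hne'
    rw [z00, z01, z10, z11, z22] at hdet
    simp at hdet
  rw [hr1] at e02 e12 e20 e21
  have z02 : s.1 0 2 = 0 := (mul_eq_zero.1 (by linear_combination (-1 : F) * e02 : 2 * s.1 0 2 = 0)).resolve_left h2
  have z12 : s.1 1 2 = 0 := (mul_eq_zero.1 (by linear_combination (-1 : F) * e12 : 2 * s.1 1 2 = 0)).resolve_left h2
  have z20 : s.1 2 0 = 0 := (mul_eq_zero.1 (by linear_combination e20 : 2 * s.1 2 0 = 0)).resolve_left h2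
  have z21 : s.1 2 1 = 0 := (mul_eq_zero.1 (by linear_combination e21 : 2 * s.1 2 1 = 0)).resolve_left h2
  have hE := E3_of z02 z12 z20 z21
  have hd : (!![s.1 0 0, s.1 0 1; s.1 1 0, s.1 1 1] : M2).det * s.1 2 2 = 1 := by
    rw [← E3_det, ← hE]; exact s.2
  have hd0 : (!![s.1 0 0, s.1 0 1; s.1 1 0, s.1 1 1] : M2).det ≠ 0 := left_ne_zero_of_mul_eq_one hd
  refine ⟨Matrix.GeneralLinearGroup.mkOfDetNeZero _ hd0, ?_⟩
  apply Subtype.ext
  rw [emb_val]
  conv_rhs => rw [hE]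
  have h5 : (((Matrix.GeneralLinearGroup.det (Matrix.GeneralLinearGroup.mkOfDetNeZero _ hd0))⁻¹ : Fˣ) : F) = s.1 2 2 := by
    rw [Units.val_inv_eq_inv_val]
    exact (eq_inv_of_mul_eq_one_right hd).symm
  rw [h5]
  rfl

variable {σ : F ≃+* F} {q : ℕ}

theorem E3_st (A : M2) (u : F) : (E3 A u).transpose * (E3 A u).map σ = E3 (A.transpose * A.map σ) (u * σ u) := by
  ext i j; fin_cases i <;> fin_cases j <;> simp [E3, Matrix.mul_apply, Fin.sum_univ_three, Fin.sum_univ_two]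

theorem emb_mem_iff (hσ2 : ∀ a, σ (σ a) = a) (hq : ∀ a, σ a = a ^ q) (g : G2) : emb g ∈ Cfsg.SU 3 F q ↔ g ∈ Cfsg.GU 2 F q := by
  rw [su_iff hσ2 hq, gu_iff hσ2 hq, emb_val, E3_st, ← E3_one]
  constructor
  · intro h
    exact (E3_inj h).1
  · intro h
    rw [h]
    have h1 := det_mem_NU hσ2 hq (⟨g, (gu_iff hσ2 hq g).2 h⟩ : Cfsg.GU 2 F q)
    have h2 := mem_NU.1 ((NU σ).inv_mem h1)
    exact congrArg (E3 1) h2

/-- the embedding of `GU_2` in `SU_3` -/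
def embU (hσ2 : ∀ a, σ (σ a) = a) (hq : ∀ a, σ a = a ^ q) : Cfsg.GU 2 F q →* Cfsg.SU 3 F q where
  toFun g := ⟨emb g.1, (emb_mem_iff hσ2 hq g.1).2 g.2⟩
  map_one' := Subtype.ext (map_one emb)
  map_mul' g h := Subtype.ext (map_mul emb g.1 h.1)

theorem embU_val (hσ2 : ∀ a, σ (σ a) = a) (hq : ∀ a, σ a = a ^ q) (g : Cfsg.GU 2 F q) : (embU hσ2 hq g).1 = emb g.1 := rfl

/-- the map to `PSU_3` -/
def ioU (hσ2 : ∀ a, σ (σ a) = a) (hq : ∀ a, σ a = a ^ q) : Cfsg.GU 2 F q →* Cfsg.PSU 3 F q :=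
  (QuotientGroup.mk' (Subgroup.center (Cfsg.SU 3 F q))).comp (embU hσ2 hq)

theorem ioU_apply (hσ2 : ∀ a, σ (σ a) = a) (hq : ∀ a, σ a = a ^ q) (g : Cfsg.GU 2 F q) :
    ioU hσ2 hq g = QuotientGroup.mk (embU hσ2 hq g) := rfl

theorem mem_cen [Fintype F] (hσ : orderOf σ = 2) (hσ2 : ∀ a, σ (σ a) = a) (hq : ∀ a, σ a = a ^ q) {c : Cfsg.SU 3 F q}
    (hc : c ∈ Subgroup.center (Cfsg.SU 3 F q)) : ∃ r : F, c.1.1 = r • (1 : M3) ∧ r ^ 3 = 1 := by
  obtain ⟨l, hl⟩ := (mem_center_SU hσ hσ2 hq (by norm_num) c).1 hc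
  have h1 := mulVec_scalar hl
  rw [Matrix.scalar_apply, ← Matrix.smul_one_eq_diagonal] at h1
  refine ⟨l, h1, ?_⟩
  have h2 := c.1.2
  rw [h1, Matrix.det_smul, Matrix.det_one, Fintype.card_fin, mul_one] at h2
  exact h2

theorem ioU_ker [Fintype F] (hσ : orderOf σ = 2) (hσ2 : ∀ a, σ (σ a) = a) (hq : ∀ a, σ a = a ^ q) {g : Cfsg.GU 2 F q}
    (h : ioU hσ2 hq g = 1) : ∃ r : F, g.1.1 = r • 1 ∧ r ^ 3 = 1 := by
  rw [ioU_apply, QuotientGroup.eq_one_iff] at h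
  obtain ⟨r, hr, hr3⟩ := mem_cen hσ hσ2 hq h
  have h2 : r • (1 : M3) = E3 g.1.1 ((Matrix.GeneralLinearGroup.det g.1)⁻¹ : Fˣ) := hr.symm
  rw [← E3_one, smul_E3] at h2
  obtain ⟨h3, h4⟩ := E3_inj h2
  exact ⟨r, h3.symm, hr3⟩

theorem dg_mem (hσ2 : ∀ a, σ (σ a) = a) (hq : ∀ a, σ a = a ^ q) {a b : Fˣ} (ha : a ∈ NU σ) (hb : b ∈ NU σ) : dg a b ∈ Cfsg.GU 2 F q := by
  rw [gu_iff hσ2 hq, dg_val]
  rw [mem_NU] at ha hb
  ext i j; fin_cases i <;> fin_cases j <;> simp [Matrix.mul_apply, Fin.sum_univ_two, ha, hb]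

theorem ad_mem (hσ2 : ∀ a, σ (σ a) = a) (hq : ∀ a, σ a = a ^ q) {a b : Fˣ} (ha : a ∈ NU σ) (hb : b ∈ NU σ) : ad a b ∈ Cfsg.GU 2 F q := by
  rw [gu_iff hσ2 hq, ad_val]
  rw [mem_NU] at ha hb
  ext i j; fin_cases i <;> fin_cases j <;> simp [Matrix.mul_apply, Fin.sum_univ_two, ha, hb]

theorem neg_one_mem (σ : F ≃+* F) : (-1 : Fˣ) ∈ NU σ := by
  rw [mem_NU]; simp

theorem zz_mem (hσ2 : ∀ a, σ (σ a) = a) (hq : ∀ a, σ a = a ^ q) : zz F ∈ Cfsg.GU 2 F q := by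
  have h : zz F = dg (-1) (-1) := by
    apply Units.ext
    rw [dg_val]
    show (-1 : M2) = _
    ext i j; fin_cases i <;> fin_cases j <;> simp
  rw [h]
  exact dg_mem hσ2 hq (neg_one_mem σ) (neg_one_mem σ)

/-- conjugacy of involutions of `SU_3` -/
theorem su_inv [Fintype F] (hσ : orderOf σ = 2) (hσ2 : ∀ a, σ (σ a) = a) (hq : ∀ a, σ a = a ^ q) (h2 : (2 : F) ≠ 0)
    (s : Cfsg.SU 3 F q) (hs : s * s = 1) (hs1 : s ≠ 1) : ∃ g : Cfsg.SU 3 F q, g * s = embU hσ2 hq ⟨zz F, zz_mem hσ2 hq⟩ * g := by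
  obtain ⟨hσ3, hσ4, -⟩ := sigma_facts hσ
  obtain ⟨k, v, w, hk, hvw, hsf⟩ := inv_form (s := s.1.1) h2 (congrArg (fun x : Cfsg.SU 3 F q => x.1.1) hs) s.1.2
    fun h => hs1 (Subtype.ext (Subtype.ext h))
  obtain ⟨P, hP, hsP⟩ := exists_P h2 hk hvw hsf
  let P' : GL (Fin 3) F := Matrix.SpecialLinearGroup.toGL ⟨P, hP⟩
  let s' := suIncl hσ2 hq 3 s
  let d' := suIncl hσ2 hq 3 (embU hσ2 hq ⟨zz F, zz_mem hσ2 hq⟩)
  have hd' : d'.1.1 = DZ F := emb_neg_one
  obtain ⟨g, hg, hgs⟩ := gu_conj_of_gl_conj hσ2 hσ4 hq (A := s'.1) (B := d'.1) s'.2 d'.2 (P := P'⁻¹) (by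
    rw [inv_inv, mul_assoc, inv_mul_eq_iff_eq_mul]
    apply Units.ext
    show s.1.1 * P = P * d'.1.1
    rw [hd', hsP])
  have hgs' : g.1 * s.1.1 = DZ F * g.1 := by
    rw [mul_inv_eq_iff_eq_mul] at hgs
    have := congrArg Units.val hgs
    rw [← hd']; exact this
  set d : Fˣ := Matrix.GeneralLinearGroup.det g with hd
  have hdN : d ∈ NU σ := det_mem_NU hσ2 hq (⟨g, hg⟩ : Cfsg.GU 3 F q)
  have hdi : ((d⁻¹ : Fˣ) : F) * σ ((d⁻¹ : Fˣ) : F) = 1 := mem_NU.1 ((NU σ).inv_mem hdN)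
  let E : M3 := E3 1 ((d⁻¹ : Fˣ) : F)
  have hE : E.transpose * E.map σ = 1 := by
    show (E3 _ _).transpose * (E3 _ _).map σ = 1
    rw [E3_st, hdi]
    have : (1 : M2).transpose * (1 : M2).map σ = 1 := by
      rw [Matrix.transpose_one, one_mul]
      exact map_one (RingHom.mapMatrix (m := Fin 2) (σ : F →+* F))
    rw [this, E3_one]
  have hgv := (gu_iff hσ2 hq g).1 hg
  have hEg : (E * g.1).det = 1 := by
    rw [Matrix.det_mul]
    show (E3 (1 : M2) ((d⁻¹ : Fˣ) : F)).det * ((d : Fˣ) : F) = 1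
    rw [E3_det, Matrix.det_one, one_mul, Units.inv_mul]
  have hmem : (⟨E * g.1, hEg⟩ : S3) ∈ Cfsg.SU 3 F q := by
    refine (su_iff hσ2 hq (⟨E * g.1, hEg⟩ : S3)).2 ?_
    show (E * g.1).transpose * (E * g.1).map σ = 1
    have h1 : (E * g.1).map σ = E.map σ * g.1.map σ := map_mul (RingHom.mapMatrix (m := Fin 3) (σ : F →+* F)) E g.1
    rw [Matrix.transpose_mul, h1]
    calc g.1.transpose * E.transpose * (E.map σ * g.1.map σ) = g.1.transpose * (E.transpose * E.map σ) * g.1.map σ := by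
          simp only [mul_assoc]
      _ = 1 := by rw [hE, mul_one]; exact hgv
  refine ⟨⟨⟨E * g.1, hEg⟩, hmem⟩, ?_⟩
  apply Subtype.ext
  apply Subtype.ext
  show E * g.1 * s.1.1 = (emb (zz F)).1 * (E * g.1)
  rw [emb_neg_one, mul_assoc, hgs', ← mul_assoc, ← mul_assoc]
  congr 1
  show E3 _ _ * E3 _ _ = E3 _ _ * E3 _ _
  rw [E3_mul, E3_mul, one_mul, mul_one, mul_one, one_mul]

theorem inv_conjU [Fintype F] (hσ : orderOf σ = 2) (hσ2 : ∀ a, σ (σ a) = a) (hq : ∀ a, σ a = a ^ q) (h2 : (2 : F) ≠ 0)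
    {x : Cfsg.PSU 3 F q} (hx : orderOf x = 2) : ∃ g, g * x * g⁻¹ = ioU hσ2 hq ⟨zz F, zz_mem hσ2 hq⟩ := by
  obtain ⟨s, rfl⟩ := QuotientGroup.mk_surjective x
  have h1 : ((s * s : Cfsg.SU 3 F q) : Cfsg.PSU 3 F q) = 1 := by
    rw [QuotientGroup.mk_mul, ← pow_two, ← hx, pow_orderOf_eq_one]
  rw [QuotientGroup.eq_one_iff] at h1
  obtain ⟨r, hr, hr3⟩ := mem_cen hσ hσ2 hq h1
  have hc := Subgroup.mem_center_iff.1 h1
  have hc3 : s * s * (s * s) * (s * s) = 1 := by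
    apply Subtype.ext
    apply Subtype.ext
    show (s * s).1.1 * (s * s).1.1 * (s * s).1.1 = 1
    rw [hr, smul_mul_smul_comm, smul_mul_smul_comm, one_mul, one_mul]
    have : r * r * r = 1 := by rw [← hr3]; ring
    rw [this, one_smul]
  have hmk : ((s * s * s : Cfsg.SU 3 F q) : Cfsg.PSU 3 F q) = (s : Cfsg.PSU 3 F q) := by
    rw [QuotientGroup.mk_mul, (QuotientGroup.eq_one_iff _).2 h1, one_mul]
  obtain ⟨g, hg⟩ := su_inv hσ hσ2 hq h2 (s * s * s) (by rw [← hc3]; group) (by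
    intro h
    rw [h] at hmk
    rw [← hmk, QuotientGroup.mk_one, orderOf_one] at hx
    omega)
  refine ⟨(g : Cfsg.PSU 3 F q), ?_⟩
  rw [mul_inv_eq_iff_eq_mul, ioU_apply, ← hmk, ← QuotientGroup.mk_mul, hg, QuotientGroup.mk_mul]

theorem cent_liftU [Fintype F] (hσ : orderOf σ = 2) (hσ2 : ∀ a, σ (σ a) = a) (hq : ∀ a, σ a = a ^ q) (h2 : (2 : F) ≠ 0)
    (g : Cfsg.PSU 3 F q) (hg : g * ioU hσ2 hq ⟨zz F, zz_mem hσ2 hq⟩ = ioU hσ2 hq ⟨zz F, zz_mem hσ2 hq⟩ * g) :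
    ∃ h, ioU hσ2 hq h = g := by
  obtain ⟨s, rfl⟩ := QuotientGroup.mk_surjective g
  rw [ioU_apply, ← QuotientGroup.mk_mul, ← QuotientGroup.mk_mul, QuotientGroup.eq] at hg
  obtain ⟨r, hr, hr3⟩ := mem_cen hσ hσ2 hq hg
  have hr' : (DZ F : M3) * s.1.1 = r • (s.1.1 * DZ F) := by
    have h3 : embU hσ2 hq ⟨zz F, zz_mem hσ2 hq⟩ * s = s * embU hσ2 hq ⟨zz F, zz_mem hσ2 hq⟩ *
      ((s * embU hσ2 hq ⟨zz F, zz_mem hσ2 hq⟩)⁻¹ * (embU hσ2 hq ⟨zz F, zz_mem hσ2 hq⟩ * s)) := by group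
    have h4 := congrArg (fun x : Cfsg.SU 3 F q => x.1.1) h3
    have h5 : (emb (zz F)).1 * s.1.1 = s.1.1 * (emb (zz F)).1 *
      ((s * embU hσ2 hq ⟨zz F, zz_mem hσ2 hq⟩)⁻¹ * (embU hσ2 hq ⟨zz F, zz_mem hσ2 hq⟩ * s)).1.1 := h4
    rw [hr, emb_neg_one, mul_smul_comm, mul_one] at h5
    exact h5
  obtain ⟨h, hh⟩ := cent_mat h2 s.1 r hr'
  have hmem : h ∈ Cfsg.GU 2 F q := by
    rw [← emb_mem_iff hσ2 hq, hh]; exact s.2
  refine ⟨⟨h, hmem⟩, ?_⟩
  rw [ioU_apply]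
  congr 1
  exact Subtype.ext hh

theorem rot_mem (hσ2 : ∀ a, σ (σ a) = a) (hq : ∀ a, σ a = a ^ q) : (rot : S3) ∈ Cfsg.SU 3 F q := by
  rw [su_iff hσ2 hq]
  show (!![1, 0, 0; 0, 0, 1; 0, -1, 0] : M3).transpose * (!![1, 0, 0; 0, 0, 1; 0, -1, 0] : M3).map σ = 1
  ext i j; fin_cases i <;> fin_cases j <;> simp [Matrix.mul_apply, Fin.sum_univ_three]

theorem Two.val {B : Subgroup Fˣ} {a : B} (h : Two a) : Two (a : Fˣ) := by
  obtain ⟨k, hk⟩ := h
  exact ⟨k, by have := congrArg Subtype.val hk; simpa using this⟩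

/-- the data for `U_3(q)` -/
theorem dataU [Fintype F] (hF : Fintype.card F = q ^ 2) (hodd : q % 2 = 1) (hσ : orderOf σ = 2)
    (hσ2 : ∀ a, σ (σ a) = a) (hq : ∀ a, σ a = a ^ q) : Nonempty (FSim.GLD (Cfsg.PSU 3 F q) (Cfsg.GU 2 F q) (NU σ)) := by
  have hodd' : Fintype.card F % 2 = 1 := by
    rw [hF, Nat.pow_mod, hodd]
  have h2 : (2 : F) ≠ 0 := two_ne hodd'
  obtain ⟨hσ3, hσ4, -⟩ := sigma_facts hσ
  have hm1 : (1 : F) ≠ -1 := fun h => h2 (by linear_combination h)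
  set Z : Cfsg.GU 2 F q := ⟨zz F, zz_mem hσ2 hq⟩ with hZ
  have hZ1 : Z.1 = zz F := rfl
  have hzv : (zz F).1 = -1 := rfl
  have hn1 := neg_one_mem σ
  have h1N : (1 : Fˣ) ∈ NU σ := (NU σ).one_mem
  -- conversion to matrices
  have δv : ∀ x : Cfsg.GU 2 F q, ((detGU hσ2 hq 2 x : NU σ) : Fˣ) = Matrix.GeneralLinearGroup.det x.1 := fun x => rfl
  have δe : ∀ {x : Cfsg.GU 2 F q} {l : NU σ}, Matrix.GeneralLinearGroup.det x.1 = l.1 → detGU hσ2 hq 2 x = l := fun {x l} h =>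
    Subtype.ext h
  have det1 : ∀ {x : Cfsg.GU 2 F q}, detGU hσ2 hq 2 x = 1 → x.1.1.det = 1 := fun {x} h =>
    congrArg (fun l : NU σ => ((l : Fˣ) : F)) h
  have ext : ∀ {x y : Cfsg.GU 2 F q}, x.1.1 = y.1.1 → x = y := fun {x y} h => Subtype.ext (Units.ext h)
  have con : ∀ {x y : Cfsg.GU 2 F q}, x = y → x.1.1 = y.1.1 := fun {x y} h => by rw [h]
  have sqz : ∀ {x : Cfsg.GU 2 F q}, x * x = Z → x.1.1 * x.1.1 = -1 := fun {x} h => con h
  have val : ∀ {x y : Cfsg.GU 2 F q}, x * y = y * x → x.1.1 * y.1.1 = y.1.1 * x.1.1 := fun {x y} h => con h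
  have valz : ∀ {x y : Cfsg.GU 2 F q}, x * y = Z * (y * x) → x.1.1 * y.1.1 = -(y.1.1 * x.1.1) := fun {x y} h => by
    have := con h
    rw [← neg_one_mul]; exact this
  have hzc : ∀ x : Cfsg.GU 2 F q, Z * x = x * Z := fun x => ext (by
    show (-1 : M2) * x.1.1 = x.1.1 * -1
    rw [neg_one_mul, mul_neg_one])
  have hz2 : Z * Z = 1 := ext (by
    show (-1 : M2) * -1 = 1
    rw [neg_mul_neg, one_mul])
  set T : Cfsg.GU 2 F q := ⟨dg 1 (-1), dg_mem hσ2 hq h1N hn1⟩ with hT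
  set W : Cfsg.GU 2 F q := ⟨ad 1 (-1), ad_mem hσ2 hq h1N hn1⟩ with hW
  have hTv : T.1.1 = !![((1 : Fˣ) : F), 0; 0, ((-1 : Fˣ) : F)] := rfl
  have hWv : W.1.1 = !![0, ((1 : Fˣ) : F); ((-1 : Fˣ) : F), 0] := rfl
  refine ⟨{
    ι := ioU hσ2 hq
    δ := detGU hσ2 hq 2
    z := Z
    t := T
    w := W
    D := (DD (NU σ)).subgroupOf (Cfsg.GU 2 F q)
    ker_c := ?_
    ker_o := ?_
    z2 := hz2
    z1 := ?_
    zc := hzc
    zδ := ?_
    cent := cent_liftU hσ hσ2 hq h2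
    inv := ?_
    uniq := ?_
    conj4 := ?_
    q8 := ?_
    tt := ?_
    t1 := ?_
    ww := ?_
    wδ := ?_
    tw := ?_
    hD := ?_
    tD := ?_
    wD := ?_
    cen := ?_
    sq := ?_
    ab := ?_
    nsq := ?_
    fus := ?_ }⟩
  · intro k hk x
    obtain ⟨r, hr, -⟩ := ioU_ker hσ hσ2 hq hk
    apply ext
    show k.1.1 * x.1.1 = x.1.1 * k.1.1
    rw [hr, smul_mul_assoc, mul_smul_comm, one_mul, mul_one]
  · intro k hk
    obtain ⟨r, hr, hr3⟩ := ioU_ker hσ hσ2 hq hk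
    refine Odd.of_dvd_nat (by decide : Odd 3) (orderOf_dvd_of_pow_eq_one (ext ?_))
    show k.1.1 ^ 3 = 1
    rw [hr, smul_pow, one_pow, hr3, one_smul]
  · intro h
    have := congrFun (congrFun (con h) 0) 0
    have h3 : (-1 : F) = 1 := by simpa [hZ, zz] using this
    exact hm1 h3.symm
  · apply δe
    apply Units.ext
    show ((-1 : M2)).det = 1
    rw [Matrix.det_neg, Matrix.det_one, Fintype.card_fin]; ring
  · intro x y hx hy
    obtain ⟨g, hg⟩ := inv_conjU hσ hσ2 hq h2 hx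
    obtain ⟨h, hh⟩ := inv_conjU hσ hσ2 hq h2 hy
    refine ⟨h⁻¹ * g, ?_⟩
    have e : h⁻¹ * g * x * (h⁻¹ * g)⁻¹ = h⁻¹ * (g * x * g⁻¹) * h := by group
    rw [e, hg, ← hh]; group
  · intro x hx hxx
    rcases sq_one h2 (det1 hx) (con hxx) with h | h
    · exact Or.inl (ext h)
    · exact Or.inr (ext h)
  · intro x y hx hy hxx hyy
    let X : Matrix.SpecialLinearGroup (Fin 2) F := ⟨x.1.1, det1 hx⟩
    let Y : Matrix.SpecialLinearGroup (Fin 2) F := ⟨y.1.1, det1 hy⟩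
    obtain ⟨P, hP⟩ := FSim.sl_conj2 hodd' (X := X) (Y := Y) (Subtype.ext (by
      show x.1.1 * x.1.1 = _
      rw [sqz hxx]; simp)) (Subtype.ext (by
      show y.1.1 * y.1.1 = _
      rw [sqz hyy]; simp))
    obtain ⟨g, hg, hgx⟩ := gu_conj_of_gl_conj hσ2 hσ4 hq x.2 y.2 (P := Matrix.SpecialLinearGroup.toGL P) (by
      rw [mul_inv_eq_iff_eq_mul] at hP ⊢
      apply Units.ext
      have := congrArg Subtype.val hP
      exact this)
    exact ⟨⟨g, hg⟩, Subtype.ext hgx⟩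
  · -- q8
    obtain ⟨e, he, heσ⟩ := exists_skew hσ2 hσ4
    letI : Fintype (Cfsg.Agent.Lib.FinGal.fixF σ) := Fintype.ofFinite _
    have hKodd : Fintype.card (Cfsg.Agent.Lib.FinGal.fixF σ) % 2 = 1 := by
      have := Cfsg.Agent.Lib.FinGal.card_fixF σ
      rw [hσ, Nat.card_eq_fintype_card, Nat.card_eq_fintype_card, hF] at this
      have h3 := Nat.pow_left_injective (n := 2) (by norm_num) this
      rw [← h3]; exact hodd
    have hc : -(e * e)⁻¹ ∈ Cfsg.Agent.Lib.FinGal.fixF σ := by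
      rw [Cfsg.Agent.Lib.FinGal.mem_fixF, map_neg, map_inv₀, map_mul, heσ, neg_mul_neg]
    obtain ⟨a, b, hab⟩ := FSim.two_squares hKodd ⟨_, hc⟩
    have ha : σ a.1 = a.1 := Cfsg.Agent.Lib.FinGal.mem_fixF.1 a.2
    have hb : σ b.1 = b.1 := Cfsg.Agent.Lib.FinGal.mem_fixF.1 b.2
    have hab' : a.1 ^ 2 + b.1 ^ 2 = -(e * e)⁻¹ := congrArg Subtype.val hab
    have hab2 : (a.1 ^ 2 + b.1 ^ 2) * (e * e) = -1 := by
      rw [hab', neg_mul, inv_mul_cancel₀ (mul_ne_zero he he)]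
    have hdet : (!![e * a.1, e * b.1; e * b.1, -(e * a.1)] : M2).det = 1 := by
      rw [Matrix.det_fin_two_of]; linear_combination (-1 : F) * hab2
    let Y : GL (Fin 2) F := Matrix.GeneralLinearGroup.mkOfDetNeZero !![e * a.1, e * b.1; e * b.1, -(e * a.1)] (by rw [hdet]; exact one_ne_zero)
    have hYv : Y.1 = !![e * a.1, e * b.1; e * b.1, -(e * a.1)] := rfl
    have hYm : Y ∈ Cfsg.GU 2 F q := by
      rw [gu_iff hσ2 hq, hYv]
      ext i j
      fin_cases i <;> fin_cases j <;> simp [Matrix.mul_apply, Fin.sum_univ_two, heσ, ha, hb] <;> first | ring1 | linear_combination (-1 : F) * hab2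
    refine ⟨W, ⟨Y, hYm⟩, ?_, ?_, ?_, ?_, ?_⟩
    · apply δe
      show Matrix.GeneralLinearGroup.det (ad 1 (-1)) = 1
      rw [det_ad]; simp
    · apply δe
      apply Units.ext; exact hdet
    · apply ext
      show W.1.1 * W.1.1 = -1
      rw [hWv]
      ext i j; fin_cases i <;> fin_cases j <;> simp [Matrix.mul_apply, Fin.sum_univ_two]
    · apply ext
      show Y.1 * Y.1 = (-1 : M2)
      rw [hYv]
      ext i j; fin_cases i <;> fin_cases j <;> simp [Matrix.mul_apply, Fin.sum_univ_two] <;> first | ring1 | linear_combination hab2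
    · apply ext
      show W.1.1 * Y.1 = (-1 : M2) * (Y.1 * W.1.1)
      rw [hYv, hWv]
      ext i j; fin_cases i <;> fin_cases j <;> simp [Matrix.mul_apply, Fin.sum_univ_two]
  · apply Subtype.ext
    show dg 1 (-1) * dg 1 (-1) = 1
    rw [dg_dg]; simp [dg_one]
  · intro h
    have := congrFun (congrFun (con h) 1) 1
    have h3 : (-1 : F) = 1 := by simpa [hTv] using this
    exact hm1 h3.symm
  · apply ext
    show W.1.1 * W.1.1 = -1
    rw [hWv]
    ext i j; fin_cases i <;> fin_cases j <;> simp [Matrix.mul_apply, Fin.sum_univ_two]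
  · apply δe
    show Matrix.GeneralLinearGroup.det (ad 1 (-1)) = 1
    rw [det_ad]; simp
  · apply ext
    show T.1.1 * W.1.1 = (-1 : M2) * (W.1.1 * T.1.1)
    rw [hTv, hWv]
    ext i j; fin_cases i <;> fin_cases j <;> simp [Matrix.mul_apply, Fin.sum_univ_two]
  · exact (DD_two (NU σ)).comap_subtype
  · exact ⟨1, h1N, -1, hn1, Two.one, ⟨1, by simp⟩, Or.inl rfl⟩
  · exact ⟨1, h1N, -1, hn1, Two.one, ⟨1, by simp⟩, Or.inr rfl⟩
  · -- cen
    intro x hxx hxt hxw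
    have e1 := val hxt
    have e2 := val hxw
    rw [hTv] at e1
    rw [hWv] at e2
    have e01 := congrFun (congrFun e1 0) 1
    have e10 := congrFun (congrFun e1 1) 0
    have f01 := congrFun (congrFun e2 0) 1
    simp [Matrix.mul_apply, Fin.sum_univ_two] at e01 e10 f01
    have z01 : x.1.1 0 1 = 0 := (mul_eq_zero.1 (by linear_combination (-1 : F) * e01 : 2 * x.1.1 0 1 = 0)).resolve_left h2
    have z10 : x.1.1 1 0 = 0 := (mul_eq_zero.1 (by linear_combination e10 : 2 * x.1.1 1 0 = 0)).resolve_left h2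
    have hxx' : x.1.1 * x.1.1 = (1 : M2) := con hxx
    have h00' : x.1.1 0 0 * x.1.1 0 0 + x.1.1 0 1 * x.1.1 1 0 = 1 := by
      have : (x.1.1 * x.1.1) 0 0 = 1 := by rw [hxx']; rfl
      rwa [Matrix.mul_apply, Fin.sum_univ_two] at this
    have e4 : (x.1.1 0 0 - 1) * (x.1.1 0 0 + 1) = 0 := by rw [z01] at h00'; linear_combination h00'
    rcases mul_eq_zero.1 e4 with h | h
    · left
      have h5 : x.1.1 0 0 = 1 := by linear_combination h
      have h6 : x.1.1 1 1 = 1 := by rw [← f01]; exact h5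
      apply ext
      show x.1.1 = 1
      ext i k
      fin_cases i <;> fin_cases k <;> simp [z01, z10, h5, h6]
    · right
      have h5 : x.1.1 0 0 = -1 := by linear_combination h
      have h6 : x.1.1 1 1 = -1 := by rw [← f01]; exact h5
      apply ext
      show x.1.1 = -1
      ext i k
      fin_cases i <;> fin_cases k <;> simp [z01, z10, h5, h6]
  · -- sq
    intro j j' x hj hj' hjj hjj' hjc hxj hxj'
    have fin : ∀ y : Cfsg.GU 2 F q, y * j = j * y → y * j' = j' * y → ∃ l : NU σ, detGU hσ2 hq 2 y = l * l := by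
      intro y h1 h2'
      obtain ⟨a, ha⟩ := scal h2 (det1 hj) (det1 hj') (sqz hjj) (valz hjc) (val h1) (val h2')
      obtain ⟨l, hl, hla⟩ := det_scalar ha
      have hlN : l ∈ NU σ := by
        rw [mem_NU, hla]
        have h3 := (gu_iff hσ2 hq y.1).1 y.2
        rw [ha] at h3
        have h4 := congrFun (congrFun h3 0) 0
        simpa [Matrix.mul_apply, Fin.sum_univ_two] using h4
      exact ⟨⟨l, hlN⟩, δe hl⟩
    have hji : j' * j = Z * (j * j') := by rw [hjc, ← mul_assoc, hz2, one_mul]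
    rcases hxj with h1 | h1 <;> rcases hxj' with h3 | h3
    · exact fin x h1 h3
    · obtain ⟨l, hl⟩ := fin (x * j) (by rw [mul_assoc, ← mul_assoc j x j, ← h1, mul_assoc]) (by
        calc x * j * j' = x * (j * j') := mul_assoc _ _ _
          _ = x * (Z * (j' * j)) := by rw [hjc]
          _ = Z * (x * j') * j := by rw [← mul_assoc x, ← hzc x]; group
          _ = Z * (Z * (j' * x)) * j := by rw [h3]
          _ = (Z * Z) * (j' * (x * j)) := by group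
          _ = j' * (x * j) := by rw [hz2, one_mul])
      exact ⟨l, by rw [← hl, map_mul, hj, mul_one]⟩
    · obtain ⟨l, hl⟩ := fin (x * j') (by
        calc x * j' * j = x * (j' * j) := mul_assoc _ _ _
          _ = x * (Z * (j * j')) := by rw [hji]
          _ = Z * (x * j) * j' := by rw [← mul_assoc x, ← hzc x]; group
          _ = Z * (Z * (j * x)) * j' := by rw [h1]
          _ = (Z * Z) * (j * (x * j')) := by group
          _ = j * (x * j') := by rw [hz2, one_mul]) (by rw [mul_assoc, ← mul_assoc j' x j', ← h3, mul_assoc])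
      exact ⟨l, by rw [← hl, map_mul, hj', mul_one]⟩
    · obtain ⟨l, hl⟩ := fin (x * (j * j')) (by
        calc x * (j * j') * j = x * j * (j' * j) := by group
          _ = (Z * (j * x)) * (Z * (j * j')) := by rw [h1, hji]
          _ = (Z * (j * x * Z)) * (j * j') := by group
          _ = (Z * (Z * (j * x))) * (j * j') := by rw [← hzc (j * x)]
          _ = (Z * Z) * (j * (x * (j * j'))) := by group
          _ = j * (x * (j * j')) := by rw [hz2, one_mul]) (by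
        calc x * (j * j') * j' = x * (Z * (j' * j)) * j' := by rw [hjc]
          _ = Z * (x * j') * (j * j') := by rw [← mul_assoc x, ← hzc x]; group
          _ = Z * (Z * (j' * x)) * (j * j') := by rw [h3]
          _ = (Z * Z) * (j' * (x * (j * j'))) := by group
          _ = j' * (x * (j * j')) := by rw [hz2, one_mul])
      exact ⟨l, by rw [← hl, map_mul, map_mul, hj, hj', mul_one, mul_one]⟩
  · -- ab
    intro j a b hj hjj ha hb
    exact ext (comm_comm h2 (det1 hj) (sqz hjj) (val ha) (val hb))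
  · -- nsq
    obtain ⟨a, ha, hn⟩ := exists_nsq (A := NU σ) (by
      rw [card_NU hF hσ hq, Nat.even_iff]; omega)
    refine ⟨⟨dg a 1, dg_mem hσ2 hq a.2 h1N⟩, ⟨a, a.2, 1, h1N, Two.val ha, Two.one, Or.inl rfl⟩, fun l => ?_⟩
    intro h
    apply hn l
    rw [← h]
    symm
    apply δe
    show Matrix.GeneralLinearGroup.det (dg a.1 1) = a.1
    rw [det_dg, mul_one]
  · -- fus
    intro x hx
    obtain ⟨k, hk⟩ := hx
    set a := detGU hσ2 hq 2 x with ha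
    have haT : Two a := ⟨k, by rw [ha, ← map_pow, ← hk, pow_orderOf_eq_one, map_one]⟩
    have haT' := Two.val haT
    refine ⟨⟨dg a 1, dg_mem hσ2 hq a.2 h1N⟩, ⟨a, a.2, 1, h1N, haT', Two.one, Or.inl rfl⟩,
      ⟨dg a a.1⁻¹, dg_mem hσ2 hq a.2 ((NU σ).inv_mem a.2)⟩, ⟨a, a.2, a.1⁻¹, (NU σ).inv_mem a.2, haT', haT'.inv, Or.inl rfl⟩,
      ?_, ?_, QuotientGroup.mk ⟨rot, rot_mem hσ2 hq⟩, ?_⟩
    · apply δe
      show Matrix.GeneralLinearGroup.det (dg a.1 1) = a.1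
      rw [det_dg, mul_one]
    · apply δe
      show Matrix.GeneralLinearGroup.det (dg a.1 a.1⁻¹) = 1
      rw [det_dg, mul_inv_cancel]
    · rw [mul_inv_eq_iff_eq_mul, ioU_apply, ioU_apply, ← QuotientGroup.mk_mul, ← QuotientGroup.mk_mul]
      congr 1
      exact Subtype.ext (rot_conj a.1)

end Cfsg.Agent.H8.U3
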