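import Mathlib

set_option autoImplicit false

/-! Weight spaces of finite abelian groups acting on complex vector spaces. -/

namespace Cfsg.Agent.H8.Weights

variable {A : Type*} [AddCommGroup A] [Fintype A] {W : Type*} [AddCommGroup W] [Module ℂ W]

/-- weight space -/
def Wt (σ : A → Module.End ℂ W) (χ : AddChar A ℂ) : Submodule ℂ W where
  carrier := {w | ∀ a, σ a w = χ a • w}
  add_mem' := by
    intro x y hx hy a
    rw [map_add, hx a, hy a, smul_add]
  zero_mem' := by intro a; rw [map_zero, smul_zero]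
  smul_mem' := by
    intro c x hx a
    rw [map_smul, hx a, smul_comm]

theorem mem_Wt {σ : A → Module.End ℂ W} {χ : AddChar A ℂ} {w : W} : w ∈ Wt σ χ ↔ ∀ a, σ a w = χ a • w := Iff.rfl

/-- projection -/
noncomputable def Pr (σ : A → Module.End ℂ W) (χ : AddChar A ℂ) : Module.End ℂ W :=
  ((Fintype.card A : ℂ)⁻¹) • ∑ a, χ (-a) • σ a

theorem Pr_apply (σ : A → Module.End ℂ W) (χ : AddChar A ℂ) (w : W) :
    Pr σ χ w = ((Fintype.card A : ℂ)⁻¹) • ∑ a, χ (-a) • σ a w := by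
  unfold Pr
  rw [LinearMap.smul_apply, LinearMap.sum_apply]
  rfl

theorem Pr_mem {σ : A → Module.End ℂ W} (hσ : ∀ a b, σ (a + b) = σ a * σ b) (χ : AddChar A ℂ) (w : W) :
    Pr σ χ w ∈ Wt σ χ := by
  intro b
  rw [Pr_apply, map_smul, smul_comm (χ b)]
  congr 1
  rw [map_sum, Finset.smul_sum]
  rw [← Equiv.sum_comp (Equiv.addLeft b) (fun a => χ b • χ (-a) • σ a w)]
  apply Finset.sum_congr rfl
  intro a _
  rw [Equiv.coe_addLeft, map_smul, hσ, smul_smul, ← AddChar.map_add_eq_mul]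
  rw [show b + -(b + a) = -a by abel]
  rfl

theorem card_ne : (Fintype.card A : ℂ) ≠ 0 := Nat.cast_ne_zero.2 Fintype.card_ne_zero

theorem Pr_self {σ : A → Module.End ℂ W} {χ : AddChar A ℂ} {w : W} (hw : w ∈ Wt σ χ) : Pr σ χ w = w := by
  rw [Pr_apply]
  have : ∀ a, χ (-a) • σ a w = w := by
    intro a
    rw [hw a, smul_smul, ← AddChar.map_add_eq_mul, neg_add_cancel, AddChar.map_zero_eq_one, one_smul]
  rw [Finset.sum_congr rfl (fun a _ => this a), Finset.sum_const, Finset.card_univ, ← Nat.cast_smul_eq_nsmul ℂ, smul_smul,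
    inv_mul_cancel₀ card_ne, one_smul]

theorem Pr_ne {σ : A → Module.End ℂ W} {χ ψ : AddChar A ℂ} (h : χ ≠ ψ) {w : W} (hw : w ∈ Wt σ ψ) : Pr σ χ w = 0 := by
  classical
  rw [Pr_apply]
  have h1 : ∀ a, χ (-a) • σ a w = ((χ⁻¹ * ψ) a) • w := by
    intro a
    rw [hw a, smul_smul, AddChar.mul_apply, AddChar.inv_apply]
  rw [Finset.sum_congr rfl (fun a _ => h1 a), ← Finset.sum_smul]
  have h2 : ∑ a, (χ⁻¹ * ψ) a = 0 := by
    rw [AddChar.sum_eq_zero_iff_ne_zero]
    intro h0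
    apply h
    have h3 : χ⁻¹ * ψ = 1 := h0
    exact inv_mul_eq_one.1 h3
  rw [h2, zero_smul, smul_zero]

theorem sum_Pr {σ : A → Module.End ℂ W} (h0 : σ 0 = 1) : ∑ χ : AddChar A ℂ, Pr σ χ = 1 := by
  classical
  unfold Pr
  rw [← Finset.smul_sum, Finset.sum_comm]
  have h1 : ∀ a, ∑ χ : AddChar A ℂ, χ (-a) • σ a = (if a = 0 then (Fintype.card A : ℂ) else 0) • σ a := by
    intro a
    rw [← Finset.sum_smul, AddChar.sum_apply_eq_ite]
    simp
  rw [Finset.sum_congr rfl (fun a _ => h1 a)]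
  simp only [ite_smul, zero_smul, Finset.sum_ite_eq', Finset.mem_univ, if_true]
  rw [h0, smul_smul, inv_mul_cancel₀ card_ne, one_smul]

/-- Lower bound for the dimension. -/
theorem weight_bound [FiniteDimensional ℂ W] {σ : A → Module.End ℂ W} (hσ : ∀ a b, σ (a + b) = σ a * σ b)
    (X : Finset (AddChar A ℂ)) (d : ℕ) (h : ∀ χ ∈ X, d ≤ Module.finrank ℂ (Wt σ χ)) :
    X.card * d ≤ Module.finrank ℂ W := by
  classical
  let T : W →ₗ[ℂ] (∀ χ : X, Wt σ χ.1) := LinearMap.pi (fun χ => (Pr σ χ.1).codRestrict (Wt σ χ.1) (Pr_mem hσ χ.1))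
  have hT : Function.Surjective T := by
    intro f
    refine ⟨∑ χ : X, (f χ : W), ?_⟩
    ext χ
    show Pr σ χ.1 (∑ ψ : X, (f ψ : W)) = f χ
    rw [map_sum, Finset.sum_eq_single χ]
    · exact Pr_self (f χ).2
    · intro ψ _ hψ
      exact Pr_ne (fun h => hψ (Subtype.ext h).symm) (f ψ).2
    · intro h; exact absurd (Finset.mem_univ _) h
  have h1 := LinearMap.finrank_le_finrank_of_surjective hT
  rw [Module.finrank_pi_fintype] at h1
  refine le_trans ?_ h1
  calc X.card * d = ∑ _χ : X, d := by rw [Finset.sum_const, Finset.card_univ, Fintype.card_coe, smul_eq_mul]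
    _ ≤ _ := Finset.sum_le_sum (fun χ _ => h χ.1 χ.2)

end Cfsg.Agent.H8.Weights
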